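import Cfsg.Statements.S0200
import Cfsg.Agent.Lib.Helper1_Invol2
import Cfsg.Agent.Lib.Helper7_BaerSuzuki

set_option autoImplicit false
open Cfsg

namespace Cfsg.Agent.S0200

open Cfsg.Agent.Lib.Helper1_Invol Cfsg.Agent.Lib.Helper1_Invol2

/-- An involution lying in no normal 2-subgroup of a finite group inverts a nontrivial element of odd order (a consequence of the Baer–Suzuki Theorem). -/
theorem result {G : Type*} [Group G] [Finite G] (t : G) (ht : orderOf t = 2) (hO : ∀ N : Subgroup G, N.Normal → IsPGroup 2 N → t ∉ N) : ∃ h : G, h ≠ 1 ∧ Odd (orderOf h) ∧ t * h * t⁻¹ = h⁻¹ := by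
  haveI : Fact (Nat.Prime 2) := ⟨Nat.prime_two⟩
  let K : Set G := {y | ∃ g : G, y = g * t * g⁻¹}
  have hKinv : ∀ g : G, ∀ x ∈ K, g * x * g⁻¹ ∈ K := by
    rintro g x ⟨h, rfl⟩
    exact ⟨g * h, by group⟩
  have htK : t ∈ K := ⟨1, by simp⟩
  have hex : ∃ x ∈ K, ∃ y ∈ K, ¬ IsPGroup 2 (Subgroup.closure ({x, y} : Set G)) := by
    by_contra hcon
    push Not at hcon
    obtain ⟨h1, h2⟩ := Cfsg.Agent.Lib.Helper7_BaerSuzuki.baer_suzuki_set (p := 2) K hKinv hcon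
    exact hO _ h1 h2 (Subgroup.subset_closure htK)
  obtain ⟨x, ⟨g, rfl⟩, y, ⟨g', rfl⟩, hnp⟩ := hex
  have hx : orderOf (g * t * g⁻¹) = 2 := by rw [orderOf_conj]; exact ht
  have hy : orderOf (g' * t * g'⁻¹) = 2 := by rw [orderOf_conj]; exact ht
  set x := g * t * g⁻¹ with hxdef
  set y := g' * t * g'⁻¹ with hydef
  have hx2 := mul_self_of_order hx
  have hy2 := mul_self_of_order hy
  obtain ⟨a, m, hm, hn⟩ := Nat.exists_eq_two_pow_mul_odd (orderOf_pos (x * y)).ne'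
  -- h' = (xy)^(2^a)
  have ho : orderOf ((x * y) ^ 2 ^ a) = m := by
    rw [orderOf_pow_of_dvd (by positivity) ⟨m, hn⟩, hn]
    exact Nat.mul_div_cancel_left _ (by positivity)
  have hm1 : (x * y) ^ 2 ^ a ≠ 1 := by
    intro h
    exact hnp (isPGroup_closure_pair hx2 hy2 h)
  have hinv : x * (x * y) ^ 2 ^ a * x⁻¹ = ((x * y) ^ 2 ^ a)⁻¹ := by
    have := x_conj_zpow hx2 hy2 ((2 ^ a : ℕ) : ℤ)
    rw [zpow_neg, zpow_natCast] at this
    rw [inv_of_mul_self hx2, this]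
  set h' := (x * y) ^ 2 ^ a with hh'
  refine ⟨g⁻¹ * h' * g, ?_, ?_, ?_⟩
  · intro h
    apply hm1
    have : h' = g * (g⁻¹ * h' * g) * g⁻¹ := by group
    rw [this, h]; group
  · have : orderOf (g⁻¹ * h' * g) = orderOf h' := by
      have := orderOf_conj g⁻¹ h'
      rwa [inv_inv] at this
    rw [this, ho]; exact hm
  · have h1 : t = g⁻¹ * x * g := by rw [hxdef]; group
    calc t * (g⁻¹ * h' * g) * t⁻¹ = g⁻¹ * (x * h' * x⁻¹) * g := by rw [h1]; group
      _ = (g⁻¹ * h' * g)⁻¹ := by rw [hinv]; group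

end Cfsg.Agent.S0200
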