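import Cfsg.Statements.S0041
import Cfsg.Agent.Lib.Helper1_FrobAct
import Cfsg.Agent.S0058

set_option autoImplicit false
open Cfsg

namespace Cfsg.Agent.S0041

open Subgroup Cfsg.Agent.Lib.Helper1_FrobAct

theorem orderOf_of_mem_zpowers {A : Type*} [Group A] {c x : A} {p : ℕ} (hp : p.Prime)
    (hc : orderOf c = p) (hx : x ∈ zpowers c) (hx1 : x ≠ 1) : orderOf x = p := by
  have h1 : orderOf x ∣ p := by
    rw [← hc]
    exact orderOf_dvd_of_mem_zpowers hx
  rcases (Nat.dvd_prime hp).mp h1 with h | h
  · exact absurd (orderOf_eq_one_iff.mp h) hx1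
  · exact h

/-- A group acting on a nontrivial abelian group so that no nonidentity element has a nonidentity fixed point is cyclic, provided it is abelian or its order is a product of two (possibly equal) primes. -/
theorem result {G : Type*} [Group G] [Finite G] (A V : Subgroup G) [IsMulCommutative V]
    (hV : V ≠ ⊥) (hAV : A ≤ Subgroup.normalizer (V : Set G)) (hfpf : ∀ a ∈ A, a ≠ 1 → V ⊓ Subgroup.centralizer {a} = ⊥)
    (hA : IsMulCommutative A ∨ ∃ p q : ℕ, p.Prime ∧ q.Prime ∧ Nat.card A = p * q) : IsCyclic A := by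
  classical
  have hab : IsMulCommutative A → IsCyclic A := by
    intro hc
    by_contra hnc
    have hcop := coprime_of_fpf A V hAV hfpf
    have h58 := Cfsg.Agent.S0058.result A V hnc hAV hcop
    apply hV
    rw [← h58]
    simp only [iSup_eq_bot]
    intro a ha
    exact hfpf a ha.1 ha.2
  have main : ∀ p q : ℕ, p.Prime → q.Prime → p < q → Nat.card A = p * q → IsCyclic A := by
    intro p q hp hq hlt hcard
    haveI : Fact p.Prime := ⟨hp⟩
    haveI : Fact q.Prime := ⟨hq⟩
    obtain ⟨y, hy⟩ := exists_prime_orderOf_dvd_card' (G := A) q (hcard ▸ Dvd.intro_left p rfl)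
    obtain ⟨c, hc⟩ := exists_prime_orderOf_dvd_card' (G := A) p (hcard ▸ Dvd.intro q rfl)
    set K : Subgroup A := zpowers y with hKdef
    set C : Subgroup A := zpowers c with hCdef
    have hKcard : Nat.card K = q := by rw [hKdef, Nat.card_zpowers, hy]
    have hKidx : K.index = p := by
      have h1 := K.card_mul_index
      rw [hKcard, hcard, mul_comm] at h1
      exact Nat.eq_of_mul_eq_mul_right hq.pos h1
    have hmin : (Nat.card A).minFac = p := by
      rw [hcard]
      have h1 : (p * q).minFac ∣ p * q := Nat.minFac_dvd _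
      have h2 : (p * q).minFac.Prime := Nat.minFac_prime (by
        have := hp.two_le; have := hq.two_le; nlinarith)
      have h3 : (p * q).minFac ≤ p := Nat.minFac_le_of_dvd hp.two_le (Dvd.intro q rfl)
      rcases (Nat.Prime.dvd_mul h2).mp h1 with h | h
      · exact (Nat.prime_dvd_prime_iff_eq h2 hp).mp h
      · have := (Nat.prime_dvd_prime_iff_eq h2 hq).mp h
        omega
    haveI hKn : K.Normal := normal_of_index_eq_minFac_card (by rw [hKidx, hmin])
    have hy1 : y ≠ 1 := by
      intro h; rw [h, orderOf_one] at hy; exact hq.one_lt.ne hy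
    have hc1 : c ≠ 1 := by
      intro h; rw [h, orderOf_one] at hc; exact hp.one_lt.ne hc
    have hK : K ≠ ⊥ := by
      intro h
      have : y ∈ K := mem_zpowers y
      rw [h, mem_bot] at this
      exact hy1 this
    have hC : C ≠ ⊥ := by
      intro h
      have : c ∈ C := mem_zpowers c
      rw [h, mem_bot] at this
      exact hc1 this
    by_cases hex : ∃ c' ∈ C, c' ≠ 1 ∧ ∃ k ∈ K, k ≠ 1 ∧ k * c' = c' * k
    · obtain ⟨c', hc'C, hc'1, k, hkK, hk1, hcomm⟩ := hex
      have ho1 : orderOf c' = p := orderOf_of_mem_zpowers hp hc hc'C hc'1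
      have ho2 : orderOf k = q := orderOf_of_mem_zpowers hq hy hkK hk1
      have hco : (orderOf k).Coprime (orderOf c') := by
        rw [ho1, ho2]
        exact (Nat.coprime_primes hq hp).mpr hlt.ne'
      have h1 := Commute.orderOf_mul_eq_mul_orderOf_of_coprime (show Commute k c' from hcomm) hco
      apply isCyclic_of_orderOf_eq_card (k * c')
      rw [h1, ho1, ho2, hcard, mul_comm]
    · exfalso
      apply hV
      apply eq_bot_of_frob_act A V hAV hfpf K C hK hC
      intro c' hc'C hc'1 k hkK hcomm
      by_contra hk1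
      exact hex ⟨c', hc'C, hc'1, k, hkK, hk1, hcomm⟩
  rcases hA with hA | ⟨p, q, hp, hq, hcard⟩
  · exact hab hA
  · rcases lt_trichotomy p q with h | h | h
    · exact main p q hp hq h hcard
    · subst h
      haveI : Fact p.Prime := ⟨hp⟩
      exact hab (IsPGroup.isMulCommutative_of_card_eq_prime_sq (p := p) (by rw [hcard, sq]))
    · exact main q p hq hp h (by rw [hcard, mul_comm])

end Cfsg.Agent.S0041
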