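import Cfsg.Statements.S0039
import Cfsg.Agent.Lib.Helper1_Frob

set_option autoImplicit false
open Cfsg

namespace Cfsg.Agent.S0039

open Subgroup Cfsg.Agent.Lib.Helper1_Basic Cfsg.Agent.Lib.Helper1_Frob
open scoped Pointwise

theorem exists_mul {G : Type*} [Group G] {K H : Subgroup G} (hc : Subgroup.IsComplement' K H)
    (g : G) : ∃ k ∈ K, ∃ h ∈ H, g = k * h := by
  obtain ⟨⟨k, h⟩, hkh, -⟩ := hc.existsUnique g
  exact ⟨k.1, k.2, h.1, h.2, hkh.symm⟩

theorem frob_of_fpf {G : Type*} [Group G] (K H : Subgroup G) [K.Normal]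
    (hc : Subgroup.IsComplement' K H) (hK : K ≠ ⊥) (hH : H ≠ ⊥)
    (hfpf : ∀ h ∈ H, h ≠ 1 → K ⊓ Subgroup.centralizer {h} = ⊥) : Cfsg.IsFrobeniusComplement H := by
  have hdisj : K ⊓ H = ⊥ := hc.isCompl.inf_eq_bot
  refine ⟨hH, ?_, ?_⟩
  · rintro rfl
    exact hK (by simpa using hdisj)
  · intro g hg
    obtain ⟨k, hk, h', hh', rfl⟩ := exists_mul hc g
    have hk1 : k ≠ 1 := by
      rintro rfl
      exact hg (by simpa using hh')
    have e : MulAut.conj (k * h') • H = MulAut.conj k • H := by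
      rw [map_mul, mul_smul, conj_smul_eq_self_of_mem hh']
    rw [e, eq_bot_iff]
    rintro x ⟨hx1, hx2⟩
    have hx2' : x ∈ MulAut.conj k • H := hx2
    rw [mem_conj_smul] at hx2'
    rw [mem_bot]
    by_contra hx
    set y := k⁻¹ * x * k with hy
    have h1 : x * y⁻¹ ∈ K ⊓ H := by
      refine ⟨?_, H.mul_mem hx1 (H.inv_mem hx2')⟩
      have h2 : x * y⁻¹ = (x * k⁻¹ * x⁻¹) * k := by rw [hy]; group
      rw [h2]
      exact K.mul_mem (‹K.Normal›.conj_mem _ (K.inv_mem hk) x) hk
    rw [hdisj, mem_bot] at h1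
    have h3 : x = y := mul_inv_eq_one.mp h1
    have h4 : k ∈ K ⊓ Subgroup.centralizer {x} := by
      refine ⟨hk, ?_⟩
      show k ∈ centralizer {x}
      rw [mem_centralizer_singleton_iff]
      have : k * y = x * k := by rw [hy]; group
      rw [← this, ← h3]
    rw [hfpf x hx1 hx, mem_bot] at h4
    exact hk1 h4

/-- In a finite group that is a semidirect product of a normal subgroup K by a nontrivial subgroup H, H is a Frobenius complement exactly when each nonidentity element of H acts without nonidentity fixed points on K by conjugation. -/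
theorem result {G : Type*} [Group G] [Finite G] (K H : Subgroup G) [K.Normal]
    (hc : Subgroup.IsComplement' K H) (hK : K ≠ ⊥) (hH : H ≠ ⊥) :
    Cfsg.IsFrobeniusComplement H ↔ ∀ h ∈ H, h ≠ 1 → K ⊓ Subgroup.centralizer {h} = ⊥ := by
  have hdisj : K ⊓ H = ⊥ := hc.isCompl.inf_eq_bot
  constructor
  · intro hF h hh hh1
    rw [eq_bot_iff]
    rintro k ⟨hk, hkc⟩
    have hkc' : k ∈ centralizer {h} := hkc
    rw [mem_centralizer_singleton_iff] at hkc'
    rw [mem_bot]
    have hkH : k ∈ H := by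
      by_contra hkH
      have h1 := hF.2.2 k hkH
      have h2 : h ∈ H ⊓ MulAut.conj k • H := by
        refine ⟨hh, ?_⟩
        show h ∈ MulAut.conj k • H
        rw [mem_conj_smul]
        have : k⁻¹ * h * k = h := by rw [mul_assoc, ← hkc']; group
        rw [this]; exact hh
      rw [h1, mem_bot] at h2
      exact hh1 h2
    have : k ∈ K ⊓ H := ⟨hk, hkH⟩
    rwa [hdisj, mem_bot] at this
  · exact frob_of_fpf K H hc hK hH

end Cfsg.Agent.S0039
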