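import Cfsg.Statements.S0003
import Cfsg.Agent.Lib.Helper1_SZ
import Cfsg.Agent.Lib.Helper1_MinNormal

set_option autoImplicit false
open Pointwise
open Cfsg

namespace Cfsg.Agent.S0003

open Subgroup Cfsg.Agent.Lib.Helper1_Basic Cfsg.Agent.Lib.Helper1_SZ Cfsg.Agent.Lib.Helper1_MinNormal

universe u

theorem aux (N : ℕ) : ∀ (G : Type u) [Group G] [Finite G] [Group.IsSolvable G], Nat.card G = N →
    ∀ m n : ℕ, Nat.card G = m * n → m.Coprime n → ∃ H : Subgroup G, Nat.card H = m := by
  induction N using Nat.strong_induction_on with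
  | _ N ih =>
  intro G _ _ _ hN m n hG hmn
  subst hN
  rcases subsingleton_or_nontrivial G with hsub | hnt
  · refine ⟨⊥, ?_⟩
    have h1 : Nat.card G = 1 := Nat.card_of_subsingleton 1
    rw [h1] at hG
    rw [card_bot]
    exact (Nat.eq_one_of_mul_eq_one_right hG.symm).symm
  obtain ⟨p, M, hp, hMn, hMbot, hMab, hMpow, -⟩ := exists_normal_elementary_abelian (G := G)
  have hMp : IsPGroup p M := isPGroup_of_pow_eq_one hMpow
  have hlt := Cfsg.Agent.S0001.card_quotient_lt M hMbot
  have hcpos : 0 < Nat.card M := Nat.card_pos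
  have hidx : Nat.card M * Nat.card (G ⧸ M) = m * n := by
    rw [← index_eq_card, card_mul_index, hG]
  rcases card_dvd_or hG hmn hp hMp with ⟨m', hm'⟩ | ⟨n', hn'⟩
  · have h1 : Nat.card (G ⧸ M) = m' * n := by
      rw [hm', mul_assoc] at hidx
      exact Nat.eq_of_mul_eq_mul_left hcpos hidx
    have h2 : m'.Coprime n := Nat.Coprime.coprime_dvd_left ⟨_, by rw [hm', mul_comm]⟩ hmn
    obtain ⟨H', hH'⟩ := ih _ hlt (G ⧸ M) rfl m' n h1 h2
    exact ⟨H'.comap (QuotientGroup.mk' M), by rw [card_comap_mk', hH', hm', mul_comm]⟩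
  · have h1 : Nat.card (G ⧸ M) = m * n' := by
      rw [hn', mul_left_comm] at hidx
      exact Nat.eq_of_mul_eq_mul_left hcpos hidx
    have h2 : m.Coprime n' := Nat.Coprime.coprime_dvd_right ⟨_, by rw [hn', mul_comm]⟩ hmn
    obtain ⟨L', hL'⟩ := ih _ hlt (G ⧸ M) rfl m n' h1 h2
    set L := L'.comap (QuotientGroup.mk' M) with hL
    have hML : M ≤ L := by
      conv_lhs => rw [← QuotientGroup.ker_mk' M]
      exact ker_le_comap _ _
    have hLcard : Nat.card L = m * Nat.card M := by rw [hL, card_comap_mk', hL']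
    have hrel : M.relIndex L = m := by
      have := card_mul_relIndex hML
      rw [hLcard, mul_comm m] at this
      exact Nat.eq_of_mul_eq_mul_left hcpos this
    obtain ⟨H, -, hH⟩ := SZ_rel_exists hML le_normalizer_of_normal
      (by rw [hrel]; exact (Nat.Coprime.coprime_dvd_right ⟨_, hn'⟩ hmn).symm)
    exact ⟨H, by rw [hH, hrel]⟩

/-- Hall's Theorem, existence: a finite solvable group of order m * n with m and n coprime has a subgroup of order m. -/
theorem result {G : Type*} [Group G] [Finite G] [Group.IsSolvable G] (m n : ℕ)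
    (hG : Nat.card G = m * n) (hmn : m.Coprime n) : ∃ H : Subgroup G, Nat.card H = m :=
  aux _ G rfl m n hG hmn

end Cfsg.Agent.S0003
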