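import Cfsg.Statements.S0005
import Cfsg.Agent.Lib.Helper1_SZ
import Cfsg.Agent.Lib.Helper1_MinNormal

set_option autoImplicit false
open Pointwise
open Cfsg

namespace Cfsg.Agent.S0005

open Subgroup Cfsg.Agent.Lib.Helper1_Basic Cfsg.Agent.Lib.Helper1_SZ Cfsg.Agent.Lib.Helper1_MinNormal

universe u

theorem aux (N : ℕ) : ∀ (G : Type u) [Group G] [Finite G] [Group.IsSolvable G], Nat.card G = N →
    ∀ m n : ℕ, Nat.card G = m * n → m.Coprime n → ∀ K : Subgroup G, (Nat.card K).Coprime n →
      ∃ H : Subgroup G, Nat.card H = m ∧ K ≤ H := by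
  induction N using Nat.strong_induction_on with
  | _ N ih =>
  intro G _ _ _ hN m n hG hmn K hK
  subst hN
  rcases subsingleton_or_nontrivial G with hsub | hnt
  · refine ⟨⊥, ?_, (Subsingleton.elim _ _).le⟩
    have h1 : Nat.card G = 1 := Nat.card_of_subsingleton 1
    rw [h1] at hG
    rw [card_bot]
    exact (Nat.eq_one_of_mul_eq_one_right hG.symm).symm
  obtain ⟨p, M, hp, hMn, hMbot, hMab, hMpow, -⟩ := exists_normal_elementary_abelian (G := G)
  have hMp : IsPGroup p M := isPGroup_of_pow_eq_one hMpow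
  have hlt := Cfsg.Agent.S0001.card_quotient_lt M hMbot
  have hcpos : 0 < Nat.card M := Nat.card_pos
  have hidx : Nat.card M * Nat.card (G ⧸ M) = m * n := by
    rw [← index_eq_card, card_mul_index, hG]
  set f := QuotientGroup.mk' M with hf
  have hker : f.ker = M := QuotientGroup.ker_mk' M
  have hfs : Function.Surjective f := QuotientGroup.mk'_surjective M
  rcases card_dvd_or hG hmn hp hMp with ⟨m', hm'⟩ | ⟨n', hn'⟩
  · have h1 : Nat.card (G ⧸ M) = m' * n := by
      rw [hm', mul_assoc] at hidx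
      exact Nat.eq_of_mul_eq_mul_left hcpos hidx
    have h2 : m'.Coprime n := Nat.Coprime.coprime_dvd_left ⟨_, by rw [hm', mul_comm]⟩ hmn
    obtain ⟨H', hH', hKH'⟩ := ih _ hlt (G ⧸ M) rfl m' n h1 h2 (K.map f)
      (Nat.Coprime.coprime_dvd_left (card_map_dvd K f) hK)
    exact ⟨H'.comap f, by rw [hf, card_comap_mk', hH', hm', mul_comm], map_le_iff_le_comap.mp hKH'⟩
  · have h1 : Nat.card (G ⧸ M) = m * n' := by
      rw [hn', mul_left_comm] at hidx
      exact Nat.eq_of_mul_eq_mul_left hcpos hidx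
    have h2 : m.Coprime n' := Nat.Coprime.coprime_dvd_right ⟨_, by rw [hn', mul_comm]⟩ hmn
    have hMm : m.Coprime (Nat.card M) := Nat.Coprime.coprime_dvd_right ⟨_, hn'⟩ hmn
    obtain ⟨L', hL', hKL'⟩ := ih _ hlt (G ⧸ M) rfl m n' h1 h2 (K.map f)
      (Nat.Coprime.coprime_dvd_left (card_map_dvd K f)
        (Nat.Coprime.coprime_dvd_right ⟨_, by rw [hn', mul_comm]⟩ hK))
    set L := L'.comap f with hL
    have hKL : K ≤ L := map_le_iff_le_comap.mp hKL'
    have hML : M ≤ L := by
      conv_lhs => rw [← hker]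
      exact ker_le_comap _ _
    have hLcard : Nat.card L = m * Nat.card M := by rw [hL, hf, card_comap_mk', hL']
    have hrel : M.relIndex L = m := by
      have := card_mul_relIndex hML
      rw [hLcard, mul_comm m] at this
      exact Nat.eq_of_mul_eq_mul_left hcpos this
    obtain ⟨H₀, hH₀L, hH₀⟩ := SZ_rel_exists hML le_normalizer_of_normal
      (by rw [hrel]; exact hMm.symm)
    rw [hrel] at hH₀
    have hdisj₀ : Disjoint H₀ M := disjoint_of_coprime_natCard (hH₀ ▸ hMm)
    have hsup : H₀ ⊔ M = L := by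
      apply eq_of_le_of_card_ge (sup_le hH₀L hML)
      rw [card_sup_normal, relIndex_eq_card_of_disjoint hdisj₀, hH₀, hLcard, mul_comm]
    have hKM : (Nat.card K).Coprime (Nat.card M) := Nat.Coprime.coprime_dvd_right ⟨_, hn'⟩ hK
    have hdisjK : Disjoint K M := disjoint_of_coprime_natCard hKM
    have hrelT : M.relIndex (K ⊔ M) = Nat.card K := relIndex_sup_eq_card_of_disjoint hdisjK
    have hcardX : Nat.card (H₀ ⊓ (K ⊔ M) : Subgroup G) = M.relIndex (K ⊔ M) :=
      dedekind_card' hdisj₀ le_sup_right (hsup ▸ sup_le hKL hML)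
    obtain ⟨x, -, hx⟩ := SZ_rel_conj (N := M) (L := K ⊔ M) (X := H₀ ⊓ (K ⊔ M)) (Y := K)
      le_sup_right le_normalizer_of_normal (by rw [hrelT]; exact hKM.symm) (Or.inl inferInstance)
      inf_le_right le_sup_left hcardX hrelT.symm
    refine ⟨MulAut.conj x • H₀, by rw [card_conj_smul, hH₀], ?_⟩
    rw [← hx]
    exact pointwise_smul_le_pointwise_smul_iff.mpr inf_le_left

/-- Hall's Theorem, containment: in a finite solvable group of order m * n with m and n coprime, every subgroup of order coprime to n is contained in a subgroup of order m. -/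
theorem result {G : Type*} [Group G] [Finite G] [Group.IsSolvable G] (m n : ℕ)
    (hG : Nat.card G = m * n) (hmn : m.Coprime n) (K : Subgroup G) (hK : (Nat.card K).Coprime n) :
    ∃ H : Subgroup G, Nat.card H = m ∧ K ≤ H :=
  aux _ G rfl m n hG hmn K hK

end Cfsg.Agent.S0005
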