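import Cfsg.Statements.S0539

import Cfsg.Agent.Lib.Helper7_Subnormal
import Cfsg.Agent.Lib.Helper1_CoprimeSylow
set_option autoImplicit false
open Pointwise
open Cfsg

namespace Cfsg.Agent.S0539


open Pointwise
open Cfsg.Agent.Lib.Helper7_Subnormal Cfsg.Agent.Lib.Helper1_CoprimeSylow Cfsg.Agent.Lib.Helper1_Basic

theorem exists_conj_aux {G : Type*} [Group G] {K : Subgroup G} (hK : K.IsSubnormal) :
    ∀ H : Subgroup G, H ≤ K → K ≤ Subgroup.normalizer (H : Set G) → ¬ H.Normal →
      ∃ g : G, MulAut.conj g • H ≠ H ∧ MulAut.conj g • H ≤ Subgroup.normalizer (H : Set G) := by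
  induction hK with
  | top =>
    intro H _ h1 h2
    exact absurd (Subgroup.normalizer_eq_top_iff.mp (top_le_iff.mp h1)) h2
  | step K L hle hL hN ih =>
    intro H hHK hKN hHn
    by_cases h : L ≤ Subgroup.normalizer (H : Set G)
    · exact ih H (hHK.trans hle) h hHn
    · obtain ⟨g, hgL, hgN⟩ := SetLike.not_le_iff_exists.mp h
      refine ⟨g, fun heq => hgN (conj_smul_eq_self_iff.mp heq), ?_⟩
      rw [Subgroup.normal_subgroupOf_iff_le_normalizer hle] at hN
      have h1 : MulAut.conj g • K = K := conj_smul_eq_self_iff.mpr (hN hgL)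
      calc MulAut.conj g • H ≤ MulAut.conj g • K :=
            Subgroup.pointwise_smul_le_pointwise_smul_iff.mpr hHK
        _ = K := h1
        _ ≤ _ := hKN

theorem exists_conj {G : Type*} [Group G] {H : Subgroup G} (hH : H.IsSubnormal)
    (hn : ¬ H.Normal) :
    ∃ g : G, MulAut.conj g • H ≠ H ∧ MulAut.conj g • H ≤ Subgroup.normalizer (H : Set G) := by
  cases hH with
  | top => exact absurd (inferInstance : (⊤ : Subgroup G).Normal) hn
  | step _ K hle hK hN =>
    rw [Subgroup.normal_subgroupOf_iff_le_normalizer hle] at hN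
    exact exists_conj_aux hK H hle hN hn

/-- Let S be a family of subnormal subgroups of a finite group that is closed under conjugation, and S₀ a proper subfamily. Then some member of S not in S₀ normalizes the join of S₀. -/
theorem result {G : Type*} [Group G] [Finite G] (S S₀ : Set (Subgroup G)) (hS : ∀ U ∈ S, U.IsSubnormal) (hconj : ∀ U ∈ S, ∀ g : G, MulAut.conj g • U ∈ S) (h₀ : S₀ ⊂ S) : ∃ X ∈ S, X ∉ S₀ ∧ X ≤ Subgroup.normalizer ((sSup S₀ : Subgroup G) : Set G) := by
  set H := sSup S₀ with hH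
  have hHs : H.IsSubnormal := isSubnormal_sSup S₀ (fun U hU => hS U (h₀.1 hU))
  obtain ⟨Y, hYS, hYS₀⟩ := Set.exists_of_ssubset h₀
  by_cases hn : H.Normal
  · refine ⟨Y, hYS, hYS₀, ?_⟩
    rw [Subgroup.normalizer_eq_top_iff.mpr hn]; exact le_top
  obtain ⟨g, hne, hle⟩ := exists_conj hHs hn
  have h1 : ¬ MulAut.conj g • H ≤ H := by
    intro h2
    apply hne
    apply Subgroup.eq_of_le_of_card_ge h2
    rw [card_conj_smul]
  have h2 : ∃ U ∈ S₀, ¬ MulAut.conj g • U ≤ H := by
    by_contra hcon
    push Not at hcon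
    apply h1
    intro x hx
    rw [mem_conj_smul] at hx
    have h3 : H ≤ MulAut.conj g⁻¹ • H := by
      rw [hH]
      apply sSup_le
      intro U hU
      intro y hy
      rw [mem_conj_smul]
      have h4 : g * y * g⁻¹ ∈ MulAut.conj g • U := by
        rw [mem_conj_smul]
        have : g⁻¹ * (g * y * g⁻¹) * g = y := by group
        rw [this]; exact hy
      have := hcon U hU h4
      simpa using this
    have h5 := h3 hx
    rw [mem_conj_smul] at h5
    have h6 : g⁻¹⁻¹ * (g⁻¹ * x * g) * g⁻¹ = x := by group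
    rw [h6] at h5
    exact h5
  obtain ⟨U, hU, hUH⟩ := h2
  refine ⟨MulAut.conj g • U, hconj U (h₀.1 hU) g, ?_, ?_⟩
  · intro h3
    exact hUH (le_sSup h3)
  · exact le_trans (Subgroup.pointwise_smul_le_pointwise_smul_iff.mpr (le_sSup hU)) hle

end Cfsg.Agent.S0539
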