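import Cfsg.Statements.S0066

import Cfsg.Agent.S0539
import Cfsg.Agent.Lib.Helper7_Idx
set_option autoImplicit false
open Pointwise
open Cfsg

namespace Cfsg.Agent.S0066

open Pointwise Cfsg.Agent.Lib.Helper4_Syl Cfsg.Agent.Lib.Helper7_Idx Cfsg.Agent.Lib.Helper7_Subnormal

universe u

/-- transport of relative subnormality from `G` to a subgroup -/
theorem sn_of_map {G : Type*} [Group G] {H : Subgroup G} (X Y : Subgroup H)
    (h : ((X.map H.subtype).subgroupOf (Y.map H.subtype)).IsSubnormal) :
    (X.subgroupOf Y).IsSubnormal := by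
  have h1 := h.comap (Y.equivMapOfInjective H.subtype H.subtype_injective).toMonoidHom
  have h2 : ((X.map H.subtype).subgroupOf (Y.map H.subtype)).comap
      (Y.equivMapOfInjective H.subtype H.subtype_injective).toMonoidHom = X.subgroupOf Y := by
    ext y
    simp only [Subgroup.mem_comap, Subgroup.mem_subgroupOf, MulEquiv.coe_toMonoidHom,
      Subgroup.coe_equivMapOfInjective_apply, Subgroup.mem_map, Subgroup.subtype_apply]
    constructor
    · rintro ⟨z, hz, hzy⟩
      have : z = (y : H) := Subtype.ext hzy
      rw [← this]; exact hz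
    · intro hy
      exact ⟨_, hy, rfl⟩
  rw [← h2]; exact h1

theorem sn_conj {G : Type*} [Group G] {A B : Subgroup G} (h : (A.subgroupOf B).IsSubnormal) (g : G) :
    ((MulAut.conj g • A).subgroupOf (MulAut.conj g • B)).IsSubnormal := by
  have h1 := h.map (f := (Subgroup.equivSMul (MulAut.conj g) B).toMonoidHom)
    (Subgroup.equivSMul (MulAut.conj g) B).surjective
  have h2 : (A.subgroupOf B).map (Subgroup.equivSMul (MulAut.conj g) B).toMonoidHom =
      (MulAut.conj g • A).subgroupOf (MulAut.conj g • B) := by
    ext y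
    rw [Subgroup.mem_map_equiv, Subgroup.mem_subgroupOf, Subgroup.mem_subgroupOf, mem_conj_smul]
    have : (((Subgroup.equivSMul (MulAut.conj g) B).symm y : B) : G) = g⁻¹ * (y : G) * g := by
      obtain ⟨b, rfl⟩ := (Subgroup.equivSMul (MulAut.conj g) B).surjective y
      rw [MulEquiv.symm_apply_apply]
      have : (((Subgroup.equivSMul (MulAut.conj g) B) b : (MulAut.conj g • B : Subgroup G)) : G) =
        g * (b : G) * g⁻¹ := rfl
      rw [this]; group
    rw [this]
  rw [← h2]; exact h1

theorem sn_sup {G : Type u} [Group G] [Finite G] {A B C : Subgroup G} (hA : A ≤ C) (hB : B ≤ C)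
    (h1 : (A.subgroupOf C).IsSubnormal) (h2 : (B.subgroupOf C).IsSubnormal) :
    ((A ⊔ B).subgroupOf C).IsSubnormal := by
  rw [Subgroup.subgroupOf_sup hA hB]
  exact isSubnormal_sup h1 h2

theorem zipper {G : Type u} [Group G] [Finite G] : ∀ (n : ℕ) (S : Subgroup G), S.index = n →
    (∀ H : Subgroup G, S ≤ H → H ≠ ⊤ → (S.subgroupOf H).IsSubnormal) → ¬ S.IsSubnormal →
    ∀ M K : Subgroup G, IsCoatom M → IsCoatom K → S ≤ M → S ≤ K → M = K := by
  intro n
  induction n using Nat.strong_induction_on with
  | _ n ih =>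
  intro S hn hS hns
  have hnn : Subgroup.normalizer (S : Set G) ≠ ⊤ := fun h =>
    hns (Subgroup.normalizer_eq_top_iff.mp h).isSubnormal
  obtain ⟨M₀, hM₀, hNM₀⟩ := (eq_top_or_exists_le_coatom _).resolve_left hnn
  have key : ∀ K : Subgroup G, IsCoatom K → S ≤ K → K = M₀ := by
    intro K hK hSK
    by_cases hnorm : (S.subgroupOf K).Normal
    · have h1 : K ≤ M₀ := ((Subgroup.normal_subgroupOf_iff_le_normalizer hSK).mp hnorm).trans hNM₀
      exact (hK.le_iff.mp h1).resolve_left hM₀.1 |>.symm
    · obtain ⟨x, hx1, hx2⟩ := Cfsg.Agent.S0539.exists_conj (hS K hSK hK.1) hnorm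
      have e1 : (MulAut.conj x • S.subgroupOf K).map K.subtype = MulAut.conj (x : G) • S := by
        rw [map_subtype_conj_smul, Subgroup.map_subgroupOf_eq_of_le hSK]
      have hxK : MulAut.conj (x : G) • S ≤ K := e1 ▸ Subgroup.map_subtype_le _
      have hxne : MulAut.conj (x : G) • S ≠ S := by
        intro h
        apply hx1
        apply Subgroup.map_injective K.subtype_injective
        rw [e1, h, Subgroup.map_subgroupOf_eq_of_le hSK]
      have hxN : MulAut.conj (x : G) • S ≤ Subgroup.normalizer (S : Set G) := by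
        rw [← e1]
        rintro _ ⟨y, hy, rfl⟩
        have h1 := hx2 hy
        rw [Subgroup.mem_normalizer_iff] at h1 ⊢
        intro s
        constructor
        · intro hs
          exact (h1 ⟨s, hSK hs⟩).mp hs
        · intro hs
          have hsK : s ∈ K := by
            have := K.mul_mem (K.mul_mem (K.inv_mem y.2) (hSK hs)) y.2
            simpa [mul_assoc] using this
          exact (h1 ⟨s, hsK⟩).mpr hs
      set T := S ⊔ MulAut.conj (x : G) • S with hT
      have hST : S < T := by
        refine lt_of_le_of_ne le_sup_left ?_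
        intro h
        have h1 : MulAut.conj (x : G) • S ≤ S := (le_sup_right : _ ≤ T).trans h.symm.le
        exact hxne (Subgroup.eq_of_le_of_card_ge h1 (card_conj_smul _ S).ge)
      have hTN : T ≤ Subgroup.normalizer (S : Set G) := sup_le Subgroup.le_normalizer hxN
      have hTns : ¬ T.IsSubnormal := fun h =>
        hns (Subgroup.IsSubnormal.step S T hST.le h
          ((Subgroup.normal_subgroupOf_iff_le_normalizer hST.le).mpr hTN))
      have hThyp : ∀ H : Subgroup G, T ≤ H → H ≠ ⊤ → (T.subgroupOf H).IsSubnormal := by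
        intro H hTH hH
        have hSH : S ≤ H := le_sup_left.trans hTH
        have hxH : MulAut.conj (x : G) • S ≤ H := le_sup_right.trans hTH
        apply sn_sup hSH hxH (hS H hSH hH)
        have h1 : S ≤ MulAut.conj (x : G)⁻¹ • H := by
          have := Subgroup.pointwise_smul_le_pointwise_smul_iff (a := MulAut.conj (x : G)⁻¹) |>.mpr hxH
          rwa [conj_inv_smul_smul] at this
        have h2 : MulAut.conj (x : G)⁻¹ • H ≠ ⊤ := by
          intro h
          apply hH
          rw [← Subgroup.card_eq_iff_eq_top] at h ⊢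
          rw [← h, card_conj_smul]
        have h3 := sn_conj (hS _ h1 h2) (x : G)
        rwa [conj_smul_inv_smul] at h3
      have hlt : T.index < n := by
        rw [← hn]
        have h1 := Subgroup.relIndex_mul_index hST.le
        have h2 : S.relIndex T ≠ 1 := fun h => absurd (Subgroup.relIndex_eq_one.mp h) (not_le_of_gt hST)
        have h3 : S.relIndex T ≠ 0 := by
          intro h; rw [h, zero_mul] at h1; exact Subgroup.index_ne_zero_of_finite h1.symm
        have h4 : 0 < T.index := Nat.pos_of_ne_zero Subgroup.index_ne_zero_of_finite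
        nlinarith [Nat.two_le_iff (S.relIndex T) |>.mpr ⟨h3, h2⟩]
      exact ih T.index hlt T rfl hThyp hTns K M₀ hK hM₀ (sup_le hSK hxK) (hTN.trans hNM₀)
  intro M K hM hK hSM hSK
  rw [key M hM hSM, key K hK hSK]

theorem aux : ∀ (n : ℕ) (G : Type u) [Group G] [Finite G], Nat.card G = n → ∀ A : Subgroup G,
    (∀ g : G, (A.subgroupOf (A ⊔ MulAut.conj g • A)).IsSubnormal) → A.IsSubnormal := by
  intro n
  induction n using Nat.strong_induction_on with
  | _ n ih =>
  intro G _ _ hn A h
  by_contra hns
  have hprop : ∀ H : Subgroup G, A ≤ H → H ≠ ⊤ → (A.subgroupOf H).IsSubnormal := by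
    intro H hAH hH
    have hlt : Nat.card H < n := by
      rw [← hn]
      exact lt_of_le_of_ne (Subgroup.card_le_card_group H)
        (fun h => hH ((Subgroup.card_eq_iff_eq_top H).mp h))
    apply ih _ hlt H rfl
    intro g
    apply sn_of_map
    rw [Subgroup.map_sup, map_subtype_conj_smul, Subgroup.map_subgroupOf_eq_of_le hAH]
    exact h g
  have hAtop : A ≠ ⊤ := fun h => hns (h ▸ Subgroup.IsSubnormal.top)
  obtain ⟨M, hM, hAM⟩ := (eq_top_or_exists_le_coatom _).resolve_left hAtop
  have hconj : ∀ x : G, MulAut.conj x • A ≤ M := by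
    intro x
    by_cases hJ : A ⊔ MulAut.conj x • A = ⊤
    · exfalso
      have h1 := h x
      rw [hJ] at h1
      exact hns (Subgroup.IsSubnormal.trans le_top h1 Subgroup.IsSubnormal.top)
    · obtain ⟨K, hK, hJK⟩ := (eq_top_or_exists_le_coatom _).resolve_left hJ
      have := zipper _ A rfl hprop hns M K hM hK hAM (le_sup_left.trans hJK)
      rw [this]
      exact le_sup_right.trans hJK
  have hAN : A ≤ M.normalCore := by
    intro a ha b
    exact hconj b (conj_mem_conj_smul ha)
  have hNtop : M.normalCore ≠ ⊤ := fun h => hM.1 (top_le_iff.mp (h ▸ Subgroup.normalCore_le M))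
  exact hns (Subgroup.IsSubnormal.trans hAN (hprop _ hAN hNtop)
    (Subgroup.normalCore_normal M).isSubnormal)

/-- Wielandt's subnormality criterion: a subgroup that is subnormal in its join with each of its conjugates is subnormal in the whole finite group. -/
theorem result {G : Type*} [Group G] [Finite G] (A : Subgroup G)
    (h : ∀ g : G, (A.subgroupOf (A ⊔ MulAut.conj g • A)).IsSubnormal) : A.IsSubnormal := by
  exact aux _ G rfl A h

end Cfsg.Agent.S0066
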