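import Cfsg.Statements.S1946
import Cfsg.Agent.Lib.Helper4_Frobenius
import Cfsg.Agent.Lib.Helper4_Omega

set_option autoImplicit false
open Cfsg

namespace Cfsg.Agent.S1946

open Cfsg.Agent.Lib.Helper4_Frobenius Cfsg.Agent.Lib.Helper4_Omega Cfsg.Agent.Lib.Helper4_Chain
  Cfsg.Agent.Lib.Helper4_Syl Cfsg.Agent.Lib.Helper4_Control
open scoped commutatorElement

/-- Let P be a Sylow p-subgroup of the finite group G. Then G has a normal p-complement if and only if P controls the fusion of its elements of order dividing p (dividing 4 when p = 2): whenever such an element a of P has a G-conjugate g a g⁻¹ in P, that conjugate is already x a x⁻¹ for some x in P. -/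
theorem result {G : Type*} [Group G] [Finite G] {p : ℕ} [Fact p.Prime] (P : Sylow p G) :
    Cfsg.HasNormalPComplement p G ↔
      ∀ a ∈ (P : Subgroup G), (a ^ p = 1 ∨ (p = 2 ∧ a ^ 4 = 1)) → ∀ g : G, g * a * g⁻¹ ∈ (P : Subgroup G) →
        ∃ x ∈ (P : Subgroup G), g * a * g⁻¹ = x * a * x⁻¹ := by
  constructor
  · intro h a ha _ g hg
    have hF := frobHyp_of_pnil (pnil_iff_hasNormalPComplement.2 h)
    have h1 : Subgroup.zpowers a ≤ (P : Subgroup G) := by rwa [Subgroup.zpowers_le]
    have h2 : lc g (Subgroup.zpowers a) ≤ (P : Subgroup G) := by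
      intro x hx
      rw [mem_lc] at hx
      obtain ⟨k, hk⟩ := Subgroup.mem_zpowers_iff.1 hx
      have : x = (g * a * g⁻¹) ^ k := by
        rw [conj_zpow, hk]; group
      rw [this]
      exact Subgroup.zpow_mem _ hg k
    obtain ⟨x, hx, hag⟩ := frob_fusion hF P (Subgroup.zpowers a) g h1 h2
    exact ⟨x, hx, (hag a (Subgroup.mem_zpowers a)).symm⟩
  · intro h
    apply pnil_iff_hasNormalPComplement.1
    apply frobenius_pnil
    apply frobHyp_of_sylow P
    intro Q hQP g hgN hgc
    by_contra hgC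
    obtain ⟨R, hRQ, hRN, hRC, hR⟩ := exists_small_exponent (P.isPGroup'.to_le hQP) hgc hgN hgC
    apply hRC
    apply mem_centralizer_of_comm
    haveI : Group.IsNilpotent (P : Subgroup G) := P.isPGroup'.isNilpotent
    obtain ⟨n, hn⟩ := Group.IsNilpotent.nilpotent (P : Subgroup G)
    intro x hx
    refine centralizes_of_chain (P.isPGroup'.to_le (hRQ.trans hQP)) hgc
      (fun i => R ⊓ (Subgroup.upperCentralSeries (P : Subgroup G) i).map (P : Subgroup G).subtype) n
      (by simp) (fun i _ => inf_le_left) ?_ n le_rfl x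
      ⟨hx, ⟨⟨x, hQP (hRQ hx)⟩, by rw [hn]; exact Subgroup.mem_top _, rfl⟩⟩
    intro i _ x hx
    have hgx : g * x * g⁻¹ ∈ R := conj_mem_of_mem_normalizer hRN hx.1
    refine ⟨?_, ?_⟩
    · rw [commutatorElement_def]
      exact R.mul_mem hgx (R.inv_mem hx.1)
    · obtain ⟨u, hu, hux⟩ := h x (hQP (hRQ hx.1)) (hR x hx.1) g (hQP (hRQ hgx))
      obtain ⟨x', hx', hxx⟩ := hx.2
      have h1 := Subgroup.mem_upperCentralSeries_succ_iff.1 hx' ⟨u, hu⟩
      refine ⟨⁅x', ⟨u, hu⟩⁆⁻¹, Subgroup.inv_mem _ h1, ?_⟩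
      rw [commutatorElement_inv, commutatorElement_def, commutatorElement_def, hux]
      simp only [Subgroup.coe_subtype, Subgroup.coe_mul, Subgroup.coe_inv]
      rw [show (x' : G) = x from hxx]

end Cfsg.Agent.S1946
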