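import Cfsg.Statements.S0079
import Cfsg.Agent.S1946
import Cfsg.Agent.Lib.Helper7_Nilp

set_option autoImplicit false
open Cfsg

namespace Cfsg.Agent.S0079

open Cfsg.Agent.Lib.Helper7_Nilp

theorem exists_parts {X : Type*} [Group X] [Finite X] (r : ℕ) [hr : Fact r.Prime] (h : X) :
    ∃ u v : X, h = u * v ∧ (∃ k : ℕ, orderOf u = r ^ k) ∧ (orderOf v).Coprime r := by
  have hp : r.Prime := hr.out
  obtain ⟨a, n', hn', hcard⟩ := Nat.exists_eq_pow_mul_and_not_dvd (Nat.card_pos (α := X)).ne' r
    hp.ne_one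
  have hcop : IsCoprime ((r ^ a : ℕ) : ℤ) (n' : ℤ) := by
    rw [Nat.isCoprime_iff_coprime]
    exact Nat.Coprime.pow_left a ((Nat.Prime.coprime_iff_not_dvd hp).mpr hn')
  obtain ⟨u, v, huv⟩ := hcop
  set e : ℤ := v * n' with he
  refine ⟨h ^ e, h ^ (1 - e), by rw [← zpow_add]; simp, ?_, ?_⟩
  · have h1 : (h ^ e) ^ (r ^ a) = 1 := by
      rw [← zpow_natCast, ← zpow_mul]
      have : e * ((r ^ a : ℕ) : ℤ) = (Nat.card X : ℤ) * v := by
        rw [he, hcard]; push_cast; ring
      rw [this, zpow_mul, zpow_natCast, pow_card_eq_one', one_zpow]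
    obtain ⟨j, -, hj⟩ := (Nat.dvd_prime_pow hp).mp (orderOf_dvd_of_pow_eq_one h1)
    exact ⟨j, hj⟩
  · have h1 : (h ^ (1 - e)) ^ n' = 1 := by
      rw [← zpow_natCast, ← zpow_mul]
      have : (1 - e) * (n' : ℤ) = (Nat.card X : ℤ) * u := by
        have : 1 - e = u * ((r ^ a : ℕ) : ℤ) := by rw [he]; linarith
        rw [this, hcard]; push_cast; ring
      rw [this, zpow_mul, zpow_natCast, pow_card_eq_one', one_zpow]
    exact Nat.Coprime.coprime_dvd_left (orderOf_dvd_of_pow_eq_one h1)
      ((Nat.Prime.coprime_iff_not_dvd hp).mpr hn').symm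

/-- A nilpotent Hall subgroup has a normal complement exactly when elements of it that are conjugate in the whole group are already conjugate inside it. -/
theorem result {G : Type*} [Group G] [Finite G] (H : Subgroup G) (hH : Group.IsNilpotent H) (hHall : Nat.Coprime (Nat.card H) H.index) : (∃ N : Subgroup G, N.Normal ∧ N.IsComplement' H) ↔ ∀ x ∈ H, ∀ y ∈ H, (∃ g : G, g * x * g⁻¹ = y) → ∃ h ∈ H, h * x * h⁻¹ = y := by
  classical
  constructor
  · rintro ⟨N, hNn, hNc⟩ x hx y hy ⟨g, hg⟩
    obtain ⟨⟨⟨n, hn⟩, ⟨h, hh⟩⟩, hnh⟩ := hNc.2 g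
    have hnh' : n * h = g := hnh
    refine ⟨h, hh, ?_⟩
    set x' := h * x * h⁻¹ with hx'
    have hx'H : x' ∈ H := H.mul_mem (H.mul_mem hh hx) (H.inv_mem hh)
    have hy' : y = n * x' * n⁻¹ := by rw [← hg, ← hnh', hx']; group
    have h1 : y * x'⁻¹ ∈ N ⊓ H := by
      refine ⟨?_, H.mul_mem hy (H.inv_mem hx'H)⟩
      have : y * x'⁻¹ = n * (x' * n⁻¹ * x'⁻¹) := by rw [hy']; group
      rw [this]
      exact N.mul_mem hn (hNn.conj_mem _ (N.inv_mem hn) _)
    rw [hNc.disjoint.eq_bot, Subgroup.mem_bot] at h1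
    exact (mul_inv_eq_one.mp h1).symm
  · intro hfus
    set π := (Nat.card H).primeFactors with hπ
    have hstep : ∀ r ∈ π, ∃ K : Subgroup G, K.Normal ∧ ¬ r ∣ Nat.card K ∧
        (∃ a : ℕ, K.index = r ^ a) := by
      intro r hr
      have hrp : r.Prime := Nat.prime_of_mem_primeFactors hr
      have hrd : r ∣ Nat.card H := Nat.dvd_of_mem_primeFactors hr
      haveI : Fact r.Prime := ⟨hrp⟩
      obtain ⟨PH⟩ : Nonempty (Sylow r H) := inferInstance
      have hPHn : (PH : Subgroup H).Normal := inferInstance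
      have hri : ¬ r ∣ H.index := fun h =>
        hrp.one_lt.ne' (Nat.eq_one_of_dvd_coprimes hHall hrd h)
      have hcardP : Nat.card ((PH : Subgroup H).map H.subtype) =
          r ^ (Nat.card G).factorization r := by
        rw [Subgroup.card_map_of_injective H.subtype_injective, PH.card_eq_multiplicity,
          ← H.card_mul_index, Nat.factorization_mul Nat.card_pos.ne' Subgroup.index_ne_zero_of_finite,
          Finsupp.add_apply, Nat.factorization_eq_zero_of_not_dvd hri, add_zero]
      set P : Sylow r G := Sylow.ofCard _ hcardP with hP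
      have hPmem : ∀ z, z ∈ (P : Subgroup G) ↔ ∃ w ∈ (PH : Subgroup H), (w : G) = z := by
        intro z
        rw [hP, Sylow.coe_ofCard, Subgroup.mem_map]
        rfl
      have hcompl : Cfsg.HasNormalPComplement r G := by
        rw [Cfsg.Agent.S1946.result P]
        intro a ha _ g hg
        obtain ⟨a', ha', rfl⟩ := (hPmem a).mp ha
        obtain ⟨b', hb', hb⟩ := (hPmem _).mp hg
        obtain ⟨h, hh, hconj⟩ := hfus a' a'.2 b' b'.2 ⟨g, hb.symm⟩
        obtain ⟨u, v, huv, ⟨k, hu⟩, hv⟩ := exists_parts r (⟨h, hh⟩ : H)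
        have huP : u ∈ (PH : Subgroup H) := mem_sylow_of_orderOf_of_normal PH hPHn hu
        obtain ⟨j, hj⟩ := PH.isPGroup' ⟨a', ha'⟩
        have hj' : a' ^ r ^ j = 1 := by
          have := congrArg Subtype.val hj
          simpa using this
        have hcop : (orderOf v).Coprime (orderOf a') :=
          Nat.Coprime.coprime_dvd_right (orderOf_dvd_of_pow_eq_one hj') (Nat.Coprime.pow_right j hv)
        have hcomm : Commute v a' := commute_of_coprime_orderOf hcop
        refine ⟨(u : G), (hPmem _).mpr ⟨u, huP, rfl⟩, ?_⟩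
        rw [← hb, ← hconj]
        have e1 : h = (u : G) * (v : G) := by
          have := congrArg Subtype.val huv
          simpa using this
        have e2 : (v : G) * (a' : G) = (a' : G) * (v : G) := by
          have := congrArg Subtype.val hcomm.eq
          simpa using this
        rw [e1]
        calc (u : G) * v * a' * ((u : G) * v)⁻¹ = (u : G) * ((v : G) * a') * (v : G)⁻¹ * (u : G)⁻¹ := by
              group
          _ = (u : G) * a' * (u : G)⁻¹ := by rw [e2]; group
      obtain ⟨P', K, hKn, hKc⟩ := hcompl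
      refine ⟨K, hKn, ?_, ?_⟩
      · rw [← hKc.index_eq_card]
        exact P'.not_dvd_index
      · rw [hKc.symm.index_eq_card]
        exact (IsPGroup.iff_card).mp P'.isPGroup'
    choose! K hKn hKc hKi using hstep
    set N : Subgroup G := ⨅ r : π, K r.1 with hN
    have hNn : N.Normal := Subgroup.normal_iInf_normal (fun r => hKn r.1 r.2)
    have hNle : ∀ r ∈ π, N ≤ K r := fun r hr => iInf_le (fun r : π => K r.1) ⟨r, hr⟩
    have hN1 : ∀ r : ℕ, r.Prime → r ∣ Nat.card ↥N → r ∉ π := by
      intro r _ hrd hr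
      exact hKc r hr (hrd.trans (Subgroup.card_dvd_of_le (hNle r hr)))
    have hN2 : ∀ r : ℕ, r.Prime → r ∣ N.index → r ∈ π := by
      intro q hq hqd
      by_contra hqπ
      haveI : Fact q.Prime := ⟨hq⟩
      obtain ⟨Q⟩ : Nonempty (Sylow q G) := inferInstance
      have hQN : (Q : Subgroup G) ≤ N := by
        rw [hN]
        apply le_iInf
        rintro ⟨r, hr⟩
        haveI := hKn r hr
        rw [← Subgroup.relIndex_eq_one]
        obtain ⟨a, ha⟩ := hKi r hr
        obtain ⟨b, hb⟩ := (IsPGroup.iff_card).mp Q.isPGroup'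
        have h1 : (K r).relIndex (Q : Subgroup G) ∣ r ^ a := by
          rw [← ha]; exact Subgroup.relIndex_dvd_index_of_normal _ _
        have h2 : (K r).relIndex (Q : Subgroup G) ∣ q ^ b := by
          rw [← hb]; exact Subgroup.relIndex_dvd_card _ _
        have hne : r ≠ q := fun h => hqπ (h ▸ hr)
        have hcop : (r ^ a).Coprime (q ^ b) :=
          Nat.Coprime.pow a b ((Nat.coprime_primes (Nat.prime_of_mem_primeFactors hr) hq).mpr hne)
        exact Nat.eq_one_of_dvd_coprimes hcop h1 h2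
      exact Q.not_dvd_index (hqd.trans (Subgroup.index_dvd_of_le hQN))
    have hmemπ : ∀ r : ℕ, r.Prime → r ∣ Nat.card H → r ∈ π := fun r hr hrd =>
      Nat.mem_primeFactors.mpr ⟨hr, hrd, Nat.card_pos.ne'⟩
    have hc1 : (Nat.card N).Coprime (Nat.card H) :=
      Nat.coprime_of_dvd fun k hk1 hk2 hk3 => hN1 k hk1 hk2 (hmemπ k hk1 hk3)
    have hc2 : (H.index).Coprime (N.index) :=
      Nat.coprime_of_dvd fun k hk1 hk2 hk3 =>
        hk1.one_lt.ne' (Nat.eq_one_of_dvd_coprimes hHall
          (Nat.dvd_of_mem_primeFactors (hN2 k hk1 hk3)) hk2)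
    have heq : Nat.card N * N.index = Nat.card H * H.index := by
      rw [Subgroup.card_mul_index, Subgroup.card_mul_index]
    have hd1 : Nat.card N ∣ H.index :=
      hc1.dvd_of_dvd_mul_left (heq ▸ Dvd.intro _ rfl)
    have hd2 : H.index ∣ Nat.card N :=
      hc2.dvd_of_dvd_mul_right (heq.symm ▸ Dvd.intro_left _ rfl)
    have hcardN : Nat.card N = H.index := Nat.dvd_antisymm hd1 hd2
    refine ⟨N, hNn, Subgroup.isComplement'_of_coprime ?_ hc1⟩
    rw [hcardN, mul_comm, Subgroup.card_mul_index]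

end Cfsg.Agent.S0079
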