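import Mathlib
import Cfsg.Agent.S3225
import Cfsg.Agent.Lib.helper6_Sylow
import Cfsg.Statements.S0107

set_option autoImplicit false
open Cfsg

namespace Cfsg.Agent.S0107

/-- A finite group with no nontrivial 2-group quotient and dihedral Sylow 2-subgroups of order at least 8 has a single class of involutions. -/
theorem result {G : Type*} [Group G] [Finite G] (T : Sylow 2 G) (n : ℕ) (hn : 2 ≤ n) (hT : Nonempty ((T : Subgroup G) ≃* DihedralGroup (2 ^ n))) (hO : Cfsg.pResidual 2 G = ⊤) (x y : G) (hx : orderOf x = 2) (hy : orderOf y = 2) : ∃ g : G, g * x * g⁻¹ = y := by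
  classical
  have := Fact.mk Nat.prime_two
  obtain ⟨e⟩ := hT
  have hno : ∀ H : Subgroup G, H.index ≠ 2 := by
    intro H hH
    have hle : Cfsg.pResidual 2 G ≤ H := by
      unfold Cfsg.pResidual
      rw [Subgroup.closure_le]
      intro g hg
      have hodd : Odd (orderOf g) := (Nat.coprime_two_right).1 hg
      obtain ⟨k, hk⟩ := hodd
      have h1 : g = (g ^ 2) ^ (k + 1) := by
        rw [← pow_mul, show 2 * (k + 1) = orderOf g + 1 by omega, pow_succ, pow_orderOf_eq_one,
          one_mul]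
      show g ∈ H
      rw [h1]
      exact H.pow_mem (Subgroup.sq_mem_of_index_two hH g) _
    rw [hO, top_le_iff] at hle
    rw [hle, Subgroup.index_top] at hH
    omega
  have hev : Even (Nat.card G) := by
    rw [even_iff_two_dvd, ← hx]
    exact orderOf_dvd_natCard x
  obtain ⟨a, ha⟩ : ∃ a : G, a = (e.symm (DihedralGroup.r 1) : (T : Subgroup G)) := ⟨_, rfl⟩
  have haT : a ∈ (T : Subgroup G) := ha ▸ (e.symm (DihedralGroup.r 1)).2
  have hao : orderOf a = 2 ^ n := by
    rw [ha, Subgroup.orderOf_coe, e.symm.orderOf_eq, DihedralGroup.orderOf_r_one]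
  have hMT : Subgroup.zpowers a ≤ (T : Subgroup G) := by
    rw [Subgroup.zpowers_le]
    exact haT
  have hTcard : Nat.card (T : Subgroup G) = 2 * 2 ^ n := by
    rw [Nat.card_congr e.toEquiv, DihedralGroup.nat_card]
  have hM : (Subgroup.zpowers a).relIndex (T : Subgroup G) = 2 := by
    have h1 := ((Subgroup.zpowers a).subgroupOf (T : Subgroup G)).index_mul_card
    rw [hTcard, Nat.card_congr (Subgroup.subgroupOfEquivOfLe hMT).toEquiv, Nat.card_zpowers,
      hao] at h1
    exact Nat.eq_of_mul_eq_mul_right (by positivity) h1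
  obtain ⟨z, hz⟩ : ∃ z, z = a ^ (2 ^ (n - 1)) := ⟨_, rfl⟩
  have hz2 : z ^ 2 = 1 := by
    rw [hz, ← pow_mul, ← pow_succ, Nat.sub_add_cancel (by omega), ← hao, pow_orderOf_eq_one]
  have hcyc : ∀ i : ℕ, (a ^ i) ^ 2 = 1 → a ^ i = 1 ∨ a ^ i = z := by
    intro i hi
    rw [← pow_mul] at hi
    have h1 := orderOf_dvd_of_pow_eq_one hi
    rw [hao] at h1
    have h2 : 2 ^ (n - 1) ∣ i := by
      have : 2 ^ n = 2 ^ (n - 1) * 2 := by rw [← pow_succ, Nat.sub_add_cancel (by omega)]
      rw [this] at h1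
      exact Nat.dvd_of_mul_dvd_mul_right (by norm_num) h1
    obtain ⟨r, rfl⟩ := h2
    rw [pow_mul, ← hz]
    rcases Nat.even_or_odd r with ⟨t, rfl⟩ | ⟨t, rfl⟩
    · left; rw [← two_mul, pow_mul, hz2, one_pow]
    · right; rw [pow_succ, pow_mul, hz2, one_pow, one_mul]
  have key : ∀ u ∈ (T : Subgroup G), orderOf u = 2 → ∃ g : G, g * u * g⁻¹ = z := by
    intro u hu huo
    obtain ⟨g, hg⟩ := Cfsg.Agent.S3225.result hev hno T (Subgroup.zpowers a) hMT hM 1 le_rfl (by
      intro y hy hyM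
      have h1 : y ≠ 1 := by
        rintro rfl
        exact hyM (Subgroup.one_mem _)
      have h2 : orderOf y ≠ 1 := fun h => h1 (orderOf_eq_one_iff.1 h)
      have h3 := orderOf_pos y
      simp only [le_refl, tsub_eq_zero_of_le, pow_zero]
      omega) u hu (by rw [huo, pow_one])
    refine ⟨g, ?_⟩
    rw [← mem_powers_iff_mem_zpowers] at hg
    obtain ⟨i, hi⟩ := hg
    have hi' : a ^ i = g * u * g⁻¹ := hi
    have h1 : (a ^ i) ^ 2 = 1 := by
      rw [hi', conj_pow, ← huo, pow_orderOf_eq_one]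
      group
    rcases hcyc i h1 with h2 | h2
    · exfalso
      rw [hi'] at h2
      have h3 : u = 1 := by
        calc u = g⁻¹ * (g * u * g⁻¹) * g := by group
          _ = 1 := by rw [h2]; group
      rw [h3, orderOf_one] at huo
      omega
    · rw [← hi', h2]
  have key2 : ∀ u : G, orderOf u = 2 → ∃ g : G, g * u * g⁻¹ = z := by
    intro u huo
    have hup : IsPGroup 2 (Subgroup.zpowers u) :=
      IsPGroup.of_card (n := 1) (by rw [Nat.card_zpowers, huo, pow_one])
    obtain ⟨Q, hQ⟩ := hup.exists_le_sylow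
    obtain ⟨k, hk⟩ := Cfsg.Agent.Lib.helper6_Sylow.sylow_conj T Q
    have h1 := hk u (hQ (Subgroup.mem_zpowers u))
    have h2 : orderOf (k * u * k⁻¹) = 2 := by
      rw [← huo]
      exact (MulAut.conj k).orderOf_eq u
    obtain ⟨g, hg⟩ := key _ h1 h2
    refine ⟨g * k, ?_⟩
    rw [← hg]
    group
  obtain ⟨g1, hg1⟩ := key2 x hx
  obtain ⟨g2, hg2⟩ := key2 y hy
  refine ⟨g2⁻¹ * g1, ?_⟩
  calc g2⁻¹ * g1 * x * (g2⁻¹ * g1)⁻¹ = g2⁻¹ * (g1 * x * g1⁻¹) * g2 := by group
    _ = g2⁻¹ * (g2 * y * g2⁻¹) * g2 := by rw [hg1, hg2]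
    _ = y := by group

end Cfsg.Agent.S0107
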