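import Cfsg.Statements.S0201

import Mathlib
import Cfsg.Agent.Lib.Helper7_ZStar2
set_option autoImplicit false
open Cfsg

namespace Cfsg.Agent.S0201

open QuaternionGroup in
theorem quat_center {m : ℕ} [NeZero m] (hm : 2 ≤ m) (c : QuaternionGroup m)
    (hc : ∀ y : QuaternionGroup m, y * c = c * y) : c * c = 1 := by
  cases c with
  | a i =>
    have h := hc (xa 0)
    rw [xa_mul_a, a_mul_xa] at h
    have h1 : (0 : ZMod (2 * m)) + i = 0 - i := by
      injection h
    rw [a_mul_a, ← a_zero]
    congr 1
    linear_combination h1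
  | xa i =>
    exfalso
    have h := hc (a 1)
    rw [xa_mul_a, a_mul_xa] at h
    have h1 : i - 1 = i + 1 := by injection h
    have h2 : ((2 : ℕ) : ZMod (2 * m)) = 0 := by
      push_cast
      linear_combination -h1
    rw [ZMod.natCast_eq_zero_iff] at h2
    have := Nat.le_of_dvd (by norm_num) h2
    omega

open QuaternionGroup in
theorem quat_invol {m : ℕ} [NeZero m] (y : QuaternionGroup m) (hy : orderOf y = 2) :
    y = a (m : ZMod (2 * m)) := by
  haveI : NeZero (2 * m) := ⟨by have := NeZero.ne m; omega⟩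
  cases y with
  | xa i => rw [orderOf_xa] at hy; omega
  | a i =>
    have h1 : (a i : QuaternionGroup m) * a i = 1 := by
      rw [← pow_two, ← hy, pow_orderOf_eq_one]
    rw [a_mul_a, ← a_zero] at h1
    have h2 : i + i = 0 := by injection h1
    have h0 : i ≠ 0 := by
      intro h
      rw [h, a_zero, orderOf_one] at hy
      norm_num at hy
    have h3 := congrArg ZMod.val h2
    rw [ZMod.val_add, ZMod.val_zero] at h3
    have h4 := ZMod.val_lt i
    have h5 : i.val ≠ 0 := fun h => h0 ((ZMod.val_eq_zero i).mp h)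
    have h6 : 2 * m ∣ i.val + i.val := Nat.dvd_of_mod_eq_zero h3
    obtain ⟨q, hq⟩ := h6
    have h7 : i.val = m := by
      have hq1 : q = 1 := by
        have hm0 : 0 < m := Nat.pos_of_ne_zero (NeZero.ne m)
        rcases Nat.lt_or_ge q 1 with h | h
        · have : q = 0 := by omega
          rw [this] at hq; omega
        · rcases Nat.lt_or_ge q 2 with h' | h'
          · omega
          · have : 2 * m * 2 ≤ 2 * m * q := Nat.mul_le_mul_left _ h'
            omega
      rw [hq1] at hq; omega
    congr 1
    have h8 : ((i.val : ℕ) : ZMod (2 * m)) = i := ZMod.natCast_zmod_val i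
    rw [← h8]
    exact congrArg _ h7

open QuaternionGroup in
theorem quat_order {m : ℕ} [NeZero m] : orderOf (a (m : ZMod (2 * m)) : QuaternionGroup m) = 2 := by
  apply orderOf_eq_prime
  · rw [pow_two, a_mul_a, ← a_zero]
    congr 1
    have : ((2 * m : ℕ) : ZMod (2 * m)) = 0 := ZMod.natCast_self _
    push_cast at this
    linear_combination this
  · rw [← a_zero]
    intro h
    have h1 : (m : ZMod (2 * m)) = 0 := by injection h
    rw [ZMod.natCast_eq_zero_iff] at h1
    have hm0 : 0 < m := Nat.pos_of_ne_zero (NeZero.ne m)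
    have := Nat.le_of_dvd hm0 h1
    omega

/-- Brauer–Suzuki Theorem: if a Sylow 2-subgroup of a finite group is generalized quaternion (of order at least 8) and the group has no nontrivial normal subgroup of odd order, then its centre has order 2. -/
theorem result {G : Type*} [Group G] [Finite G] (S : Sylow 2 G) (n : ℕ) (e : (S : Subgroup G) ≃* QuaternionGroup (2 ^ (n + 1))) (hO : ∀ N : Subgroup G, N.Normal → Odd (Nat.card N) → N = ⊥) : Nat.card (Subgroup.center G) = 2 := by
  have hm : 2 ≤ 2 ^ (n + 1) := by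
    have : 1 ≤ 2 ^ n := Nat.one_le_two_pow
    rw [pow_succ]; omega
  set t' : (S : Subgroup G) := e.symm (QuaternionGroup.a ((2 ^ (n + 1) : ℕ) : ZMod (2 * 2 ^ (n + 1)))) with ht'
  have ht'o : orderOf t' = 2 := by rw [ht', MulEquiv.orderOf_eq]; exact quat_order
  have hto : orderOf (t' : G) = 2 := by rw [Subgroup.orderOf_coe]; exact ht'o
  have huniq : ∀ y : G, y ∈ (S : Subgroup G) → orderOf y = 2 → y = t' := by
    intro y hy hyo
    have h1 : orderOf (e ⟨y, hy⟩) = 2 := by
      rw [MulEquiv.orderOf_eq, ← Subgroup.orderOf_coe]; exact hyo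
    have h2 := quat_invol _ h1
    have h3 : (⟨y, hy⟩ : (S : Subgroup G)) = t' := by
      rw [ht', ← h2, MulEquiv.symm_apply_apply]
    exact congrArg Subtype.val h3
  have hiso : Cfsg.IsIsolatedInvolution (t' : G) := by
    apply Cfsg.Agent.Lib.Helper7_ZStar2.isolated_of_sylow S hto
    intro g hg
    apply huniq _ hg
    have : g * (t' : G) * g⁻¹ = MulAut.conj g (t' : G) := by simp
    rw [this, MulEquiv.orderOf_eq]; exact hto
  have hcore : Cfsg.pPrimeCore 2 G = ⊥ :=
    hO _ Cfsg.Agent.Lib.Helper7_ZStar2.core_normal Cfsg.Agent.Lib.Helper7_ZStar2.core_odd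
  have hcen : ∀ g : G, g * (t' : G) = (t' : G) * g := by
    intro g
    have h1 := Cfsg.Agent.Lib.Helper7_ZStar.zstar hiso g
    rw [hcore, Subgroup.mem_bot] at h1
    have h2 : (t' : G) * g * (t' : G)⁻¹ = g := mul_inv_eq_one.mp h1
    exact (mul_inv_eq_iff_eq_mul.mp h2).symm
  have hZ : Subgroup.center G = Subgroup.zpowers (t' : G) := by
    apply le_antisymm
    · intro c hc
      have hcc : ∀ g : G, g * c = c * g := fun g => Subgroup.mem_center_iff.mp hc g
      -- `c` is a `2`-element
      obtain ⟨a, b, hb, hab⟩ := Nat.exists_eq_two_pow_mul_odd (n := orderOf c) (orderOf_pos c).ne'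
      have hc' : c ^ 2 ^ a = 1 := by
        have hnorm : (Subgroup.zpowers (c ^ 2 ^ a)).Normal := by
          constructor
          intro x hx g
          obtain ⟨k, rfl⟩ := Subgroup.mem_zpowers_iff.mp hx
          have h1 : Commute g ((c ^ 2 ^ a) ^ k) := ((show Commute g c from hcc g).pow_right _).zpow_right k
          rw [h1.eq, mul_inv_cancel_right]
          exact Subgroup.zpow_mem_zpowers _ k
        have hodd : Odd (Nat.card (Subgroup.zpowers (c ^ 2 ^ a))) := by
          rw [Nat.card_zpowers, orderOf_pow_of_dvd (by positivity) ⟨b, hab⟩, hab,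
            Nat.mul_div_cancel_left _ (by positivity)]
          exact hb
        have := hO _ hnorm hodd
        rw [Subgroup.zpowers_eq_bot] at this
        exact this
      obtain ⟨j, _, hj⟩ := (Nat.dvd_prime_pow Nat.prime_two).mp (orderOf_dvd_of_pow_eq_one hc')
      obtain ⟨h, h1, -⟩ := Cfsg.Agent.Lib.Helper7_ZStar2.exists_conj_mem S ⟨j, hj⟩ ⟨j, hj⟩ (Commute.refl c)
      rw [hcc h, mul_inv_cancel_right] at h1
      have hcS : c ∈ (S : Subgroup G) := h1
      have h2 : e ⟨c, hcS⟩ * e ⟨c, hcS⟩ = 1 := by
        apply quat_center hm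
        intro y
        obtain ⟨y', rfl⟩ := e.surjective y
        rw [← map_mul, ← map_mul]
        congr 1
        apply Subtype.ext
        exact hcc y'
      rw [← map_mul] at h2
      have h3 : (⟨c, hcS⟩ : (S : Subgroup G)) * ⟨c, hcS⟩ = 1 := by
        apply e.injective; rw [h2, map_one]
      have h4 : c * c = 1 := congrArg Subtype.val h3
      by_cases hc1 : c = 1
      · rw [hc1]; exact Subgroup.one_mem _
      · rw [huniq c hcS (orderOf_eq_prime (by rw [pow_two, h4]) hc1)]
        exact Subgroup.mem_zpowers _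
    · rw [Subgroup.zpowers_le, Subgroup.mem_center_iff]
      exact hcen
  rw [hZ, Nat.card_zpowers, hto]

end Cfsg.Agent.S0201
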