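import Cfsg.Statements.S2508
import Cfsg.Agent.Lib.Helper5_SL2Cent

set_option autoImplicit false

open Cfsg

namespace Cfsg.Agent.S2508

open Matrix Cfsg.Agent.Lib.Helper5_PSLSpec Cfsg.Agent.Lib.Helper5_PSL2Prod Cfsg.Agent.Lib.Helper5_SL2Cent
  Cfsg.Agent.Lib.Helper5_Card Cfsg.Agent.Lib.Helper5_GL2

variable {F : Type*} [Field F]

local notation "SL2" => Matrix.SpecialLinearGroup (Fin 2) F
local notation "M2" => Matrix (Fin 2) (Fin 2) F
local notation "PSL2" => Matrix.ProjectiveSpecialLinearGroup (Fin 2) F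

/-- the preimage of the centralizer -/
def KK (g : SL2) : Subgroup SL2 := (Subgroup.centralizer ({mkP F 2 g} : Set PSL2)).comap (mkP F 2)

theorem mem_KK (g h : SL2) : h ∈ KK g ↔ (h : M2) * (g : M2) = (g : M2) * (h : M2) ∨ (h : M2) * (g : M2) = -((g : M2) * (h : M2)) := by
  unfold KK
  rw [Subgroup.mem_comap, Subgroup.mem_centralizer_singleton_iff, ← map_mul, ← map_mul, mkP_eq_iff,
    Matrix.SpecialLinearGroup.coe_mul, Matrix.SpecialLinearGroup.coe_mul]
  constructor
  · rintro (h1 | h1)
    · exact Or.inl h1.symm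
    · right; rw [h1, neg_neg]
  · rintro (h1 | h1)
    · exact Or.inl h1.symm
    · right; rw [h1, neg_neg]

theorem mem_cent (g h : SL2) : h ∈ Subgroup.centralizer ({g} : Set SL2) ↔ (h : M2) * (g : M2) = (g : M2) * (h : M2) := by
  rw [Subgroup.mem_centralizer_singleton_iff]
  constructor
  · intro hh
    exact congrArg Subtype.val hh
  · intro hh
    exact Subtype.ext hh

theorem cent_le_KK (g : SL2) : Subgroup.centralizer ({g} : Set SL2) ≤ KK g := by
  intro h hh
  rw [mem_KK]
  exact Or.inl ((mem_cent g h).1 hh)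

theorem trace_zero_of_anti (h2 : (2 : F) ≠ 0) (g h : SL2) (ha : (h : M2) * (g : M2) = -((g : M2) * (h : M2))) :
    (g : M2).trace = 0 := by
  have h1 : (g : M2) = -((h⁻¹ : SL2) : M2) * (g : M2) * (h : M2) := by
    have : ((h⁻¹ : SL2) : M2) * ((h : M2) * (g : M2)) = (g : M2) := by
      rw [← mul_assoc, ← Matrix.SpecialLinearGroup.coe_mul, inv_mul_cancel, Matrix.SpecialLinearGroup.coe_one, one_mul]
    rw [ha] at this
    rw [neg_mul, neg_mul, mul_assoc, ← mul_neg]
    exact this.symm
  have h3 : (g : M2).trace = -(g : M2).trace := by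
    conv_lhs => rw [h1]
    rw [neg_mul, neg_mul, Matrix.trace_neg, Matrix.trace_mul_comm, ← mul_assoc, ← Matrix.SpecialLinearGroup.coe_mul,
      mul_inv_cancel, Matrix.SpecialLinearGroup.coe_one, one_mul]
  have h4 : 2 * (g : M2).trace = 0 := by linear_combination h3
  exact (mul_eq_zero.1 h4).resolve_left h2

theorem KK_eq (h2 : (2 : F) ≠ 0) (g : SL2) (htr : (g : M2).trace ≠ 0) : KK g = Subgroup.centralizer ({g} : Set SL2) := by
  apply le_antisymm _ (cent_le_KK g)
  intro h hh
  rw [mem_KK] at hh
  rcases hh with h1 | h1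
  · exact (mem_cent g h).2 h1
  · exact absurd (trace_zero_of_anti h2 g h h1) htr

theorem relIndex_two [Fintype F] (hodd : Odd (Fintype.card F)) (g : SL2) (hg : NS (g : M2)) (htr : (g : M2).trace = 0) :
    (Subgroup.centralizer ({g} : Set SL2)).relIndex (KK g) = 2 := by
  have h2 := two_ne hodd
  have h4 : (4 : F) ≠ 0 := by
    have : (4 : F) = 2 * 2 := by norm_num
    rw [this]; exact mul_ne_zero h2 h2
  have hconj : IsConj g (negS g) := by
    apply isConj_of_trace g (negS g) hg (ns_neg _ hg)
    · rw [negS_val, Matrix.trace_neg, htr, neg_zero]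
    · intro lam _
      apply exists_norm hodd
      rw [htr]
      simpa using h4.symm
  rw [isConj_iff] at hconj
  obtain ⟨w, hw⟩ := hconj
  have hw' : (w : M2) * (g : M2) = -((g : M2) * (w : M2)) := by
    have h1 : w * g = negS g * w := by rw [← hw]; group
    have := congrArg Subtype.val h1
    rw [Matrix.SpecialLinearGroup.coe_mul, Matrix.SpecialLinearGroup.coe_mul, negS_val, neg_mul] at this
    exact this
  have hne : ∀ A : SL2, (A : M2) ≠ -(A : M2) := by
    intro A hA
    have h1 : (2 : F) • (A : M2) = 0 := by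
      rw [two_smul]
      nth_rewrite 1 [hA]
      simp
    have h3 : (A : M2) = 0 := by
      rcases smul_eq_zero.1 h1 with h | h
      · exact absurd h h2
      · exact h
    have := A.2
    rw [h3] at this
    simp at this
  rw [Subgroup.relIndex_eq_two_iff]
  refine ⟨w, (mem_KK g w).2 (Or.inr hw'), ?_⟩
  intro b hb
  rw [mem_KK] at hb
  rw [mem_cent, mem_cent, Matrix.SpecialLinearGroup.coe_mul]
  rcases hb with hb | hb
  · right
    refine ⟨hb, ?_⟩
    intro h
    rw [mul_assoc, hw', mul_neg, ← mul_assoc, hb, ← mul_assoc] at h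
    apply hne (g * b * w)
    rw [Matrix.SpecialLinearGroup.coe_mul, Matrix.SpecialLinearGroup.coe_mul]
    exact h.symm
  · left
    refine ⟨?_, ?_⟩
    · rw [mul_assoc, hw', mul_neg, ← mul_assoc, hb, neg_mul, neg_neg, mul_assoc]
    · intro h
      rw [h] at hb
      apply hne (g * b)
      rw [Matrix.SpecialLinearGroup.coe_mul]
      exact hb

theorem idx_ne [Fintype F] (hodd : Odd (Fintype.card F)) (g : SL2) (hg : NS (g : M2)) (htr : (g : M2).trace ≠ 0) :
    (Subgroup.centralizer ({mkP F 2 g} : Set PSL2)).index * Nat.card {z : F × F // nf (g : M2).trace z = 1} =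
      Fintype.card F * (Fintype.card F ^ 2 - 1) := by
  rw [index_comap]
  change (KK g).index * _ = _
  rw [KK_eq (two_ne hodd) g htr, ← card_centralizer g hg, Subgroup.index_mul_card, card_SL2]

theorem idx_zero [Fintype F] (hodd : Odd (Fintype.card F)) (g : SL2) (hg : NS (g : M2)) (htr : (g : M2).trace = 0) :
    2 * (Subgroup.centralizer ({mkP F 2 g} : Set PSL2)).index * Nat.card {z : F × F // nf (g : M2).trace z = 1} =
      Fintype.card F * (Fintype.card F ^ 2 - 1) := by
  rw [index_comap]
  change 2 * (KK g).index * _ = _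
  have h1 := Subgroup.relIndex_mul_index (cent_le_KK g)
  rw [relIndex_two hodd g hg htr] at h1
  rw [h1, ← card_centralizer g hg, Subgroup.index_mul_card, card_SL2]

theorem card_sq_one (h2 : (2 : F) ≠ 0) : Nat.card {s : F // s ^ 2 = 1} = 2 := by
  rw [Nat.card_eq_two_iff]
  refine ⟨⟨1, by simp⟩, ⟨-1, by simp⟩, ?_, ?_⟩
  · intro h
    have h1 : (1 : F) = -1 := congrArg Subtype.val h
    apply h2
    linear_combination h1
  · ext ⟨s, hs⟩
    simp only [Set.mem_insert_iff, Set.mem_singleton_iff, Set.mem_univ, iff_true, Subtype.mk.injEq]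
    exact sq_eq_one_iff.1 hs

theorem exists_aniso_ne_zero [Fintype F] (h4 : 4 ≤ Fintype.card F) :
    ∃ τ : F, τ ≠ 0 ∧ ¬ ∃ a : F, a ≠ 0 ∧ τ = a + a⁻¹ := by
  classical
  by_contra hcon
  push Not at hcon
  choose! ψ hψ0 hψ using hcon
  let Ψ : {τ : F // τ ≠ 0} → Fˣ := fun τ => Units.mk0 (ψ τ.1) (hψ0 τ.1 τ.2)
  have hinj : Function.Injective Ψ := by
    intro s t hst
    apply Subtype.ext
    have h1 : ψ s.1 = ψ t.1 := congrArg Units.val hst
    rw [hψ s.1 s.2, hψ t.1 t.2, h1]
  have hcard : Fintype.card {τ : F // τ ≠ 0} = Fintype.card Fˣ := by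
    rw [Fintype.card_units, Fintype.card_subtype_compl (fun τ : F => τ = 0)]
    simp
  have hbij : Function.Bijective Ψ := (Fintype.bijective_iff_injective_and_card Ψ).2 ⟨hinj, hcard⟩
  obtain ⟨a, ha⟩ := IsCyclic.exists_generator (α := Fˣ)
  have hoa : orderOf a = Fintype.card F - 1 := by
    rw [orderOf_eq_card_of_forall_mem_zpowers ha, Nat.card_eq_fintype_card, Fintype.card_units]
  obtain ⟨s, hs⟩ := hbij.2 a
  obtain ⟨t, ht⟩ := hbij.2 a⁻¹
  have hs' : ψ s.1 = (a : F) := congrArg Units.val hs
  have ht' : ψ t.1 = (a : F)⁻¹ := by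
    have := congrArg Units.val ht
    rw [Units.val_inv_eq_inv_val] at this
    exact this
  have hst : s = t := by
    apply Subtype.ext
    rw [hψ s.1 s.2, hψ t.1 t.2, hs', ht', inv_inv, add_comm]
  have haa : a = a⁻¹ := by rw [← ht, ← hst, hs]
  have h1 : a ^ 2 = 1 := by
    rw [pow_two]
    nth_rewrite 2 [haa]
    exact mul_inv_cancel a
  have h3 := orderOf_le_of_pow_eq_one (by norm_num) h1
  omega

theorem hsq (q : ℕ) : q ^ 2 - 1 = (q + 1) * (q - 1) := by
  have := Nat.sq_sub_sq q 1
  simpa using this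

theorem idx_double [Fintype F] (hodd : Odd (Fintype.card F)) (g : SL2) (hg : NS (g : M2)) (a : F) (ha : a ^ 2 = 1)
    (htr : (g : M2).trace = 2 * a) :
    (Subgroup.centralizer ({mkP F 2 g} : Set PSL2)).index = (Fintype.card F ^ 2 - 1) / 2 := by
  have h2 := two_ne hodd
  have hq2 : 2 ≤ Fintype.card F := Fintype.one_lt_card
  have ha0 : a ≠ 0 := by
    rintro rfl
    simp at ha
  have h1 := idx_ne hodd g hg (by rw [htr]; exact mul_ne_zero h2 ha0)
  rw [htr, card_nf_double a ha, card_sq_one h2] at h1
  have h3 : (Subgroup.centralizer ({mkP F 2 g} : Set PSL2)).index * 2 = Fintype.card F ^ 2 - 1 := by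
    apply Nat.eq_of_mul_eq_mul_right (show 0 < Fintype.card F by omega)
    rw [mul_assoc, h1]; ring
  omega

theorem idx_split [Fintype F] (hodd : Odd (Fintype.card F)) (g : SL2) (hg : NS (g : M2)) (a : F) (ha0 : a ≠ 0)
    (haa : a ≠ a⁻¹) (htr : (g : M2).trace = a + a⁻¹) :
    ((g : M2).trace ≠ 0 → (Subgroup.centralizer ({mkP F 2 g} : Set PSL2)).index = Fintype.card F * (Fintype.card F + 1)) ∧
    ((g : M2).trace = 0 → (Subgroup.centralizer ({mkP F 2 g} : Set PSL2)).index = Fintype.card F * (Fintype.card F + 1) / 2) := by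
  have hq2 : 2 ≤ Fintype.card F := Fintype.one_lt_card
  constructor
  · intro h0
    have h1 := idx_ne hodd g hg h0
    rw [htr, card_nf_split a ha0 haa, hsq] at h1
    apply Nat.eq_of_mul_eq_mul_right (show 0 < Fintype.card F - 1 by omega)
    rw [h1]; ring
  · intro h0
    have h1 := idx_zero hodd g hg h0
    rw [htr, card_nf_split a ha0 haa, hsq] at h1
    have h3 : 2 * (Subgroup.centralizer ({mkP F 2 g} : Set PSL2)).index = Fintype.card F * (Fintype.card F + 1) := by
      apply Nat.eq_of_mul_eq_mul_right (show 0 < Fintype.card F - 1 by omega)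
      rw [h1]; ring
    omega

theorem idx_aniso [Fintype F] (hodd : Odd (Fintype.card F)) (g : SL2) (hg : NS (g : M2))
    (han : ∀ z : F × F, nf (g : M2).trace z = 0 → z = 0) :
    ((g : M2).trace ≠ 0 → (Subgroup.centralizer ({mkP F 2 g} : Set PSL2)).index = Fintype.card F * (Fintype.card F - 1)) ∧
    ((g : M2).trace = 0 → (Subgroup.centralizer ({mkP F 2 g} : Set PSL2)).index = Fintype.card F * (Fintype.card F - 1) / 2) := by
  have hq2 : 2 ≤ Fintype.card F := Fintype.one_lt_card
  have hτ : (g : M2).trace ^ 2 ≠ 4 := by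
    intro h
    have h2 := two_ne hodd
    have := han ((g : M2).trace / 2, -1) (by
      unfold nf
      simp only
      field_simp
      linear_combination -h)
    have h3 := congrArg Prod.snd this
    simp at h3
  have hcard := card_nf_aniso _ han (fun lam _ => by
    obtain ⟨a, b, hab⟩ := exists_norm hodd (g : M2).trace lam hτ
    exact ⟨(a, b), hab⟩)
  constructor
  · intro h0
    have h1 := idx_ne hodd g hg h0
    rw [hcard, hsq] at h1
    apply Nat.eq_of_mul_eq_mul_right (show 0 < Fintype.card F + 1 by omega)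
    rw [h1]; ring
  · intro h0
    have h1 := idx_zero hodd g hg h0
    rw [hcard, hsq] at h1
    have h3 : 2 * (Subgroup.centralizer ({mkP F 2 g} : Set PSL2)).index = Fintype.card F * (Fintype.card F - 1) := by
      apply Nat.eq_of_mul_eq_mul_right (show 0 < Fintype.card F + 1 by omega)
      rw [h1]; ring
    omega

theorem cent_one : (Subgroup.centralizer ({1} : Set PSL2)).index = 1 := by
  have : Subgroup.centralizer ({1} : Set PSL2) = ⊤ := by
    rw [eq_top_iff]
    intro y _
    rw [Subgroup.mem_centralizer_singleton_iff]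
    simp
  rw [this, Subgroup.index_top]

theorem range_iff [Fintype F] (hodd : Odd (Fintype.card F)) (h7 : 7 ≤ Fintype.card F) (X0 : ℕ)
    (h0 : ∀ g : SL2, NS (g : M2) → (g : M2).trace = 0 → (Subgroup.centralizer ({mkP F 2 g} : Set PSL2)).index = X0)
    (m : ℕ) :
    m ∈ Set.range (fun g : PSL2 => (Subgroup.centralizer ({g} : Set PSL2)).index) ↔
      m = 1 ∨ m = (Fintype.card F ^ 2 - 1) / 2 ∨ m = X0 ∨ m = Fintype.card F * (Fintype.card F - 1) ∨
        m = Fintype.card F * (Fintype.card F + 1) := by
  classical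
  have h2 := two_ne hodd
  have hcomp : ∀ τ : F, ∃ g : SL2, NS (g : M2) ∧ (g : M2).trace = τ := by
    intro τ
    exact ⟨compSL τ, comp_not_scalar τ 1, by simp⟩
  constructor
  · rintro ⟨x, rfl⟩
    obtain ⟨g, rfl⟩ := QuotientGroup.mk'_surjective _ x
    show (Subgroup.centralizer ({mkP F 2 g} : Set PSL2)).index = 1 ∨ _
    by_cases hg : NS (g : M2)
    · by_cases htr0 : (g : M2).trace = 0
      · right; right; left
        exact h0 g hg htr0
      rcases aniso_or_root (g : M2).trace with han | ⟨a, ha0, htr⟩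
      · right; right; right; left
        exact (idx_aniso hodd g hg han).1 htr0
      · by_cases haa : a = a⁻¹
        · right; left
          have ha2 : a ^ 2 = 1 := by
            rw [pow_two]
            nth_rewrite 2 [haa]
            exact mul_inv_cancel₀ ha0
          exact idx_double hodd g hg a ha2 (by rw [htr, ← haa]; ring)
        · right; right; right; right
          exact (idx_split hodd g hg a ha0 haa htr).1 htr0
    · left
      have h1 : mkP F 2 g = 1 := by
        by_contra hne
        exact hg (ns_of_mkP_ne_one g hne)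
      rw [h1, cent_one]
  · rintro (rfl | rfl | rfl | rfl | rfl)
    · exact ⟨1, cent_one⟩
    · obtain ⟨g, hg, htr⟩ := hcomp 2
      exact ⟨mkP F 2 g, idx_double hodd g hg 1 (by simp) (by rw [htr]; ring)⟩
    · obtain ⟨g, hg, htr⟩ := hcomp 0
      exact ⟨mkP F 2 g, h0 g hg htr⟩
    · obtain ⟨τ, hτ0, hτ⟩ := exists_aniso_ne_zero (F := F) (by omega)
      obtain ⟨g, hg, htr⟩ := hcomp τ
      refine ⟨mkP F 2 g, (idx_aniso hodd g hg ?_).1 (by rw [htr]; exact hτ0)⟩
      rw [htr]
      exact (aniso_or_root τ).resolve_right hτ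
    · obtain ⟨a, ha⟩ := IsCyclic.exists_generator (α := Fˣ)
      have hoa : orderOf a = Fintype.card F - 1 := by
        rw [orderOf_eq_card_of_forall_mem_zpowers ha, Nat.card_eq_fintype_card, Fintype.card_units]
      have ha4 : (a : F) ^ 4 ≠ 1 := by
        intro h
        have h1 : a ^ 4 = 1 := by
          apply Units.ext
          push_cast
          exact h
        have h3 := orderOf_le_of_pow_eq_one (by norm_num) h1
        omega
      have ha0 : (a : F) ≠ 0 := a.ne_zero
      obtain ⟨g, hg, htr⟩ := hcomp ((a : F) + (a : F)⁻¹)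
      refine ⟨mkP F 2 g, (idx_split hodd g hg (a : F) ha0 ?_ htr).1 ?_⟩
      · intro haa
        apply ha4
        have : (a : F) ^ 2 = 1 := by
          rw [pow_two]
          nth_rewrite 2 [haa]
          exact mul_inv_cancel₀ ha0
        calc (a : F) ^ 4 = ((a : F) ^ 2) ^ 2 := by ring
          _ = 1 := by rw [this]; ring
      · rw [htr]
        intro h
        apply ha4
        have h5 : (a : F) ^ 2 = -1 := by
          have h6 : (a : F) * ((a : F) + (a : F)⁻¹) = 0 := by rw [h, mul_zero]
          rw [mul_add, mul_inv_cancel₀ ha0] at h6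
          linear_combination h6
        calc (a : F) ^ 4 = ((a : F) ^ 2) ^ 2 := by ring
          _ = 1 := by rw [h5]; ring

theorem result {F : Type*} [Field F] [Fintype F]
    (hodd : ¬ 2 ∣ Fintype.card F) (h7 : 7 ≤ Fintype.card F) :
    (Fintype.card F % 4 = 1 →
      Set.range (fun g : (Matrix.ProjectiveSpecialLinearGroup (Fin 2) F) => (Subgroup.centralizer ({g} : Set (Matrix.ProjectiveSpecialLinearGroup (Fin 2) F))).index) =
        {1, (Fintype.card F ^ 2 - 1) / 2, Fintype.card F * (Fintype.card F + 1) / 2,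
          Fintype.card F * (Fintype.card F - 1), Fintype.card F * (Fintype.card F + 1)}) ∧
    (Fintype.card F % 4 = 3 →
      Set.range (fun g : (Matrix.ProjectiveSpecialLinearGroup (Fin 2) F) => (Subgroup.centralizer ({g} : Set (Matrix.ProjectiveSpecialLinearGroup (Fin 2) F))).index) =
        {1, (Fintype.card F ^ 2 - 1) / 2, Fintype.card F * (Fintype.card F - 1) / 2,
          Fintype.card F * (Fintype.card F + 1), Fintype.card F * (Fintype.card F - 1)}) := by
  have hodd' : Odd (Fintype.card F) := by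
    rw [Nat.odd_iff]; omega
  have h2 := two_ne hodd'
  constructor
  · intro h4
    obtain ⟨i, hi⟩ := FiniteField.isSquare_neg_one_iff.2 (show Fintype.card F % 4 ≠ 3 by omega)
    have hi0 : i ≠ 0 := by
      rintro rfl
      simp at hi
    have hinv : i⁻¹ = -i := by
      apply inv_eq_of_mul_eq_one_right
      linear_combination hi
    ext m
    rw [range_iff hodd' h7 (Fintype.card F * (Fintype.card F + 1) / 2) (fun g hg htr =>
      (idx_split hodd' g hg i hi0 (by
        rw [hinv]
        intro h
        have : 2 * i = 0 := by linear_combination h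
        exact hi0 ((mul_eq_zero.1 this).resolve_left h2)) (by rw [htr, hinv]; ring)).2 htr)]
    simp only [Set.mem_insert_iff, Set.mem_singleton_iff]
  · intro h4
    have hns : ¬ IsSquare (-1 : F) := by
      rw [FiniteField.isSquare_neg_one_iff]
      omega
    ext m
    rw [range_iff hodd' h7 (Fintype.card F * (Fintype.card F - 1) / 2) (fun g hg htr =>
      (idx_aniso hodd' g hg (by
        rcases aniso_or_root (g : Matrix (Fin 2) (Fin 2) F).trace with han | ⟨a, ha0, ha⟩
        · exact han
        · exfalso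
          apply hns
          refine ⟨a, ?_⟩
          rw [htr] at ha
          have h6 : a * (a + a⁻¹) = 0 := by rw [← ha, mul_zero]
          rw [mul_add, mul_inv_cancel₀ ha0] at h6
          linear_combination -h6)).2 htr)]
    simp only [Set.mem_insert_iff, Set.mem_singleton_iff]
    tauto

end Cfsg.Agent.S2508
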