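import Cfsg.Statements.S0809
import Cfsg.Agent.S2508
import Cfsg.Agent.S0800

set_option autoImplicit false

open Cfsg

namespace Cfsg.Agent.S0809

open Matrix Cfsg.Agent.Lib.Helper5_PSLSpec Cfsg.Agent.Lib.Helper5_PSL2Prod Cfsg.Agent.Lib.Helper5_SL2Cent
  Cfsg.Agent.Lib.Helper5_Card Cfsg.Agent.Lib.Helper5_GL2 Cfsg.Agent.S2508

variable {F : Type*} [Field F]

local notation "SL2" => Matrix.SpecialLinearGroup (Fin 2) F
local notation "M2" => Matrix (Fin 2) (Fin 2) F
local notation "PSL2" => Matrix.ProjectiveSpecialLinearGroup (Fin 2) F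

theorem sq_one (h2 : (2 : F) ≠ 0) (a : SL2) (ha : (a : M2) * (a : M2) = 1) : (a : M2) = 1 ∨ (a : M2) = -1 := by
  have hc := cayley (a : M2) a.2
  rw [ha] at hc
  have h1 : (a : M2).trace • (a : M2) = 1 + 1 := by
    rw [sub_add_eq_add_sub, sub_eq_zero] at hc
    exact hc.symm
  set τ := (a : M2).trace with hτ
  have e00 := congrFun (congrFun h1 0) 0
  have e01 := congrFun (congrFun h1 0) 1
  have e10 := congrFun (congrFun h1 1) 0
  have e11 := congrFun (congrFun h1 1) 1
  simp only [Matrix.smul_apply, Matrix.add_apply, Matrix.one_apply_eq, smul_eq_mul,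
    Matrix.one_apply_ne (show (0 : Fin 2) ≠ 1 by decide), Matrix.one_apply_ne (show (1 : Fin 2) ≠ 0 by decide),
    add_zero] at e00 e01 e10 e11
  have hτ0 : τ ≠ 0 := by
    intro h
    rw [h, zero_mul] at e00
    apply h2
    linear_combination -e00
  have f01 : (a : M2) 0 1 = 0 := (mul_eq_zero.1 e01).resolve_left hτ0
  have f10 : (a : M2) 1 0 = 0 := (mul_eq_zero.1 e10).resolve_left hτ0
  have f : (a : M2) 0 0 = (a : M2) 1 1 := mul_left_cancel₀ hτ0 (e00.trans e11.symm)
  have hdet := a.2
  rw [Matrix.det_fin_two, f01, f10, ← f] at hdet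
  have h3 : ((a : M2) 0 0 - 1) * ((a : M2) 0 0 + 1) = 0 := by linear_combination hdet
  rcases mul_eq_zero.1 h3 with h | h
  · left
    ext i j
    fin_cases i <;> fin_cases j <;> simp [f01, f10, ← f]
    · linear_combination h
    · linear_combination h
  · right
    ext i j
    fin_cases i <;> fin_cases j <;> simp [f01, f10, ← f]
    · linear_combination h
    · linear_combination h

theorem trace_zero (g : SL2) (hg : (g : M2) * (g : M2) = -1) : (g : M2).trace = 0 := by
  have hc := cayley (g : M2) g.2
  rw [hg] at hc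
  have h1 : (g : M2).trace • (g : M2) = 0 := by
    have : (-1 : M2) - (g : M2).trace • (g : M2) + 1 = -((g : M2).trace • (g : M2)) := by abel
    rw [this, neg_eq_zero] at hc
    exact hc
  rcases smul_eq_zero.1 h1 with h | h
  · exact h
  · exfalso
    have := g.2
    rw [h] at this
    simp at this

theorem four_ne (h2 : (2 : F) ≠ 0) : (4 : F) ≠ 0 := by
  have : (4 : F) = 2 * 2 := by norm_num
  rw [this]; exact mul_ne_zero h2 h2

theorem ns_of_tr0 (h2 : (2 : F) ≠ 0) (g : SL2) (htr : (g : M2).trace = 0) : NS (g : M2) := by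
  apply ns_of_trace _ g.2
  rw [htr]
  simpa using (four_ne h2).symm

theorem conj_of_tr0 [Fintype F] (hodd : Odd (Fintype.card F)) (g h : SL2) (hg : (g : M2).trace = 0)
    (hh : (h : M2).trace = 0) : IsConj g h := by
  have h2 := two_ne hodd
  apply isConj_of_trace g h (ns_of_tr0 h2 g hg) (ns_of_tr0 h2 h hh) (by rw [hg, hh])
  intro lam _
  apply exists_norm hodd
  rw [hg]
  simpa using (four_ne h2).symm

theorem exists_gen [Fintype F] (hodd : Odd (Fintype.card F)) (A : Subgroup SL2) (hA : Nat.card A = 4) :
    ∃ g : SL2, (g : M2) * (g : M2) = -1 ∧ A = Subgroup.zpowers g := by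
  classical
  have h2 := two_ne hodd
  have hex : ∃ g ∈ A, g ^ 2 ≠ 1 := by
    by_contra hcon
    push Not at hcon
    have hinj : Function.Injective (fun a : A => decide (((a : SL2) : M2) = 1)) := by
      intro a b hab
      have ha := sq_one h2 a (by
        have := congrArg Subtype.val (hcon a a.2)
        rwa [Matrix.SpecialLinearGroup.coe_pow, sq] at this)
      have hb := sq_one h2 b (by
        have := congrArg Subtype.val (hcon b b.2)
        rwa [Matrix.SpecialLinearGroup.coe_pow, sq] at this)
      simp only [decide_eq_decide] at hab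
      apply Subtype.ext
      apply Subtype.ext
      rcases ha with ha | ha
      · rw [ha, hab.1 ha]
      · rcases hb with hb | hb
        · rw [hab.2 hb, hb]
        · rw [ha, hb]
    have := Nat.card_le_card_of_injective _ hinj
    rw [hA] at this
    simp at this
  obtain ⟨g, hgA, hg2⟩ := hex
  have hg4 : g ^ 4 = 1 := by
    have := pow_card_eq_one' (x := (⟨g, hgA⟩ : A))
    rw [hA] at this
    exact congrArg Subtype.val this
  have hsq : (g : M2) * (g : M2) = -1 := by
    have h1 := sq_one h2 (g ^ 2) (by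
      rw [← Matrix.SpecialLinearGroup.coe_mul, ← pow_add, hg4]; rfl)
    rw [Matrix.SpecialLinearGroup.coe_pow, sq] at h1
    rcases h1 with h1 | h1
    · exfalso
      apply hg2
      apply Subtype.ext
      rw [Matrix.SpecialLinearGroup.coe_pow, sq, h1]; rfl
    · exact h1
  refine ⟨g, hsq, ?_⟩
  have hord : orderOf g = 4 := by
    have := orderOf_eq_prime_pow (p := 2) (n := 1) (x := g) (by simpa using hg2) (by simpa using hg4)
    simpa using this
  symm
  apply Subgroup.eq_of_le_of_card_ge
  · rw [Subgroup.zpowers_le]; exact hgA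
  · rw [hA, Nat.card_zpowers, hord]

theorem neg_eq_inv (g : SL2) (hg : (g : M2) * (g : M2) = -1) : negS g = g⁻¹ := by
  apply eq_inv_of_mul_eq_one_left
  apply Subtype.ext
  rw [Matrix.SpecialLinearGroup.coe_mul, negS_val, neg_mul, hg, neg_neg]; rfl

theorem normalizer_eq (h2 : (2 : F) ≠ 0) (g : SL2) (hg : (g : M2) * (g : M2) = -1) :
    Subgroup.normalizer ((Subgroup.zpowers g : Subgroup SL2) : Set SL2) = KK g := by
  have htr := trace_zero g hg
  have hns := ns_of_tr0 h2 g htr
  ext h
  rw [Subgroup.mem_normalizer_iff_map_conj_eq, mem_KK]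
  have hmap : (Subgroup.zpowers g).map ((MulAut.conj h : MulAut SL2) : SL2 →* SL2) = Subgroup.zpowers (h * g * h⁻¹) := by
    rw [MonoidHom.map_zpowers]; rfl
  constructor
  · intro hh
    have hh' : (Subgroup.zpowers g).map ((MulAut.conj h : MulAut SL2) : SL2 →* SL2) = Subgroup.zpowers g := hh
    rw [hmap] at hh'
    have hx : h * g * h⁻¹ ∈ Subgroup.zpowers g := by
      rw [← hh']; exact Subgroup.mem_zpowers _
    set x := h * g * h⁻¹ with hxdef
    have hcomm : (x : M2) * (g : M2) = (g : M2) * (x : M2) := by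
      obtain ⟨k, hk⟩ := Subgroup.mem_zpowers_iff.1 hx
      have : x * g = g * x := by
        rw [← hk]
        exact ((Commute.refl g).zpow_left k).eq
      exact congrArg Subtype.val this
    obtain ⟨α, β, hαβ⟩ := commutant (g : M2) (x : M2) hns hcomm
    have htrx : (x : M2).trace = 0 := by
      rw [hxdef, Matrix.SpecialLinearGroup.coe_mul, Matrix.trace_mul_comm, ← Matrix.SpecialLinearGroup.coe_mul,
        ← mul_assoc, inv_mul_cancel, one_mul, htr]
    have hα : α = 0 := by
      rw [hαβ, Matrix.trace_add, Matrix.trace_smul, Matrix.trace_smul, htr, Matrix.trace_one] at htrx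
      simp only [Fintype.card_fin, smul_eq_mul, mul_zero, add_zero] at htrx
      rcases mul_eq_zero.1 htrx with h | h
      · exact h
      · exact absurd (by exact_mod_cast h) h2
    rw [hα, zero_smul, zero_add] at hαβ
    have hβ : β ^ 2 = 1 := by
      have := x.2
      rw [hαβ, Matrix.det_smul, g.2] at this
      simpa using this
    have hxg : (h : M2) * (g : M2) = (x : M2) * (h : M2) := by
      have : h * g = x * h := by rw [hxdef]; group
      exact congrArg Subtype.val this
    rw [hxg, hαβ]
    have h3 : (β - 1) * (β + 1) = 0 := by linear_combination hβ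
    rcases mul_eq_zero.1 h3 with h | h
    · left
      have : β = 1 := by linear_combination h
      rw [this, one_smul]
    · right
      have : β = -1 := by linear_combination h
      rw [this, neg_smul, one_smul, neg_mul]
  · intro hh
    show (Subgroup.zpowers g).map ((MulAut.conj h : MulAut SL2) : SL2 →* SL2) = Subgroup.zpowers g
    rw [hmap]
    rcases hh with hh | hh
    · have : h * g * h⁻¹ = g := by
        have h1 : h * g = g * h := Subtype.ext hh
        rw [h1]; group
      rw [this]
    · have : h * g * h⁻¹ = g⁻¹ := by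
        have h1 : h * g = negS g * h := by
          apply Subtype.ext
          rw [Matrix.SpecialLinearGroup.coe_mul, Matrix.SpecialLinearGroup.coe_mul, negS_val, neg_mul]
          exact hh
        rw [h1, neg_eq_inv g hg]; group
      rw [this, Subgroup.zpowers_inv]

theorem card_KK [Fintype F] (hodd : Odd (Fintype.card F)) (g : SL2) (htr : (g : M2).trace = 0) :
    Nat.card (KK g) = 2 * Nat.card {z : F × F // nf (0 : F) z = 1} := by
  have h2 := two_ne hodd
  have hns := ns_of_tr0 h2 g htr
  have h1 := relIndex_two hodd g hns htr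
  have h3 := card_centralizer g hns
  rw [htr] at h3
  rw [← h3]
  have h4 := Subgroup.index_mul_card ((Subgroup.centralizer ({g} : Set SL2)).subgroupOf (KK g))
  have h5 : ((Subgroup.centralizer ({g} : Set SL2)).subgroupOf (KK g)).index = 2 := h1
  rw [h5] at h4
  rw [← h4]
  congr 1
  exact Nat.card_congr (Subgroup.subgroupOfEquivOfLe (cent_le_KK g)).toEquiv

theorem inv_lift (h2 : (2 : F) ≠ 0) (x : PSL2) (hx : orderOf x = 2) :
    ∃ g : SL2, mkP F 2 g = x ∧ (g : M2).trace = 0 := by
  obtain ⟨g, rfl⟩ := QuotientGroup.mk'_surjective _ x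
  refine ⟨g, rfl, ?_⟩
  have h1 : (mkP F 2 g) ^ 2 = 1 := by
    have := pow_orderOf_eq_one (mkP F 2 g)
    rwa [show orderOf (mkP F 2 g) = 2 from hx] at this
  obtain ⟨c, hc⟩ := (mkP_pow_eq_one_iff g 2).1 h1
  have hc2 : c ^ 2 = 1 := by
    have := congrArg Matrix.det hc
    rw [Matrix.det_pow, g.2, Matrix.det_smul] at this
    simpa using this.symm
  have hne : mkP F 2 g ≠ 1 := by
    intro h
    change orderOf (mkP F 2 g) = 2 at hx
    rw [h, orderOf_one] at hx
    omega
  have h3 : (c - 1) * (c + 1) = 0 := by linear_combination hc2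
  rw [sq] at hc
  rcases mul_eq_zero.1 h3 with h | h
  · exfalso
    have hc1 : c = 1 := by linear_combination h
    rw [hc1, one_smul] at hc
    apply hne
    have := (mkP_pow_eq_one_iff g 1).2 (by
      rcases sq_one h2 g hc with h | h
      · exact ⟨1, by rw [pow_one, h, one_smul]⟩
      · exact ⟨-1, by rw [pow_one, h, neg_smul, one_smul]⟩)
    simpa using this
  · apply trace_zero
    have hc1 : c = -1 := by linear_combination h
    rw [hc, hc1, neg_smul, one_smul]

theorem result {F : Type*} [Field F] [Fintype F] {q : ℕ} (hF : Fintype.card F = q) (hodd : Odd q) (A : Subgroup (Matrix.SpecialLinearGroup (Fin 2) F)) (hA : Nat.card A = 4) : (∀ B : Subgroup (Matrix.SpecialLinearGroup (Fin 2) F), Nat.card B = 4 → ∃ g : Matrix.SpecialLinearGroup (Fin 2) F, B = A.map (MulAut.conj g).toMonoidHom) ∧ (q % 4 = 1 → Nat.card ↥(Subgroup.normalizer (A : Set (Matrix.SpecialLinearGroup (Fin 2) F))) = 2 * (q - 1)) ∧ (q % 4 = 3 → Nat.card ↥(Subgroup.normalizer (A : Set (Matrix.SpecialLinearGroup (Fin 2) F))) = 2 * (q + 1)) ∧ (∀ x y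 : Matrix.ProjectiveSpecialLinearGroup (Fin 2) F, orderOf x = 2 → orderOf y = 2 → IsConj x y) := by
  subst hF
  have h2 := two_ne hodd
  obtain ⟨g, hg, rfl⟩ := exists_gen hodd A hA
  have htr := trace_zero g hg
  refine ⟨?_, ?_, ?_, ?_⟩
  · intro B hB
    obtain ⟨h, hh, rfl⟩ := exists_gen hodd B hB
    have hc := conj_of_tr0 hodd g h htr (trace_zero h hh)
    rw [isConj_iff] at hc
    obtain ⟨u, hu⟩ := hc
    refine ⟨u, ?_⟩
    rw [MonoidHom.map_zpowers, ← hu]; rfl
  · intro hq
    rw [normalizer_eq h2 g hg, card_KK hodd g htr]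
    obtain ⟨a, ha⟩ := (FiniteField.isSquare_neg_one_iff (F := F)).2 (by omega)
    have ha0 : a ≠ 0 := by
      rintro rfl
      simp at ha
    have hinv : a⁻¹ = -a := by
      field_simp
      linear_combination -ha
    have h0 : a + a⁻¹ = 0 := by rw [hinv]; ring
    have := card_nf_split a ha0 (by
      rw [hinv]
      intro h
      have : 2 * a = 0 := by linear_combination h
      exact (mul_ne_zero h2 ha0) this)
    rw [h0] at this
    rw [this]
  · intro hq
    rw [normalizer_eq h2 g hg, card_KK hodd g htr]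
    have han : ∀ z : F × F, nf (0 : F) z = 0 → z = 0 := by
      rintro ⟨x, y⟩ hz
      unfold nf at hz
      simp only at hz
      by_contra hne
      have hy : y ≠ 0 := by
        rintro rfl
        apply hne
        have : x ^ 2 = 0 := by linear_combination hz
        simp [pow_eq_zero_iff (two_ne_zero) |>.1 this]
      have : IsSquare (-1 : F) := ⟨x / y, by
        field_simp
        linear_combination -hz⟩
      rw [FiniteField.isSquare_neg_one_iff] at this
      exact this hq
    rw [card_nf_aniso 0 han (fun lam _ => Cfsg.Agent.S0800.norm_surj 0 han lam)]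
  · intro x y hx hy
    obtain ⟨a, rfl, ha⟩ := inv_lift h2 x hx
    obtain ⟨b, rfl, hb⟩ := inv_lift h2 y hy
    exact (mkP F 2).map_isConj (conj_of_tr0 hodd a b ha hb)

end Cfsg.Agent.S0809
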