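import Cfsg.Statements.S0276
import Cfsg.Agent.S0809
import Cfsg.Agent.S0243

set_option autoImplicit false

open Cfsg

namespace Cfsg.Agent.S0276

open Matrix Cfsg.Agent.Lib.Helper5_PSLSpec Cfsg.Agent.Lib.Helper5_PSL2Prod

theorem card_psl {F : Type*} [Field F] [Fintype F] {q : ℕ} (hF : Fintype.card F = q) (hq : q % 8 = 3 ∨ q % 8 = 5) :
    ∃ m : ℕ, ¬ 2 ∣ m ∧ Nat.card (Matrix.ProjectiveSpecialLinearGroup (Fin 2) F) = 4 * m := by
  have h := Cfsg.Agent.S0243.result hF 2 le_rfl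
  rw [Fin.prod_univ_two] at h
  simp only [Fin.val_zero, Fin.val_one, pow_zero, pow_one] at h
  set N := Nat.card (Matrix.ProjectiveSpecialLinearGroup (Fin 2) F) with hN
  rcases hq with hq | hq
  · obtain ⟨k, rfl⟩ : ∃ k, q = 8 * k + 3 := ⟨q / 8, by omega⟩
    have hg : Nat.gcd 2 (8 * k + 3 - 1) = 2 := Nat.gcd_eq_left ⟨4 * k + 1, by omega⟩
    rw [hg] at h
    have e0 : 8 * k + 3 - 1 = 8 * k + 2 := by omega
    have e1 : (8 * k + 3) ^ 2 - 1 = (8 * k + 2) * (8 * k + 4) := by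
      have : (8 * k + 3) ^ 2 = (8 * k + 2) * (8 * k + 4) + 1 := by ring
      omega
    have e2 : (8 * k + 3) ^ 2 - (8 * k + 3) = (8 * k + 2) * (8 * k + 3) := by
      have : (8 * k + 3) ^ 2 = (8 * k + 2) * (8 * k + 3) + (8 * k + 3) := by ring
      omega
    rw [e0, e1, e2] at h
    refine ⟨(4 * k + 1) * (2 * k + 1) * (8 * k + 3), ?_, ?_⟩
    · intro hd
      rw [Nat.Prime.dvd_mul Nat.prime_two, Nat.Prime.dvd_mul Nat.prime_two] at hd
      omega
    · apply Nat.eq_of_mul_eq_mul_left (show 0 < 2 * (8 * k + 2) by omega)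
      rw [mul_assoc, h]; ring
  · obtain ⟨k, rfl⟩ : ∃ k, q = 8 * k + 5 := ⟨q / 8, by omega⟩
    have hg : Nat.gcd 2 (8 * k + 5 - 1) = 2 := Nat.gcd_eq_left ⟨4 * k + 2, by omega⟩
    rw [hg] at h
    have e0 : 8 * k + 5 - 1 = 8 * k + 4 := by omega
    have e1 : (8 * k + 5) ^ 2 - 1 = (8 * k + 4) * (8 * k + 6) := by
      have : (8 * k + 5) ^ 2 = (8 * k + 4) * (8 * k + 6) + 1 := by ring
      omega
    have e2 : (8 * k + 5) ^ 2 - (8 * k + 5) = (8 * k + 4) * (8 * k + 5) := by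
      have : (8 * k + 5) ^ 2 = (8 * k + 4) * (8 * k + 5) + (8 * k + 5) := by ring
      omega
    rw [e0, e1, e2] at h
    refine ⟨(2 * k + 1) * (4 * k + 3) * (8 * k + 5), ?_, ?_⟩
    · intro hd
      rw [Nat.Prime.dvd_mul Nat.prime_two, Nat.Prime.dvd_mul Nat.prime_two] at hd
      omega
    · apply Nat.eq_of_mul_eq_mul_left (show 0 < 2 * (8 * k + 4) by omega)
      rw [mul_assoc, h]; ring

theorem sq_eq_one {F : Type*} [Field F] [Fintype F] {q : ℕ} (hF : Fintype.card F = q) (hq : q % 8 = 3 ∨ q % 8 = 5)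
    (x : Matrix.ProjectiveSpecialLinearGroup (Fin 2) F) (hx : x ^ 4 = 1) : x ^ 2 = 1 := by
  have hodd : Odd (Fintype.card F) := by
    rw [hF, Nat.odd_iff]; omega
  have h2 := two_ne hodd
  obtain ⟨g, rfl⟩ := QuotientGroup.mk'_surjective _ x
  change (mkP F 2 g) ^ 4 = 1 at hx
  change (mkP F 2 g) ^ 2 = 1
  obtain ⟨c, hc⟩ := (mkP_pow_eq_one_iff g 4).1 hx
  have hc2 : c ^ 2 = 1 := by
    have := congrArg Matrix.det hc
    rw [Matrix.det_pow, g.2, Matrix.det_smul] at this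
    simpa using this.symm
  have hg8 : g ^ 8 = 1 := by
    apply Subtype.ext
    rw [Matrix.SpecialLinearGroup.coe_pow, show 8 = 4 * 2 by norm_num, pow_mul, hc, smul_pow, hc2]
    simp
  obtain ⟨p, hp⟩ := CharP.exists F
  have hpp : Fact p.Prime := ⟨CharP.char_is_prime F p⟩
  obtain ⟨n, -, hn⟩ := FiniteField.card F p
  have hp2 : p ≠ 2 := by
    rintro rfl
    rw [hn] at hodd
    exact (Nat.not_even_iff_odd.2 hodd) (Even.pow_of_ne_zero (by decide) n.ne_zero)
  have hd8 : orderOf g ∣ 8 := orderOf_dvd_of_pow_eq_one hg8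
  have hcop : Nat.Coprime (orderOf g) p := by
    apply Nat.Coprime.coprime_dvd_left hd8
    rw [show 8 = 2 ^ 3 by norm_num]
    apply Nat.Coprime.pow_left
    rw [Nat.coprime_primes Nat.prime_two hpp.out]
    exact hp2.symm
  have hd4 : orderOf g ∣ 4 := by
    have h800 := Cfsg.Agent.S0800.result hF p g hcop
    obtain ⟨k, hk, hk'⟩ := (Nat.dvd_prime_pow Nat.prime_two (m := 3)).1 (by simpa using hd8)
    rw [hk'] at h800 ⊢
    interval_cases k
    · norm_num
    · norm_num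
    · norm_num
    · exfalso
      rcases h800 with h | h
      · obtain ⟨j, hj⟩ := h
        omega
      · obtain ⟨j, hj⟩ := h
        omega
  have hg4 : g ^ 4 = 1 := orderOf_dvd_iff_pow_eq_one.1 hd4
  have h1 := Cfsg.Agent.S0809.sq_one h2 (g ^ 2) (by
    rw [← Matrix.SpecialLinearGroup.coe_mul, ← pow_add, hg4]; rfl)
  rw [mkP_pow_eq_one_iff]
  rw [Matrix.SpecialLinearGroup.coe_pow] at h1
  rcases h1 with h1 | h1
  · exact ⟨1, by rw [h1, one_smul]⟩
  · exact ⟨-1, by rw [h1, neg_smul, one_smul]⟩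

theorem result {F : Type*} [Field F] [Fintype F] {q : ℕ} (hF : Fintype.card F = q) (hq : q % 8 = 3 ∨ q % 8 = 5) (P : Sylow 2 (Matrix.ProjectiveSpecialLinearGroup (Fin 2) F)) : IsKleinFour (P : Subgroup (Matrix.ProjectiveSpecialLinearGroup (Fin 2) F)) := by
  obtain ⟨m, hm, hN⟩ := card_psl hF hq
  have hm0 : m ≠ 0 := by rintro rfl; exact hm (dvd_zero 2)
  have hcard : Nat.card (P : Subgroup (Matrix.ProjectiveSpecialLinearGroup (Fin 2) F)) = 4 := by
    rw [Sylow.card_eq_multiplicity, hN, Nat.factorization_mul (by norm_num) hm0]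
    simp only [Finsupp.coe_add, Pi.add_apply]
    rw [Nat.factorization_eq_zero_of_not_dvd hm, show 4 = 2 ^ 2 by norm_num, Nat.prime_two.factorization_pow]
    simp
  have hsq : ∀ x : (P : Subgroup (Matrix.ProjectiveSpecialLinearGroup (Fin 2) F)), x ^ 2 = 1 := by
    intro x
    have h4 : x ^ 4 = 1 := by
      rw [← hcard]; exact pow_card_eq_one'
    apply Subtype.ext
    have := sq_eq_one hF hq (x : Matrix.ProjectiveSpecialLinearGroup (Fin 2) F) (by
      have := congrArg Subtype.val h4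
      simpa using this)
    simpa using this
  refine ⟨hcard, ?_⟩
  have hd : Monoid.exponent (P : Subgroup (Matrix.ProjectiveSpecialLinearGroup (Fin 2) F)) ∣ 2 :=
    Monoid.exponent_dvd_of_forall_pow_eq_one hsq
  rcases (Nat.dvd_prime Nat.prime_two).1 hd with h | h
  · exfalso
    rw [Monoid.exp_eq_one_iff] at h
    have := Nat.card_unique (α := (P : Subgroup (Matrix.ProjectiveSpecialLinearGroup (Fin 2) F)))
    omega
  · exact h

end Cfsg.Agent.S0276
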