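import Cfsg.Statements.S0436
import Cfsg.Agent.Lib.Helper9_TT

set_option autoImplicit false
open Cfsg

namespace Cfsg.Agent.S0436

open Cfsg.Agent.Lib.Helper9_TT

theorem commute_left {G : Type*} [Group G] {E : Set G} (hE : Cfsg.IsThreeTranspositionSet E)
    {a b e : G} (ha : a ∈ E) (hb : b ∈ E) (he : e ∈ E) (hab : a ≠ b)
    (h : Commute e (a * b)) : Commute e a := by
  have ha2 := mul_self hE ha
  have hb2 := mul_self hE hb
  have he2 := mul_self hE he
  by_contra hna
  have h1 : e * a * e = a * e * a := braid hE he ha hna
  have h2 : (e * a * e) * (e * b * e) = a * b := by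
    calc (e * a * e) * (e * b * e) = e * a * (e * e) * b * e := by group
      _ = e * (a * b) * e := by rw [he2]; group
      _ = a * b * (e * e) := by rw [h.eq]; group
      _ = a * b := by rw [he2, mul_one]
  by_cases hcb : Commute e b
  · have h3 : e * b * e = b := by rw [hcb.eq, mul_assoc, he2, mul_one]
    rw [h3, h1] at h2
    have h4 := mul_right_cancel h2
    have h5 : a * (e * a) = a * 1 := by rw [mul_one, ← mul_assoc]; exact h4
    have h6 := mul_left_cancel h5
    apply hna
    have : e = a⁻¹ := eq_inv_of_mul_eq_one_left h6
    rw [this]
    exact (Commute.refl a).inv_left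
  · have h3 : e * b * e = b * e * b := braid hE he hb hcb
    have h4 : e * (a * b) * e = 1 := by
      rw [h3, h1] at h2
      have h5 : a * (e * a * b * e) * b = a * 1 * b := by
        rw [mul_one, ← h2]; group
      have h6 := mul_left_cancel (mul_right_cancel h5)
      rw [← h6]; group
    apply hab
    have h5 : a * b = 1 := by
      have : a * b = e * (e * (a * b) * e) * e := by
        calc a * b = (e * e) * (a * b) * (e * e) := by rw [he2]; group
          _ = e * (e * (a * b) * e) * e := by group
      rw [this, h4, mul_one, he2]
    have := eq_inv_of_mul_eq_one_left h5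
    rw [this, inv_eq hE hb]

/-- For distinct commuting members a, b of a set of 3-transpositions E, a member e of E centralises the product a * b if and only if it centralises both a and b. -/
theorem result {G : Type*} [Group G] {E : Set G} (hE : Cfsg.IsThreeTranspositionSet E) {a b e : G} (ha : a ∈ E) (hb : b ∈ E) (he : e ∈ E) (hab : a ≠ b) (hcomm : Commute a b) : Commute e (a * b) ↔ (Commute e a ∧ Commute e b) := by
  constructor
  · intro h
    have h1 := commute_left hE ha hb he hab h
    refine ⟨h1, ?_⟩
    have : b = a⁻¹ * (a * b) := by group
    rw [this]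
    exact h1.inv_right.mul_right h
  · rintro ⟨h1, h2⟩
    exact h1.mul_right h2

end Cfsg.Agent.S0436
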