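import Cfsg.Statements.S0437
import Cfsg.Agent.Lib.Helper9_TT
import Cfsg.Agent.S0436

set_option autoImplicit false
open Cfsg

namespace Cfsg.Agent.S0437

open Cfsg.Agent.Lib.Helper9_TT

/-- For three distinct, pairwise commuting members a, b, c of a set of 3-transpositions E, a member e of E centralises a * b * c if and only if it centralises each of a, b and c. -/
theorem result {G : Type*} [Group G] {E : Set G} (hE : Cfsg.IsThreeTranspositionSet E) {a b c e : G} (ha : a ∈ E) (hb : b ∈ E) (hc : c ∈ E) (he : e ∈ E) (hab : a ≠ b) (hac : a ≠ c) (hbc : b ≠ c) (h₁ : Commute a b) (h₂ : Commute a c) (h₃ : Commute b c) : Commute e (a * b * c) ↔ (Commute e a ∧ Commute e b ∧ Commute e c) := by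
  have ha2 := mul_self hE ha
  have hb2 := mul_self hE hb
  have hc2 := mul_self hE hc
  have he2 := mul_self hE he
  constructor
  · intro h
    by_cases hcc : Commute e c
    · have h1 : Commute e (a * b) := by
        have : a * b = (a * b * c) * c⁻¹ := by group
        rw [this]; exact h.mul_right hcc.inv_right
      obtain ⟨h2, h3⟩ := (Cfsg.Agent.S0436.result hE ha hb he hab h₁).1 h1
      exact ⟨h2, h3, hcc⟩
    exfalso
    by_cases hcb : Commute e b
    · have h1 : Commute e (a * c) := by
        have : a * c = (a * b * c) * b⁻¹ := by
          rw [mul_assoc a b c, h₃.eq]; group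
        rw [this]; exact h.mul_right hcb.inv_right
      exact hcc ((Cfsg.Agent.S0436.result hE ha hc he hac h₂).1 h1).2
    by_cases hca : Commute e a
    · have h1 : Commute e (b * c) := by
        have : b * c = a⁻¹ * (a * b * c) := by group
        rw [this]; exact hca.inv_right.mul_right h
      exact hcc ((Cfsg.Agent.S0436.result hE hb hc he hbc h₃).1 h1).2
    -- all three fail to commute
    have ba : e * a * e = a * e * a := braid hE he ha hca
    have bb : e * b * e = b * e * b := braid hE he hb hcb
    have bc : e * c * e = c * e * c := braid hE he hc hcc
    -- a e a = c b e b c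
    have s2 : a * e * a = c * (b * e * b) * c := by
      have t1 : (a * b * c) * e * (a * b * c) = e := by
        rw [← h.eq, mul_assoc]
        have : a * b * c * (a * b * c) = 1 := by
          calc a * b * c * (a * b * c) = a * b * (c * a) * b * c := by group
            _ = a * b * (a * c) * b * c := by rw [h₂.eq]
            _ = a * (b * a) * (c * b) * c := by group
            _ = a * (a * b) * (b * c) * c := by rw [h₁.eq, h₃.eq]
            _ = (a * a) * (b * b) * (c * c) := by group
            _ = 1 := by rw [ha2, hb2, hc2]; group
        rw [this, mul_one]
      have t2 : a * b * c = c * b * a := by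
        calc a * b * c = a * (b * c) := by group
          _ = a * (c * b) := by rw [h₃.eq]
          _ = (a * c) * b := by group
          _ = (c * a) * b := by rw [h₂.eq]
          _ = c * (a * b) := by group
          _ = c * (b * a) := by rw [h₁.eq]
          _ = c * b * a := by group
      calc a * e * a = a * ((a * b * c) * e * (a * b * c)) * a := by rw [t1]
        _ = a * ((a * b * c) * e * (c * b * a)) * a := by rw [← t2]
        _ = (a * a) * b * c * e * c * b * (a * a) := by group
        _ = (b * c) * e * (c * b) := by rw [ha2]; group
        _ = (c * b) * e * (b * c) := by rw [h₃.eq]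
        _ = c * (b * e * b) * c := by group
    have s3 : e * a * e = c * (e * b * e) * c := by rw [ba, bb, s2]
    have s4 : a = (e * c * e) * b * (e * c * e) := by
      calc a = (e * e) * a * (e * e) := by rw [he2]; group
        _ = e * (e * a * e) * e := by group
        _ = e * (c * (e * b * e) * c) * e := by rw [s3]
        _ = (e * c * e) * b * (e * c * e) := by group
    have s5 : a = c * (e * b * e) * c := by
      calc a = (c * e * c) * b * (c * e * c) := by rw [← bc]; exact s4
        _ = c * e * (c * b) * c * e * c := by group
        _ = c * e * (b * c) * c * e * c := by rw [h₃.eq]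
        _ = c * e * b * (c * c) * e * c := by group
        _ = c * (e * b * e) * c := by rw [hc2]; group
    have s6 : a = e * b * e := by
      calc a = a * (c * c) := by rw [hc2, mul_one]
        _ = (a * c) * c := by group
        _ = (c * a) * c := by rw [h₂.eq]
        _ = c * (c * (e * b * e) * c) * c := by rw [← s5]
        _ = (c * c) * (e * b * e) * (c * c) := by group
        _ = e * b * e := by rw [hc2]; group
    have s7 : a = e := by
      calc a = a * (b * b) := by rw [hb2, mul_one]
        _ = (a * b) * b := by group
        _ = (b * a) * b := by rw [h₁.eq]
        _ = b * (b * e * b) * b := by rw [← bb, ← s6]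
        _ = (b * b) * e * (b * b) := by group
        _ = e := by rw [hb2]; group
    exact hca (s7 ▸ Commute.refl _)
  · rintro ⟨h1, h2, h3⟩
    exact (h1.mul_right h2).mul_right h3

end Cfsg.Agent.S0437
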