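import Cfsg.Statements.S0558
import Cfsg.Agent.S0079
import Cfsg.Agent.Lib.Helper4_Syl
import Cfsg.Agent.Lib.Helper7_SylCount

set_option autoImplicit false
open Cfsg

namespace Cfsg.Agent.S0558

open Cfsg.Agent.Lib.Helper7_Nilp Cfsg.Agent.Lib.Helper4_Syl
open scoped Pointwise

theorem compl_of_fus {G : Type*} [Group G] [Finite G] (H : Subgroup G) (hH : Group.IsNilpotent H)
    (hHall : Nat.Coprime (Nat.card H) H.index)
    (hfus : ∀ r : ℕ, r.Prime → ∀ PH : Sylow r H, ∀ x ∈ (PH : Subgroup H), ∀ y ∈ (PH : Subgroup H),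
      (∃ g : G, g * (x : G) * g⁻¹ = (y : G)) → ∃ h ∈ H, h * (x : G) * h⁻¹ = (y : G)) :
    ∃ N : Subgroup G, N.Normal ∧ N.IsComplement' H := by
  classical
  set π := (Nat.card H).primeFactors with hπ
  have hstep : ∀ r ∈ π, ∃ K : Subgroup G, K.Normal ∧ ¬ r ∣ Nat.card K ∧
      (∃ a : ℕ, K.index = r ^ a) := by
    intro r hr
    have hrp : r.Prime := Nat.prime_of_mem_primeFactors hr
    have hrd : r ∣ Nat.card H := Nat.dvd_of_mem_primeFactors hr
    haveI : Fact r.Prime := ⟨hrp⟩
    obtain ⟨PH⟩ : Nonempty (Sylow r H) := inferInstance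
    have hPHn : (PH : Subgroup H).Normal := inferInstance
    have hri : ¬ r ∣ H.index := fun h =>
      hrp.one_lt.ne' (Nat.eq_one_of_dvd_coprimes hHall hrd h)
    have hcardP : Nat.card ((PH : Subgroup H).map H.subtype) =
        r ^ (Nat.card G).factorization r := by
      rw [Subgroup.card_map_of_injective H.subtype_injective, PH.card_eq_multiplicity,
        ← H.card_mul_index, Nat.factorization_mul Nat.card_pos.ne' Subgroup.index_ne_zero_of_finite,
        Finsupp.add_apply, Nat.factorization_eq_zero_of_not_dvd hri, add_zero]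
    set P : Sylow r G := Sylow.ofCard _ hcardP with hP
    have hPmem : ∀ z, z ∈ (P : Subgroup G) ↔ ∃ w ∈ (PH : Subgroup H), (w : G) = z := by
      intro z
      rw [hP, Sylow.coe_ofCard, Subgroup.mem_map]
      rfl
    have hcompl : Cfsg.HasNormalPComplement r G := by
      rw [Cfsg.Agent.S1946.result P]
      intro a ha _ g hg
      obtain ⟨a', ha', rfl⟩ := (hPmem a).mp ha
      obtain ⟨b', hb', hb⟩ := (hPmem _).mp hg
      obtain ⟨h, hh, hconj⟩ := hfus r hrp PH a' ha' b' hb' ⟨g, hb.symm⟩
      obtain ⟨u, v, huv, ⟨k, hu⟩, hv⟩ := Cfsg.Agent.S0079.exists_parts r (⟨h, hh⟩ : H)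
      have huP : u ∈ (PH : Subgroup H) := mem_sylow_of_orderOf_of_normal PH hPHn hu
      obtain ⟨j, hj⟩ := PH.isPGroup' ⟨a', ha'⟩
      have hj' : a' ^ r ^ j = 1 := by
        have := congrArg Subtype.val hj
        simpa using this
      have hcop : (orderOf v).Coprime (orderOf a') :=
        Nat.Coprime.coprime_dvd_right (orderOf_dvd_of_pow_eq_one hj') (Nat.Coprime.pow_right j hv)
      have hcomm : Commute v a' := commute_of_coprime_orderOf hcop
      refine ⟨(u : G), (hPmem _).mpr ⟨u, huP, rfl⟩, ?_⟩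
      rw [← hb, ← hconj]
      have e1 : h = (u : G) * (v : G) := by
        have := congrArg Subtype.val huv
        simpa using this
      have e2 : (v : G) * (a' : G) = (a' : G) * (v : G) := by
        have := congrArg Subtype.val hcomm.eq
        simpa using this
      rw [e1]
      calc (u : G) * v * a' * ((u : G) * v)⁻¹ = (u : G) * ((v : G) * a') * (v : G)⁻¹ * (u : G)⁻¹ := by
            group
        _ = (u : G) * a' * (u : G)⁻¹ := by rw [e2]; group
    obtain ⟨P', K, hKn, hKc⟩ := hcompl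
    refine ⟨K, hKn, ?_, ?_⟩
    · rw [← hKc.index_eq_card]
      exact P'.not_dvd_index
    · rw [hKc.symm.index_eq_card]
      exact (IsPGroup.iff_card).mp P'.isPGroup'
  choose! K hKn hKc hKi using hstep
  set N : Subgroup G := ⨅ r : π, K r.1 with hN
  have hNn : N.Normal := Subgroup.normal_iInf_normal (fun r => hKn r.1 r.2)
  have hNle : ∀ r ∈ π, N ≤ K r := fun r hr => iInf_le (fun r : π => K r.1) ⟨r, hr⟩
  have hN1 : ∀ r : ℕ, r.Prime → r ∣ Nat.card ↥N → r ∉ π := by
    intro r _ hrd hr
    exact hKc r hr (hrd.trans (Subgroup.card_dvd_of_le (hNle r hr)))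
  have hN2 : ∀ r : ℕ, r.Prime → r ∣ N.index → r ∈ π := by
    intro q hq hqd
    by_contra hqπ
    haveI : Fact q.Prime := ⟨hq⟩
    obtain ⟨Q⟩ : Nonempty (Sylow q G) := inferInstance
    have hQN : (Q : Subgroup G) ≤ N := by
      rw [hN]
      apply le_iInf
      rintro ⟨r, hr⟩
      haveI := hKn r hr
      rw [← Subgroup.relIndex_eq_one]
      obtain ⟨a, ha⟩ := hKi r hr
      obtain ⟨b, hb⟩ := (IsPGroup.iff_card).mp Q.isPGroup'
      have h1 : (K r).relIndex (Q : Subgroup G) ∣ r ^ a := by
        rw [← ha]; exact Subgroup.relIndex_dvd_index_of_normal _ _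
      have h2 : (K r).relIndex (Q : Subgroup G) ∣ q ^ b := by
        rw [← hb]; exact Subgroup.relIndex_dvd_card _ _
      have hne : r ≠ q := fun h => hqπ (h ▸ hr)
      have hcop : (r ^ a).Coprime (q ^ b) :=
        Nat.Coprime.pow a b ((Nat.coprime_primes (Nat.prime_of_mem_primeFactors hr) hq).mpr hne)
      exact Nat.eq_one_of_dvd_coprimes hcop h1 h2
    exact Q.not_dvd_index (hqd.trans (Subgroup.index_dvd_of_le hQN))
  have hmemπ : ∀ r : ℕ, r.Prime → r ∣ Nat.card H → r ∈ π := fun r hr hrd =>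
    Nat.mem_primeFactors.mpr ⟨hr, hrd, Nat.card_pos.ne'⟩
  have hc1 : (Nat.card N).Coprime (Nat.card H) :=
    Nat.coprime_of_dvd fun k hk1 hk2 hk3 => hN1 k hk1 hk2 (hmemπ k hk1 hk3)
  have hc2 : (H.index).Coprime (N.index) :=
    Nat.coprime_of_dvd fun k hk1 hk2 hk3 =>
      hk1.one_lt.ne' (Nat.eq_one_of_dvd_coprimes hHall
        (Nat.dvd_of_mem_primeFactors (hN2 k hk1 hk3)) hk2)
  have heq : Nat.card N * N.index = Nat.card H * H.index := by
    rw [Subgroup.card_mul_index, Subgroup.card_mul_index]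
  have hd1 : Nat.card N ∣ H.index :=
    hc1.dvd_of_dvd_mul_left (heq ▸ Dvd.intro _ rfl)
  have hd2 : H.index ∣ Nat.card N :=
    hc2.dvd_of_dvd_mul_right (heq.symm ▸ Dvd.intro_left _ rfl)
  have hcardN : Nat.card N = H.index := Nat.dvd_antisymm hd1 hd2
  refine ⟨N, hNn, Subgroup.isComplement'_of_coprime ?_ hc1⟩
  rw [hcardN, mul_comm, Subgroup.card_mul_index]

/-- Let H be a subgroup of a finite group G that is not a Sylow subgroup of G for any prime, and suppose that for every prime p dividing the order of H and every Sylow p-subgroup P of H the normalizer of P in G is exactly H. Then some normal subgroup of G is a complement to H. -/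
theorem result {G : Type*} [Group G] [Finite G] (H : Subgroup G) (hnot : ∀ p : ℕ, p.Prime → ∀ P : Sylow p G, (P : Subgroup G) ≠ H) (hnorm : ∀ p : ℕ, p.Prime → p ∣ Nat.card H → ∀ P : Sylow p H, Subgroup.normalizer (((P : Subgroup H).map H.subtype : Subgroup G) : Set G) = H) : ∃ N : Subgroup G, N.Normal ∧ Subgroup.IsComplement' N H := by
  classical
  -- Sylow subgroups of H are normal
  have hnormal : ∀ (p : ℕ) (_hp : Fact p.Prime) (P : Sylow p H), (P : Subgroup H).Normal := by
    intro p hp P
    by_cases hd : p ∣ Nat.card H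
    · have h1 := hnorm p hp.out hd P
      constructor
      intro n hn g
      have hg : (g : G) ∈ Subgroup.normalizer (((P : Subgroup H).map H.subtype : Subgroup G) : Set G) := by
        rw [h1]; exact g.2
      rw [Subgroup.mem_normalizer_iff] at hg
      have h2 := (hg (n : G)).mp (Subgroup.mem_map.mpr ⟨n, hn, rfl⟩)
      obtain ⟨w, hw, hw'⟩ := Subgroup.mem_map.mp h2
      have : w = g * n * g⁻¹ := Subtype.ext (by simpa using hw')
      rwa [← this]
    · have : (P : Subgroup H) = ⊥ := by
        have h0 := P.card_eq_multiplicity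
        rw [Nat.factorization_eq_zero_of_not_dvd hd, pow_zero] at h0
        exact Subgroup.eq_bot_of_card_eq _ h0
      rw [this]; infer_instance
  have hH : Group.IsNilpotent H := ((Group.isNilpotent_of_finite_tfae (G := H)).out 0 3).mpr hnormal
  -- Sylow subgroups of H are Sylow in G
  have hsyl : ∀ p : ℕ, p.Prime → p ∣ Nat.card H → ∀ P : Sylow p H, ∃ P' : Sylow p G,
      (P' : Subgroup G) = (P : Subgroup H).map H.subtype := by
    intro p hp hd P
    haveI : Fact p.Prime := ⟨hp⟩
    have h1 := IsSylIn.of_sylow H P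
    have h2 := h1.of_normalizer_le (L := ⊤) le_top (by rw [hnorm p hp hd P]; exact inf_le_right)
    exact h2.exists_sylow_top
  have hHall : Nat.Coprime (Nat.card H) H.index := by
    apply Nat.coprime_of_dvd
    intro p hp hd hi
    haveI : Fact p.Prime := ⟨hp⟩
    obtain ⟨P⟩ : Nonempty (Sylow p H) := inferInstance
    obtain ⟨P', hP'⟩ := hsyl p hp hd P
    apply P'.not_dvd_index
    refine hi.trans (Subgroup.index_dvd_of_le ?_)
    rw [hP']; exact Subgroup.map_subtype_le _
  apply compl_of_fus H hH hHall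
  intro r hr PH x hx y hy ⟨g, hg⟩
  haveI : Fact r.Prime := ⟨hr⟩
  by_cases hd : r ∣ Nat.card H
  swap
  · have : (PH : Subgroup H) = ⊥ := by
      have h0 := PH.card_eq_multiplicity
      rw [Nat.factorization_eq_zero_of_not_dvd hd, pow_zero] at h0
      exact Subgroup.eq_bot_of_card_eq _ h0
    rw [this, Subgroup.mem_bot] at hx hy
    subst hx; subst hy
    exact ⟨1, H.one_mem, by simp⟩
  -- another prime
  have hq : ∃ q : ℕ, q.Prime ∧ q ≠ r ∧ q ∣ Nat.card H := by
    by_contra hcon
    push_neg at hcon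
    obtain ⟨P', hP'⟩ := hsyl r hr hd PH
    apply hnot r hr P'
    rw [hP']
    have h1 : Nat.card (PH : Subgroup H) = Nat.card H := by
      rw [PH.card_eq_multiplicity]
      have h2 : Nat.card H ≠ 0 := Nat.card_pos.ne'
      conv_rhs => rw [← Nat.factorization_prod_pow_eq_self h2]
      rw [Finsupp.prod_of_support_subset (s := {r})]
      · simp
      · intro q hq'
        rw [Nat.support_factorization] at hq'
        have hqp := Nat.prime_of_mem_primeFactors hq'
        have hqd := Nat.dvd_of_mem_primeFactors hq'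
        by_contra hne
        exact hcon q hqp (by simpa using hne) hqd
      · intro i _; simp
    have h3 : (PH : Subgroup H) = ⊤ := Subgroup.eq_top_of_card_eq _ h1
    rw [h3, ← MonoidHom.range_eq_map, Subgroup.range_subtype]
  obtain ⟨q, hqp, hqr, hqd⟩ := hq
  haveI : Fact q.Prime := ⟨hqp⟩
  obtain ⟨QH⟩ : Nonempty (Sylow q H) := inferInstance
  obtain ⟨R, hR⟩ := hsyl q hqp hqd QH
  have hcomm : ∀ z ∈ (PH : Subgroup H), ∀ w ∈ (R : Subgroup G), w * (z : G) = (z : G) * w := by
    intro z hz w hw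
    rw [hR] at hw
    obtain ⟨w', hw', rfl⟩ := Subgroup.mem_map.mp hw
    obtain ⟨j, hj⟩ := PH.isPGroup' ⟨z, hz⟩
    obtain ⟨k, hk⟩ := QH.isPGroup' ⟨w', hw'⟩
    have hj' : z ^ r ^ j = 1 := by simpa using congrArg Subtype.val hj
    have hk' : w' ^ q ^ k = 1 := by simpa using congrArg Subtype.val hk
    have hcop : (orderOf w').Coprime (orderOf z) :=
      Nat.Coprime.coprime_dvd_left (orderOf_dvd_of_pow_eq_one hk')
        (Nat.Coprime.coprime_dvd_right (orderOf_dvd_of_pow_eq_one hj')
          (Nat.Coprime.pow k j ((Nat.coprime_primes hqp hr).mpr hqr)))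
    have := (commute_of_coprime_orderOf hcop).eq
    simpa using congrArg Subtype.val this
  have h1 : (R : Subgroup G) ≤ Subgroup.centralizer ({(y : G)} : Set G) := by
    intro w hw
    rw [Subgroup.mem_centralizer_singleton_iff]
    exact hcomm y hy w hw
  have h2 : ((g • R : Sylow q G) : Subgroup G) ≤ Subgroup.centralizer ({(y : G)} : Set G) := by
    intro w hw
    rw [Sylow.coe_subgroup_smul, mem_conj_smul] at hw
    rw [Subgroup.mem_centralizer_singleton_iff, ← hg]
    have := hcomm x hx _ hw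
    calc w * (g * (x : G) * g⁻¹) = g * ((g⁻¹ * w * g) * (x : G)) * g⁻¹ := by group
      _ = g * ((x : G) * (g⁻¹ * w * g)) * g⁻¹ := by rw [this]
      _ = g * (x : G) * g⁻¹ * w := by group
  obtain ⟨l, hl, hlR⟩ := Cfsg.Agent.Lib.Helper7_SylCount.conj_in_sub _ (g • R) R h2 h1
  rw [← mul_smul, Sylow.smul_eq_iff_mem_normalizer] at hlR
  have h3 : l * g ∈ H := by
    have h4 := hnorm q hqp hqd QH
    rw [← hR] at h4
    rw [← h4]; exact hlR
  refine ⟨l * g, h3, ?_⟩
  rw [Subgroup.mem_centralizer_singleton_iff] at hl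
  calc l * g * (x : G) * (l * g)⁻¹ = l * (g * (x : G) * g⁻¹) * l⁻¹ := by group
    _ = l * (y : G) * l⁻¹ := by rw [hg]
    _ = (y : G) := by rw [hl]; group

end Cfsg.Agent.S0558
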