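import Mathlib
import Cfsg.Agent.Lib.helper6_MinNormalPower
import Cfsg.Agent.Lib.helper6_Transport
import Cfsg.Statements.S0721

set_option autoImplicit false
open Cfsg

namespace Cfsg.Agent.S0721

/-- A minimal normal subgroup of a finite group is isomorphic to a direct power `T ^ m` of a simple group `T` (possibly of prime order). -/
theorem result {H : Type*} [Group H] [Finite H] (N : Subgroup H) [N.Normal] (hN : N ≠ ⊥) (hmin : ∀ M : Subgroup H, M.Normal → M ≤ N → M = ⊥ ∨ M = N) : ∃ (T : Type) (_ : Group T) (m : ℕ), IsSimpleGroup T ∧ 0 < m ∧ Nonempty (N ≃* (Fin m → T)) := by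
  classical
  have hnt : Nontrivial N := (Subgroup.nontrivial_iff_ne_bot N).2 hN
  obtain ⟨T, m, hs, hm, ⟨e⟩⟩ := Cfsg.Agent.Lib.helper6_MinNormalPower.power_of_simple (G := N)
    (MulAut.conjNormal : H →* MulAut N).range (by
      intro K hK
      have hKn : (K.map N.subtype).Normal := by
        refine ⟨?_⟩
        rintro _ ⟨k, hk, rfl⟩ h
        exact ⟨MulAut.conjNormal h k, hK _ ⟨h, rfl⟩ k hk, rfl⟩
      rcases hmin _ hKn (Subgroup.map_subtype_le K) with h | h
      · left
        rwa [Subgroup.map_eq_bot_iff_of_injective _ N.subtype_injective] at h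
      · right
        rw [eq_top_iff]
        intro x _
        have : (x : H) ∈ K.map N.subtype := by rw [h]; exact x.2
        obtain ⟨k, hk, hkx⟩ := this
        have : k = x := Subtype.ext hkx
        exact this ▸ hk)
  obtain ⟨T0, _, _, ⟨e0⟩⟩ := Cfsg.Agent.Lib.helper6_Transport.exists_type0_model T
  exact ⟨T0, inferInstance, m, e0.isSimpleGroup, hm,
    ⟨e.trans (MulEquiv.arrowCongr (Equiv.refl _) e0.symm)⟩⟩

end Cfsg.Agent.S0721
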