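import Cfsg.Statements.S0986
import Cfsg.Agent.Lib.Helper4_Syl

set_option autoImplicit false
open Cfsg

namespace Cfsg.Agent.S0986

open scoped Pointwise
open Cfsg.Agent.Lib.Helper4_Syl

/-- Let P and Q be distinct Sylow p-subgroups of a finite group G chosen so that the order of P ∩ Q is as large as possible among intersections of two distinct Sylow p-subgroups, and let N be the normalizer of P ∩ Q. Then N has more than one Sylow p-subgroup, any two distinct Sylow p-subgroups of N intersect exactly in P ∩ Q, and each Sylow p-subgroup of N lies in exactly one Sylow p-subgroup of G. -/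
theorem result {G : Type*} [Group G] [Finite G] (p : ℕ) [Fact p.Prime] (P Q : Sylow p G) (hPQ : P ≠ Q) (hmax : ∀ P' Q' : Sylow p G, P' ≠ Q' → Nat.card ↥((P' : Subgroup G) ⊓ (Q' : Subgroup G)) ≤ Nat.card ↥((P : Subgroup G) ⊓ (Q : Subgroup G))) : 1 < Nat.card (Sylow p ↥(Subgroup.normalizer (((P : Subgroup G) ⊓ (Q : Subgroup G) : Subgroup G) : Set G))) ∧ (∀ S T : Sylow p ↥(Subgroup.normalizer (((P : Subgroup G) ⊓ (Q : Subgroup G) : Subgroup G) : Set G)), S ≠ T → (S : Subgroup _) ⊓ (T : Subgroup _) = ((P : Subgroup G) ⊓ (Q : Subgroup G)).subgroupOf (Subgroup.normalizer (((P : Subgroup G) ⊓ (Q : Subgroup G) : Subgroup G) : Set G))) ∧ ∀ S : Sylow p ↥(Subgroup.normalizer (((P : Subgroup G) ⊓ (Q : Subgroup G) : Subgroup G) : Set G)), ∃! T : Sylow p G, (S : Subgroup _).map (Subgroup.normalizer (((P : Subgroup G) ⊓ (Q : Subgroup G) : Subgroup G) : Set G)).subtype ≤ (T : Subgroup G) := by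
  generalize hD : (P : Subgroup G) ⊓ (Q : Subgroup G) = D at hmax ⊢
  have hDP : D ≤ (P : Subgroup G) := hD ▸ inf_le_left
  have hDQ : D ≤ (Q : Subgroup G) := hD ▸ inf_le_right
  have hDp : IsPGroup p ↥D := P.2.to_le hDP
  have hneP : D ≠ (P : Subgroup G) := by
    intro h
    apply hPQ
    have h1 : (P : Subgroup G) ≤ Q := h ▸ hDQ
    exact (Sylow.ext (P.3 Q.2 h1)).symm
  have hneQ : D ≠ (Q : Subgroup G) := by
    intro h
    apply hPQ
    have h1 : (Q : Subgroup G) ≤ P := h ▸ hDP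
    exact Sylow.ext (Q.3 P.2 h1)
  obtain ⟨xP, hxP, hxPD, hxPN⟩ := exists_mem_normalizer_not_mem P.2 hDP hneP
  obtain ⟨xQ, hxQ, hxQD, hxQN⟩ := exists_mem_normalizer_not_mem Q.2 hDQ hneQ
  have F2 : ∀ T₁ T₂ : Sylow p G, D ≤ (T₁ : Subgroup G) ⊓ T₂ →
      (∃ x ∈ (T₁ : Subgroup G) ⊓ T₂, x ∉ D) → T₁ = T₂ := by
    intro T₁ T₂ hle ⟨x, hx, hxD⟩
    by_contra hne
    have h1 := Subgroup.eq_of_le_of_card_ge hle (hmax T₁ T₂ hne)
    exact hxD (h1 ▸ hx)
  have F3 : ∀ X : Subgroup G, IsSylIn p X (Subgroup.normalizer (D : Set G)) → D ≤ X := by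
    intro X hX
    have h1 : IsPGroup p ↥(X ⊔ D : Subgroup G) :=
      IsPGroup.to_sup_of_normal_right' hX.isPGroup hDp hX.le
    have h2 := hX.eq_of_le (sup_le hX.le Subgroup.le_normalizer) h1 le_sup_left
    rw [← h2]; exact le_sup_right
  have F4 : ∀ X : Subgroup G, IsSylIn p X (Subgroup.normalizer (D : Set G)) →
      ∃ x ∈ X, x ∉ D := by
    intro X hX
    obtain ⟨X', hX', hle⟩ := exists_isSylIn_ge (p := p)
      (inf_le_right : (P : Subgroup G) ⊓ Subgroup.normalizer (D : Set G) ≤ _)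
      (P.2.to_le inf_le_left)
    obtain ⟨n, hn, hnX⟩ := hX'.conj hX
    refine ⟨n * xP * n⁻¹, ?_, ?_⟩
    · rw [← hnX]; exact conj_mem_conj_smul (hle ⟨hxP, hxPN⟩)
    · intro h
      apply hxPD
      exact (Subgroup.mem_normalizer_iff.1 hn xP).2 h
  have hmemmap : ∀ (S : Sylow p ↥(Subgroup.normalizer (D : Set G)))
      (y : ↥(Subgroup.normalizer (D : Set G))),
      (y : G) ∈ (S : Subgroup _).map (Subgroup.normalizer (D : Set G)).subtype ↔
        y ∈ (S : Subgroup _) := by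
    intro S y
    constructor
    · rintro ⟨z, hz, hzy⟩
      have : z = y := Subtype.ext hzy
      exact this ▸ hz
    · intro h; exact ⟨y, h, rfl⟩
  refine ⟨?_, ?_, ?_⟩
  · by_contra hcon
    have hsub : Subsingleton (Sylow p ↥(Subgroup.normalizer (D : Set G))) := by
      rw [← Finite.card_le_one_iff_subsingleton]; omega
    obtain ⟨X₁, hX₁, hle₁⟩ := exists_isSylIn_ge (p := p)
      (inf_le_right : (P : Subgroup G) ⊓ Subgroup.normalizer (D : Set G) ≤ _)
      (P.2.to_le inf_le_left)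
    obtain ⟨X₂, hX₂, hle₂⟩ := exists_isSylIn_ge (p := p)
      (inf_le_right : (Q : Subgroup G) ⊓ Subgroup.normalizer (D : Set G) ≤ _)
      (Q.2.to_le inf_le_left)
    obtain ⟨S₁, rfl⟩ := hX₁.exists_sylow
    obtain ⟨S₂, rfl⟩ := hX₂.exists_sylow
    rw [Subsingleton.elim S₂ S₁] at hle₂
    obtain ⟨T, hT⟩ := hX₁.isPGroup.exists_le_sylow
    have h1 : P = T := F2 P T (le_inf hDP ((F3 _ hX₁).trans hT))
      ⟨xP, ⟨hxP, hT (hle₁ ⟨hxP, hxPN⟩)⟩, hxPD⟩
    have h2 : Q = T := F2 Q T (le_inf hDQ ((F3 _ hX₁).trans hT))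
      ⟨xQ, ⟨hxQ, hT (hle₂ ⟨hxQ, hxQN⟩)⟩, hxQD⟩
    exact hPQ (h1.trans h2.symm)
  · intro S T hST
    have hS := IsSylIn.of_sylow (Subgroup.normalizer (D : Set G)) S
    have hT := IsSylIn.of_sylow (Subgroup.normalizer (D : Set G)) T
    obtain ⟨T₁, hT₁⟩ := hS.isPGroup.exists_le_sylow
    obtain ⟨T₂, hT₂⟩ := hT.isPGroup.exists_le_sylow
    have hne : T₁ ≠ T₂ := by
      rintro rfl
      have h1 := hS.eq_of_le (inf_le_right : (T₁ : Subgroup G) ⊓ Subgroup.normalizer (D : Set G) ≤ _)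
        (T₁.2.to_le inf_le_left) (le_inf hT₁ hS.le)
      have h2 := hT.eq_of_le (inf_le_right : (T₁ : Subgroup G) ⊓ Subgroup.normalizer (D : Set G) ≤ _)
        (T₁.2.to_le inf_le_left) (le_inf hT₂ hT.le)
      apply hST
      apply Sylow.ext
      exact Subgroup.map_injective (Subgroup.normalizer (D : Set G)).subtype_injective
        (h1.symm.trans h2)
    have hle : D ≤ (T₁ : Subgroup G) ⊓ T₂ := le_inf ((F3 _ hS).trans hT₁) ((F3 _ hT).trans hT₂)
    have heq := Subgroup.eq_of_le_of_card_ge hle (hmax T₁ T₂ hne)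
    ext y
    rw [Subgroup.mem_inf, Subgroup.mem_subgroupOf]
    constructor
    · rintro ⟨h1, h2⟩
      have h3 : (y : G) ∈ (T₁ : Subgroup G) ⊓ T₂ :=
        ⟨hT₁ ((hmemmap S y).2 h1), hT₂ ((hmemmap T y).2 h2)⟩
      exact heq.symm.le h3
    · intro h
      exact ⟨(hmemmap S y).1 (F3 _ hS h), (hmemmap T y).1 (F3 _ hT h)⟩
  · intro S
    have hS := IsSylIn.of_sylow (Subgroup.normalizer (D : Set G)) S
    obtain ⟨T, hT⟩ := hS.isPGroup.exists_le_sylow
    refine ⟨T, hT, ?_⟩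
    intro T' hT'
    obtain ⟨x, hx, hxD⟩ := F4 _ hS
    exact F2 T' T (le_inf ((F3 _ hS).trans hT') ((F3 _ hS).trans hT)) ⟨x, ⟨hT' hx, hT hx⟩, hxD⟩

end Cfsg.Agent.S0986
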