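import Cfsg.Statements.S5560

import Mathlib
import Cfsg.Agent.Lib.Helper7_ZStar2
import Cfsg.Agent.Lib.Helper7_InvSyl
import Cfsg.Agent.Lib.Helper7_Idx
set_option autoImplicit false
open Cfsg

namespace Cfsg.Agent.S5560


/-- A Z*-type result for an odd prime p. Let G be a finite group and d an involution of G such that the product of any two conjugates of d has order a power of p. Then the product of any two conjugates of d lies in the largest normal p-subgroup O_p(G); in other words the conjugacy class of d lies in the coset O_p(G)d, and d is central modulo O_p(G). -/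
theorem result {G : Type*} [Group G] [Finite G] {p : ℕ} (hp : p.Prime) (hp2 : p ≠ 2)
    (d : G) (hd : orderOf d = 2)
    (hprod : ∀ a ∈ conjugatesOf d, ∀ b ∈ conjugatesOf d, ∃ k : ℕ, orderOf (a * b) = p ^ k) :
    ∀ a ∈ conjugatesOf d, ∀ b ∈ conjugatesOf d, a * b ∈ Cfsg.pCore p G := by
  haveI : Fact p.Prime := ⟨hp⟩
  have hdd : d * d = 1 := by rw [← pow_two, ← hd, pow_orderOf_eq_one]
  have hdi : d⁻¹ = d := inv_eq_of_mul_eq_one_left hdd
  have mc : ∀ {a : G}, a ∈ conjugatesOf d ↔ IsConj d a := Iff.rfl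
  have hmem : ∀ g : G, g * d * g⁻¹ ∈ conjugatesOf d := fun g =>
    mc.mpr (isConj_iff.mpr ⟨g, rfl⟩)
  have hself : d ∈ conjugatesOf d := mem_conjugatesOf_self
  have hiso : Cfsg.IsIsolatedInvolution d := by
    refine ⟨hd, fun g hc => ?_⟩
    obtain ⟨k, hk⟩ := hprod d hself _ (hmem g)
    have hxx : (g * d * g⁻¹) * (g * d * g⁻¹) = 1 := by
      calc (g * d * g⁻¹) * (g * d * g⁻¹) = g * (d * d) * g⁻¹ := by group
        _ = 1 := by rw [hdd]; group
    have h1 : (d * (g * d * g⁻¹)) ^ 2 = 1 := by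
      rw [hc.mul_pow, pow_two, pow_two, hdd, hxx, one_mul]
    have h2 := orderOf_dvd_of_pow_eq_one h1
    rw [hk] at h2
    have hk0 : k = 0 := by
      by_contra h0
      have h3 : p ∣ 2 := (dvd_pow_self p h0).trans h2
      exact hp2 ((Nat.prime_dvd_prime_iff_eq hp Nat.prime_two).mp h3)
    rw [hk0, pow_zero, orderOf_eq_one_iff] at hk
    have : g * d * g⁻¹ = d⁻¹ := eq_inv_of_mul_eq_one_right hk
    rw [this, hdi]
  set S0 : Set G := {w | ∃ a ∈ conjugatesOf d, ∃ b ∈ conjugatesOf d, w = a * b} with hS0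
  set W : Subgroup G := Subgroup.normalClosure S0 with hW
  haveI hWn : W.Normal := Subgroup.normalClosure_normal
  haveI hOn : (Cfsg.pPrimeCore 2 G).Normal := Cfsg.Agent.Lib.Helper7_ZStar2.core_normal
  have hS0W : S0 ⊆ W := Subgroup.subset_normalClosure
  have hWO : W ≤ Cfsg.pPrimeCore 2 G := by
    apply Subgroup.normalClosure_le_normal
    rintro _ ⟨a, ha, b, hb, rfl⟩
    obtain ⟨g, rfl⟩ := isConj_iff.mp (mc.mp ha)
    obtain ⟨h, rfl⟩ := isConj_iff.mp (mc.mp hb)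
    have h1 := Subgroup.inv_mem _ (Cfsg.Agent.Lib.Helper7_ZStar.zstar hiso g)
    have h2 := Cfsg.Agent.Lib.Helper7_ZStar.zstar hiso h
    have e : g * d * g⁻¹ * (h * d * h⁻¹) = (d * g * d⁻¹ * g⁻¹)⁻¹ * (d * h * d⁻¹ * h⁻¹) := by
      have e0 : (d * g * d⁻¹ * g⁻¹)⁻¹ * (d * h * d⁻¹ * h⁻¹) = g * d * g⁻¹ * (h * d⁻¹ * h⁻¹) := by group
      rw [e0, hdi]
    rw [e]
    exact Subgroup.mul_mem _ h1 h2
  have hWodd : Odd (Nat.card W) :=
    Odd.of_dvd_nat Cfsg.Agent.Lib.Helper7_ZStar2.core_odd (Subgroup.card_dvd_of_le hWO)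
  set C : Subgroup W := (Subgroup.centralizer ({d} : Set G)).subgroupOf W with hC
  have hq : ∀ q : ℕ, q.Prime → q ∣ C.index → q = p := by
    intro q hqp hqd
    by_contra hne
    haveI : Fact q.Prime := ⟨hqp⟩
    obtain ⟨Q, hQ⟩ := Cfsg.Agent.Lib.Helper7_InvSyl.exists_invariant_sylow W hWodd hdd q
    have hQC : (Q : Subgroup W) ≤ C := by
      intro y hy
      have h1 := hQ y hy
      have h2 : (⟨d * y * d⁻¹, hWn.conj_mem _ y.2 d⟩ : W) * y⁻¹ ∈ (Q : Subgroup W) :=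
        Subgroup.mul_mem _ h1 (Subgroup.inv_mem _ hy)
      obtain ⟨i, hi⟩ := (IsPGroup.iff_orderOf.mp Q.2) ⟨_, h2⟩
      rw [← Subgroup.orderOf_coe, ← Subgroup.orderOf_coe] at hi
      have e : (((⟨(⟨d * y * d⁻¹, hWn.conj_mem _ y.2 d⟩ : W) * y⁻¹, h2⟩ : (Q : Subgroup W)) : W) : G) =
          d * ((y : G) * d * (y : G)⁻¹) := by
        show d * (y : G) * d⁻¹ * (y : G)⁻¹ = _
        rw [hdi]; group
      rw [e] at hi
      obtain ⟨k, hk⟩ := hprod d hself _ (hmem (y : G))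
      have hcop : Nat.Coprime (q ^ i) (p ^ k) :=
        Nat.Coprime.pow _ _ ((Nat.coprime_primes hqp hp).mpr hne)
      rw [← hi, ← hk, Nat.coprime_self, orderOf_eq_one_iff] at hcop
      rw [hC, Subgroup.mem_subgroupOf, Subgroup.mem_centralizer_singleton_iff]
      have h3 : (y : G) * d * (y : G)⁻¹ = d⁻¹ := eq_inv_of_mul_eq_one_right hcop
      rw [hdi] at h3
      exact mul_inv_eq_iff_eq_mul.mp h3
    exact Q.not_dvd_index (hqd.trans (Subgroup.index_dvd_of_le hQC))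
  have hCidx : C.index = p ^ C.index.primeFactorsList.length :=
    Nat.eq_prime_pow_of_unique_prime_dvd Subgroup.index_ne_zero_of_finite (fun {q} h1 h2 => hq q h1 h2)
  obtain ⟨P, hP⟩ := Cfsg.Agent.Lib.Helper7_InvSyl.exists_invariant_sylow W hWodd hdd p
  have hcop : (P : Subgroup W).index.Coprime C.index := by
    rw [hCidx]
    apply Nat.Coprime.pow_right
    exact ((Nat.Prime.coprime_iff_not_dvd hp).mpr P.not_dvd_index).symm
  have hconj : ∀ a ∈ conjugatesOf d, ∃ y : W, y ∈ P ∧ a = (y : G) * d * (y : G)⁻¹ := by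
    intro a ha
    obtain ⟨g, rfl⟩ := isConj_iff.mp (mc.mp ha)
    obtain ⟨i, hi⟩ := Cfsg.Agent.Lib.Helper2_Isolated.exists_pow_conj hiso g
    have hw : (g * d * g⁻¹ * d) ^ i ∈ W :=
      Subgroup.pow_mem _ (hS0W ⟨_, hmem g, d, hself, rfl⟩) i
    obtain ⟨y, hy, c, hc, hyc⟩ :=
      Cfsg.Agent.Lib.Helper7_Idx.exists_mul_of_coprime_index (P : Subgroup W) C hcop ⟨_, hw⟩
    refine ⟨y, hy, ?_⟩
    have hyc' : (g * d * g⁻¹ * d) ^ i = (y : G) * (c : G) := congrArg Subtype.val hyc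
    rw [hC, Subgroup.mem_subgroupOf, Subgroup.mem_centralizer_singleton_iff] at hc
    rw [← hi, hyc']
    calc (y : G) * (c : G) * d * ((y : G) * (c : G))⁻¹ = (y : G) * ((c : G) * d) * (c : G)⁻¹ * (y : G)⁻¹ := by group
      _ = (y : G) * (d * (c : G)) * (c : G)⁻¹ * (y : G)⁻¹ := by rw [hc]
      _ = (y : G) * d * (y : G)⁻¹ := by group
  have hS0P : S0 ⊆ ((P : Subgroup W).map W.subtype : Subgroup G) := by
    rintro _ ⟨a, ha, b, hb, rfl⟩
    obtain ⟨y1, hy1, rfl⟩ := hconj a ha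
    obtain ⟨y2, hy2, rfl⟩ := hconj b hb
    have h1 := hP (y1⁻¹ * y2) (Subgroup.mul_mem _ (Subgroup.inv_mem _ hy1) hy2)
    refine ⟨y1 * ⟨d * ((y1⁻¹ * y2 : W) : G) * d⁻¹, hWn.conj_mem _ (y1⁻¹ * y2 : W).2 d⟩ * y2⁻¹,
      Subgroup.mul_mem _ (Subgroup.mul_mem _ hy1 h1) (Subgroup.inv_mem _ hy2), ?_⟩
    show (y1 : G) * (d * ((y1 : G)⁻¹ * (y2 : G)) * d⁻¹) * (y2 : G)⁻¹ = _
    rw [hdi]; group
  have hWP : W ≤ (P : Subgroup W).map W.subtype := by
    show Subgroup.closure (Group.conjugatesOfSet S0) ≤ _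
    rw [Subgroup.closure_le]
    intro x hx
    obtain ⟨w, hw, hwx⟩ := Group.mem_conjugatesOfSet_iff.mp hx
    obtain ⟨c, rfl⟩ := isConj_iff.mp hwx
    obtain ⟨a, ha, b, hb, rfl⟩ := hw
    apply hS0P
    refine ⟨c * a * c⁻¹, ?_, c * b * c⁻¹, ?_, by group⟩
    · exact mc.mpr ((mc.mp ha).trans (isConj_iff.mpr ⟨c, rfl⟩))
    · exact mc.mpr ((mc.mp hb).trans (isConj_iff.mpr ⟨c, rfl⟩))
  have hWp : IsPGroup p W := (P.2.map W.subtype).to_le hWP
  intro a ha b hb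
  exact Cfsg.Agent.Lib.Helper4_Core.le_pCore hWn hWp (hS0W ⟨a, ha, b, hb, rfl⟩)

end Cfsg.Agent.S5560
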