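import Cfsg.Statements.S1618

import Mathlib
import Cfsg.Agent.S5560
import Cfsg.Agent.Lib.Helper4_Core
set_option autoImplicit false
open Cfsg

namespace Cfsg.Agent.S1618


/-- A group generated by a class of involutions whose pairwise products (of distinct members) have p-power order for a fixed odd prime p has nilpotent derived subgroup. -/
theorem result {G : Type*} [Group G] [Finite G] (p : ℕ) (hp : p.Prime) (hodd : p ≠ 2) {D : Set G} (hinv : ∀ d ∈ D, orderOf d = 2) (hconj : ∃ d ∈ D, D = conjugatesOf d) (hgen : Subgroup.closure D = ⊤) (hprod : ∀ x ∈ D, ∀ y ∈ D, x ≠ y → ∃ k : ℕ, orderOf (x * y) = p ^ k) : Group.IsNilpotent ↥(commutator G) := by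
  haveI : Fact p.Prime := ⟨hp⟩
  obtain ⟨d, hdD, rfl⟩ := hconj
  have hd := hinv d hdD
  have hprod' : ∀ a ∈ conjugatesOf d, ∀ b ∈ conjugatesOf d, ∃ k : ℕ, orderOf (a * b) = p ^ k := by
    intro a ha b hb
    by_cases hab : a = b
    · refine ⟨0, ?_⟩
      subst hab
      have : a * a = 1 := by rw [← pow_two, ← hinv a ha, pow_orderOf_eq_one]
      rw [this, orderOf_one, pow_zero]
    · exact hprod a ha b hb hab
  have key := Cfsg.Agent.S5560.result hp hodd d hd hprod'
  haveI hRn : (Cfsg.pCore p G).Normal := Cfsg.Agent.Lib.Helper3_Core.rad_normal (Cfsg.Agent.Lib.Helper3_Core.fitClass_isPGroup p)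
  have hall : ∀ g : G, (QuotientGroup.mk g : G ⧸ Cfsg.pCore p G) = 1 ∨
      (QuotientGroup.mk g : G ⧸ Cfsg.pCore p G) = (QuotientGroup.mk d : G ⧸ Cfsg.pCore p G) := by
    intro g
    have hg : g ∈ Subgroup.closure (conjugatesOf d) := by rw [hgen]; exact Subgroup.mem_top g
    have hdd : (QuotientGroup.mk d : G ⧸ Cfsg.pCore p G) * QuotientGroup.mk d = 1 := by
      rw [← QuotientGroup.mk_mul, QuotientGroup.eq_one_iff]
      exact key d hdD d hdD
    induction hg using Subgroup.closure_induction with
    | mem x hx =>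
      right
      have h1 : (QuotientGroup.mk x : G ⧸ Cfsg.pCore p G) * QuotientGroup.mk d = 1 := by
        rw [← QuotientGroup.mk_mul, QuotientGroup.eq_one_iff]
        exact key x hx d hdD
      exact mul_right_cancel (h1.trans hdd.symm)
    | one => left; rfl
    | mul x y _ _ hx hy =>
      rw [QuotientGroup.mk_mul]
      rcases hx with hx | hx <;> rcases hy with hy | hy <;> rw [hx, hy]
      · left; simp
      · right; simp
      · right; simp
      · left; exact hdd
    | inv x _ hx =>
      rw [QuotientGroup.mk_inv]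
      rcases hx with hx | hx <;> rw [hx]
      · left; simp
      · right; exact inv_eq_of_mul_eq_one_left hdd
  have hle : commutator G ≤ Cfsg.pCore p G := by
    rw [commutator_def, Subgroup.commutator_le]
    intro x _ y _
    rw [← QuotientGroup.eq_one_iff, commutatorElement_def, QuotientGroup.mk_mul, QuotientGroup.mk_mul,
      QuotientGroup.mk_mul, QuotientGroup.mk_inv, QuotientGroup.mk_inv]
    rcases hall x with hx | hx <;> rcases hall y with hy | hy <;> rw [hx, hy] <;> simp
  have hpg : IsPGroup p (commutator G) := (Cfsg.Agent.Lib.Helper4_Core.pCore_isPGroup p G).to_le hle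
  exact hpg.isNilpotent

end Cfsg.Agent.S1618
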