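import Cfsg.Statements.S1892
import Cfsg.Agent.Lib.Helper4_PSol

set_option autoImplicit false
open Cfsg

namespace Cfsg.Agent.S1892

open Cfsg.Agent.Lib.Helper4_PSol Cfsg.Agent.Lib.Helper4_Cop
open scoped commutatorElement

/-- elements acting trivially on `P/N` and normalizing `N`. -/
def Cs {S : Type*} [Group S] (P N : Subgroup S) : Subgroup S where
  carrier := {g | g ∈ Subgroup.normalizer (N : Set S) ∧ ∀ x ∈ P, ⁅x, g⁆ ∈ N}
  one_mem' := ⟨Subgroup.one_mem _, fun x _ => by simp⟩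
  mul_mem' := by
    rintro g h ⟨hg, hg'⟩ ⟨hh, hh'⟩
    refine ⟨Subgroup.mul_mem _ hg hh, fun x hx => ?_⟩
    have e : ⁅x, g * h⁆ = ⁅x, g⁆ * (g * ⁅x, h⁆ * g⁻¹) := by
      simp only [commutatorElement_def]; group
    rw [e]
    exact N.mul_mem (hg' x hx) ((Subgroup.mem_normalizer_iff.1 hg _).1 (hh' x hx))
  inv_mem' := by
    rintro g ⟨hg, hg'⟩
    refine ⟨Subgroup.inv_mem _ hg, fun x hx => ?_⟩
    have e : ⁅x, g⁻¹⁆ = g⁻¹ * (⁅x, g⁆)⁻¹ * g⁻¹⁻¹ := by
      simp only [commutatorElement_def]; group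
    rw [e]
    exact (Subgroup.mem_normalizer_iff.1 (Subgroup.inv_mem _ hg) _).1 (N.inv_mem (hg' x hx))

/-- Let S be a finite p-solvable group with no nontrivial normal subgroup of order prime to p, A a p-subgroup of S, and Q a nontrivial A-invariant subgroup of order prime to p with [A, Q] = Q. Then the commutator [O_p(S), A, Q] is nontrivial. -/
theorem result {S : Type*} [Group S] [Finite S] {p : ℕ} [Fact p.Prime]
    (hS : Cfsg.IsPSolvable p S) (hred : Cfsg.pPrimeCore p S = ⊥)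
    (A Q : Subgroup S) (hA : IsPGroup p A) (hQ : ¬ p ∣ Nat.card Q) (hQ1 : Q ≠ ⊥)
    (hinv : ∀ a ∈ A, ∀ x ∈ Q, a * x * a⁻¹ ∈ Q) (hAQ : ⁅A, Q⁆ = Q) :
    ⁅⁅Cfsg.pCore p S, A⁆, Q⁆ ≠ ⊥ := by
  intro hbot
  have hp : Fact p.Prime := inferInstance
  haveI hPn : (pCore p S).Normal := inferInstance
  set P := pCore p S with hP
  set N := ⁅P, A⁆ with hN
  have hPp : IsPGroup p P := Cfsg.Agent.Lib.Helper4_Core.pCore_isPGroup p S
  have hNP : N ≤ P := Subgroup.commutator_le_left P A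
  have hQc : (Nat.card Q).Coprime p := ((Nat.Prime.coprime_iff_not_dvd hp.1).2 hQ).symm
  have hQpow : ∀ q ∈ Q, q ^ Nat.card Q = 1 := fun q hq => by
    have := congrArg Subtype.val (pow_card_eq_one' (G := Q) (x := ⟨q, hq⟩))
    rwa [Subgroup.coe_pow, Subgroup.coe_one] at this
  have hcomm : ∀ n ∈ N, ∀ q ∈ Q, n * q = q * n := fun n hn q hq => by
    have := Subgroup.commutator_mem_commutator hn hq
    rw [hbot, Subgroup.mem_bot, commutatorElement_eq_one_iff_mul_comm] at this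
    exact this
  have hQN : Q ≤ Subgroup.normalizer (N : Set S) := by
    intro q hq
    rw [Subgroup.mem_normalizer_iff]
    intro n
    constructor
    · intro hn
      rw [← hcomm n hn q hq, mul_inv_cancel_right]; exact hn
    · intro hn
      have h1 := hcomm _ hn q hq
      have h2 : n = q * n * q⁻¹ := by
        have : q * n * q⁻¹ * q = q * (q * n * q⁻¹) := h1
        have h3 : q * n = q * (q * n * q⁻¹) := by simpa using this
        exact mul_left_cancel h3
      rw [h2]; exact hn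
  have hAN : A ≤ Subgroup.normalizer (N : Set S) := by
    intro a ha
    rw [Subgroup.mem_normalizer_iff_map_conj_eq, hN, Subgroup.map_commutator]
    congr 1
    · exact (Subgroup.mem_normalizer_iff_map_conj_eq.1 (by rw [Subgroup.normalizer_eq_top]; trivial))
    · exact (Subgroup.mem_normalizer_iff_map_conj_eq.1 (Subgroup.le_normalizer ha))
  have hACs : A ≤ Cs P N := fun a ha =>
    ⟨hAN ha, fun x hx => Subgroup.commutator_mem_commutator hx ha⟩
  have hconj : ∀ q ∈ Q, ∀ g ∈ Cs P N, q * g * q⁻¹ ∈ Cs P N := by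
    rintro q hq g ⟨hg, hg'⟩
    refine ⟨Subgroup.mul_mem _ (Subgroup.mul_mem _ (hQN hq) hg) (Subgroup.inv_mem _ (hQN hq)),
      fun x hx => ?_⟩
    have e : ⁅x, q * g * q⁻¹⁆ = q * ⁅q⁻¹ * x * q⁻¹⁻¹, g⁆ * q⁻¹ := by
      simp only [commutatorElement_def]; group
    rw [e]
    exact (Subgroup.mem_normalizer_iff.1 (hQN hq) _).1 (hg' _ (hPn.conj_mem x hx q⁻¹))
  have hQCs : Q ≤ Cs P N := by
    rw [← hAQ, Subgroup.commutator_le]
    intro a ha q hq
    have e : ⁅a, q⁆ = a * (q * a⁻¹ * q⁻¹) := by simp only [commutatorElement_def]; group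
    rw [e]
    exact Subgroup.mul_mem _ (hACs ha) (hconj q hq _ (Subgroup.inv_mem _ (hACs ha)))
  have hQC : Q ≤ Subgroup.centralizer (P : Set S) := by
    intro q hq
    rw [Subgroup.mem_centralizer_iff]
    intro x hx
    have h1 : ⁅q, x⁆ ∈ N := by
      rw [← commutatorElement_inv]; exact N.inv_mem ((hQCs hq).2 x hx)
    obtain ⟨k, hk⟩ := hPp ⟨_, hNP h1⟩
    have hk' : ⁅q, x⁆ ^ p ^ k = 1 := by simpa using congrArg Subtype.val hk
    have h2 := comm_eq_one_of_quadratic' (hQpow q hq) (hcomm _ h1 q hq).symm hk'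
      (Nat.Coprime.pow_right k hQc)
    rw [commutatorElement_eq_one_iff_mul_comm] at h2
    exact h2.symm
  have hQP : Q ≤ P := hQC.trans (hall_higman hS hred)
  apply hQ1
  rw [eq_bot_iff]
  intro q hq
  obtain ⟨k, hk⟩ := hPp ⟨_, hQP hq⟩
  have hk' : q ^ p ^ k = 1 := by simpa using congrArg Subtype.val hk
  exact eq_one_of_coprime_pow (hQpow q hq) hk' (Nat.Coprime.pow_right k hQc)

end Cfsg.Agent.S1892
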