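import Cfsg.Statements.S1894
import Cfsg.Agent.Lib.Helper4_Nilp

set_option autoImplicit false
open Cfsg

namespace Cfsg.Agent.S1894

open scoped commutatorElement
open Cfsg.Agent.Lib.Helper4_Nilp

theorem adjoin {G : Type*} [Group G] (A : Subgroup G) [hAn : A.Normal] (hA : IsMulCommutative ↥A)
    (x : G) (hx : x ∈ Subgroup.centralizer (A : Set G)) (hc : ∀ g : G, ⁅x, g⁆ ∈ A) :
    (A ⊔ Subgroup.zpowers x).Normal ∧ IsMulCommutative ↥(A ⊔ Subgroup.zpowers x : Subgroup G) := by
  have hAc : A ≤ Subgroup.centralizer (A : Set G) := by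
    intro a ha b hb
    exact congrArg Subtype.val (hA.is_comm.comm ⟨b, hb⟩ ⟨a, ha⟩)
  set B : Subgroup G := A ⊔ Subgroup.zpowers x with hB
  have hxB : x ∈ B := (le_sup_right : Subgroup.zpowers x ≤ B) (Subgroup.mem_zpowers x)
  have hAB : A ≤ B := le_sup_left
  have hBn : B.Normal := by
    constructor
    intro b hb g
    -- g b g⁻¹ = ⁅g, b⁆ * b
    have key : ∀ b ∈ B, ∀ g : G, g * b * g⁻¹ ∈ B := by
      intro b hb
      rw [hB, sup_comm] at hb
      rw [← Subgroup.closure_eq A, Subgroup.zpowers_eq_closure, ← Subgroup.closure_union] at hb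
      induction hb using Subgroup.closure_induction with
      | mem y hy =>
        intro g
        rcases hy with hy | hy
        · rw [Set.mem_singleton_iff] at hy
          subst hy
          have h1 : ⁅y, g⁆ ∈ A := hc g
          have h4 : g * y * g⁻¹ = ⁅g, y⁆ * y := by simp [commutatorElement_def]
          rw [h4, ← commutatorElement_inv]
          exact B.mul_mem (B.inv_mem (hAB h1)) hxB
        · exact hAB (hAn.conj_mem y hy g)
      | one => intro g; simp
      | mul y z _ _ hy hz =>
        intro g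
        have : g * (y * z) * g⁻¹ = (g * y * g⁻¹) * (g * z * g⁻¹) := by group
        rw [this]; exact B.mul_mem (hy g) (hz g)
      | inv y _ hy =>
        intro g
        have : g * y⁻¹ * g⁻¹ = (g * y * g⁻¹)⁻¹ := by group
        rw [this]; exact B.inv_mem (hy g)
    exact key b hb g
  have hBc : IsMulCommutative ↥B := by
    have hle : B ≤ Subgroup.centralizer (B : Set G) := by
      have h1 : B ≤ Subgroup.centralizer (A : Set G) :=
        sup_le hAc (by rw [Subgroup.zpowers_le]; exact hx)
      have h2 : A ≤ Subgroup.centralizer (B : Set G) := Subgroup.le_centralizer_iff.1 h1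
      have h3 : Subgroup.zpowers x ≤ Subgroup.centralizer (B : Set G) := by
        rw [Subgroup.le_centralizer_iff]
        refine sup_le ?_ ?_
        · rw [Subgroup.le_centralizer_iff, Subgroup.zpowers_le]; exact hx
        · intro y hy z hz
          obtain ⟨i, rfl⟩ := Subgroup.mem_zpowers_iff.1 hy
          obtain ⟨j, rfl⟩ := Subgroup.mem_zpowers_iff.1 hz
          rw [← zpow_add, ← zpow_add, add_comm]
      exact sup_le h2 h3
    exact ⟨⟨fun a b => Subtype.ext ((hle b.2 a a.2))⟩⟩
  exact ⟨hBn, hBc⟩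

/-- Let P be a finite p-group, A a normal subgroup of P and B an abelian subgroup of A that is normal in P. Then some subgroup C of A containing B is normal in P and is self-centralizing and normal in A (C ∈ SCN(A)). -/
theorem result {P : Type*} [Group P] [Finite P] {p : ℕ} [Fact p.Prime] (hP : IsPGroup p P)
    (A : Subgroup P) [A.Normal] (B : Subgroup P) [B.Normal] (hBA : B ≤ A) (hB : IsMulCommutative B) :
    ∃ C : Subgroup P, C.Normal ∧ B ≤ C ∧ Cfsg.IsSCN A C := by
  haveI : Group.IsNilpotent P := hP.isNilpotent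
  obtain ⟨C, hBC, hC⟩ := (Set.toFinite {C : Subgroup P | C.Normal ∧ IsMulCommutative ↥C ∧ C ≤ A}).exists_le_maximal
    (a := B) ⟨inferInstance, hB, hBA⟩
  obtain ⟨hCn, hCc, hCA⟩ := hC.prop
  haveI := hCn
  refine ⟨C, hCn, hBC, hCA, ?_, ?_⟩
  · rw [Subgroup.normalizer_eq_top]; exact le_top
  · apply le_antisymm
    · by_contra hcon
      obtain ⟨x, hx, hxC, hc⟩ := exists_central_mod C (A ⊓ Subgroup.centralizer (C : Set P)) hcon
      obtain ⟨h1, h2⟩ := adjoin C hCc x hx.2 hc
      have h3 : C ⊔ Subgroup.zpowers x ≤ A := sup_le hCA ((Subgroup.zpowers_le).2 hx.1)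
      have h4 := hC.le_of_ge (y := C ⊔ Subgroup.zpowers x) ⟨h1, h2, h3⟩ le_sup_left
      exact hxC (h4 ((le_sup_right : Subgroup.zpowers x ≤ _) (Subgroup.mem_zpowers x)))
    · refine le_inf hCA ?_
      intro a ha b hb
      exact congrArg Subtype.val (hCc.is_comm.comm ⟨b, hb⟩ ⟨a, ha⟩)

end Cfsg.Agent.S1894
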