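import Cfsg.Statements.S1898

set_option autoImplicit false
open Cfsg

namespace Cfsg.Agent.S1898

open scoped commutatorElement

theorem result {X : Type*} [Group X] [Finite X] (hX : IsPGroup 2 X)
    (hel : Cfsg.IsElementaryAbelian 2 (commutator X)) (hcen : commutator X ≤ Subgroup.center X) :
    (∀ x ∈ Subgroup.closure {g : X | g ^ 4 = 1}, x ^ 4 = 1) ∧
      ∀ φ : MulAut X, (∀ g : X, g ^ 4 = 1 → φ g = g) → ∃ k : ℕ, φ ^ (2 ^ k) = 1 := by
  have hmem : ∀ a b : X, ⁅a, b⁆ ∈ commutator X := fun a b => by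
    rw [commutator_def]
    exact Subgroup.commutator_mem_commutator (Subgroup.mem_top a) (Subgroup.mem_top b)
  have hc : ∀ a b g : X, g * ⁅a, b⁆ = ⁅a, b⁆ * g := fun a b g =>
    Subgroup.mem_center_iff.1 (hcen (hmem a b)) g
  have hsq : ∀ a b : X, ⁅a, b⁆ ^ 2 = 1 := fun a b => hel.2 _ (hmem a b)
  have e1 : ∀ x y : X, y * x = ⁅y, x⁆ * (x * y) := by
    intro x y; simp [commutatorElement_def, mul_assoc]
  have sqc : ∀ x y : X, y * x ^ 2 = x ^ 2 * y := by
    intro x y
    calc y * x ^ 2 = (y * x) * x := by rw [pow_two, mul_assoc]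
      _ = ⁅y, x⁆ * (x * y) * x := by rw [e1 x y]
      _ = ⁅y, x⁆ * x * (y * x) := by simp only [mul_assoc]
      _ = ⁅y, x⁆ * x * (⁅y, x⁆ * (x * y)) := by rw [e1 x y]
      _ = ⁅y, x⁆ * (x * ⁅y, x⁆) * (x * y) := by simp only [mul_assoc]
      _ = ⁅y, x⁆ * (⁅y, x⁆ * x) * (x * y) := by rw [hc]
      _ = ⁅y, x⁆ ^ 2 * (x ^ 2 * y) := by simp only [pow_two, mul_assoc]
      _ = x ^ 2 * y := by rw [hsq, one_mul]
  have mulsq : ∀ x y : X, (x * y) ^ 2 = ⁅y, x⁆ * (x ^ 2 * y ^ 2) := by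
    intro x y
    calc (x * y) ^ 2 = x * (y * x) * y := by simp only [pow_two, mul_assoc]
      _ = x * (⁅y, x⁆ * (x * y)) * y := by rw [e1 x y]
      _ = (x * ⁅y, x⁆) * (x * y * y) := by simp only [mul_assoc]
      _ = (⁅y, x⁆ * x) * (x * y * y) := by rw [hc]
      _ = ⁅y, x⁆ * (x ^ 2 * y ^ 2) := by simp only [pow_two, mul_assoc]
  have mul4 : ∀ x y : X, (x * y) ^ 4 = x ^ 4 * y ^ 4 := by
    intro x y
    calc (x * y) ^ 4 = ((x * y) ^ 2) ^ 2 := by rw [← pow_mul]
      _ = (⁅y, x⁆ * (x ^ 2 * y ^ 2)) ^ 2 := by rw [mulsq]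
      _ = ⁅y, x⁆ * ((x ^ 2 * y ^ 2) * ⁅y, x⁆) * (x ^ 2 * y ^ 2) := by simp only [pow_two, mul_assoc]
      _ = ⁅y, x⁆ * (⁅y, x⁆ * (x ^ 2 * y ^ 2)) * (x ^ 2 * y ^ 2) := by rw [hc]
      _ = ⁅y, x⁆ ^ 2 * (x ^ 2 * (y ^ 2 * x ^ 2) * y ^ 2) := by simp only [pow_two, mul_assoc]
      _ = x ^ 2 * (x ^ 2 * y ^ 2) * y ^ 2 := by rw [hsq, one_mul, sqc x (y ^ 2)]
      _ = x ^ 4 * y ^ 4 := by
        rw [show (4 : ℕ) = 2 + 2 from rfl, pow_add, pow_add]; simp only [mul_assoc]
  constructor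
  · intro x hx
    induction hx using Subgroup.closure_induction with
    | mem x hx => exact hx
    | one => simp
    | mul x y _ _ hx hy => rw [mul4, hx, hy, one_mul]
    | inv x _ hx => rw [inv_pow, hx, inv_one]
  · intro φ hφ
    obtain ⟨k, m, hm, hkm⟩ := Nat.exists_eq_pow_mul_and_not_dvd (orderOf_pos φ).ne' 2 (by norm_num)
    refine ⟨k, ?_⟩
    set ψ := φ ^ (2 ^ k) with hψ
    have hψm : ψ ^ m = 1 := by rw [hψ, ← pow_mul, ← hkm, pow_orderOf_eq_one]
    have hψfix : ∀ g : X, g ^ 4 = 1 → ψ g = g := by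
      intro g hg
      have : ∀ j : ℕ, (φ ^ j) g = g := by
        intro j
        induction j with
        | zero => simp
        | succ j ih => rw [pow_succ, MulAut.mul_apply, hφ g hg, ih]
      exact this _
    have key : ∀ j : ℕ, ∀ x : X, x ^ (2 ^ j) = 1 → ψ x = x := by
      intro j
      induction j with
      | zero =>
        intro x hx
        rw [pow_zero, pow_one] at hx
        rw [hx, map_one]
      | succ j ih =>
        intro x hx
        have h2 : ψ (x ^ 2) = x ^ 2 := ih _ (by rw [← pow_mul, ← pow_succ']; exact hx)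
        set y := x⁻¹ * ψ x with hy
        have hxy : ψ x = x * y := by rw [hy, mul_inv_cancel_left]
        have h3 : ⁅y, x⁆ * y ^ 2 = 1 := by
          have h4 : (x * y) ^ 2 = x ^ 2 := by rw [← hxy, ← map_pow, h2]
          rw [mulsq, ← mul_assoc, ← hc, mul_assoc] at h4
          exact mul_eq_left.1 h4
        have h5 : y ^ 4 = 1 := by
          have h6 : y ^ 2 = ⁅y, x⁆⁻¹ := eq_inv_of_mul_eq_one_right h3
          calc y ^ 4 = (y ^ 2) ^ 2 := by rw [← pow_mul]
            _ = 1 := by rw [h6, inv_pow, hsq, inv_one]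
        have hψy : ψ y = y := hψfix y h5
        have h7 : ∀ n : ℕ, (ψ ^ n) x = x * y ^ n := by
          intro n
          induction n with
          | zero => simp
          | succ n ihn =>
            rw [pow_succ', MulAut.mul_apply, ihn, map_mul, map_pow, hψy, hxy, pow_succ', mul_assoc]
        have h8 : y ^ m = 1 := by
          have := h7 m
          rw [hψm, MulAut.one_apply] at this
          exact (mul_eq_left.1 this.symm)
        have h9 : y = 1 := by
          have hcop : Nat.Coprime m 4 := by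
            have : Nat.Coprime m 2 := (Nat.Coprime.symm ((Nat.Prime.coprime_iff_not_dvd Nat.prime_two).2 hm))
            exact Nat.Coprime.pow_right 2 this
          have h10 : orderOf y ∣ Nat.gcd m 4 := Nat.dvd_gcd (orderOf_dvd_of_pow_eq_one h8) (orderOf_dvd_of_pow_eq_one h5)
          rw [hcop, Nat.dvd_one, orderOf_eq_one_iff] at h10
          exact h10
        rw [hxy, h9, mul_one]
    ext x
    obtain ⟨j, hj⟩ := hX x
    rw [MulAut.one_apply]
    exact key j x hj

end Cfsg.Agent.S1898
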