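import Cfsg.Statements.S1899

set_option autoImplicit false
open Cfsg

namespace Cfsg.Agent.S1899

theorem result {A : Type*} [CommGroup A] [Finite A] (hA : IsPGroup 2 A)
    {n : ℕ} (hn : Odd n) (hn1 : 1 < n) (d t : MulAut A) (hd : d ^ n = 1) (ht : t ^ 2 = 1) (hdt : t * d * t⁻¹ = d⁻¹)
    (hfix : ∀ a : A, d a = a → a = 1) :
    (MulEquiv.toMonoidHom t).eqLocus (MonoidHom.id A) ⊓ ((MulEquiv.toMonoidHom t).eqLocus (MonoidHom.id A)).map d.toMonoidHom = ⊥ ∧
      (MulEquiv.toMonoidHom t).eqLocus (MonoidHom.id A) ⊔ ((MulEquiv.toMonoidHom t).eqLocus (MonoidHom.id A)).map d.toMonoidHom = ⊤ := by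
  have htt : ∀ a, t (t a) = a := by
    intro a
    have := congrArg (fun f : MulAut A => f a) ht
    simpa [pow_two] using this
  have htd : ∀ a, t (d a) = d⁻¹ (t a) := by
    intro a
    have h : t * d = d⁻¹ * t := by rw [← hdt]; group
    have := congrArg (fun f : MulAut A => f a) h
    simpa using this
  have hte : ∀ a, t (d⁻¹ a) = d (t a) := by
    intro a
    have h : t * d⁻¹ = d * t := by
      have h2 : (t * d * t⁻¹)⁻¹ = d := by rw [hdt, inv_inv]
      calc t * d⁻¹ = (t * d * t⁻¹)⁻¹ * t := by group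
        _ = d * t := by rw [h2]
    have := congrArg (fun f : MulAut A => f a) h
    simpa using this
  have hde : ∀ a, d (d⁻¹ a) = a := fun a => by simp
  have hed : ∀ a, d⁻¹ (d a) = a := fun a => by simp
  have hfix2 : ∀ a : A, d (d a) = a → a = 1 := by
    intro a ha
    apply hfix
    obtain ⟨k, hk⟩ := hn
    have h1 : ∀ j : ℕ, ((d ^ 2) ^ j) a = a := by
      intro j
      induction j with
      | zero => simp
      | succ j ih =>
        rw [pow_succ, MulAut.mul_apply]
        have : (d ^ 2) a = a := by simpa [pow_two] using ha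
        rw [this, ih]
    have h2 : d ^ n = d * (d ^ 2) ^ k := by rw [hk, ← pow_mul, pow_succ']
    have h3 := congrArg (fun f : MulAut A => f a) hd
    simp only [h2, MulAut.mul_apply, h1, MulAut.one_apply] at h3
    exact h3
  have memC : ∀ x : A, x ∈ (MulEquiv.toMonoidHom t).eqLocus (MonoidHom.id A) ↔ t x = x := by
    intro x; rfl
  constructor
  · rw [eq_bot_iff]
    rintro x ⟨hx1, hx2⟩
    obtain ⟨c, hc, rfl⟩ := hx2
    have hc' : t c = c := (memC c).1 hc
    have hx' : t (d c) = d c := (memC _).1 hx1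
    rw [htd, hc'] at hx'
    have h1 : d (d c) = c := by
      rw [← hx', hde]
    have h2 := hfix2 c h1
    rw [Subgroup.mem_bot, h2]
    simp
  · rw [eq_top_iff]
    intro a _
    have hinj : Function.Injective (fun w : A => w * (d⁻¹ (d⁻¹ w))⁻¹) := by
      intro w w' h
      simp only at h
      have h1 : d⁻¹ (d⁻¹ (w * w'⁻¹)) = w * w'⁻¹ := by
        rw [map_mul, map_mul, map_inv, map_inv]
        have h2 : w * (d⁻¹ (d⁻¹ w'))  = w' * (d⁻¹ (d⁻¹ w)) := by
          have := congrArg (fun z => z * ((d⁻¹ (d⁻¹ w)) * (d⁻¹ (d⁻¹ w')))) h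
          calc w * (d⁻¹ (d⁻¹ w')) = w * (d⁻¹ (d⁻¹ w))⁻¹ * ((d⁻¹ (d⁻¹ w)) * (d⁻¹ (d⁻¹ w'))) := by
                rw [mul_assoc, inv_mul_cancel_left]
            _ = w' * (d⁻¹ (d⁻¹ w'))⁻¹ * ((d⁻¹ (d⁻¹ w)) * (d⁻¹ (d⁻¹ w'))) := this
            _ = w' * (d⁻¹ (d⁻¹ w)) := by
                rw [mul_comm (d⁻¹ (d⁻¹ w)), mul_assoc, inv_mul_cancel_left]
        rw [mul_inv_eq_iff_eq_mul, mul_assoc, mul_comm w'⁻¹, ← mul_assoc, eq_mul_inv_iff_mul_eq,
          mul_comm _ w', h2]
      have h3 : d (d (w * w'⁻¹)) = w * w'⁻¹ := by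
        conv_lhs => rw [← h1]
        rw [hde, hde]
      have := hfix2 _ h3
      exact mul_inv_eq_one.1 this
    obtain ⟨w, hw⟩ := Finite.surjective_of_injective hinj a
    simp only at hw
    set u := (d⁻¹ (d⁻¹ w))⁻¹ with hu
    have htu : t u = (d (d (t w)))⁻¹ := by
      rw [hu, map_inv, hte, hte]
    have ha : a = (u * t u) * (w * d (d (t w))) := by
      rw [← hw, htu]
      calc w * u = u * w := mul_comm _ _
        _ = u * (d (d (t w)))⁻¹ * (w * d (d (t w))) := by
          rw [mul_comm w, mul_assoc u, inv_mul_cancel_left]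
    rw [ha]
    apply Subgroup.mul_mem
    · apply (le_sup_left : _ ≤ (MulEquiv.toMonoidHom t).eqLocus (MonoidHom.id A) ⊔ _)
      rw [memC, map_mul, htt, mul_comm]
    · apply (le_sup_right : _ ≤ _ ⊔ ((MulEquiv.toMonoidHom t).eqLocus (MonoidHom.id A)).map d.toMonoidHom)
      refine ⟨d⁻¹ w * d (t w), ?_, ?_⟩
      · rw [SetLike.mem_coe, memC, map_mul, hte, htd, htt, mul_comm]
      · show d (d⁻¹ w * d (t w)) = _
        rw [map_mul, hde]

end Cfsg.Agent.S1899
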