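import Cfsg.Statements.S1901
import Cfsg.Agent.Lib.Helper4_PSol

set_option autoImplicit false
open Cfsg

namespace Cfsg.Agent.S1901

open Cfsg.Agent.Lib.Helper4_PSol

/-- Let G be a finite p-solvable group and Q a subgroup of order prime to p such that p divides the index of C_G(Q) in N_G(Q). Then Q normalizes no Sylow p-subgroup of G. -/
theorem result {G : Type*} [Group G] [Finite G] {p : ℕ} [Fact p.Prime]
    (hG : Cfsg.IsPSolvable p G) (Q : Subgroup G) (hQ : ¬ p ∣ Nat.card Q)
    (hA : p ∣ (Subgroup.centralizer (Q : Set G)).relIndex (Subgroup.normalizer (Q : Set G)))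
    (P : Sylow p G) : ¬ Q ≤ Subgroup.normalizer ((P : Subgroup G) : Set G) := by
  intro hQP
  have hp : Fact p.Prime := inferInstance
  have hQc : (Nat.card Q).Coprime p := ((Nat.Prime.coprime_iff_not_dvd hp.1).2 hQ).symm
  obtain ⟨T⟩ : Nonempty (Sylow p ↥(Subgroup.normalizer (Q : Set G))) := inferInstance
  have hle : (T : Subgroup ↥(Subgroup.normalizer (Q : Set G))) ≤
      (Subgroup.centralizer (Q : Set G)).subgroupOf (Subgroup.normalizer (Q : Set G)) := by
    intro t ht
    rw [Subgroup.mem_subgroupOf]
    obtain ⟨k, hk⟩ := T.2 ⟨t, ht⟩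
    have hk' : (t : G) ^ p ^ k = 1 := by
      have := congrArg Subtype.val (congrArg Subtype.val hk)
      simpa using this
    exact centralizes_of_normalizes_sylow hG hQc P hQP t.2 hk'
  have h1 := Subgroup.index_dvd_of_le hle
  exact T.not_dvd_index (hA.trans h1)

end Cfsg.Agent.S1901
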