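import Cfsg.Statements.S1905
import Cfsg.Agent.Lib.Helper7_StrEmb2

set_option autoImplicit false
open Cfsg

namespace Cfsg.Agent.S1905

open Cfsg.Agent.Lib.Helper7_StrEmb Cfsg.Agent.Lib.Helper7_StrEmb2 Cfsg.Agent.Lib.Helper4_Syl

/-- Let M be a subgroup of even order of a finite group S such that M contains the centralizer in S of each of its involutions and the normal core of M in S has odd order. Then all involutions of S are conjugate. If moreover N_S(X) ≤ M for a Sylow 2-subgroup X of M and I is an involution in the centre of X, then all involutions of M are conjugate in M and M = M₀ C_M(I) for some subgroup M₀ of M of odd order. -/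
theorem result {S : Type*} [Group S] [Finite S] (M : Subgroup S) (hM : Even (Nat.card M))
    (hC : ∀ i ∈ M, orderOf i = 2 → Subgroup.centralizer ({i} : Set S) ≤ M) (hcore : Odd (Nat.card M.normalCore)) :
    (∀ x y : S, orderOf x = 2 → orderOf y = 2 → IsConj x y) ∧
      ∀ (X : Sylow 2 M) (I : M), I ∈ (Subgroup.center ↥(X : Subgroup ↥M)).map (X : Subgroup ↥M).subtype → orderOf I = 2 →
        Subgroup.normalizer (((X : Subgroup M).map M.subtype : Subgroup S) : Set S) ≤ M →
        (∀ x y : M, orderOf x = 2 → orderOf y = 2 → IsConj x y) ∧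
          ∃ M₀ : Subgroup M, Odd (Nat.card M₀) ∧
            ∀ m : M, ∃ a ∈ M₀, ∃ c ∈ Subgroup.centralizer ({I} : Set M), m = a * c := by
  obtain ⟨t, htM, hto⟩ := exists_invol_of_not_odd (D := M) (Nat.not_odd_iff_even.mpr hM)
  obtain ⟨u, huo, huM⟩ : ∃ u : S, orderOf u = 2 ∧ u ∉ M := by
    by_contra hcon
    push Not at hcon
    apply not_odd_of_invol hto (D := M.normalCore) _ hcore
    intro b
    apply hcon
    rw [order_conj, hto]
  refine ⟨fun x y hx hy => all_conj hC hto htM huo huM x y hx hy, ?_⟩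
  intro X I _ hIo hN
  have hMtop : M ≠ ⊤ := by
    intro h
    apply huM
    rw [h]
    trivial
  have hse : IsStronglyEmbedded M :=
    se_of_centralizer_normalizer hMtop hM hC (IsSylIn.of_sylow M X) hN
  set D := M ⊓ M.map (MulAut.conj u).toMonoidHom with hD
  have hDodd : Odd (Nat.card D) := hse.2.2 u huM
  refine ⟨?_, D.subgroupOf M, ?_, ?_⟩
  · intro x y hx hy
    obtain ⟨d, hd, hdx⟩ := se_conj hse huo huM (s := (x : S)) (t := (y : S))
      (by rw [Subgroup.orderOf_coe]; exact hx) x.2 (by rw [Subgroup.orderOf_coe]; exact hy) y.2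
    rw [isConj_iff]
    exact ⟨⟨d, hd.1⟩, Subtype.ext hdx⟩
  · rw [Nat.card_congr (Subgroup.subgroupOfEquivOfLe (inf_le_left : D ≤ M)).toEquiv]
    exact hDodd
  · intro m
    have h1 : orderOf ((m * I * m⁻¹ : M) : S) = 2 := by
      rw [Subgroup.orderOf_coe, order_conj, hIo]
    obtain ⟨d, hd, hdx⟩ := se_conj hse huo huM (s := (I : S)) (t := ((m * I * m⁻¹ : M) : S))
      (by rw [Subgroup.orderOf_coe]; exact hIo) I.2 h1 (m * I * m⁻¹).2
    set d' : M := ⟨d, hd.1⟩ with hd'
    have hdx' : d' * I * d'⁻¹ = m * I * m⁻¹ := Subtype.ext hdx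
    refine ⟨d', hd, d'⁻¹ * m, ?_, by group⟩
    rw [Subgroup.mem_centralizer_singleton_iff]
    calc d'⁻¹ * m * I = d'⁻¹ * (m * I * m⁻¹) * m := by group
      _ = d'⁻¹ * (d' * I * d'⁻¹) * m := by rw [hdx']
      _ = I * (d'⁻¹ * m) := by group

end Cfsg.Agent.S1905
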