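import Cfsg.Statements.S1907
import Cfsg.Agent.Lib.Helper4_Syl
import Cfsg.Agent.Lib.Helper4_Core

set_option autoImplicit false
open Cfsg

namespace Cfsg.Agent.S1907

open scoped Pointwise commutatorElement
open Cfsg.Agent.Lib.Helper4_Syl Cfsg.Agent.Lib.Helper4_Core

theorem result {G : Type*} [Group G] [Finite G] {p : ℕ} [Fact p.Prime] (P : Sylow p G) :
    (∀ y ∈ Subgroup.normalizer (((P : Subgroup G) ⊓ Cfsg.pPrimePCore p G : Subgroup G) : Set G), (∃ k : ℕ, orderOf y = p ^ k) →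
      ∀ d ∈ Cfsg.pPrimeCore p G, d⁻¹ * y * d ∈ Subgroup.normalizer (((P : Subgroup G) ⊓ Cfsg.pPrimePCore p G : Subgroup G) : Set G) →
        ∃ d₁ ∈ Cfsg.pPrimeCore p G ⊓ Subgroup.centralizer ({y} : Set G),
          ∃ d₂ ∈ Cfsg.pPrimeCore p G ⊓ Subgroup.centralizer (((P : Subgroup G) ⊓ Cfsg.pPrimePCore p G : Subgroup G) : Set G), d = d₁ * d₂) ∧
    ∀ x y : G, x ∈ (P : Subgroup G) → y ∈ (P : Subgroup G) → IsConj x y →
      ∃ n ∈ Subgroup.normalizer (((P : Subgroup G) ⊓ Cfsg.pPrimePCore p G : Subgroup G) : Set G), n * x * n⁻¹ = y := by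
  have hp : p.Prime := Fact.out
  set D := pPrimeCore p G with hD
  set K := pPrimePCore p G with hK
  have hDn : D.Normal := pPrimeCore_normal p G
  have hKn : K.Normal := by
    rw [hK]; unfold pPrimePCore; exact Subgroup.Normal.comap (pCore_normal _ _) _
  have hDK : D ≤ K := by
    intro d hd
    rw [hK]; unfold pPrimePCore
    rw [Subgroup.mem_comap, QuotientGroup.mk'_apply, (QuotientGroup.eq_one_iff d).2 hd]
    exact Subgroup.one_mem _
  set H := (P : Subgroup G) ⊓ K with hH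
  set N := Subgroup.normalizer (H : Set G) with hN
  have hHp : IsPGroup p H := P.2.to_le inf_le_left
  -- p-elements of D are trivial
  have hDp : ∀ c ∈ D, (∃ k : ℕ, c ^ p ^ k = 1) → c = 1 := by
    rintro c hc ⟨k, hk⟩
    have h1 : orderOf c ∣ Nat.card D := by
      have := orderOf_dvd_natCard (⟨c, hc⟩ : D)
      rwa [Subgroup.orderOf_mk] at this
    have h2 : orderOf c ∣ p ^ k := orderOf_dvd_of_pow_eq_one hk
    have h3 : (Nat.card D).Coprime (p ^ k) := Nat.Coprime.pow_right k (pPrimeCore_coprime p)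
    have := Nat.dvd_gcd h1 h2
    rw [h3, Nat.dvd_one, orderOf_eq_one_iff] at this
    exact this
  have hHS : IsSylIn p H K := (IsSylIn.of_sylow_top P).inf_normal K
  have hHN : H ≤ N := Subgroup.le_normalizer
  have hPN : (P : Subgroup G) ≤ N := by
    intro u hu
    rw [hN, mem_normalizer_iff_conj_smul]
    apply Subgroup.eq_of_le_of_card_ge _ (by rw [card_conj_smul])
    intro w hw
    have hw' := mem_conj_smul.1 hw
    have e : w = u * (u⁻¹ * w * u) * u⁻¹ := by group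
    rw [e]
    exact ⟨Subgroup.mul_mem _ (Subgroup.mul_mem _ hu hw'.1) (Subgroup.inv_mem _ hu),
      hKn.conj_mem _ hw'.2 u⟩
  -- F2
  have hKHD : ∀ k ∈ K, ∃ u ∈ H, ∃ d ∈ D, k = u * d := by
    intro k hk
    have h1 : QuotientGroup.mk' D k ∈ pCore p (G ⧸ D) := hk
    have h2 := pCore_le_sylow (P.mapSurjective (QuotientGroup.mk'_surjective D)) h1
    rw [← SetLike.mem_coe, Sylow.coe_mapSurjective] at h2
    obtain ⟨u, hu, huk⟩ := h2
    have h3 : u⁻¹ * k ∈ D := by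
      rw [← QuotientGroup.eq_one_iff, QuotientGroup.mk_mul, QuotientGroup.mk_inv]
      simp only [QuotientGroup.mk'_apply] at huk
      rw [huk]; simp
    have h4 : u ∈ K := by
      have : u = k * (u⁻¹ * k)⁻¹ := by group
      rw [this]; exact K.mul_mem hk (K.inv_mem (hDK h3))
    exact ⟨u, ⟨hu, h4⟩, u⁻¹ * k, h3, by group⟩
  -- F3
  have hGND : ∀ g : G, ∃ n ∈ N, ∃ d ∈ D, g = n * d := by
    intro g
    obtain ⟨k, hk, hkg⟩ := frattini hHS g (conj_smul_eq_of_normal K g)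
    obtain ⟨u, hu, d, hd, rfl⟩ := hKHD k hk
    set n' := (u * d)⁻¹ * g with hn'
    refine ⟨u * n', N.mul_mem (hHN hu) hkg, n'⁻¹ * d * n', ?_, ?_⟩
    · have := hDn.conj_mem d hd n'⁻¹
      simpa using this
    · rw [hn']; group
  -- F4
  have hND : ∀ c ∈ D, c ∈ N → c ∈ Subgroup.centralizer (H : Set G) := by
    intro c hcD hcN
    rw [Subgroup.mem_centralizer_iff]
    intro h hh
    have h1 : ⁅c, h⁆ ∈ D := by
      rw [commutatorElement_def, mul_assoc, mul_assoc]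
      apply D.mul_mem hcD
      rw [← mul_assoc]
      exact hDn.conj_mem _ (D.inv_mem hcD) h
    have h2 : ⁅c, h⁆ ∈ H := by
      rw [commutatorElement_def]
      exact H.mul_mem ((Subgroup.mem_normalizer_iff.1 hcN h).1 hh) (H.inv_mem hh)
    have h3 : ⁅c, h⁆ = 1 := by
      apply hDp _ h1
      obtain ⟨k, hk⟩ := hHp ⟨_, h2⟩
      exact ⟨k, by simpa using congrArg Subtype.val hk⟩
    exact (commutatorElement_eq_one_iff_mul_comm.1 h3).symm
  have hcenN : Subgroup.centralizer (H : Set G) ≤ N := Subgroup.centralizer_le_normalizer _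
  have partA : ∀ y ∈ N, (∃ k : ℕ, orderOf y = p ^ k) → ∀ d ∈ D, d⁻¹ * y * d ∈ N →
      ∃ d₁ ∈ D ⊓ Subgroup.centralizer ({y} : Set G),
        ∃ d₂ ∈ D ⊓ Subgroup.centralizer (H : Set G), d = d₁ * d₂ := by
    rintro y hy ⟨k, hyk⟩ d hd hy'
    set C₀ := D ⊓ Subgroup.centralizer (H : Set G) with hC₀
    have hC₀' : ∀ c, c ∈ C₀ ↔ c ∈ D ∧ c ∈ N := fun c =>
      ⟨fun h => ⟨h.1, hcenN h.2⟩, fun h => ⟨h.1, hND c h.1 h.2⟩⟩
    have hyC₀ : Subgroup.zpowers y ≤ Subgroup.normalizer (C₀ : Set G) := by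
      rw [Subgroup.zpowers_le, mem_normalizer_iff_conj_smul]
      apply Subgroup.eq_of_le_of_card_ge _ (by rw [card_conj_smul])
      intro w hw
      have hw' := (hC₀' _).1 (mem_conj_smul.1 hw)
      have e : w = y * (y⁻¹ * w * y) * y⁻¹ := by group
      rw [e, hC₀']
      exact ⟨hDn.conj_mem _ hw'.1 y, N.mul_mem (N.mul_mem hy hw'.2) (N.inv_mem hy)⟩
    set X := C₀ ⊔ Subgroup.zpowers y with hX
    have hXset : (X : Set G) = (C₀ : Set G) * (Subgroup.zpowers y : Set G) :=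
      Subgroup.coe_mul_of_right_le_normalizer_left C₀ _ hyC₀
    have hyp : IsPGroup p (Subgroup.zpowers y) := by
      apply IsPGroup.of_card (n := k)
      rw [Nat.card_zpowers, hyk]
    have hyS : IsSylIn p (Subgroup.zpowers y) X := by
      refine ⟨le_sup_right, hyp, fun R hRX hR hyR => le_antisymm ?_ hyR⟩
      intro r hr
      have hr' : r ∈ (X : Set G) := hRX hr
      rw [hXset] at hr'
      obtain ⟨c, hc, w, hw, rfl⟩ := Set.mem_mul.1 hr'
      have hcR : c ∈ R := by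
        have := R.mul_mem hr (R.inv_mem (hyR hw))
        simpa using this
      have hc1 : c = 1 := by
        apply hDp c hc.1
        obtain ⟨j, hj⟩ := hR ⟨c, hcR⟩
        exact ⟨j, by simpa using congrArg Subtype.val hj⟩
      rw [hc1, one_mul]; exact hw
    set y' := d⁻¹ * y * d with hy'def
    have he : y⁻¹ * y' ∈ C₀ := by
      rw [hC₀']
      refine ⟨?_, N.mul_mem (N.inv_mem hy) hy'⟩
      have : y⁻¹ * y' = (y⁻¹ * d⁻¹ * y⁻¹⁻¹) * d := by rw [hy'def]; group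
      rw [this]
      exact D.mul_mem (hDn.conj_mem _ (D.inv_mem hd) _) hd
    have hy'X : y' ∈ X := by
      have : y' = y * (y⁻¹ * y') := by group
      rw [this]
      exact X.mul_mem ((le_sup_right : Subgroup.zpowers y ≤ X) (Subgroup.mem_zpowers y))
        ((le_sup_left : C₀ ≤ X) he)
    have hy'o : orderOf y' = p ^ k := by
      have := orderOf_conj_eq d⁻¹ y
      rw [inv_inv] at this
      rw [hy'def, this, hyk]
    have hy'p : IsPGroup p (Subgroup.zpowers y') := by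
      apply IsPGroup.of_card (n := k)
      rw [Nat.card_zpowers, hy'o]
    obtain ⟨R', hR', hy'R'⟩ := exists_isSylIn_ge (Q := Subgroup.zpowers y') (M := X)
      (by rw [Subgroup.zpowers_le]; exact hy'X) hy'p
    obtain ⟨x, hx, hxR⟩ := hyS.conj hR'
    have h1 : x⁻¹ * y' * x ∈ Subgroup.zpowers y := by
      rw [← mem_conj_smul, hxR]; exact hy'R' (Subgroup.mem_zpowers y')
    have hx' : x ∈ (X : Set G) := hx
    rw [hXset] at hx'
    obtain ⟨c, hc, w, hw, rfl⟩ := Set.mem_mul.1 hx'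
    have h2 : c⁻¹ * y' * c ∈ Subgroup.zpowers y := by
      have : c⁻¹ * y' * c = w * ((c * w)⁻¹ * y' * (c * w)) * w⁻¹ := by group
      rw [this]
      exact Subgroup.mul_mem _ (Subgroup.mul_mem _ hw h1) (Subgroup.inv_mem _ hw)
    -- c⁻¹ y' c ∈ y C₀
    have h3 : y⁻¹ * (c⁻¹ * y' * c) ∈ C₀ := by
      have e : y⁻¹ * (c⁻¹ * y' * c) = (y⁻¹ * c⁻¹ * y⁻¹⁻¹) * (y⁻¹ * y') * c := by group
      rw [e]
      refine C₀.mul_mem (C₀.mul_mem ?_ he) hc
      have hyinv : y⁻¹ ∈ Subgroup.normalizer (C₀ : Set G) :=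
        hyC₀ (Subgroup.inv_mem _ (Subgroup.mem_zpowers y))
      exact (Subgroup.mem_normalizer_iff.1 hyinv _).1 (C₀.inv_mem hc)
    have h4 : y⁻¹ * (c⁻¹ * y' * c) = 1 := by
      apply hDp _ h3.1
      have h5 : y⁻¹ * (c⁻¹ * y' * c) ∈ Subgroup.zpowers y :=
        Subgroup.mul_mem _ (Subgroup.inv_mem _ (Subgroup.mem_zpowers y)) h2
      obtain ⟨j, hj⟩ := hyp ⟨_, h5⟩
      exact ⟨j, by simpa using congrArg Subtype.val hj⟩
    have h6 : c⁻¹ * y' * c = y := by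
      rw [inv_mul_eq_one] at h4; exact h4.symm
    refine ⟨d * c, Subgroup.mem_inf.2 ⟨D.mul_mem hd hc.1, ?_⟩, c⁻¹, C₀.inv_mem hc, by group⟩
    rw [Subgroup.mem_centralizer_singleton_iff]
    have : (d * c)⁻¹ * y * (d * c) = y := by
      calc (d * c)⁻¹ * y * (d * c) = c⁻¹ * y' * c := by rw [hy'def]; group
        _ = y := h6
    calc d * c * y = d * c * ((d * c)⁻¹ * y * (d * c)) := by rw [this]
      _ = y * (d * c) := by group
  refine ⟨partA, ?_⟩
  intro x y hx hy hxy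
  obtain ⟨g, hg⟩ := isConj_iff.1 hxy
  obtain ⟨n, hn, d, hd, rfl⟩ := hGND g
  have hxo : ∃ k : ℕ, orderOf x = p ^ k := by
    obtain ⟨k, hk⟩ := (IsPGroup.iff_orderOf.1 P.2) ⟨x, hx⟩
    exact ⟨k, by rwa [Subgroup.orderOf_mk] at hk⟩
  have h1 : d⁻¹⁻¹ * x * d⁻¹ ∈ N := by
    have : d⁻¹⁻¹ * x * d⁻¹ = n⁻¹ * y * n := by rw [← hg]; group
    rw [this]
    exact N.mul_mem (N.mul_mem (N.inv_mem hn) (hPN hy)) hn
  obtain ⟨d₁, hd₁, d₂, hd₂, e⟩ := partA x (hPN hx) hxo d⁻¹ (D.inv_mem hd) h1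
  refine ⟨n * d₂⁻¹, N.mul_mem hn (N.inv_mem (hcenN hd₂.2)), ?_⟩
  have hc : d₁ * x = x * d₁ := Subgroup.mem_centralizer_singleton_iff.1 hd₁.2
  have hd' : d = d₂⁻¹ * d₁⁻¹ := by
    rw [← inv_inv d, e]; group
  rw [← hg, hd']
  have : d₁⁻¹ * x * d₁ = x := by rw [mul_assoc, ← hc, inv_mul_cancel_left]
  calc n * d₂⁻¹ * x * (n * d₂⁻¹)⁻¹ = n * d₂⁻¹ * (d₁⁻¹ * x * d₁) * (n * d₂⁻¹)⁻¹ := by rw [this]
    _ = n * (d₂⁻¹ * d₁⁻¹) * x * (n * (d₂⁻¹ * d₁⁻¹))⁻¹ := by group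

end Cfsg.Agent.S1907
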