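import Cfsg.Statements.S1939
import Cfsg.Agent.Lib.Helper4_Control

set_option autoImplicit false
open Cfsg

namespace Cfsg.Agent.S1939

open Cfsg.Agent.Lib.Helper4_Syl Cfsg.Agent.Lib.Helper4_Control

/-- Let S be a Sylow p-subgroup of the finite group G and a an element of S that is the only G-conjugate of a lying in S. Then every power of a has the same property: for every n, the only G-conjugate of a^n lying in S is a^n. -/
theorem result {G : Type*} [Group G] [Finite G] {p : ℕ} [Fact p.Prime] (S : Sylow p G) (a : G)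
    (haS : a ∈ (S : Subgroup G)) (hwc : ∀ g : G, g * a * g⁻¹ ∈ (S : Subgroup G) → g * a * g⁻¹ = a) (n : ℕ) :
    ∀ g : G, g * a ^ n * g⁻¹ ∈ (S : Subgroup G) → g * a ^ n * g⁻¹ = a ^ n := by
  intro g hg
  set b := a ^ n with hb
  set C := Subgroup.centralizer ({b} : Set G) with hC
  have haZ : ∀ s ∈ (S : Subgroup G), s * a = a * s := by
    intro s hs
    have h1 := hwc s (Subgroup.mul_mem _ (Subgroup.mul_mem _ hs haS) (Subgroup.inv_mem _ hs))
    calc s * a = (s * a * s⁻¹) * s := by group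
      _ = a * s := by rw [h1]
  have hSC : (S : Subgroup G) ≤ C := by
    intro s hs
    rw [hC, Subgroup.mem_centralizer_singleton_iff]
    exact ((show Commute s a from haZ s hs).pow_right n)
  have hSyl : IsSylIn p (S : Subgroup G) C := (IsSylIn.of_sylow_top S).mono hSC le_top
  -- g⁻¹ a g centralizes b
  have h1 : g⁻¹ * a * g ∈ C := by
    rw [hC, Subgroup.mem_centralizer_singleton_iff]
    have h2 := haZ _ hg
    calc g⁻¹ * a * g * b = g⁻¹ * (a * (g * b * g⁻¹)) * g := by group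
      _ = g⁻¹ * ((g * b * g⁻¹) * a) * g := by rw [h2]
      _ = b * (g⁻¹ * a * g) := by group
  have h3 : IsPGroup p (Subgroup.zpowers (g⁻¹ * a * g)) := by
    have h4 : Subgroup.zpowers (g⁻¹ * a * g) ≤ lc g⁻¹ (S : Subgroup G) := by
      rw [Subgroup.zpowers_le]
      have := conj_mem_lc (c := g⁻¹) haS
      rwa [inv_inv] at this
    exact (isPGroup_conj S.isPGroup' g⁻¹).to_le h4
  obtain ⟨S', hS', hle⟩ := exists_isSylIn_ge (Q := Subgroup.zpowers (g⁻¹ * a * g)) (M := C)
    (by rwa [Subgroup.zpowers_le]) h3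
  obtain ⟨c, hc, hcS⟩ := hS'.conj hSyl
  have h5 : c * (g⁻¹ * a * g) * c⁻¹ ∈ (S : Subgroup G) := by
    rw [← hcS]
    exact conj_mem_conj_smul (hle (Subgroup.mem_zpowers _))
  have h6 := hwc (c * g⁻¹) (by
    have : c * g⁻¹ * a * (c * g⁻¹)⁻¹ = c * (g⁻¹ * a * g) * c⁻¹ := by group
    rw [this]; exact h5)
  have h7 : c * g⁻¹ * b * (c * g⁻¹)⁻¹ = b := by
    rw [hb, ← conj_pow, h6]
  rw [hC, Subgroup.mem_centralizer_singleton_iff] at hc
  have h8 : c⁻¹ * b * c = b := by
    calc c⁻¹ * b * c = c⁻¹ * (b * c) := by group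
      _ = c⁻¹ * (c * b) := by rw [hc]
      _ = b := by group
  have h9 : g⁻¹ * b * g = b := by
    calc g⁻¹ * b * g = c⁻¹ * (c * g⁻¹ * b * (c * g⁻¹)⁻¹) * c := by group
      _ = b := by rw [h7, h8]
  calc g * b * g⁻¹ = g * (g⁻¹ * b * g) * g⁻¹ := by rw [h9]
    _ = b := by group

end Cfsg.Agent.S1939
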