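import Cfsg.Statements.S1940

set_option autoImplicit false
open Cfsg

namespace Cfsg.Agent.S1940



/-- Let the finite group L act by automorphisms on the finite abelian group M, and let N be an L-invariant subgroup of M such that M/N is a p-group on which L acts trivially (every l • m lies in the coset mN). If every element of M is a product of an element of N and an element fixed by a Sylow p-subgroup T of L, then every element of M is a product of an element of N and an element fixed by all of L. -/
theorem result {L : Type*} [Group L] [Finite L] {M : Type*} [CommGroup M] [Finite M] [MulDistribMulAction L M]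
    {p : ℕ} [Fact p.Prime] (N : Subgroup M) (hN : ∀ (l : L) (m : M), m ∈ N → l • m ∈ N)
    (hquot : IsPGroup p (M ⧸ N)) (htriv : ∀ (l : L) (m : M), (l • m) * m⁻¹ ∈ N) (T : Sylow p L)
    (hT : ∀ m : M, ∃ n ∈ N, ∃ c : M, (∀ t ∈ (T : Subgroup L), t • c = c) ∧ m = n * c) :
    ∀ m : M, ∃ n ∈ N, ∃ c : M, (∀ l : L, l • c = c) ∧ m = n * c := by
  classical
  intro m
  obtain ⟨n, hn, c, hc, rfl⟩ := hT m
  haveI := Fintype.ofFinite (L ⧸ (T : Subgroup L))
  set f : L ⧸ (T : Subgroup L) → M := fun q => q.out • c with hf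
  have hfl : ∀ l : L, f (l : L ⧸ (T : Subgroup L)) = l • c := by
    intro l
    obtain ⟨t, ht⟩ := QuotientGroup.mk_out_eq_mul (T : Subgroup L) l
    show (l : L ⧸ (T : Subgroup L)).out • c = l • c
    rw [ht, mul_smul, hc t t.2]
  set c' : M := ∏ q, f q with hc'
  have hfix : ∀ l : L, l • c' = c' := by
    intro l
    have h1 : l • c' = ∏ q, l • f q := by
      rw [hc']
      exact map_prod (MulDistribMulAction.toMonoidHom M l) f Finset.univ
    rw [h1, hc']
    refine Fintype.prod_equiv (MulAction.toPerm l) _ _ (fun q => ?_)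
    show l • (q.out • c) = f (l • q)
    conv_rhs => rw [← QuotientGroup.out_eq' q]
    rw [← mul_smul]
    exact (hfl (l * q.out)).symm
  have hmod : c' * (c ^ (T : Subgroup L).index)⁻¹ ∈ N := by
    have h1 : c' * (c ^ (T : Subgroup L).index)⁻¹ = ∏ q, (f q * c⁻¹) := by
      rw [Finset.prod_mul_distrib, Finset.prod_const, Finset.card_univ, ← Nat.card_eq_fintype_card,
        inv_pow]
      rfl
    rw [h1]
    exact Subgroup.prod_mem _ (fun q _ => htriv q.out c)
  obtain ⟨j, hj⟩ := IsPGroup.iff_orderOf.1 hquot (QuotientGroup.mk c)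
  have hcop : ((T : Subgroup L).index).Coprime (orderOf (QuotientGroup.mk c : M ⧸ N)) := by
    rw [hj]
    exact Nat.Coprime.pow_right j
      ((Nat.Prime.coprime_iff_not_dvd (Fact.out : p.Prime)).2 T.not_dvd_index).symm
  obtain ⟨a, ha⟩ := exists_pow_eq_self_of_coprime hcop
  have hmk : (QuotientGroup.mk c' : M ⧸ N) = (QuotientGroup.mk c) ^ (T : Subgroup L).index := by
    rw [← QuotientGroup.mk_pow, QuotientGroup.eq]
    have := N.inv_mem hmod
    simpa [mul_comm] using this
  have h2 : (QuotientGroup.mk (c' ^ a) : M ⧸ N) = QuotientGroup.mk c := by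
    rw [QuotientGroup.mk_pow, hmk, ha]
  have h3 : (c' ^ a)⁻¹ * c ∈ N := QuotientGroup.eq.1 h2
  refine ⟨n * ((c' ^ a)⁻¹ * c), N.mul_mem hn h3, c' ^ a, fun l => ?_, ?_⟩
  · rw [smul_pow', hfix]
  · rw [mul_assoc, mul_assoc, mul_comm c, inv_mul_cancel_left]

end Cfsg.Agent.S1940
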