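import Cfsg.Statements.S1941
import Cfsg.Agent.Lib.Helper3_Local
import Cfsg.Agent.Lib.Helper7_Gaschutz

set_option autoImplicit false
open Cfsg

namespace Cfsg.Agent.S1941

open Cfsg.Agent.Lib.Helper3_Comp Cfsg.Agent.Lib.Helper3_Local Cfsg.Agent.Lib.Helper7_Gaschutz

/-- Let G be a finite group with no nontrivial normal subgroup of order prime to p, T a Sylow p-subgroup of G and E(G) the layer of G (the subgroup generated by its components). An automorphism of G of p-power order that fixes T and E(G) elementwise is inner. -/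
theorem result {G : Type*} [Group G] [Finite G] {p : ℕ} [Fact p.Prime] (hcore : Cfsg.pPrimeCore p G = ⊥)
    (T : Sylow p G) (α : MulAut G) (hα : ∃ j : ℕ, orderOf α = p ^ j) (hfixT : ∀ x ∈ (T : Subgroup G), α x = x)
    (hfixE : ∀ x ∈ Cfsg.layer G, α x = x) : ∃ g : G, ∀ x : G, α x = g * x * g⁻¹ := by
  set Fs := Cfsg.generalizedFittingSubgroup G with hFs
  haveI hFsn : Fs.Normal := generalizedFittingSubgroup_normal G
  set A := Subgroup.centralizer (Fs : Set G) with hA
  haveI hAn : A.Normal := inferInstance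
  have hAFs : A ≤ Fs := centralizer_generalizedFittingSubgroup_le
  haveI hAc : IsMulCommutative A := by
    refine ⟨⟨fun a b => ?_⟩⟩
    apply Subtype.ext
    exact (Subgroup.mem_centralizer_iff.1 a.2 b (hAFs b.2)).symm
  have hle : ∀ N : Subgroup G, N.Normal → Group.IsNilpotent N → N ≤ (T : Subgroup G) := by
    intro N hN hnil
    have h1 := isPGroup_of_isNilpotent_of_pPrimeCore_eq_bot hcore hN.isSubnormal hnil
    haveI := hN
    exact h1.le_sylow_of_normal T
  have hAp : IsPGroup p A := by
    apply isPGroup_of_isNilpotent_of_pPrimeCore_eq_bot hcore hAn.isSubnormal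
    letI : CommGroup A := { (inferInstance : Group A) with mul_comm := hAc.is_comm.comm }
    exact CommGroup.isNilpotent
  have hAT : A ≤ (T : Subgroup G) := hAp.le_sylow_of_normal T
  have hfixF : ∀ x ∈ Fs, α x = x := by
    have h1 : Fs ≤ (α.toMonoidHom.eqLocus (MonoidHom.id G)) := by
      rw [hFs, Cfsg.generalizedFittingSubgroup]
      apply sup_le
      · intro x hx; exact hfixE x hx
      · intro x hx
        exact hfixT x (hle _ (fittingSubgroup_normal G) (fittingSubgroup_isNilpotent G) hx)
    intro x hx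
    exact h1 hx
  have hmem : ∀ g : G, α g * g⁻¹ ∈ A := by
    intro g
    rw [hA, Subgroup.mem_centralizer_iff]
    intro f hf
    have h1 : g⁻¹ * f * g ∈ Fs := by
      have := hFsn.conj_mem f hf g⁻¹
      rwa [inv_inv] at this
    have h2 := hfixF _ h1
    rw [map_mul, map_mul, map_inv, hfixF f hf] at h2
    calc f * (α g * g⁻¹) = α g * ((α g)⁻¹ * f * α g) * g⁻¹ := by group
      _ = α g * (g⁻¹ * f * g) * g⁻¹ := by rw [h2]
      _ = α g * g⁻¹ * f := by group
  let d : G → A := fun g => ⟨α g * g⁻¹, hmem g⟩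
  have hd : IsCross A ⊤ d 0 := by
    refine ⟨?_, ?_⟩
    · intro g _ h _
      apply Subtype.ext
      show α (g * h) * (g * h)⁻¹ = α g * g⁻¹ * (g * (α h * h⁻¹) * g⁻¹)
      rw [map_mul]; group
    · intro a
      apply Subtype.ext
      show α a * (a : G)⁻¹ = _
      rw [hfixT _ (hAT a.2)]; simp
  have hcop : (Nat.card A).Coprime (T : Subgroup G).index := by
    obtain ⟨n, hn⟩ := IsPGroup.iff_card.1 hAp
    rw [hn]
    apply Nat.Coprime.pow_left
    exact (Nat.Prime.coprime_iff_not_dvd (Fact.out : p.Prime)).2 T.not_dvd_index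
  obtain ⟨e, he⟩ := cross_principal A (T : Subgroup G) hcop d 0 hd (by
    intro u hu
    apply Subtype.ext
    show α u * u⁻¹ = 1
    rw [hfixT u hu, mul_inv_cancel])
  refine ⟨e, fun x => ?_⟩
  have h1 := congrArg Subtype.val (he x)
  have h2 : α x * x⁻¹ = e * (x * e * x⁻¹)⁻¹ := h1
  calc α x = (α x * x⁻¹) * x := by group
    _ = e * (x * e * x⁻¹)⁻¹ * x := by rw [h2]
    _ = e * x * (e : G)⁻¹ := by group

end Cfsg.Agent.S1941
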