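import Cfsg.Statements.S1947
import Cfsg.Agent.Lib.Helper4_Frobenius
import Cfsg.Agent.Lib.Helper4_Omega

set_option autoImplicit false
open Cfsg

namespace Cfsg.Agent.S1947

open Cfsg.Agent.Lib.Helper4_Frobenius Cfsg.Agent.Lib.Helper4_Omega Cfsg.Agent.Lib.Helper4_Chain
  Cfsg.Agent.Lib.Helper4_Syl
open scoped commutatorElement

/-- Let G be a finite group and p a prime. If every element of G of order dividing p (dividing 4 when p = 2) lies in some fixed term Z_n(G) of the upper central series, then G has a normal p-complement. -/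
theorem result {G : Type*} [Group G] [Finite G] {p : ℕ} [Fact p.Prime] (n : ℕ)
    (h : ∀ a : G, (a ^ p = 1 ∨ (p = 2 ∧ a ^ 4 = 1)) → a ∈ Subgroup.upperCentralSeries G n) : Cfsg.HasNormalPComplement p G := by
  apply pnil_iff_hasNormalPComplement.1
  apply frobenius_pnil
  intro Q hQ g hgN hgc
  by_contra hgC
  obtain ⟨R, hRQ, hRN, hRC, hR⟩ := exists_small_exponent hQ hgc hgN hgC
  apply hRC
  apply mem_centralizer_of_comm
  intro x hx
  refine centralizes_of_chain (hQ.to_le hRQ) hgc (fun i => R ⊓ Subgroup.upperCentralSeries G i) n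
    (by simp) (fun i _ => inf_le_left) ?_ n le_rfl x ⟨hx, h x (hR x hx)⟩
  intro i _ x hx
  refine ⟨?_, ?_⟩
  · rw [commutatorElement_def]
    exact R.mul_mem (conj_mem_of_mem_normalizer hRN hx.1) (R.inv_mem hx.1)
  · have h1 := Subgroup.mem_upperCentralSeries_succ_iff.1 hx.2 g
    have h2 : ⁅g, x⁆ = ⁅x, g⁆⁻¹ := (commutatorElement_inv x g).symm
    show ⁅g, x⁆ ∈ Subgroup.upperCentralSeries G i
    rw [h2]
    exact Subgroup.inv_mem _ h1

end Cfsg.Agent.S1947
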