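import Cfsg.Statements.S1956
import Cfsg.Agent.Lib.Helper4_Syl

set_option autoImplicit false

open Cfsg

namespace Cfsg.Agent.S1956

open scoped Pointwise
open Cfsg.Agent.Lib.Helper4_Syl

theorem result {G : Type*} [Group G] [Finite G] {p : ℕ} [Fact p.Prime] (P : Sylow p G)
    (hcen : ∀ a ∈ (P : Subgroup G), (a ^ p = 1 ∨ (p = 2 ∧ a ^ 4 = 1)) → ∀ y ∈ (P : Subgroup G), a * y = y * a) :
    ∀ a ∈ (P : Subgroup G), (a ^ p = 1 ∨ (p = 2 ∧ a ^ 4 = 1)) → ∀ g : G, g * a * g⁻¹ ∈ (P : Subgroup G) →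
      ∃ n ∈ Subgroup.normalizer ((P : Subgroup G) : Set G), ∃ c : G, c * a = a * c ∧ g = n * c := by
  intro a ha hao g hg
  have hpow : ∀ k : ℕ, (g * a * g⁻¹) ^ k = g * a ^ k * g⁻¹ := fun k => conj_pow
  have hbo : (g * a * g⁻¹) ^ p = 1 ∨ (p = 2 ∧ (g * a * g⁻¹) ^ 4 = 1) := by
    rcases hao with h | ⟨h1, h2⟩
    · left; rw [hpow, h]; simp
    · right; refine ⟨h1, ?_⟩; rw [hpow, h2]; simp
  have hS := IsSylIn.of_sylow_top P
  set C := Subgroup.centralizer ({a} : Set G) with hC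
  have h1 : (P : Subgroup G) ≤ C := by
    intro y hy
    rw [Subgroup.mem_centralizer_singleton_iff]
    exact (hcen a ha hao y hy).symm
  have h2 : MulAut.conj g⁻¹ • (P : Subgroup G) ≤ C := by
    intro y hy
    rw [mem_conj_smul, inv_inv] at hy
    rw [Subgroup.mem_centralizer_singleton_iff]
    have := hcen _ hg hbo _ hy
    have h3 := congrArg (fun x => g⁻¹ * x * g) this
    simp only [mul_assoc, inv_mul_cancel_left, inv_mul_cancel, mul_one] at h3
    exact h3.symm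
  have hS1 : IsSylIn p (P : Subgroup G) C := hS.mono h1 le_top
  have hS2 : IsSylIn p (MulAut.conj g⁻¹ • (P : Subgroup G)) C := by
    have := hS.smul_of_mem (Subgroup.mem_top g⁻¹)
    exact this.mono h2 le_top
  obtain ⟨c, hc, hcP⟩ := hS2.conj hS1
  rw [← conj_mul_smul, ← mem_normalizer_iff_conj_smul] at hcP
  refine ⟨(c * g⁻¹)⁻¹, Subgroup.inv_mem _ hcP, c, ?_, by group⟩
  exact Subgroup.mem_centralizer_singleton_iff.1 hc

end Cfsg.Agent.S1956
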