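import Cfsg.Statements.S2009
import Cfsg.Agent.S2898

set_option autoImplicit false
open Cfsg

namespace Cfsg.Agent.S2009

theorem exists_third {H : Type*} [Group H] (z : H) (E : Subgroup H) (hE : IsKleinFour ↥E) :
    ∃ e ∈ E, e ≠ 1 ∧ e ≠ z := by
  classical
  by_contra hcon
  push Not at hcon
  have h4 : Nat.card E = 4 := IsKleinFour.card_four
  haveI : Finite E := Nat.finite_of_card_ne_zero (by rw [h4]; norm_num)
  have hinj : Function.Injective (fun e : E => decide ((e : H) = 1)) := by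
    intro a b hab
    have hab' : ((a : H) = 1) ↔ ((b : H) = 1) := by
      have : decide ((a : H) = 1) = decide ((b : H) = 1) := hab
      simpa using this
    apply Subtype.ext
    by_cases ha : (a : H) = 1
    · rw [ha, hab'.1 ha]
    · have hb : ¬ (b : H) = 1 := fun hb => ha (hab'.2 hb)
      rw [hcon a a.2 ha, hcon b b.2 hb]
  have := Nat.card_le_card_of_injective _ hinj
  rw [h4] at this
  simp at this

theorem normal_eq_bot {H : Type*} [Group H] [Finite H] (z : H) (hz : orderOf z = 2)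
    (hN : ∀ N : Subgroup H, N.Normal → N ≠ ⊤ → N ⊓ Subgroup.centralizer ({z} : Set H) = ⊥)
    (E : Subgroup H) (hE : IsKleinFour ↥E) (hzE : z ∈ E) (hc : ∀ e ∈ E, e ≠ 1 → IsConj z e)
    (N : Subgroup H) (hNn : N.Normal) (hne : N ≠ ⊤) : N = ⊥ := by
  haveI := hNn
  obtain ⟨e, heE, he1, hez⟩ := exists_third z E hE
  have hfix : ∀ e ∈ E, e ≠ 1 → (e * e = 1 ∧ ∀ x ∈ N, e * x = x * e → x = 1) := by
    intro e he he1
    obtain ⟨c, hc'⟩ := isConj_iff.1 (hc e he he1)
    have hzz : z * z = 1 := by rw [← pow_two, ← hz, pow_orderOf_eq_one]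
    refine ⟨by rw [← hc']; calc c * z * c⁻¹ * (c * z * c⁻¹) = c * (z * z) * c⁻¹ := by group
      _ = 1 := by rw [hzz]; group, ?_⟩
    intro x hx hxe
    have h1 : c⁻¹ * x * c ∈ N ⊓ Subgroup.centralizer ({z} : Set H) := by
      refine ⟨by have := hNn.conj_mem x hx c⁻¹; rwa [inv_inv] at this, ?_⟩
      show c⁻¹ * x * c ∈ Subgroup.centralizer ({z} : Set H)
      rw [Subgroup.mem_centralizer_singleton_iff]
      rw [← hc'] at hxe
      calc c⁻¹ * x * c * z = c⁻¹ * (x * (c * z * c⁻¹)) * c := by group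
        _ = c⁻¹ * ((c * z * c⁻¹) * x) * c := by rw [hxe]
        _ = z * (c⁻¹ * x * c) := by group
    rw [hN N hNn hne, Subgroup.mem_bot] at h1
    calc x = c * (c⁻¹ * x * c) * c⁻¹ := by group
      _ = 1 := by rw [h1]; group
  have hz1 : z ≠ 1 := by
    rintro rfl
    rw [orderOf_one] at hz; omega
  have hf1 : z * e ≠ 1 := by
    intro h
    have hzz := (hfix z hzE hz1).1
    apply hez
    calc e = (z * z) * e := by rw [hzz, one_mul]
      _ = z * (z * e) := by group
      _ = z := by rw [h, mul_one]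
  have hiz := Cfsg.Agent.S2898.inverts_of_fpf N z (hfix z hzE hz1).1 (hfix z hzE hz1).2
  have hie := Cfsg.Agent.S2898.inverts_of_fpf N e (hfix e heE he1).1 (hfix e heE he1).2
  rw [eq_bot_iff]
  intro x hx
  rw [Subgroup.mem_bot]
  apply (hfix (z * e) (E.mul_mem hzE heE) hf1).2 x hx
  have h1 := hie x hx
  have h2 := hiz _ (N.inv_mem hx)
  rw [inv_inv] at h2
  calc z * e * x = z * (e * x * e⁻¹) * z⁻¹ * (z * e) := by group
    _ = (z * x⁻¹ * z⁻¹) * (z * e) := by rw [h1]
    _ = x * (z * e) := by rw [h2]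

/-- Let H be a finite group and z an involution such that every proper normal subgroup of H meets the centralizer of z trivially, and suppose z lies in a Klein four-subgroup E of H all three of whose involutions are conjugate to z in H. Then H is simple. -/
theorem result {H : Type*} [Group H] [Finite H] (z : H) (hz : orderOf z = 2) (hN : ∀ N : Subgroup H, N.Normal → N ≠ ⊤ → N ⊓ Subgroup.centralizer ({z} : Set H) = ⊥) (E : Subgroup H) (hE : IsKleinFour ↥E) (hzE : z ∈ E) (hc : ∀ e ∈ E, e ≠ 1 → IsConj z e) : IsSimpleGroup H := by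
  have hz1 : z ≠ 1 := by
    rintro rfl
    rw [orderOf_one] at hz; omega
  haveI : Nontrivial H := ⟨⟨z, 1, hz1⟩⟩
  refine ⟨fun N hNn => ?_⟩
  by_cases hne : N = ⊤
  · exact Or.inr hne
  · exact Or.inl (normal_eq_bot z hz hN E hE hzE hc N hNn hne)

end Cfsg.Agent.S2009
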