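import Cfsg.Statements.S2162
import Cfsg.Agent.Lib.Helper5_SqZero

set_option autoImplicit false
open Cfsg

namespace Cfsg.Agent.S2162

open Cfsg.Agent.Lib.Helper5_SqZero

theorem sq_zero {F : Type*} [Field F] [CharP F 2] {n : ℕ} (a : Matrix.SpecialLinearGroup (Fin n) F) (ha : orderOf a = 2) :
    ((a : Matrix (Fin n) (Fin n) F) - 1) * ((a : Matrix (Fin n) (Fin n) F) - 1) = 0 := by
  have h1 : a ^ 2 = 1 := by rw [← ha, pow_orderOf_eq_one]
  have h2 : (a : Matrix (Fin n) (Fin n) F) * (a : Matrix (Fin n) (Fin n) F) = 1 := by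
    have := congrArg (fun x : Matrix.SpecialLinearGroup (Fin n) F => (x : Matrix (Fin n) (Fin n) F)) h1
    simpa [sq] using this
  have h3 : ((a : Matrix (Fin n) (Fin n) F) - 1) * ((a : Matrix (Fin n) (Fin n) F) - 1) =
      (2 : F) • (1 - (a : Matrix (Fin n) (Fin n) F)) := by
    rw [sub_mul, mul_sub, mul_sub, h2, two_smul]
    simp only [mul_one, one_mul]
    abel
  rw [h3, CharTwo.two_eq_zero, zero_smul]

theorem eq_zero_of_rank {F : Type*} [Field F] {n : ℕ} (A : Matrix (Fin n) (Fin n) F) (h : A.rank = 0) : A = 0 := by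
  have h1 : LinearMap.range A.mulVecLin = ⊥ := Submodule.finrank_eq_zero.1 h
  rw [LinearMap.range_eq_bot] at h1
  apply Matrix.mulVec_injective
  funext v
  have := congrArg (fun L : (Fin n → F) →ₗ[F] (Fin n → F) => L v) h1
  simpa using this

theorem result {F : Type*} [Field F] [Fintype F] [CharP F 2] {n : ℕ} (hn : 3 ≤ n) (a b : Matrix.SpecialLinearGroup (Fin n) F) (ha : orderOf a = 2) (hb : orderOf b = 2) :
    IsConj a b ↔ ((a : Matrix (Fin n) (Fin n) F) - 1).rank = ((b : Matrix (Fin n) (Fin n) F) - 1).rank := by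
  constructor
  · intro h
    rw [isConj_iff] at h
    obtain ⟨c, rfl⟩ := h
    have h1 : ((c * a * c⁻¹ : Matrix.SpecialLinearGroup (Fin n) F) : Matrix (Fin n) (Fin n) F) - 1 =
        (c : Matrix (Fin n) (Fin n) F) * ((a : Matrix (Fin n) (Fin n) F) - 1) * ((c⁻¹ : Matrix.SpecialLinearGroup (Fin n) F) : Matrix (Fin n) (Fin n) F) := by
      have h2 : (c : Matrix (Fin n) (Fin n) F) * ((c⁻¹ : Matrix.SpecialLinearGroup (Fin n) F) : Matrix (Fin n) (Fin n) F) = 1 := by
        rw [← Matrix.SpecialLinearGroup.coe_mul, mul_inv_cancel, Matrix.SpecialLinearGroup.coe_one]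
      rw [mul_sub, sub_mul, mul_one, h2]
      simp
    rw [h1, Matrix.rank_mul_eq_left_of_isUnit_det, Matrix.rank_mul_eq_right_of_isUnit_det]
    · rw [c.2]; exact isUnit_one
    · rw [(c⁻¹).2]; exact isUnit_one
  · intro h
    apply sl_conj a b (sq_zero a ha) (sq_zero b hb) h
    right
    refine ⟨fun δ => FiniteField.isSquare_of_char_two (CharP.ringChar_of_prime_eq_zero Nat.prime_two (CharTwo.two_eq_zero)) δ, ?_⟩
    rw [Nat.one_le_iff_ne_zero]
    intro h0
    replace h0 := eq_zero_of_rank _ h0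
    have h1 : a = 1 := by
      apply Subtype.ext
      rw [Matrix.SpecialLinearGroup.coe_one]
      exact sub_eq_zero.1 h0
    rw [h1, orderOf_one] at ha
    omega

end Cfsg.Agent.S2162
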