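import Cfsg.Statements.S2163

set_option autoImplicit false

open Cfsg

namespace Cfsg.Agent.S2163

open Matrix Module

variable {F : Type*} [Field F] {n : ℕ}

/-- the nilpotent part -/
def Nm (F : Type*) [Field F] (n ℓ : ℕ) : Matrix (Fin n) (Fin n) F :=
  Matrix.of (fun i j : Fin n => if j.val < ℓ ∧ i.val = j.val + (n - ℓ) then (1 : F) else 0)

theorem Nm_apply (ℓ : ℕ) (i j : Fin n) :
    Nm F n ℓ i j = if j.val < ℓ ∧ i.val = j.val + (n - ℓ) then (1 : F) else 0 := rfl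

theorem sq_zero (ℓ : ℕ) (h2 : 2 * ℓ ≤ n) : Nm F n ℓ * Nm F n ℓ = 0 := by
  ext i k
  rw [Matrix.mul_apply, Matrix.zero_apply]
  apply Finset.sum_eq_zero
  intro j _
  rw [Nm_apply, Nm_apply]
  by_cases h : k.val < ℓ ∧ j.val = k.val + (n - ℓ)
  · rw [if_neg, zero_mul]
    rintro ⟨h3, -⟩
    omega
  · rw [if_neg h, mul_zero]

theorem mulVec_apply' (ℓ : ℕ) (hℓ : ℓ ≤ n) (x : Fin n → F) (i : Fin n) :
    (Nm F n ℓ *ᵥ x) i = if n - ℓ ≤ i.val ∧ ℓ ≤ n then
      x ⟨i.val - (n - ℓ), lt_of_le_of_lt (Nat.sub_le _ _) i.isLt⟩ else 0 := by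
  have hi := i.isLt
  rw [Matrix.mulVec, dotProduct]
  split_ifs with h
  · rw [Finset.sum_eq_single (⟨i.val - (n - ℓ), lt_of_le_of_lt (Nat.sub_le _ _) i.isLt⟩ : Fin n)]
    · rw [Nm_apply, if_pos, one_mul]
      constructor
      · show i.val - (n - ℓ) < ℓ
        omega
      · show i.val = i.val - (n - ℓ) + (n - ℓ)
        omega
    · intro j _ hj
      rw [Nm_apply, if_neg, zero_mul]
      rintro ⟨h3, h4⟩
      apply hj
      apply Fin.ext
      show j.val = i.val - (n - ℓ)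
      omega
    · intro hh
      exact absurd (Finset.mem_univ _) hh
  · apply Finset.sum_eq_zero
    intro j _
    have hj := j.isLt
    rw [Nm_apply, if_neg, zero_mul]
    rintro ⟨h3, h4⟩
    apply h
    omega

/-- the embedding onto the range -/
def phi (F : Type*) [Field F] (n ℓ : ℕ) (hℓ : ℓ ≤ n) : (Fin ℓ → F) →ₗ[F] (Fin n → F) where
  toFun y := fun i => if h : n - ℓ ≤ i.val then
    y ⟨i.val - (n - ℓ), by have := i.isLt; omega⟩ else 0
  map_add' y y' := by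
    funext i
    simp only [Pi.add_apply]
    split_ifs <;> simp
  map_smul' c y := by
    funext i
    simp only [Pi.smul_apply, RingHom.id_apply]
    split_ifs <;> simp

theorem phi_apply (ℓ : ℕ) (hℓ : ℓ ≤ n) (y : Fin ℓ → F) (i : Fin n) :
    phi F n ℓ hℓ y i = if h : n - ℓ ≤ i.val then
      y ⟨i.val - (n - ℓ), by have := i.isLt; omega⟩ else 0 := rfl

theorem phi_inj (ℓ : ℕ) (hℓ : ℓ ≤ n) : Function.Injective (phi F n ℓ hℓ) := by
  intro y y' h
  funext k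
  have hk := k.isLt
  have := congrFun h ⟨k.val + (n - ℓ), by omega⟩
  rw [phi_apply, phi_apply, dif_pos (by show n - ℓ ≤ k.val + (n - ℓ); omega),
    dif_pos (by show n - ℓ ≤ k.val + (n - ℓ); omega)] at this
  have e : (⟨(⟨k.val + (n - ℓ), by omega⟩ : Fin n).val - (n - ℓ), by
      show k.val + (n - ℓ) - (n - ℓ) < ℓ; omega⟩ : Fin ℓ) = k := by
    apply Fin.ext
    show k.val + (n - ℓ) - (n - ℓ) = k.val
    omega
  rw [e] at this
  exact this

theorem rank_eq (ℓ : ℕ) (hℓ : ℓ ≤ n) : (Nm F n ℓ).rank = ℓ := by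
  have hr : LinearMap.range (Nm F n ℓ).mulVecLin = LinearMap.range (phi F n ℓ hℓ) := by
    ext z
    constructor
    · rintro ⟨x, rfl⟩
      refine ⟨fun k => x ⟨k.val, lt_of_lt_of_le k.isLt hℓ⟩, ?_⟩
      funext i
      rw [mulVecLin_apply, mulVec_apply' ℓ hℓ, phi_apply]
      by_cases h : n - ℓ ≤ i.val
      · rw [dif_pos h, if_pos ⟨h, hℓ⟩]
      · rw [dif_neg h, if_neg (fun hh => h hh.1)]
    · rintro ⟨y, rfl⟩
      refine ⟨fun j => if h : j.val < ℓ then y ⟨j.val, h⟩ else 0, ?_⟩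
      funext i
      have hi := i.isLt
      rw [mulVecLin_apply, mulVec_apply' ℓ hℓ, phi_apply]
      by_cases h : n - ℓ ≤ i.val
      · rw [dif_pos h, if_pos ⟨h, hℓ⟩, dif_pos (by show i.val - (n - ℓ) < ℓ; omega)]
      · rw [dif_neg h, if_neg (fun hh => h hh.1)]
  unfold Matrix.rank
  rw [hr, LinearMap.finrank_range_of_inj (phi_inj ℓ hℓ), Module.finrank_fin_fun]

theorem result {F : Type*} [Field F] [Fintype F] [CharP F 2] {n : ℕ} (hn : 3 ≤ n) (ℓ : ℕ) (h1 : 1 ≤ ℓ) (h2 : 2 * ℓ ≤ n) :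
    ∃ a : Matrix.SpecialLinearGroup (Fin n) F, (a : Matrix (Fin n) (Fin n) F) = 1 + Matrix.of (fun i j : Fin n => if j.val < ℓ ∧ i.val = j.val + (n - ℓ) then (1 : F) else 0) ∧ orderOf a = 2 ∧ ((a : Matrix (Fin n) (Fin n) F) - 1).rank = ℓ := by
  have hNN : Nm F n ℓ + Nm F n ℓ = 0 := by
    ext i j
    rw [Matrix.add_apply, Matrix.zero_apply]
    exact CharTwo.add_self_eq_zero _
  have hsq : (1 + Nm F n ℓ) * (1 + Nm F n ℓ) = 1 := by
    have : (1 + Nm F n ℓ) * (1 + Nm F n ℓ)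
        = 1 + (Nm F n ℓ + Nm F n ℓ) + Nm F n ℓ * Nm F n ℓ := by noncomm_ring
    rw [this, hNN, sq_zero ℓ h2, add_zero, add_zero]
  have hdet : (1 + Nm F n ℓ).det = 1 := by
    have h3 := congrArg Matrix.det hsq
    rw [det_mul, det_one] at h3
    have h4 : ((1 + Nm F n ℓ).det - 1) * ((1 + Nm F n ℓ).det - 1) = 0 := by
      have e1 := CharTwo.add_self_eq_zero (1 + Nm F n ℓ).det
      have e2 := CharTwo.add_self_eq_zero (1 : F)
      linear_combination h3 - e1 + e2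
    exact sub_eq_zero.1 (mul_self_eq_zero.1 h4)
  have hrank : ((1 + Nm F n ℓ) - 1).rank = ℓ := by
    rw [add_sub_cancel_left]
    exact rank_eq ℓ (by omega)
  obtain ⟨a, ha⟩ : ∃ a : Matrix.SpecialLinearGroup (Fin n) F,
      (a : Matrix (Fin n) (Fin n) F) = 1 + Nm F n ℓ := ⟨⟨_, hdet⟩, rfl⟩
  refine ⟨a, ha, ?_, by rw [ha]; exact hrank⟩
  apply orderOf_eq_prime
  · rw [pow_two]
    apply Subtype.ext
    rw [Matrix.SpecialLinearGroup.coe_mul, ha]
    exact hsq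
  · intro h
    have h5 : (1 + Nm F n ℓ) = (1 : Matrix (Fin n) (Fin n) F) := by
      rw [← ha, h]; rfl
    rw [h5, sub_self, Matrix.rank_zero] at hrank
    omega

end Cfsg.Agent.S2163
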