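import Cfsg.Statements.S2165

set_option autoImplicit false

open Cfsg

namespace Cfsg.Agent.S2165

open Matrix Module

variable {F : Type*} [Field F] {n : ℕ}

/-- the matrix of the statement -/
def Pm (F : Type*) [Field F] (n ℓ : ℕ) : Matrix (Fin n) (Fin n) F :=
  Matrix.of (fun i j : Fin n => if (j.val < ℓ ∧ i.val = j.val + (n - ℓ)) ∨
    (i.val < ℓ ∧ j.val = i.val + (n - ℓ)) ∨ (i = j ∧ ℓ ≤ i.val ∧ i.val < n - ℓ) then (1 : F) else 0)

/-- the underlying involution -/
def pf (ℓ : ℕ) (h2 : 2 * ℓ ≤ n) (i : Fin n) : Fin n :=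
  ⟨if i.val < ℓ then i.val + (n - ℓ) else if n - ℓ ≤ i.val then i.val - (n - ℓ) else i.val, by
    have := i.isLt
    split_ifs <;> omega⟩

theorem pf_val (ℓ : ℕ) (h2 : 2 * ℓ ≤ n) (i : Fin n) : (pf ℓ h2 i).val =
    if i.val < ℓ then i.val + (n - ℓ) else if n - ℓ ≤ i.val then i.val - (n - ℓ) else i.val := rfl

theorem pf_invol (ℓ : ℕ) (h2 : 2 * ℓ ≤ n) : Function.Involutive (pf ℓ h2) := by
  intro i
  have := i.isLt
  apply Fin.ext
  rw [pf_val, pf_val]
  split_ifs <;> omega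

theorem Pm_apply (ℓ : ℕ) (h2 : 2 * ℓ ≤ n) (i j : Fin n) :
    Pm F n ℓ i j = if j = pf ℓ h2 i then (1 : F) else 0 := by
  have hi := i.isLt
  have hj := j.isLt
  unfold Pm
  rw [Matrix.of_apply]
  apply if_congr _ rfl rfl
  rw [Fin.ext_iff, Fin.ext_iff, pf_val]
  split_ifs <;> omega

theorem mulVec_apply' (ℓ : ℕ) (h2 : 2 * ℓ ≤ n) (x : Fin n → F) (i : Fin n) :
    (Pm F n ℓ *ᵥ x) i = x (pf ℓ h2 i) := by
  rw [Matrix.mulVec, dotProduct, Finset.sum_eq_single (pf ℓ h2 i)]
  · rw [Pm_apply ℓ h2, if_pos rfl, one_mul]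
  · intro j _ hj
    rw [Pm_apply ℓ h2, if_neg hj, zero_mul]
  · intro hh
    exact absurd (Finset.mem_univ _) hh

theorem mat_ext (A B : Matrix (Fin n) (Fin n) F) (h : ∀ x, A *ᵥ x = B *ᵥ x) : A = B := by
  apply Matrix.toLin'.injective
  apply LinearMap.ext
  intro x
  rw [Matrix.toLin'_apply, Matrix.toLin'_apply, h]

theorem sq_one (ℓ : ℕ) (h2 : 2 * ℓ ≤ n) : Pm F n ℓ * Pm F n ℓ = 1 := by
  apply mat_ext
  intro x
  funext i
  rw [← mulVec_mulVec, mulVec_apply' ℓ h2, mulVec_apply' ℓ h2, pf_invol ℓ h2 i, one_mulVec]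

theorem herm (ℓ : ℕ) (h2 : 2 * ℓ ≤ n) (q : ℕ) (u v : Fin n → F) :
    hermForm n F q (Pm F n ℓ *ᵥ u) (Pm F n ℓ *ᵥ v) = hermForm n F q u v := by
  unfold hermForm
  rw [← Equiv.sum_comp (pf_invol ℓ h2).toPerm (fun i => u i * v i ^ q)]
  apply Finset.sum_congr rfl
  intro i _
  rw [mulVec_apply' ℓ h2, mulVec_apply' ℓ h2]
  rfl

/-- the embedding onto the range -/
def phi (F : Type*) [Field F] (n ℓ : ℕ) (h2 : 2 * ℓ ≤ n) : (Fin ℓ → F) →ₗ[F] (Fin n → F) where
  toFun y := fun i => if h : i.val < ℓ then y ⟨i.val, h⟩ else if h' : n - ℓ ≤ i.val then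
    y ⟨i.val - (n - ℓ), by have := i.isLt; omega⟩ else 0
  map_add' y y' := by
    funext i
    simp only [Pi.add_apply]
    split_ifs <;> simp
  map_smul' c y := by
    funext i
    simp only [Pi.smul_apply, RingHom.id_apply]
    split_ifs <;> simp

theorem phi_apply (ℓ : ℕ) (h2 : 2 * ℓ ≤ n) (y : Fin ℓ → F) (i : Fin n) :
    phi F n ℓ h2 y i = if h : i.val < ℓ then y ⟨i.val, h⟩ else if h' : n - ℓ ≤ i.val then
      y ⟨i.val - (n - ℓ), by have := i.isLt; omega⟩ else 0 := rfl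

theorem phi_inj (ℓ : ℕ) (h2 : 2 * ℓ ≤ n) : Function.Injective (phi F n ℓ h2) := by
  intro y y' h
  funext k
  have hk := k.isLt
  have := congrFun h ⟨k.val, by omega⟩
  rw [phi_apply, phi_apply, dif_pos (by show k.val < ℓ; exact hk),
    dif_pos (by show k.val < ℓ; exact hk)] at this
  exact this

theorem rank_eq [CharP F 2] (ℓ : ℕ) (h2 : 2 * ℓ ≤ n) : (Pm F n ℓ - 1).rank = ℓ := by
  have hform : ∀ x i, ((Pm F n ℓ - 1) *ᵥ x) i = x (pf ℓ h2 i) + x i := by
    intro x i
    rw [sub_mulVec, one_mulVec, Pi.sub_apply, mulVec_apply' ℓ h2, CharTwo.sub_eq_add]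
  have hr : LinearMap.range (Pm F n ℓ - 1).mulVecLin = LinearMap.range (phi F n ℓ h2) := by
    ext z
    constructor
    · rintro ⟨x, rfl⟩
      refine ⟨fun k => x ⟨k.val + (n - ℓ), by have := k.isLt; omega⟩
        + x ⟨k.val, by have := k.isLt; omega⟩, ?_⟩
      funext i
      have hi := i.isLt
      rw [mulVecLin_apply, hform, phi_apply]
      by_cases h : i.val < ℓ
      · rw [dif_pos h]
        have e : pf ℓ h2 i = ⟨i.val + (n - ℓ), by omega⟩ := by
          apply Fin.ext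
          rw [pf_val, if_pos h]
        rw [e]
      · rw [dif_neg h]
        by_cases h' : n - ℓ ≤ i.val
        · rw [dif_pos h']
          have e : pf ℓ h2 i = ⟨i.val - (n - ℓ), by omega⟩ := by
            apply Fin.ext
            rw [pf_val, if_neg h, if_pos h']
          have e' : (⟨i.val - (n - ℓ) + (n - ℓ), by omega⟩ : Fin n) = i := by
            apply Fin.ext
            show i.val - (n - ℓ) + (n - ℓ) = i.val
            omega
          rw [e]
          show x ⟨i.val - (n - ℓ) + (n - ℓ), _⟩ + x ⟨i.val - (n - ℓ), _⟩ = _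
          rw [e', add_comm]
        · rw [dif_neg h']
          have e : pf ℓ h2 i = i := by
            apply Fin.ext
            rw [pf_val, if_neg h, if_neg h']
          rw [e, CharTwo.add_self_eq_zero]
    · rintro ⟨y, rfl⟩
      refine ⟨fun j => if h : j.val < ℓ then y ⟨j.val, h⟩ else 0, ?_⟩
      funext i
      have hi := i.isLt
      rw [mulVecLin_apply, hform, phi_apply]
      by_cases h : i.val < ℓ
      · rw [dif_pos h, dif_pos h, dif_neg, zero_add]
        rw [pf_val, if_pos h]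
        omega
      · rw [dif_neg h, dif_neg h, add_zero]
        by_cases h' : n - ℓ ≤ i.val
        · have e : (pf ℓ h2 i).val = i.val - (n - ℓ) := by
            rw [pf_val, if_neg h, if_pos h']
          rw [dif_pos h', dif_pos (by rw [e]; omega)]
          congr 1
          apply Fin.ext
          exact e
        · have e : (pf ℓ h2 i).val = i.val := by
            rw [pf_val, if_neg h, if_neg h']
          rw [dif_neg h', dif_neg (by rw [e]; exact h)]
  unfold Matrix.rank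
  rw [hr, LinearMap.finrank_range_of_inj (phi_inj ℓ h2), Module.finrank_fin_fun]

theorem result {F : Type*} [Field F] [Fintype F] [CharP F 2] {n q : ℕ} (hF : Fintype.card F = q ^ 2) (hn : 3 ≤ n) (ℓ : ℕ) (h1 : 1 ≤ ℓ) (h2 : 2 * ℓ ≤ n) :
    ∃ a : ↥(Cfsg.SU n F q), (((a : Matrix.SpecialLinearGroup (Fin n) F) : Matrix (Fin n) (Fin n) F) = Matrix.of (fun i j : Fin n => if (j.val < ℓ ∧ i.val = j.val + (n - ℓ)) ∨ (i.val < ℓ ∧ j.val = i.val + (n - ℓ)) ∨ (i = j ∧ ℓ ≤ i.val ∧ i.val < n - ℓ) then (1 : F) else 0)) ∧ orderOf a = 2 ∧ ((((a : Matrix.SpecialLinearGroup (Fin n) F) : Matrix (Fin n) (Fin n) F)) - 1).rank = ℓ := by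
  have hsq := sq_one (F := F) ℓ h2
  have hdet : (Pm F n ℓ).det = 1 := by
    have h3 := congrArg Matrix.det hsq
    rw [det_mul, det_one] at h3
    have h4 : ((Pm F n ℓ).det - 1) * ((Pm F n ℓ).det - 1) = 0 := by
      have e1 := CharTwo.add_self_eq_zero (Pm F n ℓ).det
      have e2 := CharTwo.add_self_eq_zero (1 : F)
      linear_combination h3 - e1 + e2
    exact sub_eq_zero.1 (mul_self_eq_zero.1 h4)
  have hrank := rank_eq (F := F) ℓ h2
  obtain ⟨s, hs⟩ : ∃ s : Matrix.SpecialLinearGroup (Fin n) F,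
      (s : Matrix (Fin n) (Fin n) F) = Pm F n ℓ := ⟨⟨_, hdet⟩, rfl⟩
  have hmem : s ∈ Cfsg.SU n F q := by
    intro u v
    have e : (slToMat n F) s = Pm F n ℓ := hs
    rw [e]
    exact herm ℓ h2 q u v
  refine ⟨⟨s, hmem⟩, hs, ?_, by
    show ((s : Matrix (Fin n) (Fin n) F) - 1).rank = ℓ
    rw [hs]; exact hrank⟩
  apply orderOf_eq_prime
  · rw [pow_two]
    apply Subtype.ext
    apply Subtype.ext
    show ((s * s : Matrix.SpecialLinearGroup (Fin n) F) : Matrix (Fin n) (Fin n) F) = 1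
    rw [Matrix.SpecialLinearGroup.coe_mul, hs]
    exact hsq
  · intro h
    have h5 : Pm F n ℓ = (1 : Matrix (Fin n) (Fin n) F) := by
      rw [← hs]
      have : s = 1 := congrArg Subtype.val h
      rw [this]; rfl
    rw [h5, sub_self, Matrix.rank_zero] at hrank
    omega

end Cfsg.Agent.S2165
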