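import Cfsg.Statements.S2167
import Cfsg.Agent.Lib.Helper5_Alt

set_option autoImplicit false

open Cfsg

namespace Cfsg.Agent.S2167

open Module Cfsg.Agent.Lib.Helper5_Symp Cfsg.Agent.Lib.Helper5_Alt

theorem result {F : Type*} [Field F] [Fintype F] [CharP F 2] {m : ℕ} (hm : 2 ≤ m) (a : ↥(Matrix.symplecticGroup (Fin m) F)) (ha : orderOf a = 2) :
    (Nat.card {v : Fin m ⊕ Fin m → F // Cfsg.sympForm m F v (Matrix.mulVec ((a : ↥(Matrix.symplecticGroup (Fin m) F)) : Matrix (Fin m ⊕ Fin m) (Fin m ⊕ Fin m) F) v) = 0} = Fintype.card F ^ (2 * m) ∨ Nat.card {v : Fin m ⊕ Fin m → F // Cfsg.sympForm m F v (Matrix.mulVec ((a : ↥(Matrix.symplecticGroup (Fin m) F)) : Matrix (Fin m ⊕ Fin m) (Fin m ⊕ Fin m) F) v) = 0} * Fintype.card F = Fintype.card F ^ (2 * m)) ∧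
    ((∀ v : Fin m ⊕ Fin m → F, Cfsg.sympForm m F v (Matrix.mulVec ((a : ↥(Matrix.symplecticGroup (Fin m) F)) : Matrix (Fin m ⊕ Fin m) (Fin m ⊕ Fin m) F) v) = 0) → Even (((a : ↥(Matrix.symplecticGroup (Fin m) F)) : Matrix (Fin m ⊕ Fin m) (Fin m ⊕ Fin m) F) - 1).rank) := by
  have h20 : (2 : F) = 0 := by exact_mod_cast CharP.cast_eq_zero F 2
  have hadd : ∀ x : F, x + x = 0 := fun x => by linear_combination x * h20
  obtain ⟨M, hM⟩ : ∃ M : Matrix (Fin m ⊕ Fin m) (Fin m ⊕ Fin m) F, M = (a : Matrix (Fin m ⊕ Fin m) (Fin m ⊕ Fin m) F) := ⟨_, rfl⟩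
  have hMM : M * M = 1 := by
    have h1 : a * a = 1 := by rw [← pow_two, ← ha, pow_orderOf_eq_one]
    have := congrArg (fun x : ↥(Matrix.symplecticGroup (Fin m) F) => (x : Matrix (Fin m ⊕ Fin m) (Fin m ⊕ Fin m) F)) h1
    rw [hM]; exact this
  have hinv : ∀ u v, sB m F (M.mulVec u) (M.mulVec v) = sB m F u v := by
    intro u v; rw [hM, sB_mulVec]
  simp only [← hM, ← sB_apply]
  have hfr : finrank F (Fin m ⊕ Fin m → F) = 2 * m := by
    rw [Module.finrank_fintype_fun_eq_card, Fintype.card_sum, Fintype.card_fin, two_mul]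
  constructor
  · let D : (Fin m ⊕ Fin m → F) → F := fun v => sB m F v (M.mulVec v)
    have hcross : ∀ u v, sB m F v (M.mulVec u) = sB m F u (M.mulVec v) := by
      intro u v
      rw [← hinv v, Matrix.mulVec_mulVec, hMM, Matrix.one_mulVec, sB_swap]
      linear_combination (-1 : F) * hadd (sB m F u (M.mulVec v))
    have hDadd : ∀ u v, D (u + v) = D u + D v := by
      intro u v
      simp only [D]
      rw [Matrix.mulVec_add]
      simp only [map_add, LinearMap.add_apply]
      rw [hcross u v]
      linear_combination hadd (sB m F u (M.mulVec v))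
    have hDsmul : ∀ (c : F) v, D (c • v) = c ^ 2 * D v := by
      intro c v
      simp only [D]
      rw [Matrix.mulVec_smul, map_smul, map_smul, LinearMap.smul_apply]
      simp only [smul_eq_mul]
      ring
    let ψ : (Fin m ⊕ Fin m → F) →ₗ[F] F :=
      { toFun := fun v => (frobeniusEquiv F 2).symm (D v)
        map_add' := by
          intro u v
          rw [hDadd, map_add]
        map_smul' := by
          intro c v
          rw [hDsmul, map_mul]
          have : (frobeniusEquiv F 2).symm (c ^ 2) = c := by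
            rw [← frobeniusEquiv_def, RingEquiv.symm_apply_apply]
          rw [this]; rfl }
    have hψ : ∀ v, ψ v ^ 2 = D v := fun v => frobeniusEquiv_symm_pow_p F 2 (D v)
    have hker : Nat.card {v : Fin m ⊕ Fin m → F // sB m F v (M.mulVec v) = 0} = Nat.card (LinearMap.ker ψ) := by
      apply Nat.card_congr
      apply Equiv.subtypeEquivRight
      intro v
      rw [LinearMap.mem_ker]
      constructor
      · intro h
        have : ψ v ^ 2 = 0 := by rw [hψ]; exact h
        exact pow_eq_zero_iff (two_ne_zero) |>.1 this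
      · intro h
        have := hψ v
        rw [h] at this
        simp only [D] at this
        rw [← this]; ring
    rw [hker, Module.natCard_eq_pow_finrank (K := F), Nat.card_eq_fintype_card]
    have h1 := LinearMap.finrank_range_add_finrank_ker ψ
    rw [hfr] at h1
    have h2 : finrank F (LinearMap.range ψ) ≤ 1 := by
      have := Submodule.finrank_le (LinearMap.range ψ)
      rwa [finrank_self] at this
    rcases Nat.le_one_iff_eq_zero_or_eq_one.1 h2 with h3 | h3
    · left
      congr 1; omega
    · right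
      rw [← pow_succ]
      congr 1; omega
  · intro halt
    let N : (Fin m ⊕ Fin m → F) →ₗ[F] (Fin m ⊕ Fin m → F) := Matrix.mulVecLin (M - 1)
    have hN : ∀ v, N v = M.mulVec v - v := by
      intro v
      simp [N, Matrix.sub_mulVec]
    let β : LinearMap.BilinForm F (Fin m ⊕ Fin m → F) := (sB m F).compl₂ N
    have hβ : ∀ u v, β u v = sB m F u (N v) := fun u v => rfl
    have hA : ∀ x, β x x = 0 := by
      intro x
      rw [hβ, hN, map_sub, halt, sB_self, sub_zero]
    obtain ⟨W, hW⟩ := Submodule.exists_isCompl (LinearMap.ker N)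
    have hnd : ∀ x ∈ W, (∀ y ∈ W, β x y = 0) → x = 0 := by
      intro x hx hxy
      have hall : ∀ y, β x y = 0 := by
        intro y
        have hy : y ∈ LinearMap.ker N ⊔ W := by rw [hW.sup_eq_top]; trivial
        obtain ⟨y1, hy1, y2, hy2, rfl⟩ := Submodule.mem_sup.1 hy
        rw [map_add, hxy y2 hy2, hβ, LinearMap.mem_ker.1 hy1]; simp
      have hNx : N x = 0 := by
        apply sB_nondeg m F
        intro u
        rw [← hβ, skew β hA, hall, neg_zero]
      have : x ∈ LinearMap.ker N ⊓ W := ⟨hNx, hx⟩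
      rw [hW.inf_eq_bot] at this
      exact (Submodule.mem_bot F).1 this
    have heven := even_finrank_of_nondeg β hA W hnd
    have h1 := Submodule.finrank_add_eq_of_isCompl hW
    have h2 := LinearMap.finrank_range_add_finrank_ker N
    have h3 : (M - 1).rank = finrank F (LinearMap.range N) := rfl
    rw [h3]
    have : finrank F (LinearMap.range N) = finrank F W := by omega
    rw [this]; exact heven

end Cfsg.Agent.S2167
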