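import Cfsg.Statements.S2231
import Cfsg.Agent.Lib.Helper5_Unip

set_option autoImplicit false

open Cfsg

namespace Cfsg.Agent.S2231

/-- all `p`-subgroups are commutative -/
def PAb (p : ℕ) (G : Type*) [Group G] : Prop :=
  ∀ P : Subgroup G, IsPGroup p P → ∀ a ∈ P, ∀ b ∈ P, a * b = b * a

theorem PAb.of_surjective {p : ℕ} [Fact p.Prime] {G H : Type*} [Group G] [Finite G] [Group H] (h : PAb p G)
    (f : G →* H) (hf : Function.Surjective f) : PAb p H := by
  intro Q hQ a ha b hb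
  obtain ⟨Q', hQ'⟩ := hQ.exists_le_sylow
  obtain ⟨P, hP⟩ := Sylow.mapSurjective_surjective hf p Q'
  have hP' : (P : Subgroup G).map f = Q' := by rw [← hP]; rfl
  have ha' : a ∈ (P : Subgroup G).map f := by rw [hP']; exact hQ' ha
  have hb' : b ∈ (P : Subgroup G).map f := by rw [hP']; exact hQ' hb
  obtain ⟨s, hs, rfl⟩ := ha'
  obtain ⟨t, ht, rfl⟩ := hb'
  rw [← map_mul, ← map_mul, h P P.2 s hs t ht]

theorem PAb.subgroup {p : ℕ} {G : Type*} [Group G] (h : PAb p G) (K : Subgroup G) : PAb p K := by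
  intro Q hQ a ha b hb
  apply Subtype.ext
  exact h (Q.map K.subtype) (hQ.map _) a (Subgroup.mem_map_of_mem _ ha) b (Subgroup.mem_map_of_mem _ hb)

theorem PAb.of_involves {p : ℕ} [Fact p.Prime] {G H : Type*} [Group G] [Finite G] [Group H] (h : PAb p G)
    (hI : Cfsg.Involves H G) : PAb p H := by
  obtain ⟨K, R, hN, ⟨e⟩⟩ := hI
  have h1 : PAb p K := h.subgroup K
  have h2 : PAb p (K ⧸ R.subgroupOf K) := h1.of_surjective (QuotientGroup.mk' _) (QuotientGroup.mk'_surjective _)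
  exact h2.of_surjective e.toMonoidHom e.surjective

theorem commute_of_fix {K : Type*} [Field K] (g h : Matrix.SpecialLinearGroup (Fin 2) K) (v : Fin 2 → K) (hv : v ≠ 0)
    (hg : (g : Matrix (Fin 2) (Fin 2) K).mulVec v = v) (hh : (h : Matrix (Fin 2) (Fin 2) K).mulVec v = v) :
    g * h = h * g := by
  have g0 := congrFun hg 0
  have g1 := congrFun hg 1
  have h0 := congrFun hh 0
  have h1 := congrFun hh 1
  simp only [Matrix.mulVec, dotProduct, Fin.sum_univ_two] at g0 g1 h0 h1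
  have dg := g.2
  have dh := h.2
  rw [Matrix.det_fin_two] at dg dh
  set a := (g : Matrix (Fin 2) (Fin 2) K) 0 0
  set b := (g : Matrix (Fin 2) (Fin 2) K) 0 1
  set c := (g : Matrix (Fin 2) (Fin 2) K) 1 0
  set d := (g : Matrix (Fin 2) (Fin 2) K) 1 1
  set a' := (h : Matrix (Fin 2) (Fin 2) K) 0 0
  set b' := (h : Matrix (Fin 2) (Fin 2) K) 0 1
  set c' := (h : Matrix (Fin 2) (Fin 2) K) 1 0
  set d' := (h : Matrix (Fin 2) (Fin 2) K) 1 1
  have hz : ∀ e : K, v 0 * e = 0 → v 1 * e = 0 → e = 0 := by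
    intro e e0 e1
    by_contra he
    apply hv
    ext i
    fin_cases i
    · exact (mul_eq_zero.1 e0).resolve_right he
    · exact (mul_eq_zero.1 e1).resolve_right he
  -- traces are two
  have tg : a + d = 2 := by
    have : a + d - 2 = 0 := by
      apply hz
      · linear_combination (1 - d) * g0 + b * g1 + v 0 * dg
      · linear_combination c * g0 + (1 - a) * g1 + v 1 * dg
    linear_combination this
  have th : a' + d' = 2 := by
    have : a' + d' - 2 = 0 := by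
      apply hz
      · linear_combination (1 - d') * h0 + b' * h1 + v 0 * dh
      · linear_combination c' * h0 + (1 - a') * h1 + v 1 * dh
    linear_combination this
  have e00 : b * c' - b' * c = 0 := by
    apply hz <;> grind
  have e01 : a * b' + b * d' - (a' * b + b' * d) = 0 := by
    apply hz <;> grind
  have e10 : c * a' + d * c' - (c' * a + d' * c) = 0 := by
    apply hz <;> grind
  apply Subtype.ext
  have hgm : (g : Matrix (Fin 2) (Fin 2) K) = !![a, b; c, d] := Matrix.eta_fin_two _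
  have hhm : (h : Matrix (Fin 2) (Fin 2) K) = !![a', b'; c', d'] := Matrix.eta_fin_two _
  rw [Matrix.SpecialLinearGroup.coe_mul, Matrix.SpecialLinearGroup.coe_mul, hgm, hhm, Matrix.mul_fin_two,
    Matrix.mul_fin_two]
  have f00 : a * a' + b * c' = a' * a + b' * c := by linear_combination e00
  have f01 : a * b' + b * d' = a' * b + b' * d := by linear_combination e01
  have f10 : c * a' + d * c' = c' * a + d' * c := by linear_combination e10
  have f11 : c * b' + d * d' = c' * b + d' * d := by linear_combination -e00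
  rw [f00, f01, f10, f11]

theorem pab_SL2 {p : ℕ} [Fact p.Prime] {K : Type*} [Field K] [Fintype K] [CharP K p] :
    PAb p (Matrix.SpecialLinearGroup (Fin 2) K) := by
  intro P hP a ha b hb
  have hcard : p ∣ Nat.card (Fin 2 → K) := by
    obtain ⟨n, hn1, hn⟩ := FiniteField.card K p
    rw [Nat.card_eq_fintype_card, Fintype.card_fun, hn, Fintype.card_fin]
    exact dvd_pow (dvd_pow_self _ n.ne_zero) (by norm_num)
  have h0 : (0 : Fin 2 → K) ∈ MulAction.fixedPoints P (Fin 2 → K) := by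
    intro g
    exact smul_zero _
  obtain ⟨v, hv, hv0⟩ := hP.exists_fixed_point_of_prime_dvd_card_of_fixed_point (Fin 2 → K) hcard h0
  exact commute_of_fix a b v (Ne.symm hv0) (hv ⟨a, ha⟩) (hv ⟨b, hb⟩)

/-- upper unitriangular -/
def IsUT {p : ℕ} (M : Matrix (Fin 3) (Fin 3) (ZMod p)) : Prop :=
  M 0 0 = 1 ∧ M 1 1 = 1 ∧ M 2 2 = 1 ∧ M 1 0 = 0 ∧ M 2 0 = 0 ∧ M 2 1 = 0

def UT (p : ℕ) : Subgroup (Matrix.SpecialLinearGroup (Fin 3) (ZMod p)) where
  carrier := {M | IsUT (M : Matrix (Fin 3) (Fin 3) (ZMod p))}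
  one_mem' := by
    simp [IsUT]
  mul_mem' := by
    rintro A B ⟨a1, a2, a3, a4, a5, a6⟩ ⟨b1, b2, b3, b4, b5, b6⟩
    simp only [Set.mem_setOf_eq, IsUT, Matrix.SpecialLinearGroup.coe_mul, Matrix.mul_apply, Fin.sum_univ_three]
    simp [a1, a2, a3, a4, a5, a6, b1, b2, b3, b4, b5, b6]
  inv_mem' := by
    rintro A ⟨a1, a2, a3, a4, a5, a6⟩
    simp only [Set.mem_setOf_eq, IsUT, Matrix.SpecialLinearGroup.coe_inv, Matrix.adjugate_fin_three]
    simp [a1, a2, a3, a4, a5, a6]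

theorem UT_isPGroup (p : ℕ) [Fact p.Prime] (hp : p ≠ 2) : IsPGroup p (UT p) := by
  have hpp : p.Prime := Fact.out
  have hp3 : 3 ≤ p := by
    have := hpp.two_le
    omega
  rintro ⟨M, a1, a2, a3, a4, a5, a6⟩
  refine ⟨1, ?_⟩
  apply Subtype.ext
  apply Subtype.ext
  show (M : Matrix (Fin 3) (Fin 3) (ZMod p)) ^ (p ^ 1) = 1
  have h1 := Cfsg.Agent.Lib.Helper5_Unip.one_add_pow_char_pow p ((M : Matrix (Fin 3) (Fin 3) (ZMod p)) - 1) 1
  rw [add_sub_cancel] at h1
  rw [h1]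
  have h3 : ((M : Matrix (Fin 3) (Fin 3) (ZMod p)) - 1) ^ 3 = 0 := by
    ext i j
    fin_cases i <;> fin_cases j <;>
      simp [pow_succ, Matrix.mul_apply, Fin.sum_univ_three, a1, a2, a3, a4, a5, a6]
  rw [pow_one, pow_eq_zero_of_le hp3 h3, add_zero]

theorem result {p : ℕ} [Fact p.Prime] (hp : p ≠ 2) {K : Type*} [Field K] [Fintype K] [CharP K p] : ¬ Cfsg.Involves ↥(Cfsg.qd p) (Matrix.ProjectiveSpecialLinearGroup (Fin 2) K) := by
  intro hI
  haveI : Finite (Matrix.ProjectiveSpecialLinearGroup (Fin 2) K) := by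
    unfold Matrix.ProjectiveSpecialLinearGroup
    infer_instance
  have h1 : PAb p (Matrix.ProjectiveSpecialLinearGroup (Fin 2) K) :=
    (pab_SL2 (p := p) (K := K)).of_surjective (QuotientGroup.mk' _) (QuotientGroup.mk'_surjective _)
  have h2 : PAb p ↥(Cfsg.qd p) := h1.of_involves hI
  obtain ⟨x, hx⟩ : ∃ x : Matrix.SpecialLinearGroup (Fin 3) (ZMod p),
      (x : Matrix (Fin 3) (Fin 3) (ZMod p)) = !![1, 1, 0; 0, 1, 0; 0, 0, 1] :=
    ⟨⟨_, by simp [Matrix.det_fin_three]⟩, rfl⟩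
  obtain ⟨y, hy⟩ : ∃ y : Matrix.SpecialLinearGroup (Fin 3) (ZMod p),
      (y : Matrix (Fin 3) (Fin 3) (ZMod p)) = !![1, 0, 0; 0, 1, 1; 0, 0, 1] :=
    ⟨⟨_, by simp [Matrix.det_fin_three]⟩, rfl⟩
  have hxq : x ∈ Cfsg.qd p := Subgroup.subset_closure (by simp [hx])
  have hyq : y ∈ Cfsg.qd p := Subgroup.subset_closure (by simp [hy])
  have hxU : x ∈ UT p := by
    show IsUT _
    simp [IsUT, hx]
  have hyU : y ∈ UT p := by
    show IsUT _
    simp [IsUT, hy]
  have h3 := h2 ((UT p).subgroupOf (Cfsg.qd p)) ((UT_isPGroup p hp).comap_subtype) ⟨x, hxq⟩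
    (Subgroup.mem_subgroupOf.2 hxU) ⟨y, hyq⟩ (Subgroup.mem_subgroupOf.2 hyU)
  have h4 : x * y = y * x := congrArg Subtype.val h3
  have h5 := congrArg (fun M : Matrix.SpecialLinearGroup (Fin 3) (ZMod p) => (M : Matrix (Fin 3) (Fin 3) (ZMod p)) 0 2) h4
  simp [hx, hy, Matrix.mul_apply, Fin.sum_univ_three] at h5

end Cfsg.Agent.S2231
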