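import Cfsg.Statements.S2268

set_option autoImplicit false
open Cfsg

namespace Cfsg.Agent.S2268

open Subgroup

theorem result {G : Type*} [Group G] [Finite G] {p : ℕ} [Fact p.Prime]
    (P : Sylow p G) (hP : IsMulCommutative (P : Subgroup G)) (Q : Subgroup G) (hQ : Q ≤ (P : Subgroup G)) :
    Subgroup.normalizer (Q : Set G) =
      (Subgroup.normalizer (Q : Set G) ⊓ Subgroup.normalizer ((P : Subgroup G) : Set G)) ⊔ Subgroup.centralizer (Q : Set G) ∧
    ((Subgroup.centralizer (Q : Set G)).subgroupOf (Subgroup.normalizer (Q : Set G))).index ∣ ((Subgroup.centralizer ((P : Subgroup G) : Set G)).subgroupOf (Subgroup.normalizer ((P : Subgroup G) : Set G))).index := by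
  have hPC : (P : Subgroup G) ≤ centralizer (Q : Set G) := by
    intro x hx
    rw [mem_centralizer_iff]
    intro y hy
    have := hP.is_comm.comm ⟨y, hQ hy⟩ ⟨x, hx⟩
    exact congrArg Subtype.val this
  have hCN : centralizer (Q : Set G) ≤ normalizer (Q : Set G) := centralizer_le_normalizer _
  have hfrat : normalizer (Q : Set G) =
      (normalizer (Q : Set G) ⊓ normalizer ((P : Subgroup G) : Set G)) ⊔ centralizer (Q : Set G) := by
    apply le_antisymm
    · intro g hg
      -- g • P ≤ C(Q)
      have hgP : ((g • P : Sylow p G) : Subgroup G) ≤ centralizer (Q : Set G) := by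
        intro x hx
        rw [Sylow.coe_subgroup_smul, Subgroup.mem_smul_pointwise_iff_exists] at hx
        obtain ⟨y, hy, rfl⟩ := hx
        have hn := (normal_subgroupOf_centralizer_normalizer (Q : Set G)).conj_mem ⟨y, hCN (hPC hy)⟩
          (by rw [mem_subgroupOf]; exact hPC hy) ⟨g, hg⟩
        rw [mem_subgroupOf] at hn
        simpa using hn
      obtain ⟨c, hc⟩ := MulAction.exists_smul_eq (centralizer (Q : Set G)) ((g • P).subtype hgP) (P.subtype hPC)
      rw [Sylow.smul_subtype] at hc
      have hc' := Sylow.subtype_injective hc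
      have h1 : ((c : G) * g) • P = P := by rw [mul_smul]; exact hc'
      rw [Sylow.smul_eq_iff_mem_normalizer] at h1
      have h2 : (c : G) * g ∈ normalizer (Q : Set G) := mul_mem (hCN c.2) hg
      have h3 : g = ((c : G) * g) * (((c : G) * g)⁻¹ * (c : G)⁻¹ * ((c : G) * g)) := by group
      rw [h3]
      refine mul_mem_sup (Subgroup.mem_inf.2 ⟨h2, h1⟩) ?_
      have hn := (normal_subgroupOf_centralizer_normalizer (Q : Set G)).conj_mem ⟨(c : G)⁻¹, hCN (inv_mem c.2)⟩
          (by rw [mem_subgroupOf]; exact inv_mem c.2) ⟨((c : G) * g)⁻¹, inv_mem h2⟩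
      rw [mem_subgroupOf] at hn
      simpa using hn
    · exact sup_le inf_le_left hCN
  refine ⟨hfrat, ?_⟩
  set NQ := normalizer (Q : Set G) with hNQ
  set NP := normalizer ((P : Subgroup G) : Set G) with hNP
  set CQ := centralizer (Q : Set G) with hCQ
  set CP := centralizer ((P : Subgroup G) : Set G) with hCP
  have hCPCQ : CP ≤ CQ := centralizer_le hQ
  have hCPNP : CP ≤ NP := centralizer_le_normalizer _
  have h1 : (CQ.subgroupOf NQ).index = CQ.relIndex (NQ ⊓ NP) := by
    haveI : (CQ.subgroupOf NQ).Normal := normal_subgroupOf_centralizer_normalizer (Q : Set G)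
    have htop : ((NQ ⊓ NP).subgroupOf NQ) ⊔ (CQ.subgroupOf NQ) = ⊤ := by
      rw [← subgroupOf_sup inf_le_left hCN, ← hfrat, subgroupOf_self]
    rw [← relIndex_top_right, ← htop, relIndex_sup_right, relIndex_subgroupOf inf_le_left]
  have h2 : CQ.relIndex (NQ ⊓ NP) ∣ CP.relIndex (NQ ⊓ NP) := relIndex_dvd_of_le_left _ hCPCQ
  have h3 : CP.relIndex (NQ ⊓ NP) ∣ CP.relIndex NP :=
    Dvd.intro _ (relIndex_mul_relIndex CP (NQ ⊓ NP) NP (le_inf (hCPCQ.trans hCN) hCPNP) inf_le_right)
  rw [h1]
  exact h2.trans h3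

end Cfsg.Agent.S2268
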