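import Cfsg.Statements.S2270

set_option autoImplicit false

open Cfsg

namespace Cfsg.Agent.S2270

theorem result (n : ℕ) (hn : 3 ≤ n) {p : ℕ} [Fact p.Prime] (hp : p ≠ 2) (hpn : p ≤ n)
    (P : Sylow p (Equiv.Perm (Fin n))) (hP : IsMulCommutative (P : Subgroup (Equiv.Perm (Fin n)))) :
    2 ∣ ((Subgroup.centralizer ((P : Subgroup (Equiv.Perm (Fin n))) : Set (Equiv.Perm (Fin n)))).subgroupOf (Subgroup.normalizer ((P : Subgroup (Equiv.Perm (Fin n))) : Set (Equiv.Perm (Fin n))))).index := by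
  classical
  have hpp : p.Prime := Fact.out
  have hdvd : p ∣ Nat.card (Equiv.Perm (Fin n)) := by
    rw [Nat.card_eq_fintype_card, Fintype.card_perm, Fintype.card_fin]
    exact (Nat.Prime.dvd_factorial hpp).2 hpn
  have hdP : p ∣ Nat.card (P : Subgroup (Equiv.Perm (Fin n))) := P.dvd_card_of_dvd_card hdvd
  obtain ⟨x, hx⟩ := exists_prime_orderOf_dvd_card' p hdP
  have hxinv : ((x : Equiv.Perm (Fin n)))⁻¹ ∈ (P : Subgroup (Equiv.Perm (Fin n))) :=
    (P : Subgroup (Equiv.Perm (Fin n))).inv_mem x.2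
  have hconj : IsConj (x : Equiv.Perm (Fin n)) (x : Equiv.Perm (Fin n))⁻¹ := by
    rw [Equiv.Perm.isConj_iff_cycleType_eq, Equiv.Perm.cycleType_inv]
  rw [isConj_iff] at hconj
  obtain ⟨c, hc⟩ := hconj
  obtain ⟨n₀, hn₀, hn₀x⟩ := P.conj_eq_normalizer_conj_of_mem (x : Equiv.Perm (Fin n)) c⁻¹ x.2
    (by rw [inv_inv, hc]; exact hxinv)
  rw [inv_inv, hc] at hn₀x
  rw [← Subgroup.normalizerMonoidHom_ker, Subgroup.index_ker]
  let ν : Subgroup.normalizer ((P : Subgroup (Equiv.Perm (Fin n))) : Set (Equiv.Perm (Fin n))) :=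
    ⟨n₀⁻¹, Subgroup.inv_mem _ hn₀⟩
  let φ := (P : Subgroup (Equiv.Perm (Fin n))).normalizerMonoidHom
  have h1 : φ ν x = x⁻¹ := by
    apply Subtype.ext
    show n₀⁻¹ * (x : Equiv.Perm (Fin n)) * (n₀⁻¹)⁻¹ = (x : Equiv.Perm (Fin n))⁻¹
    rw [inv_inv, hn₀x]
  have h2 : ∀ k : ℕ, ((φ ν) ^ (2 * k)) x = x := by
    intro k
    induction k with
    | zero => simp
    | succ k ih =>
      rw [Nat.mul_succ, pow_add, MulAut.mul_apply, pow_two, MulAut.mul_apply, h1, map_inv, h1,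
        inv_inv, ih]
  have hev : Even (orderOf (φ ν)) := by
    by_contra hodd
    rw [Nat.not_even_iff_odd] at hodd
    obtain ⟨k, hk⟩ := hodd
    have h3 : ((φ ν) ^ (2 * k + 1)) x = x := by
      rw [← hk, pow_orderOf_eq_one]; rfl
    rw [pow_succ, MulAut.mul_apply, h1, map_inv, h2 k] at h3
    have h4 : x ^ 2 = 1 := by
      rw [pow_two]
      calc x * x = x * x⁻¹ := by rw [h3]
        _ = 1 := mul_inv_cancel x
    have h5 := orderOf_dvd_of_pow_eq_one h4
    rw [hx] at h5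
    exact hp ((Nat.prime_dvd_prime_iff_eq hpp Nat.prime_two).1 h5)
  have h6 : orderOf (φ ν) ∣ Nat.card φ.range := by
    have : orderOf (⟨φ ν, ν, rfl⟩ : φ.range) = orderOf (φ ν) := Subgroup.orderOf_mk _ _
    rw [← this]
    exact orderOf_dvd_natCard _
  exact (even_iff_two_dvd.1 hev).trans h6

end Cfsg.Agent.S2270
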