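import Cfsg.Statements.S2352

set_option autoImplicit false
open Cfsg

namespace Cfsg.Agent.S2352

open Equiv Equiv.Perm

theorem exists_hom_alt (T : Type) [Fintype T] [DecidableEq T] (n : ℕ) (hn : 2 * Fintype.card T ≤ n) :
    ∃ ψ : Perm T →* alternatingGroup (Fin n), Function.Injective ψ := by
  have hcard : Fintype.card (T ⊕ T) ≤ Fintype.card (Fin n) := by
    simp only [Fintype.card_sum, Fintype.card_fin]; omega
  obtain ⟨ι⟩ := Function.Embedding.nonempty_of_card_le hcard
  let ψ1 : Perm T →* Perm (T ⊕ T) := (sumCongrHom T T).comp (MonoidHom.prod (MonoidHom.id _) (MonoidHom.id _))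
  let ψ0 : Perm T →* Perm (Fin n) := (viaEmbeddingHom ι).comp ψ1
  have hsign : ∀ σ, ψ0 σ ∈ alternatingGroup (Fin n) := by
    intro σ
    rw [mem_alternatingGroup]
    have h1 : ψ0 σ = viaEmbedding (Equiv.Perm.sumCongr σ σ) ι := rfl
    rw [h1]
    unfold viaEmbedding
    rw [sign_extendDomain, sign_sumCongr, Int.units_mul_self]
  refine ⟨ψ0.codRestrict _ hsign, ?_⟩
  intro a b hab
  have h2 : ψ0 a = ψ0 b := congrArg Subtype.val hab
  have h3 : ψ1 a = ψ1 b := viaEmbeddingHom_injective ι h2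
  have h4 := sumCongrHom_injective h3
  exact (Prod.ext_iff.1 h4).1

theorem resid_fin (w : FreeGroup ℕ) (hw : w ≠ 1) :
    ∃ (T : Type) (_ : Fintype T) (_ : DecidableEq T) (π : ℕ → Perm T), FreeGroup.lift π w ≠ 1 := by
  classical
  set L := w.toWord with hL
  let T : Finset (FreeGroup ℕ) := (L.tails.toFinset).image FreeGroup.mk
  have hT : ∀ L' : List (ℕ × Bool), L' <:+ L → FreeGroup.mk L' ∈ T := by
    intro L' h
    apply Finset.mem_image_of_mem
    simpa using h
  let e : ∀ i : ℕ, {t : T // FreeGroup.of i * (t : FreeGroup ℕ) ∈ T} ≃ {t : T // (FreeGroup.of i)⁻¹ * (t : FreeGroup ℕ) ∈ T} :=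
    fun i =>
    { toFun := fun t => ⟨⟨FreeGroup.of i * (t.1 : FreeGroup ℕ), t.2⟩, by simp⟩
      invFun := fun t => ⟨⟨(FreeGroup.of i)⁻¹ * (t.1 : FreeGroup ℕ), t.2⟩, by simp⟩
      left_inv := fun t => by ext; simp
      right_inv := fun t => by ext; simp }
  let π : ℕ → Perm T := fun i => (e i).extendSubtype
  refine ⟨T, inferInstance, inferInstance, π, ?_⟩
  have h1T : (1 : FreeGroup ℕ) ∈ T := by
    have := hT [] (List.nil_suffix)
    rwa [← FreeGroup.one_eq_mk] at this
  have key : ∀ L' : List (ℕ × Bool), L' <:+ L →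
      ((FreeGroup.lift π (FreeGroup.mk L') ⟨1, h1T⟩ : T) : FreeGroup ℕ) = FreeGroup.mk L' := by
    intro L'
    induction L' with
    | nil => intro _; simp [← FreeGroup.one_eq_mk]
    | cons a L'' ih =>
      intro hsuf
      have hsuf'' : L'' <:+ L := (List.suffix_cons a L'').trans hsuf
      have ih' := ih hsuf''
      obtain ⟨i, b⟩ := a
      have hmk : FreeGroup.mk ((i, b) :: L'') = FreeGroup.mk [(i, b)] * FreeGroup.mk L'' := by
        rw [FreeGroup.mul_mk]; rfl
      have hx : (FreeGroup.lift π (FreeGroup.mk L'') ⟨1, h1T⟩ : T) = ⟨FreeGroup.mk L'', hT _ hsuf''⟩ := Subtype.ext ih'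
      rw [hmk, map_mul, Perm.mul_apply, hx]
      cases b with
      | true =>
        have h2 : FreeGroup.mk [(i, true)] = FreeGroup.of i := rfl
        rw [h2, FreeGroup.lift_apply_of]
        have hmem : FreeGroup.of i * FreeGroup.mk L'' ∈ T := by
          have := hT _ hsuf
          rwa [hmk, h2] at this
        show (((e i).extendSubtype ⟨FreeGroup.mk L'', hT _ hsuf''⟩ : T) : FreeGroup ℕ) = _
        rw [Equiv.extendSubtype_apply_of_mem (e i) _ hmem]
        rfl
      | false =>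
        have h2 : FreeGroup.mk [(i, false)] = (FreeGroup.of i)⁻¹ := rfl
        rw [h2, map_inv, FreeGroup.lift_apply_of]
        have hmem : (FreeGroup.of i)⁻¹ * FreeGroup.mk L'' ∈ T := by
          have := hT _ hsuf
          rwa [hmk, h2] at this
        have hmem2 : FreeGroup.of i * (((⟨(FreeGroup.of i)⁻¹ * FreeGroup.mk L'', hmem⟩ : T) : FreeGroup ℕ)) ∈ T := by
          simpa using hT _ hsuf''
        have h3 : π i ⟨(FreeGroup.of i)⁻¹ * FreeGroup.mk L'', hmem⟩ = ⟨FreeGroup.mk L'', hT _ hsuf''⟩ := by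
          show (e i).extendSubtype _ = _
          rw [Equiv.extendSubtype_apply_of_mem (e i) _ hmem2]
          ext; simp [e]
        have h4 : (π i)⁻¹ ⟨FreeGroup.mk L'', hT _ hsuf''⟩ = ⟨(FreeGroup.of i)⁻¹ * FreeGroup.mk L'', hmem⟩ := by
          rw [Perm.inv_eq_iff_eq, h3]
        rw [h4]
  intro hcontra
  have := key L (List.suffix_refl L)
  rw [hL, FreeGroup.mk_toWord, hcontra] at this
  exact hw this.symm

theorem result (w : FreeGroup ℕ) (hw : w ≠ 1) :
    ∃ N : ℕ, ∀ n : ℕ, N ≤ n → ∃ f : ℕ → alternatingGroup (Fin n), FreeGroup.lift f w ≠ 1 := by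
  obtain ⟨T, _, _, π, hπ⟩ := resid_fin w hw
  refine ⟨2 * Fintype.card T, fun n hn => ?_⟩
  obtain ⟨ψ, hψ⟩ := exists_hom_alt T n hn
  refine ⟨fun i => ψ (π i), ?_⟩
  have hcomp : FreeGroup.lift (fun i => ψ (π i)) = ψ.comp (FreeGroup.lift π) := by
    ext i; simp
  rw [hcomp, MonoidHom.comp_apply]
  intro h
  apply hπ
  apply hψ
  rw [h, map_one]

end Cfsg.Agent.S2352
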