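import Cfsg.Statements.S2450
import Cfsg.Agent.Lib.Helper5_PSL2Prod

set_option autoImplicit false

open Cfsg

namespace Cfsg.Agent.S2450

open Cfsg.Agent.Lib.Helper5_PSLSpec Cfsg.Agent.Lib.Helper5_PSL2Prod Polynomial

theorem card_quad {F : Type*} [Field F] [Fintype F] [DecidableEq F] (α β γ : F) (hα : α ≠ 0) :
    (Finset.univ.filter (fun t : F => α * t ^ 2 + β * t + γ = 0)).card ≤ 2 := by
  set P : F[X] := C α * X ^ 2 + C β * X + C γ with hP
  have hdeg : P.natDegree = 2 := natDegree_quadratic hα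
  have hP0 : P ≠ 0 := by
    intro h
    rw [h] at hdeg
    simp at hdeg
  calc (Finset.univ.filter (fun t : F => α * t ^ 2 + β * t + γ = 0)).card ≤ P.roots.toFinset.card := by
        apply Finset.card_le_card
        intro t ht
        rw [Finset.mem_filter] at ht
        rw [Multiset.mem_toFinset, mem_roots hP0, IsRoot.def, hP]
        simpa using ht.2
    _ ≤ Multiset.card P.roots := Multiset.toFinset_card_le _
    _ ≤ P.natDegree := card_roots' P
    _ = 2 := hdeg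

theorem trace_formula {F : Type*} [Field F] (A B U : Matrix.SpecialLinearGroup (Fin 2) F) (t : F)
    (hU : (U : Matrix (Fin 2) (Fin 2) F) = !![1, t; 0, 1]) :
    ((A * (U * B * U⁻¹) : Matrix.SpecialLinearGroup (Fin 2) F) : Matrix (Fin 2) (Fin 2) F).trace =
      (-((A : Matrix (Fin 2) (Fin 2) F) 1 0 * (B : Matrix (Fin 2) (Fin 2) F) 1 0)) * t ^ 2 +
      ((A : Matrix (Fin 2) (Fin 2) F) 0 0 * (B : Matrix (Fin 2) (Fin 2) F) 1 0 +
        (A : Matrix (Fin 2) (Fin 2) F) 1 0 * ((B : Matrix (Fin 2) (Fin 2) F) 1 1 - (B : Matrix (Fin 2) (Fin 2) F) 0 0) -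
        (A : Matrix (Fin 2) (Fin 2) F) 1 1 * (B : Matrix (Fin 2) (Fin 2) F) 1 0) * t +
      ((A : Matrix (Fin 2) (Fin 2) F) 0 0 * (B : Matrix (Fin 2) (Fin 2) F) 0 0 +
        (A : Matrix (Fin 2) (Fin 2) F) 0 1 * (B : Matrix (Fin 2) (Fin 2) F) 1 0 +
        (A : Matrix (Fin 2) (Fin 2) F) 1 0 * (B : Matrix (Fin 2) (Fin 2) F) 0 1 +
        (A : Matrix (Fin 2) (Fin 2) F) 1 1 * (B : Matrix (Fin 2) (Fin 2) F) 1 1) := by
  rw [Matrix.SpecialLinearGroup.coe_mul, Matrix.SpecialLinearGroup.coe_mul, Matrix.SpecialLinearGroup.coe_mul,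
    Matrix.SpecialLinearGroup.coe_inv, Matrix.adjugate_fin_two, hU, Matrix.trace_fin_two]
  simp only [Matrix.mul_apply, Fin.sum_univ_two]
  simp
  ring

theorem result {F : Type*} [Field F] [Fintype F] (h4 : 4 ≤ Fintype.card F)
    (a b : Matrix.ProjectiveSpecialLinearGroup (Fin 2) F) (ha : a ≠ 1) (hb : b ≠ 1) (c : Matrix.ProjectiveSpecialLinearGroup (Fin 2) F) :
    {g : Matrix.ProjectiveSpecialLinearGroup (Fin 2) F | ∃ u v : Matrix.ProjectiveSpecialLinearGroup (Fin 2) F, g = (u * a * u⁻¹) * (v * b * v⁻¹)} ≠ {g | IsConj c g} := by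
  classical
  intro heq
  obtain ⟨A, rfl⟩ := QuotientGroup.mk'_surjective _ a
  obtain ⟨B, rfl⟩ := QuotientGroup.mk'_surjective _ b
  obtain ⟨C', rfl⟩ := QuotientGroup.mk'_surjective _ c
  change mkP F 2 A ≠ 1 at ha
  change mkP F 2 B ≠ 1 at hb
  obtain ⟨uA, hA⟩ := exists_conj_lower A (ns_of_mkP_ne_one A ha)
  obtain ⟨uB, hB⟩ := exists_conj_lower B (ns_of_mkP_ne_one B hb)
  set A' := uA * A * uA⁻¹ with hA'
  set B' := uB * B * uB⁻¹ with hB'
  set σ := (C' : Matrix (Fin 2) (Fin 2) F).trace with hσ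
  set α := -((A' : Matrix (Fin 2) (Fin 2) F) 1 0 * (B' : Matrix (Fin 2) (Fin 2) F) 1 0) with hα
  have hα0 : α ≠ 0 := neg_ne_zero.2 (mul_ne_zero hA hB)
  obtain ⟨β, γ, hf⟩ : ∃ β γ : F, ∀ t : F, (α * t ^ 2 + β * t + γ) ^ 2 = σ ^ 2 := by
    refine ⟨((A' : Matrix (Fin 2) (Fin 2) F) 0 0 * (B' : Matrix (Fin 2) (Fin 2) F) 1 0 +
        (A' : Matrix (Fin 2) (Fin 2) F) 1 0 * ((B' : Matrix (Fin 2) (Fin 2) F) 1 1 - (B' : Matrix (Fin 2) (Fin 2) F) 0 0) -
        (A' : Matrix (Fin 2) (Fin 2) F) 1 1 * (B' : Matrix (Fin 2) (Fin 2) F) 1 0),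
      ((A' : Matrix (Fin 2) (Fin 2) F) 0 0 * (B' : Matrix (Fin 2) (Fin 2) F) 0 0 +
        (A' : Matrix (Fin 2) (Fin 2) F) 0 1 * (B' : Matrix (Fin 2) (Fin 2) F) 1 0 +
        (A' : Matrix (Fin 2) (Fin 2) F) 1 0 * (B' : Matrix (Fin 2) (Fin 2) F) 0 1 +
        (A' : Matrix (Fin 2) (Fin 2) F) 1 1 * (B' : Matrix (Fin 2) (Fin 2) F) 1 1), fun t => ?_⟩
    obtain ⟨U, hU⟩ : ∃ U : Matrix.SpecialLinearGroup (Fin 2) F, (U : Matrix (Fin 2) (Fin 2) F) = !![1, t; 0, 1] :=
      ⟨⟨_, by simp [Matrix.det_fin_two_of]⟩, rfl⟩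
    rw [hα, ← trace_formula A' B' U t hU]
    apply trace_sq_of_isConj
    have hmem : mkP F 2 (A' * (U * B' * U⁻¹)) ∈ {g : Matrix.ProjectiveSpecialLinearGroup (Fin 2) F | ∃ u v : Matrix.ProjectiveSpecialLinearGroup (Fin 2) F, g = (u * mkP F 2 A * u⁻¹) * (v * mkP F 2 B * v⁻¹)} := by
      refine ⟨mkP F 2 uA, mkP F 2 (U * uB), ?_⟩
      rw [hA', hB']
      simp only [map_mul, map_inv, mul_inv_rev, mul_assoc]
    rw [heq] at hmem
    exact hmem
  have hsplit : ∀ t : F, α * t ^ 2 + β * t + (γ - σ) = 0 ∨ α * t ^ 2 + β * t + (γ + σ) = 0 := by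
    intro t
    have h1 : (α * t ^ 2 + β * t + (γ - σ)) * (α * t ^ 2 + β * t + (γ + σ)) = 0 := by
      linear_combination hf t
    exact mul_eq_zero.1 h1
  have hle : Fintype.card F ≤ 4 := by
    calc Fintype.card F = (Finset.univ : Finset F).card := rfl
      _ ≤ ((Finset.univ.filter (fun t : F => α * t ^ 2 + β * t + (γ - σ) = 0)) ∪
            (Finset.univ.filter (fun t : F => α * t ^ 2 + β * t + (γ + σ) = 0))).card := by
          apply Finset.card_le_card
          intro t _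
          rw [Finset.mem_union, Finset.mem_filter, Finset.mem_filter]
          rcases hsplit t with h | h
          · exact Or.inl ⟨Finset.mem_univ _, h⟩
          · exact Or.inr ⟨Finset.mem_univ _, h⟩
      _ ≤ _ := Finset.card_union_le _ _
      _ ≤ 2 + 2 := Nat.add_le_add (card_quad α β _ hα0) (card_quad α β _ hα0)
  have hq : Fintype.card F = 4 := le_antisymm hle h4
  have hchar : ringChar F = 2 := FiniteField.even_card_iff_char_two.2 (by rw [hq])
  haveI : CharP F 2 := by rw [← hchar]; exact ringChar.charP F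
  have hle2 : Fintype.card F ≤ 2 := by
    calc Fintype.card F = (Finset.univ : Finset F).card := rfl
      _ ≤ (Finset.univ.filter (fun t : F => α * t ^ 2 + β * t + (γ - σ) = 0)).card := by
          apply Finset.card_le_card
          intro t _
          rw [Finset.mem_filter]
          refine ⟨Finset.mem_univ _, ?_⟩
          rcases hsplit t with h | h
          · exact h
          · rw [CharTwo.sub_eq_add]; exact h
      _ ≤ 2 := card_quad α β _ hα0
  omega

end Cfsg.Agent.S2450
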