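import Cfsg.Statements.S2455
import Cfsg.Agent.Lib.Helper5_PSL2Prod

set_option autoImplicit false

open Cfsg

namespace Cfsg.Agent.S2455

open Cfsg.Agent.Lib.Helper5_PSLSpec Cfsg.Agent.Lib.Helper5_PSL2Prod

theorem result {F : Type*} [Field F] [Fintype F] (p : ℕ) [Fact p.Prime] [CharP F p] (hp : p ≠ 2) (h5 : 5 ≤ Fintype.card F)
    (x : Matrix.ProjectiveSpecialLinearGroup (Fin 2) F) (hx2 : 2 < orderOf x) (hxp : ¬ p ∣ orderOf x) : ∀ g : Matrix.ProjectiveSpecialLinearGroup (Fin 2) F, g ≠ 1 → ∃ u v : Matrix.ProjectiveSpecialLinearGroup (Fin 2) F, g = (u * x * u⁻¹) * (v * x * v⁻¹) := by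
  intro g hg
  have hpp : p.Prime := Fact.out
  obtain ⟨X, rfl⟩ := QuotientGroup.mk'_surjective _ x
  obtain ⟨G, rfl⟩ := QuotientGroup.mk'_surjective _ g
  change 2 < orderOf (mkP F 2 X) at hx2
  change ¬ p ∣ orderOf (mkP F 2 X) at hxp
  change mkP F 2 G ≠ 1 at hg
  have hodd : Odd (Fintype.card F) := by
    rw [Nat.odd_iff]
    apply FiniteField.odd_card_of_char_ne_two
    rw [ringChar.eq F p]; exact hp
  have h2 := two_ne hodd
  have hτ0 : (X : Matrix (Fin 2) (Fin 2) F).trace ≠ 0 := by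
    intro h
    have h1 := cayley (X : Matrix (Fin 2) (Fin 2) F) X.2
    rw [h, zero_smul, sub_zero] at h1
    have h3 : (X : Matrix (Fin 2) (Fin 2) F) ^ 2 = (-1 : F) • (1 : Matrix (Fin 2) (Fin 2) F) := by
      rw [pow_two, neg_smul, one_smul]
      exact eq_neg_of_add_eq_zero_left h1
    have h4 : orderOf (mkP F 2 X) ∣ 2 := orderOf_dvd_of_pow_eq_one ((mkP_pow_eq_one_iff X _).2 ⟨_, h3⟩)
    have := Nat.le_of_dvd (by norm_num) h4
    omega
  have hτ : (X : Matrix (Fin 2) (Fin 2) F).trace ^ 2 ≠ 4 := by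
    intro h
    have h1 := pow_char_scalar p (X : Matrix (Fin 2) (Fin 2) F) X.2 ((X : Matrix (Fin 2) (Fin 2) F).trace / 2)
      (by field_simp; linear_combination h) (by field_simp)
    have h4 : orderOf (mkP F 2 X) ∣ p := orderOf_dvd_of_pow_eq_one ((mkP_pow_eq_one_iff X _).2 ⟨_, h1⟩)
    rcases (Nat.dvd_prime hpp).1 h4 with h5 | h5
    · omega
    · exact hxp (by rw [h5])
  have hnorm : ∀ lam : F, lam ≠ 0 → ∃ a b : F, a ^ 2 + (X : Matrix (Fin 2) (Fin 2) F).trace * a * b + b ^ 2 = lam :=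
    fun lam _ => exists_norm hodd _ lam hτ
  have key : ∀ G' : Matrix.SpecialLinearGroup (Fin 2) F, mkP F 2 G' = mkP F 2 G →
      (G' : Matrix (Fin 2) (Fin 2) F).trace ≠ 2 →
      ∃ u v : Matrix.ProjectiveSpecialLinearGroup (Fin 2) F,
        mkP F 2 G = (u * mkP F 2 X * u⁻¹) * (v * mkP F 2 X * v⁻¹) := by
    intro G' hG' htr
    obtain ⟨a, b, hab⟩ := conic hodd (X : Matrix (Fin 2) (Fin 2) F).trace (G' : Matrix (Fin 2) (Fin 2) F).trace hτ0 htr
    obtain ⟨u, v, huv⟩ := exists_prod X G' (ns_of_mkP_ne_one G' (by rw [hG']; exact hg)) hτ hnorm a b hab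
    refine ⟨mkP F 2 u, mkP F 2 v, ?_⟩
    rw [← hG', huv]
    simp only [map_mul, map_inv]
  by_cases hγ : (G : Matrix (Fin 2) (Fin 2) F).trace = 2
  · apply key (negS G) (mkP_negS G)
    rw [negS_val, Matrix.trace_neg, hγ]
    intro h
    apply h2
    have h4 : (2 : F) * 2 = 0 := by linear_combination -h
    rcases mul_eq_zero.1 h4 with h | h <;> exact h
  · exact key G rfl hγ

end Cfsg.Agent.S2455
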