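import Cfsg.Statements.S2466
import Cfsg.Agent.Lib.Helper5_AltSpec

set_option autoImplicit false
open Cfsg

namespace Cfsg.Agent.S2466

open Cfsg.Agent.Lib.Helper5_AltSpec

theorem result (n r s : ℕ) (hr : r.Prime) (hs : s.Prime) (hr2 : r ≠ 2) (hs2 : s ≠ 2) (hrs : r ≠ s) (hrn : r ≤ n) (hsn : s ≤ n) :
    (r * s ∈ Set.range (orderOf : alternatingGroup (Fin n) → ℕ)) ↔ r + s ≤ n := by
  rw [mem_spectrum_alt_iff]
  constructor
  · rintro ⟨m, h2, hsum, hlcm, -⟩
    obtain ⟨a, ha, hra⟩ := prime_dvd_lcm hr m (by rw [hlcm]; exact dvd_mul_right r s)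
    obtain ⟨m', rfl⟩ := Multiset.exists_cons_of_mem ha
    rw [Multiset.sum_cons] at hsum
    have hapos : 0 < a := by have := h2 a ha; omega
    by_cases hsa : s ∣ a
    · have h1 : r * s ∣ a := Nat.Coprime.mul_dvd_of_dvd_of_dvd ((Nat.coprime_primes hr hs).2 hrs) hra hsa
      have h3 : r * s ≤ a := Nat.le_of_dvd hapos h1
      have h4 : r + s ≤ r * s := by
        have := hr.two_le
        have := hs.two_le
        nlinarith
      omega
    · have h1 : s ∣ lcm a m'.lcm := by
        rw [← Multiset.lcm_cons, hlcm]; exact dvd_mul_left s r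
      have h3 : s ∣ a * m'.lcm := h1.trans (lcm_dvd_mul a m'.lcm)
      rcases (Nat.Prime.dvd_mul hs).1 h3 with h4 | h4
      · exact absurd h4 hsa
      · obtain ⟨b, hb, hsb⟩ := prime_dvd_lcm hs m' h4
        have hbpos : 0 < b := by have := h2 b (Multiset.mem_cons_of_mem hb); omega
        have h5 : b ≤ m'.sum := Multiset.le_sum_of_mem hb
        have h6 := Nat.le_of_dvd hapos hra
        have h7 := Nat.le_of_dvd hbpos hsb
        omega
  · intro h
    refine ⟨{r, s}, ?_, ?_, ?_, ?_⟩
    · intro a ha
      simp only [Multiset.insert_eq_cons, Multiset.mem_cons, Multiset.mem_singleton] at ha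
      rcases ha with rfl | rfl
      · exact hr.two_le
      · exact hs.two_le
    · simpa using h
    · simp only [Multiset.insert_eq_cons, Multiset.lcm_cons, Multiset.lcm_singleton, normalize_eq]
      exact ((Nat.coprime_primes hr hs).2 hrs).lcm_eq_mul
    · simp only [Multiset.insert_eq_cons, Multiset.sum_cons, Multiset.sum_singleton, Multiset.card_cons, Multiset.card_singleton]
      have h1 := hr.odd_of_ne_two hr2
      have h3 := hs.odd_of_ne_two hs2
      exact (h1.add_odd h3).add (by decide)

end Cfsg.Agent.S2466
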