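import Cfsg.Statements.S2467
import Cfsg.Agent.Lib.Helper5_AltSpec

set_option autoImplicit false
open Cfsg

namespace Cfsg.Agent.S2467

open Cfsg.Agent.Lib.Helper5_AltSpec

theorem result (n r : ℕ) (hn : 4 ≤ n) (hr : r.Prime) (hr2 : r ≠ 2) (hrn : r ≤ n) :
    (2 * r ∈ Set.range (orderOf : alternatingGroup (Fin n) → ℕ)) ↔ r + 4 ≤ n := by
  rw [mem_spectrum_alt_iff]
  have hcop : Nat.Coprime 2 r := (Nat.coprime_primes Nat.prime_two hr).2 (Ne.symm hr2)
  constructor
  · rintro ⟨m, h2, hsum, hlcm, heven⟩
    obtain ⟨a, ha, hra⟩ := prime_dvd_lcm hr m (by rw [hlcm]; exact dvd_mul_left r 2)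
    obtain ⟨m', rfl⟩ := Multiset.exists_cons_of_mem ha
    rw [Multiset.sum_cons] at hsum
    rw [Multiset.sum_cons, Multiset.card_cons] at heven
    have hapos : 0 < a := by have := h2 a ha; omega
    by_cases hsa : 2 ∣ a
    · have h1 : 2 * r ∣ a := Nat.Coprime.mul_dvd_of_dvd_of_dvd hcop hsa hra
      have h3 : 2 * r ≤ a := Nat.le_of_dvd hapos h1
      have hne : m' ≠ 0 := by
        rintro rfl
        simp only [Multiset.sum_zero, Multiset.card_zero] at heven
        rw [Nat.even_iff] at heven
        omega
      obtain ⟨b, hb⟩ := Multiset.exists_mem_of_ne_zero hne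
      have h5 : b ≤ m'.sum := Multiset.le_sum_of_mem hb
      have h6 := h2 b (Multiset.mem_cons_of_mem hb)
      have := hr.two_le
      omega
    · have h1 : 2 ∣ lcm a m'.lcm := by
        rw [← Multiset.lcm_cons, hlcm]; exact dvd_mul_right 2 r
      have h3 : 2 ∣ a * m'.lcm := h1.trans (lcm_dvd_mul a m'.lcm)
      rcases (Nat.Prime.dvd_mul Nat.prime_two).1 h3 with h4 | h4
      · exact absurd h4 hsa
      · obtain ⟨b, hb, hsb⟩ := prime_dvd_lcm Nat.prime_two m' h4
        obtain ⟨m'', rfl⟩ := Multiset.exists_cons_of_mem hb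
        rw [Multiset.sum_cons] at hsum
        rw [Multiset.sum_cons, Multiset.card_cons] at heven
        have hne : m'' ≠ 0 := by
          rintro rfl
          simp only [Multiset.sum_zero, Multiset.card_zero] at heven
          rw [Nat.even_iff] at heven
          omega
        obtain ⟨c, hc⟩ := Multiset.exists_mem_of_ne_zero hne
        have h5 : c ≤ m''.sum := Multiset.le_sum_of_mem hc
        have h6 := h2 c (Multiset.mem_cons_of_mem (Multiset.mem_cons_of_mem hc))
        have h7 := h2 b (Multiset.mem_cons_of_mem hb)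
        have h8 := Nat.le_of_dvd hapos hra
        omega
  · intro h
    refine ⟨{r, 2, 2}, ?_, ?_, ?_, ?_⟩
    · intro a ha
      simp only [Multiset.insert_eq_cons, Multiset.mem_cons, Multiset.mem_singleton] at ha
      rcases ha with rfl | rfl | rfl
      · exact hr.two_le
      · exact le_refl _
      · exact le_refl _
    · simpa using h
    · simp only [Multiset.insert_eq_cons, Multiset.lcm_cons, Multiset.lcm_singleton, normalize_eq, lcm_same]
      rw [mul_comm]
      exact hcop.symm.lcm_eq_mul
    · simp only [Multiset.insert_eq_cons, Multiset.sum_cons, Multiset.sum_singleton, Multiset.card_cons, Multiset.card_singleton]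
      have h1 := hr.odd_of_ne_two hr2
      rw [Nat.odd_iff] at h1
      rw [Nat.even_iff]
      omega

end Cfsg.Agent.S2467
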