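import Cfsg.Statements.S2510
import Cfsg.Agent.Lib.Helper5_PSLSpec

set_option autoImplicit false

open Cfsg

namespace Cfsg.Agent.S2510

open Cfsg.Agent.Lib.Helper5_PSLSpec

theorem exists_orderOf_of_dvd {L : Type*} [Group L] [Finite L] (g : L) (b : ℕ) (hb : b ∣ orderOf g) :
    ∃ h : L, orderOf h = b :=
  ⟨g ^ (orderOf g / b), orderOf_pow_orderOf_div (orderOf_pos g).ne' hb⟩

theorem eq_of_forall_dvd' {a b : ℕ} (h : ∀ m, a ∣ m ↔ b ∣ m) : a = b :=
  Nat.dvd_antisymm ((h b).2 dvd_rfl) ((h a).1 dvd_rfl)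

theorem comb3 {L E : Type*} [Group L] [Finite L] [Group E] (P0 r M : ℕ) (hr : r.Prime)
    (hE : ∀ e : E, e ^ r = 1) (hcop : Nat.Coprime P0 M)
    (hS : ∃ g : L, M ∣ orderOf g) (hU : ∃ g : L, orderOf g = P0) (hR : ∃ g : L, orderOf g = r)
    (hD : ∀ g : L, (∃ h : L, orderOf h = Nat.lcm (orderOf g) r) ∨ orderOf g ∣ P0 * M) :
    Set.range (orderOf : L × L × L × E → ℕ) = Set.range (orderOf : L × L × L → ℕ) := by
  apply Set.eq_of_subset_of_subset
  · rintro _ ⟨⟨x, y, z, ε⟩, rfl⟩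
    rcases (Nat.dvd_prime hr).1 (orderOf_dvd_of_pow_eq_one (hE ε)) with hε | hε
    · exact ⟨(x, y, z), by simp [Prod.orderOf, hε]⟩
    rcases hD x with ⟨h, hh⟩ | hx
    · refine ⟨(h, y, z), ?_⟩
      simp only [Prod.orderOf, hε, hh]
      apply eq_of_forall_dvd'
      intro m
      simp only [Nat.lcm_dvd_iff]
      tauto
    rcases hD y with ⟨h, hh⟩ | hy
    · refine ⟨(x, h, z), ?_⟩
      simp only [Prod.orderOf, hε, hh]
      apply eq_of_forall_dvd'
      intro m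
      simp only [Nat.lcm_dvd_iff]
      tauto
    rcases hD z with ⟨h, hh⟩ | hz
    · refine ⟨(x, y, h), ?_⟩
      simp only [Prod.orderOf, hε, hh]
    have hN : Nat.lcm (orderOf x) (Nat.lcm (orderOf y) (orderOf z)) ∣ P0 * M := Nat.lcm_dvd hx (Nat.lcm_dvd hy hz)
    obtain ⟨k1, k2, h1, h2, h3⟩ := (Nat.dvd_mul).1 hN
    obtain ⟨gU, hgU⟩ := hU
    obtain ⟨gS, hgS⟩ := hS
    obtain ⟨gR, hgR⟩ := hR
    obtain ⟨g1, hg1⟩ := exists_orderOf_of_dvd gU k1 (by rw [hgU]; exact h1)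
    obtain ⟨g2, hg2⟩ := exists_orderOf_of_dvd gS k2 (h2.trans hgS)
    have hc12 : Nat.Coprime k1 k2 := Nat.Coprime.coprime_dvd_left h1 (Nat.Coprime.coprime_dvd_right h2 hcop)
    have h4 : Nat.lcm k1 k2 = Nat.lcm (orderOf x) (Nat.lcm (orderOf y) (orderOf z)) := by
      rw [hc12.lcm_eq_mul, h3]
    refine ⟨(g1, g2, gR), ?_⟩
    simp only [Prod.orderOf, hε, hg1, hg2, hgR]
    apply eq_of_forall_dvd'
    intro m
    have h5 : Nat.lcm k1 k2 ∣ m ↔ Nat.lcm (orderOf x) (Nat.lcm (orderOf y) (orderOf z)) ∣ m := by rw [h4]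
    simp only [Nat.lcm_dvd_iff] at h5 ⊢
    tauto
  · rintro _ ⟨⟨x, y, z⟩, rfl⟩
    exact ⟨(x, y, z, 1), by simp [Prod.orderOf]⟩

theorem comb2 {L E : Type*} [Group L] [Finite L] [Group E] (P0 r M : ℕ) (hr : r.Prime)
    (hE : ∀ e : E, e ^ r = 1) (hcop : Nat.Coprime P0 M)
    (hS : ∃ g : L, M ∣ orderOf g) (hU : ∃ g : L, orderOf g = P0 * r)
    (hD : ∀ g : L, (∃ h : L, orderOf h = Nat.lcm (orderOf g) r) ∨ orderOf g ∣ P0 * M) :
    Set.range (orderOf : L × L × E → ℕ) = Set.range (orderOf : L × L → ℕ) := by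
  apply Set.eq_of_subset_of_subset
  · rintro _ ⟨⟨x, y, ε⟩, rfl⟩
    rcases (Nat.dvd_prime hr).1 (orderOf_dvd_of_pow_eq_one (hE ε)) with hε | hε
    · exact ⟨(x, y), by simp [Prod.orderOf, hε]⟩
    rcases hD x with ⟨h, hh⟩ | hx
    · refine ⟨(h, y), ?_⟩
      simp only [Prod.orderOf, hε, hh]
      apply eq_of_forall_dvd'
      intro m
      simp only [Nat.lcm_dvd_iff]
      tauto
    rcases hD y with ⟨h, hh⟩ | hy
    · refine ⟨(x, h), ?_⟩
      simp only [Prod.orderOf, hε, hh]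
    have hN : Nat.lcm (orderOf x) (orderOf y) ∣ P0 * M := Nat.lcm_dvd hx hy
    obtain ⟨k1, k2, h1, h2, h3⟩ := (Nat.dvd_mul).1 hN
    obtain ⟨gU, hgU⟩ := hU
    obtain ⟨gS, hgS⟩ := hS
    obtain ⟨g1, hg1⟩ := exists_orderOf_of_dvd gU (Nat.lcm k1 r) (by
      rw [hgU]; exact Nat.lcm_dvd (h1.trans (dvd_mul_right _ _)) (dvd_mul_left _ _))
    obtain ⟨g2, hg2⟩ := exists_orderOf_of_dvd gS k2 (h2.trans hgS)
    have hc12 : Nat.Coprime k1 k2 := Nat.Coprime.coprime_dvd_left h1 (Nat.Coprime.coprime_dvd_right h2 hcop)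
    have h4 : Nat.lcm k1 k2 = Nat.lcm (orderOf x) (orderOf y) := by
      rw [hc12.lcm_eq_mul, h3]
    refine ⟨(g1, g2), ?_⟩
    simp only [Prod.orderOf, hε, hg1, hg2]
    apply eq_of_forall_dvd'
    intro m
    have h5 : Nat.lcm k1 k2 ∣ m ↔ Nat.lcm (orderOf x) (orderOf y) ∣ m := by rw [h4]
    simp only [Nat.lcm_dvd_iff] at h5 ⊢
    tauto
  · rintro _ ⟨⟨x, y⟩, rfl⟩
    exact ⟨(x, y, 1), by simp [Prod.orderOf]⟩

theorem clog_pred (p n : ℕ) (hp : 1 < p) (hn : 2 ≤ n) (h : ¬ ∃ j : ℕ, n - 1 = p ^ j) :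
    Nat.clog p (n - 1) = Nat.clog p n := by
  apply le_antisymm (Nat.clog_mono_right p (by omega))
  by_contra hlt
  rw [not_le] at hlt
  have h1 : p ^ (Nat.clog p n).pred < n := Nat.pow_pred_clog_lt_self hp (by omega)
  have h2 : n - 1 ≤ p ^ Nat.clog p (n - 1) := Nat.le_pow_clog hp _
  have h3 : p ^ Nat.clog p (n - 1) ≤ p ^ (Nat.clog p n).pred :=
    Nat.pow_le_pow_right (by omega) (Nat.le_pred_of_lt hlt)
  apply h
  exact ⟨(Nat.clog p n).pred, by omega⟩

theorem result {F : Type*} [Field F] [Fintype F] (p a n r m : ℕ) (hp : p.Prime) (ha : 1 ≤ a) (hF : Fintype.card F = p ^ a)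
    (hn : 2 ≤ n) (hn2 : n = 2 → 4 ≤ Fintype.card F) (hr : r.Prime) (hrq : r ∣ Fintype.card F - 1) (hrn : ¬ r ∣ n) :
    Set.range (orderOf : Matrix.ProjectiveSpecialLinearGroup (Fin n) F × Matrix.ProjectiveSpecialLinearGroup (Fin n) F × Matrix.ProjectiveSpecialLinearGroup (Fin n) F × Multiplicative (Fin m → ZMod r) → ℕ) =
      Set.range (orderOf : Matrix.ProjectiveSpecialLinearGroup (Fin n) F × Matrix.ProjectiveSpecialLinearGroup (Fin n) F × Matrix.ProjectiveSpecialLinearGroup (Fin n) F → ℕ) ∧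
    ((¬ ∃ j : ℕ, n - 1 = p ^ j) →
      Set.range (orderOf : Matrix.ProjectiveSpecialLinearGroup (Fin n) F × Matrix.ProjectiveSpecialLinearGroup (Fin n) F × Multiplicative (Fin m → ZMod r) → ℕ) =
        Set.range (orderOf : Matrix.ProjectiveSpecialLinearGroup (Fin n) F × Matrix.ProjectiveSpecialLinearGroup (Fin n) F → ℕ)) := by
  haveI : Finite (Matrix.ProjectiveSpecialLinearGroup (Fin n) F) := by
    unfold Matrix.ProjectiveSpecialLinearGroup
    infer_instance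
  haveI : Fact p.Prime := ⟨hp⟩
  haveI : Fact r.Prime := ⟨hr⟩
  haveI : CharP F p := by
    obtain ⟨p', hp'⟩ := CharP.exists F
    obtain ⟨m', hm1, hm⟩ := FiniteField.card F p'
    rw [hF] at hm
    have h1 : p' ∣ p ^ a := by rw [hm]; exact dvd_pow_self _ m'.ne_zero
    have h2 : p' = p := (Nat.prime_dvd_prime_iff_eq hm1 hp).1 (hm1.dvd_of_dvd_pow h1)
    subst h2; exact hp'
  have hpq : p ∣ Fintype.card F := by rw [hF]; exact dvd_pow_self _ (by omega)
  have hq2 : 2 ≤ Fintype.card F := Fintype.one_lt_card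
  have hpc : Nat.Coprime p (Fintype.card F - 1) := by
    rw [Nat.Prime.coprime_iff_not_dvd hp]
    intro h
    have h1 : p ∣ 1 := by
      have := Nat.dvd_sub hpq h
      rwa [Nat.sub_sub_self (by omega)] at this
    exact hp.one_lt.ne' (Nat.dvd_one.1 h1)
  have hpg : Nat.Coprime p (Nat.gcd n (Fintype.card F - 1)) :=
    Nat.Coprime.coprime_dvd_right (Nat.gcd_dvd_right _ _) hpc
  have hrg : Nat.Coprime r (Nat.gcd n (Fintype.card F - 1)) :=
    Nat.Coprime.coprime_dvd_right (Nat.gcd_dvd_left _ _) ((Nat.Prime.coprime_iff_not_dvd hr).2 hrn)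
  have hE : ∀ e : Multiplicative (Fin m → ZMod r), e ^ r = 1 := by
    intro e
    apply Multiplicative.toAdd.injective
    rw [toAdd_pow, toAdd_one]
    funext i
    simp
  have hcop : Nat.Coprime (p ^ Nat.clog p n) (sm (Fintype.card F) n) :=
    Nat.Coprime.pow_left _ (coprime_sm p hp hpq n (by omega))
  have hS : ∃ g : Matrix.ProjectiveSpecialLinearGroup (Fin n) F, sm (Fintype.card F) n ∣ orderOf g := by
    obtain ⟨A, hdet, hA⟩ := exists_singer (F := F) n (by omega)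
    obtain ⟨gA, hgA⟩ : ∃ gA : Matrix.SpecialLinearGroup (Fin n) F, (gA : Matrix (Fin n) (Fin n) F) = A :=
      ⟨⟨A, hdet⟩, rfl⟩
    refine ⟨mkP F n gA, ?_⟩
    obtain ⟨c, hc⟩ := (mkP_pow_eq_one_iff gA _).1 (pow_orderOf_eq_one (mkP F n gA))
    rw [hgA] at hc
    exact hA _ c hc
  -- an element of order r commuting with a given element with a commuting idempotent
  have hT : ∀ (g : Matrix.SpecialLinearGroup (Fin n) F),
      (∃ t : Matrix (Fin n) (Fin n) F, t.det = 1 ∧ Commute t (g : Matrix (Fin n) (Fin n) F) ∧ t ^ r = 1 ∧ t ≠ 1) →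
      ∃ τ : Matrix.SpecialLinearGroup (Fin n) F, Commute g τ ∧ orderOf τ = r := by
    rintro g ⟨t, htd, htc, htr, ht1⟩
    refine ⟨⟨t, htd⟩, ?_, ?_⟩
    · apply Subtype.ext
      exact htc.symm
    · apply orderOf_eq_prime
      · apply Subtype.ext
        exact htr
      · intro h
        exact ht1 (congrArg Subtype.val h)
  have hD : ∀ g : Matrix.ProjectiveSpecialLinearGroup (Fin n) F,
      (∃ h : Matrix.ProjectiveSpecialLinearGroup (Fin n) F, orderOf h = Nat.lcm (orderOf g) r) ∨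
        orderOf g ∣ p ^ Nat.clog p n * sm (Fintype.card F) n := by
    intro g
    obtain ⟨g, rfl⟩ := QuotientGroup.mk'_surjective _ g
    rcases dichotomy p r hr hrq (by omega) hrn (g : Matrix (Fin n) (Fin n) F) g.2 with h | ⟨c, hc⟩
    · left
      obtain ⟨τ, hτc, hτ⟩ := hT g h
      obtain ⟨z, -, hz⟩ := (hτc.map (mkP F n)).exists_orderOf_eq_lcm
      refine ⟨z, ?_⟩
      rw [hz, orderOf_mkP (by omega) τ (by rw [hτ]; exact hrg), hτ]
    · right
      exact orderOf_dvd_of_pow_eq_one ((mkP_pow_eq_one_iff g _).2 ⟨c, hc⟩)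
  constructor
  · apply comb3 (p ^ Nat.clog p n) r (sm (Fintype.card F) n) hr hE hcop hS _ _ hD
    · obtain ⟨u, hu⟩ := exists_unip (F := F) p n (by omega)
      have hdet : u.det = 1 := det_eq_one_of_pow p u (Nat.clog p n) (by rw [← hu]; exact pow_orderOf_eq_one u)
      obtain ⟨gu, hgu⟩ : ∃ gu : Matrix.SpecialLinearGroup (Fin n) F, (gu : Matrix (Fin n) (Fin n) F) = u :=
        ⟨⟨u, hdet⟩, rfl⟩
      refine ⟨mkP F n gu, ?_⟩
      have h1 : orderOf gu = p ^ Nat.clog p n := by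
        rw [← orderOf_coe, hgu]; exact hu
      rw [orderOf_mkP (by omega) _ (by rw [h1]; exact Nat.Coprime.pow_left _ hpg), h1]
    · obtain ⟨u, e, -, -, he, he0, he1⟩ := exists_unip_idem (F := F) p n hn
      obtain ⟨τ, -, hτ⟩ := hT 1 (exists_of_idem r hr hrq hrn _ e (Commute.one_right e) he he0 he1)
      exact ⟨mkP F n τ, by rw [orderOf_mkP (by omega) τ (by rw [hτ]; exact hrg), hτ]⟩
  · intro hnp
    apply comb2 (p ^ Nat.clog p n) r (sm (Fintype.card F) n) hr hE hcop hS _ hD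
    obtain ⟨u, e, hu, hc, he, he0, he1⟩ := exists_unip_idem (F := F) p n hn
    rw [clog_pred p n hp.one_lt hn hnp] at hu
    have hdet : u.det = 1 := det_eq_one_of_pow p u (Nat.clog p n) (by rw [← hu]; exact pow_orderOf_eq_one u)
    obtain ⟨gu, hgu⟩ : ∃ gu : Matrix.SpecialLinearGroup (Fin n) F, (gu : Matrix (Fin n) (Fin n) F) = u :=
      ⟨⟨u, hdet⟩, rfl⟩
    have h1 : orderOf gu = p ^ Nat.clog p n := by
      rw [← orderOf_coe, hgu]; exact hu
    obtain ⟨τ, hτc, hτ⟩ := hT gu (exists_of_idem r hr hrq hrn _ e (by rw [hgu]; exact hc) he he0 he1)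
    have hpr : Nat.Coprime p r := by
      rw [Nat.coprime_primes hp hr]
      rintro rfl
      exact (Nat.Prime.coprime_iff_not_dvd hp).1 hpc hrq
    have h2 : orderOf (gu * τ) = p ^ Nat.clog p n * r := by
      rw [hτc.orderOf_mul_eq_mul_orderOf_of_coprime (by rw [h1, hτ]; exact Nat.Coprime.pow_left _ hpr), h1, hτ]
    refine ⟨mkP F n (gu * τ), ?_⟩
    rw [orderOf_mkP (by omega) _ (by rw [h2]; exact Nat.Coprime.mul_left (Nat.Coprime.pow_left _ hpg) hrg), h2]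

end Cfsg.Agent.S2510
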