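import Cfsg.Statements.S2513
import Cfsg.Agent.Lib.Helper5_Spectrum

set_option autoImplicit false

open Cfsg

namespace Cfsg.Agent.S2513

open Cfsg.Agent.Lib.Helper5_Spectrum

/-- numbers that are an lcm of a `2`-power order and divisors of `2 ^ d - 1`, `n / 2 < d ≤ n` -/
def T (L : Type*) [Group L] (n N : ℕ) : Prop :=
  ∃ (u : ℕ) (e : ℕ → ℕ), (∃ g : L, orderOf g = u) ∧ (∃ J, u = 2 ^ J) ∧ (∀ d, e d ∣ 2 ^ d - 1) ∧
    ∀ M, N ∣ M ↔ (u ∣ M ∧ ∀ d ∈ Finset.Ioc (n / 2) n, e d ∣ M)

theorem T_one (L : Type*) [Group L] (n : ℕ) : T L n 1 :=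
  ⟨1, fun _ => 1, ⟨1, orderOf_one⟩, ⟨0, rfl⟩, fun _ => one_dvd _, fun M => by simp⟩

theorem T_lcm {L : Type*} [Group L] {n N N' : ℕ} (h : T L n N) (h' : T L n N') : T L n (Nat.lcm N N') := by
  obtain ⟨u, e, hg, ⟨J, hJ⟩, he, hN⟩ := h
  obtain ⟨u', e', hg', ⟨J', hJ'⟩, he', hN'⟩ := h'
  rcases le_total J J' with hle | hle
  · refine ⟨u', fun d => Nat.lcm (e d) (e' d), hg', ⟨J', hJ'⟩, fun d => Nat.lcm_dvd (he d) (he' d), ?_⟩
    intro M
    rw [Nat.lcm_dvd_iff, hN, hN']
    have huu : u ∣ u' := by rw [hJ, hJ']; exact pow_dvd_pow 2 hle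
    constructor
    · rintro ⟨⟨h1, h2⟩, h3, h4⟩
      exact ⟨h3, fun d hd => Nat.lcm_dvd (h2 d hd) (h4 d hd)⟩
    · rintro ⟨h1, h2⟩
      exact ⟨⟨huu.trans h1, fun d hd => (Nat.dvd_lcm_left _ _).trans (h2 d hd)⟩, h1,
        fun d hd => (Nat.dvd_lcm_right _ _).trans (h2 d hd)⟩
  · refine ⟨u, fun d => Nat.lcm (e d) (e' d), hg, ⟨J, hJ⟩, fun d => Nat.lcm_dvd (he d) (he' d), ?_⟩
    intro M
    rw [Nat.lcm_dvd_iff, hN, hN']
    have huu : u' ∣ u := by rw [hJ, hJ']; exact pow_dvd_pow 2 hle
    constructor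
    · rintro ⟨⟨h1, h2⟩, h3, h4⟩
      exact ⟨h1, fun d hd => Nat.lcm_dvd (h2 d hd) (h4 d hd)⟩
    · rintro ⟨h1, h2⟩
      exact ⟨⟨h1, fun d hd => (Nat.dvd_lcm_left _ _).trans (h2 d hd)⟩, huu.trans h1,
        fun d hd => (Nat.dvd_lcm_right _ _).trans (h2 d hd)⟩

theorem exists_orderOf_of_dvd {L : Type*} [Group L] [Finite L] (g : L) (b : ℕ) (hb : b ∣ orderOf g) :
    ∃ h : L, orderOf h = b :=
  ⟨g ^ (orderOf g / b), orderOf_pow_orderOf_div (orderOf_pos g).ne' hb⟩

theorem T_of_order {L : Type*} [Group L] [Finite L] (n : ℕ)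
    (F2 : ∀ (g : L) (r j : ℕ), r.Prime → r ≠ 2 → r ^ (j + 1) ∣ orderOf g →
      ∃ d, 1 ≤ d ∧ d ≤ n ∧ r ^ (j + 1) ∣ 2 ^ d - 1) (a : ℕ) :
    (∃ g : L, orderOf g = a) → T L n a := by
  induction a using Nat.recOnPrimeCoprime with
  | zero =>
    rintro ⟨g, hg⟩
    exact absurd hg (orderOf_pos g).ne'
  | prime_pow p m hp =>
    rintro ⟨g, hg⟩
    by_cases hp2 : p = 2
    · subst hp2
      exact ⟨2 ^ m, fun _ => 1, ⟨g, hg⟩, ⟨m, rfl⟩, fun _ => one_dvd _, fun M => by simp⟩
    · rcases m with _ | j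
      · simpa using T_one L n
      · obtain ⟨d, hd1, hdn, hd⟩ := F2 g p j hp hp2 (by rw [hg])
        have hq1 : 1 ≤ n / d := (Nat.le_div_iff_mul_le (by omega)).2 (by omega)
        have hle : d * (n / d) ≤ n := Nat.mul_div_le n d
        have hlt : n < d * (n / d + 1) := Nat.lt_mul_div_succ n (by omega)
        have hgt : n / 2 < d * (n / d) := by
          have : d * (n / d + 1) ≤ 2 * (d * (n / d)) := by nlinarith
          omega
        refine ⟨1, fun x => if x = d * (n / d) then p ^ (j + 1) else 1, ⟨1, orderOf_one⟩, ⟨0, rfl⟩, ?_, ?_⟩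
        · intro x
          by_cases hx : x = d * (n / d)
          · simp only [hx, if_true]
            exact hd.trans (Nat.pow_sub_one_dvd_pow_sub_one 2 (dvd_mul_right d (n / d)))
          · simp [hx]
        · intro M
          constructor
          · intro h
            refine ⟨one_dvd _, fun x _ => ?_⟩
            by_cases hx : x = d * (n / d)
            · simpa [hx] using h
            · simp [hx]
          · rintro ⟨-, h⟩
            have := h (d * (n / d)) (Finset.mem_Ioc.2 ⟨hgt, hle⟩)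
            simpa using this
  | coprime a b ha hb hab iha ihb =>
    rintro ⟨g, hg⟩
    have h1 := iha (exists_orderOf_of_dvd g a (by rw [hg]; exact dvd_mul_right _ _))
    have h2 := ihb (exists_orderOf_of_dvd g b (by rw [hg]; exact dvd_mul_left _ _))
    have := T_lcm h1 h2
    rwa [hab.lcm_eq_mul] at this

theorem orderOf_pi {L : Type*} [Group L] {k : ℕ} (f : Fin k → L) :
    orderOf f = Finset.univ.lcm (fun i => orderOf (f i)) := by
  apply Nat.dvd_antisymm
  · apply orderOf_dvd_of_pow_eq_one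
    funext i
    rw [Pi.pow_apply, Pi.one_apply]
    exact orderOf_dvd_iff_pow_eq_one.1 (Finset.dvd_lcm (Finset.mem_univ i))
  · apply Finset.lcm_dvd
    intro i _
    apply orderOf_dvd_of_pow_eq_one
    have := congrFun (pow_orderOf_eq_one f) i
    simpa using this

theorem comb {L : Type*} [Group L] [Finite L] (n : ℕ)
    (F2 : ∀ (g : L) (r j : ℕ), r.Prime → r ≠ 2 → r ^ (j + 1) ∣ orderOf g →
      ∃ d, 1 ≤ d ∧ d ≤ n ∧ r ^ (j + 1) ∣ 2 ^ d - 1)
    (F3 : ∀ d e, 1 ≤ d → d ≤ n → e ∣ 2 ^ d - 1 → ∃ g : L, orderOf g = e) (k : ℕ) (hk : (n + 3) / 2 ≤ k) :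
    Set.range (orderOf : (Fin k → L) → ℕ) = Set.range (orderOf : (Fin ((n + 3) / 2) → L) → ℕ) := by
  apply Set.eq_of_subset_of_subset
  · rintro _ ⟨f, rfl⟩
    have hT : T L n (orderOf f) := by
      rw [orderOf_pi]
      have : ∀ s : Finset (Fin k), T L n (s.lcm (fun i => orderOf (f i))) := by
        intro s
        induction s using Finset.induction_on with
        | empty => simpa using T_one L n
        | insert a s _ ih =>
          rw [Finset.lcm_insert]
          exact T_lcm (T_of_order n F2 _ ⟨f a, rfl⟩) ih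
      exact this _
    obtain ⟨u, e, ⟨gu, hgu⟩, -, he, hN⟩ := hT
    have hex : ∀ d, ∃ g : L, 1 ≤ d → d ≤ n → orderOf g = e d := by
      intro d
      by_cases h : 1 ≤ d ∧ d ≤ n
      · obtain ⟨g, hg⟩ := F3 d (e d) h.1 h.2 (he d)
        exact ⟨g, fun _ _ => hg⟩
      · exact ⟨1, fun h1 h2 => absurd ⟨h1, h2⟩ h⟩
    choose gd hgd using hex
    let f' : Fin ((n + 3) / 2) → L := fun i => if i.val = 0 then gu else gd (n / 2 + i.val)
    refine ⟨f', ?_⟩
    have hNN := (hN (orderOf f)).1 dvd_rfl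
    apply Nat.dvd_antisymm
    · apply orderOf_dvd_of_pow_eq_one
      funext i
      rw [Pi.pow_apply, Pi.one_apply]
      apply orderOf_dvd_iff_pow_eq_one.1
      by_cases hi : i.val = 0
      · simp only [f', hi, if_true]
        rw [hgu]; exact hNN.1
      · simp only [f', hi, if_false]
        have hi2 := i.isLt
        rw [hgd _ (by omega) (by omega)]
        exact hNN.2 _ (Finset.mem_Ioc.2 ⟨by omega, by omega⟩)
    · have hcomp : ∀ i, orderOf (f' i) ∣ orderOf f' := by
        intro i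
        apply orderOf_dvd_of_pow_eq_one
        have := congrFun (pow_orderOf_eq_one f') i
        simpa using this
      apply (hN _).2
      constructor
      · have := hcomp ⟨0, by omega⟩
        simp only [f', if_true] at this
        rwa [hgu] at this
      · intro d hd
        rw [Finset.mem_Ioc] at hd
        have := hcomp ⟨d - n / 2, by omega⟩
        have h0 : d - n / 2 ≠ 0 := by omega
        simp only [f', h0, if_false] at this
        have h1 : n / 2 + (d - n / 2) = d := by omega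
        rw [h1, hgd _ (by omega) (by omega)] at this
        exact this
  · rintro _ ⟨f, rfl⟩
    refine ⟨fun i => if h : i.val < (n + 3) / 2 then f ⟨i.val, h⟩ else 1, ?_⟩
    apply Nat.dvd_antisymm
    · apply orderOf_dvd_of_pow_eq_one
      funext i
      rw [Pi.pow_apply, Pi.one_apply]
      by_cases h : i.val < (n + 3) / 2
      · simp only [h, dif_pos]
        have := congrFun (pow_orderOf_eq_one f) ⟨i.val, h⟩
        simpa using this
      · simp [h]
    · apply orderOf_dvd_of_pow_eq_one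
      funext i
      have := congrFun (pow_orderOf_eq_one (fun i : Fin k => if h : i.val < (n + 3) / 2 then f ⟨i.val, h⟩ else 1))
        ⟨i.val, lt_of_lt_of_le i.isLt hk⟩
      simpa using this

section
variable {F : Type*} [Field F] [Fintype F]

theorem eq_one_of_ne_zero (hF : Fintype.card F = 2) (x : F) (hx : x ≠ 0) : x = 1 := by
  have := FiniteField.pow_card_sub_one_eq_one x hx
  simpa [hF] using this

theorem mk_injective (hF : Fintype.card F = 2) (n : ℕ) (hn : 2 ≤ n) :
    Function.Injective (QuotientGroup.mk' (Subgroup.center (Matrix.SpecialLinearGroup (Fin n) F))) := by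
  rw [← MonoidHom.ker_eq_bot_iff, QuotientGroup.ker_mk', eq_bot_iff]
  intro A hA
  rw [Matrix.SpecialLinearGroup.mem_center_iff] at hA
  obtain ⟨r, hr, hA⟩ := hA
  have hr0 : r ≠ 0 := by
    rintro rfl
    rw [Fintype.card_fin, zero_pow (by omega)] at hr
    exact zero_ne_one hr
  rw [eq_one_of_ne_zero hF r hr0] at hA
  rw [Subgroup.mem_bot]
  apply Subtype.ext
  rw [← hA]
  simp

/-- coercion to matrices as a monoid hom -/
def coeHom (n : ℕ) : Matrix.SpecialLinearGroup (Fin n) F →* Matrix (Fin n) (Fin n) F where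
  toFun g := g
  map_one' := rfl
  map_mul' _ _ := rfl

theorem coeHom_injective (n : ℕ) : Function.Injective (coeHom (F := F) n) := fun _ _ h => Subtype.ext h

end

theorem result {F : Type*} [Field F] [Fintype F] (hF : Fintype.card F = 2) (n k : ℕ) (hn : 2 ≤ n) (hk : (n + 3) / 2 ≤ k) :
    Set.range (orderOf : (Fin k → Matrix.ProjectiveSpecialLinearGroup (Fin n) F) → ℕ) = Set.range (orderOf : (Fin ((n + 3) / 2) → Matrix.ProjectiveSpecialLinearGroup (Fin n) F) → ℕ) := by
  haveI : Finite (Matrix.ProjectiveSpecialLinearGroup (Fin n) F) := by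
    unfold Matrix.ProjectiveSpecialLinearGroup
    infer_instance
  apply comb n _ _ k hk
  · intro g r j hr hr2 hdvd
    obtain ⟨h, hh⟩ := exists_orderOf_of_dvd g _ hdvd
    obtain ⟨h', rfl⟩ := QuotientGroup.mk'_surjective _ h
    rw [orderOf_injective _ (mk_injective hF n hn), ← orderOf_injective _ (coeHom_injective n)] at hh
    have hrF : (r : F) ≠ 0 := by
      haveI : CharP F 2 := by
        obtain ⟨p, hp⟩ := CharP.exists F
        obtain ⟨m, hm1, hm⟩ := FiniteField.card F p
        rw [hF] at hm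
        have : p ∣ 2 := by rw [hm]; exact dvd_pow_self _ m.ne_zero
        have : p = 2 := (Nat.prime_dvd_prime_iff_eq hm1 Nat.prime_two).1 this
        subst this; exact hp
      intro h0
      rw [CharP.cast_eq_zero_iff F 2] at h0
      exact hr2 ((Nat.prime_dvd_prime_iff_eq Nat.prime_two hr).1 h0).symm
    have := exists_dvd_pow_sub_one (coeHom n h') r j hr hrF (by rw [← hh]; exact pow_orderOf_eq_one _)
      (by
        intro h1
        have := orderOf_dvd_of_pow_eq_one h1
        rw [hh] at this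
        have := Nat.le_of_dvd (pow_pos hr.pos _) this
        exact absurd this (not_le.2 (Nat.pow_lt_pow_right hr.one_lt (Nat.lt_succ_self j))))
    rwa [hF] at this
  · intro d e hd hdn he
    obtain ⟨A, hA⟩ := exists_matrix_orderOf (F := F) n d hd hdn
    rw [hF] at hA
    have hpos : 0 < 2 ^ d - 1 := by
      have : 2 ^ 1 ≤ 2 ^ d := Nat.pow_le_pow_right (by norm_num) hd
      omega
    have hdet : A.det = 1 := by
      apply eq_one_of_ne_zero hF
      intro h0
      have h1 : A ^ (2 ^ d - 1) = 1 := by rw [← hA]; exact pow_orderOf_eq_one A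
      have := congrArg Matrix.det h1
      rw [Matrix.det_pow, h0, zero_pow hpos.ne', Matrix.det_one] at this
      exact zero_ne_one this
    let g : Matrix.SpecialLinearGroup (Fin n) F := ⟨A, hdet⟩
    have hg : orderOf (QuotientGroup.mk' (Subgroup.center (Matrix.SpecialLinearGroup (Fin n) F)) g) = 2 ^ d - 1 := by
      rw [orderOf_injective _ (mk_injective hF n hn), ← orderOf_injective _ (coeHom_injective n)]
      exact hA
    exact exists_orderOf_of_dvd _ e (by rw [hg]; exact he)

end Cfsg.Agent.S2513
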