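import Cfsg.Statements.S2521

set_option autoImplicit false
open Cfsg

namespace Cfsg.Agent.S2521

theorem result {B : Type*} [Group B] [Finite B] (U T : Subgroup B) [U.Normal] (hU : Group.IsNilpotent ↥U) (hT : IsMulCommutative ↥T)
    (hcompl : Subgroup.IsComplement' U T) (t : B) (ht : t ∈ T) (hreg : Subgroup.centralizer ({t} : Set B) = T) (u : B) (hu : u ∈ U) :
    ∃ b : B, b * t * b⁻¹ = t * u := by
  classical
  have hUn : ∀ x ∈ U, t⁻¹ * x * t ∈ U := by
    intro x hx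
    have := ‹U.Normal›.conj_mem x hx t⁻¹
    simpa using this
  let φ : U → U := fun x => ⟨t⁻¹ * x.1 * t * x.1⁻¹, U.mul_mem (hUn x.1 x.2) (U.inv_mem x.2)⟩
  have hinj : Function.Injective φ := by
    intro x y hxy
    have h1 : t⁻¹ * x.1 * t * x.1⁻¹ = t⁻¹ * y.1 * t * y.1⁻¹ := congrArg Subtype.val hxy
    have h2 : x.1 * t * x.1⁻¹ = y.1 * t * y.1⁻¹ := by
      have := congrArg (fun z => t * z) h1
      simpa [mul_assoc] using this
    have h3 : y.1⁻¹ * x.1 ∈ Subgroup.centralizer ({t} : Set B) := by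
      rw [Subgroup.mem_centralizer_singleton_iff]
      have : y.1⁻¹ * (x.1 * t * x.1⁻¹) * x.1 = y.1⁻¹ * (y.1 * t * y.1⁻¹) * x.1 := by rw [h2]
      simpa [mul_assoc] using this
    rw [hreg] at h3
    have h4 : y.1⁻¹ * x.1 ∈ U := U.mul_mem (U.inv_mem y.2) x.2
    have h5 : y.1⁻¹ * x.1 ∈ U ⊓ T := ⟨h4, h3⟩
    rw [hcompl.disjoint.eq_bot, Subgroup.mem_bot] at h5
    apply Subtype.ext
    exact (inv_mul_eq_one.1 h5).symm
  have hsurj : Function.Surjective φ := Finite.surjective_of_injective hinj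
  obtain ⟨x, hx⟩ := hsurj ⟨u, hu⟩
  refine ⟨x.1, ?_⟩
  have h1 : t⁻¹ * x.1 * t * x.1⁻¹ = u := congrArg Subtype.val hx
  rw [← h1]; group

end Cfsg.Agent.S2521
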