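import Cfsg.Statements.S2896
import Cfsg.Agent.Lib.Helper4_CharP2
import Cfsg.Agent.Lib.Helper4_PRed

set_option autoImplicit false
open Cfsg

namespace Cfsg.Agent.S2896

open Cfsg.Agent.Lib.Helper4_CharP Cfsg.Agent.Lib.Helper4_CharP2 Cfsg.Agent.Lib.Helper4_PRed

/-- Let p be a prime dividing the order of the finite group G, S a Sylow p-subgroup of G and X a subgroup of S. (i) If some nontrivial element z of the centre of X has F*(C_G(z)) = O_p(C_G(z)), then F*(N_G(X)) = O_p(N_G(X)). (ii) G has parabolic characteristic p if and only if F*(C_G(z)) = O_p(C_G(z)) for every nontrivial z ∈ Ω₁(Z(S)). (iii) If F*(C_G(z)) = O_p(C_G(z)) for every element z of S of order p, then G has local characteristic p. -/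
theorem result {G : Type*} [Group G] [Finite G] {p : ℕ} [Fact p.Prime] (hdiv : p ∣ Nat.card G) (S : Sylow p G) (X : Subgroup G) (hX : X ≤ (S : Subgroup G)) : (∀ z : G, z ≠ 1 → z ∈ X → (∀ x ∈ X, x * z = z * x) → Cfsg.generalizedFittingSubgroup ↥(Subgroup.centralizer ({z} : Set G)) = Cfsg.pCore p ↥(Subgroup.centralizer ({z} : Set G)) → Cfsg.generalizedFittingSubgroup ↥(Subgroup.normalizer (X : Set G)) = Cfsg.pCore p ↥(Subgroup.normalizer (X : Set G))) ∧ (Cfsg.IsOfParabolicCharacteristic p G ↔ ∀ z : G, z ≠ 1 → z ∈ Cfsg.omegaOne p ((S : Subgroup G) ⊓ Subgroup.centralizer ((S : Subgroup G) : Set G)) → Cfsg.generalizedFittingSubgroup ↥(Subgroup.centralizer ({z} : Set G)) = Cfsg.pCore p ↥(Subgroup.centralizer ({z} : Set G))) ∧ ((∀ z : G, z ∈ (S : Subgroup G) → orderOf z = p → Cfsg.generalizedFittingSubgroup ↥(Subgroup.centralizer ({z} : Set G)) = Cfsg.pCore p ↥(Subgroup.centralizer ({z} : Set G))) → Cfsg.IsOfLocalCharacteristic p G) :=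 by
  refine ⟨?_, ⟨?_, ?_⟩, ?_⟩
  · intro z _ hzX _ h
    exact cp_iff_gfs.1 (cp_normalizer_of_mem (S.isPGroup'.to_le hX) hzX (cp_iff_gfs.2 h))
  · intro hG z hz1 hz
    have h1 := omega_mem hz
    exact cp_iff_gfs.1 (parabolic_centralizer hG S hz1 h1.1.1 h1.1.2)
  · intro h
    apply parabolic_of S
    intro z hz1 hzS hzc hzp
    apply cp_iff_gfs.2
    apply h z hz1
    exact mem_omegaOne (Subgroup.mem_inf.2 ⟨hzS, Subgroup.mem_centralizer_iff.2 hzc⟩) hzp
  · intro h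
    refine ⟨hdiv, ?_⟩
    intro T hT hne
    rw [← cp_iff_cent]
    obtain ⟨z, hzT, hzo⟩ := Cfsg.Agent.Lib.Helper4_Syl.exists_orderOf_eq_of_ne_bot hT hne
    apply cp_normalizer_of_mem hT hzT
    obtain ⟨T', hT'⟩ := hT.exists_le_sylow
    obtain ⟨g, -, hg⟩ := (Cfsg.Agent.Lib.Helper4_Syl.IsSylIn.of_sylow_top S).conj
      (Cfsg.Agent.Lib.Helper4_Syl.IsSylIn.of_sylow_top T')
    have h1 : g⁻¹ * z * g ∈ (S : Subgroup G) := by
      rw [← Cfsg.Agent.Lib.Helper4_Syl.mem_conj_smul, hg]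
      exact hT' hzT
    have h2 : orderOf (g⁻¹ * z * g) = p := by
      have := Cfsg.Agent.Lib.Helper4_Syl.orderOf_conj_eq g⁻¹ z
      rw [inv_inv] at this
      rw [this, hzo]
    have h3 := cp_centralizer_conj g _ (cp_iff_gfs.2 (h _ h1 h2))
    have h4 : g * (g⁻¹ * z * g) * g⁻¹ = z := by group
    rwa [h4] at h3

end Cfsg.Agent.S2896
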