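import Cfsg.Statements.S2897
import Cfsg.Agent.Lib.Helper4_CharP2
import Cfsg.Agent.Lib.Helper4_PRed

set_option autoImplicit false
open Cfsg

namespace Cfsg.Agent.S2897

open Cfsg.Agent.Lib.Helper4_CharP Cfsg.Agent.Lib.Helper4_CharP2 Cfsg.Agent.Lib.Helper4_PRed

/-- Let p be a prime dividing the order of the finite group G, suppose G has parabolic characteristic p, let S be a Sylow p-subgroup of G and G₁ a normal subgroup of G. If Ω₁(Z(S ∩ G₁)) is nontrivial and contained in Ω₁(Z(S)), then G₁ has parabolic characteristic p. -/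
theorem result {G : Type*} [Group G] [Finite G] {p : ℕ} [Fact p.Prime] (hdiv : p ∣ Nat.card G) (hG : Cfsg.IsOfParabolicCharacteristic p G) (S : Sylow p G) (G₁ : Subgroup G) [G₁.Normal] (hne : Cfsg.omegaOne p (((S : Subgroup G) ⊓ G₁) ⊓ Subgroup.centralizer (((S : Subgroup G) ⊓ G₁ : Subgroup G) : Set G)) ≠ ⊥) (hle : Cfsg.omegaOne p (((S : Subgroup G) ⊓ G₁) ⊓ Subgroup.centralizer (((S : Subgroup G) ⊓ G₁ : Subgroup G) : Set G)) ≤ Cfsg.omegaOne p ((S : Subgroup G) ⊓ Subgroup.centralizer ((S : Subgroup G) : Set G))) : Cfsg.IsOfParabolicCharacteristic p ↥G₁ := by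
  apply parabolic_subnormal hG S G₁ (Subgroup.Normal.isSubnormal inferInstance)
  intro z hz1 hz hzc hzp
  have h1 := hle (mem_omegaOne (Subgroup.mem_inf.2 ⟨hz, Subgroup.mem_centralizer_iff.2 hzc⟩) hzp)
  exact (omega_mem h1).1.2

end Cfsg.Agent.S2897
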