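import Cfsg.Statements.S2907

set_option autoImplicit false
open Cfsg

namespace Cfsg.Agent.S2907



/-- Let X be a finite semi-extraspecial p-group and x an element of X outside the centre. Then the index of C_X(x) in X equals the order of Z(X), and the commutators [x, y], y ∈ X, form exactly the centre Z(X). -/
theorem result {X : Type*} [Group X] [Finite X] {p : ℕ} [Fact p.Prime] (hX : Cfsg.IsSemiExtraspecial p X) (x : X) (hx : x ∉ Subgroup.center X) : (Subgroup.centralizer ({x} : Set X)).index = Nat.card ↥(Subgroup.center X) ∧ {z : X | ∃ y : X, z = x * y * x⁻¹ * y⁻¹} = (Subgroup.center X : Set X) := by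
  obtain ⟨⟨hXp, hfr, hcomm⟩, hY⟩ := hX
  have hpp : p.Prime := Fact.out
  set Z := Subgroup.center X with hZ
  have hcen : ∀ a b : X, a * b * a⁻¹ * b⁻¹ ∈ Z := by
    intro a b
    rw [← hcomm, commutator_def]
    exact Subgroup.commutator_mem_commutator (Subgroup.mem_top a) (Subgroup.mem_top b)
  let φ : X →* X := MonoidHom.mk' (fun y => x * y * x⁻¹ * y⁻¹) (by
    intro a b
    have h1 := Subgroup.mem_center_iff.1 (hcen x b) a
    calc x * (a * b) * x⁻¹ * (a * b)⁻¹ = x * a * x⁻¹ * ((x * b * x⁻¹ * b⁻¹) * a⁻¹) := by group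
      _ = x * a * x⁻¹ * (a⁻¹ * (a * (x * b * x⁻¹ * b⁻¹)) * a⁻¹) := by group
      _ = x * a * x⁻¹ * (a⁻¹ * ((x * b * x⁻¹ * b⁻¹) * a) * a⁻¹) := by rw [h1]
      _ = _ := by group)
  have hφ : ∀ y, φ y = x * y * x⁻¹ * y⁻¹ := fun y => rfl
  have hIZ : φ.range ≤ Z := by
    rintro _ ⟨y, rfl⟩
    exact hcen x y
  have hI : φ.range = Z := by
    by_contra hne
    have hne' : φ.range.subgroupOf Z ≠ ⊤ := by
      intro h
      rw [Subgroup.subgroupOf_eq_top] at h
      exact hne (le_antisymm hIZ h)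
    obtain ⟨Y', hY', hle⟩ := (eq_top_or_exists_le_coatom (φ.range.subgroupOf Z)).resolve_left hne'
    set Y := Y'.map Z.subtype with hYdef
    have hYZ : Y ≤ Z := Subgroup.map_subtype_le _
    have hYsub : Y.subgroupOf Z = Y' := by
      rw [hYdef]
      exact Subgroup.comap_map_eq_self_of_injective Z.subtype_injective Y'
    obtain ⟨hYn, ⟨-, hcard⟩⟩ := hY Y hYZ (hYsub ▸ hY')
    have hIY : φ.range ≤ Y := by
      intro c hc
      exact ⟨⟨c, hIZ hc⟩, hle (Subgroup.mem_subgroupOf.2 hc), rfl⟩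
    set π := QuotientGroup.mk' Y with hπ
    have hZc : Z.map π ≤ Subgroup.center (X ⧸ Y) := by
      rintro _ ⟨z, hz, rfl⟩
      rw [Subgroup.mem_center_iff]
      intro q
      obtain ⟨g, rfl⟩ := QuotientGroup.mk'_surjective Y q
      rw [← map_mul, ← map_mul, Subgroup.mem_center_iff.1 hz g]
    have hZ1 : Z.map π ≠ ⊥ := by
      intro h
      rw [Subgroup.map_eq_bot_iff, QuotientGroup.ker_mk'] at h
      apply hY'.1
      rw [← hYsub, Subgroup.subgroupOf_eq_top]
      exact h
    have hZeq : Z.map π = Subgroup.center (X ⧸ Y) := by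
      have h1 : Nat.card (Z.map π) ∣ p := hcard ▸ Subgroup.card_dvd_of_le hZc
      rcases (Nat.dvd_prime hpp).1 h1 with h | h
      · exact absurd (Subgroup.card_eq_one.1 h) hZ1
      · exact Subgroup.eq_of_le_of_card_ge hZc (by rw [h, hcard])
    have hxc : π x ∈ Subgroup.center (X ⧸ Y) := by
      rw [Subgroup.mem_center_iff]
      intro q
      obtain ⟨g, rfl⟩ := QuotientGroup.mk'_surjective Y q
      have h1 : π (x * g * x⁻¹ * g⁻¹) = 1 := (QuotientGroup.eq_one_iff _).2 (hIY ⟨g, rfl⟩)
      rw [map_mul, map_mul, map_mul, map_inv, map_inv] at h1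
      calc π g * π x = (π x * π g * (π x)⁻¹ * (π g)⁻¹)⁻¹ * (π x * π g) := by group
        _ = π x * π g := by rw [h1, inv_one, one_mul]
    rw [← hZeq] at hxc
    obtain ⟨z, hz, hzx⟩ := hxc
    have h2 : z⁻¹ * x ∈ Y := QuotientGroup.eq.1 hzx
    apply hx
    have : x = z * (z⁻¹ * x) := by group
    rw [this]
    exact Z.mul_mem hz (hYZ h2)
  constructor
  · have hker : φ.ker = Subgroup.centralizer ({x} : Set X) := by
      ext y
      rw [MonoidHom.mem_ker, hφ, Subgroup.mem_centralizer_singleton_iff]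
      constructor
      · intro h
        have : x * y = (x * y * x⁻¹ * y⁻¹) * (y * x) := by group
        rw [this, h, one_mul]
      · intro h
        rw [← h]; group
    rw [← hker, Subgroup.index_ker, hI]
  · ext z
    constructor
    · rintro ⟨y, rfl⟩
      exact hcen x y
    · intro hz
      have : z ∈ φ.range := hI ▸ hz
      obtain ⟨y, hy⟩ := this
      exact ⟨y, hy.symm⟩

end Cfsg.Agent.S2907
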