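import Cfsg.Statements.S2908
import Cfsg.Agent.Lib.Helper1_Comm2
import Cfsg.Agent.Lib.Helper4_Syl
import Cfsg.Agent.S0026
import Cfsg.Agent.S0027

set_option autoImplicit false

open Cfsg

namespace Cfsg.Agent.S2908

open scoped Pointwise commutatorElement
open Cfsg.Agent.Lib.Helper4_Syl Cfsg.Agent.Lib.Helper1_Comm Cfsg.Agent.Lib.Helper1_Comm2

theorem le_normalizer_sup' {G : Type*} [Group G] {X H K : Subgroup G}
    (hH : X ≤ Subgroup.normalizer (H : Set G)) (hK : X ≤ Subgroup.normalizer (K : Set G)) :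
    X ≤ Subgroup.normalizer ((H ⊔ K : Subgroup G) : Set G) := by
  intro x hx
  rw [mem_normalizer_iff_conj_smul, Subgroup.smul_sup, mem_normalizer_iff_conj_smul.1 (hH hx),
    mem_normalizer_iff_conj_smul.1 (hK hx)]

theorem result {G : Type*} [Group G] [Finite G] {p : ℕ} [Fact p.Prime] (P A B : Subgroup G) (hP : IsPGroup p ↥P) (hA : IsPGroup p ↥A) (hB : ¬ p ∣ Nat.card ↥B) (hnA : A ≤ Subgroup.normalizer (P : Set G)) (hnB : B ≤ Subgroup.normalizer (P : Set G)) (hAB : ⁅A, B⁆ = ⊥) (hcomm : ⁅P, B⁆ ≤ ⁅P, A⁆) : ⁅P, B⁆ = ⊥ := by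
  have hcop : (Nat.card B).Coprime (Nat.card P) := by
    obtain ⟨n, hn⟩ := IsPGroup.iff_card.1 hP
    rw [hn]
    exact Nat.Coprime.pow_right _ ((Nat.Prime.coprime_iff_not_dvd Fact.out).2 hB).symm
  have hsolv : Group.IsSolvable B ∨ Group.IsSolvable P := by
    right
    have := hP.isNilpotent
    infer_instance
  have h27 := Cfsg.Agent.S0027.result B P hnB hcop hsolv
  have h26 := Cfsg.Agent.S0026.result B P hnB hcop hsolv
  set Q := ⁅P, B⁆ with hQ
  set C := P ⊓ Subgroup.centralizer (B : Set G) with hC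
  set L := P ⊔ A with hL
  set Q₁ := ⁅Q, L⁆ with hQ₁
  have hLp : IsPGroup p L := hP.to_sup_of_normal_left' hA hnA
  have hQP : Q ≤ P := commutator_le_left hnB
  have hABc : A ≤ Subgroup.centralizer (B : Set G) := by
    rw [Subgroup.le_centralizer_iff, ← Subgroup.commutator_eq_bot_iff_le_centralizer]
    rw [Subgroup.commutator_comm]; exact hAB
  have hBAc : B ≤ Subgroup.centralizer (A : Set G) := Subgroup.le_centralizer_iff.1 hABc
  have hPQ : P ≤ Subgroup.normalizer (Q : Set G) := le_normalizer_commutator_left P B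
  have hBQ : B ≤ Subgroup.normalizer (Q : Set G) := le_normalizer_commutator_right hnB
  have hAQ : A ≤ Subgroup.normalizer (Q : Set G) :=
    le_normalizer_commutator hnA (hABc.trans (Subgroup.centralizer_le_normalizer _))
  have hLQ : L ≤ Subgroup.normalizer (Q : Set G) := sup_le hPQ hAQ
  have hBL : B ≤ Subgroup.normalizer (L : Set G) :=
    le_normalizer_sup' hnB (hBAc.trans (Subgroup.centralizer_le_normalizer _))
  have hBQ₁ : B ≤ Subgroup.normalizer (Q₁ : Set G) := le_normalizer_commutator hBQ hBL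
  have hLQ₁ : L ≤ Subgroup.normalizer (Q₁ : Set G) :=
    le_normalizer_commutator hLQ Subgroup.le_normalizer
  have hCP : C ≤ P := inf_le_left
  have hCL : C ≤ L := hCP.trans le_sup_left
  -- A normalizes C
  have hAC : ∀ a ∈ A, ∀ c ∈ C, a * c * a⁻¹ ∈ C := by
    intro a ha c hc
    refine Subgroup.mem_inf.2 ⟨conj_mem_of_mem_normalizer (hnA ha) (hCP hc), ?_⟩
    have hc2 := (Subgroup.mem_inf.1 hc).2
    rw [Subgroup.mem_centralizer_iff] at hc2 ⊢
    intro b hb
    have h1 := hc2 b hb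
    have h2 := (Subgroup.mem_centralizer_iff.1 (hABc ha)) b hb
    have h3 : b * a⁻¹ = a⁻¹ * b := by
      have := congrArg (fun x => a⁻¹ * x * a⁻¹) h2
      simpa [mul_assoc] using this.symm
    calc b * (a * c * a⁻¹) = (b * a) * c * a⁻¹ := by group
      _ = a * (b * c) * a⁻¹ := by rw [h2]; group
      _ = a * c * (b * a⁻¹) := by rw [h1]; group
      _ = a * c * a⁻¹ * b := by rw [h3]; group
  have h1 : ⁅P, A⁆ ≤ Q₁ ⊔ C := by
    rw [Subgroup.commutator_le]
    intro x hx a ha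
    have hx' : x ∈ ((Q ⊔ C : Subgroup G) : Set G) := by rw [h26]; exact hx
    rw [Subgroup.coe_mul_of_right_le_normalizer_left Q C (hCP.trans hPQ)] at hx'
    obtain ⟨q, hq, c, hc, rfl⟩ := hx'
    have e : ⁅q * c, a⁆ = ⁅q, ⁅c, a⁆⁆ * ⁅c, a⁆ * ⁅q, a⁆ := by
      simp only [commutatorElement_def]; group
    rw [e]
    have hca : ⁅c, a⁆ ∈ C := by
      rw [commutatorElement_def, mul_assoc, mul_assoc, ← mul_assoc a]
      exact C.mul_mem hc (hAC a ha _ (C.inv_mem hc))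
    refine Subgroup.mul_mem _ (Subgroup.mul_mem _ ?_ ?_) ?_
    · exact (le_sup_left : Q₁ ≤ Q₁ ⊔ C) (Subgroup.commutator_mem_commutator hq (hCL hca))
    · exact (le_sup_right : C ≤ Q₁ ⊔ C) hca
    · exact (le_sup_left : Q₁ ≤ Q₁ ⊔ C)
        (Subgroup.commutator_mem_commutator hq ((le_sup_right : A ≤ L) ha))
  have h2 : ⁅Q₁ ⊔ C, B⁆ ≤ Q₁ := by
    rw [Subgroup.commutator_le]
    intro x hx b hb
    have hx' : x ∈ ((Q₁ ⊔ C : Subgroup G) : Set G) := hx
    rw [Subgroup.coe_mul_of_right_le_normalizer_left Q₁ C (hCL.trans hLQ₁)] at hx'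
    obtain ⟨q, hq, c, hc, rfl⟩ := hx'
    have hcb : b * c = c * b := (Subgroup.mem_centralizer_iff.1 (Subgroup.mem_inf.1 hc).2) b hb
    have e : ⁅q * c, b⁆ = q * (b * q⁻¹ * b⁻¹) := by
      rw [commutatorElement_def]
      calc q * c * b * (q * c)⁻¹ * b⁻¹ = q * (c * b) * c⁻¹ * q⁻¹ * b⁻¹ := by group
        _ = q * (b * q⁻¹ * b⁻¹) := by rw [← hcb]; group
    rw [e]
    exact Q₁.mul_mem hq (conj_mem_of_mem_normalizer (hBQ₁ hb) (Q₁.inv_mem hq))
  have h3 : Q ≤ Q₁ := by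
    calc Q = ⁅Q, B⁆ := h27.symm
      _ ≤ ⁅Q₁ ⊔ C, B⁆ := Subgroup.commutator_mono (hcomm.trans h1) le_rfl
      _ ≤ Q₁ := h2
  by_contra hne
  exact absurd h3 (not_le_of_gt (commutator_lt_of_isPGroup (hP.to_le hQP) hLp hLQ hne))

end Cfsg.Agent.S2908
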