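import Cfsg.Statements.S2909
import Cfsg.Agent.Lib.Helper4_PxQ
import Cfsg.Agent.Lib.Helper3_Sig
import Cfsg.Agent.S0028
import Cfsg.Agent.S0058

set_option autoImplicit false
open Cfsg

namespace Cfsg.Agent.S2909

open Cfsg.Agent.Lib.Helper4_PSol Cfsg.Agent.Lib.Helper4_PxQ Cfsg.Agent.Lib.Helper1_Comm
  Cfsg.Agent.Lib.Helper1_Comm2 Cfsg.Agent.Lib.Helper3_Sig
open scoped commutatorElement

/-- Let p be a prime, E a normal p-subgroup of the finite group G, and U a non-cyclic elementary abelian p-subgroup of G such that either C_E(U) = C_E(u) for every nontrivial u ∈ U, or [E, U] = [E, ⟨u⟩] for every nontrivial u ∈ U. If R is a subgroup of order prime to p normalized by U, then [R, U] centralizes E. -/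
theorem result {G : Type*} [Group G] [Finite G] {p : ℕ} [Fact p.Prime] (E : Subgroup G) [E.Normal] (hE : IsPGroup p ↥E) (U : Subgroup G) (hU : Cfsg.IsElementaryAbelian p U) (hnc : ¬ IsCyclic ↥U) (hcond : (∀ u ∈ U, u ≠ 1 → E ⊓ Subgroup.centralizer (U : Set G) = E ⊓ Subgroup.centralizer ({u} : Set G)) ∨ (∀ u ∈ U, u ≠ 1 → ⁅E, U⁆ = ⁅E, Subgroup.zpowers u⁆)) (R : Subgroup G) (hR : ¬ p ∣ Nat.card ↥R) (hRU : U ≤ Subgroup.normalizer (R : Set G)) : ⁅R, U⁆ ≤ Subgroup.centralizer (E : Set G) := by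
  have hp : Fact p.Prime := inferInstance
  haveI := hU.1
  have hNE : ∀ H : Subgroup G, H ≤ Subgroup.normalizer (E : Set G) := fun H => by
    rw [Subgroup.normalizer_eq_top]; exact le_top
  set R₁ := ⁅R, U⁆ with hR₁
  have hR₁R : R₁ ≤ R := commutator_le_left hRU
  have hUR₁ : U ≤ Subgroup.normalizer (R₁ : Set G) := le_normalizer_commutator_right hRU
  have hR₁p : ¬ p ∣ Nat.card R₁ := fun h => hR (h.trans (Subgroup.card_dvd_of_le hR₁R))
  have gen1 := Cfsg.Agent.S0058.result U R₁ hnc hUR₁ (ea_coprime hU hR₁p)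
  have gen := Cfsg.Agent.S0058.result U R hnc hRU (ea_coprime hU hR)
  have hzp : ∀ u ∈ U, IsPGroup p (Subgroup.zpowers u) := fun u hu =>
    isPGroup_zpowers_of_pow (k := 1) (by rw [pow_one]; exact hU.2 u hu)
  have hcz : ∀ u : G, Subgroup.centralizer ({u} : Set G) =
      Subgroup.centralizer ((Subgroup.zpowers u : Subgroup G) : Set G) := fun u =>
    (centralizer_zpowers_eq u).symm
  have hDcop : ∀ u : G, (Nat.card ↥(R₁ ⊓ Subgroup.centralizer ({u} : Set G))).Coprime p := fun u =>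
    ((Nat.Prime.coprime_iff_not_dvd hp.1).2
      (fun h => hR₁p (h.trans (Subgroup.card_dvd_of_le inf_le_left)))).symm
  have hzD : ∀ u : G, Subgroup.zpowers u ≤ Subgroup.centralizer
      ((R₁ ⊓ Subgroup.centralizer ({u} : Set G) : Subgroup G) : Set G) := fun u => by
    rw [Subgroup.le_centralizer_iff, ← hcz]; exact inf_le_right
  rw [← gen1]
  refine iSup₂_le ?_
  rintro u ⟨hu, hu1⟩
  rcases hcond with hcond | hcond
  · set E₀ := E ⊓ Subgroup.centralizer (U : Set G) with hE₀
    have hRN : R ≤ Subgroup.normalizer (E₀ : Set G) := by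
      rw [← gen]
      refine iSup₂_le ?_
      rintro v ⟨hv, hv1⟩
      rw [hcond v hv hv1]
      exact le_trans (le_inf (hNE _) (inf_le_right.trans Subgroup.le_normalizer))
        Subgroup.inf_normalizer_le_normalizer_inf
    have hUC : U ≤ Subgroup.centralizer (E₀ : Set G) := by
      rw [Subgroup.le_centralizer_iff]; exact inf_le_right
    have hR₁C : R₁ ≤ Subgroup.centralizer (E₀ : Set G) := by
      rw [hR₁, Subgroup.commutator_le]
      intro r hr v hv
      rw [commutatorElement_def]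
      refine Subgroup.mul_mem _ ?_ (Subgroup.inv_mem _ (hUC hv))
      rw [Subgroup.mem_centralizer_iff]
      intro x hx
      have hx' : r⁻¹ * x * r⁻¹⁻¹ ∈ E₀ :=
        (Subgroup.mem_normalizer_iff.1 (Subgroup.inv_mem _ (hRN hr)) x).1 hx
      have h1 := Subgroup.mem_centralizer_iff.1 (hUC hv) _ hx'
      have e1 : x * (r * v * r⁻¹) = r * (r⁻¹ * x * r⁻¹⁻¹ * v) * r⁻¹ := by group
      have e2 : r * v * r⁻¹ * x = r * (v * (r⁻¹ * x * r⁻¹⁻¹)) * r⁻¹ := by group
      rw [e1, e2, h1]
    refine Cfsg.Agent.S0028.result p (Subgroup.zpowers u) _ E (hzp u hu) (hDcop u) hE (hzD u)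
      (hNE _) (hNE _) ?_
    rw [← hcz, ← hcond u hu hu1, Subgroup.le_centralizer_iff]
    exact inf_le_left.trans hR₁C
  · set E₁ := ⁅E, U⁆ with hE₁
    have hRN : R ≤ Subgroup.normalizer (E₁ : Set G) := by
      rw [← gen]
      refine iSup₂_le ?_
      rintro v ⟨hv, hv1⟩
      rw [hcond v hv hv1]
      refine le_normalizer_commutator (hNE _) ?_
      rw [hcz]
      exact inf_le_right.trans (Subgroup.centralizer_le_normalizer _)
    have hUCs : U ≤ Cs E E₁ := fun v hv =>
      ⟨le_normalizer_commutator_right (hNE U) hv, fun x hx => Subgroup.commutator_mem_commutator hx hv⟩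
    have hR₁Cs : R₁ ≤ Cs E E₁ := by
      rw [hR₁, Subgroup.commutator_le]
      intro r hr v hv
      rw [commutatorElement_def]
      exact Subgroup.mul_mem _ (conj_mem_Cs (hRN hr) (hNE R hr) (hUCs hv))
        (Subgroup.inv_mem _ (hUCs hv))
    have h1 : ⁅E, R₁ ⊓ Subgroup.centralizer ({u} : Set G)⁆ ≤ ⁅E, Subgroup.zpowers u⁆ := by
      rw [← hcond u hu hu1, Subgroup.commutator_le]
      intro x hx d hd
      exact (hR₁Cs hd.1).2 x hx
    have h2 := dual_PxQ hE (hzp u hu) (hDcop u) (hNE _) (hNE _) (hzD u) h1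
    rw [Subgroup.commutator_eq_bot_iff_le_centralizer] at h2
    exact Subgroup.le_centralizer_iff.1 h2

end Cfsg.Agent.S2909
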