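import Cfsg.Statements.S2910
import Cfsg.Agent.Lib.Helper4_Frobenius
import Cfsg.Agent.Lib.Helper4_Omega
import Cfsg.Agent.Lib.Helper4_PRed
import Cfsg.Agent.Lib.Helper4_CharP

set_option autoImplicit false
open Cfsg

namespace Cfsg.Agent.S2910

open Cfsg.Agent.Lib.Helper4_Frobenius Cfsg.Agent.Lib.Helper4_Omega Cfsg.Agent.Lib.Helper4_PRed

/-- Let p be an odd prime dividing the order of the finite group G and P a Sylow p-subgroup of G. If Ω₁(P) (generated by the elements of order dividing p) is contained in the centre of G, then G has a normal p-complement. In particular, if G is quasisimple then Ω₁(P) is not central in G. -/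
theorem result {G : Type*} [Group G] [Finite G] {p : ℕ} [Fact p.Prime] (hp : p ≠ 2) (hdiv : p ∣ Nat.card G) (P : Sylow p G) (hZ : Cfsg.omegaOne p (P : Subgroup G) ≤ Subgroup.center G) : Cfsg.HasNormalPComplement p G ∧ ¬ Cfsg.IsQuasisimple G := by
  have hF : FrobHyp p G := by
    apply frobHyp_of_sylow P
    intro Q hQP g hgN hgc
    by_contra hgC
    obtain ⟨R, hRQ, hRN, hRC, hR⟩ := exists_small_exponent (P.isPGroup'.to_le hQP) hgc hgN hgC
    apply hRC
    rw [Subgroup.mem_centralizer_iff]
    intro x hx
    have hx1 : x ^ p = 1 := by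
      rcases hR x hx with h | h
      · exact h
      · exact absurd h.1 hp
    have h1 := hZ (mem_omegaOne (hQP (hRQ hx)) hx1)
    exact (Subgroup.mem_center_iff.1 h1 g).symm
  have hnil : PNil p G := frobenius_pnil hF
  refine ⟨pnil_iff_hasNormalPComplement.1 hnil, ?_⟩
  intro hq
  obtain ⟨K, hK⟩ := hnil
  haveI hKn := pnil_normal hK
  obtain ⟨n, hn⟩ := pnil_index hK
  have hs : Group.IsSolvable (G ⧸ K) := by
    apply Cfsg.Agent.Lib.Helper3_Local.isSolvable_of_isPGroup (p := p)
    apply IsPGroup.of_card (n := n)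
    rw [← hn, Subgroup.index_eq_card]
  have h1 : (⊤ : Subgroup G) ≤ K := by
    apply Cfsg.Agent.Lib.Helper4_CharP.perfect_le_of_solvable_quotient K hs
    have := hq.1.commutator_eq_top
    rwa [commutator_def] at this
  have h2 := pnil_card_coprime hK
  rw [top_le_iff.1 h1, Subgroup.card_top] at h2
  exact (Nat.Prime.coprime_iff_not_dvd (Fact.out : p.Prime)).1 h2.symm hdiv

end Cfsg.Agent.S2910
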