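import Cfsg.Statements.S2925
import Cfsg.Agent.Lib.Helper3_Comp
import Cfsg.Agent.Lib.Helper4_Control
import Cfsg.Agent.Lib.Helper7_Subnormal

set_option autoImplicit false
open Cfsg

namespace Cfsg.Agent.S2925

open Cfsg.Agent.Lib.Helper3_Comp Cfsg.Agent.Lib.Helper4_Syl Cfsg.Agent.Lib.Helper4_Control

/-- Let K be a component of the finite group X and T a Sylow 2-subgroup of X. If some abelian normal subgroup Y of T does not normalize K, then K ⧸ Z(K) has abelian Sylow 2-subgroups. -/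
theorem result {X : Type*} [Group X] [Finite X] (K : Subgroup X) (hK : Cfsg.IsComponent K) (T : Sylow 2 X) (Y : Subgroup X) (hYT : Y ≤ (T : Subgroup X)) (hYn : (Y.subgroupOf (T : Subgroup X)).Normal) (hYab : IsMulCommutative ↥Y) (hnot : ¬ Y ≤ Subgroup.normalizer (K : Set X)) (P : Sylow 2 (↥K ⧸ Subgroup.center ↥K)) : IsMulCommutative ↥(P : Subgroup (↥K ⧸ Subgroup.center ↥K)) := by
  obtain ⟨y, hyY, hyN⟩ := SetLike.not_le_iff_exists.1 hnot
  have hKy : Cfsg.IsComponent (lc y K) := IsComponent.map_equiv (MulAut.conj y) hK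
  have hne : K ≠ lc y K := by
    intro h
    exact hyN (mem_normalizer_iff_lc.2 h.symm)
  have hcomm0 := (IsComponent.eq_or_commutator_eq_bot hK hKy).resolve_left hne
  have hcomm : ∀ a ∈ K, ∀ b ∈ lc y K, a * b = b * a := by
    intro a ha b hb
    rw [Subgroup.commutator_eq_bot_iff_le_centralizer] at hcomm0
    exact (Subgroup.mem_centralizer_iff.1 (hcomm0 ha) b hb).symm
  have hTK := Cfsg.Agent.Lib.Helper7_Subnormal.isSylIn_inf_of_isSubnormal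
    (IsSylIn.of_sylow_top T) hK.1
  have hYT' : (T : Subgroup X) ≤ Subgroup.normalizer (Y : Set X) :=
    (Subgroup.normal_subgroupOf_iff_le_normalizer hYT).1 hYn
  have hw : ∀ t ∈ (T : Subgroup X), y * t * y⁻¹ * t⁻¹ ∈ Y := by
    intro t ht
    have h1 := conj_mem_of_mem_normalizer (hYT' ht) (Y.inv_mem hyY)
    have : y * t * y⁻¹ * t⁻¹ = y * (t * y⁻¹ * t⁻¹) := by group
    rw [this]
    exact Y.mul_mem hyY h1
  -- commutators of T ∩ K are central in K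
  have hcen : ∀ s ∈ (T : Subgroup X) ⊓ K, ∀ t ∈ (T : Subgroup X) ⊓ K, ∀ k ∈ K,
      (t⁻¹ * s⁻¹ * t * s) * k = k * (t⁻¹ * s⁻¹ * t * s) := by
    intro s hs t ht k hk
    set s' := y * s * y⁻¹ with hs'
    set t' := y * t * y⁻¹ with ht'
    have hs'K : s' ∈ lc y K := conj_mem_lc hs.2
    have ht'K : t' ∈ lc y K := conj_mem_lc ht.2
    have h1 : (s' * s⁻¹) * (t' * t⁻¹) = (t' * t⁻¹) * (s' * s⁻¹) := by
      have := hYab.is_comm.comm ⟨_, hw s hs.1⟩ ⟨_, hw t ht.1⟩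
      exact congrArg Subtype.val this
    have e1 : s⁻¹ * t' = t' * s⁻¹ := hcomm _ (K.inv_mem hs.2) _ ht'K
    have e2 : t⁻¹ * s' = s' * t⁻¹ := hcomm _ (K.inv_mem ht.2) _ hs'K
    have h2 : (s' * t') * (s⁻¹ * t⁻¹) = (t' * s') * (t⁻¹ * s⁻¹) := by
      calc (s' * t') * (s⁻¹ * t⁻¹) = s' * (t' * s⁻¹) * t⁻¹ := by group
        _ = s' * (s⁻¹ * t') * t⁻¹ := by rw [e1]
        _ = (s' * s⁻¹) * (t' * t⁻¹) := by group
        _ = (t' * t⁻¹) * (s' * s⁻¹) := h1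
        _ = t' * (t⁻¹ * s') * s⁻¹ := by group
        _ = t' * (s' * t⁻¹) * s⁻¹ := by rw [e2]
        _ = (t' * s') * (t⁻¹ * s⁻¹) := by group
    have h3 : t⁻¹ * s⁻¹ * t * s = (t' * s')⁻¹ * (s' * t') := by
      calc t⁻¹ * s⁻¹ * t * s = (t' * s')⁻¹ * ((t' * s') * (t⁻¹ * s⁻¹)) * (s⁻¹ * t⁻¹)⁻¹ := by group
        _ = (t' * s')⁻¹ * ((s' * t') * (s⁻¹ * t⁻¹)) * (s⁻¹ * t⁻¹)⁻¹ := by rw [h2]
        _ = (t' * s')⁻¹ * (s' * t') := by group
    have h4 : t⁻¹ * s⁻¹ * t * s ∈ lc y K := by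
      rw [h3]
      exact Subgroup.mul_mem _ (Subgroup.inv_mem _ (Subgroup.mul_mem _ ht'K hs'K))
        (Subgroup.mul_mem _ hs'K ht'K)
    exact (hcomm k hk _ h4).symm
  obtain ⟨S₀, hS₀⟩ := hTK.exists_sylow
  set P₀ : Sylow 2 (↥K ⧸ Subgroup.center ↥K) :=
    S₀.mapSurjective (QuotientGroup.mk'_surjective (Subgroup.center ↥K)) with hP₀
  have hP₀c : ∀ a b : (P₀ : Subgroup (↥K ⧸ Subgroup.center ↥K)), a * b = b * a := by
    rintro ⟨_, ⟨a, ha, rfl⟩⟩ ⟨_, ⟨b, hb, rfl⟩⟩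
    apply Subtype.ext
    show QuotientGroup.mk' _ a * QuotientGroup.mk' _ b = QuotientGroup.mk' _ b * QuotientGroup.mk' _ a
    rw [← map_mul, ← map_mul, QuotientGroup.mk'_apply, QuotientGroup.mk'_apply, QuotientGroup.eq]
    have haT : (a : X) ∈ (T : Subgroup X) ⊓ K := by rw [← hS₀]; exact ⟨a, ha, rfl⟩
    have hbT : (b : X) ∈ (T : Subgroup X) ⊓ K := by rw [← hS₀]; exact ⟨b, hb, rfl⟩
    rw [Subgroup.mem_center_iff]
    intro k
    apply Subtype.ext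
    have := hcen a haT b hbT k k.2
    have e : (((a * b)⁻¹ * (b * a) : ↥K) : X) = (b : X)⁻¹ * (a : X)⁻¹ * b * a := by
      simp only [Subgroup.coe_mul, Subgroup.coe_inv, mul_inv_rev]; group
    show (k : X) * (((a * b)⁻¹ * (b * a) : ↥K) : X) = (((a * b)⁻¹ * (b * a) : ↥K) : X) * k
    rw [e]
    exact this.symm
  let e := Sylow.equiv P P₀
  refine ⟨⟨fun a b => e.injective ?_⟩⟩
  rw [map_mul, map_mul]
  exact hP₀c _ _

end Cfsg.Agent.S2925
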