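import Cfsg.Statements.S2940
import Cfsg.Agent.Lib.Helper4_Control

set_option autoImplicit false
open Cfsg

namespace Cfsg.Agent.S2940

open Cfsg.Agent.Lib.Helper4_Syl Cfsg.Agent.Lib.Helper4_Control
open scoped Pointwise

/-- Let S be a Sylow p-subgroup of the finite group G and G₁, G₂ subgroups containing S with G = G₁G₂. Then for every g ∈ G there is a Sylow p-subgroup U of G with S ∩ S^g ≤ U ≤ G₁ ∩ G₂^g (conjugates taken as X^g = g⁻¹Xg). -/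
theorem result {G : Type*} [Group G] [Finite G] {p : ℕ} [Fact p.Prime] (S : Sylow p G) (G₁ G₂ : Subgroup G) (h1 : (S : Subgroup G) ≤ G₁) (h2 : (S : Subgroup G) ≤ G₂) (hfact : ∀ g : G, ∃ g₁ ∈ G₁, ∃ g₂ ∈ G₂, g = g₁ * g₂) (g : G) : ∃ U : Sylow p G, (S : Subgroup G) ⊓ Cfsg.subgroupConjRight g (S : Subgroup G) ≤ (U : Subgroup G) ∧ (U : Subgroup G) ≤ G₁ ⊓ Cfsg.subgroupConjRight g G₂ := by
  obtain ⟨g₁, hg₁, g₂, hg₂, hgg⟩ := hfact g⁻¹
  have e1 : ∀ X : Subgroup G, Cfsg.subgroupConjRight g X = lc g⁻¹ X := fun X => rfl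
  rw [e1, e1]
  have e2 : lc g⁻¹ G₂ = lc g₁ G₂ := by
    rw [hgg, lc_mul]
    congr 1
    exact conj_smul_eq_of_mem hg₂
  have hS := IsSylIn.of_sylow_top S
  set M := G₁ ⊓ lc g⁻¹ G₂ with hM
  have hS₁M : lc g₁ (S : Subgroup G) ≤ M := by
    refine le_inf ?_ ?_
    · calc lc g₁ (S : Subgroup G) ≤ lc g₁ G₁ := lc_mono g₁ h1
        _ = G₁ := conj_smul_eq_of_mem hg₁
    · rw [e2]; exact lc_mono g₁ h2
  have hS₁ : IsSylIn p (lc g₁ (S : Subgroup G)) ⊤ := by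
    have := hS.smul g₁
    rwa [conj_smul_eq_of_mem (Subgroup.mem_top g₁)] at this
  have hS₁' : IsSylIn p (lc g₁ (S : Subgroup G)) M := hS₁.mono hS₁M le_top
  obtain ⟨U, hU, hle⟩ := exists_isSylIn_ge (Q := (S : Subgroup G) ⊓ lc g⁻¹ (S : Subgroup G)) (M := M)
    (inf_le_inf h1 (lc_mono _ h2)) (S.isPGroup'.to_le inf_le_left)
  obtain ⟨m, -, hm⟩ := hS₁'.conj hU
  have hU' : IsSylIn p U ⊤ := by
    have := hS₁.smul m
    rwa [conj_smul_eq_of_mem (Subgroup.mem_top m), hm] at this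
  obtain ⟨U', hU'⟩ := hU'.exists_sylow_top
  exact ⟨U', by rw [hU']; exact hle, by rw [hU']; exact hU.le⟩

end Cfsg.Agent.S2940
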