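import Cfsg.Statements.S2955
import Cfsg.Agent.Lib.Helper4_Syl

set_option autoImplicit false
open Cfsg

namespace Cfsg.Agent.S2955

open Cfsg.Agent.Lib.Helper4_Syl
open scoped Pointwise

/-- Let p be a prime dividing the order of the finite group G and 𝓕 a conjugation-closed family of subgroups that controls Sylow p-intersections in G. Suppose the Sylow p-subgroups of G are chain-connected: any two of them are joined by a chain of Sylow p-subgroups, consecutive ones distinct with nontrivial intersection, all containing the intersection of the two ends (equivalently, the graph on the Sylow p-subgroups whose edges are the distinct pairs meeting nontrivially is connected). Then for every Sylow p-subgroup S, G is generated by N_G(S) together with the members of 𝓕 that meet S in a Sylow p-subgroup of themselves. -/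
theorem result {G : Type*} [Group G] [Finite G] (p : ℕ) [Fact p.Prime] (hdiv : p ∣ Nat.card G)
    (𝓕 : Set (Subgroup G)) (h𝓕 : Cfsg.IsNormalSet 𝓕) (hc : Cfsg.ControlsSylowIntersections p 𝓕)
    (hconn : Cfsg.IsSylowChainConnected p G) (S : Sylow p G) :
    (⨆ X ∈ Cfsg.sylowMembers p 𝓕 (S : Subgroup G), X) ⊔ Subgroup.normalizer ((S : Subgroup G) : Set G) = ⊤ := by
  set G₀ : Subgroup G := (⨆ X ∈ Cfsg.sylowMembers p 𝓕 (S : Subgroup G), X) ⊔
    Subgroup.normalizer ((S : Subgroup G) : Set G) with hG₀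
  have hstep : ∀ (T₁ T₂ : Sylow p G) (X : Subgroup G) (x : G),
      (∃ g ∈ G₀, (T₁ : Subgroup G) = MulAut.conj g • (S : Subgroup G)) →
      X ∈ Cfsg.sylowMembers p 𝓕 (T₁ : Subgroup G) → x ∈ X →
      Cfsg.subgroupConjRight x (T₂ : Subgroup G) = (T₁ : Subgroup G) →
      ∃ g ∈ G₀, (T₂ : Subgroup G) = MulAut.conj g • (S : Subgroup G) := by
    rintro T₁ T₂ X x ⟨g, hg, hT₁⟩ ⟨hX𝓕, P, hP⟩ hx hconj
    have hsyl : IsSylIn p ((T₁ : Subgroup G) ⊓ X) X := hP ▸ IsSylIn.of_sylow X P
    have hX' : MulAut.conj g⁻¹ • X ∈ Cfsg.sylowMembers p 𝓕 (S : Subgroup G) := by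
      refine ⟨h𝓕 X hX𝓕 g, ?_⟩
      have h1 := hsyl.smul g⁻¹
      rw [Subgroup.smul_inf, hT₁, conj_inv_smul_smul] at h1
      exact h1.exists_sylow
    have hX'G : MulAut.conj g⁻¹ • X ≤ G₀ :=
      le_trans (le_iSup₂ (f := fun (X : Subgroup G)
        (_ : X ∈ Cfsg.sylowMembers p 𝓕 (S : Subgroup G)) => X) _ hX') le_sup_left
    have hxG : x ∈ G₀ := by
      have h1 : g⁻¹ * x * g⁻¹⁻¹ ∈ G₀ := hX'G (conj_mem_conj_smul hx)
      have h2 : x = g * (g⁻¹ * x * g⁻¹⁻¹) * g⁻¹ := by group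
      rw [h2]
      exact G₀.mul_mem (G₀.mul_mem hg h1) (G₀.inv_mem hg)
    refine ⟨x * g, G₀.mul_mem hxG hg, ?_⟩
    have h3 : MulAut.conj x⁻¹ • (T₂ : Subgroup G) = (T₁ : Subgroup G) := hconj
    rw [conj_mul_smul, ← hT₁, ← h3, conj_smul_inv_smul]
  have hB : ∀ T₁ T₂ : Sylow p G, (∃ g ∈ G₀, (T₁ : Subgroup G) = MulAut.conj g • (S : Subgroup G)) →
      T₁ ≠ T₂ → (T₁ : Subgroup G) ⊓ (T₂ : Subgroup G) ≠ ⊥ →
      ∃ g ∈ G₀, (T₂ : Subgroup G) = MulAut.conj g • (S : Subgroup G) := by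
    intro T₁ T₂ hT₁ hne hint
    obtain ⟨n, c, X, x, hc0, hcn, hall⟩ := hc T₁ T₂ hne hint
    have : ∀ i : Fin (n + 1), ∃ g ∈ G₀, (c i : Subgroup G) = MulAut.conj g • (S : Subgroup G) := by
      intro i
      induction i using Fin.induction with
      | zero => rw [hc0]; exact hT₁
      | succ i ih =>
        obtain ⟨h1, -, h3, h4, -⟩ := hall i
        exact hstep _ _ (X i) (x i) ih h1 h3 h4
    rw [← hcn]
    exact this _
  have hCall : ∀ T : Sylow p G, ∃ g ∈ G₀, (T : Subgroup G) = MulAut.conj g • (S : Subgroup G) := by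
    intro T
    obtain ⟨n, c, hc0, hcn, -, hall⟩ := hconn S T
    have : ∀ i : Fin (n + 1), ∃ g ∈ G₀, (c i : Subgroup G) = MulAut.conj g • (S : Subgroup G) := by
      intro i
      induction i using Fin.induction with
      | zero => rw [hc0]; exact ⟨1, G₀.one_mem, by simp⟩
      | succ i ih => exact hB _ _ ih (hall i).1 (hall i).2
    rw [← hcn]
    exact this _
  rw [eq_top_iff]
  intro g _
  obtain ⟨g₀, hg₀, h⟩ := hCall (g • S)
  have h' : MulAut.conj g • (S : Subgroup G) = MulAut.conj g₀ • (S : Subgroup G) := h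
  have h1 : g₀⁻¹ * g ∈ Subgroup.normalizer ((S : Subgroup G) : Set G) := by
    rw [mem_normalizer_iff_conj_smul, conj_mul_smul, h', conj_inv_smul_smul]
  have h2 : g = g₀ * (g₀⁻¹ * g) := by group
  rw [h2]
  exact G₀.mul_mem hg₀ (Subgroup.mem_sup_right h1)

end Cfsg.Agent.S2955
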