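import Cfsg.Statements.S2958
import Cfsg.Agent.Lib.Helper4_Control

set_option autoImplicit false
open Cfsg

namespace Cfsg.Agent.S2958

open Cfsg.Agent.Lib.Helper4_Syl Cfsg.Agent.Lib.Helper4_Control

/-- Let X, A, B be subgroups of a group G such that G is generated by the conjugates of X and every conjugate of X is contained in A or in B. Then A = G or B = G. -/
theorem result {G : Type*} [Group G] (X A B : Subgroup G) (hgen : (⨆ g : G, X.map (MulAut.conj g).toMonoidHom) = ⊤) (hcover : ∀ g : G, X.map (MulAut.conj g).toMonoidHom ≤ A ∨ X.map (MulAut.conj g).toMonoidHom ≤ B) : A = ⊤ ∨ B = ⊤ := by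
  by_cases hall : ∀ g : G, X.map (MulAut.conj g).toMonoidHom ≤ A
  · left
    rw [eq_top_iff, ← hgen]
    exact iSup_le hall
  · right
    push Not at hall
    obtain ⟨g₀, hg₀⟩ := hall
    set Y : Subgroup G := ⨆ g : {g : G // ¬ lc g X ≤ A}, lc (g : G) X with hY
    have hYB : Y ≤ B := by
      apply iSup_le
      rintro ⟨g, hg⟩
      exact (hcover g).resolve_left hg
    have hleY : ∀ g : G, ¬ lc g X ≤ A → lc g X ≤ Y := fun g hg =>
      le_iSup (fun g : {g : G // ¬ lc g X ≤ A} => lc (g : G) X) ⟨g, hg⟩
    have hAN : A ≤ Subgroup.normalizer (Y : Set G) := by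
      apply le_normalizer_of_conj_mem
      intro a ha y hy
      have h1 : Y ≤ lc a⁻¹ Y := by
        apply iSup_le
        rintro ⟨g, hg⟩
        rw [← lc_le_iff, ← lc_mul]
        apply hleY
        intro hcon
        apply hg
        rw [lc_mul, lc_le_iff] at hcon
        rwa [show lc a⁻¹ A = A from conj_smul_eq_of_mem (A.inv_mem ha)] at hcon
      have := h1 hy
      rwa [mem_lc, inv_inv] at this
    have hN : Subgroup.normalizer (Y : Set G) = ⊤ := by
      rw [eq_top_iff, ← hgen]
      apply iSup_le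
      intro g
      by_cases hg : lc g X ≤ A
      · exact hg.trans hAN
      · exact (hleY g hg).trans Subgroup.le_normalizer
    have hYn : Y.Normal := Subgroup.normalizer_eq_top_iff.1 hN
    rw [eq_top_iff]
    refine le_trans ?_ hYB
    rw [← hgen]
    apply iSup_le
    intro g
    have h1 : lc g₀ X ≤ Y := hleY g₀ hg₀
    have h2 : lc (g * g₀⁻¹) (lc g₀ X) ≤ lc (g * g₀⁻¹) Y := lc_mono _ h1
    rw [← lc_mul, show lc (g * g₀⁻¹) Y = Y from conj_smul_eq_of_normal Y _] at h2
    have h3 : g * g₀⁻¹ * g₀ = g := by group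
    rw [h3] at h2
    exact h2

end Cfsg.Agent.S2958
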