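import Cfsg.Statements.S2960
import Cfsg.Agent.Lib.Helper4_CharP
import Cfsg.Agent.Lib.Helper4_Cop
import Cfsg.Agent.Lib.Helper4_WC2

set_option autoImplicit false
open Cfsg

namespace Cfsg.Agent.S2960

open Cfsg.Agent.Lib.Helper4_CharP Cfsg.Agent.Lib.Helper4_Cop Cfsg.Agent.Lib.Helper4_WC2

/-- Let G be a finite group of characteristic p (C_G(O_p(G)) ≤ O_p(G)), p prime, T a Sylow p-subgroup of G and Q a normal subgroup of T with C_T(Q) ≤ Q. Then C_G(Q) ≤ Q. -/
theorem result {G : Type*} [Group G] [Finite G] {p : ℕ} [Fact p.Prime] (hG : Subgroup.centralizer (Cfsg.pCore p G : Set G) ≤ Cfsg.pCore p G) (T : Sylow p G) (Q : Subgroup G) (hQT : Q ≤ (T : Subgroup G)) (hQn : (T : Subgroup G) ≤ Subgroup.normalizer (Q : Set G)) (hC : (T : Subgroup G) ⊓ Subgroup.centralizer (Q : Set G) ≤ Q) : Subgroup.centralizer (Q : Set G) ≤ Q := by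
  have hG' := (cp_iff_cent (p := p)).2 hG
  have hQp : IsPGroup p Q := T.isPGroup'.to_le hQT
  have hN := cp_normalizer hG' Q hQp
  set C := Subgroup.centralizer (Q : Set G) with hCdef
  have hNC : Subgroup.normalizer (Q : Set G) ≤ Subgroup.normalizer (C : Set G) :=
    Cfsg.Agent.Lib.Helper3_Local.le_normalizer_centralizer le_rfl
  have hCcp : CP p C := cp_sub_normal (Subgroup.centralizer_le_normalizer _) hNC hN
  have h1 := (charPSub_iff p C).1 (cp_iff_cent.1 hCcp)
  have h2 : (T : Subgroup G) ≤ Subgroup.normalizer (pCoreOf p C : Set G) :=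
    (hQn.trans hNC).trans (normalizer_le_normalizer_pCoreOf p C)
  have h3 : IsPGroup p ((T : Subgroup G) ⊔ pCoreOf p C : Subgroup G) :=
    IsPGroup.to_sup_of_normal_right' T.isPGroup' (pCoreOf_isPGroup p C) h2
  have h4 : (T : Subgroup G) ⊔ pCoreOf p C = T := T.is_maximal' h3 le_sup_left
  have h5 : pCoreOf p C ≤ T := by rw [← h4]; exact le_sup_right
  have h6 : pCoreOf p C ≤ Q := (le_inf h5 (pCoreOf_le p C)).trans hC
  have h7 : C ≤ Subgroup.centralizer (pCoreOf p C : Set G) := Subgroup.centralizer_le h6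
  exact ((le_inf le_rfl h7).trans h1).trans h6

end Cfsg.Agent.S2960
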