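import Cfsg.Statements.S2961
import Cfsg.Agent.Lib.Helper4_Cop

set_option autoImplicit false
open Cfsg

namespace Cfsg.Agent.S2961

open scoped Pointwise commutatorElement
open Cfsg.Agent.Lib.Helper4_Syl Cfsg.Agent.Lib.Helper4_Core Cfsg.Agent.Lib.Helper4_Cop

theorem result {G : Type*} [Group G] [Finite G] {p : ℕ} [Fact p.Prime] (hG : Subgroup.centralizer (Cfsg.pCore p G : Set G) ≤ Cfsg.pCore p G) (T : Sylow p G) (Q : Subgroup G) (hQT : Q ≤ (T : Subgroup G)) (hQn : (T : Subgroup G) ≤ Subgroup.normalizer (Q : Set G)) (hC : (T : Subgroup G) ⊓ Subgroup.centralizer (Q : Set G) ≤ Q) (L : Subgroup G) (hQL : Q ≤ L) : Subgroup.centralizer (Cfsg.pCore p ↥L : Set ↥L) ≤ Cfsg.pCore p ↥L := by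
  rw [charPSub_iff]
  set R := pCore p G with hR
  have hRn : R.Normal := pCore_normal p G
  have hRp : IsPGroup p R := pCore_isPGroup p G
  have hRT : R ≤ T := pCore_le_sylow T
  set U := pCoreOf p L with hU
  have hUp : IsPGroup p U := pCoreOf_isPGroup p L
  have hLU : L ≤ Subgroup.normalizer (U : Set G) := le_normalizer_pCoreOf p L
  -- a p'-element centralizing R is trivial
  have hcR : ∀ y : G, (orderOf y).Coprime p → (∀ r ∈ R, ⁅y, r⁆ = 1) → y = 1 := by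
    intro y hy h
    apply eq_one_of_isPGroup_of_coprime hRp _ hy
    apply hG
    rw [Subgroup.mem_centralizer_iff]
    intro r hr
    exact (commutatorElement_eq_one_iff_mul_comm.1 (h r hr)).symm
  have hcomR : ∀ (y r : G), r ∈ R → ⁅y, r⁆ ∈ R := by
    intro y r hr
    rw [commutatorElement_def]
    exact R.mul_mem (hRn.conj_mem r hr y) (R.inv_mem hr)
  -- Step 2
  have step2 : ∀ y ∈ Subgroup.centralizer (Q : Set G), (orderOf y).Coprime p → y = 1 := by
    intro y hyQ hy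
    apply hcR y hy
    have hYQ : Subgroup.zpowers y ≤ Subgroup.centralizer (Q : Set G) := by
      rw [Subgroup.zpowers_le]; exact hyQ
    have hRQ : ⁅R, Q⁆ ≤ Q := Subgroup.le_normalizer_iff_commutator_le_right.1 (hRT.trans hQn)
    have h1 : ⁅⁅R, Q⁆, Subgroup.zpowers y⁆ = ⊥ := by
      rw [Subgroup.commutator_eq_bot_iff_le_centralizer]
      exact hRQ.trans (Subgroup.le_centralizer_iff.1 hYQ)
    have h2 : ⁅⁅Q, Subgroup.zpowers y⁆, R⁆ = ⊥ := by
      have : ⁅Q, Subgroup.zpowers y⁆ = ⊥ := by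
        rw [Subgroup.commutator_eq_bot_iff_le_centralizer]
        exact Subgroup.le_centralizer_iff.1 hYQ
      rw [this, Subgroup.commutator_bot_left]
    have h3 := Subgroup.commutator_commutator_eq_bot_of_rotate h1 h2
    rw [Subgroup.commutator_eq_bot_iff_le_centralizer] at h3
    intro r hr
    have hc1 : ⁅y, r⁆ ∈ Subgroup.centralizer (Q : Set G) :=
      h3 (Subgroup.commutator_mem_commutator (Subgroup.mem_zpowers y) hr)
    have hc2 : ⁅y, r⁆ ∈ Q := hC ⟨hRT (hcomR y r hr), hc1⟩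
    obtain ⟨k, hk⟩ := pow_eq_one_of_isPGroup hRp (hcomR y r hr)
    exact comm_eq_one_of_quadratic (pow_orderOf_eq_one y) hy
      ((Subgroup.mem_centralizer_iff.1 hyQ _ hc2).symm) hk
  -- R₀
  set R₀ := R ⊓ L with hR₀
  have hR₀conj : ∀ l ∈ L, ∀ w ∈ R₀, l * w * l⁻¹ ∈ R₀ := fun l hl w hw =>
    ⟨hRn.conj_mem w hw.1 l, L.mul_mem (L.mul_mem hl hw.2) (L.inv_mem hl)⟩
  have hR₀U : R₀ ≤ U :=
    le_pCoreOf inf_le_right (hRp.to_le inf_le_left) (le_normalizer_of_conj_mem hR₀conj)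
  -- L₀
  let L₀ : Subgroup G :=
    { carrier := {g | g ∈ L ∧ ∀ r ∈ R, ⁅r, g⁆ ∈ R₀}
      one_mem' := ⟨L.one_mem, fun r _ => by simp⟩
      mul_mem' := by
        rintro g h ⟨hg, hg'⟩ ⟨hh, hh'⟩
        refine ⟨L.mul_mem hg hh, fun r hr => ?_⟩
        rw [commutatorElement_mul_right_eq_mul_conj, mul_assoc, mul_assoc, ← mul_assoc g]
        exact R₀.mul_mem (hg' r hr) (hR₀conj g hg _ (hh' r hr))
      inv_mem' := by
        rintro g ⟨hg, hg'⟩
        refine ⟨L.inv_mem hg, fun r hr => ?_⟩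
        rw [commutatorElement_inv_right, ← commutatorElement_inv]
        have := hR₀conj g⁻¹ (L.inv_mem hg) _ (R₀.inv_mem (hg' r hr))
        simpa using this }
  have memL₀ : ∀ g, g ∈ L₀ ↔ g ∈ L ∧ ∀ r ∈ R, ⁅r, g⁆ ∈ R₀ := fun g => Iff.rfl
  have hL₀conj : ∀ l ∈ L, ∀ g ∈ L₀, l * g * l⁻¹ ∈ L₀ := by
    intro l hl g hg
    rw [memL₀] at hg ⊢
    refine ⟨L.mul_mem (L.mul_mem hl hg.1) (L.inv_mem hl), fun r hr => ?_⟩
    have e : ⁅r, l * g * l⁻¹⁆ = l * ⁅l⁻¹ * r * l⁻¹⁻¹, g⁆ * l⁻¹ := by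
      rw [conjugate_commutatorElement]; congr 1; group
    rw [e]
    exact hR₀conj l hl _ (hg.2 _ (hRn.conj_mem r hr l⁻¹))
  have hQL₀ : Q ≤ L₀ := by
    intro q hq
    rw [memL₀]
    refine ⟨hQL hq, fun r hr => ⟨?_, hQL ?_⟩⟩
    · rw [← commutatorElement_inv]; exact R.inv_mem (hcomR q r hr)
    · rw [commutatorElement_def]
      exact Q.mul_mem (conj_mem_of_mem_normalizer (hQn (hRT hr)) hq) (Q.inv_mem hq)
  set K := L ⊓ Subgroup.centralizer (U : Set G) with hK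
  have hKconj : ∀ l ∈ L, ∀ g ∈ K, l * g * l⁻¹ ∈ K := fun l hl g hg =>
    ⟨L.mul_mem (L.mul_mem hl hg.1) (L.inv_mem hl), conj_mem_centralizer hLU hl hg.2⟩
  have hMp : IsPGroup p ↥(K ⊓ L₀) := by
    apply isPGroup_of_pprime_trivial
    intro y hy hyo
    apply hcR y hyo
    intro r hr
    have hc : ⁅y, r⁆ ∈ R₀ := by
      rw [← commutatorElement_inv]; exact R₀.inv_mem (((memL₀ y).1 hy.2).2 r hr)
    obtain ⟨k, hk⟩ := pow_eq_one_of_isPGroup hRp hc.1
    exact comm_eq_one_of_quadratic (pow_orderOf_eq_one y) hyo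
      ((Subgroup.mem_centralizer_iff.1 hy.1.2 _ (hR₀U hc)).symm) hk
  have hMU : K ⊓ L₀ ≤ U :=
    le_pCoreOf (inf_le_left.trans inf_le_left) hMp
      (le_normalizer_of_conj_mem fun l hl m hm => ⟨hKconj l hl m hm.1, hL₀conj l hl m hm.2⟩)
  have hKp : IsPGroup p K := by
    apply isPGroup_of_pprime_trivial
    intro y hy hyo
    apply step2 y _ hyo
    rw [Subgroup.mem_centralizer_iff]
    intro q hq
    have hc : ⁅y, q⁆ ∈ K ⊓ L₀ := by
      constructor
      · have e : ⁅y, q⁆ = y * (q * y⁻¹ * q⁻¹) := by rw [commutatorElement_def]; group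
        rw [SetLike.mem_coe, e]
        exact K.mul_mem hy (hKconj q (hQL hq) _ (K.inv_mem hy))
      · rw [SetLike.mem_coe, commutatorElement_def]
        exact L₀.mul_mem (hL₀conj y hy.1 q (hQL₀ hq)) (L₀.inv_mem (hQL₀ hq))
    obtain ⟨k, hk⟩ := pow_eq_one_of_isPGroup hUp (hMU hc)
    have := comm_eq_one_of_quadratic (pow_orderOf_eq_one y) hyo
      ((Subgroup.mem_centralizer_iff.1 hy.2 _ (hMU hc)).symm) hk
    exact (commutatorElement_eq_one_iff_mul_comm.1 this).symm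
  exact le_pCoreOf inf_le_left hKp (le_normalizer_of_conj_mem hKconj)

end Cfsg.Agent.S2961
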