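import Cfsg.Statements.S2998
import Cfsg.Agent.Lib.Helper4_Syl

set_option autoImplicit false
open Cfsg

namespace Cfsg.Agent.S2998

open scoped Pointwise
open Cfsg.Agent.Lib.Helper4_Syl

/-- Let G be a finite group, p a prime, P a Sylow p-subgroup of G and x ∈ P an element such that N_G(R) ≤ C_G(x) for every nontrivial subgroup R of P. Then P ≤ C_G(x); every G-conjugate of x lying in P equals x (so g ∈ C_G(x) whenever g x g⁻¹ ∈ P); and for every normal subgroup N of G, the image of x in G ⧸ N has the same property with respect to the image of P: the normalizer of every nontrivial subgroup of the image of P centralizes the image of x. -/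
theorem result {G : Type*} [Group G] [Finite G] {p : ℕ} [Fact p.Prime] (P : Sylow p G) (x : G) (hxP : x ∈ (P : Subgroup G)) (hlc : ∀ R : Subgroup G, R ≤ (P : Subgroup G) → R ≠ ⊥ → Subgroup.normalizer (R : Set G) ≤ Subgroup.centralizer ({x} : Set G)) : (P : Subgroup G) ≤ Subgroup.centralizer ({x} : Set G) ∧ (∀ g : G, g * x * g⁻¹ ∈ (P : Subgroup G) → g * x * g⁻¹ = x) ∧ ∀ (N : Subgroup G) [N.Normal], ∀ R : Subgroup (G ⧸ N), R ≤ (P : Subgroup G).map (QuotientGroup.mk' N) → R ≠ ⊥ → Subgroup.normalizer (R : Set (G ⧸ N)) ≤ Subgroup.centralizer ({(QuotientGroup.mk x : G ⧸ N)} : Set (G ⧸ N)) := by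
  set C := Subgroup.centralizer ({x} : Set G) with hC
  have hPtop : IsSylIn p (P : Subgroup G) ⊤ := IsSylIn.of_sylow_top P
  have h1 : (P : Subgroup G) ≤ C := by
    by_cases hP : (P : Subgroup G) = ⊥
    · rw [hP]; exact bot_le
    · exact (Subgroup.le_normalizer).trans (hlc P le_rfl hP)
  refine ⟨h1, ?_, ?_⟩
  · intro g hg
    by_cases hx1 : x = 1
    · rw [hx1]; group
    have hPne : (P : Subgroup G) ≠ ⊥ := by
      intro h
      rw [h, Subgroup.mem_bot] at hxP
      exact hx1 hxP
    have hy1 : g * x * g⁻¹ ≠ 1 := by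
      intro h
      apply hx1
      have : x = g⁻¹ * (g * x * g⁻¹) * g := by group
      rw [this, h]; group
    have hCy : MulAut.conj g • C ≤ C := by
      rw [hC, ← centralizer_conj_singleton]
      refine (centralizer_singleton_le_normalizer_zpowers _).trans
        (hlc _ ((Subgroup.zpowers_le).2 hg) ?_)
      rw [Ne, Subgroup.zpowers_eq_bot]
      exact hy1
    have hCeq : MulAut.conj g • C = C :=
      Subgroup.eq_of_le_of_card_ge hCy (by rw [card_conj_smul])
    have hS1 : IsSylIn p (P : Subgroup G) C := hPtop.mono h1 le_top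
    have hS2 : IsSylIn p (MulAut.conj g • (P : Subgroup G)) C := by
      have := hS1.smul g
      rwa [hCeq] at this
    obtain ⟨m, hm, hm2⟩ := hS2.conj hS1
    have h3 : m * g ∈ Subgroup.normalizer ((P : Subgroup G) : Set G) := by
      rw [mem_normalizer_iff_conj_smul, conj_mul_smul]
      exact hm2
    have h4 : m * g ∈ C := hlc P le_rfl hPne h3
    have h5 : g ∈ C := by
      have := mul_mem (inv_mem hm) h4
      rwa [inv_mul_cancel_left] at this
    rw [hC, Subgroup.mem_centralizer_singleton_iff] at h5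
    rw [h5, mul_inv_cancel_right]
  · intro N _ R hR hRne
    intro gb hgb
    obtain ⟨g, rfl⟩ := QuotientGroup.mk_surjective gb
    set π := QuotientGroup.mk' N with hπ
    set L := R.comap π with hL
    set R₀ := (P : Subgroup G) ⊓ L with hR₀
    have hNL : N ≤ L := by
      intro n hn
      rw [hL, Subgroup.mem_comap]
      have : π n = 1 := (QuotientGroup.eq_one_iff n).2 hn
      rw [this]; exact one_mem _
    have hLdec : ∀ l ∈ L, ∃ r ∈ R₀, ∃ n ∈ N, l = r * n := by
      intro l hl
      obtain ⟨r, hr, hrl⟩ := hR (Subgroup.mem_comap.1 hl)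
      have hrL : r ∈ L := by
        rw [hL, Subgroup.mem_comap, hrl]
        exact hl
      refine ⟨r, ⟨hr, hrL⟩, r⁻¹ * l, ?_, by group⟩
      exact (QuotientGroup.eq).1 hrl
    have hR₀ne : R₀ ≠ ⊥ := by
      intro h
      apply hRne
      rw [eq_bot_iff]
      intro q hq
      obtain ⟨l, rfl⟩ := QuotientGroup.mk_surjective q
      obtain ⟨r, hr, n, hn, rfl⟩ := hLdec l hq
      rw [h, Subgroup.mem_bot] at hr
      rw [Subgroup.mem_bot, hr, one_mul]
      exact (QuotientGroup.eq_one_iff n).2 hn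
    have hSyl : IsSylIn p R₀ L := by
      refine ⟨inf_le_right, P.2.to_le inf_le_left, ?_⟩
      intro Q hQL hQ hRQ
      apply le_antisymm _ hRQ
      intro q hq
      obtain ⟨r, hr, n, hn, rfl⟩ := hLdec q (hQL hq)
      have hnQ : n ∈ Q := by
        have := mul_mem (inv_mem (hRQ hr)) hq
        rwa [inv_mul_cancel_left] at this
      have hPN := hPtop.inf_normal N
      have h6 : Q ⊓ N = (P : Subgroup G) ⊓ N :=
        hPN.eq_of_le inf_le_right (hQ.to_le inf_le_left) (by
          intro t ht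
          exact ⟨hRQ ⟨ht.1, hNL ht.2⟩, ht.2⟩)
      have h7 : n ∈ (P : Subgroup G) ⊓ N := h6 ▸ (⟨hnQ, hn⟩ : n ∈ Q ⊓ N)
      exact mul_mem hr ⟨h7.1, hNL h7.2⟩
    have hgL : MulAut.conj g • L = L := by
      apply Subgroup.eq_of_le_of_card_ge _ (by rw [card_conj_smul])
      intro t ht
      rw [mem_conj_smul] at ht
      rw [hL, Subgroup.mem_comap] at ht ⊢
      have h9 := ((Subgroup.mem_normalizer_iff).1 hgb _).1 ht
      have e : (QuotientGroup.mk g : G ⧸ N) * π (g⁻¹ * t * g) * (QuotientGroup.mk g : G ⧸ N)⁻¹ = π t := by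
        show π g * π (g⁻¹ * t * g) * (π g)⁻¹ = π t
        rw [← map_mul, ← map_inv, ← map_mul]
        congr 1
        group
      rwa [e] at h9
    obtain ⟨l, hl, hl2⟩ := frattini hSyl g hgL
    have h8 : l⁻¹ * g ∈ C := hlc R₀ inf_le_left hR₀ne hl2
    obtain ⟨r, hr, n, hn, rfl⟩ := hLdec l hl
    have hrC : r ∈ C := h1 hr.1
    obtain ⟨c, hcC, hgc⟩ : ∃ c ∈ C, g = r * n * c := ⟨_, h8, by group⟩
    have hrc : r * c ∈ C := mul_mem hrC hcC
    rw [hC, Subgroup.mem_centralizer_singleton_iff] at hrc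
    have hmk : (QuotientGroup.mk g : G ⧸ N) = QuotientGroup.mk (r * c) := by
      rw [hgc, QuotientGroup.mk_mul, QuotientGroup.mk_mul, (QuotientGroup.eq_one_iff n).2 hn,
        mul_one, ← QuotientGroup.mk_mul]
    rw [Subgroup.mem_centralizer_singleton_iff, hmk, ← QuotientGroup.mk_mul,
      ← QuotientGroup.mk_mul, hrc]

end Cfsg.Agent.S2998
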