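import Cfsg.Statements.S3003
import Cfsg.Agent.Lib.Helper4_Cop
import Cfsg.Agent.Lib.Helper3_Sig

set_option autoImplicit false
open Cfsg

namespace Cfsg.Agent.S3003

open Cfsg.Agent.Lib.Helper4_Cop
open scoped commutatorElement

theorem isCoatom_of_index_prime {Γ : Type*} [Group Γ] {H : Subgroup Γ} (h : H.index.Prime) :
    IsCoatom H := by
  refine ⟨fun ht => ?_, fun K hK => ?_⟩
  · rw [ht, Subgroup.index_top] at h; exact Nat.not_prime_one h
  · have h1 := Subgroup.relIndex_mul_index hK.le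
    rcases (Nat.dvd_prime h).1 (Subgroup.index_dvd_of_le hK.le) with h2 | h2
    · exact Subgroup.index_eq_one.1 h2
    · exfalso
      rw [h2] at h1
      have h3 : H.relIndex K = 1 := by
        have hpos := h.pos
        nlinarith [Nat.eq_of_mul_eq_mul_right hpos (by rw [one_mul]; exact h1 : H.relIndex K * H.index = 1 * H.index)]
      exact hK.not_ge (Subgroup.relIndex_eq_one.1 h3)

/-- Let G be a finite group, p a prime and Q a large p-subgroup of G: C_G(Q) ≤ Q and N_G(U) ≤ N_G(Q) for every nontrivial subgroup U of C_G(Q). Let Q ≤ G₁ ≤ G, let R be a subgroup of order prime to p normalized by G₁, and let U ≤ G₁ be a p-subgroup. If U contains a nontrivial element which is G₁-conjugate to an element of Z(Q), then C_R(U) = 1. In particular, if U is elementary abelian of order at least p² and every maximal subgroup of U contains a nontrivial element G₁-conjugate into Z(Q), then R = 1. -/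
theorem result {G : Type*} [Group G] [Finite G] {p : ℕ} [Fact p.Prime] (Q : Subgroup G) (hQp : IsPGroup p ↥Q) (hlarge : Cfsg.IsLarge Q) (G₁ : Subgroup G) (hQG : Q ≤ G₁) (R : Subgroup G) (hR : (Nat.card ↥R).Coprime p) (hGR : G₁ ≤ Subgroup.normalizer (R : Set G)) (U : Subgroup G) (hUG : U ≤ G₁) (hUp : IsPGroup p ↥U) : ((∃ x ∈ U, x ≠ 1 ∧ ∃ g ∈ G₁, g * x * g⁻¹ ∈ Q ⊓ Subgroup.centralizer (Q : Set G)) → R ⊓ Subgroup.centralizer (U : Set G) = ⊥) ∧ (Cfsg.IsElementaryAbelian p U → p ^ 2 ≤ Nat.card ↥U → (∀ U₀ : Subgroup G, U₀ ≤ U → IsCoatom (U₀.subgroupOf U) → ∃ x ∈ U₀, x ≠ 1 ∧ ∃ g ∈ G₁, g * x * g⁻¹ ∈ Q ⊓ Subgroup.centralizer (Q : Set G)) → R = ⊥) := by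
  have hp : Fact p.Prime := inferInstance
  have hQR : ∀ y, y ∈ Q → y ∈ R → y = 1 := by
    intro y hyQ hyR
    obtain ⟨k, hk⟩ := hQp ⟨y, hyQ⟩
    have hk' : y ^ p ^ k = 1 := by simpa using congrArg Subtype.val hk
    have h2 := congrArg Subtype.val (pow_card_eq_one' (G := R) (x := ⟨y, hyR⟩))
    rw [Subgroup.coe_pow, Subgroup.coe_one] at h2
    exact eq_one_of_coprime_pow h2 hk' (Nat.Coprime.pow_right k hR)
  have key : ∀ U' : Subgroup G, (∃ x ∈ U', x ≠ 1 ∧ ∃ g ∈ G₁, g * x * g⁻¹ ∈
      Q ⊓ Subgroup.centralizer (Q : Set G)) → R ⊓ Subgroup.centralizer (U' : Set G) = ⊥ := by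
    rintro U' ⟨x, hxU, hx1, g, hg, hz⟩
    rw [eq_bot_iff]
    rintro r ⟨hrR, hrC⟩
    set z := g * x * g⁻¹ with hzdef
    have hz1 : z ≠ 1 := by
      intro h
      apply hx1
      have : x = g⁻¹ * z * g := by rw [hzdef]; group
      rw [this, h]; group
    set r' := g * r * g⁻¹ with hr'
    have hr'R : r' ∈ R := (Subgroup.mem_normalizer_iff.1 (hGR hg) r).1 hrR
    have hrx : x * r = r * x := Subgroup.mem_centralizer_iff.1 hrC x hxU
    have hr'z : r' * z = z * r' := by
      have e1 : r' * z = g * (r * x) * g⁻¹ := by rw [hr', hzdef]; group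
      have e2 : z * r' = g * (x * r) * g⁻¹ := by rw [hr', hzdef]; group
      rw [e1, e2, hrx]
    have hr'N : r' ∈ Subgroup.normalizer (Q : Set G) := by
      apply hlarge.2 (Subgroup.zpowers z)
      · rw [Subgroup.zpowers_le]; exact hz.2
      · intro h
        apply hz1
        have := Subgroup.mem_zpowers z
        rwa [h, Subgroup.mem_bot] at this
      · apply Subgroup.centralizer_le_normalizer
        rw [Subgroup.mem_centralizer_iff]
        rintro _ ⟨k, rfl⟩
        exact ((Commute.zpow_right (show Commute r' z from hr'z) k).eq).symm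
    have hr'C : r' ∈ Subgroup.centralizer (Q : Set G) := by
      rw [Subgroup.mem_centralizer_iff]
      intro q hq
      have h1 : ⁅r', q⁆ ∈ Q := by
        rw [commutatorElement_def]
        exact Q.mul_mem ((Subgroup.mem_normalizer_iff.1 hr'N q).1 hq) (Q.inv_mem hq)
      have h2 : ⁅r', q⁆ ∈ R := by
        rw [commutatorElement_def, mul_assoc, mul_assoc]
        refine R.mul_mem hr'R ?_
        have := (Subgroup.mem_normalizer_iff.1 (hGR (hQG hq)) r'⁻¹).1 (R.inv_mem hr'R)
        simpa [mul_assoc] using this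
      have h3 := hQR _ h1 h2
      rw [commutatorElement_eq_one_iff_mul_comm] at h3
      exact h3.symm
    have h4 : r' = 1 := hQR _ (hlarge.1 hr'C) hr'R
    have : r = g⁻¹ * r' * g := by rw [hr']; group
    rw [Subgroup.mem_bot, this, h4]; group
  refine ⟨key U, fun hUe hU2 hall => ?_⟩
  have hUne : U ≠ ⊥ := by
    rintro rfl
    rw [Subgroup.card_bot] at hU2
    have := hp.1.one_lt
    nlinarith
  have hgen := Cfsg.Agent.Lib.Helper3_Sig.le_iSup_centralizer_hyperplane (Nat.card U) U R rfl hUe hUne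
    (fun h => (Nat.Prime.coprime_iff_not_dvd hp.1).1 hR.symm h) (hUG.trans hGR)
  rw [eq_bot_iff]
  refine hgen.trans (iSup_le ?_)
  rintro ⟨B, hBU, hBi⟩
  rw [key B (hall B hBU (isCoatom_of_index_prime (by
    show (B.relIndex U).Prime
    rw [hBi]; exact hp.1)))]

end Cfsg.Agent.S3003
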