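import Cfsg.Statements.S3005
import Cfsg.Agent.Lib.Helper4_CD

set_option autoImplicit false
open Cfsg

namespace Cfsg.Agent.S3005

open scoped Pointwise
open Cfsg.Agent.Lib.Helper4_CD

theorem result {p : ℕ} [Fact p.Prime] (P : Type*) [Group P] [Finite P] (hP : IsPGroup p P) : (∀ Q : Subgroup P, Cfsg.IsCentrallyLarge Q → Cfsg.IsCentralizerLarge Q ∧ Subgroup.centralizer (Q : Set P) = Q ⊓ Subgroup.centralizer (Q : Set P)) ∧ (∀ Q : Subgroup P, Cfsg.IsCentralizerLarge Q → (Cfsg.IsCentrallyLarge Q ↔ Subgroup.centralizer (Q : Set P) ≤ Q)) ∧ (∀ Q R : Subgroup P, Cfsg.IsCentrallyLarge Q → Cfsg.IsCentrallyLarge R → ((Q ⊔ R : Subgroup P) : Set P) = (Q : Set P) * (R : Set P) ∧ Cfsg.IsCentrallyLarge (Q ⊔ R)) ∧ Cfsg.IsCentrallyLarge (Cfsg.centrallyLargeJoin P) ∧ Cfsg.IsCentrallyLarge (Cfsg.minimalCentrallyLargeJoin P) := by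
  refine ⟨fun Q hQ => centrallyLarge_imp hQ, fun Q hQ => centrallyLarge_iff_of_large hQ,
    fun Q R hQ hR => centrallyLarge_sup hQ hR, ?_, ?_⟩
  · exact centrallyLarge_sSup _ exists_centrallyLarge (fun Q hQ => hQ)
  · obtain ⟨Q, hQ⟩ := exists_centrallyLarge (G := P)
    obtain ⟨R, -, hR⟩ := exists_minimal_le hQ
    exact centrallyLarge_sSup _ ⟨R, hR⟩ (fun Q hQ => hQ.1)

end Cfsg.Agent.S3005
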