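import Cfsg.Statements.S3006
import Cfsg.Agent.Lib.Helper4_CD

set_option autoImplicit false
open Cfsg

namespace Cfsg.Agent.S3006

open scoped Pointwise
open Cfsg.Agent.Lib.Helper4_CD Cfsg.Agent.Lib.Helper4_Prod

theorem result {p : ℕ} [Fact p.Prime] (P : Type*) [Group P] [Finite P] (hP : IsPGroup p P) (Q A : Subgroup P) (hQ : Cfsg.IsCentrallyLarge Q) (hA : A ∈ Cfsg.maxAbelianSubgroups P) : ((Q ⊔ A : Subgroup P) : Set P) = (Q : Set P) * (A : Set P) ∧ Cfsg.IsCentrallyLarge (Q ⊔ A) ∧ (Q ⊔ A) ⊓ Subgroup.centralizer ((Q ⊓ A : Subgroup P) : Set P) = (Q ⊓ Subgroup.centralizer (Q : Set P)) ⊔ A ∧ (((Q ⊓ Subgroup.centralizer (Q : Set P)) ⊔ A : Subgroup P) : Set P) = ((Q ⊓ Subgroup.centralizer (Q : Set P)) : Set P) * (A : Set P) ∧ Subgroup.centralizer ((Cfsg.thompsonSubgroupA P ⊓ Subgroup.centralizer (Cfsg.thompsonSubgroupA P : Set P) : Subgroup P) : Set P) ≤ Cfsg.centrallyLargeJoin P := by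
  obtain ⟨h1, h2, h3⟩ := cl_sup_maxAb hQ hA
  have hAc : A ≤ cen A := (isComm_iff A).1 hA.1
  -- key: elements of (Q ⊔ A) ⊓ cen (Q ⊓ A) are in zen Q * A
  have key : ∀ x ∈ (Q ⊔ A) ⊓ cen (Q ⊓ A), x ∈ ((zen Q : Set P) * (A : Set P)) := by
    intro x hx
    obtain ⟨hx1, hx2⟩ := Subgroup.mem_inf.1 hx
    rw [← SetLike.mem_coe, h1] at hx1
    obtain ⟨q, hq, a, ha, rfl⟩ := Set.mem_mul.1 hx1
    have ha2 : a ∈ cen (Q ⊓ A) := cen_anti inf_le_right (hAc ha)
    have hq2 : q ∈ cen (Q ⊓ A) := by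
      have := (cen (Q ⊓ A)).mul_mem hx2 ((cen (Q ⊓ A)).inv_mem ha2)
      simpa using this
    have hq3 : q ∈ cen (zen Q) := by
      have : Q ≤ cen (zen Q) := Subgroup.le_centralizer_iff.1 inf_le_right
      exact this hq
    have hq4 : q ∈ (Q ⊓ A) ⊔ zen Q := by
      rw [← maxAb_cen_eq h3, cen_sup]
      exact Subgroup.mem_inf.2 ⟨hq2, hq3⟩
    rw [sup_comm, ← SetLike.mem_coe, coe_sup_of_le_cen (inf_le_right.trans (cen_anti inf_le_left))] at hq4
    obtain ⟨z, hz, c, hc, rfl⟩ := Set.mem_mul.1 hq4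
    rw [mul_assoc]
    exact Set.mul_mem_mul hz (A.mul_mem hc.2 ha)
  have h4 : (Q ⊔ A) ⊓ cen (Q ⊓ A) = zen Q ⊔ A := by
    apply le_antisymm
    · intro x hx
      exact mul_subset_sup _ _ (key x hx)
    · refine sup_le (le_inf (inf_le_left.trans le_sup_left) (inf_le_right.trans (cen_anti inf_le_left)))
        (le_inf le_sup_right (hAc.trans (cen_anti inf_le_right)))
  refine ⟨h1, h2, h4, ?_, ?_⟩
  · apply Set.Subset.antisymm
    · intro x hx
      have hx' : x ∈ zen Q ⊔ A := hx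
      rw [← h4] at hx'
      exact key x hx'
    · exact mul_subset_sup (zen Q) A
  · apply cen_zen_thompson_le (centrallyLarge_sSup _ exists_centrallyLarge (fun Q hQ => hQ))
    exact sSup_le fun A hA => maxAb_le_join hA

end Cfsg.Agent.S3006
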