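import Cfsg.Statements.S3007
import Cfsg.Agent.Lib.Helper4_CD

set_option autoImplicit false
open Cfsg

namespace Cfsg.Agent.S3007

open scoped Pointwise commutatorElement
open Cfsg.Agent.Lib.Helper4_CD Cfsg.Agent.Lib.Helper4_Prod

variable {P : Type*} [Group P] [Finite P]

theorem part1 {Q R : Subgroup P} (hQ : IsMinimalCentrallyLarge Q) (hR : IsCentrallyLarge R) :
    (Q ⊓ R) ⊔ zen Q = Q := by
  obtain ⟨hQl, hQz⟩ := centrallyLarge_imp hQ.1
  obtain ⟨hRl, hRz⟩ := centrallyLarge_imp hR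
  obtain ⟨-, h2, -, h4, h5⟩ := cd_lattice Q R _ cd_le_max hQl hRl
  obtain ⟨h6, h7⟩ := cd_cen Q _ cd_le_max hQl
  obtain ⟨h8, -⟩ := cd_lattice (Q ⊓ R) (cen Q) _ cd_le_max h2 h6
  rw [hQz] at h8
  apply hQ.2 _ (sup_le inf_le_left inf_le_left)
  apply (centrallyLarge_iff_of_large h8).2
  rw [cen_sup, h5, ← hQz, ← h7]
  intro y hy
  obtain ⟨hy1, hy2⟩ := Subgroup.mem_inf.1 hy
  rw [← SetLike.mem_coe, ← h4] at hy1
  obtain ⟨u, hu, v, hv, rfl⟩ := Set.mem_mul.1 hy1
  have hu' : u ∈ zen Q := hQz ▸ hu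
  have hv' : v ∈ zen R := hRz ▸ hv
  have hvQ : v ∈ Q := by
    have := Q.mul_mem (Q.inv_mem hu'.1) hy2
    simpa using this
  exact Subgroup.mul_mem _ ((le_sup_right : cen Q ≤ (Q ⊓ R) ⊔ cen Q) hu)
    ((le_sup_left : Q ⊓ R ≤ (Q ⊓ R) ⊔ cen Q) ⟨hvQ, hv'.1⟩)

theorem comm_left {Q : Subgroup P} {z c y : P} (hz : z ∈ zen Q) (hc : c ∈ Q) (hy : y ∈ Q) :
    ⁅z * c, y⁆ = ⁅c, y⁆ := by
  have h1 : (c * y * c⁻¹) * z = z * (c * y * c⁻¹) :=
    Subgroup.mem_centralizer_iff.1 hz.2 _ (Q.mul_mem (Q.mul_mem hc hy) (Q.inv_mem hc))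
  rw [commutatorElement_def, commutatorElement_def]
  calc z * c * y * (z * c)⁻¹ * y⁻¹ = z * (c * y * c⁻¹) * z⁻¹ * y⁻¹ := by group
    _ = (c * y * c⁻¹) * z * z⁻¹ * y⁻¹ := by rw [h1]
    _ = c * y * c⁻¹ * y⁻¹ := by group

theorem comm_eq {Q D : Subgroup P} (hD : D ≤ Q) (h : D ⊔ zen Q = Q) : ⁅Q, Q⁆ = ⁅D, D⁆ := by
  apply le_antisymm _ (Subgroup.commutator_mono hD hD)
  have hset : (Q : Set P) = (zen Q : Set P) * (D : Set P) := by
    rw [← coe_sup_of_le_cen (inf_le_right.trans (cen_anti hD)), sup_comm, h]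
  rw [Subgroup.commutator_le]
  intro x hx y hy
  rw [← SetLike.mem_coe, hset] at hx hy
  obtain ⟨z, hz, c, hc, rfl⟩ := Set.mem_mul.1 hx
  obtain ⟨z', hz', c', hc', rfl⟩ := Set.mem_mul.1 hy
  rw [comm_left hz (hD hc) (Q.mul_mem hz'.1 (hD hc')), ← commutatorElement_inv,
    comm_left hz' (hD hc') (hD hc), commutatorElement_inv]
  exact Subgroup.commutator_mem_commutator hc hc'

theorem inter_eq {Q R : Subgroup P} (hQ : IsMinimalCentrallyLarge Q) (hR : IsMinimalCentrallyLarge R) :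
    (Q ⊓ R) ⊓ zen Q = zen Q ⊓ zen R := by
  apply le_antisymm
  · intro x hx
    obtain ⟨⟨-, hxR⟩, hxz⟩ := hx
    refine ⟨hxz, hxR, ?_⟩
    have h1 := part1 hR hQ.1
    have h2 : x ∈ cen ((R ⊓ Q) ⊔ zen R) := by
      rw [cen_sup]
      refine ⟨cen_anti inf_le_right hxz.2, ?_⟩
      have : R ≤ cen (zen R) := Subgroup.le_centralizer_iff.1 inf_le_right
      exact this hxR
    rw [h1] at h2
    exact h2
  · intro x hx
    exact ⟨⟨hx.1.1, hx.2.1⟩, hx.1⟩

theorem card_rel {Q R : Subgroup P} (hQ : IsMinimalCentrallyLarge Q) (hR : IsMinimalCentrallyLarge R) :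
    Nat.card Q * Nat.card ↥(zen Q ⊓ zen R) = Nat.card ↥(Q ⊓ R) * Nat.card ↥(zen Q) := by
  have h1 := part1 hQ hR.1
  have h2 := card_mul_card_eq (zen Q) (Q ⊓ R)
  rw [← coe_sup_of_le_cen (inf_le_right.trans (cen_anti inf_le_left)), sup_comm, h1,
    inf_comm (zen Q) (Q ⊓ R), inter_eq hQ hR] at h2
  rw [mul_comm (Nat.card ↥(Q ⊓ R)), h2]
  rfl

theorem result {p : ℕ} [Fact p.Prime] (P : Type*) [Group P] [Finite P] (hP : IsPGroup p P) (Q R : Subgroup P) (hQ : Cfsg.IsMinimalCentrallyLarge Q) (hR : Cfsg.IsMinimalCentrallyLarge R) : (Q ⊓ R) ⊔ (Q ⊓ Subgroup.centralizer (Q : Set P)) = Q ∧ ⁅Q, Q⁆ = ⁅R, R⁆ ∧ Nat.card ↥Q = Nat.card ↥R ∧ Nat.card ↥(Q ⊓ Subgroup.centralizer (Q : Set P)) = Nat.card ↥(R ⊓ Subgroup.centralizer (R : Set P)) ∧ (IsMulCommutative ↥Q → ∀ X : Subgroup P, Cfsg.IsMinimalCentrallyLarge X ↔ X ∈ Cfsg.maxAbelianSubgroups P) := by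
  have hpos : ∀ L : Subgroup P, 0 < Nat.card L := fun L => Nat.card_pos
  have cards : ∀ Q R : Subgroup P, IsMinimalCentrallyLarge Q → IsMinimalCentrallyLarge R →
      Nat.card Q = Nat.card R ∧ Nat.card ↥(zen Q) = Nat.card ↥(zen R) := by
    intro Q R hQ hR
    have e1 := card_rel hQ hR
    have e2 := card_rel hR hQ
    rw [inf_comm (zen R), inf_comm R] at e2
    have e3 : cl Q = cl R := by
      rw [(isCentrallyLarge_iff Q).1 hQ.1, (isCentrallyLarge_iff R).1 hR.1]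
    unfold cl at e3
    set q := Nat.card Q
    set r := Nat.card R
    set zq := Nat.card ↥(zen Q)
    set zr := Nat.card ↥(zen R)
    set i := Nat.card ↥(Q ⊓ R)
    set d := Nat.card ↥(zen Q ⊓ zen R)
    have hd : 0 < d := hpos _
    have hq : 0 < q := hpos _
    have k : (q * q) * d = (r * r) * d := by
      calc (q * q) * d = q * (q * d) := by ring
        _ = q * (i * zq) := by rw [e1]
        _ = i * (q * zq) := by ring
        _ = i * (r * zr) := by rw [e3]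
        _ = r * (i * zr) := by ring
        _ = r * (r * d) := by rw [e2]
        _ = (r * r) * d := by ring
    have k2 : q * q = r * r := Nat.eq_of_mul_eq_mul_right hd k
    have k3 : q = r := Nat.mul_self_inj.1 k2
    refine ⟨k3, ?_⟩
    rw [← k3] at e3
    exact Nat.eq_of_mul_eq_mul_left hq e3
  refine ⟨part1 hQ hR.1, ?_, (cards Q R hQ hR).1, (cards Q R hQ hR).2, ?_⟩
  · rw [comm_eq inf_le_left (part1 hQ hR.1), comm_eq inf_le_left (part1 hR hQ.1), inf_comm]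
  · intro hQc X
    have hQz : zen Q = Q := inf_eq_left.2 ((isComm_iff Q).1 hQc)
    have hf : maxCentralProduct P = Nat.card Q * Nat.card Q := by
      rw [← (isCentrallyLarge_iff Q).1 hQ.1]; unfold cl; rw [hQz]
    have hQmax : Q ∈ maxAbelianSubgroups P := by
      refine ⟨hQc, fun B hB => ?_⟩
      have hBz : zen B = B := inf_eq_left.2 ((isComm_iff B).1 hB)
      have h1 := cl_le_max B
      unfold cl at h1
      rw [hBz, hf] at h1
      exact Nat.mul_self_le_mul_self_iff.1 h1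
    constructor
    · intro hX
      obtain ⟨c1, c2⟩ := cards X Q hX hQ
      rw [hQz, ← c1] at c2
      have hXz : zen X = X := Subgroup.eq_of_le_of_card_ge inf_le_left c2.ge
      exact maxAb_of_card hQmax ((isComm_iff X).2 (inf_eq_left.1 hXz)) c1.ge
    · intro hX
      have hcard : Nat.card X = Nat.card Q := le_antisymm (hQmax.2 X hX.1) (hX.2 Q hQc)
      have hXz : zen X = X := inf_eq_left.2 ((isComm_iff X).1 hX.1)
      refine ⟨?_, ?_⟩
      · rw [isCentrallyLarge_iff, hf]; unfold cl; rw [hXz, hcard]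
      · intro X' hX' hc
        have hX'c : IsMulCommutative ↥X' := comm_of_le hX.1 hX'
        have hX'z : zen X' = X' := inf_eq_left.2 ((isComm_iff X').1 hX'c)
        rw [isCentrallyLarge_iff, hf] at hc
        unfold cl at hc
        rw [hX'z] at hc
        have : Nat.card X' = Nat.card Q := Nat.mul_self_inj.1 hc
        exact Subgroup.eq_of_le_of_card_ge hX' (by rw [this, hcard])

end Cfsg.Agent.S3007
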