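import Cfsg.Statements.S3012

set_option autoImplicit false
open Cfsg

namespace Cfsg.Agent.S3012



/-- Let G be a finite group, V a nontrivial elementary abelian 2-subgroup of G satisfying the Sidki pair condition (every odd-order element inverted by an element of V commutes with a nontrivial element of V), and K a normal subgroup of G with V ∩ K = 1. Then the image of V in G/K satisfies the Sidki pair condition in G/K. -/
theorem result {G : Type*} [Group G] [Finite G] (V K : Subgroup G) [K.Normal] (hV : Cfsg.IsElementaryAbelian 2 V) (hV1 : V ≠ ⊥) (hS : Cfsg.IsSidkiPair V) (hVK : V ⊓ K = ⊥) : Cfsg.IsSidkiPair (V.map (QuotientGroup.mk' K)) := by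
  obtain ⟨hVc, hV2⟩ := hV
  rintro hb vb ⟨v, hv, rfl⟩ hodd hinv
  obtain ⟨h, rfl⟩ := QuotientGroup.mk'_surjective K hb
  have hv2 : v * v = 1 := by rw [← pow_two]; exact hV2 v hv
  have hvi : v⁻¹ = v := inv_eq_of_mul_eq_one_left hv2
  set u : G := v * (h * v * h⁻¹) with hu
  have huinv : v * u * v⁻¹ = u⁻¹ := by
    rw [hu, hvi]
    have : (v * (h * v * h⁻¹))⁻¹ = h * v⁻¹ * h⁻¹ * v⁻¹ := by group
    rw [this, hvi]
    calc v * (v * (h * v * h⁻¹)) * v = (v * v) * (h * v * h⁻¹) * v := by group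
      _ = h * v * h⁻¹ * v := by rw [hv2, one_mul]
  -- the odd part of `u`
  obtain ⟨a, b, hbodd, hab⟩ := Nat.exists_eq_two_pow_mul_odd (orderOf_pos u).ne'
  have hu' : Odd (orderOf (u ^ 2 ^ a)) := by
    rw [orderOf_pow_of_dvd (pow_ne_zero a two_ne_zero) (hab ▸ Dvd.intro _ rfl), hab,
      Nat.mul_div_cancel_left _ (pow_pos two_pos a)]
    exact hbodd
  have hinv' : v * (u ^ 2 ^ a) * v⁻¹ = (u ^ 2 ^ a)⁻¹ := by
    rw [← conj_pow, huinv, inv_pow]
  obtain ⟨w, hwV, hw1, hw⟩ := hS _ v hv hu' hinv'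
  refine ⟨QuotientGroup.mk' K w, ⟨w, hwV, rfl⟩, ?_, ?_⟩
  · intro h1
    have hwK : w ∈ K := by
      rw [← QuotientGroup.ker_mk' K]; exact h1
    have : w ∈ V ⊓ K := ⟨hwV, hwK⟩
    rw [hVK] at this
    exact hw1 (Subgroup.mem_bot.1 this)
  · set φ := QuotientGroup.mk' K with hφ
    have hφu : φ u = (φ h)⁻¹ ^ 2 := by
      rw [hu, map_mul, map_mul, map_mul, map_inv, pow_two]
      have : φ v * (φ h * φ v * (φ h)⁻¹) = (φ v * φ h * (φ v)⁻¹) * (φ h)⁻¹ := by
        rw [← map_inv φ v, hvi]; group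
      rw [this, hinv]
    have hc : Commute (φ w) (φ (u ^ 2 ^ a)) := by
      show φ w * φ (u ^ 2 ^ a) = φ (u ^ 2 ^ a) * φ w
      rw [← map_mul, ← map_mul, hw]
    rw [map_pow, hφu, ← pow_mul, inv_pow] at hc
    have hc2 : Commute (φ w) (φ h ^ (2 * 2 ^ a)) := by simpa using hc.inv_right
    obtain ⟨m, hm⟩ := exists_pow_eq_self_of_coprime (n := 2 * 2 ^ a) (x := φ h) (by
      rw [← pow_succ']
      exact Nat.Coprime.pow_left _ (Nat.coprime_two_left.2 hodd))
    exact hm ▸ hc2.pow_right m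

end Cfsg.Agent.S3012
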