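import Cfsg.Statements.S3013

set_option autoImplicit false
open Cfsg

namespace Cfsg.Agent.S3013



/-- Let G be a finite group and V a nontrivial elementary abelian 2-subgroup of G satisfying the Sidki pair condition. Let v ∈ V and let x be an element of odd order inverted by v, and put C = C_G(v) ∩ C_G(x), the centralizer of the dihedral subgroup generated by v and x. Then C ∩ V is nontrivial and satisfies the Sidki pair condition inside C: every odd-order element of C inverted by an element of C ∩ V commutes with a nontrivial element of C ∩ V. -/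
theorem result {G : Type*} [Group G] [Finite G] (V : Subgroup G) (hV : Cfsg.IsElementaryAbelian 2 V) (hV1 : V ≠ ⊥) (hS : Cfsg.IsSidkiPair V) (v x : G) (hv : v ∈ V) (hx : Odd (orderOf x)) (hinv : v * x * v⁻¹ = x⁻¹) (C : Subgroup G) (hC : C = Subgroup.centralizer ({v} : Set G) ⊓ Subgroup.centralizer ({x} : Set G)) : C ⊓ V ≠ ⊥ ∧ Cfsg.IsSidkiPair ((C ⊓ V).subgroupOf C) := by
  obtain ⟨hVc, hV2⟩ := hV
  have hcomm : ∀ a ∈ V, ∀ b ∈ V, a * b = b * a := fun a ha b hb =>
    congrArg Subtype.val (hVc.is_comm.comm ⟨a, ha⟩ ⟨b, hb⟩)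
  have key : ∀ h u : G, u ∈ V → u * x = x * u → h * v = v * h → h * x = x * h →
      Odd (orderOf h) → u * h * u⁻¹ = h⁻¹ → ∃ w ∈ V, w ≠ 1 ∧ w * h = h * w ∧ w * x = x * w := by
    intro h u hu hux hhv hhx hodd hinv'
    have hxh : Commute x h := hhx.symm
    have hoy : Odd (orderOf (x * h)) :=
      Odd.of_dvd_nat (hx.mul hodd) hxh.orderOf_mul_dvd_mul_orderOf
    have hinvy : (v * u) * (x * h) * (v * u)⁻¹ = (x * h)⁻¹ := by
      have e1 : u * x * u⁻¹ = x := by rw [hux]; group
      have e2 : v * h⁻¹ * v⁻¹ = h⁻¹ := by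
        have : v * h * v⁻¹ = h := by rw [← hhv]; group
        calc v * h⁻¹ * v⁻¹ = (v * h * v⁻¹)⁻¹ := by group
          _ = h⁻¹ := by rw [this]
      calc (v * u) * (x * h) * (v * u)⁻¹
          = v * ((u * x * u⁻¹) * (u * h * u⁻¹)) * v⁻¹ := by group
        _ = (v * x * v⁻¹) * (v * h⁻¹ * v⁻¹) := by rw [e1, hinv']; group
        _ = x⁻¹ * h⁻¹ := by rw [hinv, e2]
        _ = (x * h)⁻¹ := by rw [← hhx]; group
    obtain ⟨w, hwV, hw1, hw⟩ := hS (x * h) (v * u) (V.mul_mem hv hu) hoy hinvy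
    have hw1' : Commute w (x * h) := hw
    have hwv : Commute w v := hcomm w hwV v hv
    have hw2 : Commute w (v * (x * h) * v⁻¹) := (hwv.mul_right hw1').mul_right hwv.inv_right
    have e : v * (x * h) * v⁻¹ = x⁻¹ * h := by
      calc v * (x * h) * v⁻¹ = (v * x * v⁻¹) * (v * h * v⁻¹) := by group
        _ = x⁻¹ * h := by rw [hinv, ← hhv]; group
    rw [e] at hw2
    have hw3 : Commute w ((x * h) * (x⁻¹ * h)) := hw1'.mul_right hw2
    have e2 : (x * h) * (x⁻¹ * h) = h ^ 2 := by rw [← hhx, pow_two]; group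
    rw [e2] at hw3
    obtain ⟨m, hm⟩ := exists_pow_eq_self_of_coprime (n := 2) (x := h) (Nat.coprime_two_left.2 hodd)
    have hw4 : Commute w h := hm ▸ hw3.pow_right m
    have hw5 : Commute w ((x * h) * h⁻¹) := hw1'.mul_right hw4.inv_right
    rw [mul_inv_cancel_right] at hw5
    exact ⟨w, hwV, hw1, hw4, hw5⟩
  have memC : ∀ w ∈ V, w * x = x * w → w ∈ C := by
    intro w hw hwx
    rw [hC]
    refine ⟨?_, ?_⟩
    · show w ∈ Subgroup.centralizer ({v} : Set G)
      rw [Subgroup.mem_centralizer_singleton_iff]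
      exact hcomm w hw v hv
    · show w ∈ Subgroup.centralizer ({x} : Set G)
      rw [Subgroup.mem_centralizer_singleton_iff]
      exact hwx
  constructor
  · obtain ⟨w, hwV, hw1, -, hwx⟩ := key 1 1 V.one_mem (by simp) (by simp) (by simp) (by simp) (by simp)
    intro hbot
    have : w ∈ C ⊓ V := ⟨memC w hwV hwx, hwV⟩
    rw [hbot] at this
    exact hw1 (Subgroup.mem_bot.1 this)
  · intro h u hu hodd hinv'
    have huCV : (u : G) ∈ C ⊓ V := Subgroup.mem_subgroupOf.1 hu
    have huC : (u : G) ∈ Subgroup.centralizer ({v} : Set G) ⊓ Subgroup.centralizer ({x} : Set G) :=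
      hC ▸ u.2
    have hhC : (h : G) ∈ Subgroup.centralizer ({v} : Set G) ⊓ Subgroup.centralizer ({x} : Set G) :=
      hC ▸ h.2
    have hux := Subgroup.mem_centralizer_singleton_iff.1 huC.2
    have hhv := Subgroup.mem_centralizer_singleton_iff.1 hhC.1
    have hhx := Subgroup.mem_centralizer_singleton_iff.1 hhC.2
    have hodd' : Odd (orderOf (h : G)) := by rwa [Subgroup.orderOf_coe]
    have hinv'' : (u : G) * (h : G) * (u : G)⁻¹ = (h : G)⁻¹ := congrArg Subtype.val hinv'
    obtain ⟨w, hwV, hw1, hwh, hwx⟩ := key h u huCV.2 hux hhv hhx hodd' hinv''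
    refine ⟨⟨w, memC w hwV hwx⟩, Subgroup.mem_subgroupOf.2 ⟨memC w hwV hwx, hwV⟩, ?_, ?_⟩
    · intro h1
      exact hw1 (congrArg Subtype.val h1)
    · exact Subtype.ext hwh

end Cfsg.Agent.S3013
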