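import Cfsg.Statements.S3020
import Cfsg.Agent.Lib.Helper4_Syl
import Cfsg.Agent.Lib.Helper3_Local
import Cfsg.Agent.Lib.Helper4_Cop
import Cfsg.Agent.Lib.Helper4_Core

set_option autoImplicit false
open Cfsg

namespace Cfsg.Agent.S3020

open Cfsg.Agent.Lib.Helper4_Syl Cfsg.Agent.Lib.Helper3_Local Cfsg.Agent.Lib.Helper4_Cop

/-- Let G be a finite group, p a prime and H an abelian p-subgroup of G that is extremely closed (for every g, the subgroup generated by H and g H g⁻¹ meets N_G(H) exactly in H). Then for every g ∈ G, the subgroup T generated by H and g H g⁻¹ is the product of H with O_{p'}(T), and H meets O_{p'}(T) trivially; that is, O_{p'}(T) is a normal p-complement of H in T. -/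
theorem result {G : Type*} [Group G] [Finite G] {p : ℕ} [Fact p.Prime] (H : Subgroup G) (hHp : IsPGroup p H) (hHab : IsMulCommutative H) (hcl : Cfsg.IsExtremelyClosed H) (g : G) (T : Subgroup G) (hT : T = H ⊔ H.map (MulAut.conj g).toMonoidHom) : H ⊔ (Cfsg.pPrimeCore p ↥T).map T.subtype = T ∧ H ⊓ (Cfsg.pPrimeCore p ↥T).map T.subtype = ⊥ := by
  have hpp : Fact p.Prime := inferInstance
  have hTN : T ⊓ Subgroup.normalizer (H : Set G) = H := by rw [hT]; exact hcl g
  have hHT : H ≤ T := by rw [hT]; exact le_sup_left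
  have hnorm : ∀ x : T, x ∈ Subgroup.normalizer ((H.subgroupOf T : Subgroup T) : Set T) →
      (x : G) ∈ H := by
    intro x hx
    rw [← hTN]
    refine ⟨x.2, ?_⟩
    show (x : G) ∈ Subgroup.normalizer (H : Set G)
    rw [mem_normalizer_iff_conj_le]
    intro h hh
    have := (Subgroup.mem_normalizer_iff.1 hx ⟨h, hHT hh⟩).1 (Subgroup.mem_subgroupOf.2 hh)
    exact Subgroup.mem_subgroupOf.1 this
  obtain ⟨P, hP⟩ := (hHp.comap_subtype (K := T)).exists_le_sylow
  have hPH : H.subgroupOf T = (P : Subgroup T) := by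
    by_contra hne
    obtain ⟨x, -, hxS, hxN⟩ := exists_mem_normalizer_not_mem P.2 hP hne
    exact hxS (Subgroup.mem_subgroupOf.2 (hnorm x hxN))
  have hNC : Subgroup.normalizer ((P : Subgroup T) : Set T) ≤
      Subgroup.centralizer ((P : Subgroup T) : Set T) := by
    intro n hn
    rw [← hPH] at hn ⊢
    rw [Subgroup.mem_centralizer_iff]
    intro h hh
    have := hHab.is_comm.comm ⟨(h : G), Subgroup.mem_subgroupOf.1 hh⟩ ⟨(n : G), hnorm n hn⟩
    have h2 : (h : G) * (n : G) = (n : G) * (h : G) := congrArg Subtype.val this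
    exact Subtype.ext h2
  have hcompl := MonoidHom.ker_transferSylow_isComplement' P hNC
  have hKc : (Nat.card (MonoidHom.transferSylow P hNC).ker).Coprime p := by
    rw [← hcompl.index_eq_card]
    exact ((Nat.Prime.coprime_iff_not_dvd hpp.1).2 P.not_dvd_index).symm
  have hKle : (MonoidHom.transferSylow P hNC).ker ≤ pPrimeCore p T := le_sSup ⟨inferInstance, hKc⟩
  constructor
  · apply le_antisymm (sup_le hHT (Subgroup.map_subtype_le _))
    intro t ht
    have h1 : (⟨t, ht⟩ : T) ∈ (MonoidHom.transferSylow P hNC).ker ⊔ (P : Subgroup T) := by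
      rw [hcompl.sup_eq_top]; trivial
    have h2 : (MonoidHom.transferSylow P hNC).ker ⊔ (P : Subgroup T) ≤
        (H ⊔ (pPrimeCore p T).map T.subtype).subgroupOf T := by
      refine sup_le (fun k hk => ?_) (fun k hk => ?_)
      · exact Subgroup.mem_subgroupOf.2 (Subgroup.mem_sup_right ⟨k, hKle hk, rfl⟩)
      · rw [← hPH] at hk
        exact Subgroup.mem_subgroupOf.2 (Subgroup.mem_sup_left (Subgroup.mem_subgroupOf.1 hk))
    exact Subgroup.mem_subgroupOf.1 (h2 h1)
  · rw [eq_bot_iff]
    rintro y ⟨hyH, ⟨k, hk, rfl⟩⟩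
    obtain ⟨j, hj⟩ := hHp ⟨_, hyH⟩
    have hj' : (k : G) ^ p ^ j = 1 := by simpa using congrArg Subtype.val hj
    have h3 := congrArg Subtype.val (pow_card_eq_one' (G := pPrimeCore p T) (x := ⟨k, hk⟩))
    rw [Subgroup.coe_pow, Subgroup.coe_one] at h3
    have h3' : (k : G) ^ Nat.card (pPrimeCore p T) = 1 := by
      have h4 := congrArg Subtype.val h3
      rwa [Subgroup.coe_pow, Subgroup.coe_one] at h4
    exact eq_one_of_coprime_pow h3' hj'
      (Nat.Coprime.pow_right j (Cfsg.Agent.Lib.Helper4_Core.pPrimeCore_coprime p))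

end Cfsg.Agent.S3020
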