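import Cfsg.Statements.S3021
import Cfsg.Agent.Lib.Helper4_Syl
import Cfsg.Agent.Lib.Helper3_Local
import Cfsg.Agent.Lib.Helper4_Cop

set_option autoImplicit false
open Cfsg

namespace Cfsg.Agent.S3021

open Cfsg.Agent.Lib.Helper4_Syl Cfsg.Agent.Lib.Helper3_Local

/-- Let G be a finite group, p a prime and H a p-subgroup of G that is extremely closed (for every g, the subgroup generated by H and g H g⁻¹ meets N_G(H) exactly in H). Then every p-subgroup Q of G containing H has N_G(Q) ≤ N_G(H); in particular every Sylow p-subgroup P of G containing H normalizes H, and H is strongly closed in P with respect to G. -/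
theorem result {G : Type*} [Group G] [Finite G] {p : ℕ} [Fact p.Prime] (H : Subgroup G) (hHp : IsPGroup p H) (hcl : Cfsg.IsExtremelyClosed H) : (∀ Q : Subgroup G, IsPGroup p Q → H ≤ Q → Subgroup.normalizer (Q : Set G) ≤ Subgroup.normalizer (H : Set G)) ∧ ∀ P : Sylow p G, H ≤ (P : Subgroup G) → (P : Subgroup G) ≤ Subgroup.normalizer (H : Set G) ∧ Cfsg.IsStronglyClosed H (P : Subgroup G) := by
  have key : ∀ y : G, H.map (MulAut.conj y).toMonoidHom ≤ Subgroup.normalizer (H : Set G) →
      y ∈ Subgroup.normalizer (H : Set G) := by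
    intro y hy
    have h1 := hcl y
    rw [inf_eq_left.2 (sup_le Subgroup.le_normalizer hy)] at h1
    rw [mem_normalizer_iff_conj_le]
    intro h hh
    rw [← h1]
    exact Subgroup.mem_sup_right ⟨h, hh, rfl⟩
  have claim : ∀ Q : Subgroup G, IsPGroup p Q → H ≤ Q → Q ≤ Subgroup.normalizer (H : Set G) := by
    intro Q hQ hHQ
    by_contra hcon
    have hne : Q ⊓ Subgroup.normalizer (H : Set G) ≠ Q := fun h => hcon (inf_eq_left.1 h)
    obtain ⟨y, hyQ, hyA, hyN⟩ := exists_mem_normalizer_not_mem hQ inf_le_left hne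
    apply hyA
    refine ⟨hyQ, key y ?_⟩
    rintro _ ⟨h, hh, rfl⟩
    exact ((Subgroup.mem_normalizer_iff.1 hyN h).1 ⟨hHQ hh, Subgroup.le_normalizer hh⟩).2
  refine ⟨fun Q hQ hHQ n hn => key n ?_, fun P hHP => ⟨claim _ P.2 hHP, hHP, fun x hx g hg => ?_⟩⟩
  · rintro _ ⟨h, hh, rfl⟩
    exact claim Q hQ hHQ ((Subgroup.mem_normalizer_iff.1 hn h).1 (hHQ hh))
  · rw [← hcl g]
    exact ⟨Subgroup.mem_sup_right ⟨x, hx, rfl⟩, claim _ P.2 hHP hg⟩

end Cfsg.Agent.S3021
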