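import Cfsg.Statements.S3025
import Cfsg.Agent.S0016

set_option autoImplicit false
open Cfsg

namespace Cfsg.Agent.S3025



/-- Let F be a finite group and H a nontrivial subgroup of F that is contained in every nontrivial subgroup of F which H normalizes. Then F has a nontrivial normal subgroup N contained in every nontrivial normal subgroup of F (a unique minimal normal subgroup), N is simple, and one of the following holds: C_F(N) = 1; or H = N has prime order p, C_F(N) is cyclic of order a power of p, and F/C_F(N) is cyclic of order dividing p − 1; or H = N has order 2, N is central in F, and F is a generalized quaternion group. -/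
theorem result {F : Type*} [Group F] [Finite F] (H : Subgroup F) (hH : H ≠ ⊥)
    (hmin : ∀ R : Subgroup F, R ≠ ⊥ → H ≤ Subgroup.normalizer (R : Set F) → H ≤ R) :
    ∃ N : Subgroup F, N.Normal ∧ N ≠ ⊥ ∧ (∀ M : Subgroup F, M.Normal → M ≠ ⊥ → N ≤ M) ∧ IsSimpleGroup ↥N ∧
      (Subgroup.centralizer (N : Set F) = ⊥ ∨
       (H = N ∧ (Nat.card N).Prime ∧ IsCyclic ↥(Subgroup.centralizer (N : Set F)) ∧
          (∃ k : ℕ, 1 ≤ k ∧ Nat.card ↥(Subgroup.centralizer (N : Set F)) = Nat.card N ^ k) ∧
          (∃ g : F, Subgroup.centralizer (N : Set F) ⊔ Subgroup.zpowers g = ⊤) ∧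
          (Subgroup.centralizer (N : Set F)).index ∣ Nat.card N - 1) ∨
       (H = N ∧ Nat.card N = 2 ∧ Subgroup.centralizer (N : Set F) = ⊤ ∧
          ∃ k : ℕ, 1 ≤ k ∧ Nonempty (F ≃* QuaternionGroup (2 ^ k)))) := by
  classical
  set N := Subgroup.normalClosure (H : Set F) with hNdef
  have hNn : N.Normal := inferInstance
  have hHN : H ≤ N := Subgroup.le_normalClosure
  have hNne : N ≠ ⊥ := fun h => hH (le_bot_iff.1 (h ▸ hHN))
  have hNmin : ∀ M : Subgroup F, M.Normal → M ≠ ⊥ → N ≤ M := by
    intro M hM hM1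
    apply Subgroup.normalClosure_le_normal
    apply hmin M hM1
    rw [Subgroup.normalizer_eq_top]; exact le_top
  have hsimple : IsSimpleGroup ↥N := by
    haveI : Nontrivial N := (Subgroup.nontrivial_iff_ne_bot N).2 hNne
    constructor
    intro K hK
    by_cases hK1 : K = ⊥
    · exact Or.inl hK1
    right
    set K' := K.map N.subtype with hK'
    have hK'ne : K' ≠ ⊥ := by
      intro h
      exact hK1 ((Subgroup.map_eq_bot_iff_of_injective _ N.subtype_injective).1 h)
    have hKn1 : ∀ n ∈ N, ∀ y ∈ K', n * y * n⁻¹ ∈ K' := by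
      rintro n hn _ ⟨k, hk, rfl⟩
      exact ⟨⟨n, hn⟩ * k * ⟨n, hn⟩⁻¹, hK.conj_mem k hk _, rfl⟩
    have hHcore : H ≤ K'.normalCore := by
      intro h hh b
      set R := K'.comap (MulAut.conj b).toMonoidHom with hR
      have hmemR : ∀ x, x ∈ R ↔ b * x * b⁻¹ ∈ K' := fun x => Iff.rfl
      have hRne : R ≠ ⊥ := by
        obtain ⟨k, hk1⟩ := Subgroup.ne_bot_iff_exists_ne_one.1 hK'ne
        intro hbot
        have h1 : b⁻¹ * k.1 * b ∈ R := by
          rw [hmemR]
          have : b * (b⁻¹ * k.1 * b) * b⁻¹ = k.1 := by group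
          rw [this]; exact k.2
        rw [hbot, Subgroup.mem_bot] at h1
        apply hk1
        apply Subtype.ext
        have : k.1 = b * (b⁻¹ * k.1 * b) * b⁻¹ := by group
        rw [this, h1]; simp
      have hnorm : H ≤ Subgroup.normalizer (R : Set F) := by
        intro u hu
        rw [Subgroup.mem_normalizer_iff]
        intro x
        rw [hmemR, hmemR]
        have hn : b * u * b⁻¹ ∈ N := hNn.conj_mem u (hHN hu) b
        constructor
        · intro hx
          have := hKn1 _ hn _ hx
          have e : b * (u * x * u⁻¹) * b⁻¹ = b * u * b⁻¹ * (b * x * b⁻¹) * (b * u * b⁻¹)⁻¹ := by group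
          rw [e]; exact this
        · intro hx
          have := hKn1 _ (N.inv_mem hn) _ hx
          have e : b * x * b⁻¹ = (b * u * b⁻¹)⁻¹ * (b * (u * x * u⁻¹) * b⁻¹) * ((b * u * b⁻¹)⁻¹)⁻¹ := by group
          rw [e]; exact this
      exact (hmemR h).1 (hmin R hRne hnorm hh)
    have hcore_ne : K'.normalCore ≠ ⊥ := fun h => hH (le_bot_iff.1 (h ▸ hHcore))
    have h1 : N ≤ K' := (hNmin _ inferInstance hcore_ne).trans K'.normalCore_le
    rw [eq_top_iff]
    intro x _
    obtain ⟨k, hk, hkx⟩ := h1 x.2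
    have : k = x := Subtype.ext hkx
    rw [← this]; exact hk
  refine ⟨N, hNn, hNne, hNmin, hsimple, ?_⟩
  set C := Subgroup.centralizer (N : Set F) with hC
  have hCn : C.Normal := by rw [hC]; infer_instance
  by_cases hC1 : C = ⊥
  · exact Or.inl hC1
  right
  have hNC : N ≤ C := hNmin C hCn hC1
  have hcommN : ∀ a b : N, a * b = b * a := by
    intro a b
    apply Subtype.ext
    exact ((Subgroup.mem_centralizer_iff.1 (hNC b.2)) a.1 a.2)
  have hprime : (Nat.card N).Prime := by
    letI : CommGroup N := { (inferInstance : Group N) with mul_comm := hcommN }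
    exact IsSimpleGroup.prime_card
  set p := Nat.card N with hp
  haveI : Fact p.Prime := ⟨hprime⟩
  have hHeq : H = N := by
    apply Subgroup.eq_of_le_of_card_ge hHN
    have h1 : Nat.card H ∣ p := Subgroup.card_dvd_of_le hHN
    rcases (Nat.dvd_prime hprime).1 h1 with h2 | h2
    · exact absurd ((Subgroup.card_eq_one).1 h2) hH
    · rw [h2]
  have hCmin : ∀ R : Subgroup F, R ≤ C → R ≠ ⊥ → N ≤ R := by
    intro R hR hR1
    rw [← hHeq]
    apply hmin R hR1
    refine le_trans ?_ (Subgroup.centralizer_le_normalizer _)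
    intro u hu
    rw [Subgroup.mem_centralizer_iff]
    intro r hr
    exact ((Subgroup.mem_centralizer_iff.1 (hR hr)) u (hHN hu)).symm
  have hCcard : ∃ k : ℕ, Nat.card C = p ^ k := by
    refine ⟨_, Nat.eq_prime_pow_of_unique_prime_dvd Nat.card_pos.ne' ?_⟩
    intro q hq hqd
    haveI : Fact q.Prime := ⟨hq⟩
    obtain ⟨c, hc⟩ := exists_prime_orderOf_dvd_card' q hqd
    have h1 : N ≤ Subgroup.zpowers (c : F) := by
      apply hCmin _ ((Subgroup.zpowers_le).2 c.2)
      rw [Ne, Subgroup.zpowers_eq_bot]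
      intro h
      have : c = 1 := Subtype.ext h
      rw [this, orderOf_one] at hc
      exact hq.one_lt.ne hc
    have h2 := Subgroup.card_dvd_of_le h1
    rw [Nat.card_zpowers, Subgroup.orderOf_coe, hc] at h2
    exact ((Nat.prime_dvd_prime_iff_eq hprime hq).1 h2).symm
  obtain ⟨k, hk⟩ := hCcard
  have hk1 : 1 ≤ k := by
    by_contra hcon
    have : k = 0 := by omega
    rw [this, pow_zero] at hk
    exact hC1 ((Subgroup.card_eq_one).1 hk)
  have hCp : IsPGroup p C := IsPGroup.of_card hk
  have huniq : ∀ X Y : Subgroup C, Nat.card X = p → Nat.card Y = p → X = Y := by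
    have aux : ∀ X : Subgroup C, Nat.card X = p → X.map C.subtype = N := by
      intro X hX
      symm
      apply Subgroup.eq_of_le_of_card_ge
      · apply hCmin _ (Subgroup.map_subtype_le _)
        intro h
        have h1 := (Subgroup.map_eq_bot_iff_of_injective _ C.subtype_injective).1 h
        rw [h1, Subgroup.card_bot] at hX
        exact hprime.one_lt.ne hX
      · rw [Subgroup.card_map_of_injective C.subtype_injective, hX]
    intro X Y hX hY
    exact Subgroup.map_injective C.subtype_injective ((aux X hX).trans (aux Y hY).symm)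
  let φ : F →* MulAut N := MulAut.conjNormal
  have hker : φ.ker = C := by
    ext f
    rw [MonoidHom.mem_ker, hC, Subgroup.mem_centralizer_iff]
    constructor
    · intro h n hn
      have h1 := congrArg Subtype.val (DFunLike.congr_fun h (⟨n, hn⟩ : N))
      rw [MulAut.conjNormal_apply] at h1
      simp only [MulAut.one_apply] at h1
      exact (mul_inv_eq_iff_eq_mul.1 h1).symm
    · intro h
      ext n
      rw [MulAut.conjNormal_apply]
      simp only [MulAut.one_apply]
      rw [mul_inv_eq_iff_eq_mul]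
      exact (h n.1 n.2).symm
  haveI hNcyc : IsCyclic N := isCyclic_of_prime_card hp.symm
  haveI hAcyc : IsCyclic (MulAut N) := (IsCyclic.mulAutMulEquiv N).isCyclic.2 inferInstance
  have hAcard : Nat.card (MulAut N) = p - 1 := by
    rw [IsCyclic.card_mulAut, Nat.totient_prime hprime]
  have hidx : C.index ∣ p - 1 := by
    rw [← hker, Subgroup.index_ker, ← hAcard]
    exact Subgroup.card_subgroup_dvd_card _
  have hgen : ∃ g : F, C ⊔ Subgroup.zpowers g = ⊤ := by
    obtain ⟨⟨_, ⟨g, rfl⟩⟩, hg⟩ := IsCyclic.exists_generator (α := φ.range)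
    refine ⟨g, ?_⟩
    rw [eq_top_iff]
    intro f _
    obtain ⟨j, hj⟩ := hg ⟨φ f, ⟨f, rfl⟩⟩
    have h1 : φ g ^ j = φ f := congrArg Subtype.val hj
    have h2 : f * (g ^ j)⁻¹ ∈ C := by
      rw [← hker, MonoidHom.mem_ker, map_mul, map_inv, map_zpow, h1, mul_inv_cancel]
    have h3 : f = f * (g ^ j)⁻¹ * g ^ j := by group
    rw [h3]
    exact Subgroup.mul_mem_sup h2 (Subgroup.zpow_mem_zpowers g j)
  have hmain : IsCyclic C → (H = N ∧ (Nat.card N).Prime ∧ IsCyclic ↥C ∧
          (∃ k : ℕ, 1 ≤ k ∧ Nat.card ↥C = Nat.card N ^ k) ∧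
          (∃ g : F, C ⊔ Subgroup.zpowers g = ⊤) ∧ C.index ∣ Nat.card N - 1) :=
    fun h => ⟨hHeq, hprime, h, ⟨k, hk1, hk⟩, hgen, hidx⟩
  rcases Cfsg.Agent.S0016.result p hCp huniq with hcyc | ⟨hp2, n, ⟨e⟩⟩
  · exact Or.inl (hmain hcyc)
  · by_cases hn : n = 0
    · left
      apply hmain
      subst hn
      rw [e.isCyclic, pow_zero]
      exact QuaternionGroup.quaternionGroup_one_isCyclic
    · right
      have hCtop : C = ⊤ := by
        rw [← Subgroup.index_eq_one]
        rw [hp2] at hidx
        exact Nat.dvd_one.1 hidx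
      refine ⟨hHeq, hp2, hCtop, n, by omega, ?_⟩
      exact ⟨((MulEquiv.subgroupCongr hCtop).trans Subgroup.topEquiv).symm.trans e⟩

end Cfsg.Agent.S3025
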