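import Cfsg.Statements.S3027
import Cfsg.Agent.Lib.Helper4_Syl

set_option autoImplicit false
open Cfsg

namespace Cfsg.Agent.S3027

open scoped Pointwise commutatorElement

inductive SN {G : Type*} [Group G] (K : Subgroup G) : Subgroup G → Prop
  | refl : SN K K
  | step (H L : Subgroup G) : H ≤ L → L ≤ Subgroup.normalizer (H : Set G) → SN K L → SN K H

theorem SN.le {G : Type*} [Group G] {K T : Subgroup G} (h : SN K T) : T ≤ K := by
  induction h with
  | refl => exact le_rfl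
  | step H L h1 _ _ ih => exact h1.trans ih

theorem SN.restrict {G : Type*} [Group G] {T : Subgroup G} (K : Subgroup G) (h : SN ⊤ T) :
    SN K (K ⊓ T) := by
  induction h with
  | refl => rw [inf_top_eq]; exact SN.refl
  | step H L h1 h2 _ ih =>
    refine SN.step _ _ (inf_le_inf_left K h1) ?_ ih
    exact (inf_le_inf Subgroup.le_normalizer h2).trans Subgroup.inf_normalizer_le_normalizer_inf

theorem SN.trans {G : Type*} [Group G] {K S T : Subgroup G} (h1 : SN K S) (h2 : SN S T) :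
    SN K T := by
  induction h2 with
  | refl => exact h1
  | step H L a b _ ih => exact SN.step H L a b ih

theorem SN.conj {G : Type*} [Group G] {T : Subgroup G} (g : G) (h : SN ⊤ T) :
    SN ⊤ (MulAut.conj g • T) := by
  induction h with
  | refl => rw [Subgroup.Normal.conj_smul_eq_self g ⊤]; exact SN.refl
  | step H L h1 h2 _ ih =>
    refine SN.step _ _ (Subgroup.pointwise_smul_le_pointwise_smul_iff.2 h1) ?_ ih
    rw [Cfsg.Agent.Lib.Helper4_Syl.normalizer_conj]
    exact Subgroup.pointwise_smul_le_pointwise_smul_iff.2 h2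

theorem SN.of_isSubnormal {G : Type*} [Group G] {T : Subgroup G} (h : T.IsSubnormal) : SN ⊤ T := by
  induction h with
  | top => exact SN.refl
  | step H K h_le _ hN ih =>
    exact SN.step H K h_le ((Subgroup.normal_subgroupOf_iff_le_normalizer h_le).1 hN) ih

theorem supp_comm {G : Type*} [Group G] (D : Subgroup G) [D.Normal]
    (hperf : ⁅(⊤ : Subgroup G), (⊤ : Subgroup G)⁆ ⊔ D = ⊤) {H K : Subgroup G} (hH : H ⊔ D = ⊤)
    (hK : K ⊔ D = ⊤) : ⁅H, K⁆ ⊔ D = ⊤ := by
  rw [eq_top_iff, ← hperf]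
  refine sup_le ?_ le_sup_right
  -- work in the quotient by D
  have key : ∀ X : Subgroup G, X ⊔ D = ⊤ → X.map (QuotientGroup.mk' D) = ⊤ := by
    intro X hX
    rw [eq_top_iff, ← Subgroup.map_top_of_surjective _ (QuotientGroup.mk'_surjective D), ← hX,
      Subgroup.map_sup]
    refine sup_le le_rfl ?_
    rw [(Subgroup.map_eq_bot_iff _).2 (by rw [QuotientGroup.ker_mk'])]
    exact bot_le
  have h1 : (⁅H, K⁆).map (QuotientGroup.mk' D) =
      (⁅(⊤ : Subgroup G), (⊤ : Subgroup G)⁆).map (QuotientGroup.mk' D) := by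
    rw [Subgroup.map_commutator, Subgroup.map_commutator, key H hH, key K hK,
      Subgroup.map_top_of_surjective _ (QuotientGroup.mk'_surjective D)]
  have h2 := congrArg (Subgroup.comap (QuotientGroup.mk' D)) h1
  rw [Subgroup.comap_map_eq, Subgroup.comap_map_eq, QuotientGroup.ker_mk'] at h2
  rw [h2]
  exact le_sup_left

theorem supp_inner {G : Type*} [Group G] (D : Subgroup G) [D.Normal]
    (hperf : ⁅(⊤ : Subgroup G), (⊤ : Subgroup G)⁆ ⊔ D = ⊤) {S K : Subgroup G} (hSK : S ≤ K)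
    (hKS : K ≤ Subgroup.normalizer (S : Set G)) (hS : S ⊔ D = ⊤) {T : Subgroup G} (hT : SN K T) :
    T ⊔ D = ⊤ → (S ⊓ T) ⊔ D = ⊤ := by
  induction hT with
  | refl => intro _; rw [inf_eq_left.2 hSK]; exact hS
  | step H L h1 h2 hL ih =>
    intro hH
    have hLs : L ⊔ D = ⊤ := eq_top_iff.2 (hH ▸ sup_le_sup_right h1 D)
    have h3 := supp_comm D hperf (ih hLs) hH
    rw [eq_top_iff, ← h3]
    refine sup_le_sup_right ?_ D
    rw [Subgroup.commutator_le]
    intro a ha h hh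
    constructor
    · have hn : h ∈ Subgroup.normalizer (S : Set G) := hKS (hL.le (h1 hh))
      have h4 : h * a⁻¹ * h⁻¹ ∈ S := (Subgroup.mem_normalizer_iff.1 hn _).1 (S.inv_mem ha.1)
      have e : ⁅a, h⁆ = a * (h * a⁻¹ * h⁻¹) := by rw [commutatorElement_def]; group
      rw [e]; exact S.mul_mem ha.1 h4
    · have hn : a ∈ Subgroup.normalizer (H : Set G) := h2 ha.2
      have h4 : a * h * a⁻¹ ∈ H := (Subgroup.mem_normalizer_iff.1 hn _).1 hh
      rw [commutatorElement_def]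
      exact H.mul_mem h4 (H.inv_mem hh)

theorem supp_outer {G : Type*} [Group G] (D : Subgroup G) [D.Normal]
    (hperf : ⁅(⊤ : Subgroup G), (⊤ : Subgroup G)⁆ ⊔ D = ⊤) {S : Subgroup G} (hS : SN ⊤ S) :
    S ⊔ D = ⊤ → ∀ T : Subgroup G, SN ⊤ T → T ⊔ D = ⊤ → (S ⊓ T) ⊔ D = ⊤ := by
  induction hS with
  | refl => intro _ T _ hT; rw [top_inf_eq]; exact hT
  | step H L h1 h2 _ ih =>
    intro hH T hT hTs
    have hLs : L ⊔ D = ⊤ := eq_top_iff.2 (hH ▸ sup_le_sup_right h1 D)
    have h3 := ih hLs T hT hTs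
    have h4 := supp_inner D hperf h1 h2 hH (hT.restrict L) h3
    rwa [← inf_assoc, inf_eq_left.2 h1] at h4

/-- Let G be a finite group and D a normal subgroup of G such that G/D is perfect (that is, G = G′D). Then among the subnormal subgroups B of G with BD = G there is a least one, and it is normal in G. -/
theorem result {G : Type*} [Group G] [Finite G] (D : Subgroup G) [D.Normal] (hperf : ⁅(⊤ : Subgroup G), (⊤ : Subgroup G)⁆ ⊔ D = ⊤) :
    ∃ B : Subgroup G, B.Normal ∧ B ⊔ D = ⊤ ∧ ∀ B' : Subgroup G, B'.IsSubnormal → B' ⊔ D = ⊤ → B ≤ B' := by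
  let 𝒮 := {S : Subgroup G // SN ⊤ S ∧ S ⊔ D = ⊤}
  have : Nonempty 𝒮 := ⟨⟨⊤, SN.refl, top_sup_eq _⟩⟩
  have : Finite 𝒮 := Subtype.finite
  obtain ⟨B, hB⟩ := Finite.exists_min (fun S : 𝒮 => Nat.card (S.1 : Subgroup G))
  have hmin : ∀ S : Subgroup G, SN ⊤ S → S ⊔ D = ⊤ → B.1 ≤ S := by
    intro S hS hSs
    have h1 : SN ⊤ (B.1 ⊓ S) := B.2.1.trans (hS.restrict B.1)
    have h2 := supp_outer D hperf B.2.1 B.2.2 S hS hSs
    have h3 := hB ⟨B.1 ⊓ S, h1, h2⟩
    have h4 : B.1 ⊓ S = B.1 := Subgroup.eq_of_le_of_card_ge inf_le_left h3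
    exact inf_eq_left.1 h4
  refine ⟨B.1, ?_, B.2.2, fun B' hB' hs => hmin B' (SN.of_isSubnormal hB') hs⟩
  constructor
  intro b hb g
  have h1 : (MulAut.conj g⁻¹ • B.1) ⊔ D = ⊤ := by
    have h2 := congrArg (fun X : Subgroup G => MulAut.conj g⁻¹ • X) B.2.2
    simp only [Subgroup.smul_sup] at h2
    rwa [Subgroup.Normal.conj_smul_eq_self g⁻¹ D, Subgroup.Normal.conj_smul_eq_self g⁻¹ ⊤] at h2
  have h3 := hmin _ (B.2.1.conj g⁻¹) h1 hb
  obtain ⟨b', hb', hbb⟩ := h3
  have e : g * b * g⁻¹ = b' := by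
    have : g⁻¹ * b' * g⁻¹⁻¹ = b := hbb
    rw [← this]; group
  rw [e]; exact hb'

end Cfsg.Agent.S3027
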