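import Cfsg.Statements.S3056
import Cfsg.Agent.Lib.Helper4_SylGraph

set_option autoImplicit false

open Cfsg

namespace Cfsg.Agent.S3056

open scoped Pointwise
open Cfsg.Agent.Lib.Helper4_Syl Cfsg.Agent.Lib.Helper4_SPE Cfsg.Agent.Lib.Helper4_SylGraph

theorem result {G : Type*} [Group G] [Finite G]
    (p : ℕ) [Fact p.Prime] :
    ¬ Cfsg.IsSylowChainConnected p G ↔
      ∃ H : Subgroup G, H ≠ ⊤ ∧ p ∣ Nat.card H ∧
        ∀ g : G, g ∉ H → ¬ p ∣ Nat.card ↥(H ⊓ H.map (MulAut.conj g).toMonoidHom) := by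
  rw [not_chainConnected_iff]
  constructor
  · rintro ⟨H, h1, h2, h3⟩
    exact ⟨H, h1, h2, normCond_iff_classical.1 h3⟩
  · rintro ⟨H, h1, h2, h3⟩
    exact ⟨H, h1, h2, normCond_iff_classical.2 h3⟩

end Cfsg.Agent.S3056
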