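import Cfsg.Statements.S3058
import Cfsg.Agent.Lib.Helper4_SylGraph
import Cfsg.Agent.Lib.Helper4_SPE2

set_option autoImplicit false

open Cfsg

namespace Cfsg.Agent.S3058

open scoped Pointwise
open Cfsg.Agent.Lib.Helper4_Syl Cfsg.Agent.Lib.Helper4_SPE Cfsg.Agent.Lib.Helper4_SylGraph
  Cfsg.Agent.Lib.Helper4_SPE2

theorem result {G : Type*} [Group G] [Finite G]
    (p : ℕ) [Fact p.Prime] (hG : ¬ Cfsg.IsSylowChainConnected p G)
    (N M : Subgroup G) [N.Normal] [M.Normal] (hN : p ∣ Nat.card N) (hM : p ∣ Nat.card M) :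
    p ∣ Nat.card ↥(N ⊓ M) := by
  obtain ⟨H, hH, hd, hn⟩ := not_chainConnected_iff.1 hG
  by_contra hD
  apply hH
  obtain ⟨S, hS⟩ := exists_isSylIn p H
  have hStop := hn.isSylIn_top hd hS
  have hSN := hStop.inf_normal N
  have hSM := hStop.inf_normal M
  obtain ⟨a, haS, hao⟩ := exists_orderOf_eq_of_ne_bot hSN.isPGroup (hSN.ne_bot_of_dvd hN)
  obtain ⟨b, hbS, hbo⟩ := exists_orderOf_eq_of_ne_bot hSM.isPGroup (hSM.ne_bot_of_dvd hM)
  have haH : a ∈ H := hS.le (Subgroup.mem_inf.1 haS).1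
  have hbH : b ∈ H := hS.le (Subgroup.mem_inf.1 hbS).1
  have haN : a ∈ N := (Subgroup.mem_inf.1 haS).2
  have hbM : b ∈ M := (Subgroup.mem_inf.1 hbS).2
  -- S ⊓ (N ⊓ M) = ⊥
  have hSD : S ⊓ (N ⊓ M) = ⊥ := by
    by_contra hne
    exact hD ((dvd_card_of_ne_bot (hS.isPGroup.to_le inf_le_left) hne).trans
      (Subgroup.card_dvd_of_le inf_le_right))
  have hcomm : ∀ n ∈ N, ∀ m ∈ M, n * m * n⁻¹ * m⁻¹ ∈ N ⊓ M := by
    intro n hn' m hm
    refine Subgroup.mem_inf.2 ⟨?_, ?_⟩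
    · have : m * n⁻¹ * m⁻¹ ∈ N := Subgroup.Normal.conj_mem inferInstance _ (N.inv_mem hn') m
      have := N.mul_mem hn' this
      simpa [mul_assoc] using this
    · have : n * m * n⁻¹ ∈ M := Subgroup.Normal.conj_mem inferInstance _ hm n
      exact M.mul_mem this (M.inv_mem hm)
  have hab : Commute a b := by
    have h1 : a * b * a⁻¹ * b⁻¹ ∈ S ⊓ (N ⊓ M) := by
      refine Subgroup.mem_inf.2 ⟨?_, hcomm a haN b hbM⟩
      have h1 := (Subgroup.mem_inf.1 haS).1
      have h2 := (Subgroup.mem_inf.1 hbS).1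
      exact S.mul_mem (S.mul_mem (S.mul_mem h1 h2) (S.inv_mem h1)) (S.inv_mem h2)
    rw [hSD, Subgroup.mem_bot] at h1
    have : a * b = b * a := by
      have := congrArg (fun x => x * b * a) h1
      simpa [mul_assoc] using this
    exact this
  have hi : Subgroup.zpowers a ⊓ Subgroup.zpowers b = ⊥ := by
    rw [eq_bot_iff, ← hSD]
    refine le_inf (inf_le_left.trans ?_) (le_inf (inf_le_left.trans ?_) (inf_le_right.trans ?_))
    · rw [Subgroup.zpowers_le]; exact (Subgroup.mem_inf.1 haS).1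
    · rw [Subgroup.zpowers_le]; exact haN
    · rw [Subgroup.zpowers_le]; exact hbM
  obtain ⟨hA1, hA2, hA3⟩ := rank_two_of_commute hao hbo hab hi
  have hDH : N ⊓ M ≤ H := by
    refine NormCond.pprime_le hn (isPGroup_of_exp hA2)
      (sup_le (by rw [Subgroup.zpowers_le]; exact haH) (by rw [Subgroup.zpowers_le]; exact hbH))
      hA1 (not_isCyclic_of_exp hA2 hA3) (by rw [Subgroup.normalizer_eq_top]; exact le_top) ?_
    rw [Nat.coprime_comm, Nat.Prime.coprime_iff_not_dvd Fact.out]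
    exact hD
  have hNH : N ≤ H := by
    intro n hn'
    apply hn.mem_of_conj_mem hbH hbo
    have := H.mul_mem (hDH (hcomm n hn' b hbM)) hbH
    simpa using this
  rw [eq_top_iff]
  intro g _
  obtain ⟨n, hn1, hn2⟩ := frattini hSN g (conj_smul_eq_of_normal _ g)
  have h1 := hn _ (inf_le_left.trans hS.le) hSN.isPGroup (hSN.ne_bot_of_dvd hN) hn2
  have := H.mul_mem (hNH hn1) h1
  simpa using this

end Cfsg.Agent.S3058
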