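import Cfsg.Statements.S3059
import Cfsg.Agent.Lib.Helper4_SPE

set_option autoImplicit false
open Cfsg

namespace Cfsg.Agent.S3059

open scoped Pointwise
open Cfsg.Agent.Lib.Helper4_Syl Cfsg.Agent.Lib.Helper4_SPE

theorem result {G : Type*} [Group G] [Finite G]
    (p : ℕ) [Fact p.Prime] (H : Subgroup G) (hH : H ≠ ⊤) (hpH : p ∣ Nat.card H)
    (hse : ∀ g : G, g ∉ H → ¬ p ∣ Nat.card ↥(H ⊓ H.map (MulAut.conj g).toMonoidHom))
    (N : Subgroup G) [N.Normal] (hN : p ∣ Nat.card N) :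
    H ⊔ Subgroup.closure {g : G | g ∈ N ∧ (orderOf g).Coprime p} = ⊤ := by
  have hp : p.Prime := Fact.out
  have hn : NormCond p H := normCond_of_classical hse
  set K := Subgroup.closure {g : G | g ∈ N ∧ (orderOf g).Coprime p} with hK
  have hKn : K.Normal := closure_normal (by
    rintro x ⟨hx, hxo⟩ g
    exact ⟨‹N.Normal›.conj_mem x hx g, by rw [orderOf_conj_eq]; exact hxo⟩)
  obtain ⟨S, hS⟩ := exists_isSylIn p H
  have hStop := hn.isSylIn_top hpH hS
  obtain ⟨P, hP⟩ := hStop.exists_sylow_top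
  -- image of N is a p-group
  have hNp : IsPGroup p (N.map (QuotientGroup.mk' K)) := by
    rintro ⟨y, hy⟩
    obtain ⟨n, hn', rfl⟩ := Subgroup.mem_map.1 hy
    obtain ⟨e, m, hm, hnm⟩ := Nat.exists_eq_pow_mul_and_not_dvd (orderOf_pos n).ne' p hp.ne_one
    refine ⟨e, ?_⟩
    apply Subtype.ext
    rw [SubmonoidClass.mk_pow, OneMemClass.coe_one]
    show (QuotientGroup.mk' K) n ^ p ^ e = 1
    rw [← map_pow, QuotientGroup.mk'_apply, QuotientGroup.eq_one_iff]
    apply Subgroup.subset_closure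
    refine ⟨N.pow_mem hn' _, ?_⟩
    rw [orderOf_pow_of_dvd (pow_ne_zero _ hp.ne_zero) (by rw [hnm]; exact dvd_mul_right _ _), hnm,
      Nat.mul_div_cancel_left _ (pow_pos hp.pos _)]
    exact (Nat.Coprime.symm ((Nat.Prime.coprime_iff_not_dvd hp).2 hm))
  have hNnorm : (N.map (QuotientGroup.mk' K)).Normal :=
    Subgroup.Normal.map inferInstance _ (QuotientGroup.mk'_surjective K)
  have hle := hNp.le_sylow_of_normal (P.mapSurjective (QuotientGroup.mk'_surjective K))
  have hNHK : N ≤ H ⊔ K := by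
    intro n hn'
    have h1 := hle (Subgroup.mem_map_of_mem _ hn')
    rw [← SetLike.mem_coe, Sylow.coe_mapSurjective] at h1
    obtain ⟨u, hu, hun⟩ := h1
    have h2 : u⁻¹ * n ∈ K := by
      rw [← QuotientGroup.eq_one_iff, QuotientGroup.mk_mul, QuotientGroup.mk_inv]
      simp only [QuotientGroup.mk'_apply] at hun
      rw [hun]; simp
    have h3 : u ∈ H := hS.le (hP ▸ hu)
    have : n = u * (u⁻¹ * n) := by group
    rw [this]
    exact (H ⊔ K).mul_mem ((le_sup_left : H ≤ H ⊔ K) h3) ((le_sup_right : K ≤ H ⊔ K) h2)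
  have hR := hStop.inf_normal N
  have hRne := hR.ne_bot_of_dvd hN
  rw [eq_top_iff]
  intro g _
  obtain ⟨n, hn', hng⟩ := frattini hR g (conj_smul_eq_of_normal N g)
  have h4 := hn _ (inf_le_left.trans hS.le) hR.isPGroup hRne hng
  have : g = n * (n⁻¹ * g) := by group
  rw [this]
  exact (H ⊔ K).mul_mem (hNHK hn') ((le_sup_left : H ≤ H ⊔ K) h4)

end Cfsg.Agent.S3059
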