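import Cfsg.Statements.S3061
import Cfsg.Agent.Lib.Helper4_Nilp

set_option autoImplicit false
open Cfsg

namespace Cfsg.Agent.S3061

open scoped commutatorElement
open Cfsg.Agent.Lib.Helper4_Nilp

variable {S : Type*} [Group S]

/-- A member of the family centralizes every normal abelian subgroup. -/
theorem family_le_centralizer [Group.IsNilpotent S] {A M : Subgroup S} (hA : A ∈ dStarFamily S)
    [hMn : M.Normal] (hM : IsMulCommutative ↥M) : M ≤ Subgroup.centralizer (A : Set S) := by
  by_contra hcon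
  obtain ⟨x, hxM, hxA, hx⟩ := exists_comm_mem (Subgroup.centralizer (A : Set S)) A M
    (by rw [Subgroup.normalizer_eq_top]; exact le_top) hcon
  apply hxA
  rw [Subgroup.mem_centralizer_iff]
  have hAc : ∀ a ∈ A, ∀ b ∈ A, a * b = b * a := fun a ha b hb =>
    congrArg Subtype.val (hA.1.is_comm.comm ⟨a, ha⟩ ⟨b, hb⟩)
  have hMc : ∀ a ∈ M, ∀ b ∈ M, a * b = b * a := fun a ha b hb =>
    congrArg Subtype.val (hM.is_comm.comm ⟨a, ha⟩ ⟨b, hb⟩)
  apply hA.2 x
  apply class_two_of_comm (W := M ⊓ Subgroup.centralizer (A : Set S)) hAc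
  · intro a ha
    rw [← commutatorElement_inv]
    apply Subgroup.inv_mem
    refine ⟨?_, hx a ha⟩
    rw [commutatorElement_def, mul_assoc, mul_assoc]
    apply M.mul_mem hxM
    rw [← mul_assoc]
    exact hMn.conj_mem _ (M.inv_mem hxM) a
  · intro w hw a ha
    exact Subgroup.mem_centralizer_iff.1 hw.2 a ha
  · intro w hw
    exact hMc x hxM w hw.1

theorem family_le_of_max [Group.IsNilpotent S] {A M : Subgroup S} (hA : A ∈ dStarFamily S)
    [hMn : M.Normal] (hM : IsMulCommutative ↥M)
    (hmax : ∀ B : Subgroup S, B.Normal → IsMulCommutative ↥B → M ≤ B → B = M) : A ≤ M :=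
  (Subgroup.le_centralizer_iff.1 (family_le_centralizer hA hM)).trans
    (centralizer_le_of_max_normal_abelian M hM hmax)

theorem dStar_le_of_max [Group.IsNilpotent S] {M : Subgroup S}
    [hMn : M.Normal] (hM : IsMulCommutative ↥M)
    (hmax : ∀ B : Subgroup S, B.Normal → IsMulCommutative ↥B → M ≤ B → B = M) : dStar S ≤ M :=
  sSup_le fun _ hA => family_le_of_max hA hM hmax

theorem dStar_mem [Finite S] [Group.IsNilpotent S] : dStar S ∈ dStarFamily S := by
  obtain ⟨M, -, hMn, hMc, hmax⟩ := exists_max_normal_abelian (⊥ : Subgroup S) inferInstance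
    ⟨⟨fun a b => Subsingleton.elim _ _⟩⟩
  have hle : dStar S ≤ M := dStar_le_of_max hMc hmax
  refine ⟨⟨⟨fun a b => Subtype.ext ?_⟩⟩, ?_⟩
  · have := congrArg Subtype.val (hMc.is_comm.comm ⟨(a : S), hle a.2⟩ ⟨(b : S), hle b.2⟩)
    exact this
  · intro x hx
    have h1 : dStar S ≤ Subgroup.centralizer ({x} : Set S) := by
      apply sSup_le
      intro A hA a ha
      rw [Subgroup.mem_centralizer_singleton_iff]
      refine hA.2 x ?_ a ha
      have hle2 : A ⊔ Subgroup.zpowers x ≤ dStar S ⊔ Subgroup.zpowers x :=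
        sup_le_sup_right (le_sSup hA) _
      rw [eq_bot_iff, ← hx]
      exact Subgroup.commutator_mono (Subgroup.commutator_mono hle2 hle2) hle2
    intro a ha
    exact Subgroup.mem_centralizer_singleton_iff.1 (h1 ha)

theorem result {S : Type*} [Group S] [Finite S] {p : ℕ} [Fact p.Prime] (hS : IsPGroup p S) :
    Cfsg.dStar S ∈ Cfsg.dStarFamily S := by
  have : Group.IsNilpotent S := hS.isNilpotent
  exact dStar_mem

end Cfsg.Agent.S3061
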