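import Cfsg.Statements.S3062
import Cfsg.Agent.S3061
import Cfsg.Agent.Lib.Helper4_Thompson

set_option autoImplicit false
open Cfsg

namespace Cfsg.Agent.S3062

open scoped commutatorElement Pointwise
open Cfsg.Agent.Lib.Helper4_Nilp Cfsg.Agent.Lib.Helper4_Thompson Cfsg.Agent.Lib.Helper4_CD

variable {S : Type*} [Group S]

theorem family_map (φ : MulAut S) {A : Subgroup S} (hA : A ∈ dStarFamily S) :
    A.map φ.toMonoidHom ∈ dStarFamily S := by
  have := hA.1
  refine ⟨Subgroup.map_isMulCommutative A _, ?_⟩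
  intro x hx
  have e : A.map φ.toMonoidHom ⊔ Subgroup.zpowers x =
      (A ⊔ Subgroup.zpowers (φ.symm x)).map φ.toMonoidHom := by
    rw [Subgroup.map_sup, MonoidHom.map_zpowers]
    simp
  rw [e, ← Subgroup.map_commutator, ← Subgroup.map_commutator,
    Subgroup.map_eq_bot_iff_of_injective _ φ.injective] at hx
  rintro _ ⟨a, ha, rfl⟩
  have h1 := hA.2 _ hx a ha
  have h2 := congrArg φ h1
  simpa using h2

theorem dStar_normal : (dStar S).Normal := by
  constructor
  intro n hn g
  have h : (dStar S).map (MulAut.conj g).toMonoidHom ≤ dStar S := by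
    unfold dStar
    rw [Subgroup.map_le_iff_le_comap]
    apply sSup_le
    intro A hA
    rw [← Subgroup.map_le_iff_le_comap]
    exact le_sSup (family_map _ hA)
  exact h ⟨n, hn, rfl⟩

theorem result {S : Type*} [Group S] [Finite S] {p : ℕ} [Fact p.Prime]
    (hS : IsPGroup p S) :
    Subgroup.center S ≤ Cfsg.dStar S ∧
    Cfsg.dStar S ≤ Cfsg.thompsonSubgroupA S ⊓ Subgroup.centralizer (Cfsg.thompsonSubgroupA S : Set S) ∧
    ∀ A : Subgroup S, A.Normal → IsMulCommutative A →
      (∀ B : Subgroup S, B.Normal → IsMulCommutative B → A ≤ B → B = A) → Cfsg.dStar S ≤ A := by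
  have hnil : Group.IsNilpotent S := hS.isNilpotent
  have hDn : (dStar S).Normal := dStar_normal
  have hDm : dStar S ∈ dStarFamily S := Cfsg.Agent.S3061.dStar_mem
  refine ⟨?_, ?_, ?_⟩
  · apply le_sSup
    refine ⟨inferInstance, ?_⟩
    intro x _ a ha
    exact (Subgroup.mem_center_iff.1 ha x).symm
  · have hDc : ∀ a ∈ dStar S, ∀ b ∈ dStar S, a * b = b * a := fun a ha b hb =>
      congrArg Subtype.val (hDm.1.is_comm.comm ⟨a, ha⟩ ⟨b, hb⟩)
    have key : ∀ E : Subgroup S, E ∈ maxAbelianSubgroups S → dStar S ≤ E := by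
      intro E hE
      apply le_maxAb_of_no_quadratic hDm.1 _ hE
      intro E hEc hDE y hy
      rw [Subgroup.mem_centralizer_iff]
      apply hDm.2 y
      apply class_two_of_comm (W := dStar S ⊓ E) hDc
      · intro d hd
        refine ⟨?_, ?_⟩
        · rw [commutatorElement_def, mul_assoc, mul_assoc]
          apply Subgroup.mul_mem _ hd
          rw [← mul_assoc]
          exact hDn.conj_mem _ (Subgroup.inv_mem _ hd) y
        · rw [commutatorElement_def]
          exact E.mul_mem ((Subgroup.mem_normalizer_iff.1 (hDE hd) y).1 hy) (E.inv_mem hy)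
      · intro w hw a ha
        exact hDc a ha w hw.1
      · intro w hw
        exact congrArg Subtype.val (hEc.is_comm.comm ⟨y, hy⟩ ⟨w, hw.2⟩)
    obtain ⟨E₀, hE₀⟩ := exists_maxAb (G := S)
    refine le_inf ((key E₀ hE₀).trans (le_sSup hE₀)) ?_
    rw [Subgroup.le_centralizer_iff]
    apply sSup_le
    intro E hE
    rw [Subgroup.le_centralizer_iff]
    exact (key E hE).trans ((isComm_iff E).1 hE.1)
  · intro A hAn hAc hmax
    exact Cfsg.Agent.S3061.dStar_le_of_max hAc hmax

end Cfsg.Agent.S3062
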