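import Cfsg.Statements.S3078
import Cfsg.Agent.Lib.Helper4_Repl

set_option autoImplicit false
open Cfsg

namespace Cfsg.Agent.S3078

open Cfsg.Agent.Lib.Helper4_Repl
open scoped commutatorElement

theorem mem_omegaOne_iff {G : Type*} [Group G] {p : ℕ} {A : Subgroup G}
    (hA : ∀ x ∈ A, ∀ y ∈ A, x * y = y * x) {x : G} :
    x ∈ Cfsg.omegaOne p A ↔ x ∈ A ∧ x ^ p = 1 := by
  constructor
  · intro hx
    unfold Cfsg.omegaOne at hx
    induction hx using Subgroup.closure_induction with
    | mem x hx => exact hx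
    | one => exact ⟨A.one_mem, one_pow p⟩
    | mul x y _ _ ihx ihy =>
      exact ⟨A.mul_mem ihx.1 ihy.1, by
        rw [(show Commute x y from hA x ihx.1 y ihy.1).mul_pow, ihx.2, ihy.2, one_mul]⟩
    | inv x _ ih => exact ⟨A.inv_mem ih.1, by rw [inv_pow, ih.2, inv_one]⟩
  · intro hx
    exact Subgroup.subset_closure hx

/-- A replacement Theorem for abelian subgroups of p-groups, p odd. Let G be a finite p-group with p odd, A an abelian subgroup of G, and B a subgroup of nilpotency class at most 2 with [B, B] ≤ A, such that A normalizes B but B does not normalize A. Then there is an abelian subgroup A* of G of the same order as A with A ∩ B strictly contained in A* ∩ B, A* contained in N_G(A) and in the normal closure of A, the exponent of A* dividing the exponent of A, and with the subgroup generated by the elements of order dividing p in A of order at most that of the corresponding subgroup of A* (the rank of A is at most the rank of A*). -/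
theorem result {G : Type*} [Group G] [Finite G] {p : ℕ} [Fact p.Prime] (hp : p ≠ 2) (hG : IsPGroup p G) (A B : Subgroup G) (hA : IsMulCommutative A) (hB2 : ⁅⁅B, B⁆, B⁆ = ⊥) (hBA : ⁅B, B⁆ ≤ A) (hAB : A ≤ Subgroup.normalizer (B : Set G)) (hBnA : ¬ B ≤ Subgroup.normalizer (A : Set G)) : ∃ Astar : Subgroup G, IsMulCommutative Astar ∧ Nat.card Astar = Nat.card A ∧ A ⊓ B < Astar ⊓ B ∧ Astar ≤ Subgroup.normalizer (A : Set G) ∧ Astar ≤ Subgroup.normalClosure (A : Set G) ∧ Monoid.exponent Astar ∣ Monoid.exponent A ∧ Nat.card (Cfsg.omegaOne p A) ≤ Nat.card (Cfsg.omegaOne p Astar) := by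
  have hAc : ∀ x ∈ A, ∀ y ∈ A, x * y = y * x := fun x hx y hy =>
    congrArg Subtype.val (hA.is_comm.comm ⟨x, hx⟩ ⟨y, hy⟩)
  obtain ⟨b, hd⟩ := exists_replData (p := p) hAc (hG.to_subgroup _) hAB hBA hBnA
  have hAp : IsPGroup p A := hG.to_subgroup A
  have hc := hd.comm_odd hp hAp
  have hodd : Odd p := (Fact.out : p.Prime).odd_of_ne_two hp
  refine ⟨Astar A b, hc, hd.card_eq hc, hd.inf_lt, hd.rs.Astar_le_normalizer, ?_, ?_, ?_⟩
  · refine hd.rs.Astar_le.trans (sup_le Subgroup.le_normalClosure ?_)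
    rintro _ ⟨a, ha, rfl⟩
    exact (Subgroup.normalClosure_normal).conj_mem a (Subgroup.le_normalClosure ha) b⁻¹
  · apply Monoid.exponent_dvd_of_forall_pow_eq_one
    intro g
    apply Subtype.ext
    rw [Subgroup.coe_pow, Subgroup.coe_one]
    apply hd.rs.Astar_pow hc _ _ g g.2
    · obtain ⟨k, hk⟩ := (IsPGroup.iff_card.1 hAp)
      have h1 : Monoid.exponent A ∣ p ^ k := hk ▸ Group.exponent_dvd_nat_card
      exact Odd.of_dvd_nat (hodd.pow) h1
    · intro a ha
      have := Monoid.pow_exponent_eq_one (⟨a, ha⟩ : A)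
      have h2 := congrArg Subtype.val this
      rwa [Subgroup.coe_pow, Subgroup.coe_one] at h2
  · set A₁ := Cfsg.omegaOne p A with hA₁
    have hm : ∀ x, x ∈ A₁ ↔ x ∈ A ∧ x ^ p = 1 := fun x => mem_omegaOne_iff hAc
    have hA₁A : A₁ ≤ A := fun x hx => ((hm x).1 hx).1
    have hNN : Subgroup.normalizer (A : Set G) ≤ Subgroup.normalizer (A₁ : Set G) := by
      intro g hg
      rw [Cfsg.Agent.Lib.Helper3_Local.mem_normalizer_iff_conj_le]
      intro x hx
      rw [hm] at hx ⊢
      exact ⟨(Subgroup.mem_normalizer_iff.1 hg x).1 hx.1, by rw [conj_pow, hx.2]; group⟩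
    have hrs : RS A₁ b := ⟨fun x hx y hy => hAc x (hA₁A hx) y (hA₁A hy),
      fun a ha => hNN (hd.rs.h1 a (hA₁A ha)), fun a ha => hNN (hd.rs.h2 a (hA₁A ha))⟩
    have hle : Astar A₁ b ≤ Astar A b := by
      apply sup_le_sup
      · exact inf_le_inf hA₁A (Subgroup.map_mono hA₁A)
      · apply Subgroup.closure_mono
        rintro _ ⟨a, ha, rfl⟩
        exact ⟨a, hA₁A ha, rfl⟩
    have hc₁ : IsMulCommutative (Astar A₁ b) := Cfsg.Agent.Lib.Helper4_CD.comm_of_le hc hle
    have h5 := hd.rs.h5_of_h3 hd.h3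
    have hcard : Nat.card (Astar A₁ b) = Nat.card A₁ := by
      apply hrs.card_Astar hc₁
      intro a ha h
      rw [hm] at ha h ⊢
      exact ⟨h5 a ha.1 h.1, by rw [conj_pow, ha.2]; group⟩
    rw [← hcard]
    apply Subgroup.card_le_of_le
    intro x hx
    exact Subgroup.subset_closure ⟨hle hx, hrs.Astar_pow hc₁ hodd (fun a ha => ((hm a).1 ha).2) x hx⟩

end Cfsg.Agent.S3078
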