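import Cfsg.Statements.S3087
import Mathlib

set_option autoImplicit false
open Cfsg

namespace Cfsg.Agent.S3087



/-- Let p be a prime, G a finite group acting linearly on a finite vector space V over the field with p elements, W a G-invariant subspace, and A a subgroup of G with |A|·|C_V(A)| ≥ |B|·|C_V(B)| for every subgroup B of A. Then |A|·|C_W(A)| ≥ |B|·|C_W(B)| for every subgroup B of A that contains C_A(W); that is, the image of A in the group induced on W satisfies the same maximality condition. -/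
theorem result {G V : Type*} [Group G] [Finite G] [AddCommGroup V] [Finite V] (p : ℕ) [Fact p.Prime] [Module (ZMod p) V]
    (ρ : Representation (ZMod p) G V) (W : Submodule (ZMod p) V) (hW : ∀ g : G, ∀ w ∈ W, ρ g w ∈ W)
    (A : Subgroup G)
    (hP : ∀ B : Subgroup G, B ≤ A →
      Nat.card ↥B * Nat.card {v : V // ∀ b ∈ B, ρ b v = v} ≤ Nat.card ↥A * Nat.card {v : V // ∀ a ∈ A, ρ a v = v})
    (B : Subgroup G) (hBA : B ≤ A) (hCB : ∀ a ∈ A, (∀ w ∈ W, ρ a w = w) → a ∈ B) :
    Nat.card ↥B * Nat.card {w : W // ∀ b ∈ B, ρ b w = w} ≤ Nat.card ↥A * Nat.card {w : W // ∀ a ∈ A, ρ a w = w} := by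
  have hp : p.Prime := Fact.out
  let Fx : Subgroup G → Submodule (ZMod p) V := fun B =>
    { carrier := {v | ∀ b ∈ B, ρ b v = v}
      add_mem' := by
        intro u v hu hv b hb
        rw [map_add, hu b hb, hv b hb]
      zero_mem' := by
        intro b _
        exact map_zero _
      smul_mem' := by
        intro c v hv b hb
        rw [map_smul, hv b hb] }
  have hcardV : ∀ B : Subgroup G, Nat.card {v : V // ∀ b ∈ B, ρ b v = v} = Nat.card ↥(Fx B) :=
    fun B => Nat.card_congr (Equiv.subtypeEquivRight (fun v => Iff.rfl))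
  have hcardW : ∀ B : Subgroup G, Nat.card {w : W // ∀ b ∈ B, ρ b w = w} =
      Nat.card ↥(W ⊓ Fx B) := fun B => Nat.card_congr
    { toFun := fun w => ⟨w.1.1, w.1.2, w.2⟩
      invFun := fun v => ⟨⟨v.1, v.2.1⟩, v.2.2⟩
      left_inv := fun _ => rfl
      right_inv := fun _ => rfl }
  have hpow : ∀ X : Submodule (ZMod p) V, Nat.card ↥X = p ^ Module.finrank (ZMod p) ↥X := by
    intro X
    haveI : Fintype ↥X := Fintype.ofFinite _
    rw [Nat.card_eq_fintype_card, Module.card_eq_pow_finrank (K := ZMod p) (V := ↥X), ZMod.card]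
  have hmono : Fx A ≤ Fx B := fun v hv b hb => hv b (hBA hb)
  have h1 := hP B hBA
  rw [hcardV, hcardV] at h1
  rw [hcardW, hcardW]
  have h2 : Nat.card ↥(W ⊓ Fx B) * Nat.card ↥(Fx A) ≤ Nat.card ↥(Fx B) * Nat.card ↥(W ⊓ Fx A) := by
    rw [hpow, hpow, hpow, hpow, ← pow_add, ← pow_add]
    apply Nat.pow_le_pow_right hp.pos
    have e := Submodule.finrank_sup_add_finrank_inf_eq (W ⊓ Fx B) (Fx A)
    have l1 : Module.finrank (ZMod p) ↥((W ⊓ Fx B) ⊔ Fx A) ≤ Module.finrank (ZMod p) ↥(Fx B) :=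
      Submodule.finrank_mono (sup_le inf_le_right hmono)
    have l2 : Module.finrank (ZMod p) ↥((W ⊓ Fx B) ⊓ Fx A) ≤ Module.finrank (ZMod p) ↥(W ⊓ Fx A) :=
      Submodule.finrank_mono (le_inf (inf_le_left.trans inf_le_left) inf_le_right)
    omega
  have hpos : 0 < Nat.card ↥(Fx A) := Nat.card_pos
  apply Nat.le_of_mul_le_mul_right _ hpos
  calc Nat.card ↥B * Nat.card ↥(W ⊓ Fx B) * Nat.card ↥(Fx A)
      = Nat.card ↥B * (Nat.card ↥(W ⊓ Fx B) * Nat.card ↥(Fx A)) := by ring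
    _ ≤ Nat.card ↥B * (Nat.card ↥(Fx B) * Nat.card ↥(W ⊓ Fx A)) := Nat.mul_le_mul_left _ h2
    _ = (Nat.card ↥B * Nat.card ↥(Fx B)) * Nat.card ↥(W ⊓ Fx A) := by ring
    _ ≤ (Nat.card ↥A * Nat.card ↥(Fx A)) * Nat.card ↥(W ⊓ Fx A) := Nat.mul_le_mul_right _ h1
    _ = Nat.card ↥A * Nat.card ↥(W ⊓ Fx A) * Nat.card ↥(Fx A) := by ring

end Cfsg.Agent.S3087
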