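import Mathlib
import Cfsg.Statements.S3155

set_option autoImplicit false
open Cfsg

namespace Cfsg.Agent.S3155

/-- Let B be the direct product of three cyclic groups of order 4. Then the automorphism of B inverting every element is not the square of any automorphism of B. -/
theorem result {B : Type*} [CommGroup B] [Finite B] (hB : Nonempty (B ≃* Multiplicative (ZMod 4 × ZMod 4 × ZMod 4)))
    (τ : B ≃* B) : τ.trans τ ≠ MulEquiv.inv B := by
  intro hτ
  have : Fact (1 < 4) := ⟨by norm_num⟩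
  obtain ⟨e⟩ := hB
  let σ : Multiplicative (ZMod 4 × ZMod 4 × ZMod 4) ≃* Multiplicative (ZMod 4 × ZMod 4 × ZMod 4) :=
    (e.symm.trans τ).trans e
  have hσ : ∀ w, σ (σ w) = w⁻¹ := by
    intro w
    have h1 : τ (τ (e.symm w)) = (e.symm w)⁻¹ := by
      have := congrArg (fun φ : B ≃* B => φ (e.symm w)) hτ
      simpa using this
    show e (τ (e.symm (e (τ (e.symm w))))) = w⁻¹
    rw [e.symm_apply_apply, h1, map_inv, e.apply_symm_apply]
  let f : (ZMod 4 × ZMod 4 × ZMod 4) ≃+ (ZMod 4 × ZMod 4 × ZMod 4) :=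
    AddEquiv.toMultiplicative.symm σ
  have hf : ∀ v, f (f v) = -v := by
    intro v
    exact congrArg Multiplicative.toAdd (hσ (Multiplicative.ofAdd v))
  let F : (ZMod 4 × ZMod 4 × ZMod 4) →ₗ[ZMod 4] (ZMod 4 × ZMod 4 × ZMod 4) :=
    (f : (ZMod 4 × ZMod 4 × ZMod 4) →+ (ZMod 4 × ZMod 4 × ZMod 4)).toZModLinearMap 4
  have hF : F ∘ₗ F = (-1 : ZMod 4) • LinearMap.id := by
    apply LinearMap.ext
    intro v
    show f (f v) = (-1 : ZMod 4) • v
    rw [hf, neg_smul, one_smul]
  have hdet := congrArg LinearMap.det hF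
  rw [LinearMap.det_comp, LinearMap.det_smul, LinearMap.det_id] at hdet
  have hrank : Module.finrank (ZMod 4) (ZMod 4 × ZMod 4 × ZMod 4) = 3 := by
    rw [Module.finrank_prod, Module.finrank_prod, Module.finrank_self]
  rw [hrank] at hdet
  have key : ∀ u : ZMod 4, u * u ≠ (-1) ^ 3 * 1 := by decide
  exact key _ hdet

end Cfsg.Agent.S3155
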