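import Mathlib
import Cfsg.Agent.Lib.helper6_Sylow
import Cfsg.Statements.S3180

set_option autoImplicit false
open Cfsg

namespace Cfsg.Agent.S3180

/-- Let P be a Sylow p-subgroup of a finite group J and P₁ a subgroup of P that is weakly closed in P with respect to J. If J acts on a set and two points, each fixed by every element of P₁, lie in one J-orbit, then they lie in one orbit of the normalizer of P₁ in J. -/
theorem result {J : Type*} [Group J] [Finite J]
    {p : ℕ} [Fact p.Prime] (P : Sylow p J) (P₁ : Subgroup J) (hW : Cfsg.IsWeaklyClosed P₁ (P : Subgroup J))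
    {Ω : Type*} [MulAction J Ω] (x y : Ω) (hx : ∀ g ∈ P₁, g • x = x) (hy : ∀ g ∈ P₁, g • y = y)
    (hc : ∃ g : J, g • x = y) :
    ∃ g ∈ Subgroup.normalizer (P₁ : Set J), g • x = y := by
  obtain ⟨g, hg⟩ := hc
  obtain ⟨hle, hwc⟩ := hW
  have hP₁ : IsPGroup p P₁ := P.2.to_le hle
  -- elementwise form of weak closure
  have wc : ∀ k : J, (∀ a ∈ P₁, k * a * k⁻¹ ∈ (P : Subgroup J)) →
      k ∈ Subgroup.normalizer (P₁ : Set J) := by
    intro k hk
    rw [Subgroup.mem_normalizer_iff_map_conj_eq]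
    apply hwc k
    rintro _ ⟨a, ha, rfl⟩
    exact hk a ha
  set B : Subgroup J := P₁.map (MulAut.conj g).toMonoidHom with hB
  have hBp : IsPGroup p B := hP₁.map _
  have hAH : P₁ ≤ MulAction.stabilizer J y := fun a ha => hy a ha
  have hBH : B ≤ MulAction.stabilizer J y := by
    rintro _ ⟨a, ha, rfl⟩
    rw [MulAction.mem_stabilizer_iff]
    show (g * a * g⁻¹) • y = y
    rw [← hg, mul_smul, mul_smul, inv_smul_smul, hx a ha]
  obtain ⟨h, hh, P', hAP', hBP'⟩ :=
    Cfsg.Agent.Lib.helper6_Sylow.exists_conj_common_sylow (MulAction.stabilizer J y) P₁ B hP₁ hBp hAH hBH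
  obtain ⟨k, hk⟩ := Cfsg.Agent.Lib.helper6_Sylow.sylow_conj P P'
  have h1 : k ∈ Subgroup.normalizer (P₁ : Set J) := wc k (fun a ha => hk a (hAP' ha))
  have h2 : k * h * g ∈ Subgroup.normalizer (P₁ : Set J) := by
    apply wc
    intro a ha
    have := hk _ (hBP' (g * a * g⁻¹) ⟨a, ha, rfl⟩)
    convert this using 1
    group
  refine ⟨h * g, ?_, ?_⟩
  · have := (Subgroup.normalizer (P₁ : Set J)).mul_mem ((Subgroup.normalizer (P₁ : Set J)).inv_mem h1) h2
    convert this using 1
    group
  · rw [mul_smul, hg]; exact hh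

end Cfsg.Agent.S3180
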