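import Mathlib
import Cfsg.Agent.Lib.helper6_Sylow
import Cfsg.Statements.S3183

set_option autoImplicit false
open Cfsg

namespace Cfsg.Agent.S3183

open Cfsg.Agent.Lib.helper6_Sylow

theorem card_le_sylow {G : Type*} [Group G] [Finite G] {p : ℕ} [Fact p.Prime] (P : Subgroup G)
    (hP : IsPGroup p P) (S : Sylow p G) : Nat.card P ≤ Nat.card S := by
  obtain ⟨Q, hQ⟩ := hP.exists_le_sylow
  have h1 : Nat.card P ≤ Nat.card Q := Subgroup.card_le_of_le hQ
  have h2 : Nat.card Q = Nat.card S := by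
    rw [Sylow.card_eq_multiplicity, Sylow.card_eq_multiplicity]
  exact h2 ▸ h1

theorem partA {G : Type*} [Group G] [Finite G]
    (hCI : ∀ S T : Sylow 2 G, S ≠ T → ∃ U : Sylow 2 G,
      (S : Subgroup G) ⊓ (T : Subgroup G) ≤
        (Subgroup.center ↥(U : Subgroup G)).map (U : Subgroup G).subtype)
    (S : Sylow 2 G) (x : G) (hx : x ∈ (S : Subgroup G)) (P : Subgroup G) (hP : IsPGroup 2 ↥P)
    (hPC : P ≤ Subgroup.centralizer ({x} : Set G)) :
    Nat.card ↥P ≤ Nat.card ↥((S : Subgroup G) ⊓ Subgroup.centralizer ({x} : Set G)) := by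
  classical
  have := Fact.mk Nat.prime_two
  by_contra hlt
  push Not at hlt
  set R := (S : Subgroup G) ⊓ Subgroup.centralizer ({x} : Set G) with hR
  have hRS : R ≤ S := inf_le_left
  have hRp : IsPGroup 2 R := S.2.to_le hRS
  have hxR : x ∈ R := ⟨hx, Subgroup.mem_centralizer_singleton_iff.2 rfl⟩
  obtain ⟨h, hh, T, hRT, hPT⟩ :=
    exists_conj_common_sylow (Subgroup.centralizer ({x} : Set G)) R P hRp hP inf_le_right hPC
  have hTS : S ≠ T := by
    rintro rfl
    -- then the conjugate of P lies in R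
    have hle : P.map (MulAut.conj h).toMonoidHom ≤ R := by
      rintro _ ⟨b, hb, rfl⟩
      refine ⟨hPT b hb, ?_⟩
      exact Subgroup.mul_mem _ (Subgroup.mul_mem _ hh (hPC hb)) (Subgroup.inv_mem _ hh)
    have h1 := Subgroup.card_le_of_le hle
    rw [Subgroup.card_map_of_injective (MulAut.conj h).injective] at h1
    omega
  obtain ⟨U, hU⟩ := hCI S T hTS
  have hUR : ∀ v ∈ (U : Subgroup G), ∀ r ∈ R, v * r = r * v := by
    intro v hv r hr
    obtain ⟨u, hu, rfl⟩ := hU ⟨hRS hr, hRT hr⟩
    exact congrArg Subtype.val ((Subgroup.mem_center_iff.1 hu) ⟨v, hv⟩)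
  have hUN : (U : Subgroup G) ≤ Subgroup.normalizer (R : Set G) := by
    intro v hv
    rw [Subgroup.mem_normalizer_iff]
    intro r
    constructor
    · intro hr
      rw [hUR v hv r hr, mul_assoc, mul_inv_cancel, mul_one]; exact hr
    · intro hr
      have := hUR v hv _ hr
      have e : v * r = r * v := by
        have e1 : v * (v * r * v⁻¹) = v * r * v⁻¹ * v := this
        have e2 : v * r * v⁻¹ * v = v * r := by group
        rw [e2] at e1
        have e3 := mul_left_cancel e1
        exact (mul_inv_eq_iff_eq_mul.1 e3)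
      have : v * r * v⁻¹ = r := by rw [e]; group
      rwa [this] at hr
  -- N_S(R) ≤ R
  have hNS : (S : Subgroup G) ⊓ Subgroup.normalizer (R : Set G) ≤ R := by
    intro n hn
    refine Subgroup.mem_inf.2 ⟨hn.1, ?_⟩
    obtain ⟨k, hk, Q, hUQ, hnQ⟩ := exists_conj_common_sylow (Subgroup.normalizer (R : Set G))
      (U : Subgroup G) ((S : Subgroup G) ⊓ Subgroup.normalizer (R : Set G)) U.2
      (S.2.to_le inf_le_left) hUN inf_le_right
    have hQU : (Q : Subgroup G) = U := U.is_maximal' Q.2 hUQ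
    have h1 : k * n * k⁻¹ ∈ (U : Subgroup G) := hQU ▸ hnQ n hn
    have h2 : k * x * k⁻¹ ∈ R := (Subgroup.mem_normalizer_iff.1 hk x).1 hxR
    have h3 := hUR _ h1 _ h2
    rw [Subgroup.mem_centralizer_singleton_iff]
    have h4 : k * (n * x) * k⁻¹ = k * (x * n) * k⁻¹ := by
      calc k * (n * x) * k⁻¹ = (k * n * k⁻¹) * (k * x * k⁻¹) := by group
        _ = (k * x * k⁻¹) * (k * n * k⁻¹) := h3
        _ = k * (x * n) * k⁻¹ := by group
    exact mul_left_cancel (mul_right_cancel h4)
  by_cases hdiv : 2 ∣ R.relIndex S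
  · obtain ⟨K, hRK, hKS, hKN, hcard⟩ := exists_normalizing_overgroup R S hRp hRS hdiv
    have := Subgroup.card_le_of_le ((le_inf hKS hKN).trans hNS)
    have hpos : 0 < Nat.card R := Nat.card_pos
    omega
  · have h1 := card_mul_relIndex hRS
    obtain ⟨m, hm⟩ := IsPGroup.iff_card.1 S.2
    have h2 : R.relIndex S ∣ 2 ^ m := hm ▸ Dvd.intro_left _ h1
    obtain ⟨j, -, hj⟩ := (Nat.dvd_prime_pow Nat.prime_two).1 h2
    have hj0 : j = 0 := by
      by_contra hne
      apply hdiv
      rw [hj]
      exact dvd_pow_self 2 hne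
    rw [hj, hj0, pow_zero, mul_one] at h1
    have := card_le_sylow P hP S
    omega

theorem mem_center_of {G : Type*} [Group G] [Finite G]
    (hCI : ∀ S T : Sylow 2 G, S ≠ T → ∃ U : Sylow 2 G,
      (S : Subgroup G) ⊓ (T : Subgroup G) ≤
        (Subgroup.center ↥(U : Subgroup G)).map (U : Subgroup G).subtype)
    (S U : Sylow 2 G) (x : G) (hx : x ∈ (S : Subgroup G))
    (hUC : (U : Subgroup G) ≤ Subgroup.centralizer ({x} : Set G)) :
    x ∈ (Subgroup.center ↥(S : Subgroup G)).map (S : Subgroup G).subtype := by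
  have := Fact.mk Nat.prime_two
  have h1 := partA hCI S x hx U U.2 hUC
  have h2 : Nat.card U = Nat.card S := by
    rw [Sylow.card_eq_multiplicity, Sylow.card_eq_multiplicity]
  have h3 : (S : Subgroup G) ⊓ Subgroup.centralizer ({x} : Set G) = S :=
    Subgroup.eq_of_le_of_card_ge inf_le_left (h2 ▸ h1)
  have h4 : (S : Subgroup G) ≤ Subgroup.centralizer ({x} : Set G) := by
    rw [← h3]; exact inf_le_right
  refine Subgroup.mem_map.2 ⟨⟨x, hx⟩, ?_, rfl⟩
  rw [Subgroup.mem_center_iff]
  intro s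
  apply Subtype.ext
  exact Subgroup.mem_centralizer_singleton_iff.1 (h4 s.2)

/-- Let G be a finite group in which the intersection of any two distinct Sylow 2-subgroups is contained in the centre of some Sylow 2-subgroup, and let S be a Sylow 2-subgroup. Then for every x in S the centralizer of x in S is a Sylow 2-subgroup of the centralizer of x in G (no 2-subgroup centralizing x is larger), and for every other Sylow 2-subgroup T the intersection S ∩ T lies in both the centre of S and the centre of T. -/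
theorem result {G : Type*} [Group G] [Finite G]
    (hCI : ∀ S T : Sylow 2 G, S ≠ T → ∃ U : Sylow 2 G,
      (S : Subgroup G) ⊓ (T : Subgroup G) ≤ (Subgroup.center ↥(U : Subgroup G)).map (U : Subgroup G).subtype)
    (S : Sylow 2 G) :
    (∀ x ∈ (S : Subgroup G), ∀ P : Subgroup G, IsPGroup 2 ↥P → P ≤ Subgroup.centralizer ({x} : Set G) →
        Nat.card ↥P ≤ Nat.card ↥((S : Subgroup G) ⊓ Subgroup.centralizer ({x} : Set G))) ∧
    (∀ T : Sylow 2 G, T ≠ S →
        (S : Subgroup G) ⊓ (T : Subgroup G) ≤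
          (Subgroup.center ↥(S : Subgroup G)).map (S : Subgroup G).subtype ⊓
            (Subgroup.center ↥(T : Subgroup G)).map (T : Subgroup G).subtype) := by
  refine ⟨fun x hx P hP hPC => partA hCI S x hx P hP hPC, ?_⟩
  intro T hTS x hx
  obtain ⟨U, hU⟩ := hCI S T hTS.symm
  obtain ⟨u, hu, rfl⟩ := hU hx
  have hUC : (U : Subgroup G) ≤ Subgroup.centralizer ({(u : G)} : Set G) := by
    intro v hv
    rw [Subgroup.mem_centralizer_singleton_iff]
    exact congrArg Subtype.val ((Subgroup.mem_center_iff.1 hu) ⟨v, hv⟩)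
  exact ⟨mem_center_of hCI S U u hx.1 hUC, mem_center_of hCI T U u hx.2 hUC⟩

end Cfsg.Agent.S3183
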