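import Mathlib
import Cfsg.Agent.Lib.Helper7_ZStar
import Cfsg.Agent.Lib.helper6_QuatInv
import Cfsg.Agent.Lib.helper6_Cyclic
import Cfsg.Agent.Lib.Helper7_Max
import Cfsg.Statements.S3184

set_option autoImplicit false
open Cfsg

namespace Cfsg.Agent.S3184

open Subgroup Cfsg.Agent.Lib.helper6_Sylow Cfsg.Agent.Lib.helper6_Cyclic
  Cfsg.Agent.Lib.helper6_QuatInv

section aux

variable {G : Type*} [Group G] [Finite G]

/-- two involutions of a cyclic group are equal -/
theorem invol_unique_cyclic {A : Type*} [Group A] [Finite A] [IsCyclic A] {a b : A}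
    (ha : orderOf a = 2) (hb : orderOf b = 2) : a = b := by
  have h1 : b ∈ zpowers a := mem_zpowers_of_pow_orderOf a b (by rw [ha, ← hb, pow_orderOf_eq_one])
  have hfin : IsOfFinOrder a := isOfFinOrder_of_finite a
  rw [← hfin.mem_powers_iff_mem_zpowers, Submonoid.mem_powers_iff] at h1
  obtain ⟨k, rfl⟩ := h1
  rcases Nat.even_or_odd' k with ⟨j, rfl | rfl⟩
  · exfalso
    have : a ^ (2 * j) = 1 := by rw [pow_mul, ← ha, pow_orderOf_eq_one, one_pow]
    rw [this, orderOf_one] at hb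
    omega
  · have : a ^ (2 * j) = 1 := by rw [pow_mul, ← ha, pow_orderOf_eq_one, one_pow]
    rw [pow_succ, this, one_mul]

theorem norm_fix (S : Sylow 2 G) (C : Subgroup ↥(S : Subgroup G)) (hCc : IsCyclic ↥C)
    (hCh : C.Characteristic) (c : ↥(S : Subgroup G)) (hc : c ∈ C) (hc2 : orderOf c = 2)
    {n : G} (hn : n ∈ normalizer ((S : Subgroup G) : Set G)) : n * (c : G) * n⁻¹ = c := by
  have hA : C.map (S : Subgroup G).subtype ≤ (S : Subgroup G) := by
    rintro _ ⟨d, -, rfl⟩; exact d.2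
  have hch : ((C.map (S : Subgroup G).subtype).subgroupOf (S : Subgroup G)).Characteristic := by
    have : (C.map (S : Subgroup G).subtype).subgroupOf (S : Subgroup G) = C :=
      Subgroup.comap_map_eq_self_of_injective (Subgroup.subtype_injective _) C
    rw [this]; exact hCh
  obtain ⟨d, hd, hde⟩ := conj_mem_of_char hA hch hn (a := (c : G)) ⟨c, hc, rfl⟩
  have hde' : (d : G) = n * (c : G) * n⁻¹ := hde
  have od : orderOf d = 2 := by
    rw [← Subgroup.orderOf_coe, hde', orderOf_conj', Subgroup.orderOf_coe, hc2]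
  have h1 : (⟨d, hd⟩ : C) = ⟨c, hc⟩ := by
    apply invol_unique_cyclic
    · rw [← Subgroup.orderOf_coe]; exact od
    · rw [← Subgroup.orderOf_coe]; exact hc2
  have h2 : d = c := congrArg Subtype.val h1
  rw [← hde', h2]

/-- well-definedness of the distinguished involution of a Sylow subgroup -/
theorem well_def (S : Sylow 2 G) (c : G)
    (hN : ∀ n ∈ normalizer ((S : Subgroup G) : Set G), n * c * n⁻¹ = c) {k k' : G}
    (h : k • S = k' • S) : k * c * k⁻¹ = k' * c * k'⁻¹ := by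
  have h1 : (k'⁻¹ * k) • S = S := by rw [mul_smul, h, inv_smul_smul]
  have h2 := hN _ (Sylow.smul_eq_iff_mem_normalizer.1 h1)
  have h3 : k * c * k⁻¹ = k' * ((k'⁻¹ * k) * c * (k'⁻¹ * k)⁻¹) * k'⁻¹ := by group
  rw [h3, h2]

theorem sylow_eq_of_le {P Q : Sylow 2 G} (h : (P : Subgroup G) ≤ Q) : P = Q :=
  Sylow.ext (P.is_maximal' Q.2 h).symm

theorem smul_eq_of_conj_mem {S P : Sylow 2 G} {h : G}
    (hh : ∀ b ∈ (S : Subgroup G), h * b * h⁻¹ ∈ (P : Subgroup G)) : h • S = P := by
  apply sylow_eq_of_le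
  intro z hz
  rw [Sylow.coe_subgroup_smul] at hz
  obtain ⟨b, hb, rfl⟩ := hz
  exact hh b hb

/-- A 2-subgroup `A` and a Sylow subgroup `S₀`, both centralized by `d`. -/
theorem exists_sylow_centralized (S₀ : Sylow 2 G) (d : G) (hd : ∀ s ∈ (S₀ : Subgroup G), s * d = d * s)
    (A : Subgroup G) (hA : IsPGroup 2 A) (hAd : ∀ a ∈ A, a * d = d * a) :
    ∃ h : G, h * d = d * h ∧ A ≤ ((h • S₀ : Sylow 2 G) : Subgroup G) := by
  have h1 : A ≤ centralizer ({d} : Set G) := fun a ha =>
    Subgroup.mem_centralizer_singleton_iff.2 (hAd a ha)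
  have h2 : (S₀ : Subgroup G) ≤ centralizer ({d} : Set G) := fun a ha =>
    Subgroup.mem_centralizer_singleton_iff.2 (hd a ha)
  obtain ⟨h, hh, P, hAP, hSP⟩ := exists_conj_common_sylow _ A (S₀ : Subgroup G) hA S₀.2 h1 h2
  refine ⟨h, Subgroup.mem_centralizer_singleton_iff.1 hh, ?_⟩
  rw [smul_eq_of_conj_mem hSP]
  exact hAP

end aux

/-- Let G be a finite group in which the intersection of any two distinct Sylow 2-subgroups is contained in the centre of some Sylow 2-subgroup, and let S be a Sylow 2-subgroup. If C is a nontrivial cyclic characteristic subgroup of S, then the involution of C is central modulo the largest normal subgroup of odd order of G: each of its conjugates has the same image in G/O(G). -/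
theorem result {G : Type*} [Group G] [Finite G]
    (hCI : ∀ S T : Sylow 2 G, S ≠ T → ∃ U : Sylow 2 G,
      (S : Subgroup G) ⊓ (T : Subgroup G) ≤ (Subgroup.center ↥(U : Subgroup G)).map (U : Subgroup G).subtype)
    (S : Sylow 2 G) (C : Subgroup ↥(S : Subgroup G)) (hC : C ≠ ⊥) (hCc : IsCyclic ↥C) (hCh : C.Characteristic)
    (c : ↥(S : Subgroup G)) (hc : c ∈ C) (hc2 : orderOf c = 2) :
    ∀ g : G, (QuotientGroup.mk (s := Cfsg.oddCore G) (g * (c : G) * g⁻¹)) =
      QuotientGroup.mk (s := Cfsg.oddCore G) (c : G) := by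
  set d : G := (c : G) with hd
  have od : orderOf d = 2 := by rw [hd, Subgroup.orderOf_coe]; exact hc2
  have hN : ∀ n ∈ normalizer ((S : Subgroup G) : Set G), n * d * n⁻¹ = d :=
    fun n hn => norm_fix S C hCc hCh c hc hc2 hn
  have hZ : ∀ s ∈ (S : Subgroup G), s * d = d * s := fun s hs =>
    mul_inv_eq_iff_eq_mul.1 (hN s (Subgroup.le_normalizer hs))
  -- conjugated version
  have hZ' : ∀ k : G, ∀ s ∈ ((k • S : Sylow 2 G) : Subgroup G),
      s * (k * d * k⁻¹) = (k * d * k⁻¹) * s := by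
    intro k s hs
    rw [Sylow.coe_subgroup_smul] at hs
    obtain ⟨b, hb, rfl⟩ := hs
    have := hZ b hb
    show k * b * k⁻¹ * (k * d * k⁻¹) = k * d * k⁻¹ * (k * b * k⁻¹)
    calc k * b * k⁻¹ * (k * d * k⁻¹) = k * (b * d) * k⁻¹ := by group
      _ = k * (d * b) * k⁻¹ := by rw [this]
      _ = k * d * k⁻¹ * (k * b * k⁻¹) := by group
  have hiso : Cfsg.IsIsolatedInvolution d := by
    refine ⟨od, ?_⟩
    intro g hcomm
    by_contra hne
    set d' := g * d * g⁻¹ with hd'
    have od' : orderOf d' = 2 := (orderOf_conj' g d).trans od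
    -- the four-group
    have hn : zpowers d ≤ normalizer ((zpowers d' : Subgroup G) : Set G) := by
      rw [zpowers_le]
      apply Cfsg.Agent.Lib.Helper7_Max.mem_normalizer_of_conj_mem
      intro z hz
      obtain ⟨j, rfl⟩ := mem_zpowers_iff.1 hz
      have : d * d' ^ j * d⁻¹ = d' ^ j := by
        rw [mul_inv_eq_iff_eq_mul]; exact (hcomm.zpow_right j).eq
      rw [this]; exact hz
    have hA : IsPGroup 2 (zpowers d ⊔ zpowers d' : Subgroup G) :=
      IsPGroup.to_sup_of_normal_right' (isPGroup_zpowers_invol od) (isPGroup_zpowers_invol od') hn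
    have hdA : d ∈ zpowers d ⊔ zpowers d' := (le_sup_left : zpowers d ≤ _) (mem_zpowers d)
    have hd'A : d' ∈ zpowers d ⊔ zpowers d' := (le_sup_right : zpowers d' ≤ _) (mem_zpowers d')
    have hAd : ∀ a ∈ zpowers d ⊔ zpowers d', a * d = d * a := by
      intro a ha
      have hle : zpowers d ⊔ zpowers d' ≤ centralizer ({d} : Set G) := by
        rw [sup_le_iff, zpowers_le, zpowers_le]
        exact ⟨Subgroup.mem_centralizer_singleton_iff.2 rfl,
          Subgroup.mem_centralizer_singleton_iff.2 hcomm.eq.symm⟩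
      exact Subgroup.mem_centralizer_singleton_iff.1 (hle ha)
    have hAd' : ∀ a ∈ zpowers d ⊔ zpowers d', a * d' = d' * a := by
      intro a ha
      have hle : zpowers d ⊔ zpowers d' ≤ centralizer ({d'} : Set G) := by
        rw [sup_le_iff, zpowers_le, zpowers_le]
        exact ⟨Subgroup.mem_centralizer_singleton_iff.2 hcomm.eq,
          Subgroup.mem_centralizer_singleton_iff.2 rfl⟩
      exact Subgroup.mem_centralizer_singleton_iff.1 (hle ha)
    obtain ⟨h₁, hh₁, hA₁⟩ := exists_sylow_centralized S d hZ _ hA hAd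
    obtain ⟨h₂, hh₂, hA₂⟩ := exists_sylow_centralized (g • S) d' (hZ' g) _ hA hAd'
    have e₁ : h₁ * d * h₁⁻¹ = d := mul_inv_eq_iff_eq_mul.2 hh₁
    have e₂ : (h₂ * g) * d * (h₂ * g)⁻¹ = d' := by
      have : (h₂ * g) * d * (h₂ * g)⁻¹ = h₂ * d' * h₂⁻¹ := by rw [hd']; group
      rw [this]; exact mul_inv_eq_iff_eq_mul.2 hh₂
    have hne12 : h₁ • S ≠ h₂ • g • S := by
      intro heq
      rw [← mul_smul] at heq
      have := well_def S d hN heq
      rw [e₁, e₂] at this
      exact hne this.symm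
    obtain ⟨U, hU⟩ := hCI _ _ hne12
    have hcU : ∀ z ∈ zpowers d ⊔ zpowers d', ∀ u ∈ (U : Subgroup G), u * z = z * u := by
      intro z hz u hu
      obtain ⟨w, hw, hwz⟩ := hU ⟨hA₁ hz, hA₂ hz⟩
      have h3 := Subgroup.mem_center_iff.1 hw ⟨u, hu⟩
      have h4 := congrArg Subtype.val h3
      have hwz' : (w : G) = z := hwz
      simp only [Subgroup.coe_mul] at h4
      rw [hwz'] at h4
      exact h4
    obtain ⟨k₁, hk₁, hU₁⟩ := exists_sylow_centralized S d hZ (U : Subgroup G) U.2 (hcU d hdA)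
    obtain ⟨k₂, hk₂, hU₂⟩ := exists_sylow_centralized (g • S) d' (hZ' g) (U : Subgroup G) U.2
      (hcU d' hd'A)
    have f₁ : k₁ * d * k₁⁻¹ = d := mul_inv_eq_iff_eq_mul.2 hk₁
    have f₂ : (k₂ * g) * d * (k₂ * g)⁻¹ = d' := by
      have : (k₂ * g) * d * (k₂ * g)⁻¹ = k₂ * d' * k₂⁻¹ := by rw [hd']; group
      rw [this]; exact mul_inv_eq_iff_eq_mul.2 hk₂
    have g₁ := sylow_eq_of_le hU₁
    have g₂ := sylow_eq_of_le hU₂
    rw [← mul_smul] at g₂
    have := well_def S d hN (g₁.symm.trans g₂)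
    rw [f₁, f₂] at this
    exact hne this.symm
  intro g
  rw [QuotientGroup.eq]
  have h1 := Cfsg.Agent.Lib.Helper7_ZStar.zstar hiso g
  have h2 := inv_mem h1
  have hdi : d⁻¹ = d := invol_inv od
  have h3 : (g * d * g⁻¹)⁻¹ * d = (d * g * d⁻¹ * g⁻¹)⁻¹ := by
    simp only [mul_inv_rev, inv_inv, hdi, mul_assoc]
  rw [h3]
  exact h2

end Cfsg.Agent.S3184
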