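import Mathlib
import Cfsg.Agent.Lib.helper6_PGroup
import Cfsg.Statements.S3190

set_option autoImplicit false
open Cfsg

namespace Cfsg.Agent.S3190

/-- Let p be an odd prime and, inside a finite group, let P be a p-subgroup normalized by a Klein four-group T. Let R be a subgroup of P, normal in P and normalized by T, such that P is the product of R with the centralizer of T in P. If T centralizes the centre of P, then T centralizes the centre of R. -/
theorem result {X : Type*} [Group X] [Finite X]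
    {p : ℕ} (hp : p.Prime) (hodd : Odd p) (P T R : Subgroup X) (hP : IsPGroup p ↥P) (hT : IsKleinFour ↥T)
    (hTP : T ≤ Subgroup.normalizer (P : Set X)) (hRP : R ≤ P) (hRn : (R.subgroupOf P).Normal)
    (hTR : T ≤ Subgroup.normalizer (R : Set X)) (hfac : R ⊔ (P ⊓ Subgroup.centralizer (T : Set X)) = P)
    (hZ : T ≤ Subgroup.centralizer (((Subgroup.center ↥P).map P.subtype : Subgroup X) : Set X)) :
    T ≤ Subgroup.centralizer (((Subgroup.center ↥R).map R.subtype : Subgroup X) : Set X) := by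
  classical
  have := Fact.mk hp
  intro t ht
  have ht2 : t * t = 1 := by
    have := IsKleinFour.mul_self (⟨t, ht⟩ : T)
    exact congrArg Subtype.val this
  have hti : t⁻¹ = t := inv_eq_of_mul_eq_one_left ht2
  have hPR : P ≤ Subgroup.normalizer (R : Set X) :=
    (Subgroup.normal_subgroupOf_iff_le_normalizer hRP).1 hRn
  have hconjR : ∀ g ∈ Subgroup.normalizer (R : Set X), ∀ r ∈ R, g * r * g⁻¹ ∈ R :=
    fun g hg r hr => (Subgroup.mem_normalizer_iff.1 hg r).1 hr
  have hconjR' : ∀ g ∈ Subgroup.normalizer (R : Set X), ∀ r ∈ R, g⁻¹ * r * g ∈ R := by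
    intro g hg r hr
    have := hconjR g⁻¹ (Subgroup.inv_mem _ hg) r hr
    simpa using this
  -- conjugation preserves the centre of R
  have hcen : ∀ g ∈ Subgroup.normalizer (R : Set X), ∀ z : X, (∀ r ∈ R, r * z = z * r) →
      ∀ r ∈ R, r * (g * z * g⁻¹) = (g * z * g⁻¹) * r := by
    intro g hg z hz r hr
    have h1 := hz _ (hconjR' g hg r hr)
    calc r * (g * z * g⁻¹) = g * ((g⁻¹ * r * g) * z) * g⁻¹ := by group
      _ = g * (z * (g⁻¹ * r * g)) * g⁻¹ := by rw [h1]
      _ = (g * z * g⁻¹) * r := by group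
  let W : Subgroup X :=
    { carrier := {z | z ∈ R ∧ (∀ r ∈ R, r * z = z * r) ∧ t * z * t⁻¹ = z⁻¹}
      one_mem' := ⟨R.one_mem, by simp, by simp⟩
      mul_mem' := by
        rintro a b ⟨ha, hac, hat⟩ ⟨hb, hbc, hbt⟩
        refine ⟨R.mul_mem ha hb, ?_, ?_⟩
        · intro r hr
          rw [← mul_assoc, hac r hr, mul_assoc, hbc r hr, mul_assoc]
        · have : t * (a * b) * t⁻¹ = (t * a * t⁻¹) * (t * b * t⁻¹) := by group
          rw [this, hat, hbt, ← mul_inv_rev, hac b hb]
      inv_mem' := by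
        rintro a ⟨ha, hac, hat⟩
        refine ⟨R.inv_mem ha, ?_, ?_⟩
        · intro r hr
          have := hac r hr
          calc r * a⁻¹ = a⁻¹ * (a * r) * a⁻¹ := by group
            _ = a⁻¹ * (r * a) * a⁻¹ := by rw [this]
            _ = a⁻¹ * r := by group
        · have : t * a⁻¹ * t⁻¹ = (t * a * t⁻¹)⁻¹ := by group
          rw [this, hat] }
  have hWmem : ∀ z, z ∈ W ↔ (z ∈ R ∧ (∀ r ∈ R, r * z = z * r) ∧ t * z * t⁻¹ = z⁻¹) :=
    fun z => Iff.rfl
  have hWP : W ≤ P := fun z hz => hRP hz.1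
  have hN : P ≤ Subgroup.normalizer (W : Set X) := by
    rw [← hfac, sup_le_iff]
    constructor
    · rw [Subgroup.le_normalizer_iff]
      intro r hr w hw
      have : r * w * r⁻¹ = w := by rw [hw.2.1 r hr]; group
      rw [this]; exact hw
    · rw [Subgroup.le_normalizer_iff]
      intro c hc w hw
      have hcN := hPR hc.1
      have hct : t * c = c * t := (Subgroup.mem_centralizer_iff.1 hc.2) t ht
      refine (hWmem _).2 ⟨hconjR c hcN w hw.1, hcen c hcN w hw.2.1, ?_⟩
      have hct' : t * c⁻¹ = c⁻¹ * t := by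
        calc t * c⁻¹ = c⁻¹ * (c * t) * c⁻¹ := by group
          _ = c⁻¹ * (t * c) * c⁻¹ := by rw [hct]
          _ = c⁻¹ * t := by group
      have hct'' : c⁻¹ * t⁻¹ = t⁻¹ * c⁻¹ := by
        rw [hti]; exact hct'.symm
      calc t * (c * w * c⁻¹) * t⁻¹ = (t * c) * w * (c⁻¹ * t⁻¹) := by group
        _ = (c * t) * w * (t⁻¹ * c⁻¹) := by rw [hct, hct'']
        _ = c * (t * w * t⁻¹) * c⁻¹ := by group
        _ = c * w⁻¹ * c⁻¹ := by rw [hw.2.2]
        _ = (c * w * c⁻¹)⁻¹ := by group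
  have hWbot : W = ⊥ := by
    by_contra hne
    obtain ⟨w, hw, hw1, hwc⟩ :=
      Cfsg.Agent.Lib.helper6_PGroup.exists_central_of_normal P W hP hWP hne hN
    have hwZ : w ∈ ((Subgroup.center ↥P).map P.subtype : Subgroup X) := by
      refine Subgroup.mem_map.2 ⟨⟨w, hWP hw⟩, ?_, rfl⟩
      rw [Subgroup.mem_center_iff]
      intro g
      exact Subtype.ext (hwc g g.2)
    have h1 : w * t = t * w := (Subgroup.mem_centralizer_iff.1 (hZ ht)) w hwZ
    have h2 : t * w * t⁻¹ = w := by rw [← h1]; group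
    have h3 : w = w⁻¹ := h2.symm.trans hw.2.2
    have h4 : w ^ 2 = 1 := by
      rw [pow_two]
      nth_rewrite 1 [h3]
      exact inv_mul_cancel w
    obtain ⟨k, hk⟩ := hP ⟨w, hWP hw⟩
    have hk' : w ^ (p ^ k) = 1 := congrArg Subtype.val hk
    have hcop : Nat.Coprime 2 (p ^ k) := by
      apply Nat.Coprime.pow_right
      rw [Nat.coprime_two_left]
      exact hodd
    have h5 : orderOf w ∣ 1 := by
      rw [← hcop]
      exact Nat.dvd_gcd (orderOf_dvd_of_pow_eq_one h4) (orderOf_dvd_of_pow_eq_one hk')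
    exact hw1 (orderOf_eq_one_iff.1 (Nat.dvd_one.1 h5))
  rw [Subgroup.mem_centralizer_iff]
  rintro _ ⟨z, hz, rfl⟩
  have hzc : ∀ r ∈ R, r * (z : X) = z * r := by
    intro r hr
    exact congrArg Subtype.val ((Subgroup.mem_center_iff.1 hz) ⟨r, hr⟩)
  have htN := hTR ht
  have hv : (z : X)⁻¹ * (t * z * t⁻¹) ∈ W := by
    refine (hWmem _).2 ⟨R.mul_mem (R.inv_mem z.2) (hconjR t htN z z.2), ?_, ?_⟩
    · intro r hr
      have e1 := hcen t htN z hzc r hr
      have e2 : r * (z : X)⁻¹ = (z : X)⁻¹ * r := by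
        have := hzc r hr
        calc r * (z : X)⁻¹ = (z : X)⁻¹ * (z * r) * (z : X)⁻¹ := by group
          _ = (z : X)⁻¹ * (r * z) * (z : X)⁻¹ := by rw [this]
          _ = (z : X)⁻¹ * r := by group
      rw [← mul_assoc, e2, mul_assoc, e1, ← mul_assoc]
    · rw [hti]
      calc t * ((z : X)⁻¹ * (t * z * t)) * t = (t * (z : X)⁻¹ * t) * z * (t * t) := by
            rw [show t * ((z : X)⁻¹ * (t * z * t)) * t
              = (t * (z : X)⁻¹ * t) * z * (t * t) by group]
        _ = (t * (z : X)⁻¹ * t) * z := by rw [ht2, mul_one]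
        _ = ((z : X)⁻¹ * (t * z * t))⁻¹ := by
            rw [mul_inv_rev, mul_inv_rev, mul_inv_rev, hti, inv_inv, mul_assoc t]
  rw [hWbot, Subgroup.mem_bot] at hv
  have h6 : t * z * t⁻¹ = z := (inv_mul_eq_one.1 hv).symm
  show (z : X) * t = t * z
  exact (mul_inv_eq_iff_eq_mul.1 h6).symm

end Cfsg.Agent.S3190
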