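import Mathlib
import Cfsg.Agent.Lib.Helper7_BaerSuzuki
import Cfsg.Agent.Lib.Helper4_Core
import Cfsg.Statements.S3195

set_option autoImplicit false
open Cfsg

namespace Cfsg.Agent.S3195

/-- conjugation by an inverting involution on powers -/
theorem inv_pow_of_inv {G : Type*} [Group G] {s w : G} (h : s * w * s⁻¹ = w⁻¹) (k : ℕ) :
    s * w ^ k * s⁻¹ = (w ^ k)⁻¹ := by
  rw [← conj_pow, h, inv_pow]

/-- two involutions whose product has 2-power order generate a 2-group -/
theorem isPGroup_closure_pair {G : Type*} [Group G] [Finite G] {s t : G} (hs : s * s = 1)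
    (ht : t * t = 1) (k : ℕ) (hk : (s * t) ^ (2 ^ k) = 1) :
    IsPGroup 2 (Subgroup.closure ({s, t} : Set G)) := by
  have := Fact.mk Nat.prime_two
  have hsi : s⁻¹ = s := inv_eq_of_mul_eq_one_left hs
  have hti : t⁻¹ = t := inv_eq_of_mul_eq_one_left ht
  have hinv : s * (s * t) * s⁻¹ = (s * t)⁻¹ := by
    rw [mul_inv_rev, hsi, hti, ← mul_assoc, hs, one_mul]
  have h1 : IsPGroup 2 (Subgroup.zpowers s) := by
    intro x
    refine ⟨1, ?_⟩
    obtain ⟨x, i, rfl⟩ := x
    apply Subtype.ext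
    simp only [pow_one, Subgroup.coe_pow, Subgroup.coe_one]
    rw [← zpow_natCast, ← zpow_mul, mul_comm, zpow_mul]
    simp [pow_two, hs]
  have h2 : IsPGroup 2 (Subgroup.zpowers (s * t)) := by
    intro x
    refine ⟨k, ?_⟩
    obtain ⟨x, i, rfl⟩ := x
    apply Subtype.ext
    simp only [Subgroup.coe_pow, Subgroup.coe_one]
    rw [← zpow_natCast, ← zpow_mul, mul_comm, zpow_mul, zpow_natCast, hk, one_zpow]
  have h3 : Subgroup.zpowers s ≤ Subgroup.normalizer (Subgroup.zpowers (s * t) : Set G) := by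
    rw [Subgroup.zpowers_le, Subgroup.mem_normalizer_iff]
    intro h
    constructor
    · rintro ⟨i, rfl⟩
      refine ⟨-i, ?_⟩
      simp only
      rw [← conj_zpow, hinv, inv_zpow, zpow_neg]
    · rintro ⟨i, hi⟩
      refine ⟨-i, ?_⟩
      simp only at hi ⊢
      have : h = s * (s * h * s⁻¹) * s⁻¹ := by
        rw [hsi]
        calc h = (s * s) * h * (s * s) := by rw [hs]; simp
          _ = _ := by group
      rw [this, ← hi, ← conj_zpow, hinv, inv_zpow, zpow_neg]
  refine (h1.to_sup_of_normal_right' h2 h3).to_le ?_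
  rw [Subgroup.closure_le]
  have m1 : s ∈ Subgroup.zpowers s ⊔ Subgroup.zpowers (s * t) :=
    (le_sup_left : Subgroup.zpowers s ≤ _) (Subgroup.mem_zpowers s)
  have m2 : s * t ∈ Subgroup.zpowers s ⊔ Subgroup.zpowers (s * t) :=
    (le_sup_right : Subgroup.zpowers (s * t) ≤ _) (Subgroup.mem_zpowers _)
  have m3 : t ∈ Subgroup.zpowers s ⊔ Subgroup.zpowers (s * t) := by
    have := Subgroup.mul_mem _ (Subgroup.inv_mem _ m1) m2
    rwa [inv_mul_cancel_left] at this
  intro x hx
  rcases hx with rfl | hx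
  · exact m1
  · rw [Set.mem_singleton_iff] at hx
    rw [hx]; exact m3

/-- two involutions not generating a 2-group: the first inverts a nontrivial element of odd
order -/
theorem exists_odd_inverted {G : Type*} [Group G] [Finite G] {s t : G} (hs : s * s = 1)
    (ht : t * t = 1) (h : ¬ IsPGroup 2 (Subgroup.closure ({s, t} : Set G))) :
    ∃ w : G, Odd (orderOf w) ∧ w ≠ 1 ∧ s * w * s⁻¹ = w⁻¹ := by
  have hsi : s⁻¹ = s := inv_eq_of_mul_eq_one_left hs
  have hti : t⁻¹ = t := inv_eq_of_mul_eq_one_left ht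
  have hinv : s * (s * t) * s⁻¹ = (s * t)⁻¹ := by
    rw [mul_inv_rev, hsi, hti, ← mul_assoc, hs, one_mul]
  obtain ⟨e, m, hm, hn⟩ := Nat.exists_eq_two_pow_mul_odd (orderOf_pos (s * t)).ne'
  refine ⟨(s * t) ^ (2 ^ e), ?_, ?_, inv_pow_of_inv hinv _⟩
  · rw [orderOf_pow_of_dvd (by positivity) (by rw [hn]; exact Dvd.intro _ rfl), hn,
      Nat.mul_div_cancel_left _ (by positivity)]
    exact hm
  · intro h1
    exact h (isPGroup_closure_pair hs ht e h1)

/-- an involution inverting an element `w` of odd order is conjugate to `s * w` under a power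
of `w` -/
theorem conj_of_inverted {G : Type*} [Group G] {s w : G} (hs : s * s = 1)
    (hw : Odd (orderOf w)) (hinv : s * w * s⁻¹ = w⁻¹) :
    ∃ k : ℕ, w ^ k * s * (w ^ k)⁻¹ = s * w := by
  obtain ⟨k, hk⟩ := hw
  refine ⟨k, ?_⟩
  have h1 := inv_pow_of_inv hinv k
  have h2 : s * (w ^ k)⁻¹ = w ^ k * s := by
    have : s * w ^ k = (w ^ k)⁻¹ * s := by
      rw [← h1]; group
    calc s * (w ^ k)⁻¹ = w ^ k * ((w ^ k)⁻¹ * s) * (w ^ k)⁻¹ := by group
      _ = w ^ k * (s * w ^ k) * (w ^ k)⁻¹ := by rw [this]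
      _ = _ := by group
  have h3 : w ^ k * w ^ k = w⁻¹ := by
    have : w ^ (2 * k + 1) = 1 := by rw [← hk]; exact pow_orderOf_eq_one w
    rw [← pow_add, ← two_mul]
    rw [pow_succ] at this
    exact eq_inv_of_mul_eq_one_left this
  have h4 : s * w = w⁻¹ * s := by rw [← hinv]; group
  calc w ^ k * s * (w ^ k)⁻¹ = w ^ k * (s * (w ^ k)⁻¹) := by group
    _ = w ^ k * w ^ k * s := by rw [h2]; group
    _ = _ := by rw [h3, h4]

theorem core_rel {G : Type*} [Group G] {a b c d : G} (hb : b * b = 1) (hc : c * c = 1)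
    (ha : a * a = 1) (hd : d * d = 1)
    (hab : a * b = b * a) (hac : a * c = c * a) (hdb : d * b = b * d) (hdc : d * c = c * d)
    (h : a * c * (b * d) = b * d * (a * c)) : (a * d) ^ 4 = 1 := by
  have e1 : c * b * (a * d) = b * c * (d * a) := by
    calc c * b * (a * d) = c * (b * a) * d := by group
      _ = c * (a * b) * d := by rw [hab]
      _ = (c * a) * (b * d) := by group
      _ = a * c * (b * d) := by rw [hac]
      _ = b * d * (a * c) := h
      _ = b * d * (c * a) := by rw [hac]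
      _ = b * (d * c) * a := by group
      _ = b * (c * d) * a := by rw [hdc]
      _ = _ := by group
  have e2 : a * d = (b * c) * (b * c) * (d * a) := by
    calc a * d = (b * (c * c) * b) * (a * d) := by rw [hc, mul_one, hb, one_mul]
      _ = b * c * (c * b * (a * d)) := by group
      _ = b * c * (b * c * (d * a)) := by rw [e1]
      _ = _ := by group
  have e3 : (a * d) * (a * d) = (b * c) * (b * c) := by
    calc (a * d) * (a * d) = (b * c) * (b * c) * (d * a) * (a * d) := by rw [← e2]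
      _ = (b * c) * (b * c) * (d * (a * a) * d) := by group
      _ = _ := by rw [ha, mul_one, hd, mul_one]
  -- b centralizes (a d)^2 and inverts (b c)^2
  have e4 : b * ((a * d) * (a * d)) = ((a * d) * (a * d)) * b := by
    calc b * ((a * d) * (a * d)) = (b * a) * d * a * d := by group
      _ = a * (b * d) * a * d := by rw [← hab]; group
      _ = a * d * (b * a) * d := by rw [← hdb]; group
      _ = a * d * a * (b * d) := by rw [← hab]; group
      _ = _ := by rw [← hdb]; group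
  have e4' : b * ((b * c) * (b * c)) = ((b * c) * (b * c)) * b := by rw [← e3]; exact e4
  have e5 : (b * c) * (b * c) = (c * b) * (c * b) := by
    calc (b * c) * (b * c) = ((b * c) * (b * c)) * (b * b) := by rw [hb, mul_one]
      _ = (((b * c) * (b * c)) * b) * b := by group
      _ = (b * ((b * c) * (b * c))) * b := by rw [e4']
      _ = (b * b) * c * b * c * b := by group
      _ = (c * b) * (c * b) := by rw [hb]; group
  have e6 : ((b * c) * (b * c)) * ((c * b) * (c * b)) = 1 := by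
    calc ((b * c) * (b * c)) * ((c * b) * (c * b)) = b * c * b * (c * c) * b * c * b := by group
      _ = b * c * (b * b) * c * b := by rw [hc]; group
      _ = b * (c * c) * b := by rw [hb]; group
      _ = 1 := by rw [hc, mul_one, hb]
  calc (a * d) ^ 4 = ((a * d) * (a * d)) * ((a * d) * (a * d)) := by
        simp only [pow_succ, pow_zero, one_mul, mul_assoc]
    _ = ((b * c) * (b * c)) * ((b * c) * (b * c)) := by rw [e3]
    _ = ((b * c) * (b * c)) * ((c * b) * (c * b)) := by rw [← e5]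
    _ = 1 := e6

theorem matching {G : Type*} [Group G] {p₁ p₂ q₁ q₂ : G} (sp₁ : p₁ * p₁ = 1) (sp₂ : p₂ * p₂ = 1)
    (sq₁ : q₁ * q₁ = 1) (sq₂ : q₂ * q₂ = 1) (h12 : Commute p₁ p₂) (k12 : Commute q₁ q₂)
    (h11 : Commute p₁ q₁) (n12 : ¬ Commute p₁ q₂) (n21 : ¬ Commute p₂ q₁)
    (H1 : Commute p₁ q₂ ∨ Commute p₂ q₂ ∨ Commute (p₁ * p₂) q₂)
    (H2 : Commute p₁ (q₁ * q₂) ∨ Commute p₂ (q₁ * q₂) ∨ Commute (p₁ * p₂) (q₁ * q₂)) :
    (p₁ * q₂) ^ 4 = 1 := by
  have c1 : ¬ Commute p₁ (q₁ * q₂) := by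
    intro h
    apply n12
    have := (h11.inv_right).mul_right h
    rwa [inv_mul_cancel_left] at this
  rcases H1 with H1 | H1 | H1
  · exact absurd H1 n12
  · rcases H2 with H2 | H2 | H2
    · exact absurd H2 c1
    · exfalso
      apply n21
      have := H2.mul_right H1.inv_right
      rwa [mul_inv_cancel_right] at this
    · exact core_rel sq₁ sp₂ sp₁ sq₂ h11.eq h12.eq k12.symm.eq H1.symm.eq H2.eq
  · rcases H2 with H2 | H2 | H2
    · exact absurd H2 c1
    · have e : p₁ * (p₁ * p₂) = p₂ := by rw [← mul_assoc, sp₁, one_mul]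
      refine core_rel (c := p₁ * p₂) sq₁ ?_ sp₁ sq₂ h11.eq ?_ k12.symm.eq H1.symm.eq ?_
      · calc p₁ * p₂ * (p₁ * p₂) = p₁ * (p₂ * p₁) * p₂ := by group
          _ = p₁ * (p₁ * p₂) * p₂ := by rw [h12.eq]
          _ = (p₁ * p₁) * (p₂ * p₂) := by group
          _ = 1 := by rw [sp₁, sp₂, one_mul]
      · exact ((Commute.refl p₁).mul_right h12).eq
      · rw [e]; exact H2.eq
    · exfalso
      apply n21
      have h3 : Commute (p₁ * p₂) q₁ := by
        have := H2.mul_right H1.inv_right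
        rwa [mul_inv_cancel_right] at this
      have := (h11.inv_left).mul_left h3
      rwa [inv_mul_cancel_left] at this


/-- Let A be a Klein four-subgroup of a finite group G. If every G-conjugate of every involution of A commutes with some involution of A (its centralizer meets A nontrivially), then A meets the largest normal 2-subgroup O₂(G) nontrivially. -/
theorem result {G : Type*} [Group G] [Finite G]
    (A : Subgroup G) (hA : IsKleinFour ↥A)
    (h : ∀ a ∈ A, a ≠ 1 → ∀ g : G, A ⊓ Subgroup.centralizer ({g * a * g⁻¹} : Set G) ≠ ⊥) :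
    A ⊓ Cfsg.pCore 2 G ≠ ⊥ := by
  classical
  by_contra hbot
  have := Fact.mk Nat.prime_two
  -- basic facts on A
  have hsq : ∀ x ∈ A, x * x = 1 := by
    intro x hx
    have := IsKleinFour.mul_self (⟨x, hx⟩ : A)
    exact congrArg Subtype.val this
  have hcomm : ∀ x ∈ A, ∀ y ∈ A, Commute x y := by
    intro x hx y hy
    have := mul_comm_of_exponent_two hA.exponent_two (⟨x, hx⟩ : A) ⟨y, hy⟩
    exact congrArg Subtype.val this
  have hthree : ∀ x ∈ A, ∀ y ∈ A, ∀ z ∈ A, x ≠ 1 → y ≠ 1 → x ≠ y → z ≠ 1 →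
      z = x ∨ z = y ∨ z = x * y := by
    intro x hx y hy z hz hx1 hy1 hxy hz1
    by_cases hzx : z = x
    · exact Or.inl hzx
    by_cases hzy : z = y
    · exact Or.inr (Or.inl hzy)
    right; right
    have := IsKleinFour.eq_mul_of_ne_all (x := (⟨x, hx⟩ : A)) (y := ⟨y, hy⟩) (z := ⟨z, hz⟩)
      (fun h => hx1 (congrArg Subtype.val h)) (fun h => hy1 (congrArg Subtype.val h))
      (fun h => hxy (congrArg Subtype.val h)) (fun h => hz1 (congrArg Subtype.val h))
      (fun h => hzx (congrArg Subtype.val h)) (fun h => hzy (congrArg Subtype.val h))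
    exact congrArg Subtype.val this
  -- conjugated hypothesis
  have hyp : ∀ (u : G), ∀ a ∈ A, a ≠ 1 → ∀ g : G, ∃ z ∈ A, z ≠ 1 ∧
      Commute (u * z * u⁻¹) (g * a * g⁻¹) := by
    intro u a ha ha1 g
    have h1 := h a ha ha1 (u⁻¹ * g)
    obtain ⟨z, hz⟩ := Subgroup.ne_bot_iff_exists_ne_one.1 h1
    obtain ⟨hzA, hzC⟩ := Subgroup.mem_inf.1 z.2
    refine ⟨z, hzA, fun h => hz (Subtype.ext h), ?_⟩
    rw [Subgroup.mem_centralizer_singleton_iff] at hzC
    have hc : Commute (z : G) (u⁻¹ * g * a * (u⁻¹ * g)⁻¹) := hzC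
    have h2 := (Commute.conj_iff u).2 hc
    have e : u * (u⁻¹ * g * a * (u⁻¹ * g)⁻¹) * u⁻¹ = g * a * g⁻¹ := by group
    rwa [e] at h2
  have odd_one : ∀ w : G, Odd (orderOf w) → ∀ n : ℕ, w ^ (2 ^ n) = 1 → w = 1 := by
    intro w hw n hn
    have h1 : orderOf w ∣ 2 ^ n := orderOf_dvd_of_pow_eq_one hn
    have h2 : Nat.Coprime (orderOf w) (2 ^ n) := (Nat.Coprime.pow_right n hw.coprime_two_right)
    have h3 : orderOf w = 1 := Nat.Coprime.eq_one_of_dvd h2 h1
    exact orderOf_eq_one_iff.1 h3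
  have data : ∀ x ∈ A, x ≠ 1 → ∃ (w v y : G), Odd (orderOf w) ∧ w ≠ 1 ∧ v * x * v⁻¹ = x * w ∧
      y ∈ A ∧ y ≠ 1 ∧ Commute y (x * w) ∧ v * y * v⁻¹ = y ∧ ¬ Commute x (x * w) := by
    intro x hx hx1
    have hxO : x ∉ pCore 2 G := by
      intro h'
      have h2 : x ∈ A ⊓ pCore 2 G := Subgroup.mem_inf.2 ⟨hx, h'⟩
      rw [hbot, Subgroup.mem_bot] at h2
      exact hx1 h2
    let K : Set G := {y | ∃ g, y = g * x * g⁻¹}
    have hKinv : ∀ g : G, ∀ y ∈ K, g * y * g⁻¹ ∈ K := by
      rintro g _ ⟨g', rfl⟩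
      exact ⟨g * g', by group⟩
    have hnot : ¬ ∀ y ∈ K, ∀ y' ∈ K, IsPGroup 2 (Subgroup.closure ({y, y'} : Set G)) := by
      intro hall
      obtain ⟨hn, hp⟩ := Cfsg.Agent.Lib.Helper7_BaerSuzuki.baer_suzuki_set K hKinv hall
      exact hxO (Cfsg.Agent.Lib.Helper4_Core.le_pCore hn hp
        (Subgroup.subset_closure ⟨1, by simp⟩))
    push Not at hnot
    obtain ⟨_, ⟨g, rfl⟩, _, ⟨g', rfl⟩, hnp⟩ := hnot
    have sqc : ∀ g : G, (g * x * g⁻¹) * (g * x * g⁻¹) = 1 := by
      intro g
      calc (g * x * g⁻¹) * (g * x * g⁻¹) = g * (x * x) * g⁻¹ := by group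
        _ = 1 := by rw [hsq x hx]; group
    obtain ⟨w₀, hodd, hw1, hinv⟩ := exists_odd_inverted (sqc g) (sqc g') hnp
    have hord : orderOf (g⁻¹ * w₀ * g) = orderOf w₀ := by
      have := (MulAut.conj g⁻¹).orderOf_eq w₀
      rwa [MulAut.conj_apply, inv_inv] at this
    have hw1' : g⁻¹ * w₀ * g ≠ 1 := by
      intro h'
      apply hw1
      calc w₀ = g * (g⁻¹ * w₀ * g) * g⁻¹ := by group
        _ = 1 := by rw [h']; group
    have hinv' : x * (g⁻¹ * w₀ * g) * x⁻¹ = (g⁻¹ * w₀ * g)⁻¹ := by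
      calc x * (g⁻¹ * w₀ * g) * x⁻¹ = g⁻¹ * ((g * x * g⁻¹) * w₀ * (g * x * g⁻¹)⁻¹) * g := by group
        _ = g⁻¹ * w₀⁻¹ * g := by rw [hinv]
        _ = _ := by group
    set w := g⁻¹ * w₀ * g with hw
    have hodd' : Odd (orderOf w) := hord ▸ hodd
    obtain ⟨k, hk⟩ := conj_of_inverted (hsq x hx) hodd' hinv'
    obtain ⟨z, hzA, hz1, hzc⟩ := hyp 1 x hx hx1 (w ^ k)
    rw [hk] at hzc
    simp only [one_mul, inv_one, mul_one] at hzc
    have hzx : Commute z x := hcomm z hzA x hx
    have hzw : Commute z w := by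
      have := hzx.inv_right.mul_right hzc
      rwa [inv_mul_cancel_left] at this
    refine ⟨w, w ^ k, z, hodd', hw1', hk, hzA, hz1, hzc, ?_, ?_⟩
    · rw [(hzw.pow_right k).symm.eq, mul_inv_cancel_right]
    · intro hc
      have hxw : Commute x w := by
        have := (Commute.refl x).inv_right.mul_right hc
        rwa [inv_mul_cancel_left] at this
      rw [hxw.eq, mul_inv_cancel_right] at hinv'
      apply hw1'
      apply odd_one w hodd' 1
      rw [pow_one, pow_two]
      nth_rewrite 1 [hinv']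
      exact inv_mul_cancel w
  -- pick a, then b, then e
  have hAne : A ≠ ⊥ := by
    intro h'
    have := hA.card_four
    rw [h', Subgroup.card_bot] at this
    omega
  obtain ⟨a', ha'⟩ := Subgroup.ne_bot_iff_exists_ne_one.1 hAne
  obtain ⟨a, ha, ha1⟩ : ∃ a ∈ A, a ≠ 1 := ⟨a', a'.2, fun h => ha' (Subtype.ext h)⟩
  obtain ⟨wa, va, b, _, _, hva, hb, hb1, hbc, hvb, hna⟩ := data a ha ha1
  obtain ⟨wb, vb, e, hwbodd, hwb1, hvb', he, he1, hec, hve, hnb⟩ := data b hb hb1
  have hab : a ≠ b := by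
    rintro rfl
    exact hna hbc
  have hbe : b ≠ e := by
    rintro rfl
    exact hnb hec
  have sqa : (a * wa) * (a * wa) = 1 := by
    rw [← hva]
    calc (va * a * va⁻¹) * (va * a * va⁻¹) = va * (a * a) * va⁻¹ := by group
      _ = 1 := by rw [hsq a ha]; group
  have sqb : (b * wb) * (b * wb) = 1 := by
    rw [← hvb']
    calc (vb * b * vb⁻¹) * (vb * b * vb⁻¹) = vb * (b * b) * vb⁻¹ := by group
      _ = 1 := by rw [hsq b hb]; group
  -- e does not commute with a * wa
  have hne : ¬ Commute (a * wa) e := by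
    intro hc
    apply hna
    rcases hthree b hb e he a ha hb1 he1 hbe ha1 with h1 | h1 | h1
    · exact absurd h1 hab
    · rw [h1] at hc ⊢; exact hc.symm
    · have : Commute (b * e) (a * wa) := hbc.mul_left hc.symm
      rw [← h1] at this
      exact this
  have line : ∀ y : G, (∃ z ∈ A, z ≠ 1 ∧ Commute (va * z * va⁻¹) y) →
      Commute b y ∨ Commute (a * wa) y ∨ Commute (b * (a * wa)) y := by
    rintro y ⟨z, hz, hz1, hzc⟩
    rcases hthree b hb a ha z hz hb1 ha1 hab.symm hz1 with h1 | h1 | h1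
    · left; rw [h1, hvb] at hzc; exact hzc
    · right; left; rw [h1, hva] at hzc; exact hzc
    · right; right
      have e1 : va * (b * a) * va⁻¹ = (va * b * va⁻¹) * (va * a * va⁻¹) := by group
      rw [h1, e1, hvb, hva] at hzc
      exact hzc
  have H1 := line (b * wb) (by
    have := hyp va b hb hb1 vb
    rwa [hvb'] at this)
  have heb1 : e * b ≠ 1 := by
    intro h'
    apply hbe
    have : e * b = b * b := by rw [h', hsq b hb]
    exact (mul_right_cancel this).symm
  have H2 := line (e * (b * wb)) (by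
    have := hyp va (e * b) (A.mul_mem he hb) heb1 vb
    have e1 : vb * (e * b) * vb⁻¹ = (vb * e * vb⁻¹) * (vb * b * vb⁻¹) := by group
    rwa [e1, hve, hvb'] at this)
  have key := matching (hsq b hb) sqa (hsq e he) sqb hbc hec (hcomm b hb e he) hnb hne H1 H2
  have e2 : b * (b * wb) = wb := by rw [← mul_assoc, hsq b hb, one_mul]
  rw [e2] at key
  exact hwb1 (odd_one wb hwbodd 2 (by simpa using key))

end Cfsg.Agent.S3195
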