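import Mathlib
import Cfsg.Agent.Lib.Helper7_BaerSuzuki
import Cfsg.Agent.Lib.Helper4_Core
import Cfsg.Statements.S3196

set_option autoImplicit false
open Cfsg

namespace Cfsg.Agent.S3196

/-- explicit form of the elements of `S ⊔ ⟨w⟩` when `w` centralizes `S` -/
theorem mem_sup_zpowers {G : Type*} [Group G] (S : Subgroup G) (w : G)
    (hw : ∀ s ∈ S, Commute s w) {z : G} (hz : z ∈ S ⊔ Subgroup.zpowers w) :
    ∃ s ∈ S, ∃ i : ℤ, z = s * w ^ i := by
  let M : Subgroup G :=
    { carrier := {z | ∃ s ∈ S, ∃ i : ℤ, z = s * w ^ i}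
      one_mem' := ⟨1, S.one_mem, 0, by simp⟩
      mul_mem' := by
        rintro _ _ ⟨s, hs, i, rfl⟩ ⟨t, ht, j, rfl⟩
        refine ⟨s * t, S.mul_mem hs ht, i + j, ?_⟩
        have := ((hw t ht).zpow_right i).eq
        calc s * w ^ i * (t * w ^ j) = s * (w ^ i * t) * w ^ j := by group
          _ = s * (t * w ^ i) * w ^ j := by rw [this]
          _ = s * t * (w ^ i * w ^ j) := by group
          _ = _ := by rw [zpow_add]
      inv_mem' := by
        rintro _ ⟨s, hs, i, rfl⟩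
        refine ⟨s⁻¹, S.inv_mem hs, -i, ?_⟩
        have := ((hw s hs).zpow_right i).eq
        rw [this, mul_inv_rev, zpow_neg] }
  have hle : S ⊔ Subgroup.zpowers w ≤ M := by
    refine sup_le ?_ ?_
    · intro s hs
      exact ⟨s, hs, 0, by simp⟩
    · rw [Subgroup.zpowers_le]
      exact ⟨1, S.one_mem, 1, by simp⟩
  exact hle hz

/-- The element-level axioms. -/
structure Ax {G : Type*} [Group G] (p : ℕ) (KK : Set G) : Prop where
  prime : p.Prime
  ord : ∀ x ∈ KK, orderOf x = p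
  conj : ∀ x ∈ KK, ∀ g : G, g * x * g⁻¹ ∈ KK
  pw : ∀ x ∈ KK, ∀ y ∈ Subgroup.zpowers x, y ≠ 1 → y ∈ KK
  a : ∀ x ∈ KK, ∀ y ∈ KK, Commute x y → ∀ z ∈ Subgroup.zpowers x ⊔ Subgroup.zpowers y, z ≠ 1 → z ∈ KK
  b : ∀ x ∈ KK, ∀ y ∈ KK, Commute x y → Subgroup.zpowers x ≠ Subgroup.zpowers y → ∀ w ∈ KK,
    ∃ z ∈ Subgroup.zpowers x ⊔ Subgroup.zpowers y, z ≠ 1 ∧ Commute z w

theorem ne_one_of_mem {G : Type*} [Group G] {p : ℕ} {KK : Set G} (A : Ax p KK) {x : G}
    (hx : x ∈ KK) : x ≠ 1 := by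
  rintro rfl
  have := A.ord 1 hx
  rw [orderOf_one] at this
  exact A.prime.one_lt.ne this

/-- in a group of prime order generated by `x`, every nonidentity element generates -/
theorem mem_zpowers_of_mem {G : Type*} [Group G] {p : ℕ} (hp : p.Prime) {x y : G}
    (hx : orderOf x = p) (hy : y ∈ Subgroup.zpowers x) (hy1 : y ≠ 1) :
    x ∈ Subgroup.zpowers y := by
  have : Fact p.Prime := ⟨hp⟩
  have hcard : Nat.card (Subgroup.zpowers x) = p := by rw [Nat.card_zpowers, hx]
  have hfin : Finite (Subgroup.zpowers x) :=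
    Nat.finite_of_card_ne_zero (by rw [hcard]; exact hp.ne_zero)
  have h1 : Subgroup.zpowers y ≤ Subgroup.zpowers x := Subgroup.zpowers_le.2 hy
  have h2 : orderOf y = p := by
    have hd : orderOf y ∣ p := by
      rw [← hcard, ← Nat.card_zpowers]
      exact Subgroup.card_dvd_of_le h1
    rcases (Nat.dvd_prime hp).1 hd with h | h
    · exact absurd (orderOf_eq_one_iff.1 h) hy1
    · exact h
  have h3 : Subgroup.zpowers y = Subgroup.zpowers x := by
    apply Subgroup.eq_of_le_of_card_ge h1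
    rw [Nat.card_zpowers, Nat.card_zpowers, hx, h2]
  rw [h3]; exact Subgroup.mem_zpowers x

/-- singular subgroups -/
def Sing {G : Type*} [Group G] (KK : Set G) (S : Subgroup G) : Prop :=
  (∀ s ∈ S, ∀ t ∈ S, Commute s t) ∧ (∀ s ∈ S, s ≠ 1 → s ∈ KK)

theorem Sing.mono {G : Type*} [Group G] {KK : Set G} {S T : Subgroup G} (h : Sing KK S)
    (hT : T ≤ S) : Sing KK T :=
  ⟨fun s hs t ht => h.1 s (hT hs) t (hT ht), fun s hs => h.2 s (hT hs)⟩

theorem Sing.sup {G : Type*} [Group G] {p : ℕ} {KK : Set G} (A : Ax p KK) {S : Subgroup G}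
    (h : Sing KK S) {w : G} (hw : w ∈ KK) (hc : ∀ s ∈ S, Commute s w) :
    Sing KK (S ⊔ Subgroup.zpowers w) := by
  constructor
  · intro x hx y hy
    obtain ⟨s, hs, i, rfl⟩ := mem_sup_zpowers S w hc hx
    obtain ⟨t, ht, j, rfl⟩ := mem_sup_zpowers S w hc hy
    have h1 : Commute s (t * w ^ j) := (h.1 s hs t ht).mul_right ((hc s hs).zpow_right j)
    have h2 : Commute (w ^ i) (t * w ^ j) :=
      (((hc t ht).zpow_right i).symm).mul_right ((Commute.refl w).zpow_zpow i j)
    exact h1.mul_left h2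
  · intro x hx hx1
    obtain ⟨s, hs, i, rfl⟩ := mem_sup_zpowers S w hc hx
    by_cases hs1 : s = 1
    · subst hs1
      rw [one_mul] at hx1 ⊢
      exact A.pw w hw _ ⟨i, rfl⟩ hx1
    by_cases hi : w ^ i = 1
    · rw [hi, mul_one]; exact h.2 s hs hs1
    · have hwi : w ^ i ∈ KK := A.pw w hw _ ⟨i, rfl⟩ hi
      refine A.a s (h.2 s hs hs1) _ hwi ((hc s hs).zpow_right i) _ ?_ hx1
      exact Subgroup.mul_mem _ ((le_sup_left : Subgroup.zpowers s ≤ _) (Subgroup.mem_zpowers s))
        ((le_sup_right : Subgroup.zpowers (w ^ i) ≤ _) (Subgroup.mem_zpowers _))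

theorem sing_zpowers {G : Type*} [Group G] {p : ℕ} {KK : Set G} (A : Ax p KK) {x : G}
    (hx : x ∈ KK) : Sing KK (Subgroup.zpowers x) := by
  constructor
  · rintro _ ⟨i, rfl⟩ _ ⟨j, rfl⟩
    exact (Commute.refl x).zpow_zpow i j
  · intro s hs hs1
    exact A.pw x hx s hs hs1

theorem Sing.isPGroup {G : Type*} [Group G] {p : ℕ} {KK : Set G} (A : Ax p KK) {S : Subgroup G}
    (h : Sing KK S) : IsPGroup p S := by
  intro s
  refine ⟨1, ?_⟩
  rw [pow_one]
  by_cases hs : (s : G) = 1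
  · have : s = 1 := Subtype.ext hs
    rw [this, one_pow]
  · apply Subtype.ext
    have := A.ord s (h.2 s s.2 hs)
    rw [Subgroup.coe_pow, ← this]
    exact pow_orderOf_eq_one _

/-- Lemma H: the centralizer of a point in a singular subgroup is a hyperplane -/
theorem hyper {G : Type*} [Group G] {p : ℕ} {KK : Set G} (A : Ax p KK) {S : Subgroup G}
    (h : Sing KK S) {w x : G} (hw : w ∈ KK) (hx : x ∈ S) (hxw : ¬ Commute x w) {s : G}
    (hs : s ∈ S) : ∃ i : ℤ, Commute (s * x ^ i) w := by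
  have hx1 : x ≠ 1 := by
    rintro rfl
    exact hxw (Commute.one_left w)
  have hxK : x ∈ KK := h.2 x hx hx1
  by_cases hsx : s ∈ Subgroup.zpowers x
  · obtain ⟨k, rfl⟩ := hsx
    refine ⟨-k, ?_⟩
    simp only
    rw [zpow_neg, mul_inv_cancel]
    exact Commute.one_left w
  have hs1 : s ≠ 1 := by
    rintro rfl
    exact hsx (Subgroup.one_mem _)
  have hsK : s ∈ KK := h.2 s hs hs1
  have hne : Subgroup.zpowers s ≠ Subgroup.zpowers x := by
    intro he
    exact hsx (he ▸ Subgroup.mem_zpowers s)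
  obtain ⟨z, hz, hz1, hzw⟩ := A.b s hsK x hxK (h.1 s hs x hx) hne w hw
  have hcs : ∀ t ∈ Subgroup.zpowers s, Commute t x := by
    rintro _ ⟨i, rfl⟩
    exact (h.1 s hs x hx).zpow_left i
  obtain ⟨s', hs', β, rfl⟩ := mem_sup_zpowers (Subgroup.zpowers s) x hcs hz
  by_cases hs'1 : s' = 1
  · exfalso
    subst hs'1
    rw [one_mul] at hz1 hzw
    obtain ⟨γ, hγ⟩ := mem_zpowers_of_mem A.prime (A.ord x hxK) ⟨β, rfl⟩ hz1
    apply hxw
    rw [← hγ]
    exact hzw.zpow_left γ
  · obtain ⟨γ, hγ⟩ := mem_zpowers_of_mem A.prime (A.ord s hsK) hs' hs'1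
    refine ⟨β * γ, ?_⟩
    have h1 : (s' * x ^ β) ^ γ = s * x ^ (β * γ) := by
      rw [((hcs s' hs').zpow_right β).mul_zpow, zpow_mul]
      simp only at hγ
      rw [hγ]
    rw [← h1]
    exact hzw.zpow_left γ

theorem card_lt_of_lt' {G : Type*} [Group G] [Finite G] {H K : Subgroup G} (h : H < K) :
    Nat.card H < Nat.card K := by
  by_contra hcon
  exact h.ne (Subgroup.eq_of_le_of_card_ge h.le (not_lt.1 hcon))

open scoped Pointwise in
theorem exchange {G : Type*} [Group G] [Finite G] {p : ℕ} {KK : Set G} (A : Ax p KK)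
    {S S' : Subgroup G} (hS : Sing KK S) (hS' : Sing KK S') {d₀ w : G} (hd : d₀ ∈ S)
    (hd' : d₀ ∈ S') (hw : w ∈ KK) (hdw : ¬ Commute d₀ w) :
    ∃ S'' : Subgroup G, Sing KK S'' ∧ Nat.card S' ≤ Nat.card S'' ∧
      Nat.card (S ⊓ S'' : Subgroup G) < Nat.card (S ⊓ S' : Subgroup G) := by
  have := Fact.mk A.prime
  set T : Subgroup G := S' ⊓ Subgroup.centralizer {w} with hT
  have hTS' : T ≤ S' := inf_le_left
  have hTc : ∀ t ∈ T, Commute t w := by
    intro t ht
    exact Subgroup.mem_centralizer_singleton_iff.1 (Subgroup.mem_inf.1 ht).2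
  have hST : Sing KK T := hS'.mono hTS'
  have hS'' : Sing KK (T ⊔ Subgroup.zpowers w) := hST.sup A hw hTc
  have hwS' : w ∉ S' := fun h => hdw (hS'.1 d₀ hd' w h)
  have hd1 : d₀ ≠ 1 := by
    rintro rfl
    exact hdw (Commute.one_left w)
  refine ⟨T ⊔ Subgroup.zpowers w, hS'', ?_, ?_⟩
  · -- cardinalities
    have h1 : Nat.card S' ≤ Nat.card T * p := by
      have hsub : (S' : Set G) ⊆ (T : Set G) * (Subgroup.zpowers d₀ : Set G) := by
        intro s hs
        obtain ⟨i, hi⟩ := hyper A hS' hw hd' hdw hs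
        refine Set.mem_mul.2 ⟨s * d₀ ^ i, ?_, (d₀ ^ i)⁻¹, ?_, by group⟩
        · exact Subgroup.mem_inf.2 ⟨S'.mul_mem hs (S'.zpow_mem hd' i),
            Subgroup.mem_centralizer_singleton_iff.2 hi⟩
        · exact Subgroup.inv_mem _ ⟨i, rfl⟩
      calc Nat.card S' = Nat.card (S' : Set G) := rfl
        _ ≤ Nat.card ((T : Set G) * (Subgroup.zpowers d₀ : Set G) : Set G) :=
            Nat.card_mono (Set.toFinite _) hsub
        _ ≤ Nat.card (T : Set G) * Nat.card (Subgroup.zpowers d₀ : Set G) := Set.natCard_mul_le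
        _ = Nat.card T * p := by
            congr 1
            have : Nat.card (Subgroup.zpowers d₀) = p := by
              rw [Nat.card_zpowers]; exact A.ord d₀ (hS.2 d₀ hd hd1)
            exact this
    have h2 : Nat.card T * p ≤ Nat.card (T ⊔ Subgroup.zpowers w : Subgroup G) := by
      obtain ⟨m, hm⟩ := IsPGroup.iff_card.1 (hS''.isPGroup A)
      obtain ⟨k, hk⟩ := IsPGroup.iff_card.1 (hST.isPGroup A)
      have hlt : T < T ⊔ Subgroup.zpowers w := by
        refine lt_of_le_of_ne le_sup_left ?_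
        intro he
        apply hwS'
        apply hTS'
        rw [he]
        exact (le_sup_right : Subgroup.zpowers w ≤ _) (Subgroup.mem_zpowers w)
      have h3 := card_lt_of_lt' hlt
      rw [hm, hk] at h3 ⊢
      have h4 : k < m := (Nat.pow_lt_pow_iff_right A.prime.one_lt).1 h3
      rw [← pow_succ]
      exact Nat.pow_le_pow_right A.prime.pos h4
    exact h1.trans h2
  · apply card_lt_of_lt'
    have key : ∀ e ∈ S, e ∈ T ⊔ Subgroup.zpowers w → e ∈ T := by
      intro e he he'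
      obtain ⟨t, ht, i, rfl⟩ := mem_sup_zpowers T w hTc he'
      by_cases hi : w ^ i = 1
      · rw [hi, mul_one]; exact ht
      · exfalso
        apply hdw
        have c1 : Commute d₀ t := hS'.1 d₀ hd' t (hTS' ht)
        have c2 : Commute d₀ (t * w ^ i) := hS.1 d₀ hd _ he
        have c3 : Commute d₀ (w ^ i) := by
          have := c1.inv_right.mul_right c2
          rwa [inv_mul_cancel_left] at this
        obtain ⟨γ, hγ⟩ := mem_zpowers_of_mem A.prime (A.ord w hw) ⟨i, rfl⟩ hi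
        rw [← hγ]
        exact c3.zpow_right γ
    refine lt_of_le_of_ne ?_ ?_
    · intro e he
      obtain ⟨h1, h2⟩ := Subgroup.mem_inf.1 he
      exact Subgroup.mem_inf.2 ⟨h1, hTS' (key e h1 h2)⟩
    · intro he
      have h1 : d₀ ∈ S ⊓ (T ⊔ Subgroup.zpowers w) := by
        rw [he]; exact Subgroup.mem_inf.2 ⟨hd, hd'⟩
      exact hdw (hTc d₀ (key d₀ hd (Subgroup.mem_inf.1 h1).2))

theorem opposite_false {G : Type*} [Group G] [Finite G] {p : ℕ} {KK : Set G} (A : Ax p KK)
    {S S' : Subgroup G} (hS : Sing KK S) (hS' : Sing KK S') (hbot : S ⊓ S' = ⊥)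
    (hbig : p < Nat.card S)
    (hmS : ∀ r ∈ KK, (∀ s ∈ S, Commute s r) → r ∈ S)
    (hmS' : ∀ r ∈ KK, (∀ s ∈ S', Commute s r) → r ∈ S') : False := by
  have hdisj : ∀ g, g ∈ S → g ∈ S' → g = 1 := by
    intro g h1 h2
    have : g ∈ S ⊓ S' := Subgroup.mem_inf.2 ⟨h1, h2⟩
    rwa [hbot, Subgroup.mem_bot] at this
  -- a
  have hSne : S ≠ ⊥ := by
    intro h
    rw [h, Subgroup.card_bot] at hbig
    have := A.prime.one_lt
    omega
  obtain ⟨a', ha'⟩ := Subgroup.ne_bot_iff_exists_ne_one.1 hSne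
  obtain ⟨a, ha, ha1⟩ : ∃ a ∈ S, a ≠ 1 := ⟨a', a'.2, fun h => ha' (Subtype.ext h)⟩
  have haK : a ∈ KK := hS.2 a ha ha1
  -- d
  obtain ⟨d, hd, had⟩ : ∃ d ∈ S', ¬ Commute a d := by
    by_contra hcon
    push Not at hcon
    exact ha1 (hdisj a ha (hmS' a haK (fun s hs => (hcon s hs).symm)))
  have hd1 : d ≠ 1 := by
    rintro rfl
    exact had (Commute.one_right a)
  have hdK : d ∈ KK := hS'.2 d hd hd1
  -- c
  obtain ⟨s, hs, hsa⟩ : ∃ s ∈ S, s ∉ Subgroup.zpowers a := by
    by_contra hcon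
    push Not at hcon
    have hle : S ≤ Subgroup.zpowers a := hcon
    have := Subgroup.card_le_of_le hle
    rw [Nat.card_zpowers, A.ord a haK] at this
    omega
  obtain ⟨i, hi⟩ := hyper A hS hdK ha had hs
  set c := s * a ^ i with hc
  have hcS : c ∈ S := S.mul_mem hs (S.zpow_mem ha i)
  have hc1 : c ≠ 1 := by
    intro h
    apply hsa
    have : s = (a ^ i)⁻¹ := eq_inv_of_mul_eq_one_left h
    rw [this]
    exact Subgroup.inv_mem _ ⟨i, rfl⟩
  have hcK : c ∈ KK := hS.2 c hcS hc1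
  have hcd : Commute c d := hi
  -- b
  obtain ⟨b, hb, hba, hbc⟩ : ∃ b ∈ S', Commute b a ∧ ¬ Commute b c := by
    by_contra hcon
    push Not at hcon
    apply hc1
    apply hdisj c hcS
    apply hmS' c hcK
    intro s' hs'
    obtain ⟨j, hj⟩ := hyper A hS' haK hd (fun h => had h.symm) hs'
    have h1 := hcon _ (S'.mul_mem hs' (S'.zpow_mem hd j)) hj
    have h2 : Commute (d ^ j)⁻¹ c := (hcd.symm.zpow_left j).inv_left
    have := h1.mul_left h2
    rwa [mul_inv_cancel_right] at this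
  have hb1 : b ≠ 1 := by
    rintro rfl
    exact hbc (Commute.one_left c)
  have hbK : b ∈ KK := hS'.2 b hb hb1
  have hab1 : a * b ≠ 1 := by
    intro h
    apply ha1
    apply hdisj a ha
    rw [eq_inv_of_mul_eq_one_left h]
    exact S'.inv_mem hb
  have habK : a * b ∈ KK := by
    refine A.a a haK b hbK hba.symm _ ?_ hab1
    exact Subgroup.mul_mem _ ((le_sup_left : Subgroup.zpowers a ≤ _) (Subgroup.mem_zpowers a))
      ((le_sup_right : Subgroup.zpowers b ≤ _) (Subgroup.mem_zpowers b))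
  have hne : Subgroup.zpowers c ≠ Subgroup.zpowers d := by
    intro he
    apply hc1
    apply hdisj c hcS
    have : c ∈ Subgroup.zpowers d := he ▸ Subgroup.mem_zpowers c
    exact (Subgroup.zpowers_le.2 hd) this
  obtain ⟨z, hz, hz1, hzab⟩ := A.b c hcK d hdK hcd hne (a * b) habK
  have hcs : ∀ t ∈ Subgroup.zpowers c, Commute t d := by
    rintro _ ⟨i, rfl⟩
    exact hcd.zpow_left i
  obtain ⟨c', hc', j, rfl⟩ := mem_sup_zpowers (Subgroup.zpowers c) d hcs hz
  have hc'S : c' ∈ S := (Subgroup.zpowers_le.2 hcS) hc'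
  have hac' : Commute a c' := hS.1 a ha c' hc'S
  have hdj1 : d ^ j ≠ 1 := by
    intro h
    rw [h, mul_one] at hz1 hzab
    apply hbc
    have h1 : Commute c' b := by
      have := hac'.symm.inv_right.mul_right hzab
      rwa [inv_mul_cancel_left] at this
    obtain ⟨γ, hγ⟩ := mem_zpowers_of_mem A.prime (A.ord c hcK) hc' hz1
    rw [← hγ]
    exact (h1.zpow_left γ).symm
  set d' := d ^ j with hd'
  have hd'S : d' ∈ S' := S'.zpow_mem hd j
  have had' : ¬ Commute a d' := by
    intro h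
    apply had
    obtain ⟨γ, hγ⟩ := mem_zpowers_of_mem A.prime (A.ord d hdK) ⟨j, rfl⟩ hdj1
    rw [← hγ]
    exact h.zpow_right γ
  have hd'K : d' ∈ KK := hS'.2 d' hd'S hdj1
  have hd'b : Commute d' b := hS'.1 d' hd'S b hb
  have hd'c' : Commute d' c' := (hcs c' hc').symm.zpow_left j
  -- the element r
  have hr : a⁻¹ * d' * a * d'⁻¹ = c'⁻¹ * b * c' * b⁻¹ := by
    have e0 : c' * d' * (a * b) = a * b * (c' * d') := hzab.eq
    have e1 : c'⁻¹ * b * c' * d' = a⁻¹ * d' * a * b := by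
      calc c'⁻¹ * b * c' * d' = c'⁻¹ * a⁻¹ * (a * b * (c' * d')) := by group
        _ = c'⁻¹ * a⁻¹ * (c' * d' * (a * b)) := by rw [e0]
        _ = (a * c')⁻¹ * c' * d' * a * b := by group
        _ = (c' * a)⁻¹ * c' * d' * a * b := by rw [hac'.eq]
        _ = _ := by group
    calc a⁻¹ * d' * a * d'⁻¹ = (a⁻¹ * d' * a * b) * (d' * b)⁻¹ := by group
      _ = (c'⁻¹ * b * c' * d') * (b * d')⁻¹ := by rw [e1, hd'b.eq]
      _ = _ := by group
  set r := a⁻¹ * d' * a * d'⁻¹ with hrdef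
  have hra : Commute a r := by
    rw [hr]
    exact (((hac'.inv_right).mul_right hba.symm).mul_right hac').mul_right hba.symm.inv_right
  have hrd : Commute d' r := by
    rw [hr]
    exact (((hd'c'.inv_right).mul_right hd'b).mul_right hd'c').mul_right hd'b.inv_right
  have hr1 : r ≠ 1 := by
    intro h
    apply had'
    have : a⁻¹ * d' * a = d' := by
      rw [hrdef] at h
      exact mul_inv_eq_one.1 h
    have h2 : d' * a = a * d' := by
      calc d' * a = a * (a⁻¹ * d' * a) := by group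
        _ = a * d' := by rw [this]
    exact h2.symm
  have harK : a * r ∈ KK := by
    have := A.conj a haK d'
    have e : a * r = d' * a * d'⁻¹ := by rw [hrdef]; group
    rw [e]; exact this
  have hrK : r ∈ KK := by
    refine A.a a haK (a * r) harK ((Commute.refl a).mul_right hra) r ?_ hr1
    have h1 := Subgroup.mul_mem _ (Subgroup.inv_mem _
      ((le_sup_left : Subgroup.zpowers a ≤ Subgroup.zpowers a ⊔ Subgroup.zpowers (a * r))
        (Subgroup.mem_zpowers a)))
      ((le_sup_right : Subgroup.zpowers (a * r) ≤ Subgroup.zpowers a ⊔ Subgroup.zpowers (a * r))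
        (Subgroup.mem_zpowers _))
    rwa [inv_mul_cancel_left] at h1
  have comm_r : ∀ t : G, Commute t a → Commute t d' → Commute t r := by
    intro t h1 h2
    exact (((h1.inv_right).mul_right h2).mul_right h1).mul_right h2.inv_right
  have hrS : r ∈ S := by
    apply hmS r hrK
    intro s hs
    obtain ⟨k, hk⟩ := hyper A hS hd'K ha had' hs
    have h1 := comm_r _ (hS.1 _ (S.mul_mem hs (S.zpow_mem ha k)) a ha) hk
    have h2 : Commute (a ^ k)⁻¹ r := (hra.zpow_left k).inv_left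
    have := h1.mul_left h2
    rwa [mul_inv_cancel_right] at this
  have hrS' : r ∈ S' := by
    apply hmS' r hrK
    intro s hs
    obtain ⟨k, hk⟩ := hyper A hS' haK hd'S (fun h => had' h.symm) hs
    have h1 := comm_r _ hk (hS'.1 _ (S'.mul_mem hs (S'.zpow_mem hd'S k)) d' hd'S)
    have h2 : Commute (d' ^ k)⁻¹ r := (hrd.zpow_left k).inv_left
    have := h1.mul_left h2
    rwa [mul_inv_cancel_right] at this
  exact hr1 (hdisj r hrS hrS')

theorem exists_radical {G : Type*} [Group G] [Finite G] {p : ℕ} {KK : Set G} (A : Ax p KK)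
    (hex : ∃ x ∈ KK, ∃ y ∈ KK, Commute x y ∧ Subgroup.zpowers x ≠ Subgroup.zpowers y) :
    ∃ v ∈ KK, ∀ w ∈ KK, Commute v w := by
  classical
  by_contra hNR
  push Not at hNR
  obtain ⟨x₀, hx₀, y₀, hy₀, hc₀, hne₀⟩ := hex
  have hS0 : Sing KK (Subgroup.zpowers x₀ ⊔ Subgroup.zpowers y₀) := by
    refine (sing_zpowers A hx₀).sup A hy₀ ?_
    rintro _ ⟨i, rfl⟩
    exact hc₀.zpow_left i
  have : Nonempty {S : Subgroup G // Sing KK S} := ⟨⟨_, hS0⟩⟩
  obtain ⟨⟨S₀, hS₀⟩, hmax⟩ :=
    Finite.exists_max (fun S : {S : Subgroup G // Sing KK S} => Nat.card S.1)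
  have hmax' : ∀ S : Subgroup G, Sing KK S → Nat.card S ≤ Nat.card S₀ := fun S hS => hmax ⟨S, hS⟩
  have hn : p < Nat.card S₀ := by
    refine lt_of_lt_of_le ?_ (hmax' _ hS0)
    have hlt : Subgroup.zpowers x₀ < Subgroup.zpowers x₀ ⊔ Subgroup.zpowers y₀ := by
      refine lt_of_le_of_ne le_sup_left ?_
      intro he
      have hy : y₀ ∈ Subgroup.zpowers x₀ := by
        rw [he]
        exact (le_sup_right : Subgroup.zpowers y₀ ≤ _) (Subgroup.mem_zpowers y₀)
      have hx := mem_zpowers_of_mem A.prime (A.ord x₀ hx₀) hy (ne_one_of_mem A hy₀)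
      exact hne₀ (le_antisymm (Subgroup.zpowers_le.2 hx) (Subgroup.zpowers_le.2 hy))
    have := card_lt_of_lt' hlt
    rwa [Nat.card_zpowers, A.ord x₀ hx₀] at this
  have hMx : ∀ S : Subgroup G, Sing KK S → Nat.card S = Nat.card S₀ → ∀ r ∈ KK,
      (∀ s ∈ S, Commute s r) → r ∈ S := by
    intro S hS hcard r hr hc
    have h1 := hmax' _ (hS.sup A hr hc)
    have h2 : S = S ⊔ Subgroup.zpowers r :=
      Subgroup.eq_of_le_of_card_ge le_sup_left (by rw [hcard]; exact h1)
    rw [h2]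
    exact (le_sup_right : Subgroup.zpowers r ≤ _) (Subgroup.mem_zpowers r)
  have : Nonempty {P : Subgroup G × Subgroup G // Sing KK P.1 ∧ Sing KK P.2 ∧
      Nat.card P.1 = Nat.card S₀ ∧ Nat.card P.2 = Nat.card S₀} := ⟨⟨(S₀, S₀), hS₀, hS₀, rfl, rfl⟩⟩
  obtain ⟨⟨⟨S, S'⟩, hS, hS', hcS, hcS'⟩, hmin⟩ :=
    Finite.exists_min (fun P : {P : Subgroup G × Subgroup G // Sing KK P.1 ∧ Sing KK P.2 ∧
      Nat.card P.1 = Nat.card S₀ ∧ Nat.card P.2 = Nat.card S₀} =>
      Nat.card (P.1.1 ⊓ P.1.2 : Subgroup G))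
  simp only at hS hS' hcS hcS' hmin
  have hbot : S ⊓ S' = ⊥ := by
    by_contra hne
    obtain ⟨d', hd'⟩ := Subgroup.ne_bot_iff_exists_ne_one.1 hne
    obtain ⟨hd1, hd2⟩ := Subgroup.mem_inf.1 d'.2
    have hd0 : (d' : G) ≠ 1 := fun h => hd' (Subtype.ext h)
    obtain ⟨w, hw, hdw⟩ := hNR d' (hS.2 _ hd1 hd0)
    obtain ⟨S'', hS'', hc1, hc2⟩ := exchange A hS hS' hd1 hd2 hw hdw
    have hc3 : Nat.card S'' = Nat.card S₀ := le_antisymm (hmax' _ hS'') (hcS' ▸ hc1)
    have := hmin ⟨(S, S''), hS, hS'', hcS, hc3⟩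
    simp only at this
    omega
  exact opposite_false A hS hS' hbot (hcS ▸ hn) (hMx S hS hcS) (hMx S' hS' hcS')


/-- Let p be a prime and K a set of subgroups of order p of a finite group G, closed under conjugation, such that at least two distinct members of K commute elementwise, and whenever two distinct members X, Y of K commute: every subgroup of order p of the group XY they generate belongs to K, and every member W of K has centralizer meeting XY nontrivially. Then some member V of K commutes elementwise with every member of K and lies in O_p(G); in particular G is not simple. -/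
theorem result {G : Type*} [Group G] [Finite G]
    {p : ℕ} (hp : p.Prime) (K : Set (Subgroup G)) (hK : ∀ X ∈ K, Nat.card ↥X = p)
    (hKc : ∀ X ∈ K, ∀ g : G, X.map (MulAut.conj g).toMonoidHom ∈ K)
    (hex : ∃ X ∈ K, ∃ Y ∈ K, X ≠ Y ∧ ∀ x ∈ X, ∀ y ∈ Y, x * y = y * x)
    (ha : ∀ X ∈ K, ∀ Y ∈ K, X ≠ Y → (∀ x ∈ X, ∀ y ∈ Y, x * y = y * x) →
      ∀ Z : Subgroup G, Z ≤ X ⊔ Y → Nat.card ↥Z = p → Z ∈ K)
    (hb : ∀ X ∈ K, ∀ Y ∈ K, X ≠ Y → (∀ x ∈ X, ∀ y ∈ Y, x * y = y * x) →
      ∀ W ∈ K, (X ⊔ Y) ⊓ Subgroup.centralizer (W : Set G) ≠ ⊥) :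
    (∃ V ∈ K, (∀ W ∈ K, ∀ v ∈ V, ∀ w ∈ W, v * w = w * v) ∧ V ≤ Cfsg.pCore p G) ∧ ¬ IsSimpleGroup G := by
  classical
  have := Fact.mk hp
  let KK : Set G := {x | x ≠ 1 ∧ Subgroup.zpowers x ∈ K}
  have hgen : ∀ X ∈ K, ∀ x ∈ X, x ≠ 1 → Subgroup.zpowers x = X := by
    intro X hX x hx hx1
    have hle : Subgroup.zpowers x ≤ X := Subgroup.zpowers_le.2 hx
    apply Subgroup.eq_of_le_of_card_ge hle
    have hd : Nat.card (Subgroup.zpowers x) ∣ p := hK X hX ▸ Subgroup.card_dvd_of_le hle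
    rcases (Nat.dvd_prime hp).1 hd with h | h
    · rw [Nat.card_zpowers, orderOf_eq_one_iff] at h
      exact absurd h hx1
    · rw [h, hK X hX]
  have hmemKK : ∀ X ∈ K, ∀ x ∈ X, x ≠ 1 → x ∈ KK := by
    intro X hX x hx hx1
    exact ⟨hx1, (hgen X hX x hx hx1).symm ▸ hX⟩
  have hcomm : ∀ x y : G, Commute x y → ∀ u ∈ Subgroup.zpowers x, ∀ v ∈ Subgroup.zpowers y,
      u * v = v * u := by
    rintro x y h _ ⟨i, rfl⟩ _ ⟨j, rfl⟩
    exact (h.zpow_zpow i j).eq
  have hord : ∀ x ∈ KK, orderOf x = p := by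
    intro x hx
    rw [← Nat.card_zpowers]; exact hK _ hx.2
  have A : Ax p KK :=
    { prime := hp
      ord := hord
      conj := by
        intro x hx g
        refine ⟨?_, ?_⟩
        · intro h
          apply hx.1
          calc x = g⁻¹ * (g * x * g⁻¹) * g := by group
            _ = 1 := by rw [h]; group
        · have := hKc _ hx.2 g
          rw [MonoidHom.map_zpowers] at this
          exact this
      pw := by
        intro x hx y hy hy1
        exact hmemKK _ hx.2 y hy hy1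
      a := by
        intro x hx y hy hc z hz hz1
        by_cases he : Subgroup.zpowers x = Subgroup.zpowers y
        · rw [← he, sup_idem] at hz
          exact hmemKK _ hx.2 z hz hz1
        · refine ⟨hz1, ha _ hx.2 _ hy.2 he (hcomm x y hc) _ (Subgroup.zpowers_le.2 hz) ?_⟩
          rw [Nat.card_zpowers]
          have hcs : ∀ t ∈ Subgroup.zpowers x, Commute t y := by
            rintro _ ⟨i, rfl⟩
            exact hc.zpow_left i
          obtain ⟨s, ⟨i, rfl⟩, j, rfl⟩ := mem_sup_zpowers (Subgroup.zpowers x) y hcs hz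
          have hzp : (x ^ i * y ^ j) ^ p = 1 := by
            rw [(hc.zpow_zpow i j).mul_pow, ← zpow_natCast, ← zpow_natCast, ← zpow_mul, ← zpow_mul,
              mul_comm i, mul_comm j, zpow_mul, zpow_mul, zpow_natCast, zpow_natCast]
            have h1 : x ^ p = 1 := by rw [← hord x hx]; exact pow_orderOf_eq_one x
            have h2 : y ^ p = 1 := by rw [← hord y hy]; exact pow_orderOf_eq_one y
            rw [h1, h2]; simp
          exact orderOf_eq_prime hzp hz1
      b := by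
        intro x hx y hy hc hne w hw
        have h1 := hb _ hx.2 _ hy.2 hne (hcomm x y hc) _ hw.2
        obtain ⟨z, hz⟩ := Subgroup.ne_bot_iff_exists_ne_one.1 h1
        obtain ⟨hz1, hz2⟩ := Subgroup.mem_inf.1 z.2
        refine ⟨z, hz1, fun h => hz (Subtype.ext h), ?_⟩
        exact ((Subgroup.mem_centralizer_iff.1 hz2) w (Subgroup.mem_zpowers w)).symm }
  have hex' : ∃ x ∈ KK, ∃ y ∈ KK, Commute x y ∧ Subgroup.zpowers x ≠ Subgroup.zpowers y := by
    obtain ⟨X, hX, Y, hY, hXY, hc⟩ := hex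
    have hne : ∀ Z ∈ K, ∃ z ∈ Z, z ≠ 1 := by
      intro Z hZ
      have : Z ≠ ⊥ := by
        intro h
        have := hK Z hZ
        rw [h, Subgroup.card_bot] at this
        exact hp.one_lt.ne this
      obtain ⟨z, hz⟩ := Subgroup.ne_bot_iff_exists_ne_one.1 this
      exact ⟨z, z.2, fun h => hz (Subtype.ext h)⟩
    obtain ⟨x, hx, hx1⟩ := hne X hX
    obtain ⟨y, hy, hy1⟩ := hne Y hY
    refine ⟨x, hmemKK X hX x hx hx1, y, hmemKK Y hY y hy hy1, hc x hx y hy, ?_⟩
    rw [hgen X hX x hx hx1, hgen Y hY y hy hy1]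
    exact hXY
  obtain ⟨v, hv, hvc⟩ := exists_radical A hex'
  let R : Set G := {v | v ∈ KK ∧ ∀ w ∈ KK, Commute v w}
  have hRinv : ∀ g : G, ∀ x ∈ R, g * x * g⁻¹ ∈ R := by
    rintro g x ⟨hx, hxc⟩
    refine ⟨A.conj x hx g, ?_⟩
    intro w hw
    have h1 := hxc _ (A.conj w hw g⁻¹)
    have h2 := (Commute.conj_iff g).2 h1
    have e : g * (g⁻¹ * w * g⁻¹⁻¹) * g⁻¹ = w := by group
    rwa [e] at h2
  have hRp : ∀ x ∈ R, ∀ y ∈ R, IsPGroup p (Subgroup.closure ({x, y} : Set G)) := by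
    rintro x ⟨hx, hxc⟩ y ⟨hy, _⟩
    have hS : Sing KK (Subgroup.zpowers x ⊔ Subgroup.zpowers y) := by
      refine (sing_zpowers A hx).sup A hy ?_
      rintro _ ⟨i, rfl⟩
      exact (hxc y hy).zpow_left i
    refine (hS.isPGroup A).to_le ?_
    rw [Subgroup.closure_le]
    intro z hz
    rcases hz with rfl | hz
    · exact (le_sup_left : Subgroup.zpowers z ≤ _) (Subgroup.mem_zpowers z)
    · rw [Set.mem_singleton_iff] at hz
      rw [hz]
      exact (le_sup_right : Subgroup.zpowers y ≤ _) (Subgroup.mem_zpowers y)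
  obtain ⟨hNn, hNp⟩ := Cfsg.Agent.Lib.Helper7_BaerSuzuki.baer_suzuki_set R hRinv hRp
  have hvN : v ∈ Subgroup.closure R := Subgroup.subset_closure ⟨hv, hvc⟩
  refine ⟨⟨Subgroup.zpowers v, hv.2, ?_, ?_⟩, ?_⟩
  · intro W hW v' hv' w hw
    by_cases hw1 : w = 1
    · rw [hw1]; simp
    · obtain ⟨i, rfl⟩ := hv'
      exact ((hvc w (hmemKK W hW w hw hw1)).zpow_left i).eq
  · exact (Subgroup.zpowers_le.2 hvN).trans (Cfsg.Agent.Lib.Helper4_Core.le_pCore hNn hNp)
  · intro hsimple
    have hNtop : Subgroup.closure R = ⊤ := by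
      rcases hsimple.eq_bot_or_eq_top_of_normal _ hNn with h | h
      · rw [h, Subgroup.mem_bot] at hvN
        exact absurd hvN hv.1
      · exact h
    have hcen : ∀ g : G, Commute g v := by
      intro g
      have hle : Subgroup.closure R ≤ Subgroup.centralizer {v} := by
        rw [Subgroup.closure_le]
        intro x hx
        exact Subgroup.mem_centralizer_singleton_iff.2 (hvc x hx.1).symm.eq
      have : g ∈ Subgroup.centralizer {v} := hle (hNtop ▸ Subgroup.mem_top g)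
      exact Subgroup.mem_centralizer_singleton_iff.1 this
    have hVn : (Subgroup.zpowers v).Normal := by
      refine ⟨?_⟩
      rintro _ ⟨i, rfl⟩ g
      have : g * v ^ i * g⁻¹ = v ^ i := by
        rw [((hcen g).zpow_right i).eq, mul_inv_cancel_right]
      simp only
      rw [this]
      exact ⟨i, rfl⟩
    have hVtop : Subgroup.zpowers v = ⊤ := by
      rcases hsimple.eq_bot_or_eq_top_of_normal _ hVn with h | h
      · have := Subgroup.mem_zpowers v
        rw [h, Subgroup.mem_bot] at this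
        exact absurd this hv.1
      · exact h
    have hcardG : Nat.card G = p := by
      rw [← Subgroup.card_top, ← hVtop]; exact hK _ hv.2
    obtain ⟨X, hX, Y, hY, hXY, _⟩ := hex
    have h1 : X = ⊤ := Subgroup.eq_top_of_card_eq X (by rw [hK X hX, hcardG])
    have h2 : Y = ⊤ := Subgroup.eq_top_of_card_eq Y (by rw [hK Y hY, hcardG])
    exact hXY (h1.trans h2.symm)

end Cfsg.Agent.S3196
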