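import Mathlib
import Cfsg.Agent.Lib.helper6_Sylow
import Cfsg.Statements.S3208

set_option autoImplicit false
open Cfsg

namespace Cfsg.Agent.S3208

/-- Let j be an involution of a finite group G, H a subgroup of G, and T a Sylow 2-subgroup of H ∩ C_G(j) containing j such that ⟨j⟩ is a characteristic subgroup of T. Then T is a Sylow 2-subgroup of H. -/
theorem result {G : Type*} [Group G] [Finite G]
    (j : G) (hj : orderOf j = 2) (H T : Subgroup G) (hT : T ≤ H ⊓ Subgroup.centralizer ({j} : Set G)) (h2 : IsPGroup 2 ↥T)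
    (hSyl : ¬ 2 ∣ T.relIndex (H ⊓ Subgroup.centralizer ({j} : Set G))) (hjT : j ∈ T)
    (hchar : ((Subgroup.zpowers j).subgroupOf T).Characteristic) :
    ¬ 2 ∣ T.relIndex H := by
  classical
  intro hdiv
  have : Fact (Nat.Prime 2) := ⟨Nat.prime_two⟩
  have hTH : T ≤ H := hT.trans inf_le_left
  obtain ⟨K, hTK, hKH, hKN, hcard⟩ :=
    Cfsg.Agent.Lib.helper6_Sylow.exists_normalizing_overgroup T H h2 hTH hdiv
  have hjz : Subgroup.zpowers j ≤ T := by
    rw [Subgroup.zpowers_le]; exact hjT
  have hKC : K ≤ Subgroup.centralizer ({j} : Set G) := by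
    intro k hk
    have h1 : k * j * k⁻¹ ∈ Subgroup.zpowers j :=
      Cfsg.Agent.Lib.helper6_Sylow.conj_mem_of_char hjz hchar (hKN hk) (Subgroup.mem_zpowers j)
    have h3 : k * j * k⁻¹ = j := by
      rw [← mem_powers_iff_mem_zpowers, mem_powers_iff_mem_range_orderOf, hj] at h1
      simp only [Finset.mem_image, Finset.mem_range] at h1
      obtain ⟨i, hi, hij⟩ := h1
      interval_cases i
      · exfalso
        simp only [pow_zero] at hij
        have : j = 1 := by
          have : k * j * k⁻¹ = 1 := hij.symm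
          rwa [conj_eq_one_iff] at this
        rw [this] at hj; simp at hj
      · simpa using hij.symm
    rw [Subgroup.mem_centralizer_singleton_iff]
    exact mul_inv_eq_iff_eq_mul.1 h3
  have hK : K ≤ H ⊓ Subgroup.centralizer ({j} : Set G) := le_inf hKH hKC
  apply hSyl
  have e1 := Cfsg.Agent.Lib.helper6_Sylow.card_mul_relIndex hT
  have e2 := Cfsg.Agent.Lib.helper6_Sylow.card_mul_relIndex hK
  have e3 : Nat.card T * T.relIndex (H ⊓ Subgroup.centralizer ({j} : Set G))
      = Nat.card T * (2 * K.relIndex (H ⊓ Subgroup.centralizer ({j} : Set G))) := by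
    rw [e1, ← e2, hcard]; ring
  have e4 := Nat.eq_of_mul_eq_mul_left Nat.card_pos e3
  exact ⟨_, e4⟩

end Cfsg.Agent.S3208
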