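import Mathlib
import Cfsg.Agent.Lib.Helper5_GL2
import Cfsg.Statements.S3209

set_option autoImplicit false
open Cfsg

namespace Cfsg.Agent.S3209

open Cfsg.Agent.Lib.Helper5_GL2 in
theorem two_ne_zero_of_odd {F : Type*} [Field F] [Fintype F] (hF : Odd (Fintype.card F)) :
    (2 : F) ≠ 0 := by
  apply Ring.two_ne_zero
  intro h
  have := FiniteField.even_card_of_char_two h
  rw [Nat.odd_iff] at hF
  omega

theorem sl2_sq_one {F : Type*} [Field F] (h2 : (2 : F) ≠ 0)
    (g : Matrix.SpecialLinearGroup (Fin 2) F) (hg : g * g = 1) : g = 1 ∨ g = -1 := by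
  have hdet : g.1 0 0 * g.1 1 1 - g.1 0 1 * g.1 1 0 = 1 := by
    have := g.det_coe
    rwa [Matrix.det_fin_two] at this
  have hm : g.1 * g.1 = 1 := by
    have := congrArg Subtype.val hg
    simpa using this
  have e00 := congrFun (congrFun hm 0) 0
  have e01 := congrFun (congrFun hm 0) 1
  have e10 := congrFun (congrFun hm 1) 0
  have e11 := congrFun (congrFun hm 1) 1
  simp [Matrix.mul_apply, Fin.sum_univ_two] at e00 e01 e10 e11
  set a := g.1 0 0
  set b := g.1 0 1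
  set c := g.1 1 0
  set d := g.1 1 1
  have hs : a + d ≠ 0 := by
    intro h
    have hd : d = -a := by linear_combination h
    apply h2
    rw [hd] at hdet
    linear_combination -(e00 + hdet)
  have hb : b = 0 := by
    have : b * (a + d) = 0 := by linear_combination e01
    exact (mul_eq_zero.1 this).resolve_right hs
  have hc : c = 0 := by
    have : c * (a + d) = 0 := by linear_combination e10
    exact (mul_eq_zero.1 this).resolve_right hs
  rw [hb, hc] at hdet e00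
  have ha : (a - 1) * (a + 1) = 0 := by linear_combination e00
  rcases mul_eq_zero.1 ha with h | h
  · left
    have ha1 : a = 1 := by linear_combination h
    have hd1 : d = 1 := by rw [ha1] at hdet; linear_combination hdet
    apply Subtype.ext
    ext i j
    fin_cases i <;> fin_cases j <;> simp <;> assumption
  · right
    have ha1 : a = -1 := by linear_combination h
    have hd1 : d = -1 := by rw [ha1] at hdet; linear_combination -hdet
    apply Subtype.ext
    ext i j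
    fin_cases i <;> fin_cases j <;> simp <;> assumption

open Cfsg.Agent.Lib.Helper5_GL2 Polynomial in
theorem sl2_conj_J {F : Type*} [Field F] [Fintype F] (hF : Odd (Fintype.card F))
    (g : Matrix.SpecialLinearGroup (Fin 2) F) (hg : g * g = -1) : IsConj (compSL (0 : F)) g := by
  have h2 := two_ne_zero_of_odd hF
  have hdet : g.1 0 0 * g.1 1 1 - g.1 0 1 * g.1 1 0 = 1 := by
    have := g.det_coe
    rwa [Matrix.det_fin_two] at this
  have hm : g.1 * g.1 = -1 := by
    have := congrArg Subtype.val hg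
    simpa using this
  have e00 := congrFun (congrFun hm 0) 0
  have e01 := congrFun (congrFun hm 0) 1
  have e10 := congrFun (congrFun hm 1) 0
  have e11 := congrFun (congrFun hm 1) 1
  simp [Matrix.mul_apply, Fin.sum_univ_two] at e00 e01 e10 e11
  have htr : g.1.trace = 0 := by
    rw [Matrix.trace_fin_two]
    by_contra hs
    have hb : g.1 0 1 = 0 := by
      have : g.1 0 1 * (g.1 0 0 + g.1 1 1) = 0 := by linear_combination e01
      exact (mul_eq_zero.1 this).resolve_right hs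
    have h3 : g.1 0 0 * (g.1 0 0 + g.1 1 1) = 0 := by
      rw [hb] at e00 hdet
      linear_combination e00 + hdet
    have h4 : g.1 0 0 = 0 := (mul_eq_zero.1 h3).resolve_right hs
    rw [hb, h4] at hdet
    simp at hdet
  have hns : ¬ ∃ c : F, g.1 = c • (1 : Matrix (Fin 2) (Fin 2) F) := by
    rintro ⟨c, hc⟩
    have h00 := congrFun (congrFun hc 0) 0
    have h11 := congrFun (congrFun hc 1) 1
    simp at h00 h11
    rw [Matrix.trace_fin_two, h00, h11] at htr
    have hc0 : c = 0 := by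
      have : (2 : F) * c = 0 := by linear_combination htr
      exact (mul_eq_zero.1 this).resolve_left h2
    have h01 := congrFun (congrFun hc 0) 1
    simp at h01
    rw [h00, h01, hc0] at hdet
    simp at hdet
  obtain ⟨P, hP, hrel⟩ := exists_conj_comp g.1 hns
  rw [htr, g.det_coe] at hrel
  obtain ⟨α, β, hαβ⟩ := FiniteField.exists_root_sum_quadratic (R := F) (f := X ^ 2)
    (g := X ^ 2 - C (P.det)⁻¹) (degree_X_pow 2) (degree_X_pow_sub_C (by norm_num) _)
    (Nat.odd_iff.1 hF)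
  simp only [eval_pow, eval_X, eval_sub, eval_C] at hαβ
  have hsum : α ^ 2 + β ^ 2 = (P.det)⁻¹ := by linear_combination hαβ
  let C' : Matrix (Fin 2) (Fin 2) F := !![α, -β; β, α]
  have hC'det : C'.det = (P.det)⁻¹ := by
    rw [← hsum]; simp [C', Matrix.det_fin_two]; ring
  have hcomm : Cfsg.Agent.Lib.Helper5_GL2.comp (0 : F) 1 * C' = C' * Cfsg.Agent.Lib.Helper5_GL2.comp (0 : F) 1 := by
    ext i j
    fin_cases i <;> fin_cases j <;>
      simp [Cfsg.Agent.Lib.Helper5_GL2.comp, C', Matrix.mul_apply, Fin.sum_univ_two]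
  have hd : (P * C').det = 1 := by
    rw [Matrix.det_mul, hC'det, mul_inv_cancel₀ hP]
  rw [isConj_iff]
  let y : Matrix.SpecialLinearGroup (Fin 2) F := ⟨P * C', hd⟩
  have hy : y.1 = P * C' := rfl
  refine ⟨y, ?_⟩
  rw [mul_inv_eq_iff_eq_mul]
  apply Subtype.ext
  simp only [Matrix.SpecialLinearGroup.coe_mul, compSL_val]
  rw [hy, ← mul_assoc, hrel, mul_assoc, mul_assoc, hcomm]

open Cfsg.Agent.Lib.Helper5_GL2 in
theorem compSL_sq {F : Type*} [Field F] : compSL (0 : F) * compSL (0 : F) = -1 := by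
  apply Subtype.ext
  simp only [Matrix.SpecialLinearGroup.coe_mul, compSL_val, Matrix.SpecialLinearGroup.coe_neg,
    Matrix.SpecialLinearGroup.coe_one]
  ext i j
  fin_cases i <;> fin_cases j <;> simp [comp, Matrix.mul_apply, Fin.sum_univ_two]

theorem sl2_neg_one_ne {F : Type*} [Field F] (h2 : (2 : F) ≠ 0) :
    (-1 : Matrix.SpecialLinearGroup (Fin 2) F) ≠ 1 := by
  intro h
  have := congrArg (fun M : Matrix.SpecialLinearGroup (Fin 2) F => M.1 0 0) h
  simp at this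
  apply h2
  linear_combination -this

theorem mem_sup_comm {G : Type*} [Group G] (L₁ L₂ : Subgroup G)
    (hc : ∀ x ∈ L₁, ∀ y ∈ L₂, x * y = y * x) {z : G} (hz : z ∈ L₁ ⊔ L₂) :
    ∃ a ∈ L₁, ∃ b ∈ L₂, z = a * b := by
  let M : Subgroup G :=
    { carrier := {z | ∃ a ∈ L₁, ∃ b ∈ L₂, z = a * b}
      one_mem' := ⟨1, L₁.one_mem, 1, L₂.one_mem, by simp⟩
      mul_mem' := by
        rintro _ _ ⟨a, ha, b, hb, rfl⟩ ⟨a', ha', b', hb', rfl⟩
        refine ⟨a * a', L₁.mul_mem ha ha', b * b', L₂.mul_mem hb hb', ?_⟩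
        calc a * b * (a' * b') = a * (b * a') * b' := by group
          _ = a * (a' * b) * b' := by rw [hc a' ha' b hb]
          _ = _ := by group
      inv_mem' := by
        rintro _ ⟨a, ha, b, hb, rfl⟩
        refine ⟨a⁻¹, L₁.inv_mem ha, b⁻¹, L₂.inv_mem hb, ?_⟩
        rw [hc a ha b hb, mul_inv_rev] }
  have hle : L₁ ⊔ L₂ ≤ M := by
    refine sup_le ?_ ?_
    · intro a ha
      exact ⟨a, ha, 1, L₂.one_mem, by simp⟩
    · intro b hb
      exact ⟨1, L₁.one_mem, b, hb, by simp⟩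
  exact hle hz

open Cfsg.Agent.Lib.Helper5_GL2 in
theorem factor_facts {G : Type*} [Group G] {F : Type*} [Field F] [Fintype F]
    (hF : Odd (Fintype.card F)) (L : Subgroup G) (e : ↥L ≃* Matrix.SpecialLinearGroup (Fin 2) F)
    (j : G) (hj : orderOf j = 2) (hjL : j ∈ L) :
    (∀ a ∈ L, a * a = 1 → a = 1 ∨ a = j) ∧
      ∃ u ∈ L, u * u = j ∧ ∀ a ∈ L, a * a = j → ∃ g ∈ L, g * u * g⁻¹ = a := by
  have h2 := two_ne_zero_of_odd hF
  have hj1 : j ≠ 1 := by
    rintro rfl
    simp at hj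
  have hjj : j * j = 1 := by
    rw [← pow_two, ← hj]; exact pow_orderOf_eq_one j
  have hej : e ⟨j, hjL⟩ = -1 := by
    have h1 : e ⟨j, hjL⟩ * e ⟨j, hjL⟩ = 1 := by
      rw [← map_mul]
      have : (⟨j, hjL⟩ : L) * ⟨j, hjL⟩ = 1 := Subtype.ext hjj
      rw [this, map_one]
    rcases sl2_sq_one h2 _ h1 with h | h
    · exfalso
      apply hj1
      have : (⟨j, hjL⟩ : L) = 1 := e.injective (by rw [h, map_one])
      exact congrArg Subtype.val this
    · exact h
  refine ⟨?_, ?_⟩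
  · intro a ha haa
    have h1 : e ⟨a, ha⟩ * e ⟨a, ha⟩ = 1 := by
      rw [← map_mul]
      have : (⟨a, ha⟩ : L) * ⟨a, ha⟩ = 1 := Subtype.ext haa
      rw [this, map_one]
    rcases sl2_sq_one h2 _ h1 with h | h
    · left
      have : (⟨a, ha⟩ : L) = 1 := e.injective (by rw [h, map_one])
      exact congrArg Subtype.val this
    · right
      have : (⟨a, ha⟩ : L) = ⟨j, hjL⟩ := e.injective (by rw [h, hej])
      exact congrArg Subtype.val this
  · refine ⟨(e.symm (compSL 0) : L), (e.symm (compSL 0)).2, ?_, ?_⟩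
    · have : e.symm (compSL 0) * e.symm (compSL 0) = ⟨j, hjL⟩ := by
        apply e.injective
        rw [map_mul, e.apply_symm_apply, compSL_sq, hej]
      exact congrArg Subtype.val this
    · intro a ha haa
      have h1 : e ⟨a, ha⟩ * e ⟨a, ha⟩ = -1 := by
        rw [← map_mul, ← hej]
        congr 1
        exact Subtype.ext haa
      obtain ⟨y, hy⟩ := isConj_iff.1 (sl2_conj_J hF _ h1)
      refine ⟨(e.symm y : L), (e.symm y).2, ?_⟩
      have : e.symm y * e.symm (compSL 0) * (e.symm y)⁻¹ = ⟨a, ha⟩ := by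
        apply e.injective
        rw [map_mul, map_mul, map_inv, e.apply_symm_apply, e.apply_symm_apply, hy]
      exact congrArg Subtype.val this


/-- Let L₁ ≅ SL₂(q₁) and L₂ ≅ SL₂(q₂), q₁ and q₂ odd, be elementwise-commuting subgroups of a finite group meeting in ⟨j⟩ for an involution j. Then L₁L₂ has exactly two conjugacy classes of involutions: the central involution j, and one further class (there is an involution x ≠ j in L₁L₂, and every involution of L₁L₂ other than j is conjugate to x by an element of L₁L₂). -/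
theorem result {G : Type*} [Group G] [Finite G]
    {F₁ : Type*} [Field F₁] [Fintype F₁] {F₂ : Type*} [Field F₂] [Fintype F₂]
    (hF₁ : Odd (Fintype.card F₁)) (hF₂ : Odd (Fintype.card F₂)) (L₁ L₂ : Subgroup G)
    (e₁ : ↥L₁ ≃* Matrix.SpecialLinearGroup (Fin 2) F₁) (e₂ : ↥L₂ ≃* Matrix.SpecialLinearGroup (Fin 2) F₂)
    (hc : ∀ x ∈ L₁, ∀ y ∈ L₂, x * y = y * x) (j : G) (hj : orderOf j = 2) (hm : L₁ ⊓ L₂ = Subgroup.zpowers j) :
    ∃ x ∈ L₁ ⊔ L₂, orderOf x = 2 ∧ x ≠ j ∧
      ∀ y ∈ L₁ ⊔ L₂, orderOf y = 2 → y = j ∨ ∃ g ∈ L₁ ⊔ L₂, g * x * g⁻¹ = y := by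
  classical
  have hj1 : j ≠ 1 := by
    rintro rfl
    simp at hj
  have hjj : j * j = 1 := by
    rw [← pow_two, ← hj]; exact pow_orderOf_eq_one j
  have hjm : j ∈ L₁ ⊓ L₂ := hm ▸ Subgroup.mem_zpowers j
  obtain ⟨hjL₁, hjL₂⟩ := Subgroup.mem_inf.1 hjm
  have hinf : ∀ g, g ∈ L₁ → g ∈ L₂ → g = 1 ∨ g = j := by
    intro g h1 h2
    have : g ∈ Subgroup.zpowers j := hm ▸ Subgroup.mem_inf.2 ⟨h1, h2⟩
    rw [← mem_powers_iff_mem_zpowers, mem_powers_iff_mem_range_orderOf, hj] at this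
    simp only [Finset.mem_image, Finset.mem_range] at this
    obtain ⟨k, hk, rfl⟩ := this
    interval_cases k
    · left; simp
    · right; simp
  obtain ⟨hsq₁, u₁, hu₁, hu₁j, hconj₁⟩ := factor_facts hF₁ L₁ e₁ j hj hjL₁
  obtain ⟨hsq₂, u₂, hu₂, hu₂j, hconj₂⟩ := factor_facts hF₂ L₂ e₂ j hj hjL₂
  have hu₁L₂ : u₁ ∉ L₂ := by
    intro h
    rcases hinf u₁ hu₁ h with h | h
    · rw [h, one_mul] at hu₁j; exact hj1 hu₁j.symm
    · rw [h, hjj] at hu₁j; exact hj1 hu₁j.symm
  have hle₁ : L₁ ≤ L₁ ⊔ L₂ := le_sup_left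
  have hle₂ : L₂ ≤ L₁ ⊔ L₂ := le_sup_right
  have hxx : (u₁ * u₂) * (u₁ * u₂) = 1 := by
    calc (u₁ * u₂) * (u₁ * u₂) = u₁ * (u₂ * u₁) * u₂ := by group
      _ = u₁ * (u₁ * u₂) * u₂ := by rw [hc u₁ hu₁ u₂ hu₂]
      _ = (u₁ * u₁) * (u₂ * u₂) := by group
      _ = 1 := by rw [hu₁j, hu₂j, hjj]
  have hx1 : u₁ * u₂ ≠ 1 := by
    intro h
    apply hu₁L₂
    rw [eq_inv_of_mul_eq_one_left h]
    exact L₂.inv_mem hu₂
  have hxj : u₁ * u₂ ≠ j := by
    intro h
    apply hu₁L₂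
    have : u₁ = j * u₂⁻¹ := by rw [← h]; group
    rw [this]
    exact L₂.mul_mem hjL₂ (L₂.inv_mem hu₂)
  have := Fact.mk Nat.prime_two
  refine ⟨u₁ * u₂, Subgroup.mul_mem _ (hle₁ hu₁) (hle₂ hu₂),
    orderOf_eq_prime (by rw [pow_two]; exact hxx) hx1, hxj, ?_⟩
  intro y hy hy2
  obtain ⟨a, ha, b, hb, rfl⟩ := mem_sup_comm L₁ L₂ hc hy
  have hyy : (a * b) * (a * b) = 1 := by
    rw [← pow_two, ← hy2]; exact pow_orderOf_eq_one _
  have hy1 : a * b ≠ 1 := by
    intro h
    rw [h] at hy2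
    simp at hy2
  have hab : (a * a) * (b * b) = 1 := by
    calc (a * a) * (b * b) = a * (a * b) * b := by group
      _ = a * (b * a) * b := by rw [hc a ha b hb]
      _ = (a * b) * (a * b) := by group
      _ = 1 := hyy
  have haaL₂ : a * a ∈ L₂ := by
    rw [eq_inv_of_mul_eq_one_left hab]
    exact L₂.inv_mem (L₂.mul_mem hb hb)
  rcases hinf (a * a) (L₁.mul_mem ha ha) haaL₂ with haa | haa
  · left
    have hbb : b * b = 1 := by rw [haa, one_mul] at hab; exact hab
    rcases hsq₁ a ha haa with rfl | rfl <;> rcases hsq₂ b hb hbb with rfl | rfl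
    · simp at hy1
    · simp
    · simp
    · exact absurd hjj hy1
  · right
    have hbb : b * b = j := by
      rw [haa] at hab
      calc b * b = (j * j) * (b * b) := by rw [hjj, one_mul]
        _ = j * (j * (b * b)) := by group
        _ = j := by rw [hab, mul_one]
    obtain ⟨g₁, hg₁, hga⟩ := hconj₁ a ha haa
    obtain ⟨g₂, hg₂, hgb⟩ := hconj₂ b hb hbb
    refine ⟨g₁ * g₂, Subgroup.mul_mem _ (hle₁ hg₁) (hle₂ hg₂), ?_⟩
    have c1 : g₂ * u₁ = u₁ * g₂ := (hc u₁ hu₁ g₂ hg₂).symm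
    have c2 : (g₂ * u₂ * g₂⁻¹) * g₁⁻¹ = g₁⁻¹ * (g₂ * u₂ * g₂⁻¹) :=
      (hc g₁⁻¹ (L₁.inv_mem hg₁) _ (L₂.mul_mem (L₂.mul_mem hg₂ hu₂) (L₂.inv_mem hg₂))).symm
    calc g₁ * g₂ * (u₁ * u₂) * (g₁ * g₂)⁻¹ = g₁ * (g₂ * u₁) * u₂ * g₂⁻¹ * g₁⁻¹ := by group
      _ = g₁ * (u₁ * g₂) * u₂ * g₂⁻¹ * g₁⁻¹ := by rw [c1]
      _ = g₁ * u₁ * ((g₂ * u₂ * g₂⁻¹) * g₁⁻¹) := by group
      _ = g₁ * u₁ * (g₁⁻¹ * (g₂ * u₂ * g₂⁻¹)) := by rw [c2]
      _ = (g₁ * u₁ * g₁⁻¹) * (g₂ * u₂ * g₂⁻¹) := by group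
      _ = a * b := by rw [hga, hgb]

end Cfsg.Agent.S3209
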