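import Mathlib
import Cfsg.Agent.Lib.helper6_MaxClass
import Cfsg.Agent.Lib.helper6_MaxClass2
import Cfsg.Statements.S3224

set_option autoImplicit false
open Cfsg

namespace Cfsg.Agent.S3224

open Subgroup Cfsg.Agent.Lib

/-- A finite 2-group containing an involution whose centralizer has order 4 is dihedral, quasi-dihedral (semidihedral), or of order 4. -/
theorem result {S : Type*} [Group S] [Finite S] (hS : IsPGroup 2 S)
    (x : S) (hx : orderOf x = 2) (hC : Nat.card ↥(Subgroup.centralizer ({x} : Set S)) = 4) :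
    (∃ n : ℕ, Nonempty (S ≃* DihedralGroup n)) ∨ Cfsg.IsQuasiDihedral S ∨ Nat.card S = 4 := by
  obtain ⟨n, hn⟩ := IsPGroup.iff_card.1 hS
  obtain ⟨A, hA⟩ : ∃ A : Subgroup S, A = centralizer ({x} : Set S) := ⟨_, rfl⟩
  rw [← hA] at hC
  by_cases h4 : Nat.card S = 4
  · exact Or.inr (Or.inr h4)
  have hn3 : 3 ≤ n := by
    have h1 : Nat.card A ∣ Nat.card S := card_subgroup_dvd_card A
    rw [hC, hn] at h1
    by_contra hlt
    have : n = 0 ∨ n = 1 ∨ n = 2 := by omega
    rcases this with rfl | rfl | rfl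
    · norm_num at h1
    · norm_num at h1
    · exact h4 (by rw [hn]; norm_num)
  obtain ⟨k, rfl⟩ : ∃ k, n = k+3 := ⟨n-3, by omega⟩
  have hmemA : ∀ g, g ∈ A ↔ x * g = g * x := by
    intro g
    rw [hA, mem_centralizer_iff]
    constructor
    · intro h; exact h x rfl
    · intro h y hy
      rw [Set.mem_singleton_iff] at hy
      subst hy; exact h
  have hxA : x ∈ A := (hmemA x).2 rfl
  have hAcomm : ∀ u ∈ A, ∀ v ∈ A, u * v = v * u := by
    intro u hu v hv
    have := IsPGroup.commutative_of_card_eq_prime_sq (p := 2) (G := A) (by rw [hC]; norm_num)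
      ⟨u, hu⟩ ⟨v, hv⟩
    exact congrArg Subtype.val this
  have hCA : centralizer (A : Set S) = A := by
    apply le_antisymm
    · intro g hg
      rw [hmemA]
      exact (mem_centralizer_iff.1 hg) x hxA
    · intro g hg
      rw [mem_centralizer_iff]
      intro u hu
      exact hAcomm u hu g hg
  have hclass := helper6_MaxClass.suzuki (p := 2) (k+3) S hn A (by rw [hC]; norm_num) hCA
  obtain ⟨a, b, ha, hb, hidx, hcases⟩ := helper6_MaxClass2.struct k hn (by omega)
  have hb1 : b ≠ 1 := fun h => hb (h ▸ one_mem _)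
  have hx2 : x^2 = 1 := by rw [← hx]; exact pow_orderOf_eq_one x
  rcases hcases with ⟨hb2, hba⟩ | ⟨hb2, hba⟩ | ⟨hk, hb2, hba⟩
  · left
    exact ⟨2^(k+2), helper6_MaxClass2.dihedral_of (2^(k+2)) a b (by rw [hn]; ring) ha hb hb2 hba⟩
  · exfalso
    have hconj : ∀ i : ℤ, b * a^i * b⁻¹ = (a^i)⁻¹ := by
      intro i
      rw [← conj_zpow, hba, inv_zpow]
    obtain ⟨i, rfl | rfl⟩ := helper6_MaxClass2.gen a b hidx hb x
    · -- x = a^i : a, b ∈ A
      have haA : a ∈ A := by
        rw [hmemA]
        exact ((Commute.refl a).zpow_left i).eq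
      have hbA : b ∈ A := by
        rw [hmemA]
        have h1 := hconj i
        have h2 : (a^i)⁻¹ = a^i := by
          rw [inv_eq_iff_mul_eq_one, ← pow_two]; exact hx2
        rw [h2] at h1
        exact (mul_inv_eq_iff_eq_mul.1 h1).symm
      have hle : zpowers a ≤ A := by rw [zpowers_le]; exact haA
      have heq : zpowers a = A := eq_of_le_of_card_ge hle (by
        rw [hC, Nat.card_zpowers, ha]
        have h4 : 2^(k+2) = 4 * 2^k := by ring
        have h5 : 0 < 2^k := by positivity
        omega)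
      exact hb (heq ▸ hbA)
    · -- x = b a^i
      have h1 : (b * a^i)^2 = b^2 := by
        have h2 : b * a^i = (a^i)⁻¹ * b := mul_inv_eq_iff_eq_mul.1 (hconj i)
        calc (b * a^i)^2 = (b * a^i) * (b * a^i) := pow_two _
          _ = ((a^i)⁻¹ * b) * (b * a^i) := by rw [h2]
          _ = (a^i)⁻¹ * b^2 * a^i := by rw [pow_two]; group
          _ = b^2 := by
            rw [hb2, ← zpow_natCast a, ← zpow_neg, ← zpow_add, ← zpow_add]
            congr 1; ring
      rw [hx2, hb2] at h1
      have h2 := orderOf_dvd_of_pow_eq_one h1.symm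
      rw [ha] at h2
      have h3 := Nat.le_of_dvd (by positivity) h2
      have h4 : 2^(k+2) = 2 * 2^(k+1) := by ring
      have h5 : 0 < 2^(k+1) := by positivity
      omega
  · right; left
    refine ⟨k+2, by omega, hn, a, b, ha, orderOf_eq_prime hb2 hb1, ?_⟩
    rw [hba]
    rfl

end Cfsg.Agent.S3224
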