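import Cfsg.Statements.S3247
import Cfsg.Agent.Lib.Helper4_PCons2
import Cfsg.Agent.Lib.Helper4_Syl

set_option autoImplicit false
open Cfsg

namespace Cfsg.Agent.S3247

open Cfsg.Agent.Lib.Helper4_PCons2 in

/-- Let G be a finite group and p a prime; here a p-local subgroup means the normalizer of a nontrivial p-subgroup, other than G itself. If every p-local subgroup of G that is maximal among p-local subgroups is p-constrained, or if the centralizer of every element of order p of G is p-constrained, then every p-local subgroup of G is p-constrained. -/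
theorem result {G : Type*} [Group G] [Finite G] (p : ℕ) [hp : Fact p.Prime]
    (h : (∀ M : Subgroup G, (∃ T : Subgroup G, IsPGroup p ↥T ∧ T ≠ ⊥ ∧ M = Subgroup.normalizer (T : Set G)) → M ≠ ⊤ →
        (∀ M' : Subgroup G, (∃ T' : Subgroup G, IsPGroup p ↥T' ∧ T' ≠ ⊥ ∧ M' = Subgroup.normalizer (T' : Set G)) → M' ≠ ⊤ → M ≤ M' → M = M') →
        Cfsg.IsPConstrained p ↥M) ∨
      (∀ x : G, orderOf x = p → Cfsg.IsPConstrained p ↥(Subgroup.centralizer ({x} : Set G))))
    (T : Subgroup G) (hT : IsPGroup p ↥T) (hT1 : T ≠ ⊥) (hTG : Subgroup.normalizer (T : Set G) ≠ ⊤) :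
    Cfsg.IsPConstrained p ↥(Subgroup.normalizer (T : Set G)) := by
  rcases h with h | h
  · let S := {M : Subgroup G // (∃ T' : Subgroup G, IsPGroup p ↥T' ∧ T' ≠ ⊥ ∧
      M = Subgroup.normalizer (T' : Set G)) ∧ M ≠ ⊤ ∧ Subgroup.normalizer (T : Set G) ≤ M}
    haveI : Nonempty S := ⟨⟨Subgroup.normalizer (T : Set G), ⟨T, hT, hT1, rfl⟩, hTG, le_rfl⟩⟩
    haveI : Finite S := Subtype.finite
    obtain ⟨M, hM⟩ := Finite.exists_max (fun M : S => Nat.card (M.1 : Subgroup G))
    have hpc := h M.1 M.2.1 M.2.2.1 (by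
      intro M' h1 h2 h3
      have := hM ⟨M', h1, h2, M.2.2.2.trans h3⟩
      exact Subgroup.eq_of_le_of_card_ge h3 this)
    exact pc_normalizer_of_le hT M.2.2.2 hpc
  · obtain ⟨z, hz, ho, hc⟩ := Cfsg.Agent.Lib.Helper4_Syl.exists_central_orderOf_eq hT hT1
    have hM := h z ho
    have hTM : T ≤ Subgroup.centralizer ({z} : Set G) := by
      intro t ht
      rw [Subgroup.mem_centralizer_singleton_iff]
      exact hc t ht
    have hCM : Subgroup.centralizer (T : Set G) ≤ Subgroup.centralizer ({z} : Set G) :=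
      Subgroup.centralizer_le (by simpa using hz)
    exact pc_normalizer_of_centralizer hT (pc_centralizer_of_le hT hTM hCM hM)

end Cfsg.Agent.S3247
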