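import Cfsg.Statements.S3269
import Mathlib
import Cfsg.Agent.Lib.Helper7_QR
import Cfsg.Agent.S0201

set_option autoImplicit false
open Cfsg

namespace Cfsg.Agent.S3269

open QuaternionGroup in
theorem quat_x (k : ℕ) (q : QuaternionGroup (2 ^ (k + 1))) :
    q * a ((2 ^ k : ℕ) : ZMod (2 * 2 ^ (k + 1))) * q⁻¹ = a ((2 ^ k : ℕ) : ZMod (2 * 2 ^ (k + 1))) ∨
    q * a ((2 ^ k : ℕ) : ZMod (2 * 2 ^ (k + 1))) * q⁻¹ =
      a ((2 ^ k : ℕ) : ZMod (2 * 2 ^ (k + 1))) * a ((2 ^ (k + 1) : ℕ) : ZMod (2 * 2 ^ (k + 1))) := by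
  cases q with
  | a j =>
    left
    rw [mul_inv_eq_iff_eq_mul, a_mul_a, a_mul_a, add_comm j]
  | xa j =>
    right
    rw [mul_inv_eq_iff_eq_mul, xa_mul_a, a_mul_a, a_mul_xa]
    congr 1
    have : ((2 * 2 ^ (k + 1) : ℕ) : ZMod (2 * 2 ^ (k + 1))) = 0 := ZMod.natCast_self _
    have hp : (2 : ZMod (2 * 2 ^ (k + 1))) ^ (k + 1) = 2 ^ k * 2 := pow_succ _ _
    push_cast at this ⊢
    linear_combination this - hp

open QuaternionGroup in
theorem quat_x' (k : ℕ) :
    (xa 0 : QuaternionGroup (2 ^ (k + 1))) * a ((2 ^ k : ℕ) : ZMod (2 * 2 ^ (k + 1))) * (xa 0)⁻¹ =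
      a ((2 ^ k : ℕ) : ZMod (2 * 2 ^ (k + 1))) * a ((2 ^ (k + 1) : ℕ) : ZMod (2 * 2 ^ (k + 1))) := by
  rw [mul_inv_eq_iff_eq_mul, xa_mul_a, a_mul_a, a_mul_xa]
  congr 1
  have : ((2 * 2 ^ (k + 1) : ℕ) : ZMod (2 * 2 ^ (k + 1))) = 0 := ZMod.natCast_self _
  have hp : (2 : ZMod (2 * 2 ^ (k + 1))) ^ (k + 1) = 2 ^ k * 2 := pow_succ _ _
  push_cast at this ⊢
  linear_combination this - hp

/-- Let G be a finite group whose Sylow 2-subgroup S is an internal direct product Q × R with Q generalized quaternion (of order at least 8) and R a subgroup all of whose involutions are central in R. Then G is not simple. In particular no finite simple group has a Sylow 2-subgroup that is a direct product of one or more generalized quaternion groups. -/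
theorem result {G : Type*} [Group G] [Finite G]
    (S : Sylow 2 G) (Q R : Subgroup G) (hQR : Cfsg.IsInternalDirectProduct Q R (S : Subgroup G))
    (n : ℕ) (hn : 1 ≤ n) (eQ : ↥Q ≃* QuaternionGroup (2 ^ n))
    (hR : ∀ r ∈ R, orderOf r = 2 → ∀ s ∈ R, r * s = s * r) :
    ¬ IsSimpleGroup G := by
  intro hsimple
  haveI : Fact (Nat.Prime 2) := ⟨Nat.prime_two⟩
  obtain ⟨hQS, hRS, hc, hdisj, hsup⟩ := hQR
  obtain ⟨k, rfl⟩ : ∃ k, n = k + 1 := ⟨n - 1, by omega⟩
  set z' : Q := eQ.symm (QuaternionGroup.a ((2 ^ (k + 1) : ℕ) : ZMod (2 * 2 ^ (k + 1)))) with hz'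
  set x' : Q := eQ.symm (QuaternionGroup.a ((2 ^ k : ℕ) : ZMod (2 * 2 ^ (k + 1)))) with hx'
  set q' : Q := eQ.symm (QuaternionGroup.xa 0) with hq'
  have hz'o : orderOf z' = 2 := by rw [hz', MulEquiv.orderOf_eq]; exact Cfsg.Agent.S0201.quat_order
  have hzo : orderOf (z' : G) = 2 := by rw [Subgroup.orderOf_coe]; exact hz'o
  have huniq : ∀ y ∈ Q, orderOf y = 2 → y = (z' : G) := by
    intro y hy hyo
    have h1 : orderOf (eQ ⟨y, hy⟩) = 2 := by
      rw [MulEquiv.orderOf_eq, ← Subgroup.orderOf_coe]; exact hyo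
    have h2 := Cfsg.Agent.S0201.quat_invol _ h1
    have h3 : (⟨y, hy⟩ : Q) = z' := by
      rw [hz', ← h2, MulEquiv.symm_apply_apply]
    exact congrArg Subtype.val h3
  have hx : ∀ q ∈ Q, q * (x' : G) * q⁻¹ = x' ∨ q * (x' : G) * q⁻¹ = x' * z' := by
    intro q hq
    rcases quat_x k (eQ ⟨q, hq⟩) with h | h
    · left
      have h1 : (⟨q, hq⟩ : Q) * x' * (⟨q, hq⟩ : Q)⁻¹ = x' := by
        apply eQ.injective
        rw [map_mul, map_mul, map_inv, hx', MulEquiv.apply_symm_apply]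
        exact h
      exact congrArg Subtype.val h1
    · right
      have h1 : (⟨q, hq⟩ : Q) * x' * (⟨q, hq⟩ : Q)⁻¹ = x' * z' := by
        apply eQ.injective
        rw [map_mul, map_mul, map_inv, map_mul, hx', hz', MulEquiv.apply_symm_apply,
          MulEquiv.apply_symm_apply]
        exact h
      exact congrArg Subtype.val h1
  have hq0 : (q' : G) * (x' : G) * (q' : G)⁻¹ = x' * z' := by
    have h1 : q' * x' * q'⁻¹ = x' * z' := by
      apply eQ.injective
      rw [map_mul, map_mul, map_inv, map_mul, hx', hz', hq', MulEquiv.apply_symm_apply,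
        MulEquiv.apply_symm_apply, MulEquiv.apply_symm_apply]
      exact quat_x' k
    exact congrArg Subtype.val h1
  have hinv := Cfsg.Agent.Lib.Helper7_QR.invol_central (S : Subgroup G) Q R hc hdisj hsup (z' : G)
    z'.2 hzo huniq hR
  have hzR : (z' : G) ∉ R := by
    intro h
    have : (z' : G) ∈ Q ⊓ R := ⟨z'.2, h⟩
    rw [hdisj, Subgroup.mem_bot] at this
    rw [this, orderOf_one] at hzo
    omega
  have hcenS : ∀ y ∈ (S : Subgroup G), orderOf y = 2 →
      y ∈ (S : Subgroup G) ⊓ Subgroup.centralizer ((S : Subgroup G) : Set G) := by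
    intro y hy hyo
    refine Subgroup.mem_inf.mpr ⟨hy, ?_⟩
    rw [Subgroup.mem_centralizer_iff]
    intro s hs
    exact (hinv y hy hyo s hs).symm
  obtain ⟨t, hto, htZ, htN⟩ := Cfsg.Agent.Lib.Helper7_QR.orbit_prod (S : Subgroup G) R (z' : G) hzo hzR
    (by
      intro n hn
      apply hcenS
      · exact (Subgroup.mem_normalizer_iff.mp hn _).mp (hQS z'.2)
      · rw [Cfsg.Agent.Lib.Helper7_QR.orderOf_conj', hzo])
    (fun n hn => Cfsg.Agent.Lib.Helper7_QR.conj_cases (S : Subgroup G) Q R hc hsup (z' : G) z'.2 hzo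
      huniq (x' : G) (q' : G) x'.2 hx q'.2 hq0 n hn)
  have hiso : Cfsg.IsIsolatedInvolution t := by
    apply Cfsg.Agent.Lib.Helper7_ZStar2.isolated_of_sylow S hto
    intro g hg
    have h1 := hcenS _ hg (by rw [Cfsg.Agent.Lib.Helper7_QR.orderOf_conj', hto])
    obtain ⟨n, hn, e⟩ := S.conj_eq_normalizer_conj_of_mem_centralizer t g⁻¹ htZ.2
      (by rw [inv_inv]; exact h1.2)
    rw [inv_inv] at e
    rw [e]
    have := htN n⁻¹ (Subgroup.inv_mem _ hn)
    rwa [inv_inv] at this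
  have hcore : Cfsg.pPrimeCore 2 G = ⊥ := by
    rcases (Cfsg.Agent.Lib.Helper7_ZStar2.core_normal (G := G)).eq_bot_or_eq_top with h | h
    · exact h
    · exfalso
      have h1 : Odd (Nat.card (Cfsg.pPrimeCore 2 G)) := Cfsg.Agent.Lib.Helper7_ZStar2.core_odd
      rw [h, Subgroup.card_top] at h1
      have h2 : 2 ∣ Nat.card G := hto ▸ orderOf_dvd_natCard t
      exact (Nat.not_even_iff_odd.mpr h1) (even_iff_two_dvd.mpr h2)
  have hcen : ∀ g : G, g * t = t * g := by
    intro g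
    have h1 := Cfsg.Agent.Lib.Helper7_ZStar.zstar hiso g
    rw [hcore, Subgroup.mem_bot] at h1
    have h2 : t * g * t⁻¹ = g := mul_inv_eq_one.mp h1
    exact (mul_inv_eq_iff_eq_mul.mp h2).symm
  have htc : t ∈ Subgroup.center G := Subgroup.mem_center_iff.mpr hcen
  have hctop : Subgroup.center G = ⊤ := by
    rcases (inferInstance : (Subgroup.center G).Normal).eq_bot_or_eq_top with h | h
    · exfalso
      rw [h, Subgroup.mem_bot] at htc
      rw [htc, orderOf_one] at hto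
      omega
    · exact h
  have hx'c : (x' : G) ∈ Subgroup.center G := by rw [hctop]; exact Subgroup.mem_top _
  have h1 := Subgroup.mem_center_iff.mp hx'c (q' : G)
  rw [h1, mul_inv_cancel_right] at hq0
  have h2 : (z' : G) = 1 := by
    have : (x' : G) * 1 = x' * z' := by rw [mul_one]; exact hq0
    exact (mul_left_cancel this).symm
  rw [h2, orderOf_one] at hzo
  omega

end Cfsg.Agent.S3269
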