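import Mathlib
import Cfsg.Agent.Lib.helper6_Invol
import Cfsg.Statements.S3276

set_option autoImplicit false
open Cfsg

namespace Cfsg.Agent.S3276

open Cfsg.Agent.Lib.helper6_Invol

/-- Let x and y be commuting, non-conjugate involutions of a finite group G, and suppose that for every involution u commuting with x, each conjugate of y that commutes with u also commutes with y. Then the normal closure of y is a proper, normal, elementary abelian 2-subgroup of G; and if y is the only involution of that normal closure commuting with x, it has order at most 4. -/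
theorem result {G : Type*} [Group G] [Finite G] (x y : G) (hx : orderOf x = 2) (hy : orderOf y = 2)
    (hxy : Commute x y) (hnc : ¬ IsConj x y)
    (hstar : ∀ u : G, orderOf u = 2 → Commute u x → ∀ g : G, Commute (g * y * g⁻¹) u → Commute (g * y * g⁻¹) y) :
    Subgroup.normalClosure ({y} : Set G) ≠ ⊤ ∧ Cfsg.IsElementaryAbelian 2 (Subgroup.normalClosure ({y} : Set G)) ∧
      ((∀ u ∈ Subgroup.normalClosure ({y} : Set G), orderOf u = 2 → Commute u x → u = y) →
        Nat.card ↥(Subgroup.normalClosure ({y} : Set G)) ≤ 4) := by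
  classical
  have hy2 := sq_eq_one_of_order_two hy
  have hx2 := sq_eq_one_of_order_two hx
  have hxi := inv_eq_self_of_order_two hx
  -- every conjugate of y commutes with y
  have h1 : ∀ g : G, Commute (g * y * g⁻¹) y := by
    intro g
    have ho : orderOf (g * y * g⁻¹) = 2 := by
      rw [← hy]; exact (MulAut.conj g).orderOf_eq y
    have hnc' : ¬ IsConj x (g * y * g⁻¹) := by
      intro h
      apply hnc
      exact h.trans (isConj_iff.2 ⟨g⁻¹, by group⟩)
    obtain ⟨u, hu, hux, huy, -⟩ := exists_invol_commute hx ho hnc'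
    exact hstar u hu hux g huy.symm
  have h2 : ∀ g h : G, Commute (g * y * g⁻¹) (h * y * h⁻¹) := by
    intro g h
    have := h1 (h⁻¹ * g)
    have e := this.map (MulAut.conj h).toMonoidHom
    simp only [MulEquiv.coe_toMonoidHom, MulAut.conj_apply] at e
    convert e using 1
    group
  set N := Subgroup.normalClosure ({y} : Set G) with hN
  have hNcl : N = Subgroup.closure {z | ∃ g : G, z = g * y * g⁻¹} := by
    rw [hN, Subgroup.normalClosure]
    congr 1
    ext z
    simp only [Group.mem_conjugatesOfSet_iff, Set.mem_singleton_iff, exists_eq_left,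
      Set.mem_ofPred_eq, isConj_iff]
    constructor
    · rintro ⟨g, rfl⟩; exact ⟨g, rfl⟩
    · rintro ⟨g, rfl⟩; exact ⟨g, rfl⟩
  have hNc : IsMulCommutative N := by
    rw [hNcl]
    apply Subgroup.isMulCommutative_closure
    rintro _ ⟨g, rfl⟩ _ ⟨h, rfl⟩
    exact h2 g h
  have hNcomm : ∀ a ∈ N, ∀ b ∈ N, a * b = b * a := fun a ha b hb => setLike_mul_comm ha hb
  have hNe : ∀ a ∈ N, a ^ 2 = 1 := by
    intro a ha
    have ha' := ha
    rw [hNcl] at ha
    induction ha using Subgroup.closure_induction with
    | mem z hz =>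
      obtain ⟨g, rfl⟩ := hz
      rw [conj_pow, pow_two, hy2]; simp
    | one => simp
    | mul a b ha hb iha ihb =>
      rw [← hNcl] at ha hb
      rw [(show Commute a b from hNcomm a ha b hb).mul_pow, iha ha, ihb hb, one_mul]
    | inv a ha iha =>
      rw [← hNcl] at ha
      rw [inv_pow, iha ha, inv_one]
  have hNn : N.Normal := Subgroup.normalClosure_normal
  have hyN : y ∈ N := Subgroup.subset_normalClosure rfl
  refine ⟨?_, ⟨hNc, hNe⟩, ?_⟩
  · intro htop
    have hcomm : ∀ a b : G, a * b = b * a := fun a b =>
      hNcomm a (htop ▸ Subgroup.mem_top a) b (htop ▸ Subgroup.mem_top b)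
    have hset : {z | ∃ g : G, z = g * y * g⁻¹} = {y} := by
      ext z
      simp only [Set.mem_ofPred_eq, Set.mem_singleton_iff]
      constructor
      · rintro ⟨g, rfl⟩
        rw [hcomm g y, mul_assoc, mul_inv_cancel, mul_one]
      · rintro rfl
        exact ⟨1, by simp⟩
    have hxN : x ∈ N := htop ▸ Subgroup.mem_top x
    rw [hNcl, hset, Subgroup.mem_closure_singleton] at hxN
    obtain ⟨k, hk⟩ := hxN
    rcases Int.even_or_odd' k with ⟨j, rfl | rfl⟩
    · rw [zpow_mul, zpow_ofNat, pow_two, hy2, one_zpow] at hk
      exact ne_one_of_order_two hx hk.symm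
    · rw [zpow_add, zpow_mul, zpow_ofNat, pow_two, hy2, one_zpow, one_mul, zpow_one] at hk
      exact hnc (hk ▸ IsConj.refl _)
  · intro honly
    -- elements of N commuting with x are 1 or y
    have hcent : ∀ n ∈ N, Commute n x → n = 1 ∨ n = y := by
      intro n hn hc
      by_cases hn1 : n = 1
      · exact Or.inl hn1
      · exact Or.inr (honly n hn (orderOf_eq_prime (hNe n hn) hn1) hc)
    let f : N →* N :=
      { toFun := fun n => ⟨n * (x * n * x⁻¹), N.mul_mem n.2 (hNn.conj_mem n n.2 x)⟩
        map_one' := by
          apply Subtype.ext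
          simp
        map_mul' := by
          intro a b
          apply Subtype.ext
          show (a : G) * b * (x * (a * b) * x⁻¹) = a * (x * a * x⁻¹) * (b * (x * b * x⁻¹))
          have e1 : x * ((a : G) * b) * x⁻¹ = (x * a * x⁻¹) * (x * b * x⁻¹) := by group
          have e2 := hNcomm b b.2 _ (hNn.conj_mem a a.2 x)
          rw [e1]
          calc (a : G) * b * (x * a * x⁻¹ * (x * b * x⁻¹))
              = a * (b * (x * a * x⁻¹)) * (x * b * x⁻¹) := by group
            _ = a * ((x * a * x⁻¹) * b) * (x * b * x⁻¹) := by rw [e2]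
            _ = a * (x * a * x⁻¹) * (b * (x * b * x⁻¹)) := by group }
    have hfval : ∀ n : N, ((f n : N) : G) = n * (x * n * x⁻¹) := fun n => rfl
    have hY : ∀ K : Subgroup N, (∀ k ∈ K, (k : G) = 1 ∨ (k : G) = y) → Nat.card K ≤ 2 := by
      intro K hK
      have hsub : (K : Set N) ⊆ {1, ⟨y, hyN⟩} := by
        intro k hk
        rcases hK k hk with h | h
        · left; exact Subtype.ext h
        · right; exact Subtype.ext h
      calc Nat.card K = (K : Set N).ncard := (Nat.card_coe_set_eq _)
        _ ≤ ({1, ⟨y, hyN⟩} : Set N).ncard := Set.ncard_le_ncard hsub (Set.toFinite _)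
        _ ≤ 2 := by
          have := Set.ncard_insert_le (1 : N) {⟨y, hyN⟩}
          rw [Set.ncard_singleton] at this
          exact this
    have hker : Nat.card f.ker ≤ 2 := by
      apply hY
      intro k hk
      apply hcent k k.2
      have h3 : (k : G) * (x * k * x⁻¹) = 1 := by
        have := congrArg Subtype.val (MonoidHom.mem_ker.1 hk)
        rwa [hfval] at this
      have h4 : (k : G) * k = 1 := by rw [← pow_two]; exact hNe k k.2
      have h5 : x * k * x⁻¹ = k := mul_left_cancel (h3.trans h4.symm)
      show (k : G) * x = x * k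
      exact (mul_inv_eq_iff_eq_mul.1 h5).symm
    have hran : Nat.card f.range ≤ 2 := by
      apply hY
      rintro _ ⟨n, rfl⟩
      apply hcent _ (f n).2
      show ((f n : N) : G) * x = x * (f n : N)
      rw [hfval]
      have e2 := hNcomm n n.2 _ (hNn.conj_mem n n.2 x)
      calc (n : G) * (x * n * x⁻¹) * x = (x * n * x⁻¹) * n * x := by rw [e2]
        _ = x * (n * (x * n * x)) := by rw [hxi]; group
        _ = x * (n * (x * n * x⁻¹)) := by rw [hxi]
    have hcard : Nat.card f.ker * Nat.card f.range = Nat.card N := by
      rw [← Subgroup.index_ker]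
      exact f.ker.card_mul_index
    rw [← hcard]
    calc Nat.card f.ker * Nat.card f.range ≤ 2 * 2 := Nat.mul_le_mul hker hran
      _ = 4 := rfl

end Cfsg.Agent.S3276
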