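import Mathlib
import Cfsg.Statements.S3279

set_option autoImplicit false
open Cfsg

namespace Cfsg.Agent.S3279


section gen
variable {G : Type*} [Group G]

lemma sq_one {s : G} (hs : orderOf s = 2) : s * s = 1 := by
  rw [← pow_two, ← hs]; exact pow_orderOf_eq_one s

lemma inv_self {s : G} (hs : orderOf s = 2) : s⁻¹ = s :=
  inv_eq_of_mul_eq_one_left (sq_one hs)

lemma ne_one {s : G} (hs : orderOf s = 2) : s ≠ 1 := by
  rintro rfl
  simp at hs

lemma order_two {s : G} (h1 : s ≠ 1) (h2 : s * s = 1) : orderOf s = 2 :=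
  orderOf_eq_prime (by rwa [pow_two]) h1

lemma conj_by_pow (t w : G) (h : t * w * t⁻¹ = w⁻¹) (i : ℕ) :
    w ^ i * t * (w ^ i)⁻¹ = w ^ (2 * i) * t := by
  have h2 : t * w ^ i * t⁻¹ = (w ^ i)⁻¹ := by rw [← conj_pow, h, inv_pow]
  have h3 : t * (w ^ i)⁻¹ = w ^ i * t := by
    have := congrArg (·⁻¹) h2
    simp only [mul_inv_rev, inv_inv] at this
    calc t * (w ^ i)⁻¹ = (t * ((w ^ i)⁻¹ * t⁻¹)) * t := by group
      _ = w ^ i * t := by rw [this]
  rw [mul_assoc, h3, ← mul_assoc, two_mul, pow_add]

/-- The dihedral analysis of two non-conjugate involutions. -/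
lemma dihedral_main [Finite G] (s u : G) (hs : orderOf s = 2) (hu : orderOf u = 2)
    (hnc : ¬ IsConj s u) :
    ∃ z : G, orderOf z = 2 ∧ Commute z s ∧ Commute z u ∧ z ≠ s ∧
      (IsConj s (s * z) ∨ ∃ c : G, Commute c z ∧ c * u * c⁻¹ = s * z) := by
  have hs2 := sq_one hs
  have hu2 := sq_one hu
  have hsi := inv_self hs
  have hui := inv_self hu
  obtain ⟨w, hw⟩ : ∃ w, w = s * u := ⟨_, rfl⟩
  have hwi : w⁻¹ = u * s := by rw [hw, mul_inv_rev, hsi, hui]
  have hsw : s * w * s⁻¹ = w⁻¹ := by
    rw [hwi, hsi, hw, ← mul_assoc, hs2, one_mul]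
  have huw : u * w * u⁻¹ = w⁻¹ := by
    rw [hwi, hui, hw, mul_assoc, mul_assoc, hu2, mul_one]
  have hus : u = w⁻¹ * s := by rw [hwi, mul_assoc, hs2, mul_one]
  have hn : 0 < orderOf w := orderOf_pos w
  rcases Nat.even_or_odd' (orderOf w) with ⟨k, hk | hk⟩
  · have hk0 : 0 < k := by omega
    have hzz : w ^ k * w ^ k = 1 := by
      rw [← pow_add, ← two_mul, ← hk]; exact pow_orderOf_eq_one w
    have hz1 : w ^ k ≠ 1 := by
      intro h
      have := orderOf_le_of_pow_eq_one hk0 h
      omega
    have hzi : (w ^ k)⁻¹ = w ^ k := inv_eq_of_mul_eq_one_left hzz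
    have hzs : Commute (w ^ k) s := by
      have h2 : s * w ^ k * s⁻¹ = (w ^ k)⁻¹ := by rw [← conj_pow, hsw, inv_pow]
      rw [hzi] at h2
      exact (mul_inv_eq_iff_eq_mul.1 h2).symm
    have hzu : Commute (w ^ k) u := by
      have h2 : u * w ^ k * u⁻¹ = (w ^ k)⁻¹ := by rw [← conj_pow, huw, inv_pow]
      rw [hzi] at h2
      exact (mul_inv_eq_iff_eq_mul.1 h2).symm
    refine ⟨w ^ k, order_two hz1 hzz, hzs, hzu, ?_, ?_⟩
    · intro hz
      have hc : Commute s w := by
        rw [← hz]; exact (Commute.refl w).pow_left k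
      have h1 : w = w⁻¹ := by
        rw [← hsw, hc.eq, mul_inv_cancel_right]
      have h2 : w ^ 2 = 1 := by
        rw [pow_two]
        nth_rewrite 1 [h1]
        exact inv_mul_cancel w
      have h3 := orderOf_dvd_of_pow_eq_one h2
      have h4 := Nat.le_of_dvd (by norm_num) h3
      have hk1 : k = 1 := by omega
      rw [hk1, pow_one, hw] at hz
      exact ne_one hu (mul_eq_left.1 hz)
    · rcases Nat.even_or_odd' k with ⟨i, hi | hi⟩
      · left
        refine isConj_iff.2 ⟨w ^ i, ?_⟩
        rw [conj_by_pow s w hsw i, ← hi]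
        exact hzs.eq
      · right
        refine ⟨w ^ (i + 1), (Commute.refl w).pow_pow _ _, ?_⟩
        rw [conj_by_pow u w huw (i + 1)]
        rw [hus]
        rw [← mul_assoc, ← hzs.eq, hi]
        congr 1
        rw [show 2 * (i + 1) = (2 * i + 1) + 1 by ring, pow_succ, mul_inv_cancel_right]
  · exfalso
    apply hnc
    refine isConj_iff.2 ⟨w ^ k, ?_⟩
    rw [conj_by_pow s w hsw k]
    rw [hus]
    congr 1
    apply eq_inv_of_mul_eq_one_left
    rw [← pow_succ, ← hk]
    exact pow_orderOf_eq_one w

lemma center_absurd [IsSimpleGroup G] (x a c : G) (hx : orderOf x = 2) (ha : orderOf a = 2)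
    (hne : a ≠ x) (hc : c ∈ Subgroup.center G) (hc1 : c ≠ 1) : False := by
  have htop : Subgroup.center G = ⊤ := by
    rcases (inferInstance : (Subgroup.center G).Normal).eq_bot_or_eq_top with h | h
    · rw [h, Subgroup.mem_bot] at hc
      exact absurd hc hc1
    · exact h
  have hcomm : ∀ g h : G, g * h = h * g := by
    intro g h
    have : h ∈ Subgroup.center G := by rw [htop]; trivial
    exact (Subgroup.mem_center_iff.1 this g)
  have hN : (Subgroup.zpowers x).Normal := by
    refine ⟨fun n hn g => ?_⟩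
    rw [hcomm g n, mul_inv_cancel_right]
    exact hn
  have hz : Subgroup.zpowers x = ⊤ := by
    rcases hN.eq_bot_or_eq_top with h | h
    · exact absurd (Subgroup.zpowers_eq_bot.1 h) (ne_one hx)
    · exact h
  have hmem : a ∈ Subgroup.zpowers x := by rw [hz]; trivial
  obtain ⟨k, hk⟩ := Subgroup.mem_zpowers_iff.1 hmem
  have hx2 : x ^ (2 : ℤ) = 1 := by
    have := sq_one hx
    rw [← pow_two] at this
    exact_mod_cast this
  rcases Int.even_or_odd' k with ⟨m, hm | hm⟩
  · rw [hm, zpow_mul, hx2, one_zpow] at hk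
    exact ne_one ha hk.symm
  · rw [hm, zpow_add, zpow_mul, hx2, one_zpow, one_mul, zpow_one] at hk
    exact hne hk.symm

end gen

section main
variable {G : Type*} [Group G]

structure Hyp (x a : G) : Prop where
  hx : orderOf x = 2
  ha : orderOf a = 2
  hax : Commute a x
  hne : a ≠ x
  hI : ∀ u, orderOf u = 2 → Commute u x → u = x ∨ u = a ∨ u = x * a

lemma Hyp.xxa {x a : G} (H : Hyp x a) : x * (x * a) = a := by
  rw [← mul_assoc, sq_one H.hx, one_mul]

lemma Hyp.hb {x a : G} (H : Hyp x a) : orderOf (x * a) = 2 := by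
  apply order_two
  · intro h
    apply H.hne
    have := eq_inv_of_mul_eq_one_right h
    rw [this, inv_self H.hx]
  · calc x * a * (x * a) = x * (a * x) * a := by group
      _ = x * (x * a) * a := by rw [H.hax.eq]
      _ = (x * x) * (a * a) := by group
      _ = 1 := by rw [sq_one H.hx, sq_one H.ha, one_mul]

lemma Hyp.hbx {x a : G} (H : Hyp x a) : Commute (x * a) x :=
  (Commute.refl x).mul_left H.hax

lemma Hyp.hba {x a : G} (H : Hyp x a) : Commute (x * a) a :=
  H.hax.symm.mul_left (Commute.refl a)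

lemma Hyp.hbne {x a : G} (H : Hyp x a) : x * a ≠ x := by
  intro h
  exact ne_one H.ha (mul_eq_left.1 h)

lemma Hyp.hbnea {x a : G} (H : Hyp x a) : x * a ≠ a := by
  intro h
  exact ne_one H.hx (mul_eq_right.1 h)

lemma Hyp.swap {x a : G} (H : Hyp x a) : Hyp x (x * a) where
  hx := H.hx
  ha := H.hb
  hax := H.hbx
  hne := H.hbne
  hI := by
    intro u hu hc
    rw [H.xxa]
    rcases H.hI u hu hc with h | h | h
    · exact Or.inl h
    · exact Or.inr (Or.inr h)
    · exact Or.inr (Or.inl h)

lemma Hyp.ab {x a : G} (H : Hyp x a) : a * (x * a) = x := by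
  rw [← mul_assoc, H.hax.eq, mul_assoc, sq_one H.ha, mul_one]

lemma isConj_conj (g y : G) : IsConj y (MulAut.conj g y) :=
  isConj_iff.2 ⟨g, rfl⟩

lemma orderOf_conj' (g y : G) : orderOf (MulAut.conj g y) = orderOf y :=
  MulEquiv.orderOf_eq _ _

lemma Hyp.hIg {x a : G} (H : Hyp x a) (g u : G) (hu : orderOf u = 2)
    (hc : Commute u (MulAut.conj g x)) :
    u = MulAut.conj g x ∨ u = MulAut.conj g a ∨ u = MulAut.conj g (x * a) := by
  have h1 : orderOf ((MulAut.conj g).symm u) = 2 := by
    rw [MulEquiv.orderOf_eq]; exact hu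
  have h2 : Commute ((MulAut.conj g).symm u) x := by
    have := hc.map (MulAut.conj g).symm
    rwa [MulEquiv.symm_apply_apply] at this
  rcases H.hI _ h1 h2 with h | h | h
  · left; rw [← h, MulEquiv.apply_symm_apply]
  · right; left; rw [← h, MulEquiv.apply_symm_apply]
  · right; right; rw [← h, MulEquiv.apply_symm_apply]

lemma Hyp.key [Finite G] {x a : G} (H : Hyp x a) (g u : G) (hu : orderOf u = 2)
    (hnc : ¬ IsConj x u) :
    ∃ z, (z = MulAut.conj g a ∨ z = MulAut.conj g (x * a)) ∧ Commute z u ∧
      (IsConj x (MulAut.conj g x * z) ∨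
        ∃ c, Commute c z ∧ c * u * c⁻¹ = MulAut.conj g x * z) := by
  have hs : orderOf (MulAut.conj g x) = 2 := by rw [orderOf_conj']; exact H.hx
  obtain ⟨z, hz, hzs, hzu, hzne, hor⟩ := dihedral_main (MulAut.conj g x) u hs hu
    (fun h => hnc ((isConj_conj g x).trans h))
  refine ⟨z, ?_, hzu, ?_⟩
  · rcases H.hIg g z hz hzs with h | h | h
    · exact absurd h hzne
    · exact Or.inl h
    · exact Or.inr h
  · rcases hor with h | h
    · exact Or.inl ((isConj_conj g x).trans h)
    · exact Or.inr h

/-- Case (i): all three involutions of `C(x)` are conjugate. -/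
lemma Hyp.case_all [Finite G] {x a : G} (H : Hyp x a) (hca : IsConj x a)
    (hcb : IsConj x (x * a)) : ∀ u, orderOf u = 2 → IsConj x u := by
  intro u hu
  by_contra hnc
  obtain ⟨z, hz, hzu, -⟩ := H.key 1 u hu hnc
  have hzc : IsConj x z := by
    rcases hz with h | h
    · rw [h]; simpa using hca
    · rw [h]; simpa using hcb
  obtain ⟨h, hh⟩ := isConj_iff.1 hzc
  have hh' : MulAut.conj h x = z := hh
  rcases H.hIg h u hu (by rw [hh']; exact hzu.symm) with h1 | h1 | h1
  · exact hnc (h1 ▸ isConj_conj h x)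
  · exact hnc (h1 ▸ hca.trans (isConj_conj h a))
  · exact hnc (h1 ▸ hcb.trans (isConj_conj h _))

lemma central_of_commuting_class [IsSimpleGroup G] (b : G) (hb : b ≠ 1)
    (h : ∀ g g' : G, Commute (MulAut.conj g b) (MulAut.conj g' b)) : b ∈ Subgroup.center G := by
  have htop : Subgroup.normalClosure ({b} : Set G) = ⊤ := by
    rcases (Subgroup.normalClosure_normal (s := ({b} : Set G))).eq_bot_or_eq_top with h1 | h1
    · have : b ∈ Subgroup.normalClosure ({b} : Set G) :=
        Subgroup.subset_normalClosure (Set.mem_singleton b)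
      rw [h1, Subgroup.mem_bot] at this
      exact absurd this hb
    · exact h1
  have hle : Subgroup.normalClosure ({b} : Set G) ≤ Subgroup.centralizer ({b} : Set G) := by
    unfold Subgroup.normalClosure
    rw [Subgroup.closure_le]
    intro y hy
    obtain ⟨b', hb', hc⟩ := Group.mem_conjugatesOfSet_iff.1 hy
    rw [Set.mem_singleton_iff] at hb'
    subst hb'
    obtain ⟨g, rfl⟩ := isConj_iff.1 hc
    rw [SetLike.mem_coe, Subgroup.mem_centralizer_singleton_iff]
    have := h g 1
    simpa using this.eq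
  rw [Subgroup.mem_center_iff]
  intro g
  have : g ∈ Subgroup.centralizer ({b} : Set G) := hle (by rw [htop]; trivial)
  exact Subgroup.mem_centralizer_singleton_iff.1 this

/-- Case (ii): exactly one of the two other involutions is conjugate to `x`. -/
lemma Hyp.case_one [Finite G] [IsSimpleGroup G] {x a : G} (H : Hyp x a) (hca : IsConj x a)
    (hcb : ¬ IsConj x (x * a)) : False := by
  obtain ⟨h, hh⟩ := isConj_iff.1 hca
  have hh' : MulAut.conj h x = a := hh
  have hfix : MulAut.conj h (x * a) = x * a := by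
    rcases H.hIg h (x * a) H.hb (by rw [hh']; exact H.hba) with h1 | h1 | h1
    · rw [hh'] at h1; exact absurd h1 H.hbnea
    · exact absurd (h1 ▸ hca.trans (isConj_conj h a)) hcb
    · exact h1.symm
  have claim : ∀ u, orderOf u = 2 → ¬ IsConj x u → ∀ g, Commute u (MulAut.conj g (x * a)) := by
    intro u hu hnc g
    obtain ⟨z, hz, hzu, -⟩ := H.key g u hu hnc
    rcases hz with hz | hz
    · have e : MulAut.conj (g * h) = MulAut.conj g * MulAut.conj h := map_mul _ _ _
      have hz' : z = MulAut.conj (g * h) x := by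
        rw [hz, e, MulAut.mul_apply, hh']
      rcases H.hIg (g * h) u hu (by rw [← hz']; exact hzu.symm) with h1 | h1 | h1
      · exact absurd (h1 ▸ isConj_conj _ x) hnc
      · exact absurd (h1 ▸ hca.trans (isConj_conj _ a)) hnc
      · rw [e, MulAut.mul_apply, hfix] at h1
        rw [h1]
    · rw [← hz]; exact hzu.symm
  have hcen : x * a ∈ Subgroup.center G := by
    apply central_of_commuting_class _ (ne_one H.hb)
    intro g g'
    apply claim
    · rw [orderOf_conj']; exact H.hb
    · intro hc
      exact hcb (hc.trans (isConj_conj g _).symm)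
  exact center_absurd x a _ H.hx H.ha H.hne hcen (ne_one H.hb)


lemma Hyp.ax1 [Finite G] {x a : G} (H : Hyp x a) (g u : G) (hu : orderOf u = 2)
    (hnc : ¬ IsConj x u) :
    Commute u (MulAut.conj g a) ∨ Commute u (MulAut.conj g (x * a)) := by
  obtain ⟨z, hz, hzu, -⟩ := H.key g u hu hnc
  rcases hz with h | h
  · left; rw [← h]; exact hzu.symm
  · right; rw [← h]; exact hzu.symm

lemma Hyp.ax2 {x a : G} (H : Hyp x a) (g u : G) (hu : orderOf u = 2) (hnc : ¬ IsConj x u)
    (h1 : Commute u (MulAut.conj g a)) (h2 : Commute u (MulAut.conj g (x * a))) :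
    u = MulAut.conj g a ∨ u = MulAut.conj g (x * a) := by
  have h3 : Commute u (MulAut.conj g x) := by
    have := h1.mul_right h2
    rwa [← map_mul, H.ab] at this
  rcases H.hIg g u hu h3 with h | h | h
  · exact absurd (h ▸ isConj_conj g x) hnc
  · exact Or.inl h
  · exact Or.inr h

lemma Hyp.meet_aux [Finite G] {x a : G} (H : Hyp x a) (hcb : ¬ IsConj x (x * a)) (g w : G)
    (hw : orderOf w = 2) (hnc : ¬ IsConj x w) (hne : w ≠ MulAut.conj g a)
    (hc : Commute w (MulAut.conj g a)) :
    ∃ g', MulAut.conj g a = MulAut.conj g' a ∧ w = MulAut.conj g' (x * a) := by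
  by_cases hwb : w = MulAut.conj g (x * a)
  · exact ⟨g, rfl, hwb⟩
  obtain ⟨z, hz, hzw, hor⟩ := H.key g w hw hnc
  rcases hz with hz | hz
  · have hsz : MulAut.conj g x * z = MulAut.conj g (x * a) := by rw [hz, map_mul]
    rw [hsz] at hor
    rcases hor with h | ⟨c, hcz, hcw⟩
    · exact absurd (h.trans (isConj_conj g _).symm) hcb
    · have e : MulAut.conj (c⁻¹ * g) = MulAut.conj c⁻¹ * MulAut.conj g := map_mul _ _ _
      refine ⟨c⁻¹ * g, ?_, ?_⟩
      · rw [e, MulAut.mul_apply, ← hz, MulAut.conj_apply, inv_inv, mul_assoc, ← hcz.eq,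
          inv_mul_cancel_left]
      · rw [e, MulAut.mul_apply, ← hcw, MulAut.conj_apply]
        group
  · rcases H.ax2 g w hw hnc hc (by rw [← hz]; exact hzw.symm) with h | h
    · exact absurd h hne
    · exact absurd h hwb

/-- Case (iii): `x` commutes with none of its other conjugates. -/
lemma Hyp.case_none [Finite G] [IsSimpleGroup G] {x a : G} (H : Hyp x a) (hca : ¬ IsConj x a)
    (hcb : ¬ IsConj x (x * a)) : False := by
  obtain ⟨b, hb⟩ : ∃ b, b = x * a := ⟨_, rfl⟩
  have hE2 : ∀ u, (IsConj a u ∨ IsConj b u) → orderOf u = 2 := by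
    rintro u (h | h)
    · obtain ⟨g, rfl⟩ := isConj_iff.1 h
      exact (orderOf_conj' g a).trans H.ha
    · obtain ⟨g, rfl⟩ := isConj_iff.1 h
      rw [hb]
      exact (orderOf_conj' g _).trans H.hb
  have hEn : ∀ u, (IsConj a u ∨ IsConj b u) → ¬ IsConj x u := by
    rintro u (h | h) hc
    · exact hca (hc.trans h.symm)
    · exact hcb (hb ▸ hc.trans h.symm)
  have meet : ∀ u w, (IsConj a u ∨ IsConj b u) → (IsConj a w ∨ IsConj b w) → u ≠ w →
      Commute u w → ∃ g', (u = MulAut.conj g' a ∧ w = MulAut.conj g' b) ∨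
        (u = MulAut.conj g' b ∧ w = MulAut.conj g' a) := by
    intro u w hu hw hne hc
    rcases hu with h | h
    · obtain ⟨g, hg⟩ := isConj_iff.1 h
      have hg' : MulAut.conj g a = u := hg
      obtain ⟨g', h1, h2⟩ := H.meet_aux hcb g w (hE2 w hw) (hEn w hw)
        (by rw [hg']; exact hne.symm) (by rw [hg']; exact hc.symm)
      exact ⟨g', Or.inl ⟨by rw [← h1, hg'], by rw [hb]; exact h2⟩⟩
    · obtain ⟨g, hg⟩ := isConj_iff.1 h
      have hg' : MulAut.conj g (x * a) = u := by rw [← hb]; exact hg
      obtain ⟨g', h1, h2⟩ := H.swap.meet_aux (by rw [H.xxa]; exact hca) g w (hE2 w hw) (hEn w hw)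
        (by rw [hg']; exact hne.symm) (by rw [hg']; exact hc.symm)
      rw [H.xxa] at h2
      exact ⟨g', Or.inr ⟨by rw [hb, ← h1, hg'], h2⟩⟩
  have ax1' : ∀ u, (IsConj a u ∨ IsConj b u) → Commute u a ∨ Commute u b := by
    intro u hu
    have := H.ax1 1 u (hE2 u hu) (hEn u hu)
    rw [hb]
    simpa using this
  have hEb : IsConj a b ∨ IsConj b b := Or.inr (IsConj.refl b)
  have hEa : IsConj a a ∨ IsConj b a := Or.inl (IsConj.refl a)
  have hba : Commute b a := by rw [hb]; exact H.hba
  have claim2 : ∀ u v, (IsConj a u ∨ IsConj b u) → (u = a ∨ ¬ Commute u a) →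
      (IsConj a v ∨ IsConj b v) → (v = b ∨ ¬ Commute v b) → Commute u v := by
    intro u v hu hu' hv hv'
    rcases hu' with rfl | hu'
    · rcases hv' with rfl | hv'
      · exact hba.symm
      · rcases ax1' v hv with h | h
        · exact h.symm
        · exact absurd h hv'
    · rcases hv' with rfl | hv'
      · rcases ax1' u hu with h | h
        · exact absurd h hu'
        · exact h
      · have hub : Commute u b := by
          rcases ax1' u hu with h | h
          · exact absurd h hu'
          · exact h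
        have hne : u ≠ b := by
          rintro rfl
          exact hu' hba
        obtain ⟨g', h | h⟩ := meet u b hu hEb hne hub
        · have := H.ax1 g' v (hE2 v hv) (hEn v hv)
          rw [← hb, ← h.1, ← h.2] at this
          rcases this with h' | h'
          · exact h'.symm
          · exact absurd h' hv'
        · have := H.ax1 g' v (hE2 v hv) (hEn v hv)
          rw [← hb, ← h.1, ← h.2] at this
          rcases this with h' | h'
          · exact absurd h' hv'
          · exact h'.symm
  have hEtop : Subgroup.closure {u | IsConj a u ∨ IsConj b u} = ⊤ := by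
    have htop : Subgroup.normalClosure ({a} : Set G) = ⊤ := by
      rcases (Subgroup.normalClosure_normal (s := ({a} : Set G))).eq_bot_or_eq_top with h1 | h1
      · have : a ∈ Subgroup.normalClosure ({a} : Set G) :=
          Subgroup.subset_normalClosure (Set.mem_singleton a)
        rw [h1, Subgroup.mem_bot] at this
        exact absurd this (ne_one H.ha)
      · exact h1
    rw [eq_top_iff, ← htop]
    unfold Subgroup.normalClosure
    apply Subgroup.closure_mono
    intro y hy
    obtain ⟨b', hb', hc⟩ := Group.mem_conjugatesOfSet_iff.1 hy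
    rw [Set.mem_singleton_iff] at hb'
    subst hb'
    exact Or.inl hc
  obtain ⟨N, hN⟩ : ∃ N : Subgroup G,
    N = Subgroup.closure {u | (IsConj a u ∨ IsConj b u) ∧ (u = a ∨ ¬ Commute u a)} := ⟨_, rfl⟩
  have hcent : ∀ v, (IsConj a v ∨ IsConj b v) → (v = b ∨ ¬ Commute v b) →
      ∀ n ∈ N, Commute n v := by
    intro v hv hv' n hn
    have hle : N ≤ Subgroup.centralizer ({v} : Set G) := by
      rw [hN, Subgroup.closure_le]
      intro u hu
      rw [SetLike.mem_coe, Subgroup.mem_centralizer_singleton_iff]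
      exact (claim2 u v hu.1 hu.2 hv hv').eq
    exact Subgroup.mem_centralizer_singleton_iff.1 (hle hn)
  have hnorm : N.Normal := by
    rw [← Subgroup.normalizer_eq_top_iff, eq_top_iff, ← hEtop, Subgroup.closure_le]
    intro e he
    by_cases hA : e = a ∨ ¬ Commute e a
    · apply Subgroup.le_normalizer
      rw [hN]
      exact Subgroup.subset_closure ⟨he, hA⟩
    · have hB : e = b ∨ ¬ Commute e b := by
        by_contra hB
        push Not at hA hB
        have := H.ax2 1 e (hE2 e he) (hEn e he) (by simpa using hA.2)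
          (by rw [← hb]; simpa using hB.2)
        rw [← hb] at this
        rcases this with h | h
        · exact hA.1 (by simpa using h)
        · exact hB.1 (by simpa using h)
      have hc := hcent e he hB
      rw [SetLike.mem_coe, Subgroup.mem_normalizer_iff]
      intro h
      constructor
      · intro hh
        rw [← (hc h hh).eq, mul_inv_cancel_right]
        exact hh
      · intro hh
        have h1 := (hc _ hh).eq
        have h2 : h = e * h * e⁻¹ := by
          calc h = e⁻¹ * (e * h * e⁻¹ * e) := by group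
            _ = e⁻¹ * (e * (e * h * e⁻¹)) := by rw [h1]
            _ = e * h * e⁻¹ := by group
        rw [h2]
        exact hh
  have hNtop : N = ⊤ := by
    rcases hnorm.eq_bot_or_eq_top with h | h
    · have : a ∈ N := by
        rw [hN]
        exact Subgroup.subset_closure ⟨hEa, Or.inl rfl⟩
      rw [h, Subgroup.mem_bot] at this
      exact absurd this (ne_one H.ha)
    · exact h
  have hbc : b ∈ Subgroup.center G := by
    rw [Subgroup.mem_center_iff]
    intro g
    exact (hcent b hEb (Or.inl rfl) g (by rw [hNtop]; trivial)).eq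
  exact center_absurd x a b H.hx H.ha H.hne hbc (by rw [hb]; exact ne_one H.hb)

end main

lemma card_ge_four {G : Type*} [Group G] [Finite G] (x a u : G) (hx : orderOf x = 2)
    (ha : orderOf a = 2) (hax : Commute a x) (hne : a ≠ x) (hu : orderOf u = 2)
    (hc : Commute u x) (h1 : u ≠ x) (h2 : u ≠ a) (h3 : u ≠ x * a) :
    4 ≤ Nat.card {u : ↥(Subgroup.centralizer ({x} : Set G)) // orderOf u = 2} := by
  have hb : orderOf (x * a) = 2 := by
    apply order_two
    · intro h
      apply hne
      have := eq_inv_of_mul_eq_one_right h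
      rw [this, inv_self hx]
    · calc x * a * (x * a) = x * (a * x) * a := by group
        _ = x * (x * a) * a := by rw [hax.eq]
        _ = (x * x) * (a * a) := by group
        _ = 1 := by rw [sq_one hx, sq_one ha, one_mul]
  have hbx : Commute (x * a) x := (Commute.refl x).mul_left hax
  have hbne : x * a ≠ x := fun h => ne_one ha (mul_eq_left.1 h)
  have hbnea : x * a ≠ a := fun h => ne_one hx (mul_eq_right.1 h)
  have key : ∀ y : G, orderOf y = 2 → Commute y x →
      ∃ e : {u : ↥(Subgroup.centralizer ({x} : Set G)) // orderOf u = 2}, (e.1.1 : G) = y := by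
    intro y hy hyc
    exact ⟨⟨⟨y, Subgroup.mem_centralizer_singleton_iff.2 hyc.eq⟩,
      by rw [Subgroup.orderOf_mk]; exact hy⟩, rfl⟩
  obtain ⟨e1, he1⟩ := key x hx (Commute.refl x)
  obtain ⟨e2, he2⟩ := key a ha hax
  obtain ⟨e3, he3⟩ := key (x * a) hb hbx
  obtain ⟨e4, he4⟩ := key u hu hc
  have hinj : Function.Injective ![e1, e2, e3, e4] := by
    intro i j hij
    have h : ((![e1, e2, e3, e4] i).1.1 : G) = (![e1, e2, e3, e4] j).1.1 := by rw [hij]
    fin_cases i <;> fin_cases j <;> simp [he1, he2, he3, he4] at h ⊢ <;>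
      first
        | exact absurd h hne | exact absurd h.symm hne
        | exact absurd h hbne | exact absurd h.symm hbne
        | exact absurd h hbnea | exact absurd h.symm hbnea
        | exact absurd h h1 | exact absurd h.symm h1
        | exact absurd h h2 | exact absurd h.symm h2
        | exact absurd h h3 | exact absurd h.symm h3
        | exact absurd h (ne_one ha) | exact absurd h (ne_one hx)
  have := Nat.card_le_card_of_injective _ hinj
  simpa using this

/-- Let G be a finite simple group and x an involution of G whose centralizer contains at most three involutions. Then C_G(x) contains a Sylow 2-subgroup of G, and all involutions of G are conjugate. -/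
theorem result {G : Type*} [Group G] [Finite G] [IsSimpleGroup G] (x : G) (hx : orderOf x = 2)
    (h3 : Nat.card {u : ↥(Subgroup.centralizer ({x} : Set G)) // orderOf u = 2} ≤ 3) :
    (∃ S : Sylow 2 G, (S : Subgroup G) ≤ Subgroup.centralizer ({x} : Set G)) ∧
      ∀ u v : G, orderOf u = 2 → orderOf v = 2 → IsConj u v := by
  classical
  have hall : ∀ u, orderOf u = 2 → IsConj x u := by
    by_cases hA : ∀ u, orderOf u = 2 → Commute u x → u = x
    · intro u hu
      by_contra hnc
      obtain ⟨z, hz, hzs, -, hzne, -⟩ := dihedral_main x u hx hu hnc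
      exact hzne (hA z hz hzs)
    · push Not at hA
      obtain ⟨a, ha, hax, hne⟩ := hA
      have H : Hyp x a := by
        refine ⟨hx, ha, hax, hne, ?_⟩
        intro u hu hc
        by_contra hcon
        push Not at hcon
        have := card_ge_four x a u hx ha hax hne hu hc hcon.1 hcon.2.1 hcon.2.2
        omega
      by_cases hca : IsConj x a
      · by_cases hcb : IsConj x (x * a)
        · exact H.case_all hca hcb
        · exact (H.case_one hca hcb).elim
      · by_cases hcb : IsConj x (x * a)
        · exact (H.swap.case_one hcb (by rw [H.xxa]; exact hca)).elim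
        · exact (H.case_none hca hcb).elim
  refine ⟨?_, fun u v hu hv => (hall u hu).symm.trans (hall v hv)⟩
  have h2 : 2 ∣ Nat.card G := hx ▸ orderOf_dvd_natCard x
  have : Fact (Nat.Prime 2) := ⟨Nat.prime_two⟩
  obtain ⟨P⟩ : Nonempty (Sylow 2 G) := inferInstance
  have hPne : (P : Subgroup G) ≠ ⊥ := P.ne_bot_of_dvd_card h2
  have hnt : Nontrivial ↥(P : Subgroup G) := (Subgroup.nontrivial_iff_ne_bot _).2 hPne
  have hZ : Nontrivial (Subgroup.center ↥(P : Subgroup G)) := P.isPGroup'.center_nontrivial
  have hZp : IsPGroup 2 (Subgroup.center ↥(P : Subgroup G)) := P.isPGroup'.to_subgroup _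
  obtain ⟨n, hn0, hn⟩ := hZp.nontrivial_iff_card.mp hZ
  have hdvd : 2 ∣ Nat.card (Subgroup.center ↥(P : Subgroup G)) :=
    hn ▸ dvd_pow_self _ hn0.ne'
  obtain ⟨z, hz⟩ := exists_prime_orderOf_dvd_card' 2 hdvd
  have hz2 : orderOf ((z.1.1 : G)) = 2 := by
    rw [Subgroup.orderOf_coe, Subgroup.orderOf_coe]; exact hz
  obtain ⟨g, hg⟩ := isConj_iff.1 (hall _ hz2).symm
  refine ⟨g • P, ?_⟩
  intro y hy
  rw [Sylow.coe_subgroup_smul] at hy
  obtain ⟨p, hp, rfl⟩ := hy
  rw [Subgroup.mem_centralizer_singleton_iff, ← hg]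
  have hcz : (p : G) * z.1.1 = z.1.1 * p := by
    have := Subgroup.mem_center_iff.1 z.2 ⟨p, hp⟩
    exact congrArg Subtype.val this
  change g * p * g⁻¹ * (g * z.1.1 * g⁻¹) = g * z.1.1 * g⁻¹ * (g * p * g⁻¹)
  calc g * p * g⁻¹ * (g * z.1.1 * g⁻¹) = g * (p * z.1.1) * g⁻¹ := by group
    _ = g * (z.1.1 * p) * g⁻¹ := by rw [hcz]
    _ = g * z.1.1 * g⁻¹ * (g * p * g⁻¹) := by group

end Cfsg.Agent.S3279
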