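import Mathlib
import Cfsg.Agent.Lib.helper6_Sylow
import Cfsg.Statements.S3305

set_option autoImplicit false
open Cfsg

namespace Cfsg.Agent.S3305

open Cfsg.Agent.Lib.helper6_Sylow

/-- If any two distinct Sylow 2-subgroups of the finite group G intersect in a cyclic group, then the same holds in every quotient group G/H, H a normal subgroup of G. -/
theorem result {G : Type*} [Group G] [Finite G]
    (hC : ∀ S T : Sylow 2 G, S ≠ T → IsCyclic ↥((S : Subgroup G) ⊓ (T : Subgroup G))) (H : Subgroup G) [H.Normal] :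
    ∀ S T : Sylow 2 (G ⧸ H), S ≠ T → IsCyclic ↥((S : Subgroup (G ⧸ H)) ⊓ (T : Subgroup (G ⧸ H))) := by
  classical
  have := Fact.mk Nat.prime_two
  intro Sb Tb hne
  obtain ⟨S, rfl⟩ := Sylow.mapSurjective_surjective (QuotientGroup.mk'_surjective H) 2 Sb
  obtain ⟨T, rfl⟩ := Sylow.mapSurjective_surjective (QuotientGroup.mk'_surjective H) 2 Tb
  set π := QuotientGroup.mk' H with hπ
  set Db : Subgroup (G ⧸ H) := (S : Subgroup G).map π ⊓ (T : Subgroup G).map π with hDb
  change IsCyclic ↥Db
  set D := Db.comap π with hD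
  have hA : (D ⊓ (S : Subgroup G)).map π = Db := by
    apply le_antisymm
    · rintro _ ⟨a, ha, rfl⟩
      exact ha.1
    · intro x hx
      obtain ⟨s, hs, rfl⟩ := hx.1
      exact ⟨s, ⟨hx, hs⟩, rfl⟩
  have hB : (D ⊓ (T : Subgroup G)).map π = Db := by
    apply le_antisymm
    · rintro _ ⟨a, ha, rfl⟩
      exact ha.1
    · intro x hx
      obtain ⟨s, hs, rfl⟩ := hx.2
      exact ⟨s, ⟨hx, hs⟩, rfl⟩
  have cyc_of : ∀ K : Subgroup G, K.map π = Db → IsCyclic K → IsCyclic Db := by
    intro K hK hc
    rw [← hK]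
    exact isCyclic_of_surjective (π.subgroupMap K) (π.subgroupMap_surjective K)
  obtain ⟨d, hd, Q, hAQ, hBQ⟩ := exists_conj_common_sylow D (D ⊓ (S : Subgroup G))
    (D ⊓ (T : Subgroup G)) (S.2.to_le inf_le_right) (T.2.to_le inf_le_right) inf_le_left inf_le_left
  by_cases hQS : S = Q
  · subst hQS
    by_cases hST : S = d • T
    · exfalso
      apply hne
      have hle : (S : Subgroup G).map π ≤ (T : Subgroup G).map π := by
        rintro _ ⟨s, hs, rfl⟩
        rw [hST, Sylow.coe_subgroup_smul] at hs
        obtain ⟨t, ht, rfl⟩ := hs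
        have hdT : π d ∈ (T : Subgroup G).map π := (show π d ∈ Db from hd).2
        have htT : π t ∈ (T : Subgroup G).map π := ⟨t, ht, rfl⟩
        have e : π (d * t * d⁻¹) = π d * π t * (π d)⁻¹ := by
          rw [map_mul, map_mul, map_inv]
        show π (d * t * d⁻¹) ∈ _
        rw [e]
        exact Subgroup.mul_mem _ (Subgroup.mul_mem _ hdT htT) (Subgroup.inv_mem _ hdT)
      apply Sylow.ext
      have := (S.mapSurjective (QuotientGroup.mk'_surjective H)).is_maximal'
        (T.mapSurjective (QuotientGroup.mk'_surjective H)).2 hle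
      exact this.symm
    · have hc := hC S (d • T) hST
      have hle : (D ⊓ (T : Subgroup G)).map (MulAut.conj d).toMonoidHom
          ≤ (S : Subgroup G) ⊓ ((d • T : Sylow 2 G) : Subgroup G) := by
        rintro _ ⟨b, hb, rfl⟩
        refine ⟨hBQ b hb, ?_⟩
        rw [Sylow.coe_subgroup_smul]
        exact ⟨b, hb.2, rfl⟩
      have hc2 : IsCyclic ((D ⊓ (T : Subgroup G)).map (MulAut.conj d).toMonoidHom) :=
        isCyclic_of_injective (Subgroup.inclusion hle) (Subgroup.inclusion_injective hle)
      have hc3 : IsCyclic (D ⊓ (T : Subgroup G) : Subgroup G) :=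
        isCyclic_of_injective
          ((D ⊓ (T : Subgroup G)).equivMapOfInjective (MulAut.conj d).toMonoidHom
            (MulAut.conj d).injective).toMonoidHom
          (MulEquiv.injective _)
      exact cyc_of _ hB hc3
  · have hc := hC S Q hQS
    have hle : D ⊓ (S : Subgroup G) ≤ (S : Subgroup G) ⊓ (Q : Subgroup G) := le_inf inf_le_right hAQ
    exact cyc_of _ hA
      (isCyclic_of_injective (Subgroup.inclusion hle) (Subgroup.inclusion_injective hle))

end Cfsg.Agent.S3305
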