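import Mathlib
import Cfsg.Agent.S3305
import Cfsg.Agent.Lib.Helper3_Local
import Cfsg.Agent.Lib.Helper3_PComp
import Cfsg.Agent.Lib.Helper4_Core
import Cfsg.Statements.S3303

set_option autoImplicit false
open Cfsg

namespace Cfsg.Agent.S3303

open Cfsg.Agent.Lib.Helper3_Core Cfsg.Agent.Lib.Helper3_Comp Cfsg.Agent.Lib.Helper3_PComp
  Cfsg.Agent.Lib.Helper3_Local

universe u

theorem key (X : Type u) [Group X] [Finite X] (hs : Group.IsSolvable X)
    (hO : pPrimeCore 2 X = ⊥)
    (hC : ∀ S T : Sylow 2 X, S ≠ T → IsCyclic ↥((S : Subgroup X) ⊓ (T : Subgroup X))) :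
    ∃ P : Sylow 2 X, (P : Subgroup X).Normal := by
  classical
  have := Fact.mk Nat.prime_two
  obtain ⟨P⟩ : Nonempty (Sylow 2 X) := inferInstance
  by_cases hsub : ∀ S T : Sylow 2 X, S = T
  · have : Subsingleton (Sylow 2 X) := ⟨hsub⟩
    exact ⟨P, Sylow.normal_of_subsingleton P⟩
  · push Not at hsub
    obtain ⟨S, T, hST⟩ := hsub
    set Q := pCore 2 X with hQ
    have hlayer : layer X = ⊥ := layer_eq_bot_of_isSolvable inferInstance
    have hgfs : generalizedFittingSubgroup X = Q := gfs_eq_pCore_iff.mpr ⟨hlayer, hO⟩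
    have hcent : Subgroup.centralizer (Q : Set X) ≤ Q := by
      have := centralizer_generalizedFittingSubgroup_le (G := X)
      rwa [hgfs] at this
    have hQp : IsPGroup 2 Q := Cfsg.Agent.Lib.Helper4_Core.pCore_isPGroup 2 X
    have hQle : Q ≤ (S : Subgroup X) ⊓ (T : Subgroup X) :=
      le_inf (Cfsg.Agent.Lib.Helper4_Core.pCore_le_sylow S)
        (Cfsg.Agent.Lib.Helper4_Core.pCore_le_sylow T)
    have hcyc0 := hC S T hST
    have hQc : IsCyclic Q :=
      isCyclic_of_injective (Subgroup.inclusion hQle) (Subgroup.inclusion_injective hQle)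
    -- the conjugation action on Q
    let f : X →* MulAut Q := MulAut.conjNormal
    have hker : f.ker ≤ Q := by
      intro x hx
      apply hcent
      rw [Subgroup.mem_centralizer_iff]
      intro q hq
      have h1 : f x ⟨q, hq⟩ = ⟨q, hq⟩ := by
        rw [MonoidHom.mem_ker.1 hx]; rfl
      have h2 : x * q * x⁻¹ = q := by
        have := congrArg Subtype.val h1
        rwa [MulAut.conjNormal_apply] at this
      exact (mul_inv_eq_iff_eq_mul.1 h2).symm
    obtain ⟨a, ha⟩ := IsPGroup.iff_card.1 hQp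
    have hAut : ∃ b, Nat.card (MulAut Q) = 2 ^ b := by
      rw [IsCyclic.card_mulAut, ha]
      rcases Nat.eq_zero_or_pos a with rfl | hpos
      · exact ⟨0, by simp⟩
      · exact ⟨a - 1, by rw [Nat.totient_prime_pow Nat.prime_two hpos]; simp⟩
    obtain ⟨b, hb⟩ := hAut
    have h1 : Nat.card f.ker ∣ 2 ^ a := ha ▸ Subgroup.card_dvd_of_le hker
    have h2 : Nat.card f.range ∣ 2 ^ b := hb ▸ Subgroup.card_subgroup_dvd_card f.range
    have h3 : Nat.card f.ker * Nat.card f.range = Nat.card X := by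
      rw [← Subgroup.index_ker]
      exact f.ker.card_mul_index
    have h4 : Nat.card X ∣ 2 ^ (a + b) := by
      rw [← h3, pow_add]
      exact Nat.mul_dvd_mul h1 h2
    obtain ⟨c, -, hc⟩ := (Nat.dvd_prime_pow Nat.prime_two).1 h4
    have hX : IsPGroup 2 X := IsPGroup.of_card hc
    have hPtop : (P : Subgroup X) = ⊤ := by
      have := P.is_maximal' (Q := ⊤) (hX.of_equiv Subgroup.topEquiv.symm) le_top
      exact this.symm
    exact ⟨P, hPtop ▸ inferInstance⟩

/-- Let G be a finite solvable group in which the intersection of any two distinct Sylow 2-subgroups is cyclic. Then G/O(G) has a normal Sylow 2-subgroup, where O(G) is the largest normal subgroup of odd order. -/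
theorem result {G : Type*} [Group G] [Finite G] (hs : Group.IsSolvable G)
    (hC : ∀ S T : Sylow 2 G, S ≠ T → IsCyclic ↥((S : Subgroup G) ⊓ (T : Subgroup G))) :
    ∃ P : Sylow 2 (G ⧸ Cfsg.oddCore G), (P : Subgroup (G ⧸ Cfsg.oddCore G)).Normal := by
  classical
  have := Fact.mk Nat.prime_two
  have hCX := Cfsg.Agent.S3305.result hC (oddCore G)
  exact key (G ⧸ oddCore G) inferInstance (pPrimeCore_quotient_eq_bot 2 G) hCX

end Cfsg.Agent.S3303
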