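import Mathlib
import Cfsg.Statements.S3349

set_option autoImplicit false
open Cfsg
open scoped commutatorElement

namespace Cfsg.Agent.S3349

/-- Let Q be a finite extraspecial p-group and α an automorphism of Q fixing every element of some maximal abelian subgroup of Q. Then the order of α is a power of p. -/
theorem result {Q : Type*} [Group Q] [Finite Q]
    (p : ℕ) [Fact p.Prime] (hQ : Cfsg.IsExtraspecial p Q) (α : MulAut Q)
    (A : Subgroup Q) (hA : IsMulCommutative A) (hmax : ∀ B : Subgroup Q, A ≤ B → IsMulCommutative B → B = A)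
    (hfix : ∀ a ∈ A, α a = a) :
    ∃ k : ℕ, orderOf α = p ^ k := by
  classical
  have hp : p.Prime := Fact.out
  obtain ⟨⟨hpQ, -, hcomm⟩, -⟩ := hQ
  -- self-centralizing
  have hCA : ∀ c : Q, (∀ a ∈ A, c * a = a * c) → c ∈ A := by
    intro c hc
    have hB : IsMulCommutative (Subgroup.closure ((A : Set Q) ∪ {c})) := by
      apply Subgroup.isMulCommutative_closure
      rintro x (hx | hx) y (hy | hy)
      · exact setLike_mul_comm hx hy
      · rw [Set.mem_singleton_iff.1 hy]; exact (hc x hx).symm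
      · rw [Set.mem_singleton_iff.1 hx]; exact hc y hy
      · rw [Set.mem_singleton_iff.1 hx, Set.mem_singleton_iff.1 hy]
    have hle : A ≤ Subgroup.closure ((A : Set Q) ∪ {c}) := fun a ha =>
      Subgroup.subset_closure (Or.inl ha)
    have := hmax _ hle hB
    rw [← this]
    exact Subgroup.subset_closure (Or.inr rfl)
  have hZA : Subgroup.center Q ≤ A := by
    intro z hz
    apply hCA
    intro a _
    exact ((Subgroup.mem_center_iff.1 hz) a).symm
  have hnorm : ∀ x : Q, ∀ a ∈ A, x * a * x⁻¹ ∈ A := by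
    intro x a ha
    have h1 : ⁅x, a⁆ ∈ commutator Q := Subgroup.commutator_mem_commutator (Subgroup.mem_top x) (Subgroup.mem_top a)
    rw [hcomm] at h1
    have h2 : x * a * x⁻¹ = ⁅x, a⁆ * a := by
      rw [commutatorElement_def]; group
    rw [h2]
    exact A.mul_mem (hZA h1) ha
  have hc : ∀ x : Q, x⁻¹ * α x ∈ A := by
    intro x
    apply hCA
    intro a ha
    have h1 := hfix _ (hnorm x a ha)
    rw [map_mul, map_mul, map_inv, hfix a ha] at h1
    -- α x * a * (α x)⁻¹ = x * a * x⁻¹
    have h2 : α x * a = x * a * x⁻¹ * α x := by rw [← h1]; group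
    calc x⁻¹ * α x * a = x⁻¹ * (α x * a) := by group
      _ = x⁻¹ * (x * a * x⁻¹ * α x) := by rw [h2]
      _ = a * (x⁻¹ * α x) := by group
  have hpow : ∀ n : ℕ, ∀ x : Q, (α ^ n) x = x * (x⁻¹ * α x) ^ n := by
    intro n
    induction n with
    | zero => intro x; simp
    | succ n ih =>
      intro x
      rw [pow_succ', MulAut.mul_apply, ih, map_mul, map_pow, hfix _ (hc x), pow_succ', ← mul_assoc,
        mul_inv_cancel_left]
  have hone : α ^ Nat.card Q = 1 := by
    ext x
    rw [hpow, pow_card_eq_one']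
    simp
  obtain ⟨m, hm⟩ := IsPGroup.iff_card.1 hpQ
  have hdvd := orderOf_dvd_of_pow_eq_one hone
  rw [hm] at hdvd
  obtain ⟨k, -, hk⟩ := (Nat.dvd_prime_pow hp).1 hdvd
  exact ⟨k, hk⟩

end Cfsg.Agent.S3349
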