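import Cfsg.Statements.S3389
import Mathlib

set_option autoImplicit false
open Cfsg

namespace Cfsg.Agent.S3389

section aux

variable {G : Type*} [Group G] [Finite G] {Ω : Type*} [Fintype Ω] [MulAction G Ω]

theorem fixedPoints_zpowers (x : G) :
    MulAction.fixedPoints (Subgroup.zpowers x) Ω = MulAction.fixedBy Ω x := by
  ext ω
  rw [MulAction.mem_fixedPoints, MulAction.mem_fixedBy]
  constructor
  · intro h
    exact h ⟨x, Subgroup.mem_zpowers x⟩
  · rintro h ⟨m, hm⟩
    have h1 : x ∈ MulAction.stabilizer G ω := h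
    have h2 : m ∈ MulAction.stabilizer G ω := (Subgroup.zpowers_le.mpr h1) hm
    exact h2

theorem cong (p : ℕ) [Fact p.Prime] (x : G) (hx : orderOf x = p) :
    Nat.card Ω ≡ Nat.card (MulAction.fixedBy Ω x) [MOD p] := by
  have hpg : IsPGroup p (Subgroup.zpowers x) :=
    IsPGroup.iff_card.2 ⟨1, by rw [Nat.card_zpowers, hx, pow_one]⟩
  have h := hpg.card_modEq_card_fixedPoints Ω
  rwa [fixedPoints_zpowers] at h

end aux


/-- Let G be a finite group acting faithfully and transitively on a finite set Ω with fixity k ≥ 1: every non-identity element fixes at most k points and some non-identity element fixes exactly k points. Then |Z(G)| divides k; if k = 2 then |G| is even; and for every prime p > k dividing |G| and every point α, either p does not divide |G_α| or G_α contains a Sylow p-subgroup of G. -/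
theorem result {G : Type*} [Group G] [Finite G] {Ω : Type*} [Fintype Ω] [MulAction G Ω] [FaithfulSMul G Ω]
    (htr : MulAction.IsPretransitive G Ω) (k : ℕ) (hk : 1 ≤ k)
    (hfix : ∀ g : G, g ≠ 1 → Nat.card (MulAction.fixedBy Ω g) ≤ k) (hex : ∃ g : G, g ≠ 1 ∧ Nat.card (MulAction.fixedBy Ω g) = k) :
    Nat.card (Subgroup.center G) ∣ k ∧ (k = 2 → 2 ∣ Nat.card G) ∧
      ∀ (p : ℕ), p.Prime → k < p → p ∣ Nat.card G → ∀ α : Ω,
        ¬ p ∣ Nat.card (MulAction.stabilizer G α) ∨ ¬ p ∣ (MulAction.stabilizer G α).index := by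
  classical
  obtain ⟨g, hg1, hgk⟩ := hex
  have hfree : ∀ z ∈ Subgroup.center G, ∀ ω : Ω, z • ω = ω → z = 1 := by
    intro z hz ω hω
    apply FaithfulSMul.eq_of_smul_eq_smul (α := Ω)
    intro ω'
    obtain ⟨h, rfl⟩ := MulAction.exists_smul_eq G ω ω'
    rw [one_smul, ← mul_smul, ← Subgroup.mem_center_iff.mp hz h, mul_smul, hω]
  refine ⟨?_, ?_, ?_⟩
  · rw [← hgk]
    let _ : MulAction (Subgroup.center G) (MulAction.fixedBy Ω g) :=
      { smul := fun z ω => ⟨(z : G) • ω.1, by
          have h1 : g • ω.1 = ω.1 := ω.2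
          show g • ((z : G) • ω.1) = (z : G) • ω.1
          rw [← mul_smul, Subgroup.mem_center_iff.mp z.2 g, mul_smul, h1]⟩
        one_smul := fun ω => Subtype.ext (one_smul G ω.1)
        mul_smul := fun a b ω => Subtype.ext (mul_smul (a : G) (b : G) ω.1) }
    have := Fintype.ofFinite (Subgroup.center G)
    have hB := MulAction.sum_card_fixedBy_eq_card_orbits_mul_card_group (Subgroup.center G)
      (MulAction.fixedBy Ω g)
    have h1 : ∑ z : Subgroup.center G,
        Fintype.card (MulAction.fixedBy (MulAction.fixedBy Ω g) z) =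
        Fintype.card (MulAction.fixedBy Ω g) := by
      rw [Finset.sum_eq_single (1 : Subgroup.center G)]
      · apply Fintype.card_congr
        exact ⟨fun x => x.1, fun x => ⟨x, one_smul _ x⟩, fun _ => rfl, fun _ => rfl⟩
      · intro z _ hz
        rw [Fintype.card_eq_zero_iff]
        refine ⟨fun x => hz ?_⟩
        have h2 : (z : G) • x.1.1 = x.1.1 := congrArg Subtype.val x.2
        exact Subtype.ext (hfree z z.2 _ h2)
      · intro h; exact absurd (Finset.mem_univ _) h
    rw [h1] at hB
    rw [Nat.card_eq_fintype_card, Nat.card_eq_fintype_card, hB]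
    exact Dvd.intro_left _ rfl
  · intro hk2
    subst hk2
    obtain ⟨⟨α, hα⟩, ⟨β, hβ⟩, hne, huniv⟩ := Nat.card_eq_two_iff.mp hgk
    have hαβ : α ≠ β := fun h => hne (Subtype.ext h)
    by_contra hodd
    have hog : orderOf g ≠ 1 := fun h => hg1 (orderOf_eq_one_iff.mp h)
    obtain ⟨p, hp, hpg⟩ := Nat.exists_prime_and_dvd hog
    have : Fact p.Prime := ⟨hp⟩
    have hp2 : p ≠ 2 := by
      rintro rfl
      exact hodd (hpg.trans (orderOf_dvd_natCard g))
    have hp3 : 3 ≤ p := by
      have := hp.two_le
      omega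
    set x := g ^ (orderOf g / p) with hx
    have hxo : orderOf x = p := orderOf_pow_orderOf_div (orderOf_pos g).ne' hpg
    have hx1 : x ≠ 1 := by
      intro h
      rw [h, orderOf_one] at hxo
      exact hp.one_lt.ne hxo
    have hxα : x • α = α := by
      have h1 : g ∈ MulAction.stabilizer G α := hα
      exact (Subgroup.pow_mem _ h1 _ : x ∈ MulAction.stabilizer G α)
    have hxβ : x • β = β := by
      have h1 : g ∈ MulAction.stabilizer G β := hβ
      exact (Subgroup.pow_mem _ h1 _ : x ∈ MulAction.stabilizer G β)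
    have hpgx : IsPGroup p (Subgroup.zpowers x) :=
      IsPGroup.iff_card.2 ⟨1, by rw [Nat.card_zpowers, hxo, pow_one]⟩
    obtain ⟨P, hP⟩ := hpgx.exists_le_sylow
    have hxP : x ∈ (P : Subgroup G) := hP (Subgroup.mem_zpowers x)
    have hsub : MulAction.fixedPoints (P : Subgroup G) Ω ⊆ MulAction.fixedBy Ω x := by
      intro ω hω
      exact hω ⟨x, hxP⟩
    have c1 := cong (Ω := Ω) p x hxo
    have c2 := P.2.card_modEq_card_fixedPoints Ω
    have hfx : Nat.card (MulAction.fixedBy Ω x) = 2 := by
      apply le_antisymm (hfix x hx1)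
      have : Nontrivial (MulAction.fixedBy Ω x) :=
        ⟨⟨⟨α, hxα⟩, ⟨β, hxβ⟩, fun h => hαβ (congrArg Subtype.val h)⟩⟩
      exact Finite.one_lt_card_iff_nontrivial.mpr this
    have hle : Nat.card (MulAction.fixedPoints (P : Subgroup G) Ω) ≤
        Nat.card (MulAction.fixedBy Ω x) := Nat.card_mono (Set.toFinite _) hsub
    have hc : Nat.card (MulAction.fixedPoints (P : Subgroup G) Ω) = 2 := by
      have h1 := c1.symm.trans c2
      rw [hfx] at h1 hle
      unfold Nat.ModEq at h1
      rw [Nat.mod_eq_of_lt (by omega), Nat.mod_eq_of_lt (by omega)] at h1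
      exact h1.symm
    have heqset : MulAction.fixedPoints (P : Subgroup G) Ω = MulAction.fixedBy Ω x :=
      Set.eq_of_subset_of_ncard_le hsub
        (by rw [← Nat.card_coe_set_eq, ← Nat.card_coe_set_eq, hc, hfx]) (Set.toFinite _)
    have hPα : ∀ u ∈ (P : Subgroup G), u • α = α := by
      intro u hu
      have h1 : α ∈ MulAction.fixedPoints (P : Subgroup G) Ω := by rw [heqset]; exact hxα
      exact h1 ⟨u, hu⟩
    have hPβ : ∀ u ∈ (P : Subgroup G), u • β = β := by
      intro u hu
      have h1 : β ∈ MulAction.fixedPoints (P : Subgroup G) Ω := by rw [heqset]; exact hxβ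
      exact h1 ⟨u, hu⟩
    have hPfix : ∀ ω : Ω, (∀ u ∈ (P : Subgroup G), u • ω = ω) → ω = α ∨ ω = β := by
      intro ω hω
      have hxω : x • ω = ω := hω x hxP
      by_cases h1 : ω = α
      · left; exact h1
      · right
        obtain ⟨y, -, hy⟩ := (Nat.card_eq_two_iff' (⟨α, hxα⟩ : MulAction.fixedBy Ω x)).mp hfx
        have e1 := hy ⟨ω, hxω⟩ (fun h => h1 (congrArg Subtype.val h))
        have e2 := hy ⟨β, hxβ⟩ (fun h => hαβ (congrArg Subtype.val h).symm)
        exact congrArg Subtype.val (e1.trans e2.symm)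
    obtain ⟨h, hh⟩ := MulAction.exists_smul_eq G α β
    have hPle : (P : Subgroup G) ≤ MulAction.stabilizer G β := fun u hu => hPβ u hu
    have hhPle : ((h • P : Sylow p G) : Subgroup G) ≤ MulAction.stabilizer G β := by
      intro u hu
      rw [Sylow.coe_subgroup_smul, Subgroup.mem_smul_pointwise_iff_exists] at hu
      obtain ⟨s, hs, rfl⟩ := hu
      rw [MulAut.smul_def, MulAut.conj_apply, MulAction.mem_stabilizer_iff, mul_smul, mul_smul,
        ← hh, inv_smul_smul, hPα s hs]
    obtain ⟨y, hy⟩ := MulAction.exists_smul_eq (MulAction.stabilizer G β)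
      ((h • P).subtype hhPle) (P.subtype hPle)
    rw [Sylow.smul_subtype] at hy
    have hy' : (y : G) • (h • P) = P := Sylow.subtype_injective hy
    have hwP : ((y : G) * h) • P = P := by rw [mul_smul]; exact hy'
    have hwα : ((y : G) * h) • α = β := by rw [mul_smul, hh]; exact y.2
    set w := (y : G) * h with hw
    have hwN : ∀ u ∈ (P : Subgroup G), w⁻¹ * u * w ∈ (P : Subgroup G) := by
      intro u hu
      have h1 := Sylow.smul_eq_iff_mem_normalizer.mp hwP
      have h2 := (Subgroup.mem_normalizer_iff.mp (Subgroup.inv_mem _ h1) u).mp hu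
      rwa [inv_inv] at h2
    have hwβ : w • β = α := by
      have h1 : ∀ u ∈ (P : Subgroup G), u • (w • β) = w • β := by
        intro u hu
        have h2 := hPβ _ (hwN u hu)
        calc u • (w • β) = w • ((w⁻¹ * u * w) • β) := by simp [mul_smul]
          _ = w • β := by rw [h2]
      rcases hPfix _ h1 with h3 | h3
      · exact h3
      · exfalso
        exact hαβ (smul_left_cancel w (hwα.trans h3.symm))
    apply hodd
    have h2w : 2 ∣ orderOf w := by
      by_contra hno
      have hoddw : Odd (orderOf w) := Nat.odd_iff.mpr (by omega)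
      obtain ⟨m, hm⟩ := hoddw
      have hw2 : (w ^ 2) • α = α := by rw [pow_two, mul_smul, hwα, hwβ]
      have h5 : w = (w ^ 2) ^ (m + 1) := by
        rw [← pow_mul]
        have h6 : 2 * (m + 1) = orderOf w + 1 := by omega
        rw [h6, pow_succ, pow_orderOf_eq_one, one_mul]
      have h6 : w • α = α := by
        have h7 : w ^ 2 ∈ MulAction.stabilizer G α := hw2
        have h8 := Subgroup.pow_mem _ h7 (m + 1)
        rw [← h5] at h8
        exact h8
      exact hαβ (h6.symm.trans hwα)
    exact h2w.trans (orderOf_dvd_natCard w)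
  · intro p hp hkp hpG α
    by_cases hdiv : p ∣ Nat.card (MulAction.stabilizer G α)
    · right
      have : Fact p.Prime := ⟨hp⟩
      obtain ⟨x, hx⟩ := exists_prime_orderOf_dvd_card' p hdiv
      have hx' : orderOf (x : G) = p := by rw [Subgroup.orderOf_coe]; exact hx
      have hx1 : (x : G) ≠ 1 := by
        intro h
        rw [h, orderOf_one] at hx'
        exact hp.one_lt.ne hx'
      have h1 := cong (Ω := Ω) p (x : G) hx'
      have h2 := hfix x hx1
      have h3 : 0 < Nat.card (MulAction.fixedBy Ω (x : G)) :=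
        Nat.card_pos_iff.mpr ⟨⟨⟨α, x.2⟩⟩, inferInstance⟩
      rw [MulAction.index_stabilizer_of_transitive]
      intro h4
      have h5 : p ∣ Nat.card (MulAction.fixedBy Ω (x : G)) :=
        (Nat.modEq_zero_iff_dvd.mp (h1.symm.trans (Nat.modEq_zero_iff_dvd.mpr h4)))
      have := Nat.le_of_dvd h3 h5
      omega
    · left; exact hdiv

end Cfsg.Agent.S3389
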