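import Cfsg.Statements.S3498
import Cfsg.Agent.Lib.Helper4_Syl
import Cfsg.Agent.Lib.Helper4_Cop

set_option autoImplicit false
open Cfsg

namespace Cfsg.Agent.S3498

open Cfsg.Agent.Lib.Helper4_Syl Cfsg.Agent.Lib.Helper4_Cop
open scoped Pointwise

/-- A maximal subgroup of a finite almost simple group does not have prime order. Here G is almost simple in the sense that it has a non-abelian simple normal subgroup T with trivial centralizer. -/
theorem result {G : Type*} [Group G] [Finite G] (T : Subgroup G) [T.Normal] (hT : IsSimpleGroup T) (hTc : ¬ IsMulCommutative T)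
    (hC : Subgroup.centralizer (T : Set G) = ⊥) (H : Subgroup G) (hmax : IsCoatom H) : ¬ (Nat.card H).Prime := by
  intro hprime
  set p := Nat.card H with hp
  haveI : Fact p.Prime := ⟨hprime⟩
  have hTn : T.Normal := inferInstance
  -- normal subgroups of prime power order are trivial
  have hL : ∀ (q : ℕ) [Fact q.Prime] (Y : Subgroup G), Y.Normal → IsPGroup q Y → Y = ⊥ := by
    intro q _ Y hY hYq
    have hYT : ((Y ⊓ T).subgroupOf T).Normal := by
      have : (Y ⊓ T).Normal := inferInstance
      infer_instance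
    rcases hT.eq_bot_or_eq_top_of_normal _ hYT with h | h
    · rw [Subgroup.subgroupOf_eq_bot] at h
      have h1 : Y ⊓ T = ⊥ := by
        have := h.eq_bot
        rwa [inf_eq_left.2 inf_le_right] at this
      rw [eq_bot_iff, ← hC]
      intro y hy
      rw [Subgroup.mem_centralizer_iff]
      intro t ht
      exact (Subgroup.commute_of_normal_of_disjoint Y T hY hTn (disjoint_iff.2 h1) y t hy ht).eq.symm
    · exfalso
      rw [Subgroup.subgroupOf_eq_top] at h
      have hTp : IsPGroup q T := hYq.to_le (h.trans inf_le_left)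
      haveI : Nontrivial T := hT.toNontrivial
      have hc := hTp.center_nontrivial
      rcases hT.eq_bot_or_eq_top_of_normal (Subgroup.center T) inferInstance with h1 | h1
      · exact absurd h1 ((Subgroup.nontrivial_iff_ne_bot _).1 hc)
      · refine hTc ⟨⟨fun a b => ?_⟩⟩
        have hb : b ∈ Subgroup.center T := h1 ▸ Subgroup.mem_top b
        exact (Subgroup.mem_center_iff.1 hb a)
  have hH1 : H ≠ ⊥ := by
    intro h
    rw [hp, h, Subgroup.card_bot] at hprime
    exact Nat.not_prime_one hprime
  have hHp : IsPGroup p H := IsPGroup.of_card (n := 1) (by rw [pow_one])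
  obtain ⟨P, hHP⟩ := hHp.exists_le_sylow
  have hPH : (P : Subgroup G) = H := by
    by_contra hne
    have h1 := hmax.2 _ (lt_of_le_of_ne hHP (Ne.symm hne))
    have h2 := hL p ⊤ inferInstance (h1 ▸ P.2)
    exact hH1 (eq_bot_iff.2 (h2 ▸ le_top))
  have hNH : Subgroup.normalizer (H : Set G) = H := by
    by_contra hne
    have h1 := hmax.2 _ (lt_of_le_of_ne Subgroup.le_normalizer (Ne.symm hne))
    exact hH1 (hL p H (Subgroup.normalizer_eq_top_iff.1 h1) hHp)
  have hHab : ∀ a ∈ H, ∀ b ∈ H, a * b = b * a := by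
    intro a ha b hb
    haveI : IsCyclic H := isCyclic_of_prime_card (p := p) rfl
    have := (IsCyclic.commutative (α := H)).is_comm.comm ⟨a, ha⟩ ⟨b, hb⟩
    exact congrArg Subtype.val this
  have hNC : Subgroup.normalizer ((P : Subgroup G) : Set G) ≤
      Subgroup.centralizer ((P : Subgroup G) : Set G) := by
    rw [hPH, hNH]
    intro a ha
    rw [Subgroup.mem_centralizer_iff]
    intro b hb
    exact hHab b hb a ha
  have hcompl := MonoidHom.ker_transferSylow_isComplement' P hNC
  set K := (MonoidHom.transferSylow P hNC).ker with hK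
  have hKn : K.Normal := inferInstance
  have hKH : K ⊓ H = ⊥ := by rw [← hPH]; exact hcompl.disjoint.eq_bot
  have hK1 : K ≠ ⊥ := by
    intro h
    have := hcompl.sup_eq_top
    rw [h, bot_sup_eq, hPH] at this
    exact hmax.1 this
  obtain ⟨r, hr, hrK⟩ := Nat.exists_prime_and_dvd (n := Nat.card K) (by
    intro h; exact hK1 (Subgroup.card_eq_one.1 h))
  haveI : Fact r.Prime := ⟨hr⟩
  obtain ⟨R, hR⟩ := exists_isSylIn r K
  have hR1 : R ≠ ⊥ := hR.ne_bot_of_dvd hrK
  obtain ⟨h, hhH, hho⟩ := exists_orderOf_eq_of_ne_bot hHp hH1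
  have hh1 : h ≠ 1 := by
    rintro rfl
    rw [orderOf_one] at hho
    exact hprime.one_lt.ne hho
  obtain ⟨n, hn, hw⟩ := frattini hR h (conj_smul_eq_of_normal K h)
  set w := n⁻¹ * h with hwdef
  have hpw : p ∣ orderOf w := by
    by_contra hnd
    have hcop : (orderOf w).Coprime p := ((Nat.Prime.coprime_iff_not_dvd hprime).2 hnd).symm
    set π := QuotientGroup.mk' K with hπ
    have e1 : π w = π h := by
      have e0 : π n = 1 := (QuotientGroup.eq_one_iff n).2 hn
      rw [hwdef, map_mul, map_inv, e0, inv_one, one_mul]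
    have e2 : (π h) ^ orderOf w = 1 := by rw [← e1, ← map_pow, pow_orderOf_eq_one, map_one]
    have e3 : (π h) ^ p = 1 := by rw [← map_pow, ← hho, pow_orderOf_eq_one, map_one]
    have e4 := eq_one_of_coprime_pow e2 e3 hcop
    have e5 : h ∈ K ⊓ H := ⟨(QuotientGroup.eq_one_iff h).1 e4, hhH⟩
    rw [hKH] at e5
    exact hh1 (Subgroup.mem_bot.1 e5)
  set w' := w ^ (orderOf w / p) with hw'
  have hw'o : orderOf w' = p := orderOf_pow_orderOf_div (orderOf_pos w).ne' hpw
  have hw'N : Subgroup.zpowers w' ≤ Subgroup.normalizer (R : Set G) := by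
    rw [Subgroup.zpowers_le]; exact Subgroup.pow_mem _ hw _
  obtain ⟨P', hP'⟩ := (isPGroup_zpowers hw'o).exists_le_sylow
  obtain ⟨a, -, ha⟩ := (IsSylIn.of_sylow_top P').conj (IsSylIn.of_sylow_top P)
  have hcard : Nat.card (P' : Subgroup G) = p := by
    rw [← card_conj_smul a, ha, hPH]
  have hzP' : Subgroup.zpowers w' = (P' : Subgroup G) :=
    Subgroup.eq_of_le_of_card_ge hP' (by rw [hcard, Nat.card_zpowers, hw'o])
  set R' := MulAut.conj a • R with hR'
  have hHR' : H ≤ Subgroup.normalizer (R' : Set G) := by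
    rw [hR', normalizer_conj, ← hPH, ← ha, ← hzP']
    exact Subgroup.pointwise_smul_le_pointwise_smul_iff.2 hw'N
  have hR'K : R' ≤ K := by
    rw [← conj_smul_eq_of_normal K a]
    exact Subgroup.pointwise_smul_le_pointwise_smul_iff.2 hR.le
  have hR'1 : R' ≠ ⊥ := by
    intro hb
    apply hR1
    have := card_conj_smul a R
    rw [← hR', hb, Subgroup.card_bot] at this
    exact Subgroup.card_eq_one.1 this.symm
  have hlt : H < H ⊔ R' := by
    refine lt_of_le_of_ne le_sup_left ?_
    intro he
    apply hR'1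
    rw [eq_bot_iff, ← hKH]
    exact le_inf hR'K (he ▸ le_sup_right)
  have htop := hmax.2 _ hlt
  have hR'n : R'.Normal := by
    rw [← Subgroup.normalizer_eq_top_iff, eq_top_iff, ← htop]
    exact sup_le hHR' Subgroup.le_normalizer
  exact hR'1 (hL r R' hR'n (isPGroup_conj hR.isPGroup a))

end Cfsg.Agent.S3498
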