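import Mathlib
import Cfsg.Statements.S3511

set_option autoImplicit false
open Cfsg

namespace Cfsg.Agent.S3511

theorem smul_pow_fix {G : Type*} [Group G] {Ω : Type*} [MulAction G Ω] (x : G) (ω : Ω)
    (h : x • ω = ω) (n : ℕ) : x ^ n • ω = ω := by
  induction n with
  | zero => simp
  | succ n ih => rw [pow_succ, mul_smul, h, ih]

theorem stab_iff {G : Type*} [Group G] {Ω : Type*} [MulAction G Ω] (g : G) (ω : Ω) :
    MulAction.stabilizer (Subgroup.zpowers g) ω = ⊥ ↔ ∀ k : ℤ, g ^ k • ω = ω → g ^ k = 1 := by
  rw [Subgroup.eq_bot_iff_forall]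
  constructor
  · intro h k hk
    have := h ⟨g ^ k, k, rfl⟩ (by rw [MulAction.mem_stabilizer_iff]; exact hk)
    exact congrArg Subtype.val this
  · rintro h ⟨x, k, rfl⟩ hx
    rw [MulAction.mem_stabilizer_iff] at hx
    exact Subtype.ext (h k hx)

/-- Let a finite group G act faithfully on a set Ω. If every element of G of square-free order has a regular cycle (an orbit of the cyclic group it generates with trivial stabilizer), then every element of G has a regular cycle. -/
theorem result {G : Type*} [Group G] [Finite G] {Ω : Type*} [MulAction G Ω] [FaithfulSMul G Ω]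
    (h : ∀ g : G, Squarefree (orderOf g) → ∃ ω : Ω, MulAction.stabilizer (Subgroup.zpowers g) ω = ⊥) (g : G) :
    ∃ ω : Ω, MulAction.stabilizer (Subgroup.zpowers g) ω = ⊥ := by
  have main : ∀ n : ℕ, ∀ g : G, orderOf g = n →
      ∃ ω : Ω, ∀ k : ℤ, g ^ k • ω = ω → g ^ k = 1 := by
    intro n
    induction n using Nat.strong_induction_on with
    | _ n ih =>
      intro g hg
      by_cases hsq : Squarefree n
      · obtain ⟨ω, hω⟩ := h g (hg ▸ hsq)
        exact ⟨ω, (stab_iff g ω).1 hω⟩
      · have hn0 : n ≠ 0 := by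
          rw [← hg]; exact (orderOf_pos g).ne'
        rw [Nat.squarefree_iff_prime_squarefree] at hsq
        push Not at hsq
        obtain ⟨p, hp, hpp⟩ := hsq
        obtain ⟨m, hm⟩ := hpp
        have hpdvd : p ∣ orderOf g := by rw [hg, hm]; exact ⟨p * m, by ring⟩
        have hord : orderOf (g ^ p) = p * m := by
          rw [orderOf_pow_of_dvd hp.ne_zero hpdvd, hg, hm, mul_assoc]
          exact Nat.mul_div_cancel_left _ hp.pos
        have hm0 : m ≠ 0 := by rintro rfl; simp at hm; exact hn0 hm
        have hlt : p * m < n := by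
          rw [hm, mul_assoc]
          have : 0 < p * m := Nat.mul_pos hp.pos (Nat.pos_of_ne_zero hm0)
          nlinarith [hp.two_le]
        obtain ⟨ω, hω⟩ := ih (p * m) hlt (g ^ p) hord
        refine ⟨ω, fun k hk => ?_⟩
        -- (g^k)^p fixes ω
        have h1 : (g ^ p) ^ k • ω = ω := by
          have : (g ^ p) ^ k = (g ^ k) ^ p := by
            rw [← zpow_natCast, ← zpow_mul, ← zpow_natCast, ← zpow_mul, mul_comm]
          rw [this]
          exact smul_pow_fix _ _ hk p
        have h2 := hω k h1
        have h3 : g ^ ((p : ℤ) * k) = 1 := by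
          rw [zpow_mul, zpow_natCast]; exact h2
        have h4 : (n : ℤ) ∣ (p : ℤ) * k := by
          rw [← hg]; exact orderOf_dvd_iff_zpow_eq_one.2 h3
        have h5 : (p : ℤ) ∣ k := by
          rw [hm] at h4
          push_cast at h4
          have hp0 : (p : ℤ) ≠ 0 := by exact_mod_cast hp.ne_zero
          have : (p : ℤ) * ((p : ℤ) * m) ∣ (p : ℤ) * k := by
            rwa [← mul_assoc]
          have := (mul_dvd_mul_iff_left hp0).1 this
          exact (Dvd.intro _ rfl).trans this
        obtain ⟨j, rfl⟩ := h5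
        have h6 : g ^ ((p : ℤ) * j) = (g ^ p) ^ j := by
          rw [zpow_mul, zpow_natCast]
        rw [h6] at hk ⊢
        exact hω j hk
  obtain ⟨ω, hω⟩ := main _ g rfl
  exact ⟨ω, (stab_iff g ω).2 hω⟩

end Cfsg.Agent.S3511
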