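import Mathlib
import Cfsg.Statements.S3517

set_option autoImplicit false
open Cfsg

namespace Cfsg.Agent.S3517

theorem exists_equiv_of_ker_eq {K V W : Type*} [Field K] [AddCommGroup V] [Module K V]
    [AddCommGroup W] [Module K W] [FiniteDimensional K V] (f g : W →ₗ[K] V)
    (h : LinearMap.ker f = LinearMap.ker g) : ∃ A : V ≃ₗ[K] V, ∀ w, A (f w) = g w := by
  let e : LinearMap.range f ≃ₗ[K] LinearMap.range g :=
    (f.quotKerEquivRange).symm ≪≫ₗ (Submodule.quotEquivOfEq _ _ h) ≪≫ₗ g.quotKerEquivRange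
  obtain ⟨A, hA⟩ := Submodule.exists_linearEquiv_restrict_eq e
  refine ⟨A, fun w => ?_⟩
  have := hA ⟨f w, LinearMap.mem_range_self f w⟩
  rw [← this]
  simp only [e, LinearEquiv.trans_apply, LinearMap.quotKerEquivRange_symm_apply_image]
  simp

theorem aff3 {V : Type*} [AddCommGroup V] [Module (ZMod 2) V] [FiniteDimensional (ZMod 2) V]
    (σ : Equiv.Perm V) (t : Fin 3 → V) :
    ∃ (A : V ≃ₗ[ZMod 2] V) (b : V), ∀ i, σ (t i) = A (t i) + b := by
  have h2 : ∀ x : V, x + x = 0 := by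
    intro x
    have : (2 : ZMod 2) • x = 0 := by rw [show (2 : ZMod 2) = 0 from rfl, zero_smul]
    rwa [two_smul] at this
  have key : ∀ a b c : V, (a - c) + (b - c) = a - b := by
    intro a b c
    have : (a - c) + (b - c) = a - b + (b + b) - (c + c) := by abel
    rw [this, h2, h2]; simp
  let f : (ZMod 2 × ZMod 2) →ₗ[ZMod 2] V :=
    (LinearMap.toSpanSingleton (ZMod 2) V (t 1 - t 0)).coprod
      (LinearMap.toSpanSingleton (ZMod 2) V (t 2 - t 0))
  let g : (ZMod 2 × ZMod 2) →ₗ[ZMod 2] V :=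
    (LinearMap.toSpanSingleton (ZMod 2) V (σ (t 1) - σ (t 0))).coprod
      (LinearMap.toSpanSingleton (ZMod 2) V (σ (t 2) - σ (t 0)))
  have h01 : ∀ a : ZMod 2, a = 0 ∨ a = 1 := by decide
  have hker : LinearMap.ker f = LinearMap.ker g := by
    ext ⟨a, b⟩
    simp only [LinearMap.mem_ker, f, g, LinearMap.coprod_apply, LinearMap.toSpanSingleton_apply]
    rcases h01 a with rfl | rfl <;> rcases h01 b with rfl | rfl
    · simp
    · simp [sub_eq_zero]
    · simp [sub_eq_zero]
    · simp [key, sub_eq_zero]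
  obtain ⟨A, hA⟩ := exists_equiv_of_ker_eq f g hker
  have h1 : A (t 1 - t 0) = σ (t 1) - σ (t 0) := by
    simpa [f, g] using hA (1, 0)
  have h2 : A (t 2 - t 0) = σ (t 2) - σ (t 0) := by
    simpa [f, g] using hA (0, 1)
  refine ⟨A, σ (t 0) - A (t 0), ?_⟩
  intro i
  fin_cases i
  · simp
  · rw [map_sub] at h1
    show σ (t 1) = A (t 1) + (σ (t 0) - A (t 0))
    have : σ (t 1) = (A (t 1) - A (t 0)) + σ (t 0) := by rw [h1]; abel
    rw [this]; abel
  · rw [map_sub] at h2
    show σ (t 2) = A (t 2) + (σ (t 0) - A (t 0))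
    have : σ (t 2) = (A (t 2) - A (t 0)) + σ (t 0) := by rw [h2]; abel
    rw [this]; abel

/-- For d ≥ 3, the 3-closure of the affine group AGL_d(2) acting on F_2^d is the full symmetric group: every permutation of F_2^d agrees on every ordered triple of points with some affine map (AGL_d(2) is 3-transitive). -/
theorem result (d : ℕ) (hd : 3 ≤ d) (σ : Equiv.Perm (Fin d → ZMod 2)) (t : Fin 3 → (Fin d → ZMod 2)) :
    ∃ (A : (Fin d → ZMod 2) ≃ₗ[ZMod 2] (Fin d → ZMod 2)) (b : Fin d → ZMod 2), ∀ i, σ (t i) = A (t i) + b := by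
  exact aff3 σ t

end Cfsg.Agent.S3517
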