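import Mathlib
import Cfsg.Agent.Lib.helper6_Burnside
import Cfsg.Statements.S3547

set_option autoImplicit false
open Cfsg

namespace Cfsg.Agent.S3547

theorem card_fixedBy_prod {G Ω : Type*} [Group G] [MulAction G Ω] (g : G) :
    Nat.card (MulAction.fixedBy (Ω × Ω) g) =
      Nat.card (MulAction.fixedBy Ω g) * Nat.card (MulAction.fixedBy Ω g) := by
  rw [← Nat.card_prod]
  apply Nat.card_congr
  exact {
    toFun := fun x => (⟨x.1.1, congrArg Prod.fst x.2⟩, ⟨x.1.2, congrArg Prod.snd x.2⟩)
    invFun := fun y => ⟨(y.1.1, y.2.1), Prod.ext y.1.2 y.2.2⟩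
    left_inv := fun x => rfl
    right_inv := fun y => rfl }

/-- Let G act faithfully and transitively on a finite set Ω, let D be the subgroup generated by the derangements, and let r_G and r_D be the numbers of orbits of G and of D on ordered pairs of points (the permutation ranks). Then r_D − 1 = (r_G − 1)·[G : D]. -/
theorem result {G Ω : Type*} [Group G] [Finite G] [MulAction G Ω] [FaithfulSMul G Ω] [Finite Ω]
    (htrans : MulAction.IsPretransitive G Ω) :
    Nat.card (MulAction.orbitRel.Quotient ↥(Subgroup.closure {g : G | ∀ ω : Ω, g • ω ≠ ω}) (Ω × Ω)) - 1 =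
      (Nat.card (MulAction.orbitRel.Quotient G (Ω × Ω)) - 1) * (Subgroup.closure {g : G | ∀ ω : Ω, g • ω ≠ ω}).index := by
  classical
  rcases isEmpty_or_nonempty Ω with hE | hN
  · have e1 : IsEmpty (MulAction.orbitRel.Quotient
        ↥(Subgroup.closure {g : G | ∀ ω : Ω, g • ω ≠ ω}) (Ω × Ω)) :=
      ⟨fun q => Quotient.inductionOn' q (fun x => hE.false x.1)⟩
    have e2 : IsEmpty (MulAction.orbitRel.Quotient G (Ω × Ω)) :=
      ⟨fun q => Quotient.inductionOn' q (fun x => hE.false x.1)⟩
    simp
  · obtain ⟨-, h2⟩ := Cfsg.Agent.Lib.helper6_Burnside.derangement_main (G := G) (Ω := Ω)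
    change Nat.card (MulAction.orbitRel.Quotient
        ↥(Cfsg.Agent.Lib.helper6_Burnside.der G Ω) (Ω × Ω)) - 1 =
      (Nat.card (MulAction.orbitRel.Quotient G (Ω × Ω)) - 1) *
        (Cfsg.Agent.Lib.helper6_Burnside.der G Ω).index
    set D := Cfsg.Agent.Lib.helper6_Burnside.der G Ω with hD
    have := Fintype.ofFinite G
    have b1 := Cfsg.Agent.Lib.helper6_Burnside.burnside (G := G) (Ω := Ω × Ω)
    have b2 := Cfsg.Agent.Lib.helper6_Burnside.burnside_subgroup (G := G) (Ω := Ω × Ω) D
    have h3 := Finset.sum_filter_add_sum_filter_not (Finset.univ : Finset G) (· ∈ D)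
      (fun g => Nat.card (MulAction.fixedBy (Ω × Ω) g))
    rw [b1, b2] at h3
    have h4 : ∑ g ∈ Finset.univ.filter (fun g => ¬ g ∈ D), Nat.card (MulAction.fixedBy (Ω × Ω) g)
        = ∑ g ∈ Finset.univ.filter (fun g => ¬ g ∈ D), 1 := by
      apply Finset.sum_congr rfl
      intro g hg
      rw [card_fixedBy_prod, h2 g (Finset.mem_filter.1 hg).2]
    rw [h4] at h3
    simp only [Finset.sum_const, smul_eq_mul, mul_one] at h3
    have h5 : (Finset.univ.filter (· ∈ D)).card + (Finset.univ.filter (fun g => ¬ g ∈ D)).card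
        = Nat.card G := by
      rw [Finset.card_filter_add_card_filter_not, Finset.card_univ, Nat.card_eq_fintype_card]
    have h6 : (Finset.univ.filter (· ∈ D)).card = Nat.card D := by
      rw [Nat.card_eq_fintype_card, Fintype.card_subtype]
    have hDpos : 0 < Nat.card D := Nat.card_pos
    have hidx := D.card_mul_index
    have hk : 1 ≤ Nat.card (MulAction.orbitRel.Quotient D (Ω × Ω)) := by
      have : Nonempty (MulAction.orbitRel.Quotient D (Ω × Ω)) :=
        ⟨Quotient.mk'' (Classical.arbitrary (Ω × Ω))⟩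
      have : Finite (MulAction.orbitRel.Quotient D (Ω × Ω)) := Quotient.finite _
      exact Nat.card_pos
    have hk' : 1 ≤ Nat.card (MulAction.orbitRel.Quotient G (Ω × Ω)) := by
      have : Nonempty (MulAction.orbitRel.Quotient G (Ω × Ω)) :=
        ⟨Quotient.mk'' (Classical.arbitrary (Ω × Ω))⟩
      have : Finite (MulAction.orbitRel.Quotient G (Ω × Ω)) := Quotient.finite _
      exact Nat.card_pos
    obtain ⟨r, hr⟩ := Nat.exists_eq_add_of_le hk
    obtain ⟨s, hs⟩ := Nat.exists_eq_add_of_le hk'
    rw [hr, hs] at h3 ⊢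
    simp only [Nat.add_sub_cancel_left]
    apply Nat.eq_of_mul_eq_mul_left hDpos
    have h7 : (1 + r) * Nat.card D + (Nat.card G - Nat.card D) = (1 + s) * Nat.card G := by
      rw [← h3]; congr 1; omega
    have h8 : Nat.card D ≤ Nat.card G := by omega
    have h9 : r * Nat.card D = s * Nat.card G := by
      have : (1 + r) * Nat.card D + (Nat.card G - Nat.card D) = r * Nat.card D + Nat.card G := by
        rw [add_mul, one_mul]; omega
      rw [this, add_mul, one_mul] at h7
      omega
    rw [← hidx] at h9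
    calc Nat.card D * r = r * Nat.card D := mul_comm _ _
      _ = s * (Nat.card D * D.index) := h9
      _ = Nat.card D * (s * D.index) := by ring

end Cfsg.Agent.S3547
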