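import Mathlib
import Cfsg.Agent.Lib.helper6_Derange
import Cfsg.Statements.S3548

set_option autoImplicit false
open Cfsg

namespace Cfsg.Agent.S3548

open MulAction Cfsg.Agent.Lib.helper6_Burnside Cfsg.Agent.Lib.helper6_Derange

/-- Let G act faithfully and transitively on a finite set with n ≥ 2 points and let D be the subgroup generated by the derangements. Then the index of D in G divides n − 1, and if it equals n − 1 then n is a prime power. -/
theorem result {G Ω : Type*} [Group G] [Finite G] [MulAction G Ω] [FaithfulSMul G Ω] [Finite Ω]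
    (htrans : MulAction.IsPretransitive G Ω) (hΩ : 2 ≤ Nat.card Ω) :
    (Subgroup.closure {g : G | ∀ ω : Ω, g • ω ≠ ω}).index ∣ Nat.card Ω - 1 ∧
    ((Subgroup.closure {g : G | ∀ ω : Ω, g • ω ≠ ω}).index = Nat.card Ω - 1 → IsPrimePow (Nat.card Ω)) := by
  classical
  change (der G Ω).index ∣ Nat.card Ω - 1 ∧ ((der G Ω).index = Nat.card Ω - 1 → IsPrimePow (Nat.card Ω))
  have hne : Nonempty Ω := by
    by_contra h
    rw [not_nonempty_iff] at h
    simp at hΩ
  obtain ⟨a⟩ := hne
  have hYcard : ({a}ᶜ : Set Ω).ncard = Nat.card Ω - 1 := by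
    rw [Set.ncard_compl, Set.ncard_singleton]
  have hYinv : ∀ k : stabilizer G a, ∀ y ∈ ({a}ᶜ : Set Ω), k • y ∈ ({a}ᶜ : Set Ω) := by
    intro k y hy hky
    apply hy
    have h1 : k • y = a := hky
    have h2 : k • a = a := k.2
    show y = a
    exact smul_left_cancel k (h1.trans h2.symm)
  refine ⟨hYcard ▸ index_dvd_ncard a _ (by simp) hYinv, fun hidx => ?_⟩
  set D := der G Ω with hD
  have hDn : D.Normal := der_normal
  have hDt : IsPretransitive D Ω := der_pretransitive
  have hm : 0 < Nat.card Ω - 1 := by omega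
  -- suborbits are everything
  have horb : ∀ b : Ω, a ≠ b → orbit (stabilizer G a) b = {a}ᶜ ∧
      D ⊓ stabilizer G a ≤ stabilizer G b ⊓ stabilizer G a := by
    intro b hab
    have h1 := ncard_orbit_stab_eq (G := G) hab
    rw [← hD, hidx] at h1
    have hsub : orbit (stabilizer G a) b ⊆ {a}ᶜ := by
      rintro _ ⟨k, rfl⟩
      exact hYinv k b (fun h => hab h.symm)
    have hle : (orbit (stabilizer G a) b).ncard ≤ Nat.card Ω - 1 := by
      rw [← hYcard]
      exact Set.ncard_le_ncard hsub (Set.toFinite _)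
    have hpos : 0 < (orbit (stabilizer G a) b).ncard :=
      (Set.ncard_pos (Set.toFinite _)).2 ⟨b, mem_orbit_self b⟩
    have hr1 : (stabilizer G b ⊓ stabilizer G a).relIndex (D ⊓ stabilizer G a) = 1 := by
      set r := (stabilizer G b ⊓ stabilizer G a).relIndex (D ⊓ stabilizer G a)
      rcases Nat.lt_or_ge r 2 with h | h
      · interval_cases r
        · simp at h1; omega
        · rfl
      · nlinarith
    refine ⟨?_, Subgroup.relIndex_eq_one.1 hr1⟩
    apply Set.eq_of_subset_of_ncard_le hsub _ (Set.toFinite _)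
    rw [hYcard, h1, hr1, one_mul]
  have hDa : ∀ d ∈ D, d • a = a → d = 1 := by
    intro d hd hda
    apply FaithfulSMul.eq_of_smul_eq_smul (α := Ω)
    intro b
    rw [one_smul]
    by_cases hab : a = b
    · rw [← hab]; exact hda
    · exact ((horb b hab).2 ⟨hd, hda⟩).1
  have hconj : ∀ d ∈ D, ∀ d' ∈ D, d ≠ 1 → d' ≠ 1 → orderOf d' = orderOf d := by
    intro d hd d' hd' h1 h1'
    have e1 : a ≠ d • a := fun h => h1 (hDa d hd h.symm)
    have e2 : d' • a ∈ orbit (stabilizer G a) (d • a) := by
      rw [(horb _ e1).1]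
      intro h
      exact h1' (hDa d' hd' h)
    obtain ⟨g, hg⟩ := e2
    replace hg : (g : G) • d • a = d' • a := hg
    have hga : (g : G) • a = a := g.2
    have hga' : (g : G)⁻¹ • a = a := by rw [inv_smul_eq_iff, hga]
    have e3 : d'⁻¹ * ((g : G) * d * (g : G)⁻¹) = 1 := by
      apply hDa _ (D.mul_mem (D.inv_mem hd') (hDn.conj_mem d hd g))
      rw [mul_smul, mul_smul, mul_smul, hga', hg, inv_smul_smul]
    have e4 : d' = (g : G) * d * (g : G)⁻¹ := (inv_mul_eq_one.1 e3)
    rw [e4]
    exact (MulAut.conj (g : G)).orderOf_eq d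
  have hcard : Nat.card D = Nat.card Ω := by
    apply Nat.card_congr
    refine Equiv.ofBijective (fun d : D => (d : G) • a) ⟨?_, ?_⟩
    · intro d d' hdd
      simp only at hdd
      have : (d' : G)⁻¹ * d = 1 := by
        apply hDa _ (D.mul_mem (D.inv_mem d'.2) d.2)
        rw [mul_smul, hdd, inv_smul_smul]
      exact Subtype.ext (inv_mul_eq_one.1 this).symm
    · intro b
      obtain ⟨d, hd⟩ := exists_smul_eq D a b
      exact ⟨d, hd⟩
  obtain ⟨p, hp, hpdvd⟩ : ∃ p, p.Prime ∧ p ∣ Nat.card D :=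
    Nat.exists_prime_and_dvd (by omega)
  have := Fact.mk hp
  obtain ⟨c, hc⟩ := exists_prime_orderOf_dvd_card' p hpdvd
  have hc' : orderOf (c : G) = p := by rw [Subgroup.orderOf_coe]; exact hc
  have hc1 : (c : G) ≠ 1 := by
    intro h
    rw [h, orderOf_one] at hc'
    exact hp.one_lt.ne hc'
  have hpg : IsPGroup p D := by
    intro d
    refine ⟨1, ?_⟩
    rw [pow_one]
    by_cases hd1 : (d : G) = 1
    · have : d = 1 := Subtype.ext hd1
      rw [this, one_pow]
    · apply Subtype.ext
      have := hconj c c.2 d d.2 hc1 hd1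
      rw [hc'] at this
      show (d : G) ^ p = 1
      rw [← this]
      exact pow_orderOf_eq_one _
  obtain ⟨k, hk⟩ := IsPGroup.iff_card.1 hpg
  rw [← hcard, hk]
  refine ⟨p, k, hp.prime, ?_, rfl⟩
  rcases Nat.eq_zero_or_pos k with rfl | h
  · rw [pow_zero] at hk; omega
  · exact h

end Cfsg.Agent.S3548
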