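import Mathlib
import Cfsg.Agent.Lib.helper6_Derange
import Cfsg.Statements.S3549

set_option autoImplicit false
open Cfsg

namespace Cfsg.Agent.S3549

open scoped Pointwise
open MulAction Cfsg.Agent.Lib.helper6_Burnside Cfsg.Agent.Lib.helper6_Derange

/-- Let G act faithfully, transitively but imprimitively on a finite set with n points, and let D be the subgroup generated by the derangements. Then the index of D in G is at most √n − 1. -/
theorem result {G Ω : Type*} [Group G] [Finite G] [MulAction G Ω] [FaithfulSMul G Ω] [Finite Ω]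
    (htrans : MulAction.IsPretransitive G Ω) (himp : ¬ MulAction.IsPreprimitive G Ω) :
    ((Subgroup.closure {g : G | ∀ ω : Ω, g • ω ≠ ω}).index : ℝ) ≤ Real.sqrt (Nat.card Ω) - 1 := by
  classical
  change ((der G Ω).index : ℝ) ≤ Real.sqrt (Nat.card Ω) - 1
  have hex : ∃ B : Set Ω, IsBlock G B ∧ ¬ IsTrivialBlock B := by
    by_contra hcon
    push Not at hcon
    exact himp ⟨fun {B} hB => hcon B hB⟩
  obtain ⟨B, hB, hBt⟩ := hex
  rw [IsTrivialBlock, not_or] at hBt
  obtain ⟨hBs, hBu⟩ := hBt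
  rw [Set.not_subsingleton_iff] at hBs
  obtain ⟨a, haB⟩ := hBs.nonempty
  set m := (der G Ω).index with hm
  set b := B.ncard with hb
  set c := (orbit G B).ncard with hc
  have hbc : b * c = Nat.card Ω := hB.ncard_block_mul_ncard_orbit_eq ⟨a, haB⟩
  have hb2 : 2 ≤ b := (Set.one_lt_ncard (Set.toFinite B)).2 (by
    obtain ⟨x, hx, y, hy, hxy⟩ := hBs
    exact ⟨x, hx, y, hy, hxy⟩)
  have hn : 0 < Nat.card Ω := by
    have : Nonempty Ω := ⟨a⟩
    exact Nat.card_pos
  have hc2 : 2 ≤ c := by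
    by_contra hlt
    have hc1 : c = 1 := by
      rcases Nat.eq_zero_or_pos c with h | h
      · rw [h, mul_zero] at hbc; omega
      · omega
    rw [hc1, mul_one] at hbc
    apply hBu
    exact (Set.eq_univ_iff_ncard B).2 hbc
  have hYinv : ∀ k : stabilizer G a, ∀ y ∈ ({a}ᶜ : Set Ω), k • y ∈ ({a}ᶜ : Set Ω) := by
    intro k y hy hky
    apply hy
    have h1 : k • y = a := hky
    have h2 : k • a = a := k.2
    show y = a
    exact smul_left_cancel k (h1.trans h2.symm)
  have h1 : m ∣ Nat.card Ω - 1 := by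
    have hYcard : ({a}ᶜ : Set Ω).ncard = Nat.card Ω - 1 := by
      rw [Set.ncard_compl, Set.ncard_singleton]
    exact hYcard ▸ index_dvd_ncard a _ (by simp) hYinv
  have h2 : m ∣ b - 1 := by
    have hYcard : (B \ {a}).ncard = b - 1 := Set.ncard_sdiff_singleton_of_mem haB
    rw [← hYcard]
    apply index_dvd_ncard a _ (by simp)
    intro k y hy
    refine ⟨?_, hYinv k y hy.2⟩
    have hk : (k : G) • B = B := hB.stabilizer_le haB k.2
    rw [← hk]
    exact Set.smul_mem_smul_set hy.1
  have h3 : m ∣ c - 1 := by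
    have e : Nat.card Ω - 1 = c * (b - 1) + (c - 1) := by
      rw [← hbc]
      obtain ⟨b', hb'⟩ : ∃ b', b = b' + 1 := ⟨b - 1, by omega⟩
      obtain ⟨c', hc'⟩ : ∃ c', c = c' + 1 := ⟨c - 1, by omega⟩
      rw [hb', hc']
      simp only [Nat.add_sub_cancel]
      have : (b' + 1) * (c' + 1) = (c' + 1) * b' + c' + 1 := by ring
      omega
    rw [e] at h1
    exact (Nat.dvd_add_right (Dvd.dvd.mul_left h2 c)).1 h1
  have h4 : m ≤ b - 1 := Nat.le_of_dvd (by omega) h2
  have h5 : m ≤ c - 1 := Nat.le_of_dvd (by omega) h3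
  have h6 : (m + 1) * (m + 1) ≤ Nat.card Ω := by
    rw [← hbc]
    exact Nat.mul_le_mul (by omega) (by omega)
  have h7 : ((m : ℝ) + 1) ≤ Real.sqrt (Nat.card Ω) := by
    apply Real.le_sqrt_of_sq_le
    have : (((m + 1) * (m + 1) : ℕ) : ℝ) ≤ (Nat.card Ω : ℝ) := by exact_mod_cast h6
    push_cast at this
    nlinarith
  linarith

end Cfsg.Agent.S3549
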