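import Mathlib
import Cfsg.Statements.S3619

set_option autoImplicit false
open Cfsg

namespace Cfsg.Agent.S3619

open scoped Pointwise
open MulAction

theorem prim_of_quasi {G Ω : Type*} [Group G] [Finite G] [MulAction G Ω] [FaithfulSMul G Ω]
    [Finite Ω]
    (hqp : ∀ N : Subgroup G, N.Normal → N ≠ ⊥ → MulAction.IsPretransitive ↥N Ω)
    (Γ : Set Ω) (hΓ1 : 1 < Γ.ncard)
    (hJ : MulAction.IsPretransitive ↥(fixingSubgroup G Γᶜ) ↥(SubMulAction.ofFixingSubgroup G Γᶜ))
    (hJp : MulAction.IsPreprimitive ↥(fixingSubgroup G Γᶜ)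
      ↥(SubMulAction.ofFixingSubgroup G Γᶜ)) :
    MulAction.IsPreprimitive G Ω := by
  classical
  obtain ⟨x, hx, y, hy, hxy⟩ := (Set.one_lt_ncard (Set.toFinite Γ)).1 hΓ1
  have memS : ∀ z, z ∈ SubMulAction.ofFixingSubgroup G Γᶜ ↔ z ∈ Γ := by
    intro z
    rw [SubMulAction.mem_ofFixingSubgroup_iff]
    simp
  obtain ⟨j0, hj0⟩ := hJ.exists_smul_eq ⟨x, (memS x).2 hx⟩ ⟨y, (memS y).2 hy⟩
  have hj0' : (j0 : G) • x = y := congrArg Subtype.val hj0
  have hj01 : (j0 : G) ≠ 1 := by
    intro h
    rw [h, one_smul] at hj0'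
    exact hxy hj0'
  have hJΓ : ∀ j : fixingSubgroup G Γᶜ, ∀ z ∈ Γ, (j : G) • z ∈ Γ := by
    intro j z hz
    exact (memS _).1 ((SubMulAction.ofFixingSubgroup G Γᶜ).smul_mem j ((memS z).2 hz))
  have hJfix : ∀ j : fixingSubgroup G Γᶜ, ∀ z, z ∉ Γ → (j : G) • z = z := by
    intro j z hz
    exact (mem_fixingSubgroup_iff G).1 j.2 z hz
  have hGnt : (⊤ : Subgroup G) ≠ ⊥ := by
    intro h
    have : (j0 : G) ∈ (⊥ : Subgroup G) := h ▸ Subgroup.mem_top _
    exact hj01 (Subgroup.mem_bot.1 this)
  have htr : IsPretransitive G Ω := by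
    have := hqp ⊤ inferInstance hGnt
    refine ⟨fun a b => ?_⟩
    obtain ⟨g, hg⟩ := this.exists_smul_eq a b
    exact ⟨g, hg⟩
  apply IsPreprimitive.of_isTrivialBlock_base x
  intro B hxB hB
  by_contra hBt
  rw [IsTrivialBlock, not_or] at hBt
  obtain ⟨hBs, hBu⟩ := hBt
  -- the kernel on the block system is trivial
  have hN : (stabilizer G B).normalCore = ⊥ := by
    by_contra hne
    have ht := hqp _ inferInstance hne
    obtain ⟨z, hz⟩ := (Set.ne_univ_iff_exists_notMem B).1 hBu
    obtain ⟨n, hn⟩ := ht.exists_smul_eq x z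
    have hn' : (n : G) • x = z := hn
    have hnB : (n : G) • B = B := Subgroup.normalCore_le _ n.2
    apply hz
    rw [← hnB, ← hn']
    exact Set.smul_mem_smul_set hxB
  by_cases hΓB : Γ ⊆ B
  · -- J acts trivially on the block system
    apply hj01
    have : (j0 : G) ∈ (stabilizer G B).normalCore := by
      intro c
      rw [mem_stabilizer_iff]
      -- j0 stabilizes the block c⁻¹ • B
      have hC : IsBlock G (c⁻¹ • B) := hB.translate c⁻¹
      have hstab : (j0 : G) • (c⁻¹ • B) = c⁻¹ • B := by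
        apply hC.smul_eq_of_nonempty
        by_cases hz : c⁻¹ • x ∈ Γ
        · have hCB : c⁻¹ • B = B := by
            apply hB.smul_eq_of_nonempty
            exact ⟨c⁻¹ • x, Set.smul_mem_smul_set hxB, hΓB hz⟩
          rw [hCB]
          exact ⟨(j0 : G) • (c⁻¹ • x), Set.smul_mem_smul_set (hΓB hz), hΓB (hJΓ j0 _ hz)⟩
        · refine ⟨c⁻¹ • x, ?_, Set.smul_mem_smul_set hxB⟩
          have := hJfix j0 _ hz
          rw [← this]
          exact Set.smul_mem_smul_set (Set.smul_mem_smul_set hxB)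
      rw [mul_smul, mul_smul, hstab, smul_inv_smul]
    rw [hN] at this
    exact Subgroup.mem_bot.1 this
  · -- B ∩ Γ is a block for J
    have hB0 : IsBlock (fixingSubgroup G Γᶜ)
        (Subtype.val ⁻¹' B : Set (SubMulAction.ofFixingSubgroup G Γᶜ)) :=
      (hB.subgroup (H := fixingSubgroup G Γᶜ)).subtype_val_preimage
    rcases hJp.isTrivialBlock_of_isBlock hB0 with h | h
    · -- B ∩ Γ = {x}
      rw [Set.not_subsingleton_iff] at hBs
      obtain ⟨w, hwB, hwx⟩ := hBs.exists_ne x
      have hwΓ : w ∉ Γ := by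
        intro hw
        have := @h ⟨w, (memS w).2 hw⟩ hwB ⟨x, (memS x).2 hx⟩ hxB
        exact hwx (congrArg Subtype.val this)
      have hstab : (j0 : G) • B = B := by
        apply hB.smul_eq_of_nonempty
        refine ⟨w, ?_, hwB⟩
        have := hJfix j0 _ hwΓ
        rw [← this]
        exact Set.smul_mem_smul_set hwB
      have hyB : y ∈ B := by
        rw [← hstab, ← hj0']
        exact Set.smul_mem_smul_set hxB
      have := @h ⟨y, (memS y).2 hy⟩ hyB ⟨x, (memS x).2 hx⟩ hxB
      exact hxy (congrArg Subtype.val this).symm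
    · apply hΓB
      intro z hz
      have : (⟨z, (memS z).2 hz⟩ : SubMulAction.ofFixingSubgroup G Γᶜ) ∈
          (Subtype.val ⁻¹' B : Set (SubMulAction.ofFixingSubgroup G Γᶜ)) := by
        rw [h]; trivial
      exact this

/-- Let G act faithfully on a finite set in such a way that every non-trivial normal subgroup of G is transitive (G is quasiprimitive). Let Γ be a subset with more than one point and not the whole set, such that the pointwise stabilizer of the complement of Γ acts transitively on Γ (a Jordan set). If that pointwise stabilizer acts primitively on Γ, then G is k-fold transitive where k is one more than the number of points outside Γ (the Jordan set is a trivial one). -/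
theorem result {G Ω : Type*} [Group G] [Finite G] [MulAction G Ω] [FaithfulSMul G Ω] [Finite Ω]
    (hqp : ∀ N : Subgroup G, N.Normal → N ≠ ⊥ → MulAction.IsPretransitive ↥N Ω)
    (Γ : Set Ω) (hΓ1 : 1 < Γ.ncard) (hΓ2 : Γ.ncard < Nat.card Ω)
    (hJ : MulAction.IsPretransitive ↥(fixingSubgroup G Γᶜ) ↥(SubMulAction.ofFixingSubgroup G Γᶜ))
    (hJp : MulAction.IsPreprimitive ↥(fixingSubgroup G Γᶜ) ↥(SubMulAction.ofFixingSubgroup G Γᶜ)) :
    MulAction.IsMultiplyPretransitive G Ω (Nat.card Ω - Γ.ncard + 1) := by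
  classical
  have hprim := prim_of_quasi hqp Γ hΓ1 hJ hJp
  have hcompl : (Γᶜ).ncard = Nat.card Ω - Γ.ncard := Set.ncard_compl Γ
  have hsn : (Γᶜ).ncard = (Nat.card Ω - Γ.ncard - 1) + 1 := by omega
  have h := hprim.isMultiplyPreprimitive hsn (by omega) hJp
  have h2 := IsMultiplyPreprimitive.isMultiplyPretransitive G Ω (Nat.card Ω - Γ.ncard - 1 + 2)
  have e : Nat.card Ω - Γ.ncard - 1 + 2 = Nat.card Ω - Γ.ncard + 1 := by omega
  rw [e] at h2
  exact h2

end Cfsg.Agent.S3619
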