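import Mathlib
import Cfsg.Agent.Lib.helper6_SL2Mod
import Cfsg.Agent.Lib.helper6_PrimeGraph
import Cfsg.Agent.Lib.helper6_Transport
import Cfsg.Statements.S3660

set_option autoImplicit false
open Cfsg

namespace Cfsg.Agent.S3660

open Cfsg.Agent.Lib.helper6_SL2Mod

theorem exists_order_congr {A B : Type*} [Group A] [Group B] (e : A ≃* B) (n : ℕ) :
    (∃ g : A, orderOf g = n) ↔ (∃ g : B, orderOf g = n) := by
  constructor
  · rintro ⟨a, rfl⟩
    exact ⟨e a, e.orderOf_eq a⟩
  · rintro ⟨b, rfl⟩
    exact ⟨e.symm b, e.symm.orderOf_eq b⟩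

theorem center_eq_bot (F : Type*) [Field F] [CharP F 2] :
    Subgroup.center (Matrix.SpecialLinearGroup (Fin 2) F) = ⊥ := by
  rw [Subgroup.eq_bot_iff_forall]
  intro A hA
  rw [Matrix.SpecialLinearGroup.mem_center_iff] at hA
  obtain ⟨r, hr, hrA⟩ := hA
  have h2 : (2 : F) = 0 := CharP.cast_eq_zero F 2
  have hr1 : r = 1 := by
    simp only [Fintype.card_fin] at hr
    have : (r - 1) ^ 2 = 0 := by linear_combination hr - r * h2 + h2
    have := pow_eq_zero_iff (two_ne_zero) |>.1 this
    exact sub_eq_zero.1 this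
  apply Subtype.ext
  rw [← hrA, hr1]
  simp

noncomputable def pslEquiv (F : Type*) [Field F] [CharP F 2] :
    Matrix.ProjectiveSpecialLinearGroup (Fin 2) F ≃* Matrix.SpecialLinearGroup (Fin 2) F :=
  (QuotientGroup.quotientMulEquivOfEq (center_eq_bot F)).trans QuotientGroup.quotientBot

/-- the big group -/
abbrev HH (F : Type*) [Field F] (k : ℕ) : Type _ :=
  Multiplicative (Fin k → Fin 2 → F) ⋊[act F k] Matrix.SpecialLinearGroup (Fin 2) F

theorem finite_HH (F : Type*) [Field F] [Fintype F] (k : ℕ) : Finite (HH F k) :=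
  Finite.of_equiv _ (SemidirectProduct.equivProd (φ := act F k)).symm

instance instFiniteHH (F : Type*) [Field F] [Fintype F] (k : ℕ) : Finite (HH F k) := finite_HH F k

theorem card_HH (F : Type*) [Field F] [Fintype F] (k : ℕ) :
    Nat.card (HH F k) = Nat.card (Multiplicative (Fin k → Fin 2 → F)) *
      Nat.card (Matrix.SpecialLinearGroup (Fin 2) F) := by
  rw [Nat.card_congr (SemidirectProduct.equivProd (φ := act F k)), Nat.card_prod]

theorem card_HH_gt (F : Type*) [Field F] [Fintype F] (k : ℕ) : k < Nat.card (HH F k) := by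
  rw [card_HH]
  have h1 : Nat.card (Multiplicative (Fin k → Fin 2 → F)) = Nat.card (Fin 2 → F) ^ k := by
    show Nat.card (Fin k → Fin 2 → F) = _
    rw [Nat.card_fun, Nat.card_eq_fintype_card (α := Fin k), Fintype.card_fin]
  have h2 : 1 < Nat.card (Fin 2 → F) := Finite.one_lt_card
  have h3 : k < Nat.card (Fin 2 → F) ^ k := Nat.lt_pow_self h2
  have h4 : 0 < Nat.card (Matrix.SpecialLinearGroup (Fin 2) F) := Nat.card_pos
  rw [h1]
  nlinarith

theorem sq_N (F : Type*) [Field F] [CharP F 2] (k : ℕ) (w : Multiplicative (Fin k → Fin 2 → F)) :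
    w ^ 2 = 1 := by
  apply Multiplicative.toAdd.injective
  funext i j
  show ((2 : ℕ) • Multiplicative.toAdd w) i j = 0
  simp only [Pi.smul_apply, two_smul]
  exact CharTwo.add_self_eq_zero _

theorem two_dvd_card_SL (F : Type*) [Field F] [Fintype F] [CharP F 2] :
    2 ∣ Nat.card (Matrix.SpecialLinearGroup (Fin 2) F) := by
  let u : Matrix.SpecialLinearGroup (Fin 2) F := ⟨!![1, 1; 0, 1], by simp [Matrix.det_fin_two]⟩
  have hu2 : u ^ 2 = 1 := by
    apply sq_eq_one_of_fix u ![1, 0]
    · intro h
      have := congrFun h 0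
      simp at this
    · funext i
      fin_cases i <;> simp [u, Matrix.mulVec, dotProduct, Fin.sum_univ_two]
  have hu1 : u ≠ 1 := by
    intro h
    have := congrArg (fun M : Matrix.SpecialLinearGroup (Fin 2) F =>
      (M : Matrix (Fin 2) (Fin 2) F) 0 1) h
    simp [u] at this
  have : orderOf u = 2 := orderOf_eq_prime hu2 hu1
  have h := orderOf_dvd_natCard u
  rwa [this] at h

theorem prime_dvd_iff (F : Type*) [Field F] [Fintype F] [CharP F 2] (k p : ℕ) (hp : p.Prime) :
    p ∣ Nat.card (Matrix.SpecialLinearGroup (Fin 2) F) ↔ p ∣ Nat.card (HH F k) := by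
  rw [card_HH]
  constructor
  · intro h
    exact Dvd.dvd.mul_left h _
  · intro h
    rcases (Nat.Prime.dvd_mul hp).1 h with h | h
    · have hpg : IsPGroup 2 (Multiplicative (Fin k → Fin 2 → F)) := by
        intro w
        exact ⟨1, by rw [pow_one]; exact sq_N F k w⟩
      have := Fact.mk Nat.prime_two
      obtain ⟨m, hm⟩ := IsPGroup.iff_card.1 hpg
      rw [hm] at h
      have := (Nat.prime_dvd_prime_iff_eq hp Nat.prime_two).1 (hp.dvd_of_dvd_pow h)
      rw [this]
      exact two_dvd_card_SL F
    · exact h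

theorem adj_iff (F : Type*) [Field F] [Fintype F] [CharP F 2] (k p q : ℕ) (hp : p.Prime)
    (hq : q.Prime) (hpq : p ≠ q) :
    (∃ g : Matrix.SpecialLinearGroup (Fin 2) F, orderOf g = p * q) ↔
      (∃ g : HH F k, orderOf g = p * q) := by
  apply Cfsg.Agent.Lib.helper6_PrimeGraph.adj_iff_of_ext
    (SemidirectProduct.rightHom : HH F k →* _) (SemidirectProduct.inr)
    SemidirectProduct.inr_injective _ _ p q hp hq hpq
  · intro n hn
    rw [← SemidirectProduct.range_inl_eq_ker_rightHom] at hn
    obtain ⟨w, rfl⟩ := hn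
    rw [← map_pow, sq_N, map_one]
  · intro x n hn hn1 hcomm
    rw [← SemidirectProduct.range_inl_eq_ker_rightHom] at hn
    obtain ⟨w, rfl⟩ := hn
    have hw1 : w ≠ 1 := by
      rintro rfl
      exact hn1 (map_one _)
    have hl := congrArg SemidirectProduct.left hcomm
    simp only [SemidirectProduct.mul_left, SemidirectProduct.left_inl, SemidirectProduct.right_inl,
      map_one, MulAut.one_apply] at hl
    rw [mul_comm w x.left] at hl
    have hfix : act F k x.right w = w := mul_left_cancel hl
    have hex : ∃ i, Multiplicative.toAdd w i ≠ 0 := by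
      by_contra hcon
      push Not at hcon
      apply hw1
      apply Multiplicative.toAdd.injective
      funext i
      exact hcon i
    obtain ⟨i, hi⟩ := hex
    have h3 := act_apply F k x.right w i
    rw [hfix] at h3
    exact sq_eq_one_of_fix x.right _ hi h3.symm

/-- The prime graph of a finite group has the prime divisors of its order as vertices, two distinct primes p, q being joined when the group has an element of order pq; two groups have the same prime graph when they have the same prime divisors and the same joined pairs. Let F be a finite field of characteristic 2 with at least 4 elements. Then there are finite groups of arbitrarily large order with the same prime graph as PSL(2,F); in particular PSL(2,F) is not determined by its prime graph. -/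
theorem result {F : Type*} [Field F] [Fintype F] [CharP F 2] (hF : 4 ≤ Fintype.card F) (N : ℕ) :
    ∃ (H : Type) (_ : Group H) (_ : Finite H), N < Nat.card H ∧
      ((∀ p : ℕ, p.Prime → (p ∣ Nat.card (Matrix.ProjectiveSpecialLinearGroup (Fin 2) F) ↔ p ∣ Nat.card H)) ∧
      (∀ p q : ℕ, p.Prime → q.Prime → p ≠ q → ((∃ g : (Matrix.ProjectiveSpecialLinearGroup (Fin 2) F), orderOf g = p * q) ↔ (∃ g : H, orderOf g = p * q)))) := by
  classical
  obtain ⟨H0, jG, jF, ⟨e⟩⟩ := Cfsg.Agent.Lib.helper6_Transport.exists_type0_model (HH F (N + 1))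
  have e' : Matrix.ProjectiveSpecialLinearGroup (Fin 2) F ≃* Matrix.SpecialLinearGroup (Fin 2) F :=
    pslEquiv F
  refine ⟨H0, jG, inferInstance, ?_, ?_, ?_⟩
  · rw [Nat.card_congr e.toEquiv]
    exact card_HH_gt F (N + 1) |>.trans_le' (Nat.le_succ N)
  · intro p hp
    rw [Nat.card_congr e.toEquiv, Nat.card_congr e'.toEquiv]
    exact prime_dvd_iff F (N + 1) p hp
  · intro p q hp hq hpq
    rw [exists_order_congr e' (p * q), exists_order_congr e (p * q)]
    exact adj_iff F (N + 1) p q hp hq hpq

end Cfsg.Agent.S3660
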