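import Mathlib
import Cfsg.Agent.Lib.Helper5_Card
import Cfsg.Agent.S3660
import Cfsg.Statements.S3678

set_option autoImplicit false
open Cfsg

namespace Cfsg.Agent.S3678

open Polynomial in
theorem ch_two {F : Type*} [Field F] (g : Matrix.SpecialLinearGroup (Fin 2) F) :
    aeval (g : Matrix (Fin 2) (Fin 2) F)
      (X ^ 2 - C (Matrix.trace (g : Matrix (Fin 2) (Fin 2) F)) * X + 1 : F[X]) = 0 := by
  have h := Matrix.aeval_self_charpoly (g : Matrix (Fin 2) (Fin 2) F)
  rw [Matrix.charpoly_fin_two, g.det_coe, C_1] at h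
  exact h

open Polynomial in
theorem ch_two_fin {F : Type*} [Field F] (g : Matrix.SpecialLinearGroup (Fin 2) F) (P s : F[X])
    (h : P = (X ^ 2 - C (Matrix.trace (g : Matrix (Fin 2) (Fin 2) F)) * X + 1) * s) :
    aeval (g : Matrix (Fin 2) (Fin 2) F) P = 0 := by
  rw [h, map_mul, ch_two, zero_mul]

theorem char_of_card {F : Type*} [Field F] [Fintype F] (ℓ k : ℕ) (hℓ : ℓ.Prime)
    (hF : Fintype.card F = ℓ ^ k) : CharP F ℓ := by
  obtain ⟨p, hp⟩ := CharP.exists F
  obtain ⟨n, hpp, hcard⟩ := FiniteField.card F p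
  have h1 : p ∣ ℓ ^ k := by
    have : p ∣ p ^ (n : ℕ) := dvd_pow_self p n.ne_zero
    rw [← hcard, hF] at this
    exact this
  have h2 : p = ℓ := (Nat.prime_dvd_prime_iff_eq hpp hℓ).1 (hpp.dvd_of_dvd_pow h1)
  exact h2 ▸ hp

open Polynomial in
theorem sl2_8_orders {E : Type*} [Field E] [Fintype E] (hE : Fintype.card E = 8)
    (g : Matrix.SpecialLinearGroup (Fin 2) E) : g ^ 2 = 1 ∨ g ^ 7 = 1 ∨ g ^ 9 = 1 := by
  have hchar : CharP E 2 := char_of_card 2 3 Nat.prime_two (by rw [hE]; norm_num)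
  have h2F : (2 : E) = 0 := CharTwo.two_eq_zero
  have h2 : (2 : E[X]) = 0 := by
    have : (2 : E[X]) = C (2 : E) := (map_ofNat C 2).symm
    rw [this, h2F, C_0]
  set τ := Matrix.trace (g : Matrix (Fin 2) (Fin 2) E) with hτ
  have fin := ch_two_fin g
  rw [← hτ] at fin
  have tomat : ∀ n : ℕ, aeval (g : Matrix (Fin 2) (Fin 2) E) (X ^ n - 1 : E[X]) = 0 → g ^ n = 1 := by
    intro n h
    simp only [map_sub, map_pow, aeval_X, map_one] at h
    apply Subtype.ext
    simpa using sub_eq_zero.1 h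
  by_cases h0 : τ = 0
  · left
    apply tomat
    apply fin _ 1
    rw [h0, C_0]
    linear_combination (-1 : E[X]) * h2
  right
  have h7 : τ ^ 7 = 1 := by
    have := FiniteField.pow_card_sub_one_eq_one τ h0
    rwa [hE] at this
  have h7C : (C τ : E[X]) ^ 7 - 1 = 0 := by
    rw [← C_pow, h7, C_1, sub_self]
  have hc : (τ ^ 6 + τ ^ 4 + 1) * (τ ^ 6 + τ ^ 4 + 1 - τ) = 0 := by
    linear_combination (τ ^ 5 + τ + 1) * h7 + (τ ^ 10 + τ ^ 6 + τ ^ 4 - τ ^ 7 + 1) * h2F
  rcases mul_eq_zero.1 hc with hc | hc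
  · left
    have hcC : (C τ : E[X]) ^ 6 + (C τ) ^ 4 + 1 = 0 := by
      rw [← C_pow, ← C_pow, ← C_add, ← C_1, ← C_add, hc, C_0]
    have h8 : aeval (g : Matrix (Fin 2) (Fin 2) E) (X ^ 8 - X : E[X]) = 0 := by
      apply fin _ (X^6 + X^5 * (C τ) + X^4 * (C τ)^2 - X^4 + X^3 * (C τ)^3 - 2 * X^3 * (C τ) + X^2 * (C τ)^4 - 3 * X^2 * (C τ)^2 + X^2 + X * (C τ)^5 - 4 * X * (C τ)^3 + 3 * X * (C τ) + (C τ)^6 - 5 * (C τ)^4 + 6 * (C τ)^2 - 1)
      linear_combination (- 3 * X * (C τ)^5 + 5 * X * (C τ)^3 - 2 * X * (C τ) - (C τ)^6 + 2 * (C τ)^4 - 3 * (C τ)^2) * h2 + X * h7C + hcC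
    simp only [map_sub, map_pow, aeval_X] at h8
    have h8' : g ^ 8 = g := by
      apply Subtype.ext
      simpa using sub_eq_zero.1 h8
    have : g ^ 7 * g = 1 * g := by rw [← pow_succ, one_mul]; exact h8'
    exact mul_right_cancel this
  · right
    have hcC : (C τ : E[X]) ^ 6 + (C τ) ^ 4 + 1 - C τ = 0 := by
      rw [← C_pow, ← C_pow, ← C_add, ← C_1, ← C_add, ← C_sub, hc, C_0]
    apply tomat
    apply fin _ (X * (X^6 + X^5 * (C τ) + X^4 * (C τ)^2 - X^4 + X^3 * (C τ)^3 - 2 * X^3 * (C τ) + X^2 * (C τ)^4 - 3 * X^2 * (C τ)^2 + X^2 + X * (C τ)^5 - 4 * X * (C τ)^3 + 3 * X * (C τ) + (C τ)^6 - 5 * (C τ)^4 + 6 * (C τ)^2 - 1) + 1)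
    linear_combination (X * (- 3 * X * (C τ)^5 + 5 * X * (C τ)^3 - 2 * X * (C τ) - (C τ)^6 + 2 * (C τ)^4 - 3 * (C τ)^2) + C τ * X - 1) * h2 + X ^ 2 * h7C + X * hcC

open Polynomial in
theorem psl2_7_orders {F : Type*} [Field F] [Fintype F] (hF : Fintype.card F = 7)
    (x : Matrix.ProjectiveSpecialLinearGroup (Fin 2) F) :
    x ^ 2 = 1 ∨ x ^ 3 = 1 ∨ x ^ 7 = 1 ∨ x ^ 4 = 1 := by
  have hchar : CharP F 7 := char_of_card 7 1 (by norm_num) (by rw [hF]; norm_num)
  have h7F : (7 : F) = 0 := by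
    have := CharP.cast_eq_zero F 7
    exact_mod_cast this
  have h7 : (7 : F[X]) = 0 := by
    have : (7 : F[X]) = C (7 : F) := (map_ofNat C 7).symm
    rw [this, h7F, C_0]
  obtain ⟨g, rfl⟩ := QuotientGroup.mk_surjective x
  set τ := Matrix.trace (g : Matrix (Fin 2) (Fin 2) F) with hτ
  have fin := ch_two_fin g
  rw [← hτ] at fin
  have key : ∀ n : ℕ, (aeval (g : Matrix (Fin 2) (Fin 2) F) (X ^ n - 1 : F[X]) = 0 ∨
      aeval (g : Matrix (Fin 2) (Fin 2) F) (X ^ n + 1 : F[X]) = 0) →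
      (QuotientGroup.mk g : Matrix.ProjectiveSpecialLinearGroup (Fin 2) F) ^ n = 1 := by
    intro n h
    rw [← QuotientGroup.mk_pow, QuotientGroup.eq_one_iff, Matrix.SpecialLinearGroup.mem_center_iff]
    rcases h with h | h
    · simp only [map_sub, map_pow, aeval_X, map_one] at h
      refine ⟨1, one_pow _, ?_⟩
      rw [Matrix.SpecialLinearGroup.coe_pow, sub_eq_zero.1 h]
      simp
    · simp only [map_add, map_pow, aeval_X, map_one] at h
      refine ⟨-1, by simp, ?_⟩
      rw [Matrix.SpecialLinearGroup.coe_pow, eq_neg_of_add_eq_zero_left h]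
      ext i j
      simp [Matrix.diagonal_apply, Matrix.one_apply]
      split_ifs <;> simp
  have hτ7 := FiniteField.pow_card τ
  rw [hF] at hτ7
  have hprod : τ * ((τ - 1) * ((τ + 1) * ((τ - 2) * ((τ + 2) * ((τ - 3) * (τ + 3)))))) = 0 := by
    linear_combination hτ7 + (-2 * τ ^ 5 + 7 * τ ^ 3 - 5 * τ) * h7F
  rcases mul_eq_zero.1 hprod with h | hprod
  · left
    apply key; right
    apply fin _ 1
    rw [h, C_0]; ring
  rcases mul_eq_zero.1 hprod with h | hprod
  · right; left
    apply key; right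
    apply fin _ (X + 1)
    rw [sub_eq_zero.1 h, C_1]; ring
  rcases mul_eq_zero.1 hprod with h | hprod
  · right; left
    apply key; left
    apply fin _ (X - 1)
    rw [eq_neg_of_add_eq_zero_left h, C_neg, C_1]; ring
  rcases mul_eq_zero.1 hprod with h | hprod
  · right; right; left
    apply key; left
    apply fin _ ((X - 1) ^ 5)
    rw [sub_eq_zero.1 h, map_ofNat C 2]
    linear_combination (X ^ 6 - 3 * X ^ 5 + 5 * X ^ 4 - 5 * X ^ 3 + 3 * X ^ 2 - X) * h7
  rcases mul_eq_zero.1 hprod with h | hprod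
  · right; right; left
    apply key; right
    apply fin _ ((X + 1) ^ 5)
    rw [eq_neg_of_add_eq_zero_left h, C_neg, map_ofNat C 2]
    linear_combination (-(X ^ 6 + 3 * X ^ 5 + 5 * X ^ 4 + 5 * X ^ 3 + 3 * X ^ 2 + X)) * h7
  rcases mul_eq_zero.1 hprod with h | h
  · right; right; right
    apply key; right
    apply fin _ (X ^ 2 + 3 * X + 1)
    rw [sub_eq_zero.1 h, map_ofNat C 3]
    linear_combination (X ^ 2) * h7
  · right; right; right
    apply key; right
    apply fin _ (X ^ 2 - 3 * X + 1)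
    rw [eq_neg_of_add_eq_zero_left h, C_neg, map_ofNat C 3]
    linear_combination (X ^ 2) * h7

theorem no_pq {G : Type*} [Group G] (x : G) (ℓ k : ℕ) (hℓ : ℓ.Prime) (h : x ^ (ℓ ^ k) = 1)
    (p q : ℕ) (hp : p.Prime) (hq : q.Prime) (hpq : p ≠ q) : orderOf x ≠ p * q := by
  intro ho
  have hd : p * q ∣ ℓ ^ k := ho ▸ orderOf_dvd_of_pow_eq_one h
  have h1 : p = ℓ := (Nat.prime_dvd_prime_iff_eq hp hℓ).1
    (hp.dvd_of_dvd_pow ((Dvd.intro _ rfl).trans hd))
  have h2 : q = ℓ := (Nat.prime_dvd_prime_iff_eq hq hℓ).1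
    (hq.dvd_of_dvd_pow ((Dvd.intro_left _ rfl).trans hd))
  exact hpq (h1.trans h2.symm)

theorem prime_237 (p a b c : ℕ) (hp : p.Prime) (h : p ∣ 2 ^ a * 3 ^ b * 7 ^ c) :
    p = 2 ∨ p = 3 ∨ p = 7 := by
  rcases (hp.dvd_mul).1 h with h | h
  · rcases (hp.dvd_mul).1 h with h | h
    · exact Or.inl ((Nat.prime_dvd_prime_iff_eq hp Nat.prime_two).1 (hp.dvd_of_dvd_pow h))
    · exact Or.inr (Or.inl ((Nat.prime_dvd_prime_iff_eq hp Nat.prime_three).1 (hp.dvd_of_dvd_pow h)))
  · exact Or.inr (Or.inr ((Nat.prime_dvd_prime_iff_eq hp (by norm_num)).1 (hp.dvd_of_dvd_pow h)))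

theorem card_psl2_7 {F : Type*} [Field F] [Fintype F] (hF : Fintype.card F = 7) :
    Nat.card (Matrix.ProjectiveSpecialLinearGroup (Fin 2) F) = 336 ∨
      Nat.card (Matrix.ProjectiveSpecialLinearGroup (Fin 2) F) = 168 := by
  classical
  have h1 := Cfsg.Agent.Lib.Helper5_Card.card_SL2 (F := F)
  rw [hF] at h1
  have h2 := Subgroup.card_eq_card_quotient_mul_card_subgroup
    (Subgroup.center (Matrix.SpecialLinearGroup (Fin 2) F))
  rw [h1] at h2
  have h3 : Nat.card (Subgroup.center (Matrix.SpecialLinearGroup (Fin 2) F)) ≤ 2 := by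
    have hsub : ((Subgroup.center (Matrix.SpecialLinearGroup (Fin 2) F) : Subgroup _) :
        Set (Matrix.SpecialLinearGroup (Fin 2) F)) ⊆ {1, -1} := by
      intro A hA
      rw [SetLike.mem_coe, Matrix.SpecialLinearGroup.mem_center_iff] at hA
      obtain ⟨r, hr, hrA⟩ := hA
      simp only [Fintype.card_fin] at hr
      rcases sq_eq_one_iff.1 hr with rfl | rfl
      · left
        apply Subtype.ext
        rw [← hrA]; simp
      · right
        apply Subtype.ext
        rw [← hrA]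
        ext i j
        simp [Matrix.diagonal_apply, Matrix.one_apply]
        split_ifs <;> simp
    have := Set.ncard_le_ncard hsub (Set.toFinite _)
    calc Nat.card (Subgroup.center (Matrix.SpecialLinearGroup (Fin 2) F))
        = ((Subgroup.center (Matrix.SpecialLinearGroup (Fin 2) F) : Subgroup _) :
        Set (Matrix.SpecialLinearGroup (Fin 2) F)).ncard := rfl
      _ ≤ _ := this
      _ ≤ 2 := (Set.ncard_insert_le _ _).trans (by rw [Set.ncard_singleton])
  have h4 : 0 < Nat.card (Subgroup.center (Matrix.SpecialLinearGroup (Fin 2) F)) := Nat.card_pos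
  set z := Nat.card (Subgroup.center (Matrix.SpecialLinearGroup (Fin 2) F))
  change _ = Nat.card (Matrix.ProjectiveSpecialLinearGroup (Fin 2) F) * z at h2
  interval_cases z
  · left; omega
  · right; omega


/-- The prime graph of a finite group has the prime divisors of its order as vertices, two distinct primes p, q being joined when the group has an element of order pq; two groups have the same prime graph when they have the same prime divisors and the same joined pairs. Let F be the field with 7 elements. There are finite groups of arbitrarily large order with the same prime graph as PSL(2,F) (the graph on {2, 3, 7} with no edges, which is also the prime graph of PSL(2,8)). -/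
theorem result {F : Type*} [Field F] [Fintype F] (hF : Fintype.card F = 7) (N : ℕ) :
    ∃ (H : Type) (_ : Group H) (_ : Finite H), N < Nat.card H ∧
      ((∀ p : ℕ, p.Prime → (p ∣ Nat.card (Matrix.ProjectiveSpecialLinearGroup (Fin 2) F) ↔ p ∣ Nat.card H)) ∧
      (∀ p q : ℕ, p.Prime → q.Prime → p ≠ q → ((∃ g : (Matrix.ProjectiveSpecialLinearGroup (Fin 2) F), orderOf g = p * q) ↔ (∃ g : H, orderOf g = p * q)))) := by
  classical
  let E := GaloisField 2 3
  have : Finite E := inferInstanceAs (Finite (GaloisField 2 3))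
  let _ : Fintype E := Fintype.ofFinite E
  have hE : Fintype.card E = 8 := by
    rw [← Nat.card_eq_fintype_card]
    have := GaloisField.card 2 3 (by norm_num)
    rw [this]; norm_num
  have hchar : CharP E 2 := char_of_card 2 3 Nat.prime_two (by rw [hE]; norm_num)
  obtain ⟨H, i1, i2, hN, hdiv, hadj⟩ := Cfsg.Agent.S3660.result (F := E) (by rw [hE]; norm_num) N
  have e' : Matrix.ProjectiveSpecialLinearGroup (Fin 2) E ≃* Matrix.SpecialLinearGroup (Fin 2) E :=
    Cfsg.Agent.S3660.pslEquiv E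
  have hcardE : Nat.card (Matrix.ProjectiveSpecialLinearGroup (Fin 2) E) = 504 := by
    rw [Nat.card_congr e'.toEquiv, Cfsg.Agent.Lib.Helper5_Card.card_SL2, hE]; norm_num
  refine ⟨H, i1, i2, hN, ?_, ?_⟩
  · intro p hp
    rw [← hdiv p hp, hcardE]
    constructor
    · intro h
      have h' : p ∣ 2 ^ 4 * 3 ^ 1 * 7 ^ 1 := by
        rcases card_psl2_7 hF with h1 | h1
        · rw [h1] at h; exact h
        · rw [h1] at h; exact h.trans (by norm_num)
      rcases prime_237 p 4 1 1 hp h' with rfl | rfl | rfl <;> norm_num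
    · intro h
      have h' : p ∣ 2 ^ 3 * 3 ^ 2 * 7 ^ 1 := h
      rcases card_psl2_7 hF with h1 | h1 <;> rw [h1] <;>
        rcases prime_237 p 3 2 1 hp h' with rfl | rfl | rfl <;> norm_num
  · intro p q hp hq hpq
    rw [← hadj p q hp hq hpq]
    constructor
    · rintro ⟨x, hx⟩
      exfalso
      rcases psl2_7_orders hF x with h | h | h | h
      · exact no_pq x 2 1 Nat.prime_two (by simpa using h) p q hp hq hpq hx
      · exact no_pq x 3 1 Nat.prime_three (by simpa using h) p q hp hq hpq hx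
      · exact no_pq x 7 1 (by norm_num) (by simpa using h) p q hp hq hpq hx
      · exact no_pq x 2 2 Nat.prime_two (by simpa using h) p q hp hq hpq hx
    · rintro ⟨x, hx⟩
      exfalso
      have hx' : orderOf (e' x) = p * q := by rw [e'.orderOf_eq]; exact hx
      rcases sl2_8_orders hE (e' x) with h | h | h
      · exact no_pq _ 2 1 Nat.prime_two (by simpa using h) p q hp hq hpq hx'
      · exact no_pq _ 7 1 (by norm_num) (by simpa using h) p q hp hq hpq hx'
      · exact no_pq _ 3 2 Nat.prime_three (by simpa using h) p q hp hq hpq hx'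

end Cfsg.Agent.S3678
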