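import Mathlib
import Cfsg.Agent.Lib.helper6_MinNormalPower
import Cfsg.Agent.S0721
import Cfsg.Agent.Lib.Helper1_MinNormal
import Cfsg.Statements.S3680

set_option autoImplicit false
open Cfsg

namespace Cfsg.Agent.S3680


theorem centralizer_semiregular {G Ω : Type*} [Group G] [MulAction G Ω] [FaithfulSMul G Ω]
    (V : Subgroup G) (hV : MulAction.IsPretransitive V Ω) (c : G)
    (hc : c ∈ Subgroup.centralizer (V : Set G)) (ω : Ω) (h : c • ω = ω) : c = 1 := by
  apply FaithfulSMul.eq_of_smul_eq_smul (α := Ω)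
  intro y
  obtain ⟨v, hv⟩ := hV.exists_smul_eq ω y
  have hv' : (v : G) • ω = y := hv
  rw [one_smul, ← hv', ← mul_smul, ← (Subgroup.mem_centralizer_iff.1 hc v v.2), mul_smul, h]

theorem centralizer_le_of_transitive {G Ω : Type*} [Group G] [MulAction G Ω] [FaithfulSMul G Ω]
    (V W : Subgroup G) (hV : MulAction.IsPretransitive V Ω) (hW : MulAction.IsPretransitive W Ω)
    (hWV : W ≤ Subgroup.centralizer (V : Set G)) (ω : Ω) :
    Subgroup.centralizer (V : Set G) ≤ W := by
  intro c hc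
  obtain ⟨w, hw⟩ := hW.exists_smul_eq ω (c • ω)
  have hw' : (w : G) • ω = c • ω := hw
  have h1 : (w : G)⁻¹ * c = 1 := by
    apply centralizer_semiregular V hV _ (Subgroup.mul_mem _ (Subgroup.inv_mem _ (hWV w.2)) hc) ω
    rw [mul_smul, ← hw', inv_smul_smul]
  have : c = w := by
    calc c = (w : G) * ((w : G)⁻¹ * c) := by group
      _ = w := by rw [h1, mul_one]
  rw [this]
  exact w.2

theorem nonempty_mulEquiv_of_regular {G Ω : Type*} [Group G] [MulAction G Ω] [FaithfulSMul G Ω]
    (V W : Subgroup G) (hV : MulAction.IsPretransitive V Ω) (hW : MulAction.IsPretransitive W Ω)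
    (hWV : W ≤ Subgroup.centralizer (V : Set G)) (ω : Ω) : Nonempty (V ≃* W) := by
  classical
  have hVW : V ≤ Subgroup.centralizer (W : Set G) := Subgroup.le_centralizer_iff.1 hWV
  have hex : ∀ v : V, ∃ w : W, (w : G) • ω = (v : G) • ω := fun v => hW.exists_smul_eq ω _
  choose θ hθ using hex
  have huniq : ∀ w w' : W, (w : G) • ω = (w' : G) • ω → w = w' := by
    intro w w' h
    have h1 : (w' : G)⁻¹ * w = 1 := by
      apply centralizer_semiregular V hV _
        (Subgroup.mul_mem _ (Subgroup.inv_mem _ (hWV w'.2)) (hWV w.2)) ω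
      rw [mul_smul, h, inv_smul_smul]
    apply Subtype.ext
    calc (w : G) = (w' : G) * ((w' : G)⁻¹ * w) := by group
      _ = w' := by rw [h1, mul_one]
  have huniqV : ∀ v v' : V, (v : G) • ω = (v' : G) • ω → v = v' := by
    intro w w' h
    have h1 : (w' : G)⁻¹ * w = 1 := by
      apply centralizer_semiregular W hW _
        (Subgroup.mul_mem _ (Subgroup.inv_mem _ (hVW w'.2)) (hVW w.2)) ω
      rw [mul_smul, h, inv_smul_smul]
    apply Subtype.ext
    calc (w : G) = (w' : G) * ((w' : G)⁻¹ * w) := by group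
      _ = w' := by rw [h1, mul_one]
  have hmul : ∀ a b : V, θ (a * b) = θ b * θ a := by
    intro a b
    apply huniq
    rw [hθ]
    show ((a : G) * (b : G)) • ω = ((θ b : G) * (θ a : G)) • ω
    rw [mul_smul, mul_smul, hθ, ← hθ b, ← mul_smul, ← mul_smul,
      (Subgroup.mem_centralizer_iff.1 (hWV (θ b).2) a a.2)]
  let f : V →* W := MonoidHom.mk' (fun v => (θ v)⁻¹) (by
    intro a b
    rw [hmul, mul_inv_rev])
  refine ⟨MulEquiv.ofBijective f ⟨?_, ?_⟩⟩
  · intro a b hab
    have h1 : θ a = θ b := inv_injective hab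
    apply huniqV
    rw [← hθ, ← hθ, h1]
  · intro w
    obtain ⟨v, hv⟩ := hV.exists_smul_eq ω ((w : G)⁻¹ • ω)
    refine ⟨v, ?_⟩
    have h1 : θ v = w⁻¹ := by
      apply huniq
      rw [hθ]
      exact hv
    show (θ v)⁻¹ = w
    rw [h1, inv_inv]

/-- `T^a × T^a ≃* T^(a+a)` -/
def prodPowEquiv (T : Type*) [Group T] (a : ℕ) :
    ((Fin a → T) × (Fin a → T)) ≃* (Fin (a + a) → T) :=
  { (Equiv.sumArrowEquivProdArrow (Fin a) (Fin a) T).symm.trans
      (Equiv.arrowCongr finSumFinEquiv (Equiv.refl T)) with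
    map_mul' := by
      intro x y
      funext i
      show Sum.elim (x * y).1 (x * y).2 (finSumFinEquiv.symm i) =
        Sum.elim x.1 x.2 (finSumFinEquiv.symm i) * Sum.elim y.1 y.2 (finSumFinEquiv.symm i)
      cases finSumFinEquiv.symm i <;> rfl }


/-- The socle of a finite primitive permutation group. Let a finite group G act faithfully and primitively on a set Ω, and let N be the subgroup generated by the minimal normal subgroups of G. Then either N is an elementary abelian p-group for some prime p and acts regularly on Ω (transitively with trivial point stabilizers), or N is isomorphic to a direct product of m ≥ 1 copies of a non-abelian simple group. -/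
theorem result {G Ω : Type*} [Group G] [Finite G] [MulAction G Ω] [FaithfulSMul G Ω] [Finite Ω]
    (hprim : MulAction.IsPreprimitive G Ω) (N : Subgroup G)
    (hN : N = sSup {V : Subgroup G | V.Normal ∧ V ≠ ⊥ ∧ ∀ M : Subgroup G, M.Normal → M ≤ V → M = ⊥ ∨ M = V}) :
    (∃ p : ℕ, p.Prime ∧ IsMulCommutative N ∧ (∀ x : N, x ^ p = 1) ∧
      MulAction.IsPretransitive N Ω ∧ ∀ ω : Ω, MulAction.stabilizer N ω = ⊥) ∨
    (∃ (T : Type) (_ : Group T) (m : ℕ), 1 ≤ m ∧ IsSimpleGroup T ∧ ¬ IsMulCommutative T ∧ Nonempty (N ≃* (Fin m → T))) := by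
  classical
  by_cases hG : Subsingleton G
  · left
    refine ⟨2, Nat.prime_two, ⟨⟨fun a b => Subsingleton.elim _ _⟩⟩, fun x => Subsingleton.elim _ _,
      ⟨fun x y => ?_⟩, fun ω => Subsingleton.elim _ _⟩
    obtain ⟨g, hg⟩ := hprim.toIsPretransitive.exists_smul_eq x y
    refine ⟨1, ?_⟩
    rw [one_smul, ← hg, Subsingleton.elim g 1, one_smul]
  have hnt : Nontrivial G := not_subsingleton_iff_nontrivial.1 hG
  obtain ⟨ω⟩ : Nonempty Ω := by
    by_contra hne
    rw [not_nonempty_iff] at hne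
    apply hG
    refine ⟨fun a b => FaithfulSMul.eq_of_smul_eq_smul (α := Ω) (fun x => hne.elim x)⟩
  obtain ⟨𝓜, h𝓜⟩ : ∃ 𝓜 : Set (Subgroup G), 𝓜 = {V : Subgroup G | V.Normal ∧ V ≠ ⊥ ∧
      ∀ M : Subgroup G, M.Normal → M ≤ V → M = ⊥ ∨ M = V} := ⟨_, rfl⟩
  rw [← h𝓜] at hN
  have hmem : ∀ V, V ∈ 𝓜 ↔ (V.Normal ∧ V ≠ ⊥ ∧
      ∀ M : Subgroup G, M.Normal → M ≤ V → M = ⊥ ∨ M = V) := by
    intro V
    rw [h𝓜]
    rfl
  obtain ⟨V1, hV1⟩ : ∃ V1, V1 ∈ 𝓜 := by
    obtain ⟨M, h1, h2, _, h3⟩ :=
      Cfsg.Agent.Lib.Helper1_MinNormal.exists_minimal_normal_le (⊤ : Subgroup G) top_ne_bot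
    exact ⟨M, (hmem M).2 ⟨h1, h2, h3⟩⟩
  have htrans : ∀ V ∈ 𝓜, MulAction.IsPretransitive V Ω := by
    intro V hV
    obtain ⟨hVn, hV1, _⟩ := (hmem V).1 hV
    apply MulAction.IsQuasiPreprimitive.isPretransitive_of_normal
    intro h
    apply hV1
    rw [eq_bot_iff]
    intro n hn
    rw [Subgroup.mem_bot]
    apply FaithfulSMul.eq_of_smul_eq_smul (α := Ω)
    intro y
    have : y ∈ MulAction.fixedPoints V Ω := by rw [h]; trivial
    rw [one_smul]
    exact this ⟨n, hn⟩
  have hdisj : ∀ V ∈ 𝓜, ∀ W ∈ 𝓜, V ≠ W → V ⊓ W = ⊥ := by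
    intro V hV W hW hne
    obtain ⟨hVn, hV1, hVm⟩ := (hmem V).1 hV
    obtain ⟨hWn, hW1, hWm⟩ := (hmem W).1 hW
    rcases hVm (V ⊓ W) inferInstance inf_le_left with h | h
    · exact h
    · exfalso
      have hle : V ≤ W := inf_eq_left.1 h
      rcases hWm V hVn hle with h' | h'
      · exact hV1 h'
      · exact hne h'
  have hcomm : ∀ V ∈ 𝓜, ∀ W ∈ 𝓜, V ≠ W → W ≤ Subgroup.centralizer (V : Set G) := by
    intro V hV W hW hne
    obtain ⟨hVn, _, _⟩ := (hmem V).1 hV
    obtain ⟨hWn, _, _⟩ := (hmem W).1 hW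
    intro w hw
    rw [Subgroup.mem_centralizer_iff]
    intro v hv
    exact Subgroup.commute_of_normal_of_disjoint V W hVn hWn
      (disjoint_iff.2 (hdisj V hV W hW hne)) v w hv hw
  obtain ⟨hV1n, hV1b, hV1m⟩ := (hmem V1).1 hV1
  have hV1t := htrans V1 hV1
  by_cases hab : ∀ x ∈ V1, ∀ y ∈ V1, x * y = y * x
  · -- abelian case
    left
    have hle : V1 ≤ Subgroup.centralizer (V1 : Set G) := by
      intro x hx
      rw [Subgroup.mem_centralizer_iff]
      intro y hy
      exact hab y hy x hx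
    have hC := centralizer_le_of_transitive V1 V1 hV1t hV1t hle ω
    have hNV : N = V1 := by
      rw [hN]
      apply le_antisymm
      · apply sSup_le
        intro W hW
        by_cases hWV : V1 = W
        · rw [hWV]
        · exact (hcomm V1 hV1 W hW hWV).trans hC
      · exact le_sSup hV1
    subst hNV
    have hcm : IsMulCommutative N := ⟨⟨fun a b => Subtype.ext (hab a a.2 b b.2)⟩⟩
    have hsol : Group.IsSolvable N := by
      let _ : CommGroup N := { (inferInstance : Group N) with mul_comm := hcm.is_comm.comm }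
      infer_instance
    obtain ⟨_, p, hp, hpx⟩ :=
      Cfsg.Agent.Lib.Helper1_MinNormal.minimal_normal_elementary_abelian N hV1b hV1m
    refine ⟨p, hp, hcm, fun x => Subtype.ext (by simpa using hpx x x.2), hV1t, fun ω' => ?_⟩
    rw [eq_bot_iff]
    intro n hn
    rw [Subgroup.mem_bot]
    apply Subtype.ext
    exact centralizer_semiregular N hV1t n (hle n.2) ω' hn
  · -- nonabelian case
    right
    obtain ⟨T, _, m, hT, hm, ⟨e⟩⟩ := Cfsg.Agent.S0721.result V1 hV1b hV1m
    have hTnc : ¬ IsMulCommutative T := by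
      intro hc
      apply hab
      intro x hx y hy
      have h1 : e ⟨x, hx⟩ * e ⟨y, hy⟩ = e ⟨y, hy⟩ * e ⟨x, hx⟩ := by
        funext i
        exact hc.is_comm.comm _ _
      rw [← map_mul, ← map_mul] at h1
      exact congrArg Subtype.val (e.injective h1)
    by_cases huniq : ∀ W ∈ 𝓜, W = V1
    · have hNV : N = V1 := by
        rw [hN]
        apply le_antisymm
        · apply sSup_le
          intro W hW
          rw [huniq W hW]
        · exact le_sSup hV1
      subst hNV
      exact ⟨T, inferInstance, m, hm, hT, hTnc, ⟨e⟩⟩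
    · push Not at huniq
      obtain ⟨V2, hV2, hne⟩ := huniq
      obtain ⟨hV2n, hV2b, hV2m⟩ := (hmem V2).1 hV2
      have hV2t := htrans V2 hV2
      have hV2C := hcomm V1 hV1 V2 hV2 (Ne.symm hne)
      have hC := centralizer_le_of_transitive V1 V2 hV1t hV2t hV2C ω
      have hNV : N = V1 ⊔ V2 := by
        rw [hN]
        apply le_antisymm
        · apply sSup_le
          intro W hW
          by_cases hWV : V1 = W
          · rw [← hWV]
            exact le_sup_left
          · exact ((hcomm V1 hV1 W hW hWV).trans hC).trans le_sup_right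
        · exact sup_le (le_sSup hV1) (le_sSup hV2)
      obtain ⟨e1⟩ := Cfsg.Agent.Lib.helper6_MinNormalPower.nonempty_supEquiv V1 V2
        (fun a ha b hb => (Subgroup.mem_centralizer_iff.1 (hV2C hb) a ha))
        (hdisj V1 hV1 V2 hV2 (Ne.symm hne))
      obtain ⟨e2⟩ := nonempty_mulEquiv_of_regular V1 V2 hV1t hV2t hV2C ω
      refine ⟨T, inferInstance, m + m, by omega, hT, hTnc, ⟨?_⟩⟩
      exact (((MulEquiv.subgroupCongr hNV).trans e1).trans
        ((e2.symm.trans e).prodCongr e)).trans (prodPowEquiv T m)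

end Cfsg.Agent.S3680
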