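import Mathlib
import Cfsg.Statements.S3681

set_option autoImplicit false
open Cfsg

namespace Cfsg.Agent.S3681

theorem isThreeCycle_comm {Ω : Type*} [Fintype Ω] [DecidableEq Ω] (σ τ : Equiv.Perm Ω) (a : Ω)
    (hσ : σ a ≠ a) (hτ : τ a ≠ a) (h : ∀ x, x ≠ a → σ x = x ∨ τ x = x) :
    (σ * τ * σ⁻¹ * τ⁻¹).IsThreeCycle := by
  set b := σ a with hb
  set s := Equiv.swap a b with hs
  have hσb : σ b ≠ b := fun e => hσ (σ.injective e)
  have hτb : τ b = b := (h b hσ).resolve_left hσb
  have hdis : Equiv.Perm.Disjoint (s * σ) τ := by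
    intro x
    by_cases hx : x = a
    · left
      rw [hx, Equiv.Perm.mul_apply, ← hb, hs, Equiv.swap_apply_right]
    · rcases h x hx with h1 | h1
      · left
        have hxb : x ≠ b := by
          rintro rfl
          exact hσb h1
        rw [Equiv.Perm.mul_apply, h1, hs, Equiv.swap_apply_of_ne_of_ne hx hxb]
      · exact Or.inr h1
  have hc := hdis.commute.eq
  have hss : s * s = 1 := Equiv.swap_mul_self a b
  have e1 : σ * τ * σ⁻¹ = s * τ * s := by
    have e0 : σ = s * (s * σ) := by rw [← mul_assoc, hss, one_mul]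
    have e2 : σ * τ = s * τ * s * σ := by
      calc σ * τ = s * ((s * σ) * τ) := by rw [← mul_assoc, ← e0]
        _ = s * (τ * (s * σ)) := by rw [hc]
        _ = _ := by simp only [mul_assoc]
    rw [e2, mul_inv_cancel_right]
  have e3 : τ * s = Equiv.swap (τ a) b * τ := by
    rw [hs, Equiv.mul_swap_eq_swap_mul, hτb]
  have e4 : σ * τ * σ⁻¹ * τ⁻¹ = Equiv.swap b a * Equiv.swap b (τ a) := by
    rw [e1, mul_assoc s, e3, mul_assoc, mul_assoc, mul_inv_cancel, mul_one, hs, Equiv.swap_comm a b,
      Equiv.swap_comm (τ a) b]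
  rw [e4]
  refine Equiv.Perm.isThreeCycle_swap_mul_swap_same hσ ?_ (Ne.symm hτ)
  intro e
  have : τ (τ a) = τ a := by rw [← e]; exact hτb
  exact hτ (τ.injective this)

theorem card_le_of_base {G Ω : Type*} [Group G] [Finite G] [MulAction G Ω] [Fintype Ω]
    [DecidableEq Ω] (S : Finset Ω) (hS : ∀ g : G, (∀ x ∈ S, g • x = x) → g = 1) :
    Nat.card G * Nat.factorial (Fintype.card Ω - S.card) ≤ Nat.factorial (Fintype.card Ω) := by
  classical
  have : Fintype G := Fintype.ofFinite G
  let f : G → (S ↪ Ω) := fun g => ⟨fun s => g • (s : Ω), fun s t h => Subtype.ext (smul_left_cancel g h)⟩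
  have hf : Function.Injective f := by
    intro g g' h
    have h1 : g'⁻¹ * g = 1 := by
      apply hS
      intro x hx
      have h2 : g • x = g' • x := congrArg (fun e : S ↪ Ω => e ⟨x, hx⟩) h
      rw [mul_smul, h2, inv_smul_smul]
    exact (inv_mul_eq_one.1 h1).symm
  have h1 : Fintype.card G ≤ Fintype.card (S ↪ Ω) := Fintype.card_le_of_injective f hf
  rw [Fintype.card_embedding_eq, Fintype.card_coe] at h1
  have hk : S.card ≤ Fintype.card Ω := Finset.card_le_univ S
  rw [Nat.card_eq_fintype_card, ← Nat.factorial_mul_descFactorial hk, mul_comm]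
  exact Nat.mul_le_mul_left _ h1


/-- Bochert's bound for primitive groups. Let a finite group G act faithfully and primitively on a finite set Ω with n elements, and suppose the image of G in the symmetric group of Ω does not contain the alternating group of Ω. Then |G| · ⌊(n + 1)/2⌋! ≤ n!, that is, the index of G in the symmetric group is at least ⌊(n + 1)/2⌋!. -/
theorem result {G Ω : Type*} [Group G] [Finite G] [MulAction G Ω] [FaithfulSMul G Ω] [Fintype Ω] [DecidableEq Ω]
    (hprim : MulAction.IsPreprimitive G Ω) (hA : ¬ alternatingGroup Ω ≤ (MulAction.toPermHom G Ω).range) :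
    Nat.card G * Nat.factorial ((Fintype.card Ω + 1) / 2) ≤ Nat.factorial (Fintype.card Ω) := by
  classical
  let IsBase : Finset Ω → Prop := fun S => ∀ g : G, (∀ x ∈ S, g • x = x) → g = 1
  have huniv : IsBase Finset.univ := by
    intro g hg
    apply FaithfulSMul.eq_of_smul_eq_smul (α := Ω)
    intro x
    rw [one_smul]; exact hg x (Finset.mem_univ x)
  have hfin : {S : Finset Ω | IsBase S}.Finite := Set.toFinite _
  obtain ⟨Δ, hΔ⟩ := hfin.exists_minimal ⟨Finset.univ, huniv⟩
  obtain ⟨hΔb, hmin⟩ := hΔ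
  have hprimR : MulAction.IsPreprimitive (MulAction.toPermHom G Ω).range Ω := by
    let φ : G → (MulAction.toPermHom G Ω).range := fun g => ⟨MulAction.toPermHom G Ω g, ⟨g, rfl⟩⟩
    let f : Ω →ₑ[φ] Ω := { toFun := id, map_smul' := fun g x => rfl }
    exact MulAction.IsPreprimitive.of_surjective (f := f) Function.surjective_id
  have hcompl : IsBase Δᶜ := by
    intro y hy
    by_contra hy1
    have hex : ∃ δ : Ω, y • δ ≠ δ := by
      by_contra hcon
      push Not at hcon
      apply hy1
      apply FaithfulSMul.eq_of_smul_eq_smul (α := Ω)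
      intro x
      rw [one_smul]; exact hcon x
    obtain ⟨δ, hδ⟩ := hex
    have hδΔ : δ ∈ Δ := by
      by_contra hn
      exact hδ (hy δ (Finset.mem_compl.2 hn))
    have hnb : ¬ IsBase (Δ.erase δ) := by
      intro hb
      have := hmin hb (Finset.erase_subset δ Δ)
      exact Finset.notMem_erase δ Δ (this hδΔ)
    simp only [IsBase] at hnb
    push Not at hnb
    obtain ⟨x, hx, hx1⟩ := hnb
    have hxδ : x • δ ≠ δ := by
      intro h
      apply hx1
      apply hΔb
      intro z hz
      by_cases hzδ : z = δ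
      · rw [hzδ]; exact h
      · exact hx z (Finset.mem_erase.2 ⟨hzδ, hz⟩)
    have h3 := isThreeCycle_comm (MulAction.toPermHom G Ω x) (MulAction.toPermHom G Ω y) δ hxδ hδ
      (by
        intro z hz
        by_cases hzΔ : z ∈ Δ
        · exact Or.inl (hx z (Finset.mem_erase.2 ⟨hz, hzΔ⟩))
        · exact Or.inr (hy z (Finset.mem_compl.2 hzΔ)))
    apply hA
    refine Equiv.Perm.alternatingGroup_le_of_isPreprimitive_of_isThreeCycle_mem hprimR h3 ?_
    exact ⟨x * y * x⁻¹ * y⁻¹, by simp only [map_mul, map_inv]⟩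
  have hcard : Δ.card + Δᶜ.card = Fintype.card Ω := by
    rw [Finset.card_compl]
    have := Finset.card_le_univ Δ
    omega
  obtain ⟨S, hS, hSc⟩ : ∃ S : Finset Ω, IsBase S ∧ 2 * S.card ≤ Fintype.card Ω := by
    by_cases h : 2 * Δ.card ≤ Fintype.card Ω
    · exact ⟨Δ, hΔb, h⟩
    · exact ⟨Δᶜ, hcompl, by omega⟩
  refine le_trans ?_ (card_le_of_base S hS)
  apply Nat.mul_le_mul_left
  apply Nat.factorial_le
  omega

end Cfsg.Agent.S3681
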