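import Mathlib
import Cfsg.Statements.S3683

set_option autoImplicit false
open Cfsg

namespace Cfsg.Agent.S3683

/-- Let a finite group G act faithfully and primitively on a set Ω, and suppose the stabilizer of a point a fixes a second point b ≠ a (a suborbit of length 1 other than {a}). Then the stabilizer of a is trivial and G is cyclic of prime order. -/
theorem result {G Ω : Type*} [Group G] [Finite G] [MulAction G Ω] [FaithfulSMul G Ω] [Finite Ω]
    (hprim : MulAction.IsPreprimitive G Ω) (a b : Ω) (hab : a ≠ b) (hfix : ∀ g : G, g • a = a → g • b = b) :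
    MulAction.stabilizer G a = ⊥ ∧ IsCyclic G ∧ (Nat.card G).Prime := by
  classical
  have hnt : Nontrivial Ω := ⟨⟨a, b, hab⟩⟩
  have hco : IsCoatom (MulAction.stabilizer G a) :=
    (MulAction.isCoatom_stabilizer_iff_preprimitive G a).2 hprim
  obtain ⟨g, hg⟩ := MulAction.exists_smul_eq G a b
  have hle : MulAction.stabilizer G a ≤ MulAction.stabilizer G b := fun x hx => hfix x hx
  have hbtop : MulAction.stabilizer G b ≠ ⊤ := by
    intro htop
    obtain ⟨k, hk⟩ := MulAction.exists_smul_eq G b a
    have : k ∈ MulAction.stabilizer G b := by rw [htop]; trivial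
    rw [MulAction.mem_stabilizer_iff] at this
    exact hab (hk.symm.trans this)
  have heq : MulAction.stabilizer G a = MulAction.stabilizer G b := by
    rcases hle.eq_or_lt with h | h
    · exact h
    · exact absurd (hco.2 _ h) hbtop
  -- g normalizes the stabilizer of a
  have hgN : g ∈ Subgroup.normalizer (MulAction.stabilizer G a : Set G) := by
    rw [Subgroup.mem_normalizer_iff]
    intro h
    conv_rhs => rw [heq, ← hg]
    simp only [MulAction.mem_stabilizer_iff, mul_smul, inv_smul_smul, smul_left_cancel_iff]
  have hgS : g ∉ MulAction.stabilizer G a := by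
    intro h
    rw [MulAction.mem_stabilizer_iff] at h
    exact hab (h.symm.trans hg)
  have hNtop : Subgroup.normalizer (MulAction.stabilizer G a : Set G) = ⊤ := by
    apply hco.2
    exact lt_of_le_of_ne Subgroup.le_normalizer (fun h => hgS (by rw [h]; exact hgN))
  have hnorm : (MulAction.stabilizer G a).Normal := Subgroup.normalizer_eq_top_iff.1 hNtop
  have hbot : MulAction.stabilizer G a = ⊥ := by
    rw [Subgroup.eq_bot_iff_forall]
    intro x hx
    apply FaithfulSMul.eq_of_smul_eq_smul (α := Ω)
    intro c
    obtain ⟨k, rfl⟩ := MulAction.exists_smul_eq G a c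
    have := hnorm.conj_mem x hx k⁻¹
    rw [MulAction.mem_stabilizer_iff] at this
    simp only [inv_inv, mul_smul] at this
    rw [one_smul]
    exact inv_smul_eq_iff.1 this
  rw [hbot] at hco
  have hsimple : IsSimpleGroup G := by
    have hntG : Nontrivial G := by
      by_contra hsub
      rw [not_nontrivial_iff_subsingleton] at hsub
      exact hco.1 (Subsingleton.elim _ _)
    refine ⟨fun H _ => ?_⟩
    by_cases hH : H = ⊥
    · exact Or.inl hH
    · exact Or.inr (hco.2 H (bot_lt_iff_ne_bot.2 hH))
  have hcyc : IsCyclic G := by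
    obtain ⟨x, hx⟩ := exists_ne (1 : G)
    have : Subgroup.zpowers x = ⊤ := hco.2 _ (bot_lt_iff_ne_bot.2 (Subgroup.zpowers_ne_bot.2 hx))
    exact ⟨⟨x, (Subgroup.eq_top_iff' _).1 this⟩⟩
  exact ⟨hbot, hcyc, Group.is_simple_iff_prime_card.1 hsimple⟩

end Cfsg.Agent.S3683
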