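import Cfsg.Statements.S3771
import Cfsg.Agent.S4023

set_option autoImplicit false
open Cfsg

namespace Cfsg.Agent.S3771

open scoped commutatorElement

/-- Let p be a prime and R a finite p-group of p-rank at most 2 (no elementary abelian subgroup of order p³) in which every element has order dividing p. Then R has order at most p³. -/
theorem result {R : Type*} [Group R] [Finite R] {p : ℕ} [Fact p.Prime] (hR : IsPGroup p R) (hrank : Cfsg.PRankLE p 2 R) (hexp : ∀ x : R, x ^ p = 1) : Nat.card R ≤ p ^ 3 := by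
  have hp : Fact p.Prime := inferInstance
  by_contra hcard
  obtain ⟨n, hn⟩ := IsPGroup.iff_card.1 hR
  have hn4 : 4 ≤ n := by
    by_contra h
    apply hcard
    rw [hn]
    exact Nat.pow_le_pow_right hp.out.pos (by omega)
  haveI : Group.IsNilpotent R := hR.isNilpotent
  have hord : ∀ u : R, u ≠ 1 → orderOf u = p := by
    intro u hu
    rcases (Nat.dvd_prime hp.out).1 (orderOf_dvd_of_pow_eq_one (hexp u)) with h | h
    · exact absurd (orderOf_eq_one_iff.1 h) hu
    · exact h
  have hcne : ¬ (⊤ : Subgroup R) ≤ Subgroup.center R := by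
    intro h
    have h1 : IsMulCommutative (⊤ : Subgroup R) := by
      constructor
      constructor
      intro a b
      apply Subtype.ext
      exact ((Subgroup.mem_center_iff.1 (h (Subgroup.mem_top (a : R)))) (b : R)).symm
    have h2 := hrank ⊤ h1 (fun a _ => hexp a)
    rw [Subgroup.card_top, hn] at h2
    have h3 : p ^ 2 < p ^ n := Nat.pow_lt_pow_right hp.out.one_lt (by omega)
    omega
  obtain ⟨y, -, hyc, hy⟩ := Cfsg.Agent.Lib.Helper4_Nilp.exists_central_mod (Subgroup.center R) ⊤ hcne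
  obtain ⟨x, hxy⟩ : ∃ x : R, x * y ≠ y * x := by
    by_contra hcon
    push_neg at hcon
    exact hyc (Subgroup.mem_center_iff.2 hcon)
  set c := ⁅y, x⁆ with hc
  have hcc : ∀ t : R, t * c = c * t := Subgroup.mem_center_iff.1 (hy x)
  have hc1 : c ≠ 1 := by
    intro h
    rw [hc, commutatorElement_eq_one_iff_commute] at h
    exact hxy h.eq.symm
  have hco := hord c hc1
  have hZc : Subgroup.zpowers c ≤ Subgroup.center R := (Subgroup.zpowers_le).2 (hy x)
  have hcent_norm : ∀ u : R, u ∈ Subgroup.normalizer ((Subgroup.zpowers c : Subgroup R) : Set R) := by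
    intro u
    apply Cfsg.Agent.S4023.norm_of_conj
    intro s hs
    have := (Subgroup.mem_center_iff.1 (hZc hs)) u
    rw [this, mul_inv_cancel_right]
    exact hs
  have hne2 : ¬ (⊤ : Subgroup R) ≤ Subgroup.zpowers c := by
    intro h
    exact hcne (h.trans hZc)
  obtain ⟨y₂, -, hy₂c, hy₂⟩ := Cfsg.Agent.Lib.Helper4_Nilp.exists_central_mod (Subgroup.zpowers c) ⊤ hne2
  have hy₂1 : y₂ ≠ 1 := by
    rintro rfl
    exact hy₂c (one_mem _)
  let κ : R →* R := MonoidHom.mk' (fun g => ⁅y₂, g⁆) (by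
    intro g h
    have hk : ∀ t : R, t * ⁅y₂, h⁆ = ⁅y₂, h⁆ * t := Subgroup.mem_center_iff.1 (hZc (hy₂ h))
    have e1 : ⁅y₂, g * h⁆ = y₂ * g * y₂⁻¹ * ⁅y₂, h⁆ * g⁻¹ := by
      simp only [commutatorElement_def]; group
    rw [e1, mul_assoc, ← hk g⁻¹, commutatorElement_def y₂ g]
    simp only [mul_assoc])
  have hκr : κ.range ≤ Subgroup.zpowers c := by
    rintro _ ⟨g, rfl⟩
    exact hy₂ g
  have hidx : κ.ker.index ≤ p := by
    rw [Subgroup.index_ker]
    calc Nat.card κ.range ≤ Nat.card (Subgroup.zpowers c) := Subgroup.card_le_of_le hκr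
      _ = p := by rw [Nat.card_zpowers, hco]
  set N₂ := Subgroup.zpowers y₂ ⊔ Subgroup.zpowers c with hN₂
  have hN₂card : Nat.card N₂ = p * p := by
    rw [hN₂, Cfsg.Agent.S4023.card_adjoin (hord y₂ hy₂1) hy₂c (hcent_norm y₂), Nat.card_zpowers, hco]
  obtain ⟨g, hgK, hgN⟩ : ∃ g ∈ κ.ker, g ∉ N₂ := by
    by_contra hcon
    push_neg at hcon
    have h1 : Nat.card κ.ker ≤ p * p := hN₂card ▸ Subgroup.card_le_of_le hcon
    have h2 := Subgroup.card_mul_index κ.ker
    rw [hn] at h2
    have h3 : p ^ 4 ≤ p ^ n := Nat.pow_le_pow_right hp.out.pos (by omega)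
    have h4 : Nat.card κ.ker * κ.ker.index ≤ p * p * p := Nat.mul_le_mul h1 hidx
    have h5 : p * p * p < p ^ 4 := by
      have : p ^ 3 < p ^ 4 := Nat.pow_lt_pow_right hp.out.one_lt (by norm_num)
      calc p * p * p = p ^ 3 := by ring
        _ < p ^ 4 := this
    omega
  have hg1 : g ≠ 1 := by
    rintro rfl
    exact hgN (one_mem _)
  have hgy : g * y₂ = y₂ * g := by
    have h1 : ⁅y₂, g⁆ = 1 := hgK
    rw [commutatorElement_eq_one_iff_commute] at h1
    exact h1.eq.symm
  have hN₂g : N₂ ≤ Subgroup.centralizer ({g} : Set R) := by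
    rw [hN₂]
    apply sup_le
    · rw [Subgroup.zpowers_le, Subgroup.mem_centralizer_singleton_iff]
      exact hgy.symm
    · rw [Subgroup.zpowers_le, Subgroup.mem_centralizer_singleton_iff]
      exact (hcc g).symm
  have hgn : g ∈ Subgroup.normalizer (N₂ : Set R) := by
    apply Cfsg.Agent.S4023.norm_of_conj
    intro s hs
    have := (Subgroup.mem_centralizer_singleton_iff).1 (hN₂g hs)
    rw [← this, mul_inv_cancel_right]
    exact hs
  set A := Subgroup.zpowers g ⊔ N₂ with hA
  have hAcard : Nat.card A = p * (p * p) := by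
    rw [hA, Cfsg.Agent.S4023.card_adjoin (hord g hg1) hgN hgn, hN₂card]
  have hN₂ea : Cfsg.IsElementaryAbelian p N₂ := by
    apply Cfsg.Agent.Lib.Helper2_EA.ea_sup_of_comm (Cfsg.Agent.Lib.Helper2_EA.ea_zpowers (hexp y₂))
      (Cfsg.Agent.Lib.Helper2_EA.ea_zpowers (hexp c))
    intro a _ b hb
    exact (Subgroup.mem_center_iff.1 (hZc hb)) a
  have hAea : Cfsg.IsElementaryAbelian p A := by
    apply Cfsg.Agent.Lib.Helper2_EA.ea_sup_of_comm (Cfsg.Agent.Lib.Helper2_EA.ea_zpowers (hexp g)) hN₂ea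
    intro a ha b hb
    obtain ⟨i, rfl⟩ := Subgroup.mem_zpowers_iff.1 ha
    have h1 : Commute g b := ((Subgroup.mem_centralizer_singleton_iff).1 (hN₂g hb)).symm
    exact (h1.zpow_left i).eq
  have h6 := hrank A hAea.1 hAea.2
  rw [hAcard] at h6
  have h7 : p ^ 2 < p ^ 3 := Nat.pow_lt_pow_right hp.out.one_lt (by norm_num)
  have h8 : p * (p * p) = p ^ 3 := by ring
  omega

end Cfsg.Agent.S3771
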