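import Cfsg.Statements.S3802

import Cfsg.Agent.Lib.Helper7_Subnormal
set_option autoImplicit false
open Cfsg

namespace Cfsg.Agent.S3802

open Cfsg.Agent.Lib.Helper7_Subnormal

/-- Let G be a finite group, M a maximal subgroup of G and N a subnormal subgroup of G contained in M. Then N is contained in every conjugate of M, that is, N lies in the core of M in G. -/
theorem result {G : Type*} [Group G] [Finite G] (M N : Subgroup G) (hM : IsCoatom M) (hN : N.IsSubnormal) (hNM : N ≤ M) :
    N ≤ Subgroup.normalCore M := by
  obtain ⟨L, hLs, hLM, hmax, hML, hnot⟩ := exists_largest_subnormal_le M hM.1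
  have h1 : Subgroup.normalizer (L : Set G) = ⊤ := by
    rcases eq_or_lt_of_le hML with h | h
    · exact absurd h.symm.le hnot
    · exact hM.2 _ h
  have h2 : L.Normal := Subgroup.normalizer_eq_top_iff.1 h1
  exact (hmax N hN hNM).trans ((Subgroup.normal_le_normalCore).2 hLM)

end Cfsg.Agent.S3802
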