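import Cfsg.Statements.S3815

import Cfsg.Agent.Lib.Helper7_Class
set_option autoImplicit false
open Cfsg

namespace Cfsg.Agent.S3815

open Cfsg.Agent.Lib.Helper7_Class
open scoped Pointwise

/-- Let G be a finite group, p a prime and d ∈ G an element of order prime to p. If dg has order prime to p for every element g ∈ G of order prime to p, then d ∈ O_{p'}(G). -/
theorem result {G : Type*} [Group G] [Finite G] {p : ℕ} [Fact p.Prime]
    (d : G) (hd : (orderOf d).Coprime p)
    (h : ∀ g : G, (orderOf g).Coprime p → (orderOf (d * g)).Coprime p) :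
    d ∈ Cfsg.pPrimeCore p G := by
  have hp : p.Prime := Fact.out
  let X : Set G := {g : G | (orderOf g).Coprime p}
  let D : Subgroup G := MulAction.stabilizer G X
  have hD : ∀ a : G, a ∈ D ↔ ∀ g : G, (orderOf g).Coprime p → (orderOf (a * g)).Coprime p := by
    intro a
    rw [MulAction.mem_stabilizer_set_iff_smul_set_subset (Set.toFinite X)]
    constructor
    · intro h g hg
      exact h ⟨g, hg, rfl⟩
    · rintro h _ ⟨g, hg, rfl⟩
      exact h g hg
  have hDn : D.Normal := by
    refine ⟨fun n hn g => ?_⟩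
    rw [hD] at hn ⊢
    intro y hy
    have h1 : (orderOf (g⁻¹ * y * g⁻¹⁻¹)).Coprime p := by rw [orderOf_conj]; exact hy
    have h2 := hn _ h1
    have h3 : g * n * g⁻¹ * y = g * (n * (g⁻¹ * y * g⁻¹⁻¹)) * g⁻¹ := by group
    rw [h3, orderOf_conj]; exact h2
  have hDc : (Nat.card D).Coprime p := by
    rw [Nat.coprime_comm, Nat.Prime.coprime_iff_not_dvd hp]
    intro hdvd
    obtain ⟨x, hx⟩ := exists_prime_orderOf_dvd_card' p hdvd
    have h1 := (hD x.1).1 x.2 1 (by simp)
    rw [mul_one, Subgroup.orderOf_coe, hx] at h1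
    exact hp.one_lt.ne' ((Nat.coprime_self p).1 h1)
  exact (le_sSup (show D ∈ {N : Subgroup G | N.Normal ∧ (Nat.card N).Coprime p} from ⟨hDn, hDc⟩))
    ((hD d).2 h)

end Cfsg.Agent.S3815
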