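import Cfsg.Statements.S3820

import Cfsg.Agent.Lib.Helper7_Conj
set_option autoImplicit false
open Cfsg

namespace Cfsg.Agent.S3820

open Cfsg.Agent.Lib.Helper7_Conj

/-- Call a subgroup H of G pronormal if H and gHg⁻¹ are conjugate inside ⟨H, gHg⁻¹⟩ for every g ∈ G. Let S ≤ H ≤ G be subgroups of a finite group with S pronormal in G (for instance S a Sylow subgroup). Then H is pronormal in G if and only if H and gHg⁻¹ are conjugate inside ⟨H, gHg⁻¹⟩ for every g ∈ N_G(S). In particular H is pronormal whenever N_G(S) ≤ H. -/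
theorem result {G : Type*} [Group G] [Finite G] (S H : Subgroup G) (hSH : S ≤ H)
    (hS : Cfsg.IsPronormal S) :
    Cfsg.IsPronormal H ↔
      ∀ g ∈ Subgroup.normalizer (S : Set G), ∃ w ∈ H ⊔ H.map (MulAut.conj g).toMonoidHom,
        H.map (MulAut.conj g).toMonoidHom = H.map (MulAut.conj w).toMonoidHom := by
  constructor
  · intro h g _
    exact h g
  · intro h g
    obtain ⟨w, hw, hSw⟩ := hS g
    set J := H ⊔ H.map (MulAut.conj g).toMonoidHom with hJ
    have hwJ : w ∈ J := by
      refine (sup_le_sup hSH (cj_mono hSH)) hw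
    have hn : w⁻¹ * g ∈ Subgroup.normalizer (S : Set G) := by
      rw [mem_normalizer_iff_cj, cj_mul, hSw, cj_inv_cj]
    obtain ⟨v, hv, hHv⟩ := h _ hn
    have hvJ : v ∈ J := by
      have hle : H ⊔ H.map (MulAut.conj (w⁻¹ * g)).toMonoidHom ≤ J := by
        refine sup_le le_sup_left ?_
        rw [cj_mul, cj_le_iff, inv_inv, cj_of_mem hwJ]
        exact le_sup_right
      exact hle hv
    refine ⟨w * v, mul_mem hwJ hvJ, ?_⟩
    rw [cj_mul w v, ← hHv, ← cj_mul]
    congr 3
    group

end Cfsg.Agent.S3820
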