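import Cfsg.Statements.S3821

import Mathlib
import Cfsg.Agent.Lib.Helper7_Sub
set_option autoImplicit false
open Cfsg

namespace Cfsg.Agent.S3821

open Cfsg.Agent.Lib.Helper7_Conj Cfsg.Agent.Lib.Helper7_Sub
open scoped Pointwise

/-- Let A be a normal subgroup of the finite group G and H a subgroup of A. Then H is pronormal in G (H and gHg⁻¹ conjugate inside ⟨H, gHg⁻¹⟩ for every g ∈ G) if and only if H is pronormal in A and G = A · N_G(H). -/
theorem result {G : Type*} [Group G] [Finite G] (A H : Subgroup G) [A.Normal] (hHA : H ≤ A) :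
    Cfsg.IsPronormal H ↔ (Cfsg.IsPronormal (H.subgroupOf A) ∧ A ⊔ Subgroup.normalizer (H : Set G) = ⊤) := by
  have hcjA : ∀ g : G, H.map (MulAut.conj g).toMonoidHom ≤ A := by
    intro g
    calc H.map (MulAut.conj g).toMonoidHom ≤ A.map (MulAut.conj g).toMonoidHom := cj_mono hHA
      _ = A := cj_normal _ _
  constructor
  · intro h
    constructor
    · intro a
      obtain ⟨x, hx, hHx⟩ := h a.1
      have hle : H ⊔ H.map (MulAut.conj a.1).toMonoidHom ≤ A := sup_le hHA (hcjA _)
      refine ⟨⟨x, hle hx⟩, ?_, ?_⟩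
      · rw [subgroupOf_cj, ← Subgroup.subgroupOf_sup hHA (hcjA _)]
        exact Subgroup.mem_subgroupOf.2 hx
      · rw [subgroupOf_cj, subgroupOf_cj, hHx]
    · rw [eq_top_iff]
      intro g _
      obtain ⟨x, hx, hHx⟩ := h g
      have hxA : x ∈ A := (sup_le hHA (hcjA _)) hx
      have hn : x⁻¹ * g ∈ Subgroup.normalizer (H : Set G) := by
        rw [mem_normalizer_iff_cj, cj_mul, hHx, cj_inv_cj]
      have : g = x * (x⁻¹ * g) := by group
      rw [this]
      exact Subgroup.mul_mem_sup hxA hn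
  · rintro ⟨h1, h2⟩ g
    have hg : g ∈ (A : Set G) * (Subgroup.normalizer (H : Set G) : Set G) := by
      rw [← Subgroup.normal_mul, h2]; trivial
    obtain ⟨a, ha, n, hn, rfl⟩ := Set.mem_mul.1 hg
    have hn' : H.map (MulAut.conj n).toMonoidHom = H := mem_normalizer_iff_cj.1 hn
    rw [cj_mul, hn']
    obtain ⟨x, hx, hHx⟩ := h1 ⟨a, ha⟩
    rw [subgroupOf_cj, ← Subgroup.subgroupOf_sup hHA (hcjA _)] at hx
    refine ⟨x.1, Subgroup.mem_subgroupOf.1 hx, ?_⟩
    rw [subgroupOf_cj, subgroupOf_cj] at hHx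
    have h3 := congrArg (Subgroup.map A.subtype) hHx
    rwa [Subgroup.map_subgroupOf_eq_of_le (hcjA _), Subgroup.map_subgroupOf_eq_of_le (hcjA _)] at h3

end Cfsg.Agent.S3821
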