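import Cfsg.Statements.S3836
import Cfsg.Agent.Lib.Helper4_Core

set_option autoImplicit false
open Cfsg

namespace Cfsg.Agent.S3836

open Cfsg.Agent.Lib.Helper4_Core

/-- Let G be a finite group that is p-stable in the normalizer form: for every p-subgroup Q and every x ∈ N_G(Q) with [Q, x, x] = 1, the image of x in N_G(Q)/C_G(Q) lies in O_p(N_G(Q)/C_G(Q)). Then every subgroup of G is p-stable in the same sense. -/
theorem result {G : Type*} [Group G] [Finite G] {p : ℕ} [Fact p.Prime] (hst : Cfsg.IsNormalizerPStable p G) (H : Subgroup G) : Cfsg.IsNormalizerPStable p ↥H := by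
  intro Q hQ g hg hquad
  have hPp : IsPGroup p ↥(Q.map H.subtype) := hQ.map _
  have hmemN : ∀ x : ↥H, x ∈ Subgroup.normalizer (Q : Set ↥H) →
      (x : G) ∈ Subgroup.normalizer ((Q.map H.subtype : Subgroup G) : Set G) := by
    intro x hx
    rw [Subgroup.mem_normalizer_iff] at hx ⊢
    intro y
    constructor
    · rintro ⟨q, hq, rfl⟩
      exact ⟨x * q * x⁻¹, (hx q).1 hq, by simp⟩
    · rintro ⟨q, hq, hqe⟩
      have hy : ((x⁻¹ * q * x : ↥H) : G) = y := by
        have h1 : (q : G) = (x : G) * y * (x : G)⁻¹ := hqe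
        simp only [Subgroup.coe_mul, Subgroup.coe_inv, h1]
        group
      refine ⟨x⁻¹ * q * x, ?_, hy⟩
      apply (hx _).2
      have h2 : x * (x⁻¹ * q * x) * x⁻¹ = q := by group
      rw [h2]; exact hq
  have hquad' : ⁅⁅Q.map H.subtype, Subgroup.zpowers (g : G)⁆, Subgroup.zpowers (g : G)⁆ = ⊥ := by
    have h1 : Subgroup.zpowers (g : G) = (Subgroup.zpowers g).map H.subtype := by
      rw [MonoidHom.map_zpowers]; rfl
    rw [h1, ← Subgroup.map_commutator, ← Subgroup.map_commutator, hquad, Subgroup.map_bot]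
  have key := hst (Q.map H.subtype) hPp (g : G) (hmemN g hg) hquad'
  let f : ↥(Subgroup.normalizer (Q : Set ↥H)) →*
      ↥(Subgroup.normalizer ((Q.map H.subtype : Subgroup G) : Set G)) :=
    { toFun := fun x => ⟨(x.1 : G), hmemN x.1 x.2⟩
      map_one' := rfl
      map_mul' := fun _ _ => rfl }
  have hle : (Subgroup.centralizer (Q : Set ↥H)).subgroupOf (Subgroup.normalizer (Q : Set ↥H)) ≤
      ((Subgroup.centralizer ((Q.map H.subtype : Subgroup G) : Set G)).subgroupOf
        (Subgroup.normalizer ((Q.map H.subtype : Subgroup G) : Set G))).comap f := by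
    intro x hx
    rw [Subgroup.mem_subgroupOf, Subgroup.mem_centralizer_iff] at hx
    rw [Subgroup.mem_comap, Subgroup.mem_subgroupOf, Subgroup.mem_centralizer_iff]
    rintro _ ⟨q, hq, rfl⟩
    exact congrArg Subtype.val (hx q hq)
  have hinj : Function.Injective (QuotientGroup.map _ _ f hle) := by
    rw [injective_iff_map_eq_one]
    intro a ha
    obtain ⟨x, rfl⟩ := QuotientGroup.mk_surjective a
    rw [QuotientGroup.map_mk, QuotientGroup.eq_one_iff, Subgroup.mem_subgroupOf,
      Subgroup.mem_centralizer_iff] at ha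
    rw [QuotientGroup.eq_one_iff, Subgroup.mem_subgroupOf, Subgroup.mem_centralizer_iff]
    intro q hq
    exact Subtype.ext (ha (q : G) ⟨q, hq, rfl⟩)
  have hK : (pCore p (↥(Subgroup.normalizer ((Q.map H.subtype : Subgroup G) : Set G)) ⧸
      (Subgroup.centralizer ((Q.map H.subtype : Subgroup G) : Set G)).subgroupOf
        (Subgroup.normalizer ((Q.map H.subtype : Subgroup G) : Set G)))).comap
      (QuotientGroup.map _ _ f hle) ≤ pCore p _ := by
    refine le_pCore ?_ ?_
    · haveI : (pCore p (↥(Subgroup.normalizer ((Q.map H.subtype : Subgroup G) : Set G)) ⧸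
        (Subgroup.centralizer ((Q.map H.subtype : Subgroup G) : Set G)).subgroupOf
        (Subgroup.normalizer ((Q.map H.subtype : Subgroup G) : Set G)))).Normal := inferInstance
      exact Subgroup.Normal.comap inferInstance _
    · exact (pCore_isPGroup p _).comap_of_injective _ hinj
  apply hK
  rw [Subgroup.mem_comap, QuotientGroup.map_mk]
  exact key

end Cfsg.Agent.S3836
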