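import Cfsg.Statements.S3838
import Cfsg.Agent.Lib.Helper7_FratNPC
import Cfsg.Agent.Lib.Helper1_PNil

set_option autoImplicit false
open Cfsg

namespace Cfsg.Agent.S3838

open Cfsg.Agent.Lib.Helper7_FratNPC Cfsg.Agent.Lib.Helper1_PNil
open scoped commutatorElement

/-- Let G be a finite group with Sylow p-subgroup P such that N_G(P) has a normal p-complement. Then N_G(Q) has a normal p-complement for every subgroup Q with [P, P] ≤ Q ≤ Φ(P). -/
theorem result {G : Type*} [Group G] [Finite G] {p : ℕ} [Fact p.Prime] (P : Sylow p G) (hN : Cfsg.HasNormalPComplement p ↥(Subgroup.normalizer ((P : Subgroup G) : Set G))) (Q : Subgroup G) (h1 : (commutator ↥(P : Subgroup G)).map (P : Subgroup G).subtype ≤ Q) (h2 : Q ≤ (frattini ↥(P : Subgroup G)).map (P : Subgroup G).subtype) : Cfsg.HasNormalPComplement p ↥(Subgroup.normalizer (Q : Set G)) := by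
  have hQP : Q ≤ (P : Subgroup G) := h2.trans (Subgroup.map_subtype_le _)
  have hcomm : ∀ x ∈ (P : Subgroup G), ∀ y ∈ (P : Subgroup G), x * y * x⁻¹ * y⁻¹ ∈ Q := by
    intro x hx y hy
    apply h1
    refine ⟨⁅(⟨x, hx⟩ : (P : Subgroup G)), ⟨y, hy⟩⁆,
      Subgroup.commutator_mem_commutator (Subgroup.mem_top _) (Subgroup.mem_top _), ?_⟩
    rw [commutatorElement_def]
    rfl
  have hconj : ∀ s ∈ (P : Subgroup G), ∀ q ∈ Q, s * q * s⁻¹ ∈ Q := by
    intro s hs q hq
    have := Q.mul_mem (hcomm s hs q (hQP hq)) hq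
    simpa using this
  have hPN : (P : Subgroup G) ≤ Subgroup.normalizer (Q : Set G) := by
    intro s hs
    rw [Subgroup.mem_normalizer_iff]
    intro q
    refine ⟨hconj s hs q, fun h => ?_⟩
    have := hconj s⁻¹ (inv_mem hs) _ h
    simpa [mul_assoc] using this
  set NQ := Subgroup.normalizer (Q : Set G) with hNQ
  set PΓ : Sylow p NQ := P.subtype hPN with hPΓ
  have hPΓmem : ∀ x : NQ, x ∈ (PΓ : Subgroup NQ) ↔ (x : G) ∈ (P : Subgroup G) := by
    intro x
    rw [hPΓ, Sylow.coe_subtype, Subgroup.mem_subgroupOf]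
  haveI : (Q.subgroupOf NQ).Normal := Subgroup.normal_in_normalizer
  rw [hasNormalPComplement_iff]
  apply npc_of_frattini PΓ (Q.subgroupOf NQ)
  · intro x hx
    rw [hPΓmem]
    exact hQP (Subgroup.mem_subgroupOf.mp hx)
  · intro g hg y hy
    rw [Subgroup.mem_subgroupOf]
    have hyP : (y : G) ∈ (P : Subgroup G) := (hPΓmem y).mp hy
    have hgN : (g : G) ∈ Subgroup.normalizer ((P : Subgroup G) : Set G) := by
      rw [Subgroup.mem_normalizer_iff]
      intro x
      constructor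
      · intro hx
        have := (Subgroup.mem_normalizer_iff.mp hg ⟨x, hPN hx⟩).mp ((hPΓmem _).mpr hx)
        exact (hPΓmem _).mp this
      · intro hx
        have hxN : x ∈ NQ := by
          have := NQ.mul_mem (NQ.mul_mem (NQ.inv_mem g.2) (hPN hx)) g.2
          simpa [mul_assoc] using this
        have := (Subgroup.mem_normalizer_iff.mp hg ⟨x, hxN⟩).mpr ((hPΓmem _).mpr hx)
        exact (hPΓmem _).mp this
    set NP := Subgroup.normalizer ((P : Subgroup G) : Set G) with hNP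
    obtain ⟨K, hK⟩ := hasNormalPComplement_iff.mp hN
    set P₁ : Sylow p NP := P.subtype Subgroup.le_normalizer with hP₁
    have hP₁mem : ∀ x : NP, x ∈ (P₁ : Subgroup NP) ↔ (x : G) ∈ (P : Subgroup G) := by
      intro x
      rw [hP₁, Sylow.coe_subtype, Subgroup.mem_subgroupOf]
    have hP₁n : (P₁ : Subgroup NP).Normal := by
      rw [hP₁, Sylow.coe_subtype]
      exact Subgroup.normal_in_normalizer
    have hc := hK.isComplement' P₁
    have hcommute : ∀ k ∈ K, ∀ u ∈ (P₁ : Subgroup NP), Commute k u := fun k hk u hu =>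
      Subgroup.commute_of_normal_of_disjoint _ _ hK.1 hP₁n hc.disjoint k u hk hu
    obtain ⟨⟨⟨k, hk⟩, ⟨u, hu⟩⟩, hku⟩ := hc.2 ⟨g, hgN⟩
    have hku' : (k : G) * (u : G) = g := congrArg Subtype.val hku
    have huP : (u : G) ∈ (P : Subgroup G) := (hP₁mem u).mp hu
    have e1 : ∀ w ∈ (P : Subgroup G), (k : G) * w = w * (k : G) := by
      intro w hw
      have := hcommute k hk ⟨w, Subgroup.le_normalizer hw⟩ ((hP₁mem _).mpr hw)
      exact congrArg Subtype.val this.eq
    have hc1 := hcomm y hyP u huP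
    have e2 : ((y * g * y⁻¹ * g⁻¹ : NQ) : G) = (y : G) * u * (y : G)⁻¹ * (u : G)⁻¹ := by
      simp only [Subgroup.coe_mul, Subgroup.coe_inv]
      rw [← hku']
      have a1 := e1 _ hyP
      have a2 := e1 _ (hQP hc1)
      calc (y : G) * ((k : G) * u) * (y : G)⁻¹ * ((k : G) * u)⁻¹
          = ((y : G) * (k : G)) * (u * (y : G)⁻¹ * (u : G)⁻¹) * (k : G)⁻¹ := by group
        _ = ((k : G) * (y : G)) * (u * (y : G)⁻¹ * (u : G)⁻¹) * (k : G)⁻¹ := by rw [a1]
        _ = ((k : G) * ((y : G) * u * (y : G)⁻¹ * (u : G)⁻¹)) * (k : G)⁻¹ := by group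
        _ = (y : G) * u * (y : G)⁻¹ * (u : G)⁻¹ := by rw [a2]; group
    rw [e2]
    exact hc1
  · intro Y hY
    set Y' : Subgroup (P : Subgroup G) := (Y.map NQ.subtype).subgroupOf (P : Subgroup G) with hY'
    have htop : Y' ⊔ frattini (P : Subgroup G) = ⊤ := by
      rw [eq_top_iff]
      intro s _
      obtain ⟨x, hx, hxs⟩ := hY ⟨s, hPN s.2⟩ ((hPΓmem _).mpr s.2)
      obtain ⟨x', hx', hxx⟩ := h2 (Subgroup.mem_subgroupOf.mp hx)
      have e : s = x' * (x'⁻¹ * s) := by group
      rw [e]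
      refine Subgroup.mul_mem _ (Subgroup.mem_sup_right hx') (Subgroup.mem_sup_left ?_)
      rw [hY', Subgroup.mem_subgroupOf]
      refine ⟨_, hxs, ?_⟩
      have hxx' : (x' : G) = (x : G) := hxx
      simp [hxx']
    have h3 := frattini_nongenerating htop
    intro s hs
    have hsP : (s : G) ∈ (P : Subgroup G) := (hPΓmem s).mp hs
    have h4 : (⟨s, hsP⟩ : (P : Subgroup G)) ∈ Y' := by rw [h3]; trivial
    rw [hY', Subgroup.mem_subgroupOf] at h4
    obtain ⟨s', hs', hss⟩ := h4
    have : s' = s := Subtype.ext hss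
    rw [← this]; exact hs'

end Cfsg.Agent.S3838
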