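import Cfsg.Statements.S3858
import Cfsg.Agent.Lib.Helper4_Syl

set_option autoImplicit false
open Cfsg

namespace Cfsg.Agent.S3858

open Cfsg.Agent.Lib.Helper4_Syl
open scoped Pointwise

/-- Let G be a finite group with a normal non-abelian simple subgroup T whose centralizer is trivial (G almost simple with socle T), r a prime and R a Sylow r-subgroup of G meeting T nontrivially. Then R lies in exactly one maximal subgroup of G if and only if G has exactly one conjugacy class of maximal subgroups whose index is prime to r. -/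
theorem result {G : Type*} [Group G] [Finite G] (T : Subgroup G) [T.Normal] (hT : IsSimpleGroup T) (hna : ¬ IsMulCommutative T)
    (hC : Subgroup.centralizer (T : Set G) = ⊥) {r : ℕ} [Fact r.Prime] (R : Sylow r G) (hR0 : (R : Subgroup G) ⊓ T ≠ ⊥) :
    (∃! M : Subgroup G, IsCoatom M ∧ (R : Subgroup G) ≤ M) ↔
      ((∃ M : Subgroup G, IsCoatom M ∧ ¬ r ∣ M.index) ∧
        ∀ M₁ M₂ : Subgroup G, IsCoatom M₁ → ¬ r ∣ M₁.index → IsCoatom M₂ → ¬ r ∣ M₂.index → ∃ g : G, M₂ = M₁.map (MulAut.conj g).toMonoidHom) := by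
  set D := (R : Subgroup G) ⊓ T with hD
  have hNRD : Subgroup.normalizer ((R : Subgroup G) : Set G) ≤ Subgroup.normalizer (D : Set G) := by
    apply le_normalizer_of_conj_mem
    intro l hl m hm
    exact ⟨conj_mem_of_mem_normalizer hl hm.1, ‹T.Normal›.conj_mem m hm.2 l⟩
  have hRN : (R : Subgroup G) ≤ Subgroup.normalizer (D : Set G) := Subgroup.le_normalizer.trans hNRD
  have hDN : Subgroup.normalizer (D : Set G) ≠ ⊤ := by
    intro htop
    have hDn : D.Normal := Subgroup.normalizer_eq_top_iff.1 htop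
    have hDT : (D.subgroupOf T).Normal := inferInstance
    rcases hT.eq_bot_or_eq_top_of_normal _ hDT with h | h
    · apply hR0
      rw [Subgroup.subgroupOf_eq_bot] at h
      have := h.eq_bot
      rwa [inf_eq_left.2 inf_le_right] at this
    · rw [Subgroup.subgroupOf_eq_top] at h
      have hTp : IsPGroup r T := R.2.to_le (h.trans inf_le_left)
      haveI : Nontrivial T := hT.toNontrivial
      have hc := hTp.center_nontrivial
      rcases hT.eq_bot_or_eq_top_of_normal (Subgroup.center T) inferInstance with h1 | h1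
      · exact absurd h1 ((Subgroup.nontrivial_iff_ne_bot _).1 hc)
      · refine hna ⟨⟨fun a b => ?_⟩⟩
        have hb : b ∈ Subgroup.center T := h1 ▸ Subgroup.mem_top b
        exact (Subgroup.mem_center_iff.1 hb a)
  have hco : ∀ (M : Subgroup G) (g : G), IsCoatom M → IsCoatom (MulAut.conj g • M) :=
    fun M g h => ((MulAut.conj g).mapSubgroup.isCoatom_iff M).2 h
  have hidx : ∀ M : Subgroup G, (R : Subgroup G) ≤ M → ¬ r ∣ M.index :=
    fun M h hd => R.not_dvd_index (hd.trans (Subgroup.index_dvd_of_le h))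
  have hconj : ∀ M : Subgroup G, ¬ r ∣ M.index → ∃ g : G, (R : Subgroup G) ≤ MulAut.conj g • M := by
    intro M hM
    obtain ⟨Q₀⟩ : Nonempty (Sylow r M) := inferInstance
    have hQp : IsPGroup r ((Q₀ : Subgroup M).map M.subtype) := Q₀.2.map _
    have hQi : ¬ r ∣ ((Q₀ : Subgroup M).map M.subtype).index := by
      rw [Subgroup.index_map_subtype]
      intro hd
      rcases (Nat.Prime.dvd_mul (Fact.out : r.Prime)).1 hd with h | h
      · exact Q₀.not_dvd_index h
      · exact hM h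
    obtain ⟨g, hg⟩ := MulAction.exists_smul_eq G (hQp.toSylow hQi) R
    refine ⟨g, ?_⟩
    rw [← hg]
    show MulAut.conj g • ((Q₀ : Subgroup M).map M.subtype) ≤ _
    exact Subgroup.pointwise_smul_le_pointwise_smul_iff.2 (Subgroup.map_subtype_le _)
  constructor
  · rintro ⟨M, ⟨hM, hRM⟩, huq⟩
    refine ⟨⟨M, hM, hidx M hRM⟩, ?_⟩
    intro M₁ M₂ h1 h1' h2 h2'
    obtain ⟨g₁, hg₁⟩ := hconj M₁ h1'
    obtain ⟨g₂, hg₂⟩ := hconj M₂ h2'
    have e1 := huq _ ⟨hco M₁ g₁ h1, hg₁⟩
    have e2 := huq _ ⟨hco M₂ g₂ h2, hg₂⟩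
    refine ⟨g₂⁻¹ * g₁, ?_⟩
    rw [map_conj_eq, conj_mul_smul, e1, ← e2, conj_inv_smul_smul]
  · rintro ⟨⟨M, hM, hMi⟩, hall⟩
    obtain ⟨M₀, hM₀, hNM₀⟩ := (eq_top_or_exists_le_coatom
      (Subgroup.normalizer (D : Set G))).resolve_left hDN
    have hRM₀ := hRN.trans hNM₀
    refine ⟨M₀, ⟨hM₀, hRM₀⟩, ?_⟩
    rintro M₁ ⟨hM₁, hRM₁⟩
    obtain ⟨g, hg⟩ := hall M₀ M₁ hM₀ (hidx _ hRM₀) hM₁ (hidx _ hRM₁)
    rw [map_conj_eq] at hg
    have s1 : IsSylIn r (R : Subgroup G) M₁ := (IsSylIn.of_sylow_top R).mono hRM₁ le_top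
    have s2 : IsSylIn r (MulAut.conj g • (R : Subgroup G)) M₁ := by
      have h0 : IsSylIn r (R : Subgroup G) M₀ := (IsSylIn.of_sylow_top R).mono hRM₀ le_top
      have := h0.smul g
      rwa [← hg] at this
    obtain ⟨m, hm, hm2⟩ := s2.conj s1
    rw [← conj_mul_smul] at hm2
    have hmg : m * g ∈ M₀ := hNM₀ (hNRD (mem_normalizer_iff_conj_smul.2 hm2))
    calc M₁ = MulAut.conj m • M₁ := (conj_smul_eq_of_mem hm).symm
      _ = MulAut.conj (m * g) • M₀ := by rw [hg, conj_mul_smul]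
      _ = M₀ := conj_smul_eq_of_mem hmg

end Cfsg.Agent.S3858
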