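import Cfsg.Statements.S3859
import Cfsg.Agent.Lib.Helper4_Syl

set_option autoImplicit false
open Cfsg

namespace Cfsg.Agent.S3859

open Cfsg.Agent.Lib.Helper4_Syl

/-- Let G be a finite group with a normal non-abelian simple subgroup T whose centralizer is trivial (G almost simple with socle T), r a prime and R a Sylow r-subgroup of G meeting T nontrivially. If R lies in exactly one maximal subgroup of G, then G/T is an r-group. -/
theorem result {G : Type*} [Group G] [Finite G] (T : Subgroup G) [T.Normal] (hT : IsSimpleGroup T) (hna : ¬ IsMulCommutative T)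
    (hC : Subgroup.centralizer (T : Set G) = ⊥) {r : ℕ} [Fact r.Prime] (R : Sylow r G) (hR0 : (R : Subgroup G) ⊓ T ≠ ⊥)
    (huniq : ∃! M : Subgroup G, IsCoatom M ∧ (R : Subgroup G) ≤ M) : IsPGroup r (G ⧸ T) := by
  obtain ⟨M, ⟨hM, hRM⟩, huq⟩ := huniq
  have hle : ∀ X : Subgroup G, (R : Subgroup G) ≤ X → X ≠ ⊤ → X ≤ M := by
    intro X hRX hX
    obtain ⟨M', hM', hXM'⟩ := (eq_top_or_exists_le_coatom X).resolve_left hX
    have := huq M' ⟨hM', hRX.trans hXM'⟩
    exact this ▸ hXM'
  set D := (R : Subgroup G) ⊓ T with hD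
  have hDsyl : IsSylIn r D T := (IsSylIn.of_sylow_top R).inf_normal T
  have hRN : (R : Subgroup G) ≤ Subgroup.normalizer (D : Set G) := by
    apply le_normalizer_of_conj_mem
    intro l hl m hm
    exact ⟨R.1.mul_mem (R.1.mul_mem hl hm.1) (R.1.inv_mem hl), ‹T.Normal›.conj_mem m hm.2 l⟩
  have hDN : Subgroup.normalizer (D : Set G) ≠ ⊤ := by
    intro htop
    have hDn : D.Normal := Subgroup.normalizer_eq_top_iff.1 htop
    have hDT : (D.subgroupOf T).Normal := inferInstance
    rcases hT.eq_bot_or_eq_top_of_normal _ hDT with h | h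
    · apply hR0
      rw [Subgroup.subgroupOf_eq_bot] at h
      have := h.eq_bot
      rwa [inf_eq_left.2 inf_le_right] at this
    · rw [Subgroup.subgroupOf_eq_top] at h
      have hTp : IsPGroup r T := R.2.to_le (h.trans inf_le_left)
      haveI : Nontrivial T := hT.toNontrivial
      have hc := hTp.center_nontrivial
      rcases hT.eq_bot_or_eq_top_of_normal (Subgroup.center T) inferInstance with h1 | h1
      · exact absurd h1 ((Subgroup.nontrivial_iff_ne_bot _).1 hc)
      · refine hna ⟨⟨fun a b => ?_⟩⟩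
        have hb : b ∈ Subgroup.center T := h1 ▸ Subgroup.mem_top b
        exact (Subgroup.mem_center_iff.1 hb a)
  have hTM : (R : Subgroup G) ⊔ T = ⊤ := by
    by_contra hne
    have h1 := hle _ le_sup_left hne
    have h2 := hle _ hRN hDN
    apply hM.1
    rw [eq_top_iff]
    intro g _
    obtain ⟨n, hn, hng⟩ := frattini hDsyl g (conj_smul_eq_of_normal T g)
    have : g = n * (n⁻¹ * g) := by group
    rw [this]
    exact M.mul_mem (h1 (Subgroup.mem_sup_right hn)) (h2 hng)
  intro q
  obtain ⟨g, rfl⟩ := QuotientGroup.mk'_surjective T q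
  have hg : g ∈ (R : Subgroup G) ⊔ T := hTM ▸ Subgroup.mem_top g
  obtain ⟨y, hy, z, hz, rfl⟩ := Subgroup.mem_sup_of_normal_right.1 hg
  obtain ⟨k, hk⟩ := R.2 ⟨y, hy⟩
  have hk' : y ^ r ^ k = 1 := by simpa using congrArg Subtype.val hk
  refine ⟨k, ?_⟩
  have hz' : QuotientGroup.mk' T z = 1 := (QuotientGroup.eq_one_iff z).2 hz
  rw [map_mul, hz', mul_one, ← map_pow, hk', map_one]

end Cfsg.Agent.S3859
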