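import Mathlib
import Cfsg.Agent.Lib.helper6_MinAut
import Cfsg.Statements.S3862

set_option autoImplicit false
open Cfsg

namespace Cfsg.Agent.S3862

/-- If every 2-element of the finite group G that is conjugate to its inverse lies in the centre of G, then G has a normal 2-complement. -/
theorem result {G : Type*} [Group G] [Finite G] (h : ∀ x : G, (∃ j : ℕ, orderOf x = 2 ^ j) → IsConj x x⁻¹ → x ∈ Subgroup.center G) : Cfsg.HasNormalPComplement 2 G := by
  haveI : Fact (Nat.Prime 2) := ⟨Nat.prime_two⟩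
  rw [Cfsg.Agent.Lib.Helper1_PNil.hasNormalPComplement_iff]
  apply Cfsg.Agent.Lib.Helper1_FrobPNil.frobenius
  by_contra hF
  obtain ⟨U, g, hg, _, hmin⟩ := Cfsg.Agent.Lib.helper6_MinAut.exists_minAut hF
  obtain ⟨x, u, hφx, hreal⟩ := hmin.exists_real
  apply hφx
  have h1 : (x : G) ∈ Subgroup.center G := by
    apply h
    · obtain ⟨j, hj⟩ := (IsPGroup.iff_orderOf.1 hmin.hU) x
      exact ⟨j, by rw [Subgroup.orderOf_coe, hj]⟩
    · rw [isConj_iff]
      exact ⟨u, congrArg Subtype.val hreal⟩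
  ext
  change g * (x : G) * g⁻¹ = x
  rw [Subgroup.mem_center_iff] at h1
  rw [h1 g]; group
end Cfsg.Agent.S3862
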