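import Cfsg.Statements.S3866
import Cfsg.Agent.Lib.Helper4_Syl
import Cfsg.Agent.Lib.Helper3_Local

set_option autoImplicit false
open Cfsg

namespace Cfsg.Agent.S3866

open Cfsg.Agent.Lib.Helper4_Syl Cfsg.Agent.Lib.Helper3_Local

/-- Let A be a commutative normal subgroup of the finite group G with G generated by A and an element x. Then a ↦ x a x⁻¹ a⁻¹ is a surjective homomorphism from A onto the commutator subgroup of G whose kernel is the centralizer of x in A; in particular the commutator subgroup has order equal to the index in A of that centralizer. -/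
theorem result {G : Type*} [Group G] [Finite G] (A : Subgroup G) [A.Normal] (hA : IsMulCommutative A) (x : G) (hgen : A ⊔ Subgroup.zpowers x = ⊤) : (∀ a ∈ A, x * a * x⁻¹ * a⁻¹ ∈ commutator G) ∧ (∀ c ∈ commutator G, ∃ a ∈ A, x * a * x⁻¹ * a⁻¹ = c) ∧ (∀ a ∈ A, ∀ b ∈ A, x * (a * b) * x⁻¹ * (a * b)⁻¹ = (x * a * x⁻¹ * a⁻¹) * (x * b * x⁻¹ * b⁻¹)) ∧ Nat.card (commutator G) * Nat.card ↥(A ⊓ Subgroup.centralizer ({x} : Set G)) = Nat.card A := by
  have hAn : A.Normal := inferInstance
  have hcomm : ∀ a ∈ A, ∀ b ∈ A, a * b = b * a := fun a ha b hb =>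
    congrArg Subtype.val (hA.is_comm.comm ⟨a, ha⟩ ⟨b, hb⟩)
  have hhom : ∀ a ∈ A, ∀ b ∈ A, x * (a * b) * x⁻¹ * (a * b)⁻¹ =
      (x * a * x⁻¹ * a⁻¹) * (x * b * x⁻¹ * b⁻¹) := by
    intro a ha b hb
    have h1 : x * b * x⁻¹ ∈ A := hAn.conj_mem b hb x
    have h2 := hcomm (x * b * x⁻¹ * b⁻¹) (A.mul_mem h1 (A.inv_mem hb)) a⁻¹ (A.inv_mem ha)
    calc x * (a * b) * x⁻¹ * (a * b)⁻¹ = x * a * x⁻¹ * ((x * b * x⁻¹ * b⁻¹) * a⁻¹) := by group
      _ = x * a * x⁻¹ * (a⁻¹ * (x * b * x⁻¹ * b⁻¹)) := by rw [h2]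
      _ = _ := by group
  let φ : A →* G := MonoidHom.mk' (fun a => x * (a : G) * x⁻¹ * (a : G)⁻¹)
    (fun a b => hhom a a.2 b b.2)
  have hφ : ∀ a : A, φ a = x * (a : G) * x⁻¹ * (a : G)⁻¹ := fun a => rfl
  set I : Subgroup G := φ.range with hI
  have hIA : I ≤ A := by
    rintro _ ⟨a, rfl⟩
    rw [hφ]
    exact A.mul_mem (hAn.conj_mem a a.2 x) (A.inv_mem a.2)
  have hIn : I.Normal := by
    rw [← Subgroup.normalizer_eq_top_iff, eq_top_iff, ← hgen]
    refine sup_le ?_ ?_
    · apply le_normalizer_of_conj_mem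
      intro l hl m hm
      have : l * m * l⁻¹ = m := by rw [hcomm l hl m (hIA hm)]; group
      rw [this]; exact hm
    · rw [Subgroup.zpowers_le, mem_normalizer_iff_conj_le]
      rintro _ ⟨a, rfl⟩
      refine ⟨⟨x * a * x⁻¹, hAn.conj_mem a a.2 x⟩, ?_⟩
      rw [hφ, hφ]
      group
  have h1 : ∀ a ∈ A, x * a * x⁻¹ * a⁻¹ ∈ commutator G := by
    intro a _
    rw [commutator_def]
    exact Subgroup.commutator_mem_commutator (Subgroup.mem_top x) (Subgroup.mem_top a)
  have hle : commutator G ≤ I := by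
    set π := QuotientGroup.mk' I with hπ
    set k : Set (G ⧸ I) := π '' ((A : Set G) ∪ {x}) with hk
    have hktop : Subgroup.closure k = ⊤ := by
      rw [hk, ← MonoidHom.map_closure, Subgroup.closure_union, Subgroup.closure_eq,
        ← Subgroup.zpowers_eq_closure, hgen]
      exact Subgroup.map_top_of_surjective _ (QuotientGroup.mk'_surjective I)
    have hxa : ∀ a ∈ A, π x * π a = π a * π x := by
      intro a ha
      have h : π (x * a * x⁻¹ * a⁻¹) = 1 := (QuotientGroup.eq_one_iff _).2 ⟨⟨a, ha⟩, rfl⟩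
      rw [map_mul, map_mul, map_mul, map_inv, map_inv] at h
      calc π x * π a = (π x * π a * (π x)⁻¹ * (π a)⁻¹) * (π a * π x) := by group
        _ = π a * π x := by rw [h, one_mul]
    have hkc : ∀ u ∈ k, ∀ v ∈ k, u * v = v * u := by
      rintro _ ⟨u, hu, rfl⟩ _ ⟨v, hv, rfl⟩
      rcases hu with hu | hu <;> rcases hv with hv | hv
      · rw [← map_mul, ← map_mul, hcomm u hu v hv]
      · rw [Set.mem_singleton_iff.1 hv]; exact (hxa u hu).symm
      · rw [Set.mem_singleton_iff.1 hu]; exact hxa v hv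
      · rw [Set.mem_singleton_iff.1 hu, Set.mem_singleton_iff.1 hv]
    have hc1 : Subgroup.closure k ≤ Subgroup.centralizer k :=
      (Subgroup.closure_le _).2 (fun a ha => Subgroup.mem_centralizer_iff.2
        (fun b hb => hkc b hb a ha))
    have hc2 : Subgroup.closure k ≤ Subgroup.center (G ⧸ I) := by
      rw [Subgroup.closure_le]
      intro a ha
      show a ∈ Subgroup.center (G ⧸ I)
      rw [Subgroup.mem_center_iff]
      intro g
      have hg : g ∈ Subgroup.centralizer k := hc1 (hktop ▸ Subgroup.mem_top g)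
      exact (Subgroup.mem_centralizer_iff.1 hg a ha).symm
    rw [commutator_def, Subgroup.commutator_le]
    intro g₁ _ g₂ _
    rw [← QuotientGroup.eq_one_iff, commutatorElement_def]
    show π (g₁ * g₂ * g₁⁻¹ * g₂⁻¹) = 1
    have hg : π g₁ ∈ Subgroup.center (G ⧸ I) := hc2 (hktop ▸ Subgroup.mem_top _)
    rw [map_mul, map_mul, map_mul, map_inv, map_inv, ← Subgroup.mem_center_iff.1 hg (π g₂)]
    group
  have heq : commutator G = I := by
    apply le_antisymm hle
    rintro _ ⟨a, rfl⟩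
    exact h1 a a.2
  refine ⟨h1, ?_, hhom, ?_⟩
  · intro c hc
    obtain ⟨a, rfl⟩ := hle hc
    exact ⟨a, a.2, rfl⟩
  · have hker : φ.ker = (A ⊓ Subgroup.centralizer ({x} : Set G)).subgroupOf A := by
      ext a
      rw [MonoidHom.mem_ker, hφ, Subgroup.mem_subgroupOf, Subgroup.mem_inf,
        Subgroup.mem_centralizer_singleton_iff]
      constructor
      · intro h
        refine ⟨a.2, ?_⟩
        have : x * (a : G) = (x * (a : G) * x⁻¹ * (a : G)⁻¹) * ((a : G) * x) := by group
        rw [this, h, one_mul]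
      · rintro ⟨-, h⟩
        rw [← h]; group
    have h2 := Subgroup.card_mul_index φ.ker
    rw [Subgroup.index_ker, hker, ← hI, ← heq] at h2
    rw [mul_comm, ← h2]
    congr 1
    exact (Nat.card_congr (Subgroup.subgroupOfEquivOfLe inf_le_left).toEquiv).symm

end Cfsg.Agent.S3866
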