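import Cfsg.Statements.S3867
import Cfsg.Agent.Lib.Helper7_SylCount

set_option autoImplicit false
open Cfsg

namespace Cfsg.Agent.S3867

open MulAction Cfsg.Agent.Lib.Helper7_SylCount in
theorem card_prod_aux {G : Type*} [Group G] (A B W : Subgroup G) (hAB : A ⊓ B = ⊥)
    (h1 : ∀ a ∈ A, ∀ b ∈ B, a * b ∈ W) (h2 : ∀ w ∈ W, ∃ a ∈ A, ∃ b ∈ B, w = a * b) :
    Nat.card W = Nat.card A * Nat.card B := by
  rw [← Nat.card_prod]
  symm
  apply Nat.card_congr
  refine Equiv.ofBijective (fun x : A × B => (⟨x.1 * x.2, h1 _ x.1.2 _ x.2.2⟩ : W)) ⟨?_, ?_⟩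
  · rintro ⟨a, b⟩ ⟨a', b'⟩ h
    have h' : (a : G) * b = a' * b' := congrArg Subtype.val h
    have e : (a' : G)⁻¹ * a = b' * (b : G)⁻¹ := by
      calc (a' : G)⁻¹ * a = (a' : G)⁻¹ * ((a : G) * b) * (b : G)⁻¹ := by group
        _ = (a' : G)⁻¹ * ((a' : G) * b') * (b : G)⁻¹ := by rw [h']
        _ = b' * (b : G)⁻¹ := by group
    have hm : (a' : G)⁻¹ * a ∈ A ⊓ B :=
      ⟨A.mul_mem (A.inv_mem a'.2) a.2, e ▸ B.mul_mem b'.2 (B.inv_mem b.2)⟩
    rw [hAB, Subgroup.mem_bot] at hm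
    have ha : (a : G) = a' := (inv_mul_eq_one.mp hm).symm
    have hb : (b : G) = b' := by
      rw [ha] at h'
      exact mul_left_cancel h'
    exact Prod.ext (Subtype.ext ha) (Subtype.ext hb)
  · rintro ⟨w, hw⟩
    obtain ⟨a, ha, b, hb, rfl⟩ := h2 w hw
    exact ⟨(⟨a, ha⟩, ⟨b, hb⟩), rfl⟩

theorem L1 {G : Type*} [Group G] [Finite G] (p : ℕ) [Fact p.Prime] (M N : Subgroup G) [M.Normal]
    [N.Normal] (hMN : M ⊓ N = ⊥) (P : Sylow p G) : N ⊓ ((P : Subgroup G) ⊔ M) ≤ P := by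
  set E := N ⊓ ((P : Subgroup G) ⊔ M) with hE
  have hEp : IsPGroup p E := by
    obtain ⟨j, hj⟩ := P.2.exists_card_eq
    rintro ⟨x, hx⟩
    refine ⟨j, Subtype.ext ?_⟩
    show x ^ p ^ j = 1
    have hx2 : x ∈ (((P : Subgroup G) ⊔ M : Subgroup G) : Set G) := hx.2
    rw [Subgroup.mul_normal] at hx2
    obtain ⟨c, hc, m, hm, rfl⟩ := Set.mem_mul.mp hx2
    have hcp : c ^ p ^ j = 1 := by
      have : (⟨c, hc⟩ : (P : Subgroup G)) ^ p ^ j = 1 := by rw [← hj]; exact pow_card_eq_one'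
      exact congrArg Subtype.val this
    have h1 : ((c * m : G) : G ⧸ M) = (c : G ⧸ M) := by
      rw [QuotientGroup.mk_mul, (QuotientGroup.eq_one_iff m).mpr hm, mul_one]
    have h2 : (((c * m) ^ p ^ j : G) : G ⧸ M) = 1 := by
      rw [QuotientGroup.mk_pow, h1, ← QuotientGroup.mk_pow, hcp, QuotientGroup.mk_one]
    have h3 : (c * m) ^ p ^ j ∈ M := (QuotientGroup.eq_one_iff _).mp h2
    have h4 : (c * m) ^ p ^ j ∈ M ⊓ N := ⟨h3, N.pow_mem hx.1 _⟩
    rw [hMN] at h4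
    exact Subgroup.mem_bot.mp h4
  have hconj : ∀ a ∈ (P : Subgroup G), ∀ h ∈ E, a * h * a⁻¹ ∈ E := by
    intro a ha h hh
    refine ⟨Subgroup.Normal.conj_mem inferInstance _ hh.1 _, ?_⟩
    have ha' : a ∈ (P : Subgroup G) ⊔ M := Subgroup.mem_sup_left ha
    exact Subgroup.mul_mem _ (Subgroup.mul_mem _ ha' hh.2) (Subgroup.inv_mem _ ha')
  have hPE : (P : Subgroup G) ≤ Subgroup.normalizer (E : Set G) := by
    intro a ha
    rw [Subgroup.mem_normalizer_iff]
    intro h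
    constructor
    · exact hconj a ha h
    · intro hh
      have := hconj a⁻¹ (Subgroup.inv_mem _ ha) _ hh
      simpa [mul_assoc] using this
  have hsup : IsPGroup p ((P : Subgroup G) ⊔ E : Subgroup G) :=
    P.2.to_sup_of_normal_right' hEp hPE
  have := P.is_maximal' hsup le_sup_left
  calc E ≤ (P : Subgroup G) ⊔ E := le_sup_right
    _ = P := this

theorem L2 {G : Type*} [Group G] [Finite G] (p : ℕ) [Fact p.Prime] (M N : Subgroup G) [M.Normal]
    [N.Normal] (hMN : M ⊓ N = ⊥) (P : Sylow p G) (m n : G) (hm : m ∈ M) (hn : n ∈ N)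
    (h : m * n ∈ Subgroup.normalizer ((P : Subgroup G) : Set G)) :
    n ∈ Subgroup.normalizer ((P : Subgroup G) : Set G) := by
  have hl := L1 p M N hMN P
  have key : ∀ a ∈ (P : Subgroup G), n * a * n⁻¹ ∈ (P : Subgroup G) := by
    intro a ha
    have h1 : (m * n) * a * (m * n)⁻¹ ∈ (P : Subgroup G) :=
      (Subgroup.mem_normalizer_iff.mp h a).1 ha
    have h2 : n * a * n⁻¹ * a⁻¹ ∈ N := by
      have : a * n⁻¹ * a⁻¹ ∈ N := Subgroup.Normal.conj_mem inferInstance _ (N.inv_mem hn) _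
      have h3 := N.mul_mem hn this
      have e : n * (a * n⁻¹ * a⁻¹) = n * a * n⁻¹ * a⁻¹ := by group
      rwa [e] at h3
    have h3 : n * a * n⁻¹ * a⁻¹ ∈ (P : Subgroup G) ⊔ M := by
      have e : n * a * n⁻¹ * a⁻¹ = m⁻¹ * ((m * n) * a * (m * n)⁻¹) * m * a⁻¹ := by group
      rw [e]
      have hm' : m ∈ (P : Subgroup G) ⊔ M := Subgroup.mem_sup_right hm
      exact Subgroup.mul_mem _ (Subgroup.mul_mem _ (Subgroup.mul_mem _ (Subgroup.inv_mem _ hm')
        (Subgroup.mem_sup_left h1)) hm') (Subgroup.inv_mem _ (Subgroup.mem_sup_left ha))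
    have h4 := hl ⟨h2, h3⟩
    have h5 := (P : Subgroup G).mul_mem h4 ha
    simpa using h5
  have hle : ((n • P : Sylow p G) : Subgroup G) ≤ P := by
    intro x hx
    rw [Sylow.coe_subgroup_smul] at hx
    obtain ⟨a, ha, rfl⟩ := hx
    exact key a ha
  have h6 := (n • P).is_maximal' P.2 hle
  exact Sylow.smul_eq_iff_mem_normalizer.mp (Sylow.ext h6.symm)

theorem orb_card {G : Type*} [Group G] [Finite G] (p : ℕ) [Fact p.Prime] (H : Subgroup G)
    (P : Sylow p G) :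
    Nat.card (H ⊓ Subgroup.normalizer ((P : Subgroup G) : Set G) : Subgroup G) *
      (MulAction.orbit H P).ncard = Nat.card H := by
  rw [← Cfsg.Agent.Lib.Helper7_SylCount.relIndex_normalizer_eq]
  have h1 := Subgroup.relIndex_mul_relIndex ⊥
    (H ⊓ Subgroup.normalizer ((P : Subgroup G) : Set G)) H bot_le inf_le_left
  rw [Subgroup.relIndex_bot_left, Subgroup.relIndex_bot_left, Subgroup.inf_relIndex_left] at h1
  exact h1

/-- Let M and N be nontrivial normal subgroups of the finite group G with M ⊓ N trivial, and let p be a prime. Writing n(X) for the number of Sylow p-subgroups of a group X, one has n(G) · n(G/MN) = n(G/M) · n(G/N). -/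
theorem result {G : Type*} [Group G] [Finite G] (p : ℕ) [Fact p.Prime] (M N : Subgroup G) [M.Normal] [N.Normal] (hM : M ≠ ⊥) (hN : N ≠ ⊥) (hMN : M ⊓ N = ⊥) : Nat.card (Sylow p G) * Nat.card (Sylow p (G ⧸ (M ⊔ N))) = Nat.card (Sylow p (G ⧸ M)) * Nat.card (Sylow p (G ⧸ N)) := by
  obtain ⟨P⟩ : Nonempty (Sylow p G) := inferInstance
  set Np := Subgroup.normalizer ((P : Subgroup G) : Set G) with hNp
  have e1 := Cfsg.Agent.Lib.Helper7_SylCount.card_sylow_eq_mul M P
  have e2 := Cfsg.Agent.Lib.Helper7_SylCount.card_sylow_eq_mul N P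
  have e3 := Cfsg.Agent.Lib.Helper7_SylCount.card_sylow_eq_mul (M ⊔ N) P
  have c1 := orb_card p M P
  have c2 := orb_card p N P
  have c3 := orb_card p (M ⊔ N) P
  have d1 : Nat.card (M ⊔ N : Subgroup G) = Nat.card M * Nat.card N := by
    apply card_prod_aux M N (M ⊔ N) hMN
    · intro a ha b hb
      exact Subgroup.mul_mem _ (Subgroup.mem_sup_left ha) (Subgroup.mem_sup_right hb)
    · intro w hw
      have hw' : w ∈ ((M ⊔ N : Subgroup G) : Set G) := hw
      rw [Subgroup.mul_normal] at hw'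
      obtain ⟨a, ha, b, hb, rfl⟩ := Set.mem_mul.mp hw'
      exact ⟨a, ha, b, hb, rfl⟩
  have d2 : Nat.card ((M ⊔ N) ⊓ Np : Subgroup G) =
      Nat.card (M ⊓ Np : Subgroup G) * Nat.card (N ⊓ Np : Subgroup G) := by
    apply card_prod_aux
    · rw [eq_bot_iff, ← hMN]
      exact fun x hx => ⟨hx.1.1, hx.2.1⟩
    · intro a ha b hb
      exact ⟨Subgroup.mul_mem _ (Subgroup.mem_sup_left ha.1) (Subgroup.mem_sup_right hb.1),
        Np.mul_mem ha.2 hb.2⟩
    · intro w hw
      have hw' : w ∈ ((M ⊔ N : Subgroup G) : Set G) := hw.1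
      rw [Subgroup.mul_normal] at hw'
      obtain ⟨a, ha, b, hb, rfl⟩ := Set.mem_mul.mp hw'
      have hb' := L2 p M N hMN P a b ha hb hw.2
      have ha' : a ∈ Np := by
        have := Np.mul_mem hw.2 (Np.inv_mem hb')
        simpa using this
      exact ⟨a, ⟨ha, ha'⟩, b, ⟨hb, hb'⟩, rfl⟩
  set oM := (MulAction.orbit M P).ncard
  set oN := (MulAction.orbit N P).ncard
  set oMN := (MulAction.orbit (M ⊔ N : Subgroup G) P).ncard
  set a := Nat.card (Sylow p (G ⧸ M))
  set b := Nat.card (Sylow p (G ⧸ N))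
  set c := Nat.card (Sylow p (G ⧸ (M ⊔ N)))
  set n := Nat.card (Sylow p G)
  set x := Nat.card (M ⊓ Np : Subgroup G)
  set y := Nat.card (N ⊓ Np : Subgroup G)
  have hx : 0 < x := Nat.card_pos
  have hy : 0 < y := Nat.card_pos
  have hn : 0 < n := Nat.card_pos
  have ho : oMN = oM * oN := by
    rw [d2, d1, ← c1, ← c2] at c3
    have : (x * y) * oMN = (x * y) * (oM * oN) := by rw [c3]; ring
    exact Nat.eq_of_mul_eq_mul_left (Nat.mul_pos hx hy) this
  have hoMN : 0 < oMN := by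
    rcases Nat.eq_zero_or_pos oMN with h0 | h0
    · rw [h0, mul_zero] at e3; omega
    · exact h0
  have : (n * c) * oMN = (a * b) * oMN := by
    calc (n * c) * oMN = n * (c * oMN) := by ring
      _ = n * n := by rw [← e3]
      _ = (a * oM) * (b * oN) := by rw [← e1, ← e2]
      _ = (a * b) * oMN := by rw [ho]; ring
  exact Nat.eq_of_mul_eq_mul_right hoMN this

end Cfsg.Agent.S3867
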