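import Cfsg.Statements.S3897

import Mathlib
import Cfsg.Agent.Lib.Helper7_PClass
set_option autoImplicit false
open Cfsg

namespace Cfsg.Agent.S3897


open Cfsg.Agent.Lib.Helper7_PClass

/-- with a normal `p`-complement and abelian Sylow subgroup there are `|P|` classes of `p`-elements. -/
theorem card_le_pcl {G : Type*} [Group G] [Finite G] {p : ℕ} [hp : Fact p.Prime] (P : Sylow p G)
    (h1 : Cfsg.HasNormalPComplement p G) (h2 : IsMulCommutative ↥(P : Subgroup G)) :
    Nat.card ↥(P : Subgroup G) ≤ Nat.card (PCl p G) := by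
  obtain ⟨P₀, K, hK, hc⟩ := h1
  have hcardK : Nat.card K = (P₀ : Subgroup G).index := hc.index_eq_card.symm
  have hKp : (Nat.card K).Coprime (Nat.card ↥(P : Subgroup G)) := by
    obtain ⟨n, hn⟩ := (IsPGroup.iff_card).mp P.isPGroup'
    rw [hn]
    apply Nat.Coprime.pow_right
    rw [Nat.coprime_comm, Nat.Prime.coprime_iff_not_dvd hp.out, hcardK]
    exact P₀.not_dvd_index
  have hcardP : Nat.card ↥(P : Subgroup G) = Nat.card ↥(P₀ : Subgroup G) := by
    obtain ⟨g, hg⟩ := MulAction.exists_smul_eq G P₀ P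
    rw [← hg]
    exact (Sylow.card_eq_multiplicity _).trans (Sylow.card_eq_multiplicity _).symm
  have hc' : K.IsComplement' (P : Subgroup G) := by
    apply Subgroup.isComplement'_of_coprime _ hKp
    rw [hcardP]
    exact hc.card_mul
  have hdisj : K ⊓ (P : Subgroup G) = ⊥ := hc'.disjoint.eq_bot
  have hsup : K ⊔ (P : Subgroup G) = ⊤ := hc'.sup_eq_top
  refine Nat.card_le_card_of_injective
    (fun x : ↥(P : Subgroup G) => (⟨ConjClasses.mk (x : G), ?_⟩ : PCl p G)) ?_
  · intro y hy
    rw [ConjClasses.mem_carrier_iff_mk_eq] at hy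
    have h3 : IsConj y (x : G) := ConjClasses.mk_eq_mk_iff_isConj.mp hy
    obtain ⟨k, hk⟩ := exists_orderOf_of_mem P.isPGroup' x.2
    refine ⟨k, ?_⟩
    rw [← hk]
    obtain ⟨c, hc⟩ := isConj_iff.mp h3
    rw [← hc]
    exact (orderOf_injective (MulAut.conj c).toMonoidHom (MulAut.conj c).injective y).symm
  · intro x y hxy
    have h3 : ConjClasses.mk (x : G) = ConjClasses.mk (y : G) := congrArg Subtype.val hxy
    obtain ⟨g, hg⟩ := isConj_iff.mp (ConjClasses.mk_eq_mk_iff_isConj.mp h3)
    have hgm : g ∈ K ⊔ (P : Subgroup G) := by rw [hsup]; trivial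
    have hgm' : g ∈ ((K ⊔ (P : Subgroup G) : Subgroup G) : Set G) := hgm
    rw [Subgroup.normal_mul] at hgm'
    obtain ⟨k, hk, u, hu, rfl⟩ := hgm'
    have hux : u * (x : G) * u⁻¹ = x := by
      have h4 : (⟨u, hu⟩ : ↥(P : Subgroup G)) * x = x * ⟨u, hu⟩ := h2.is_comm.comm _ _
      have h5 : u * (x : G) = x * u := congrArg Subtype.val h4
      rw [h5]; group
    have h6 : (y : G) = k * x * k⁻¹ := by
      rw [← hg]
      calc k * u * (x : G) * (k * u)⁻¹ = k * (u * x * u⁻¹) * k⁻¹ := by group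
        _ = k * x * k⁻¹ := by rw [hux]
    have h7 : (y : G) * (x : G)⁻¹ ∈ K ⊓ (P : Subgroup G) := by
      refine Subgroup.mem_inf.mpr ⟨?_, (P : Subgroup G).mul_mem y.2 ((P : Subgroup G).inv_mem x.2)⟩
      rw [h6]
      have h8 : k * (x : G) * k⁻¹ * (x : G)⁻¹ = k * ((x : G) * k⁻¹ * (x : G)⁻¹) := by group
      rw [h8]
      exact K.mul_mem hk (hK.conj_mem _ (K.inv_mem hk) _)
    rw [hdisj, Subgroup.mem_bot] at h7
    apply Subtype.ext
    exact (mul_inv_eq_one.mp h7).symm

/-- Let p be an odd prime and G a finite group with Sylow p-subgroup P, and write k_p(G) for the number of conjugacy classes of G consisting of p-elements (elements of p-power order, the identity included). Then k_p(G) > (p + 1)|P|/(2p) if and only if G has a normal p-complement and P is abelian. -/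
theorem result {G : Type*} [Group G] [Finite G] {p : ℕ} [Fact p.Prime] (hp : p ≠ 2) (P : Sylow p G) :
    (p + 1) * Nat.card ↥(P : Subgroup G) < 2 * p * Nat.card {c : ConjClasses G // ∀ x ∈ c.carrier, ∃ k : ℕ, orderOf x = p ^ k} ↔
      Cfsg.HasNormalPComplement p G ∧ IsMulCommutative ↥(P : Subgroup G) := by
  constructor
  · intro h
    have hNC := normalizer_le_centralizer_of_many P h
    refine ⟨⟨P, (MonoidHom.transferSylow P hNC).ker, inferInstance,
      MonoidHom.ker_transferSylow_isComplement' P hNC⟩, ⟨⟨fun a b => ?_⟩⟩⟩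
    have h1 : (a : G) ∈ Subgroup.centralizer ((P : Subgroup G) : Set G) :=
      hNC (Subgroup.le_normalizer a.2)
    rw [Subgroup.mem_centralizer_iff] at h1
    exact Subtype.ext (h1 b b.2).symm
  · rintro ⟨h1, h2⟩
    have h3 := card_le_pcl P h1 h2
    have hp2 : 2 ≤ p := (Fact.out : p.Prime).two_le
    have hpos : 0 < Nat.card ↥(P : Subgroup G) := Nat.card_pos
    have h4 : (p + 1) * Nat.card ↥(P : Subgroup G) < 2 * p * Nat.card ↥(P : Subgroup G) := by
      apply Nat.mul_lt_mul_of_pos_right _ hpos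
      omega
    exact lt_of_lt_of_le h4 (Nat.mul_le_mul_left _ h3)

end Cfsg.Agent.S3897
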