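import Cfsg.Statements.S3899

import Mathlib
import Cfsg.Agent.Lib.Helper7_PiClass
set_option autoImplicit false
open Cfsg

namespace Cfsg.Agent.S3899


open Cfsg.Agent.Lib.Helper7_PClass Cfsg.Agent.Lib.Helper7_PiClass

theorem exists_compl {G : Type*} [Group G] [Finite G] {r : ℕ} [Fact r.Prime] (R : Sylow r G)
    (hNC : Subgroup.normalizer ((R : Subgroup G) : Set G) ≤
      Subgroup.centralizer ((R : Subgroup G) : Set G)) :
    ∃ K : Subgroup G, K.Normal ∧ ¬ r ∣ Nat.card K ∧ (∃ a : ℕ, K.index = r ^ a) ∧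
      ∀ a b : G, a * b * a⁻¹ * b⁻¹ ∈ K := by
  refine ⟨(MonoidHom.transferSylow R hNC).ker, inferInstance,
    MonoidHom.not_dvd_card_ker_transferSylow R hNC, ?_, ?_⟩
  · have hc := MonoidHom.ker_transferSylow_isComplement' R hNC
    rw [hc.symm.index_eq_card]
    exact (IsPGroup.iff_card).mp R.isPGroup'
  · intro a b
    rw [MonoidHom.mem_ker]
    have hcomm : ∀ u v : ↥(R : Subgroup G), u * v = v * u := by
      intro u v
      have h1 : (u : G) ∈ Subgroup.centralizer ((R : Subgroup G) : Set G) :=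
        hNC (Subgroup.le_normalizer u.2)
      rw [Subgroup.mem_centralizer_iff] at h1
      exact Subtype.ext (h1 v v.2).symm
    rw [map_mul, map_mul, map_mul, map_inv, map_inv, hcomm (MonoidHom.transferSylow R hNC a)]
    group

/-- Let π be a finite non-empty set of odd primes with smallest member p and G a finite group. Write k_π(G) for the number of conjugacy classes of G consisting of π-elements (elements all of whose order's prime divisors lie in π) and |G|_π for the π-part of the order of G. If k_π(G) > (p + 1)|G|_π/(2p), then G has a normal π-complement (a normal subgroup of order prime to π whose index is a π-number) and an abelian Hall π-subgroup. -/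
theorem result {G : Type*} [Group G] [Finite G] (π : Finset ℕ) (hπ : ∀ r ∈ π, r.Prime) (h2 : 2 ∉ π) (p : ℕ) (hp : p ∈ π)
    (hmin : ∀ r ∈ π, p ≤ r) (hk : (p + 1) * π.prod (fun r => r ^ (Nat.card G).factorization r) < 2 * p * Nat.card {c : ConjClasses G // ∀ x ∈ c.carrier, ∀ r : ℕ, r.Prime → r ∣ orderOf x → r ∈ π}) :
    (∃ N : Subgroup G, N.Normal ∧ (∀ r : ℕ, r.Prime → r ∣ Nat.card ↥N → r ∉ π) ∧ ∀ r : ℕ, r.Prime → r ∣ N.index → r ∈ π) ∧ ∃ H : Subgroup G, Cfsg.IsPiHall (↑π : Set ℕ) H ∧ IsMulCommutative ↥H := by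
  classical
  have hstep : ∀ r ∈ π, ∃ K : Subgroup G, K.Normal ∧ ¬ r ∣ Nat.card K ∧
      (∃ a : ℕ, K.index = r ^ a) ∧ ∀ a b : G, a * b * a⁻¹ * b⁻¹ ∈ K := by
    intro r hr
    haveI : Fact r.Prime := ⟨hπ r hr⟩
    obtain ⟨R⟩ : Nonempty (Sylow r G) := inferInstance
    apply exists_compl R
    apply normalizer_le_centralizer_of_many R
    have h1 := card_piCl_le_mul (G := G) π hπ r hr
    have h3 : r ^ (Nat.card G).factorization r *
        (π.erase r).prod (fun q => q ^ (Nat.card G).factorization q) =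
        π.prod (fun q => q ^ (Nat.card G).factorization q) :=
      Finset.mul_prod_erase π (fun q => q ^ (Nat.card G).factorization q) hr
    rw [Sylow.card_eq_multiplicity]
    set E := (π.erase r).prod (fun q => q ^ (Nat.card G).factorization q) with hE
    set s := r ^ (Nat.card G).factorization r with hs
    set kr := Nat.card (PCl r G) with hkr
    have hk' : (p + 1) * (s * E) < 2 * p * (kr * E) := by
      rw [h3]
      exact lt_of_lt_of_le hk (Nat.mul_le_mul_left _ h1)
    have hEpos : 0 < E := by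
      by_contra h0
      have : E = 0 := by omega
      rw [this] at hk'
      simp at hk'
    have hk2 : (p + 1) * s < 2 * p * kr := by
      have h4 : ((p + 1) * s) * E < (2 * p * kr) * E := by
        calc ((p + 1) * s) * E = (p + 1) * (s * E) := by ring
          _ < 2 * p * (kr * E) := hk'
          _ = (2 * p * kr) * E := by ring
      exact lt_of_mul_lt_mul_right h4 (Nat.zero_le E)
    have hpr : p ≤ r := hmin r hr
    have hppos : 0 < p := (hπ p hp).pos
    have h5 : ((r + 1) * s) * p < (2 * r * kr) * p := by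
      calc ((r + 1) * s) * p = (r * p + p) * s := by ring
        _ ≤ (r * p + r) * s := Nat.mul_le_mul_right s (by omega)
        _ = r * ((p + 1) * s) := by ring
        _ < r * (2 * p * kr) := Nat.mul_lt_mul_of_pos_left hk2 (hπ r hr).pos
        _ = (2 * r * kr) * p := by ring
    exact lt_of_mul_lt_mul_right h5 (Nat.zero_le p)
  choose! K hKn hKc hKi hKa using hstep
  set N : Subgroup G := ⨅ r : π, K r.1 with hN
  have hNn : N.Normal := Subgroup.normal_iInf_normal (fun r => hKn r.1 r.2)
  have hNle : ∀ r ∈ π, N ≤ K r := fun r hr => iInf_le (fun r : π => K r.1) ⟨r, hr⟩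
  have hN1 : ∀ r : ℕ, r.Prime → r ∣ Nat.card ↥N → r ∉ π := by
    intro r _ hrd hr
    exact hKc r hr (hrd.trans (Subgroup.card_dvd_of_le (hNle r hr)))
  have hN2 : ∀ r : ℕ, r.Prime → r ∣ N.index → r ∈ π := by
    intro q hq hqd
    by_contra hqπ
    haveI : Fact q.Prime := ⟨hq⟩
    obtain ⟨Q⟩ : Nonempty (Sylow q G) := inferInstance
    have hQN : (Q : Subgroup G) ≤ N := by
      rw [hN]
      apply le_iInf
      rintro ⟨r, hr⟩
      haveI := hKn r hr
      rw [← Subgroup.relIndex_eq_one]
      obtain ⟨a, ha⟩ := hKi r hr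
      obtain ⟨b, hb⟩ := (IsPGroup.iff_card).mp Q.isPGroup'
      have h1 : (K r).relIndex (Q : Subgroup G) ∣ r ^ a := by
        rw [← ha]; exact Subgroup.relIndex_dvd_index_of_normal _ _
      have h2 : (K r).relIndex (Q : Subgroup G) ∣ q ^ b := by
        rw [← hb]; exact Subgroup.relIndex_dvd_card _ _
      have hne : r ≠ q := fun h => hqπ (h ▸ hr)
      have hcop : (r ^ a).Coprime (q ^ b) :=
        Nat.Coprime.pow a b ((Nat.coprime_primes (hπ r hr) hq).mpr hne)
      exact Nat.eq_one_of_dvd_coprimes hcop h1 h2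
    exact Q.not_dvd_index (hqd.trans (Subgroup.index_dvd_of_le hQN))
  refine ⟨⟨N, hNn, hN1, hN2⟩, ?_⟩
  have hcop : (Nat.card N).Coprime N.index := by
    apply Nat.coprime_of_dvd
    intro k hk1 hk2 hk3
    exact hN1 k hk1 hk2 (hN2 k hk1 hk3)
  obtain ⟨H, hH⟩ := Subgroup.exists_right_complement'_of_coprime hcop
  refine ⟨H, ⟨?_, ?_⟩, ⟨⟨fun a b => ?_⟩⟩⟩
  · intro q hq hqd
    rw [← hH.symm.index_eq_card] at hqd
    exact hN2 q hq hqd
  · intro q hq hqπ hqd
    rw [hH.index_eq_card] at hqd
    exact hN1 q hq hqd hqπ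
  · have h1 : (a : G) * b * (a : G)⁻¹ * (b : G)⁻¹ ∈ N ⊓ H := by
      refine Subgroup.mem_inf.mpr ⟨?_, H.mul_mem (H.mul_mem (H.mul_mem a.2 b.2) (H.inv_mem a.2))
        (H.inv_mem b.2)⟩
      rw [hN]
      rw [Subgroup.mem_iInf]
      rintro ⟨r, hr⟩
      exact hKa r hr _ _
    rw [hH.disjoint.eq_bot, Subgroup.mem_bot] at h1
    apply Subtype.ext
    show (a : G) * b = b * a
    calc (a : G) * b = ((a : G) * b * (a : G)⁻¹ * (b : G)⁻¹) * (b * a) := by group
      _ = b * a := by rw [h1, one_mul]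

end Cfsg.Agent.S3899
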