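import Cfsg.Statements.S3908
import Cfsg.Agent.S0016
import Cfsg.Agent.Lib.Helper1_AbCyc
import Cfsg.Agent.Lib.Helper4_Syl

set_option autoImplicit false
open Cfsg

namespace Cfsg.Agent.S3908

open Subgroup in
theorem exists_E {T : Type*} [Group T] [Finite T] (p : ℕ) [hp : Fact p.Prime] (hT : IsPGroup p T)
    (H K : Subgroup T) (hH : Nat.card H = p) (hK : Nat.card K = p) (hHK : H ≠ K) :
    ∃ E : Subgroup T, IsMulCommutative E ∧ Nat.card E = p ^ 2 ∧ ∀ e ∈ E, e ^ p = 1 := by
  have hTne : (⊤ : Subgroup T) ≠ ⊥ := by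
    intro h
    apply hHK
    have h1 : ∀ X : Subgroup T, X = ⊥ := fun X => le_bot_iff.1 (h ▸ le_top)
    rw [h1 H, h1 K]
  obtain ⟨z, -, hzo, hzc⟩ := Cfsg.Agent.Lib.Helper4_Syl.exists_central_orderOf_eq (Q := ⊤)
    (hT.to_subgroup ⊤) hTne
  obtain ⟨X, hX, hXz⟩ : ∃ X : Subgroup T, Nat.card X = p ∧ X ≠ zpowers z := by
    by_cases h : H = zpowers z
    · exact ⟨K, hK, fun h' => hHK (h.trans h'.symm)⟩
    · exact ⟨H, hH, h⟩
  obtain ⟨h, hho, rfl⟩ := Cfsg.Agent.Lib.Helper1_AbCyc.exists_zpowers_eq X hX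
  have hcomm : ∀ (a : zpowers z) (b : zpowers h), Commute (a : T) (b : T) := by
    intro a b
    obtain ⟨i, hi⟩ := a.2
    rw [← hi]
    exact Commute.zpow_left (hzc b (mem_top _)).symm i
  let ψ := MonoidHom.noncommCoprod (zpowers z).subtype (zpowers h).subtype hcomm
  have hdisj : ∀ w, w ∈ zpowers z → w ∈ zpowers h → w = 1 := by
    intro w hw1 hw2
    by_contra hw
    have ho : orderOf w = p := by
      have h1 : orderOf w ∣ p := by
        have := Subgroup.orderOf_dvd_natCard _ hw1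
        rwa [Nat.card_zpowers, hzo] at this
      rcases (Nat.dvd_prime hp.out).1 h1 with h2 | h2
      · exact absurd (orderOf_eq_one_iff.1 h2) hw
      · exact h2
    have e1 : zpowers w = zpowers z := Subgroup.eq_of_le_of_card_ge (zpowers_le.2 hw1)
      (by rw [Nat.card_zpowers, Nat.card_zpowers, ho, hzo])
    have e2 : zpowers w = zpowers h := Subgroup.eq_of_le_of_card_ge (zpowers_le.2 hw2)
      (by rw [Nat.card_zpowers, Nat.card_zpowers, ho, hho])
    exact hXz (e2.symm.trans e1)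
  have hinj : Function.Injective ψ := by
    rw [injective_iff_map_eq_one]
    rintro ⟨a, b⟩ hab
    have h1 : (a : T) * b = 1 := hab
    have h2 : (a : T) = (b : T)⁻¹ := eq_inv_of_mul_eq_one_left h1
    have ha1 : (a : T) = 1 := hdisj a a.2 (h2 ▸ inv_mem b.2)
    have hb1 : (b : T) = 1 := by rw [ha1, one_mul] at h1; exact h1
    exact Prod.ext (Subtype.ext ha1) (Subtype.ext hb1)
  refine ⟨ψ.range, ?_, ?_, ?_⟩
  · constructor
    constructor
    rintro ⟨_, ⟨a, rfl⟩⟩ ⟨_, ⟨b, rfl⟩⟩
    apply Subtype.ext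
    show ψ a * ψ b = ψ b * ψ a
    rw [← map_mul, ← map_mul]
    congr 1
    exact Prod.ext (mul_comm' a.1 b.1) (mul_comm' a.2 b.2)
  · rw [← Nat.card_congr (MonoidHom.ofInjective hinj).toEquiv, Nat.card_prod, Nat.card_zpowers,
      Nat.card_zpowers, hzo, hho, pow_two]
  · rintro _ ⟨⟨a, b⟩, rfl⟩
    show ((a : T) * (b : T)) ^ p = 1
    rw [(hcomm a b).mul_pow]
    have h1 : (a : T) ^ p = 1 := by
      have := Cfsg.Agent.Lib.Helper1_Quat.pow_card_of_mem _ a.2
      rwa [Nat.card_zpowers, hzo] at this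
    have h2 : (b : T) ^ p = 1 := by
      have := Cfsg.Agent.Lib.Helper1_Quat.pow_card_of_mem _ b.2
      rwa [Nat.card_zpowers, hho] at this
    rw [h1, h2, one_mul]

theorem main_aux {G : Type*} [Group G] [Finite G] (hB : ∀ A B : Subgroup G, IsMulCommutative ↥A → IsMulCommutative ↥B → Nat.card ↥A = Nat.card ↥B → ∃ g : G, B = A.map (MulAut.conj g).toMonoidHom)
    (p : ℕ) [hp : Fact p.Prime] (P : Sylow p G) :
    IsCyclic ↥(P : Subgroup G) ∨ (p = 2 ∧ ∃ n : ℕ, Nonempty (↥(P : Subgroup G) ≃* QuaternionGroup (2 ^ n))) ∨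
      ∀ x ∈ (P : Subgroup G), x ^ p = 1 := by
  by_cases huniq : ∀ H K : Subgroup (P : Subgroup G), Nat.card H = p → Nat.card K = p → H = K
  · rcases Cfsg.Agent.S0016.result p P.isPGroup' huniq with h | h
    · exact Or.inl h
    · exact Or.inr (Or.inl h)
  · push_neg at huniq
    obtain ⟨H, K, hH, hK, hHK⟩ := huniq
    obtain ⟨E, hEc, hEcard, hEexp⟩ := exists_E p P.isPGroup' H K hH hK hHK
    right; right
    intro x hx
    by_contra hxp
    obtain ⟨j, hj⟩ := (IsPGroup.iff_orderOf.1 P.isPGroup') ⟨x, hx⟩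
    rw [← Subgroup.orderOf_coe] at hj
    change orderOf x = p ^ j at hj
    have hj2 : 2 ≤ j := by
      by_contra hcon
      apply hxp
      have h1 : orderOf x ∣ p := by
        rw [hj]
        calc p ^ j ∣ p ^ 1 := pow_dvd_pow p (by omega)
          _ = p := pow_one p
      exact orderOf_dvd_iff_pow_eq_one.1 h1
    set y := x ^ (p ^ (j - 2)) with hy
    have hyo : orderOf y = p ^ 2 := by
      rw [hy, orderOf_pow_of_dvd (pow_ne_zero _ hp.out.ne_zero) (by rw [hj]; exact pow_dvd_pow p (by omega)), hj]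
      rw [Nat.pow_div (by omega) hp.out.pos]
      congr 1
      omega
    have hEm : IsMulCommutative (E.map (P : Subgroup G).subtype) := by
      constructor
      constructor
      rintro ⟨_, ⟨a, ha, rfl⟩⟩ ⟨_, ⟨b, hb, rfl⟩⟩
      apply Subtype.ext
      have := mul_comm' (⟨a, ha⟩ : E) ⟨b, hb⟩
      have h2 : a * b = b * a := congrArg Subtype.val this
      show (a : G) * (b : G) = (b : G) * (a : G)
      exact congrArg Subtype.val h2
    obtain ⟨g, hg⟩ := hB (E.map (P : Subgroup G).subtype) (Subgroup.zpowers y) hEm inferInstance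
      (by rw [Subgroup.card_map_of_injective (P : Subgroup G).subtype_injective, hEcard, Nat.card_zpowers, hyo])
    have hyy : y ∈ Subgroup.zpowers y := Subgroup.mem_zpowers y
    rw [hg] at hyy
    obtain ⟨_, ⟨e, he, rfl⟩, hey⟩ := hyy
    have h1 : y ^ p = 1 := by
      rw [← hey, ← map_pow]
      have := congrArg Subtype.val (hEexp e he)
      rw [Subgroup.coe_pow, Subgroup.coe_one] at this
      change (MulAut.conj g).toMonoidHom ((e : G) ^ p) = 1
      rw [this, map_one]
    have h2 := orderOf_dvd_of_pow_eq_one h1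
    rw [hyo] at h2
    have h3 := Nat.le_of_dvd hp.out.pos h2
    have h4 : p < p ^ 2 := by
      calc p = p ^ 1 := (pow_one p).symm
        _ < p ^ 2 := Nat.pow_lt_pow_right hp.out.one_lt (by norm_num)
    omega

/-- Let G be a finite group in which any two abelian subgroups of the same order are conjugate. Then a Sylow 2-subgroup of G is cyclic, elementary abelian or generalized quaternion, and for an odd prime p a Sylow p-subgroup of G is cyclic or has exponent dividing p. -/
theorem result {G : Type*} [Group G] [Finite G] (hB : ∀ A B : Subgroup G, IsMulCommutative ↥A → IsMulCommutative ↥B → Nat.card ↥A = Nat.card ↥B → ∃ g : G, B = A.map (MulAut.conj g).toMonoidHom) :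
    (∀ P : Sylow 2 G, IsCyclic ↥(P : Subgroup G) ∨ Cfsg.IsElementaryAbelian 2 (P : Subgroup G) ∨ ∃ k : ℕ, Nonempty (↥(P : Subgroup G) ≃* QuaternionGroup (2 ^ k))) ∧
    ∀ (p : ℕ) [Fact p.Prime], p ≠ 2 → ∀ P : Sylow p G, IsCyclic ↥(P : Subgroup G) ∨ ∀ x ∈ (P : Subgroup G), x ^ p = 1 := by
  constructor
  · intro P
    rcases main_aux hB 2 P with h | ⟨_, h⟩ | h
    · exact Or.inl h
    · exact Or.inr (Or.inr h)
    · refine Or.inr (Or.inl ⟨?_, h⟩)
      constructor
      constructor
      rintro ⟨a, ha⟩ ⟨b, hb⟩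
      apply Subtype.ext
      show a * b = b * a
      have h1 : a⁻¹ = a := inv_eq_of_mul_eq_one_left (by rw [← pow_two]; exact h a ha)
      have h2 : b⁻¹ = b := inv_eq_of_mul_eq_one_left (by rw [← pow_two]; exact h b hb)
      have h3 : (a * b)⁻¹ = a * b :=
        inv_eq_of_mul_eq_one_left (by rw [← pow_two]; exact h _ (mul_mem ha hb))
      rw [← h3, mul_inv_rev, h1, h2]
  · intro p _ hp2 P
    rcases main_aux hB p P with h | ⟨h, _⟩ | h
    · exact Or.inl h
    · exact absurd h hp2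
    · exact Or.inr h

end Cfsg.Agent.S3908
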