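import Cfsg.Statements.S3909

import Mathlib
import Cfsg.Agent.Lib.Helper7_Conj
set_option autoImplicit false
open Cfsg

namespace Cfsg.Agent.S3909

open Cfsg.Agent.Lib.Helper7_Conj

/-- Let G be a finite group in which any two abelian subgroups of the same order are conjugate. Let M be a normal subgroup of G. If M contains an element of the same order as a ∈ G, then a ∈ M; and if M is elementary abelian of order p^t with p prime and t ≥ 2, then M is the unique Sylow p-subgroup of G. -/
theorem result {G : Type*} [Group G] [Finite G] (hB : ∀ A B : Subgroup G, IsMulCommutative ↥A → IsMulCommutative ↥B → Nat.card ↥A = Nat.card ↥B → ∃ g : G, B = A.map (MulAut.conj g).toMonoidHom) (M : Subgroup G) [M.Normal] :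
    (∀ a : G, (∃ m ∈ M, orderOf m = orderOf a) → a ∈ M) ∧
    ∀ (p t : ℕ) [Fact p.Prime], 2 ≤ t → Nat.card ↥M = p ^ t → Cfsg.IsElementaryAbelian p M → ∀ P : Sylow p G, (P : Subgroup G) = M := by
  have hMn : M.Normal := inferInstance
  have part1 : ∀ a : G, (∃ m ∈ M, orderOf m = orderOf a) → a ∈ M := by
    rintro a ⟨m, hm, hord⟩
    obtain ⟨g, hg⟩ := hB (Subgroup.zpowers m) (Subgroup.zpowers a) inferInstance inferInstance
      (by rw [Nat.card_zpowers, Nat.card_zpowers, hord])
    have ha : a ∈ (Subgroup.zpowers m).map (MulAut.conj g).toMonoidHom :=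
      hg ▸ Subgroup.mem_zpowers a
    rw [mem_cj] at ha
    have h1 : g⁻¹ * a * g ∈ M := (Subgroup.zpowers_le.2 hm) ha
    have := hMn.conj_mem _ h1 g
    simpa [mul_assoc] using this
  refine ⟨part1, ?_⟩
  intro p t _ ht hcard hel P
  have hp : p.Prime := Fact.out
  obtain ⟨hMc, hMe⟩ := hel
  have hMp : IsPGroup p M := IsPGroup.of_card hcard
  have hMP : M ≤ P := hMp.le_sylow_of_normal P
  have base : ∀ y : G, y ^ p ∈ M → y ∈ M := by
    intro y hy
    have h1 : y ^ (p ^ 2) = 1 := by rw [pow_two, pow_mul]; exact hMe _ hy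
    obtain ⟨k, hk, hord⟩ := (Nat.dvd_prime_pow hp).1 (orderOf_dvd_of_pow_eq_one h1)
    have hdvd : p ^ k ∣ Nat.card M := by rw [hcard]; exact pow_dvd_pow p (hk.trans ht)
    obtain ⟨K, hK⟩ := Sylow.exists_subgroup_card_pow_prime p hdvd
    have hK'c : IsMulCommutative (K.map M.subtype) := by
      refine ⟨⟨fun a b => Subtype.ext ?_⟩⟩
      have ha : a.1 ∈ M := Subgroup.map_subtype_le K a.2
      have hb : b.1 ∈ M := Subgroup.map_subtype_le K b.2
      have h3 := congrArg Subtype.val (mul_comm' (⟨a.1, ha⟩ : M) ⟨b.1, hb⟩)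
      exact h3
    obtain ⟨g, hg⟩ := hB (K.map M.subtype) (Subgroup.zpowers y) hK'c inferInstance
      (by rw [Nat.card_zpowers, hord, Subgroup.card_map_of_injective M.subtype_injective, hK])
    have ha : y ∈ (K.map M.subtype).map (MulAut.conj g).toMonoidHom :=
      hg ▸ Subgroup.mem_zpowers y
    rw [mem_cj] at ha
    have h1 : g⁻¹ * y * g ∈ M := (Subgroup.map_subtype_le K) ha
    have := hMn.conj_mem _ h1 g
    simpa [mul_assoc] using this
  have step : ∀ k : ℕ, ∀ x : G, x ^ (p ^ k) ∈ M → x ∈ M := by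
    intro k
    induction k with
    | zero => intro x hx; simpa using hx
    | succ k ih =>
      intro x hx
      apply base
      apply ih
      rw [← pow_mul, ← pow_succ']
      exact hx
  apply le_antisymm _ hMP
  intro x hx
  obtain ⟨k, hk⟩ := (IsPGroup.iff_orderOf.1 P.isPGroup') ⟨x, hx⟩
  rw [Subgroup.orderOf_mk] at hk
  apply step k
  rw [← hk, pow_orderOf_eq_one]
  exact one_mem M

end Cfsg.Agent.S3909
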