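import Cfsg.Statements.S3910

import Mathlib
import Cfsg.Agent.Lib.Helper7_Nilp
import Cfsg.Agent.Lib.Helper7_Union
import Cfsg.Agent.Lib.Helper7_Conj
set_option autoImplicit false
open Cfsg

namespace Cfsg.Agent.S3910

open Cfsg.Agent.Lib.Helper7_Nilp Cfsg.Agent.Lib.Helper7_Union Cfsg.Agent.Lib.Helper7_Conj

/-- A finite nilpotent group in which any two abelian subgroups of the same order are conjugate is cyclic. -/
theorem result {G : Type*} [Group G] [Finite G] (hB : ∀ A B : Subgroup G, IsMulCommutative ↥A → IsMulCommutative ↥B → Nat.card ↥A = Nat.card ↥B → ∃ g : G, B = A.map (MulAut.conj g).toMonoidHom) (hnil : Group.IsNilpotent G) : IsCyclic G := by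
  haveI := hnil
  obtain ⟨x, hx⟩ := exists_orderOf_dvd (G := G)
  have htop : Subgroup.zpowers x = ⊤ := by
    by_contra hne
    obtain ⟨y, hy⟩ := exists_not_mem_conj _ hne
    obtain ⟨m, hm⟩ := hx y
    have hm0 : m ≠ 0 := by
      rintro rfl
      rw [mul_zero] at hm
      exact (orderOf_pos x).ne' hm
    have hord : orderOf (x ^ m) = orderOf y := orderOf_pow_of_eq_mul hm hm0
    obtain ⟨g, hg⟩ := hB (Subgroup.zpowers (x ^ m)) (Subgroup.zpowers y) inferInstance inferInstance
      (by rw [Nat.card_zpowers, Nat.card_zpowers, hord])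
    have h1 : y ∈ (Subgroup.zpowers (x ^ m)).map (MulAut.conj g).toMonoidHom :=
      hg ▸ Subgroup.mem_zpowers y
    rw [mem_cj] at h1
    apply hy g
    exact (Subgroup.zpowers_le.2 (Subgroup.npow_mem_zpowers x m)) h1
  refine ⟨x, fun y => ?_⟩
  have : y ∈ Subgroup.zpowers x := by rw [htop]; trivial
  exact this

end Cfsg.Agent.S3910
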