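import Mathlib
import Cfsg.Agent.Lib.helper6_EANormal
import Cfsg.Agent.Lib.Helper4_Nilp
import Cfsg.Statements.S3918

set_option autoImplicit false
open Cfsg

namespace Cfsg.Agent.S3918

open Subgroup Cfsg.Agent.Lib
open scoped commutatorElement

/-- Say that a group has self-centralizing non-cyclic subgroups when every non-cyclic subgroup H satisfies C_G(H) ≤ H. For an odd prime p, a finite non-abelian p-group has self-centralizing non-cyclic subgroups if and only if it has order p³. -/
theorem result {G : Type*} [Group G] [Finite G] {p : ℕ} [Fact p.Prime] (hp : p ≠ 2) (hG : IsPGroup p G) (hna : ¬ IsMulCommutative G) :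
    (∀ H : Subgroup G, ¬ IsCyclic ↥H → Subgroup.centralizer (H : Set G) ≤ H) ↔ Nat.card G = p ^ 3 := by
  have hpp := (Fact.out : p.Prime)
  haveI : Group.IsNilpotent G := hG.isNilpotent
  obtain ⟨n, hn⟩ := IsPGroup.iff_card.1 hG
  have hn3 : 3 ≤ n := by
    by_contra hlt
    apply hna
    have : n = 0 ∨ n = 1 ∨ n = 2 := by omega
    rcases this with rfl | rfl | rfl
    · rw [pow_zero] at hn
      haveI := (Nat.card_eq_one_iff_unique.1 hn).1
      exact ⟨⟨fun a b => Subsingleton.elim _ _⟩⟩
    · rw [pow_one] at hn
      haveI : IsCyclic G := isCyclic_of_prime_card hn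
      exact IsCyclic.isMulCommutative
    · exact IsPGroup.isMulCommutative_of_card_eq_prime_sq (p := p) hn
  -- a strictly larger subgroup has larger exponent
  have hstep : ∀ (H K : Subgroup G) (j : ℕ), H < K → Nat.card H = p^j → p^(j+1) ∣ Nat.card K := by
    intro H K j hlt hH
    obtain ⟨i, hi⟩ := IsPGroup.iff_card.1 (hG.to_subgroup K)
    rw [hi]
    apply pow_dvd_pow
    by_contra hle
    have hij : i ≤ j := by omega
    have : H = K := eq_of_le_of_card_ge hlt.le (by
      rw [hi, hH]; exact Nat.pow_le_pow_right hpp.pos hij)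
    exact hlt.ne this
  constructor
  · intro hyp
    have hncyc : ¬ IsCyclic (⊤ : Subgroup G) := by
      intro h
      apply hna
      haveI : IsCyclic G := (Subgroup.topEquiv (G := G)).isCyclic.1 h
      exact IsCyclic.isMulCommutative
    obtain ⟨A, -, hAn, ⟨hAcomm, hAexp⟩, hAcard⟩ := helper6_EANormal.main hp _ G rfl hG ⊤ hncyc
    haveI := hAn
    have hAnc : ¬ IsCyclic A := by
      intro h
      obtain ⟨g, hg⟩ := h.exists_generator
      have h1 : orderOf g = Nat.card A := orderOf_eq_card_of_forall_mem_zpowers hg
      have h2 : g^p = 1 := Subtype.ext (by simpa using hAexp g g.2)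
      have h3 := orderOf_dvd_of_pow_eq_one h2
      rw [h1, hAcard] at h3
      have h4 := Nat.le_of_dvd hpp.pos h3
      nlinarith [hpp.one_lt]
    have hCA := hyp A hAnc
    obtain ⟨Z0, hZ0⟩ : ∃ Z0 : Subgroup G, Z0 = A ⊓ center G := ⟨_, rfl⟩
    have hAne : A ≠ ⊥ := by
      intro h
      rw [h, card_bot] at hAcard
      have := Nat.one_lt_pow (n := 2) (by norm_num) hpp.one_lt
      omega
    have hZ0ne : Z0 ≠ ⊥ := by rw [hZ0]; exact Helper4_Nilp.normal_inf_center_ne_bot A hAne
    have hZ0A : Z0 ≤ A := by rw [hZ0]; exact inf_le_left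
    have hZ0c : Z0 ≤ center G := by rw [hZ0]; exact inf_le_right
    have hAZ0 : ¬ A ≤ Z0 := by
      intro h
      apply hna
      have hAc : A ≤ center G := h.trans hZ0c
      have htop : centralizer (A : Set G) = ⊤ := by
        rw [eq_top_iff]; intro g _; rw [mem_centralizer_iff]; intro a ha
        exact (mem_center_iff.1 (hAc ha) g).symm
      have hAtop : A = ⊤ := by rw [eq_top_iff, ← htop]; exact hCA
      exact ⟨⟨fun a b => by
        have := hAcomm.is_comm.comm ⟨a, hAtop ▸ mem_top a⟩ ⟨b, hAtop ▸ mem_top b⟩
        exact congrArg Subtype.val this⟩⟩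
    obtain ⟨a, haA, haZ0, hcomm⟩ := Helper4_Nilp.exists_central_mod Z0 A hAZ0
    have hZ0card : Nat.card Z0 = p := by
      have h1 : Nat.card Z0 ∣ p^2 := hAcard ▸ card_dvd_of_le hZ0A
      obtain ⟨j, hj, hj'⟩ := (Nat.dvd_prime_pow hpp).1 h1
      interval_cases j
      · rw [pow_zero] at hj'; exact absurd (eq_bot_of_card_eq _ hj') hZ0ne
      · rw [hj', pow_one]
      · exact absurd (eq_of_le_of_card_ge hZ0A (by rw [hAcard, hj'])).ge hAZ0
    let φ : G →* G := MonoidHom.mk' (fun g => ⁅a, g⁆) (by
      intro g h
      have hc := mem_center_iff.1 (hZ0c (hcomm h)) g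
      calc ⁅a, g*h⁆ = ⁅a,g⁆ * (g * ⁅a,h⁆) * g⁻¹ := by simp only [commutatorElement_def]; group
        _ = ⁅a,g⁆ * (⁅a,h⁆ * g) * g⁻¹ := by rw [hc]
        _ = ⁅a,g⁆ * ⁅a,h⁆ := by group)
    have hrange : φ.range ≤ Z0 := by
      rintro _ ⟨g, rfl⟩
      exact hcomm g
    have hsup : Z0 ⊔ zpowers a = A := by
      apply eq_of_le_of_card_ge (sup_le hZ0A (zpowers_le.2 haA))
      have hlt : Z0 < Z0 ⊔ zpowers a :=
        lt_of_le_of_ne le_sup_left (fun h => haZ0 (h ▸ mem_sup_right (mem_zpowers a)))
      have := hstep _ _ 1 hlt (by rw [hZ0card, pow_one])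
      rw [hAcard]
      exact Nat.le_of_dvd Nat.card_pos this
    have hker : φ.ker ≤ A := by
      intro g hg
      apply hCA
      have h1 : ⁅a, g⁆ = 1 := hg
      rw [commutatorElement_eq_one_iff_mul_comm] at h1
      have hle : A ≤ centralizer ({g} : Set G) := by
        rw [← hsup]
        apply sup_le
        · intro w hw
          rw [mem_centralizer_iff]
          intro y hy
          rw [Set.mem_singleton_iff] at hy
          subst hy
          exact mem_center_iff.1 (hZ0c hw) y
        · rw [zpowers_le, mem_centralizer_iff]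
          intro y hy
          rw [Set.mem_singleton_iff] at hy
          subst hy
          exact h1.symm
      rw [mem_centralizer_iff]
      intro w hw
      exact ((mem_centralizer_iff.1 (hle hw)) g rfl).symm
    have h1 := φ.ker.card_mul_index
    rw [index_ker, hn] at h1
    have h2 := card_le_of_le hker
    have h3 := card_le_of_le hrange
    rw [hAcard] at h2
    rw [hZ0card] at h3
    have h4 : p^n ≤ p^3 := by
      rw [← h1, pow_succ p 2]
      exact Nat.mul_le_mul h2 h3
    have h5 : n ≤ 3 := (Nat.pow_le_pow_iff_right hpp.one_lt).1 h4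
    rw [hn, show n = 3 by omega]
  · intro hcard H hH g hg
    by_contra hgH
    obtain ⟨j, hj⟩ := IsPGroup.iff_card.1 (hG.to_subgroup H)
    have hlt : H < H ⊔ zpowers g :=
      lt_of_le_of_ne le_sup_left (fun h => hgH (h ▸ mem_sup_right (mem_zpowers g)))
    have h1 := hstep _ _ j hlt hj
    have h2 : p^(j+1) ∣ p^3 := hcard ▸ h1.trans (card_subgroup_dvd_card _)
    have hj2 : j + 1 ≤ 3 := (Nat.pow_dvd_pow_iff_le_right hpp.one_lt).1 h2
    have hj' : j = 0 ∨ j = 1 ∨ j = 2 := by omega
    rcases hj' with rfl | rfl | rfl
    · apply hH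
      rw [pow_zero] at hj
      haveI := (Nat.card_eq_one_iff_unique.1 hj).1
      infer_instance
    · apply hH
      rw [pow_one] at hj
      exact isCyclic_of_prime_card hj
    · have htop : H ⊔ zpowers g = ⊤ := by
        apply eq_top_of_card_eq
        rw [hcard]
        exact Nat.dvd_antisymm (hcard ▸ card_subgroup_dvd_card _) h1
      have hHcomm : ∀ u ∈ H, ∀ v ∈ H, u * v = v * u := by
        intro u hu v hv
        have := (IsPGroup.isMulCommutative_of_card_eq_prime_sq (p := p) (G := H) hj).is_comm.comm
          ⟨u, hu⟩ ⟨v, hv⟩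
        exact congrArg Subtype.val this
      have hgc : ∀ h ∈ H, h * g = g * h := mem_centralizer_iff.1 hg
      have hHcen : H ≤ center G := by
        intro h hh
        have hle : (⊤ : Subgroup G) ≤ centralizer ({h} : Set G) := by
          rw [← htop]
          apply sup_le
          · intro w hw
            rw [mem_centralizer_iff]
            intro y hy
            rw [Set.mem_singleton_iff] at hy
            subst hy
            exact hHcomm y hh w hw
          · rw [zpowers_le, mem_centralizer_iff]
            intro y hy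
            rw [Set.mem_singleton_iff] at hy
            subst hy
            exact hgc y hh
        rw [mem_center_iff]
        intro w
        exact ((mem_centralizer_iff.1 (hle (mem_top w))) h rfl).symm
      have hgcen : g ∈ center G := by
        have hle : (⊤ : Subgroup G) ≤ centralizer ({g} : Set G) := by
          rw [← htop]
          apply sup_le
          · intro w hw
            rw [mem_centralizer_iff]
            intro y hy
            rw [Set.mem_singleton_iff] at hy
            subst hy
            exact (hgc w hw).symm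
          · rw [zpowers_le, mem_centralizer_iff]
            intro y hy
            rw [Set.mem_singleton_iff] at hy
            subst hy
            rfl
        rw [mem_center_iff]
        intro w
        exact ((mem_centralizer_iff.1 (hle (mem_top w))) g rfl).symm
      have hcen : (⊤ : Subgroup G) ≤ center G := by
        rw [← htop]; exact sup_le hHcen (zpowers_le.2 hgcen)
      apply hna
      exact ⟨⟨fun a b => (mem_center_iff.1 (hcen (mem_top b)) a)⟩⟩

end Cfsg.Agent.S3918
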