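import Mathlib
import Cfsg.Agent.S0016
import Cfsg.Agent.S0063
import Cfsg.Agent.Lib.helper6_MaxClass
import Cfsg.Agent.Lib.helper6_MaxClass2
import Cfsg.Agent.Lib.helper6_QuatSyl
import Cfsg.Agent.Lib.Helper1_Quat
import Cfsg.Agent.Lib.Helper2_EA
import Cfsg.Statements.S3919

set_option autoImplicit false
open Cfsg

namespace Cfsg.Agent.S3919

open Subgroup Cfsg.Agent.Lib

/-- maximal class implies self-centralizing non-cyclic subgroups -/
theorem back {G : Type*} [Group G] [Finite G] (k : ℕ) (hG : Nat.card G = 2 ^ (k+3))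
    (hc : Group.nilpotencyClass G = k + 2) (H : Subgroup G) (hH : ¬ IsCyclic ↥H) :
    Subgroup.centralizer (H : Set G) ≤ H := by
  obtain ⟨a, b, ha, hb, hidx, hcases⟩ := helper6_MaxClass2.struct k hG hc
  have hone : ∀ j : ℤ, a^j = 1 ↔ (2 * 2^(k+1) : ℤ) ∣ j := by
    intro j
    rw [← orderOf_dvd_iff_zpow_eq_one, ha]; push_cast
    rw [show (2:ℤ)^(k+2) = 2 * 2^(k+1) by ring]
  have hkey : ∀ j : ℤ, b * a^j * b⁻¹ = a^j → (2^(k+1) : ℤ) ∣ j := by
    intro j hj
    rcases hcases with ⟨-, hba⟩ | ⟨-, hba⟩ | ⟨hk, -, hba⟩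
    · rw [← conj_zpow, hba, inv_zpow, inv_eq_iff_mul_eq_one, ← zpow_add, hone] at hj
      have : (2 * 2^(k+1) : ℤ) ∣ 2 * j := by convert hj using 1; ring
      exact (mul_dvd_mul_iff_left (by norm_num)).1 this
    · rw [← conj_zpow, hba, inv_zpow, inv_eq_iff_mul_eq_one, ← zpow_add, hone] at hj
      have : (2 * 2^(k+1) : ℤ) ∣ 2 * j := by convert hj using 1; ring
      exact (mul_dvd_mul_iff_left (by norm_num)).1 this
    · obtain ⟨k', rfl⟩ : ∃ k', k = k' + 1 := ⟨k - 1, by omega⟩
      have h1 : a^(2^(k'+1+1) - 1) = a^((2^(k'+1+1) - 1 : ℤ)) := by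
        rw [← zpow_natCast, Nat.cast_sub Nat.one_le_two_pow]; push_cast; rfl
      rw [← conj_zpow, hba, h1, ← zpow_mul, ← mul_inv_eq_one, ← zpow_neg, ← zpow_add, hone] at hj
      have h2 : (2 * 2^(k'+1+1) : ℤ) ∣ 2 * ((2^(k'+1) - 1) * j) := by convert hj using 1; ring
      have h3 := (mul_dvd_mul_iff_left (by norm_num)).1 h2
      have hcop : IsCoprime (2^(k'+1+1) : ℤ) (2^(k'+1) - 1) := by
        have : IsCoprime (2:ℤ) (2^(k'+1) - 1) := ⟨2^k', -1, by ring⟩
        exact this.pow_left
      exact hcop.dvd_of_dvd_mul_left h3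
  obtain ⟨z, hz⟩ : ∃ z : G, z = a^(2^(k+1)) := ⟨_, rfl⟩
  have hz2 : z^2 = 1 := by
    rw [hz, ← pow_mul, ← pow_succ, ← ha, pow_orderOf_eq_one]
  have hzmem : ∀ j : ℤ, (2^(k+1) : ℤ) ∣ j → a^j ∈ zpowers z := by
    rintro _ ⟨t, rfl⟩
    rw [zpow_mul]
    have : a^((2:ℤ)^(k+1)) = z := by
      rw [hz, ← zpow_natCast]; push_cast; rfl
    rw [this]
    exact zpow_mem (mem_zpowers z) t
  -- u
  obtain ⟨u, huH, hua⟩ : ∃ u ∈ H, u ∉ zpowers a := by
    by_contra hcon
    push Not at hcon
    exact hH (Subgroup.isCyclic_of_le (show H ≤ zpowers a from hcon))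
  have hconj_u : ∀ j : ℤ, u * a^j * u⁻¹ = b * a^j * b⁻¹ := by
    intro j
    obtain ⟨i, rfl | rfl⟩ := helper6_MaxClass2.gen a b hidx hb u
    · exact absurd (zpow_mem (mem_zpowers a) i) hua
    · have : a^i * a^j * (a^i)⁻¹ = a^j := by
        rw [← zpow_add, ← zpow_neg, ← zpow_add]; congr 1; ring
      calc b * a^i * a^j * (b * a^i)⁻¹ = b * (a^i * a^j * (a^i)⁻¹) * b⁻¹ := by group
        _ = b * a^j * b⁻¹ := by rw [this]
  -- z ∈ H
  have hzH : z ∈ H := by
    have hne : H ⊓ zpowers a ≠ ⊥ := by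
      intro hbot
      apply hH
      apply Subgroup.isCyclic_of_le (show H ≤ zpowers u from ?_)
      intro h hh
      by_cases hha : h ∈ zpowers a
      · have : h ∈ H ⊓ zpowers a := ⟨hh, hha⟩
        rw [hbot, mem_bot] at this
        rw [this]; exact one_mem _
      · have h1 : u⁻¹ * h ∈ zpowers a := by
          rw [mul_mem_iff_of_index_two hidx, inv_mem_iff]
          exact ⟨fun h' => absurd h' hua, fun h' => absurd h' hha⟩
        have h2 : u⁻¹ * h ∈ H ⊓ zpowers a := ⟨H.mul_mem (inv_mem huH) hh, h1⟩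
        rw [hbot, mem_bot] at h2
        have : h = u := (inv_mul_eq_one.1 h2).symm
        rw [this]; exact mem_zpowers u
    have hPG : IsPGroup 2 G := IsPGroup.of_card hG
    have hWp : IsPGroup 2 (H ⊓ zpowers a : Subgroup G) := hPG.to_subgroup _
    obtain ⟨j, hj⟩ := IsPGroup.iff_card.1 hWp
    have hj0 : j ≠ 0 := by
      rintro rfl
      rw [pow_zero] at hj
      exact hne (eq_bot_of_card_eq _ hj)
    have h2 : 2 ∣ Nat.card (H ⊓ zpowers a : Subgroup G) := by
      rw [hj]; exact dvd_pow_self 2 hj0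
    obtain ⟨w, hw⟩ := exists_prime_orderOf_dvd_card' 2 h2
    have hwo : orderOf (w : G) = 2 := by rw [← hw]; exact (Subgroup.orderOf_coe w)
    obtain ⟨hwH, hwa⟩ := mem_inf.1 w.2
    obtain ⟨t, ht⟩ := mem_zpowers_iff.1 hwa
    have hw2 : (w : G)^2 = 1 := by rw [← hwo]; exact pow_orderOf_eq_one _
    have hw1 : (w : G) ≠ 1 := by
      intro h; rw [h, orderOf_one] at hwo; omega
    have h3 : (2 * 2^(k+1) : ℤ) ∣ 2 * t := by
      rw [← hone, mul_comm, zpow_mul, ht, zpow_ofNat]; exact hw2
    have h4 := (mul_dvd_mul_iff_left (by norm_num)).1 h3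
    have h5 := hzmem t h4
    rw [ht] at h5
    obtain ⟨s, hs⟩ := mem_zpowers_iff.1 h5
    rcases Int.even_or_odd' s with ⟨s', rfl | rfl⟩
    · exfalso; apply hw1
      rw [← hs, zpow_mul, zpow_ofNat, hz2, one_zpow]
    · rw [zpow_add, zpow_mul, zpow_ofNat, hz2, one_zpow, one_mul, zpow_one] at hs
      rw [hs]; exact hwH
  have hzle : zpowers z ≤ H := by rw [zpowers_le]; exact hzH
  intro g hg
  have hgu : u * g = g * u := (mem_centralizer_iff.1 hg) u huH
  by_cases hga : g ∈ zpowers a
  · obtain ⟨j, rfl⟩ := mem_zpowers_iff.1 hga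
    apply hzle
    apply hzmem
    apply hkey
    rw [← hconj_u, hgu, mul_inv_cancel_right]
  · have h1 : u⁻¹ * g ∈ zpowers a := by
      rw [mul_mem_iff_of_index_two hidx, inv_mem_iff]
      exact ⟨fun h' => absurd h' hua, fun h' => absurd h' hga⟩
    obtain ⟨j, hj⟩ := mem_zpowers_iff.1 h1
    have h2 : a^j ∈ H := by
      apply hzle
      apply hzmem
      apply hkey
      rw [← hconj_u, hj]
      calc u * (u⁻¹ * g) * u⁻¹ = g * u⁻¹ := by group
        _ = u⁻¹ * (u * g) * u⁻¹ := by group
        _ = u⁻¹ * (g * u) * u⁻¹ := by rw [hgu]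
        _ = u⁻¹ * g := by group
    have h3 := H.mul_mem huH h2
    rw [hj, mul_inv_cancel_left] at h3
    exact h3

/-- an involution different from a central involution gives a non-cyclic subgroup of order 4 -/
theorem klein_of {G : Type*} [Group G] [Finite G] (s z : G) (hs : orderOf s = 2) (hzo : orderOf z = 2)
    (hzc : z ∈ center G) (hsz : zpowers s ≠ zpowers z) :
    ∃ V : Subgroup G, Nat.card V = 4 ∧ ¬ IsCyclic V := by
  haveI hn : (zpowers z).Normal := ⟨fun d hd g => by
    obtain ⟨i, rfl⟩ := mem_zpowers_iff.1 hd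
    have := mem_center_iff.1 (zpow_mem hzc i) g
    rw [this, mul_inv_cancel_right]; exact hd⟩
  have hcard : Nat.card (zpowers s ⊔ zpowers z : Subgroup G) = 4 := by
    have h1 := Helper2_EA.card_sup_mul_card_inf (zpowers s) (zpowers z)
      (by rw [normalizer_eq_top]; exact le_top)
    rw [Nat.card_zpowers, Nat.card_zpowers, hs, hzo] at h1
    have h2 : Nat.card (zpowers s ⊓ zpowers z : Subgroup G) ∣ 2 := by
      have h0 : Nat.card (zpowers s ⊓ zpowers z : Subgroup G) ∣ Nat.card (zpowers s) :=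
        card_dvd_of_le inf_le_left
      rwa [Nat.card_zpowers, hs] at h0
    rcases (Nat.dvd_prime Nat.prime_two).1 h2 with h3 | h3
    · rw [h3] at h1; omega
    · exfalso
      have e1 : zpowers s ⊓ zpowers z = zpowers s :=
        eq_of_le_of_card_ge inf_le_left (by rw [h3, Nat.card_zpowers, hs])
      have e2 : zpowers s ⊓ zpowers z = zpowers z :=
        eq_of_le_of_card_ge inf_le_right (by rw [h3, Nat.card_zpowers, hzo])
      exact hsz (e1.symm.trans e2)
  refine ⟨zpowers s ⊔ zpowers z, hcard, ?_⟩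
  intro hcyc
  have h2 : ∀ v ∈ (zpowers s ⊔ zpowers z : Subgroup G), v^2 = 1 := by
    intro v hv
    obtain ⟨x, hx, y, hy, rfl⟩ := mem_sup_of_normal_right.1 hv
    obtain ⟨i, rfl⟩ := mem_zpowers_iff.1 hx
    obtain ⟨j, rfl⟩ := mem_zpowers_iff.1 hy
    have hc : Commute (s^i) (z^j) := mem_center_iff.1 (zpow_mem hzc j) (s^i)
    have hs2 : s^2 = 1 := by rw [← hs]; exact pow_orderOf_eq_one s
    have hz2 : z^2 = 1 := by rw [← hzo]; exact pow_orderOf_eq_one z
    rw [hc.mul_pow, ← zpow_natCast, ← zpow_natCast, ← zpow_mul, ← zpow_mul, mul_comm i, mul_comm j,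
      zpow_mul, zpow_mul, zpow_natCast, zpow_natCast, hs2, hz2, one_zpow, one_zpow, one_mul]
  have h3 := Helper1_Quat.card_le_two (A := (zpowers s ⊔ zpowers z : Subgroup G)) ⊤ (by
    intro c _
    exact Subtype.ext (h2 c c.2))
  rw [card_top, hcard] at h3
  omega

theorem forward {G : Type*} [Group G] [Finite G] (hna : ¬ IsMulCommutative G) (k : ℕ)
    (hG : Nat.card G = 2 ^ (k+3))
    (hyp : ∀ H : Subgroup G, ¬ IsCyclic ↥H → Subgroup.centralizer (H : Set G) ≤ H) :
    Group.nilpotencyClass G = k + 2 := by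
  have hPG : IsPGroup 2 G := IsPGroup.of_card hG
  by_cases hV : ∃ V : Subgroup G, Nat.card V = 4 ∧ ¬ IsCyclic V
  · obtain ⟨V, hV4, hVc⟩ := hV
    have hVcomm : ∀ u ∈ V, ∀ v ∈ V, u * v = v * u := by
      intro u hu v hv
      have := (IsPGroup.isMulCommutative_of_card_eq_prime_sq (p := 2) (G := V)
        (by rw [hV4]; norm_num)).is_comm.comm ⟨u, hu⟩ ⟨v, hv⟩
      exact congrArg Subtype.val this
    have hCV : centralizer (V : Set G) = V := by
      apply le_antisymm (hyp V hVc)
      intro g hg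
      rw [mem_centralizer_iff]
      intro u hu
      exact hVcomm u hu g hg
    have := helper6_MaxClass.suzuki (p := 2) (k+3) G hG V (by rw [hV4]; norm_num) hCV
    omega
  · -- unique subgroup of order 2
    haveI : Nontrivial G := by
      rw [← Finite.one_lt_card_iff_nontrivial, hG]
      exact Nat.one_lt_pow (by omega) (by norm_num)
    obtain ⟨z, hzc, hzo⟩ : ∃ z ∈ center G, orderOf z = 2 := by
      have hWp : IsPGroup 2 (center G) := hPG.to_subgroup _
      obtain ⟨j, hj⟩ := IsPGroup.iff_card.1 hWp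
      have hj0 : j ≠ 0 := by
        rintro rfl
        rw [pow_zero] at hj
        haveI := hPG.center_nontrivial
        have := Finite.one_lt_card (α := center G)
        omega
      have h2 : 2 ∣ Nat.card (center G) := by
        rw [hj]; exact dvd_pow_self 2 hj0
      obtain ⟨w, hw⟩ := exists_prime_orderOf_dvd_card' 2 h2
      exact ⟨w, w.2, by rw [← hw]; exact (Subgroup.orderOf_coe w)⟩
    have huz : ∀ H : Subgroup G, Nat.card H = 2 → H = zpowers z := by
      intro H hH
      by_contra hne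
      haveI : IsCyclic H := isCyclic_of_prime_card hH
      obtain ⟨g, hg⟩ := IsCyclic.exists_generator (α := H)
      have hHs : H = zpowers (g : G) := by
        ext y; constructor
        · intro hy
          obtain ⟨i, hi⟩ := mem_zpowers_iff.1 (hg ⟨y, hy⟩)
          exact mem_zpowers_iff.2 ⟨i, by have := congrArg Subtype.val hi; simpa using this⟩
        · intro hy
          obtain ⟨i, rfl⟩ := mem_zpowers_iff.1 hy
          exact H.zpow_mem g.2 i
      have hgo : orderOf (g : G) = 2 := by
        rw [← Nat.card_zpowers, ← hHs, hH]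
      exact hV (klein_of (g : G) z hgo hzo hzc (by rw [← hHs]; exact hne))
    rcases Cfsg.Agent.S0016.result 2 hPG (fun H K hH hK => (huz H hH).trans (huz K hK).symm) with
      hcyc | ⟨-, m, ⟨e⟩⟩
    · exact absurd IsCyclic.isMulCommutative hna
    · obtain ⟨x, y, hQ⟩ := helper6_QuatSyl.exists_qdata (⊤ : Subgroup G) (2^m) (Subgroup.topEquiv.trans e)
      have hy2 : y^2 = x^(2^m) := by rw [pow_two]; exact hQ.sq
      have hyo : orderOf y = 2^2 := by
        apply orderOf_eq_prime_pow
        · rw [pow_one, hy2]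
          intro h
          have h2 := orderOf_dvd_of_pow_eq_one h
          rw [hQ.ox] at h2
          have h3 := Nat.le_of_dvd (by positivity) h2
          have h5 : 0 < 2^m := by positivity
          omega
        · rw [show 2^(1+1) = 2 * 2 by norm_num, pow_mul, hy2, ← pow_mul, mul_comm, ← hQ.ox,
            pow_orderOf_eq_one]
      have hxk : ∀ j : ℕ, y * x^j = x^j * y → x^j ∈ zpowers y := by
        intro j hj
        have h1 : y * x^j * y⁻¹ = (x^j)⁻¹ := by rw [← conj_pow, hQ.inv, inv_pow]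
        rw [hj, mul_inv_cancel_right] at h1
        have h2 : x^(2 * j) = 1 := by
          rw [two_mul, pow_add]
          nth_rewrite 1 [h1]
          exact inv_mul_cancel _
        have h3 := orderOf_dvd_of_pow_eq_one h2
        rw [hQ.ox] at h3
        obtain ⟨t, rfl⟩ := Nat.dvd_of_mul_dvd_mul_left (by norm_num) h3
        rw [pow_mul, ← hy2]
        exact pow_mem (pow_mem (mem_zpowers y) 2) t
      have hCA : centralizer ((zpowers y : Subgroup G) : Set G) = zpowers y := by
        apply le_antisymm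
        · intro g hg
          have hgy : y * g = g * y := (mem_centralizer_iff.1 hg) y (mem_zpowers y)
          rcases hQ.cover g (mem_top g) with ⟨j, rfl⟩ | ⟨j, rfl⟩
          · exact hxk j hgy
          · apply (zpowers y).mul_mem (mem_zpowers y)
            apply hxk j
            rw [mul_assoc] at hgy
            exact mul_left_cancel hgy
        · intro g hg
          rw [mem_centralizer_iff]
          intro u hu
          obtain ⟨i, rfl⟩ := mem_zpowers_iff.1 hg
          obtain ⟨j, rfl⟩ := mem_zpowers_iff.1 hu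
          exact ((Commute.refl y).zpow_zpow j i).eq
      have := helper6_MaxClass.suzuki (p := 2) (k+3) G hG (zpowers y)
        (by rw [Nat.card_zpowers, hyo]) hCA
      omega


/-- Say that a group has self-centralizing non-cyclic subgroups when every non-cyclic subgroup H satisfies C_G(H) ≤ H. A finite non-abelian 2-group G of order 2^n has self-centralizing non-cyclic subgroups if and only if G has nilpotency class n − 1 (that is, G is dihedral, semidihedral or generalized quaternion). -/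
theorem result {G : Type*} [Group G] [Finite G] (hna : ¬ IsMulCommutative G) (n : ℕ) (hG : Nat.card G = 2 ^ n) :
    (∀ H : Subgroup G, ¬ IsCyclic ↥H → Subgroup.centralizer (H : Set G) ≤ H) ↔ (⊤ : Subgroup G).lowerCentralSeries (n - 2) ≠ ⊥ := by
  have hPG : IsPGroup 2 G := IsPGroup.of_card hG
  haveI : Group.IsNilpotent G := hPG.isNilpotent
  have hn3 : 3 ≤ n := by
    by_contra hlt
    apply hna
    have : n = 0 ∨ n = 1 ∨ n = 2 := by omega
    rcases this with rfl | rfl | rfl
    · rw [pow_zero] at hG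
      haveI := (Nat.card_eq_one_iff_unique.1 hG).1
      exact ⟨⟨fun a b => Subsingleton.elim _ _⟩⟩
    · rw [pow_one] at hG
      haveI : IsCyclic G := isCyclic_of_prime_card hG
      exact IsCyclic.isMulCommutative
    · exact IsPGroup.isMulCommutative_of_card_eq_prime_sq (p := 2) hG
  obtain ⟨k, rfl⟩ : ∃ k, n = k+3 := ⟨n-3, by omega⟩
  have hbound := Cfsg.Agent.S0063.result 2 (k+3) hG (by omega)
  have hiff : (⊤ : Subgroup G).lowerCentralSeries (k + 3 - 2) ≠ ⊥ ↔ Group.nilpotencyClass G = k + 2 := by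
    rw [Ne, Subgroup.lowerCentralSeries_eq_bot_iff_nilpotencyClass_le]
    omega
  rw [hiff]
  constructor
  · intro hyp
    exact forward hna k hG hyp
  · intro hc H hH
    exact back k hG hc H hH

end Cfsg.Agent.S3919
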