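import Cfsg.Statements.S3939
import Cfsg.Agent.Lib.Helper7_Hall
import Cfsg.Agent.Lib.Helper7_Nilp
import Cfsg.Agent.Lib.Helper7_Max
import Cfsg.Agent.Lib.Helper7_BaerSuzuki
import Cfsg.Agent.Lib.Helper4_Nilp

set_option autoImplicit false
open Cfsg

namespace Cfsg.Agent.S3939

universe u

def Nl {G : Type*} [Group G] (g : G) : Prop :=
  ∀ x : G, Group.IsNilpotent ↥(Subgroup.closure ({x, g} : Set G))

theorem nl_map {G H : Type*} [Group G] [Group H] (f : G →* H) (hf : Function.Surjective f) {g : G}
    (h : Nl g) : Nl (f g) := by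
  intro y
  obtain ⟨x, rfl⟩ := hf y
  have e : Subgroup.closure ({f x, f g} : Set H) = (Subgroup.closure ({x, g} : Set G)).map f := by
    rw [MonoidHom.map_closure, Set.image_pair]
  rw [e]
  haveI := h x
  exact Group.nilpotent_of_surjective (f.subgroupMap _) (f.subgroupMap_surjective _)

theorem nl_pow {G : Type*} [Group G] {g : G} (h : Nl g) (k : ℕ) : Nl (g ^ k) := by
  intro x
  apply Cfsg.Agent.Lib.Helper7_Hall.isNilpotent_of_le (h x)
  rw [Subgroup.closure_le]
  rintro y (rfl | rfl)
  · exact Subgroup.subset_closure (by simp)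
  · exact Subgroup.pow_mem _ (Subgroup.subset_closure (by simp)) k

theorem isPGroup_closure_pair {G : Type*} [Group G] [Finite G] {p : ℕ} [Fact p.Prime] (a b : G)
    (hn : Group.IsNilpotent ↥(Subgroup.closure ({a, b} : Set G))) (ha : orderOf a = p)
    (hb : orderOf b = p) : IsPGroup p ↥(Subgroup.closure ({a, b} : Set G)) := by
  set H := Subgroup.closure ({a, b} : Set G) with hH
  obtain ⟨P⟩ : Nonempty (Sylow p H) := inferInstance
  have hPn : (P : Subgroup H).Normal := inferInstance
  have haH : a ∈ H := Subgroup.subset_closure (by simp)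
  have hbH : b ∈ H := Subgroup.subset_closure (by simp)
  have h1 : (⟨a, haH⟩ : H) ∈ (P : Subgroup H) :=
    Cfsg.Agent.Lib.Helper7_Nilp.mem_sylow_of_orderOf_of_normal P hPn (a := 1) (by
      rw [← Subgroup.orderOf_coe, pow_one]; exact ha)
  have h2 : (⟨b, hbH⟩ : H) ∈ (P : Subgroup H) :=
    Cfsg.Agent.Lib.Helper7_Nilp.mem_sylow_of_orderOf_of_normal P hPn (a := 1) (by
      rw [← Subgroup.orderOf_coe, pow_one]; exact hb)
  have h3 : H ≤ (P : Subgroup H).map H.subtype := (Subgroup.closure_le _).2 (by
    rintro y (rfl | rfl)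
    · exact ⟨_, h1, rfl⟩
    · exact ⟨_, h2, rfl⟩)
  exact (P.2.map H.subtype).to_le h3

theorem center_ne_bot_of_nl {G : Type*} [Group G] [Finite G] {g : G} (hg : Nl g) (hg1 : g ≠ 1) :
    Subgroup.center G ≠ ⊥ := by
  have ho : orderOf g ≠ 1 := fun h => hg1 (orderOf_eq_one_iff.1 h)
  obtain ⟨p, hp, hpd⟩ := Nat.exists_prime_and_dvd ho
  haveI : Fact p.Prime := ⟨hp⟩
  set c := g ^ (orderOf g / p) with hc
  have hco : orderOf c = p := orderOf_pow_orderOf_div (orderOf_pos g).ne' hpd
  have hcN : Nl c := nl_pow hg _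
  have hconjN : ∀ y : G, Nl (y * c * y⁻¹) := fun y =>
    nl_map (MulAut.conj y).toMonoidHom (MulAut.conj y).surjective hcN
  have hconjo : ∀ y : G, orderOf (y * c * y⁻¹) = p := fun y => by
    rw [← hco]
    exact (MulAut.conj y).orderOf_eq c
  let K : Set G := {z | ∃ y : G, z = y * c * y⁻¹}
  obtain ⟨hKn, hKp⟩ := Cfsg.Agent.Lib.Helper7_BaerSuzuki.baer_suzuki_set (p := p) K (by
      rintro u _ ⟨y, rfl⟩
      exact ⟨u * y, by group⟩) (by
      rintro _ ⟨u, rfl⟩ _ ⟨v, rfl⟩
      exact isPGroup_closure_pair _ _ (hconjN v _) (hconjo u) (hconjo v))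
  set N := Subgroup.closure K with hN
  have hcK : c ∈ N := Subgroup.subset_closure ⟨1, by group⟩
  have hNne : N ≠ ⊥ := by
    intro h
    rw [h, Subgroup.mem_bot] at hcK
    rw [hcK, orderOf_one] at hco
    exact hp.one_lt.ne hco
  -- p'-elements centralize N
  have hcent : ∀ x : G, (orderOf x).Coprime p → ∀ z ∈ N, Commute x z := by
    intro x hx
    have : N ≤ Subgroup.centralizer ({x} : Set G) := by
      rw [hN, Subgroup.closure_le]
      rintro _ ⟨y, rfl⟩
      rw [SetLike.mem_coe, Cfsg.Agent.Lib.Helper7_Nilp.mem_centralizer_singleton_iff]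
      exact Cfsg.Agent.Lib.Helper7_Max.commute_of_mem_nilpotent _ (hconjN y x)
        (Subgroup.subset_closure (by simp)) (Subgroup.subset_closure (by simp))
        (by rw [hconjo]; exact hx)
    intro z hz
    exact Cfsg.Agent.Lib.Helper7_Nilp.mem_centralizer_singleton_iff.1 (this hz)
  obtain ⟨P, hNP⟩ := hKp.exists_le_sylow
  haveI : Group.IsNilpotent (P : Subgroup G) := P.2.isNilpotent
  haveI : (N.subgroupOf P).Normal := hKn.subgroupOf _
  have hne' : N.subgroupOf P ≠ ⊥ := by
    intro h
    rw [Subgroup.subgroupOf_eq_bot, disjoint_iff, inf_eq_left.2 hNP] at h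
    exact hNne h
  have h6 := Cfsg.Agent.Lib.Helper4_Nilp.normal_inf_center_ne_bot _ hne'
  obtain ⟨z, hz1⟩ := Subgroup.ne_bot_iff_exists_ne_one.1 h6
  obtain ⟨hzN, hzc⟩ := z.2
  have hzN' : (z.1.1 : G) ∈ N := Subgroup.mem_subgroupOf.1 hzN
  have hidx : (Subgroup.centralizer ({(z.1.1 : G)} : Set G)).index = 1 := by
    rw [Nat.eq_one_iff_not_exists_prime_dvd]
    intro q hq hqd
    haveI : Fact q.Prime := ⟨hq⟩
    by_cases hqp : q = p
    · subst hqp
      have hle : (P : Subgroup G) ≤ Subgroup.centralizer ({(z.1.1 : G)} : Set G) := by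
        intro s hs
        rw [Subgroup.mem_centralizer_singleton_iff]
        exact congrArg Subtype.val (Subgroup.mem_center_iff.1 hzc ⟨s, hs⟩)
      exact P.not_dvd_index (hqd.trans (Subgroup.index_dvd_of_le hle))
    · obtain ⟨Q⟩ : Nonempty (Sylow q G) := inferInstance
      have hle : (Q : Subgroup G) ≤ Subgroup.centralizer ({(z.1.1 : G)} : Set G) := by
        intro s hs
        rw [Subgroup.mem_centralizer_singleton_iff]
        obtain ⟨k, hk⟩ := IsPGroup.iff_orderOf.1 Q.2 ⟨s, hs⟩
        rw [Subgroup.orderOf_mk] at hk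
        exact hcent s (by rw [hk]; exact Nat.Coprime.pow_left k ((Nat.coprime_primes hq hp).2 hqp))
          _ hzN'
      exact Q.not_dvd_index (hqd.trans (Subgroup.index_dvd_of_le hle))
  rw [Subgroup.index_eq_one] at hidx
  intro hbot
  apply hz1
  apply Subtype.ext
  apply Subtype.ext
  show (z.1.1 : G) = 1
  rw [← Subgroup.mem_bot, ← hbot, Subgroup.mem_center_iff]
  intro y
  have : y ∈ Subgroup.centralizer ({(z.1.1 : G)} : Set G) := hidx ▸ Subgroup.mem_top y
  exact Subgroup.mem_centralizer_singleton_iff.1 this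

theorem nl_mem_aux : ∀ (n : ℕ) (G : Type u) [Group G] [Finite G], Nat.card G ≤ n → ∀ g : G, Nl g →
    ∃ k, g ∈ Subgroup.upperCentralSeries G k := by
  intro n
  induction n with
  | zero =>
    intro G _ _ h
    have : 0 < Nat.card G := Nat.card_pos
    omega
  | succ n ih =>
    intro G _ _ hcard g hg
    by_cases hg1 : g = 1
    · exact ⟨0, hg1 ▸ one_mem _⟩
    · have hZ := center_ne_bot_of_nl hg hg1
      have h1 := Subgroup.card_eq_card_quotient_mul_card_subgroup (Subgroup.center G)
      have h2 : 1 < Nat.card (Subgroup.center G) := (Subgroup.one_lt_card_iff_ne_bot _).2 hZ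
      have h3 : 0 < Nat.card (G ⧸ Subgroup.center G) := Nat.card_pos
      have h4 : Nat.card (G ⧸ Subgroup.center G) ≤ n := by nlinarith
      obtain ⟨k, hk⟩ := ih (G ⧸ Subgroup.center G) h4 _
        (nl_map (QuotientGroup.mk' (Subgroup.center G)) (QuotientGroup.mk'_surjective _) hg)
      refine ⟨k + 1, ?_⟩
      rw [← Subgroup.comap_upperCentralSeries_quotient_center]
      exact hk

theorem nl_of_mem : ∀ (n : ℕ) (G : Type u) [Group G] (g : G),
    g ∈ Subgroup.upperCentralSeries G n → Nl g := by
  intro n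
  induction n with
  | zero =>
    intro G _ g hg x
    rw [Subgroup.upperCentralSeries_zero, Subgroup.mem_bot] at hg
    subst hg
    have h1 : Group.IsNilpotent (Subgroup.zpowers x) :=
      @CommGroup.isNilpotent _ IsCyclic.commGroup
    apply Cfsg.Agent.Lib.Helper7_Hall.isNilpotent_of_le h1
    rw [Subgroup.closure_le]
    rintro y (rfl | rfl)
    · exact Subgroup.mem_zpowers _
    · exact one_mem _
  | succ n ih =>
    intro G _ g hg x
    rw [← Subgroup.comap_upperCentralSeries_quotient_center] at hg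
    have h1 := ih (G ⧸ Subgroup.center G) _ hg (QuotientGroup.mk' (Subgroup.center G) x)
    set H := Subgroup.closure ({x, g} : Set G) with hH
    let f : H →* G ⧸ Subgroup.center G := (QuotientGroup.mk' (Subgroup.center G)).comp H.subtype
    have e : f.range = Subgroup.closure ({QuotientGroup.mk' (Subgroup.center G) x,
        QuotientGroup.mk' (Subgroup.center G) g} : Set (G ⧸ Subgroup.center G)) := by
      rw [MonoidHom.range_comp, Subgroup.range_subtype, hH, MonoidHom.map_closure, Set.image_pair]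
    have : Group.IsNilpotent f.range := e ▸ h1
    apply Subgroup.isNilpotent_of_ker_le_center f.rangeRestrict
    rw [MonoidHom.ker_rangeRestrict]
    intro y hy
    have h2 : (y : G) ∈ Subgroup.center G := (QuotientGroup.eq_one_iff _).1 hy
    rw [Subgroup.mem_center_iff] at h2 ⊢
    intro w
    exact Subtype.ext (h2 w)

/-- In a finite group G the set of elements g such that the subgroup generated by g and x is nilpotent for every x ∈ G is exactly the hypercenter of G (the last term of the upper central series). -/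
theorem result {G : Type*} [Group G] [Finite G] (g : G) :
    (∀ x : G, Group.IsNilpotent ↥(Subgroup.closure ({x, g} : Set G))) ↔ g ∈ ⨆ n : ℕ, Subgroup.upperCentralSeries G n := by
  constructor
  · intro h
    obtain ⟨k, hk⟩ := nl_mem_aux _ G le_rfl g h
    exact (le_iSup (fun n => Subgroup.upperCentralSeries G n) k) hk
  · intro h
    rw [Subgroup.mem_iSup_of_directed (Subgroup.upperCentralSeries_mono G).directed_le] at h
    obtain ⟨n, hn⟩ := h
    exact nl_of_mem n G g hn

end Cfsg.Agent.S3939
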