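import Cfsg.Statements.S3949

set_option autoImplicit false
open Cfsg

namespace Cfsg.Agent.S3949



/-- Let G be a finite group and α an automorphism of G of order 2 such that the elements g·α(g)⁻¹ generate G. Let j be a positive integer such that 2^j divides the order of no element inverted by α. Then the set of values of the j-th iterate of the map c ↦ c·α(c)⁻¹ is exactly the set of elements of odd order inverted by α. -/
theorem result {G : Type*} [Group G] [Finite G] (α : MulAut G) (hα : orderOf α = 2) (hG : Subgroup.closure (Set.range (fun c : G => c * (α c)⁻¹)) = ⊤)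
    (j : ℕ) (hj : ∀ g : G, α g = g⁻¹ → ¬ 2 ^ j ∣ orderOf g) :
    Set.range ((fun c : G => c * (α c)⁻¹)^[j]) = {g : G | Odd (orderOf g) ∧ α g = g⁻¹} := by
  set f : G → G := fun c => c * (α c)⁻¹ with hf
  have hα2 : ∀ g : G, α (α g) = g := by
    intro g
    have : α ^ 2 = 1 := hα ▸ pow_orderOf_eq_one α
    have h2 := congrArg (fun β : MulAut G => β g) this
    simpa [pow_two] using h2
  have hfinv : ∀ c : G, α (f c) = (f c)⁻¹ := by
    intro c
    show α (c * (α c)⁻¹) = (c * (α c)⁻¹)⁻¹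
    rw [map_mul, map_inv, hα2, mul_inv_rev, inv_inv]
  have hfsq : ∀ g : G, α g = g⁻¹ → f g = g ^ 2 := by
    intro g hg
    show g * (α g)⁻¹ = g ^ 2
    rw [hg, inv_inv, pow_two]
  have hpowinv : ∀ (g : G) (n : ℕ), α g = g⁻¹ → α (g ^ n) = (g ^ n)⁻¹ := by
    intro g n hg
    rw [map_pow, hg, inv_pow]
  have hiter : ∀ (n : ℕ) (g : G), α g = g⁻¹ → f^[n] g = g ^ 2 ^ n := by
    intro n
    induction n with
    | zero => intro g _; simp
    | succ n ih =>
      intro g hg
      rw [Function.iterate_succ_apply, hfsq g hg, ih _ (hpowinv g 2 hg), ← pow_mul, pow_succ']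
  have hj0 : j ≠ 0 := by
    rintro rfl
    exact hj 1 (by simp) (by simp)
  obtain ⟨k, rfl⟩ := Nat.exists_eq_succ_of_ne_zero hj0
  ext g
  constructor
  · rintro ⟨c, rfl⟩
    show Odd (orderOf (f^[k + 1] c)) ∧ α (f^[k + 1] c) = (f^[k + 1] c)⁻¹
    rw [Function.iterate_succ_apply, hiter k _ (hfinv c)]
    refine ⟨?_, hpowinv _ _ (hfinv c)⟩
    obtain ⟨a, b, hbodd, hab⟩ := Nat.exists_eq_two_pow_mul_odd (orderOf_pos (f c)).ne'
    have hak : a ≤ k := by
      by_contra hlt
      push Not at hlt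
      apply hj (f c) (hfinv c)
      rw [hab]
      exact Dvd.dvd.mul_right (pow_dvd_pow 2 hlt) b
    have hdvd : orderOf ((f c) ^ 2 ^ k) ∣ b := by
      apply orderOf_dvd_of_pow_eq_one
      rw [← pow_mul]
      apply orderOf_dvd_iff_pow_eq_one.1
      rw [hab]
      exact Nat.mul_dvd_mul_right (pow_dvd_pow 2 hak) b
    exact Odd.of_dvd_nat hbodd hdvd
  · rintro ⟨hodd, hinv⟩
    obtain ⟨m, hm⟩ := exists_pow_eq_self_of_coprime (n := 2 ^ (k + 1)) (x := g)
      (Nat.Coprime.pow_left _ (Nat.coprime_two_left.2 hodd))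
    refine ⟨g ^ m, ?_⟩
    show f^[k + 1] (g ^ m) = g
    rw [hiter _ _ (hpowinv g m hinv), ← pow_mul, mul_comm, pow_mul, hm]

end Cfsg.Agent.S3949
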