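import Cfsg.Statements.S3982
import Cfsg.Agent.Lib.Helper4_Syl
import Cfsg.Agent.Lib.Helper4_PSol

set_option autoImplicit false
open Cfsg

namespace Cfsg.Agent.S3982

open Cfsg.Agent.Lib.Helper4_Syl Cfsg.Agent.Lib.Helper4_PSol
open scoped Pointwise

/-- Let p be an odd prime and G a finite group of even order divisible by p in which the centralizer of every non-identity p-element has odd order. If some nontrivial p-subgroup of G has a normalizer of even order, then the normalizer of every Sylow p-subgroup of G has even order. -/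
theorem result {G : Type*} [Group G] [Finite G] (p : ℕ) [Fact p.Prime] (hp2 : p ≠ 2) (hpG : p ∣ Nat.card G) (h2G : 2 ∣ Nat.card G) (hC : ∀ g : G, g ≠ 1 → (∃ k : ℕ, orderOf g = p ^ k) → Odd (Nat.card ↥(Subgroup.centralizer ({g} : Set G)))) (Q : Subgroup G) (hQ : IsPGroup p ↥Q) (hQ1 : Q ≠ ⊥) (hev : Even (Nat.card ↥(Subgroup.normalizer (Q : Set G)))) (P : Sylow p G) : Even (Nat.card ↥(Subgroup.normalizer ((P : Subgroup G) : Set G))) := by
  have hodd2 : ∀ (g y : G), g ≠ 1 → (∃ k : ℕ, orderOf g = p ^ k) → orderOf y = 2 →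
      y ∉ Subgroup.centralizer ({g} : Set G) := by
    intro g y hg hgk hy hmem
    have h1 := dvd_card_of_mem_orderOf hmem hy
    have h2 := hC g hg hgk
    exact (Nat.not_even_iff_odd.2 h2) (even_iff_two_dvd.2 h1)
  have hM : ∀ (R R₁ : Subgroup G) (z : G), IsPGroup p R →
      Even (Nat.card ↥(Subgroup.normalizer (R : Set G))) → z ∈ R → z ≠ 1 →
      IsSylIn p R₁ (Subgroup.centralizer ({z} : Set G)) →
      Even (Nat.card ↥(Subgroup.normalizer (R₁ : Set G))) := by
    intro R R₁ z hR hev hz hz1 hR₁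
    obtain ⟨⟨y, hyN⟩, hy⟩ := exists_prime_orderOf_dvd_card' 2 (even_iff_two_dvd.1 hev)
    rw [Subgroup.orderOf_mk] at hy
    have hyy : y * y = 1 := by rw [← pow_two, ← hy, pow_orderOf_eq_one]
    have hyi : y⁻¹ = y := inv_eq_of_mul_eq_one_left hyy
    have hpk : ∀ r ∈ R, ∃ k : ℕ, orderOf r = p ^ k := by
      intro r hr
      obtain ⟨k, hk⟩ := (IsPGroup.iff_orderOf.1 hR) ⟨r, hr⟩
      exact ⟨k, by rwa [Subgroup.orderOf_mk] at hk⟩
    have hfix : ∀ r ∈ R, y * r * y⁻¹ = r → r = 1 := by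
      intro r hr h
      by_contra hr1
      apply hodd2 r y hr1 (hpk r hr) hy
      rw [Subgroup.mem_centralizer_singleton_iff]
      rw [mul_inv_eq_iff_eq_mul] at h
      exact h
    let ψ : R → R := fun r => ⟨(r : G)⁻¹ * (y * r * y⁻¹),
      R.mul_mem (R.inv_mem r.2) (conj_mem_of_mem_normalizer hyN r.2)⟩
    have hinj : Function.Injective ψ := by
      intro r t h
      have h1 : (r : G)⁻¹ * (y * r * y⁻¹) = (t : G)⁻¹ * (y * t * y⁻¹) := congrArg Subtype.val h
      have h2 : y * ((t : G) * (r : G)⁻¹) * y⁻¹ = (t : G) * (r : G)⁻¹ := by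
        calc y * ((t : G) * (r : G)⁻¹) * y⁻¹
            = (t : G) * ((t : G)⁻¹ * (y * t * y⁻¹)) * (y * r * y⁻¹)⁻¹ := by group
          _ = (t : G) * ((r : G)⁻¹ * (y * r * y⁻¹)) * (y * r * y⁻¹)⁻¹ := by rw [h1]
          _ = (t : G) * (r : G)⁻¹ := by group
      have h3 := hfix _ (R.mul_mem t.2 (R.inv_mem r.2)) h2
      apply Subtype.ext
      exact (mul_inv_eq_one.1 h3).symm
    obtain ⟨r, hr⟩ := Finite.surjective_of_injective hinj ⟨z, hz⟩
    have hr' : (r : G)⁻¹ * (y * r * y⁻¹) = z := congrArg Subtype.val hr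
    have hinv : y * z * y⁻¹ = z⁻¹ := by
      rw [← hr', hyi]
      calc y * ((r : G)⁻¹ * (y * r * y)) * y = y * (r : G)⁻¹ * (y * (r : G) * (y * y)) := by group
        _ = y * (r : G)⁻¹ * y * (r : G) := by rw [hyy]; group
        _ = ((r : G)⁻¹ * (y * r * y))⁻¹ := by
          rw [mul_inv_rev, mul_inv_rev, mul_inv_rev, hyi, inv_inv]; group
    have hCinv : Subgroup.centralizer ({z⁻¹} : Set G) = Subgroup.centralizer ({z} : Set G) := by
      ext c
      rw [Subgroup.mem_centralizer_singleton_iff, Subgroup.mem_centralizer_singleton_iff]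
      constructor
      · intro h
        have : Commute c z⁻¹ := h
        exact (Commute.inv_right_iff.1 this).eq
      · intro h
        have : Commute c z := h
        exact this.inv_right.eq
    have hyC : MulAut.conj y • Subgroup.centralizer ({z} : Set G) =
        Subgroup.centralizer ({z} : Set G) := by
      rw [← centralizer_conj_singleton, hinv, hCinv]
    obtain ⟨n, hn, hw⟩ := frattini hR₁ y hyC
    set w := n⁻¹ * y with hwdef
    have hw2 : w ^ 2 ∈ Subgroup.centralizer ({z} : Set G) := by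
      have h1 : y * n⁻¹ * y⁻¹ ∈ Subgroup.centralizer ({z} : Set G) := by
        have := conj_mem_conj_smul (g := y) (Subgroup.inv_mem _ hn)
        rwa [hyC] at this
      have h2 : w ^ 2 = n⁻¹ * (y * n⁻¹ * y⁻¹) * (y * y) := by rw [pow_two, hwdef]; group
      rw [h2, hyy, mul_one]
      exact Subgroup.mul_mem _ (Subgroup.inv_mem _ hn) h1
    have h2w : 2 ∣ orderOf w := by
      by_contra hnd
      have hcop : Nat.Coprime 2 (orderOf w) := (Nat.Prime.coprime_iff_not_dvd Nat.prime_two).2 hnd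
      have hwC : w ∈ Subgroup.centralizer ({z} : Set G) :=
        mem_of_pow_mem_coprime hw2 (by rw [pow_orderOf_eq_one]; exact Subgroup.one_mem _) hcop
      apply hodd2 z y hz1 (hpk z hz) hy
      have : y = n * w := by rw [hwdef]; group
      rw [this]
      exact Subgroup.mul_mem _ hn hwC
    have h3 := orderOf_dvd_natCard (⟨w, hw⟩ : Subgroup.normalizer (R₁ : Set G))
    rw [Subgroup.orderOf_mk] at h3
    exact even_iff_two_dvd.2 (h2w.trans h3)
  obtain ⟨S, hQS⟩ := hQ.exists_le_sylow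
  obtain ⟨g, hgQ, hgo⟩ := exists_orderOf_eq_of_ne_bot hQ hQ1
  have hpp : p.Prime := Fact.out
  have hg1 : g ≠ 1 := by
    rintro rfl
    rw [orderOf_one] at hgo
    exact hpp.one_lt.ne hgo
  have hS1 : (S : Subgroup G) ≠ ⊥ := by
    intro h
    apply hQ1
    rw [eq_bot_iff, ← h]; exact hQS
  obtain ⟨z', hz'S, hz'o, hz'c⟩ := exists_central_orderOf_eq S.2 hS1
  have hz'1 : z' ≠ 1 := by
    rintro rfl
    rw [orderOf_one] at hz'o
    exact hpp.one_lt.ne hz'o
  have hz'g : Subgroup.zpowers z' ≤ Subgroup.centralizer ({g} : Set G) := by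
    rw [Subgroup.zpowers_le, Subgroup.mem_centralizer_singleton_iff]
    exact (hz'c g (hQS hgQ)).symm
  obtain ⟨R₁, hR₁, hzR₁⟩ := exists_isSylIn_ge hz'g (isPGroup_zpowers hz'o)
  have hE1 := hM Q R₁ g hQ hev hgQ hg1 hR₁
  have hSz : (S : Subgroup G) ≤ Subgroup.centralizer ({z'} : Set G) := by
    intro s hs
    rw [Subgroup.mem_centralizer_singleton_iff]
    exact hz'c s hs
  have hE2 := hM R₁ S z' hR₁.isPGroup hE1 (hzR₁ (Subgroup.mem_zpowers z')) hz'1
    ((IsSylIn.of_sylow_top S).mono hSz le_top)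
  obtain ⟨a, -, ha⟩ := (IsSylIn.of_sylow_top S).conj (IsSylIn.of_sylow_top P)
  rw [← ha, normalizer_conj, card_conj_smul]
  exact hE2

end Cfsg.Agent.S3982
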