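import Cfsg.Statements.S3983

import Mathlib
import Cfsg.Agent.Lib.Helper7_TI
set_option autoImplicit false
open scoped Pointwise
open Cfsg

namespace Cfsg.Agent.S3983

open Cfsg.Agent.Lib.Helper7_Conj Cfsg.Agent.Lib.Helper7_TI
open scoped Pointwise

/-- Let P be a Sylow p-subgroup of the finite group G that meets each conjugate g P g⁻¹ with g outside N_G(P) trivially, and let U be a subgroup of G of order divisible by p. Then a Sylow p-subgroup Q of U has the same property inside U: Q meets each conjugate u Q u⁻¹ with u ∈ U outside N_U(Q) trivially. -/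
theorem result {G : Type*} [Group G] [Finite G] (p : ℕ) [Fact p.Prime] (P : Sylow p G) (hTI : ∀ g : G, g ∉ Subgroup.normalizer ((P : Subgroup G) : Set G) → (P : Subgroup G) ⊓ (MulAut.conj g • (P : Subgroup G)) = ⊥) (U : Subgroup G) (hU : p ∣ Nat.card ↥U) (Q : Sylow p ↥U) : ∀ u : ↥U, u ∉ Subgroup.normalizer ((Q : Subgroup ↥U) : Set ↥U) → (Q : Subgroup ↥U) ⊓ (MulAut.conj u • (Q : Subgroup ↥U)) = ⊥ := by
  intro u hu
  have hQp : IsPGroup p ((Q : Subgroup U).map U.subtype) := Q.isPGroup'.map _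
  obtain ⟨P1, hP1⟩ := hQp.exists_le_sylow
  have hQmem : ∀ y : U, y ∈ (Q : Subgroup U) → y.1 ∈ P1 := fun y hy => hP1 ⟨y, hy, rfl⟩
  have hQeq : (Q : Subgroup U) = (P1 : Subgroup G).subgroupOf U := by
    have h1 : IsPGroup p ((P1 : Subgroup G).subgroupOf U) := P1.isPGroup'.comap_subtype
    have h2 : (Q : Subgroup U) ≤ (P1 : Subgroup G).subgroupOf U :=
      fun y hy => Subgroup.mem_subgroupOf.2 (hQmem y hy)
    exact (Q.is_maximal' h1 h2).symm
  by_cases hP : u.1 • P1 = P1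
  · exfalso
    apply hu
    rw [sylow_smul_eq_iff_mem_normalizer'] at hP
    rw [hQeq, Subgroup.mem_normalizer_iff]
    intro y
    exact (Subgroup.mem_normalizer_iff.1 hP) y.1
  · have hbot := ti_pairwise P hTI P1 (u.1 • P1) (Ne.symm hP)
    rw [eq_bot_iff]
    intro y hy
    obtain ⟨hy1, hy2⟩ := Subgroup.mem_inf.1 hy
    rw [mem_smul_conj] at hy2
    have h1 : y.1 ∈ (P1 : Subgroup G) ⊓ ((u.1 • P1 : Sylow p G) : Subgroup G) :=
      Subgroup.mem_inf.2 ⟨hQmem y hy1, (mem_sylow_smul u.1 y.1 P1).2 (hQmem _ hy2)⟩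
    rw [hbot, Subgroup.mem_bot] at h1
    rw [Subgroup.mem_bot]
    exact Subtype.ext h1

end Cfsg.Agent.S3983
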