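import Cfsg.Statements.S3984

import Mathlib
import Cfsg.Agent.Lib.Helper1_Coprime
import Cfsg.Agent.Lib.Helper1_Basic
import Cfsg.Agent.Lib.Helper7_TI
set_option autoImplicit false
open scoped Pointwise
open Cfsg

namespace Cfsg.Agent.S3984

open Cfsg.Agent.Lib.Helper7_Conj Cfsg.Agent.Lib.Helper7_TI
open scoped Pointwise

/-- Let P be a Sylow p-subgroup of the finite group G that meets each conjugate g P g⁻¹ with g outside N_G(P) trivially, and let N be a normal subgroup of G of order prime to p. Then every Sylow p-subgroup Q of G ⧸ N meets each conjugate x Q x⁻¹ with x outside its normalizer trivially. -/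
theorem result {G : Type*} [Group G] [Finite G] (p : ℕ) [Fact p.Prime] (P : Sylow p G) (hTI : ∀ g : G, g ∉ Subgroup.normalizer ((P : Subgroup G) : Set G) → (P : Subgroup G) ⊓ (MulAut.conj g • (P : Subgroup G)) = ⊥) (N : Subgroup G) [N.Normal] (hN : (Nat.card ↥N).Coprime p) (Q : Sylow p (G ⧸ N)) : ∀ x : G ⧸ N, x ∉ Subgroup.normalizer ((Q : Subgroup (G ⧸ N)) : Set (G ⧸ N)) → (Q : Subgroup (G ⧸ N)) ⊓ (MulAut.conj x • (Q : Subgroup (G ⧸ N))) = ⊥ := by
  have hp : p.Prime := Fact.out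
  apply ti_of_pairwise Q
  intro Q2 hne
  obtain ⟨P1, rfl⟩ := Sylow.mapSurjective_surjective (QuotientGroup.mk'_surjective N) p Q
  obtain ⟨P2, rfl⟩ := Sylow.mapSurjective_surjective (QuotientGroup.mk'_surjective N) p Q2
  rw [eq_bot_iff]
  intro y hy
  rw [Subgroup.mem_bot]
  by_contra hy1
  obtain ⟨hyA, hyB⟩ := Subgroup.mem_inf.1 hy
  rw [Sylow.coe_mapSurjective] at hyA hyB
  obtain ⟨a, ha, rfl⟩ := hyA
  obtain ⟨b, hb, hab⟩ := hyB
  have hord : ∀ (u v : G) (i : ℕ), orderOf u = p ^ i →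
      QuotientGroup.mk' N u = QuotientGroup.mk' N v → orderOf u ∣ orderOf v := by
    intro u v i hu huv
    apply orderOf_dvd_of_pow_eq_one
    have h1 : u ^ orderOf v ∈ N := by
      rw [← QuotientGroup.eq_one_iff]
      have : QuotientGroup.mk' N (u ^ orderOf v) = 1 := by
        rw [map_pow, huv, ← map_pow, pow_orderOf_eq_one, map_one]
      exact this
    have h2 : orderOf (u ^ orderOf v) ∣ p ^ i := hu ▸ orderOf_pow_dvd _
    have h3 : orderOf (u ^ orderOf v) ∣ Nat.card N := by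
      have := orderOf_dvd_natCard (⟨_, h1⟩ : N)
      rwa [Subgroup.orderOf_mk] at this
    have h4 : orderOf (u ^ orderOf v) = 1 :=
      Nat.eq_one_of_dvd_coprimes (Nat.Coprime.pow_left i hN.symm) h2 h3
    exact orderOf_eq_one_iff.1 h4
  obtain ⟨i, hi⟩ := (IsPGroup.iff_orderOf.1 P1.isPGroup') ⟨a, ha⟩
  obtain ⟨j, hj⟩ := (IsPGroup.iff_orderOf.1 P2.isPGroup') ⟨b, hb⟩
  rw [Subgroup.orderOf_mk] at hi hj
  have hoab : orderOf b = orderOf a :=
    Nat.dvd_antisymm (hord b a j hj hab) (hord a b i hi hab.symm)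
  have hcop : (Nat.card (Subgroup.zpowers a)).Coprime (Nat.card N) := by
    rw [Nat.card_zpowers, hi]; exact Nat.Coprime.pow_left i hN.symm
  have hB : Subgroup.zpowers b ≤ Subgroup.zpowers a ⊔ N := by
    rw [Subgroup.zpowers_le]
    have h1 : a⁻¹ * b ∈ N := QuotientGroup.eq.1 hab.symm
    have h2 : b = a * (a⁻¹ * b) := by group
    rw [h2]
    exact Subgroup.mul_mem_sup (Subgroup.mem_zpowers a) h1
  obtain ⟨d, hd, hdP⟩ := Cfsg.Agent.Lib.Helper1_Coprime.conj_of_le_sup (A := Subgroup.zpowers a)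
    (D := N) (B := Subgroup.zpowers b)
    (by rw [Subgroup.normalizer_eq_top_iff.2 inferInstance]; exact le_top) hcop
    (Or.inl inferInstance) hB (by rw [Nat.card_zpowers, Nat.card_zpowers, hoab])
  have h1 : d * a * d⁻¹ ∈ (P2 : Subgroup G) := by
    have h2 : d * a * d⁻¹ ∈ MulAut.conj d • Subgroup.zpowers a := by
      rw [mem_smul_conj]
      have : d⁻¹ * (d * a * d⁻¹) * d = a := by group
      rw [this]; exact Subgroup.mem_zpowers a
    rw [hdP] at h2
    exact (Subgroup.zpowers_le.2 hb) h2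
  have h2 : d * a * d⁻¹ ∈ ((d • P1 : Sylow p G) : Subgroup G) := by
    apply (mem_sylow_smul d _ P1).2
    have : d⁻¹ * (d * a * d⁻¹) * d = a := by group
    rw [this]; exact ha
  by_cases hPP : d • P1 = P2
  · apply hne
    apply Sylow.ext
    rw [Sylow.coe_mapSurjective, Sylow.coe_mapSurjective, ← hPP, Sylow.coe_subgroup_smul,
      Cfsg.Agent.Lib.Helper1_Basic.map_conj_smul]
    have hd1 : QuotientGroup.mk' N d = 1 := (QuotientGroup.eq_one_iff d).2 hd
    rw [hd1, map_one, one_smul]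
  · have h3 := ti_pairwise P hTI (d • P1) P2 hPP
    have h4 : d * a * d⁻¹ ∈ ((d • P1 : Sylow p G) : Subgroup G) ⊓ (P2 : Subgroup G) :=
      Subgroup.mem_inf.2 ⟨h2, h1⟩
    rw [h3, Subgroup.mem_bot] at h4
    apply hy1
    have h5 : a = d⁻¹ * (d * a * d⁻¹) * d := by group
    rw [h5, h4]
    simp

end Cfsg.Agent.S3984
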