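import Cfsg.Statements.S3985
import Cfsg.Agent.Lib.Helper4_Syl
import Cfsg.Agent.Lib.Helper4_PSol
import Cfsg.Agent.Lib.Helper4_Iso

set_option autoImplicit false
open Cfsg

namespace Cfsg.Agent.S3985

open Cfsg.Agent.Lib.Helper4_Syl Cfsg.Agent.Lib.Helper4_PSol Cfsg.Agent.Lib.Helper4_Iso
open scoped Pointwise

theorem mem_centralizer_of_cyclic {G : Type*} [Group G] {p : ℕ} [Finite G] [hpp : Fact p.Prime] (P : Sylow p G)
    (hcyc : IsCyclic (P : Subgroup G)) {x : G} (hxP' : x ∈ (P : Subgroup G)) (hx : orderOf x = p)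
    {g : G} (hg : g ∈ Subgroup.normalizer ((P : Subgroup G) : Set G)) (hgx : g * x * g⁻¹ = x) :
    g ∈ Subgroup.centralizer ((P : Subgroup G) : Set G) := by
  obtain ⟨⟨y, hyP⟩, hy⟩ := hcyc.exists_generator
  have hgen : ∀ w ∈ (P : Subgroup G), ∃ e : ℕ, w = y ^ e := by
    intro w hw
    have := hy ⟨w, hw⟩
    rw [← mem_powers_iff_mem_zpowers] at this
    obtain ⟨e, he⟩ := this
    exact ⟨e, by simpa using (congrArg Subtype.val he).symm⟩
  have hab : ∀ a ∈ (P : Subgroup G), ∀ b ∈ (P : Subgroup G), a * b = b * a := by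
    intro a ha b hb
    obtain ⟨e, rfl⟩ := hgen a ha
    obtain ⟨f, rfl⟩ := hgen b hb
    rw [← pow_add, ← pow_add, add_comm]
  obtain ⟨n, hn⟩ := P.2 ⟨y, hyP⟩
  have hn' : y ^ p ^ n = 1 := by simpa using congrArg Subtype.val hn
  have hPC : (P : Subgroup G) ≤ Subgroup.centralizer ((P : Subgroup G) : Set G) := by
    intro a ha
    rw [Subgroup.mem_centralizer_iff]
    intro b hb
    exact hab b hb a ha
  obtain ⟨u, hu⟩ := hgen _ ((Subgroup.mem_normalizer_iff.1 hg y).1 hyP)
  obtain ⟨e, he⟩ := hgen x hxP'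
  have hxu : x ^ u = x ^ 1 := by
    rw [pow_one]
    conv_rhs => rw [← hgx]
    rw [he, ← conj_pow, hu, ← pow_mul, ← pow_mul, mul_comm]
  rw [pow_eq_pow_iff_modEq, hx] at hxu
  have h1 : ((p : ℕ) : ℤ) ∣ (u : ℤ) - 1 := by
    have := (Nat.modEq_iff_dvd.1 hxu.symm)
    simpa using this
  have h2 := dvd_sub_pow_of_dvd_sub h1 n
  have h3 : u ^ p ^ n ≡ 1 [MOD p ^ n] := by
    apply Nat.ModEq.symm
    rw [Nat.modEq_iff_dvd]
    have h4 : ((p : ℤ) ^ n) ∣ (u : ℤ) ^ p ^ n - 1 ^ p ^ n :=
      (pow_dvd_pow _ (Nat.le_succ n)).trans h2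
    simpa using h4
  have h5 : y ^ (u ^ p ^ n) = y := by
    have : y ^ (u ^ p ^ n) = y ^ 1 := by
      rw [pow_eq_pow_iff_modEq]
      exact h3.of_dvd (orderOf_dvd_of_pow_eq_one hn')
    rwa [pow_one] at this
  have h6 : g ^ p ^ n ∈ Subgroup.centralizer ((P : Subgroup G) : Set G) := by
    rw [Subgroup.mem_centralizer_iff]
    intro w hw
    obtain ⟨f, rfl⟩ := hgen w hw
    have h7 := conj_pow_aux hu (p ^ n)
    rw [h5] at h7
    have h8 : g ^ p ^ n * y = y * g ^ p ^ n := by
      rw [mul_inv_eq_iff_eq_mul] at h7; exact h7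
    exact ((Commute.pow_right (show Commute (g ^ p ^ n) y from h8) f).eq).symm
  obtain ⟨a, m, hm, ham⟩ := Nat.exists_eq_pow_mul_and_not_dvd (orderOf_pos g).ne' p hpp.1.ne_one
  have h9 : g ^ m ∈ (P : Subgroup G) := by
    have hpg : IsPGroup p (Subgroup.zpowers (g ^ m)) := by
      apply isPGroup_zpowers_of_pow (k := a)
      rw [← pow_mul, mul_comm, ← ham, pow_orderOf_eq_one]
    have := hpg.inf_normalizer_sylow P
    have h10 : g ^ m ∈ Subgroup.zpowers (g ^ m) ⊓ (P : Subgroup G) := by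
      rw [← this]
      exact ⟨Subgroup.mem_zpowers _, Subgroup.pow_mem _ hg _⟩
    exact h10.2
  exact mem_of_pow_mem_coprime h6 (hPC h9)
    (Nat.Coprime.pow_left n ((Nat.Prime.coprime_iff_not_dvd hpp.1).2 hm))

/-- Let P be a cyclic Sylow p-subgroup of the finite group G. Then P meets each conjugate g P g⁻¹ with g outside N_G(P) trivially if and only if P is weakly self-centralizing: C_G(x) = C_G(P) for every non-identity x ∈ P. -/
theorem result {G : Type*} [Group G] [Finite G] (p : ℕ) [Fact p.Prime] (P : Sylow p G) (hcyc : IsCyclic ↥(P : Subgroup G)) : (∀ g : G, g ∉ Subgroup.normalizer ((P : Subgroup G) : Set G) → (P : Subgroup G) ⊓ (MulAut.conj g • (P : Subgroup G)) = ⊥) ↔ ∀ x : G, x ∈ (P : Subgroup G) → x ≠ 1 → Subgroup.centralizer ({x} : Set G) = Subgroup.centralizer ((P : Subgroup G) : Set G) := by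
  have hpp : p.Prime := Fact.out
  have hab : ∀ a ∈ (P : Subgroup G), ∀ b ∈ (P : Subgroup G), a * b = b * a := by
    intro a ha b hb
    have := hcyc.commutative
    exact congrArg Subtype.val (this.is_comm.comm ⟨a, ha⟩ ⟨b, hb⟩)
  have hPC : (P : Subgroup G) ≤ Subgroup.centralizer ((P : Subgroup G) : Set G) := by
    intro a ha
    rw [Subgroup.mem_centralizer_iff]
    intro b hb
    exact hab b hb a ha
  constructor
  · intro hTI x hx hx1
    apply le_antisymm
    · intro c hc
      rw [Subgroup.mem_centralizer_singleton_iff] at hc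
      have hcx : c * x * c⁻¹ = x := by rw [hc]; group
      have hcN : c ∈ Subgroup.normalizer ((P : Subgroup G) : Set G) := by
        by_contra hcN
        have h1 := hTI c hcN
        have h2 : x ∈ (P : Subgroup G) ⊓ (MulAut.conj c • (P : Subgroup G)) := by
          refine ⟨hx, ?_⟩
          rw [← hcx]
          exact conj_mem_conj_smul hx
        rw [h1] at h2
        exact hx1 (Subgroup.mem_bot.1 h2)
      obtain ⟨k, hk⟩ := (IsPGroup.iff_orderOf.1 P.2) ⟨x, hx⟩
      rw [Subgroup.orderOf_mk] at hk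
      have hk0 : k ≠ 0 := by
        rintro rfl
        rw [pow_zero, orderOf_eq_one_iff] at hk
        exact hx1 hk
      obtain ⟨j, rfl⟩ := Nat.exists_eq_succ_of_ne_zero hk0
      have ho : orderOf (x ^ p ^ j) = p := by
        rw [orderOf_pow_of_dvd (pow_ne_zero j hpp.ne_zero) (hk ▸ pow_dvd_pow p (Nat.le_succ j)), hk,
          pow_succ, Nat.mul_div_cancel_left _ (pow_pos hpp.pos j)]
      exact mem_centralizer_of_cyclic P hcyc (Subgroup.pow_mem _ hx _) ho hcN
        (by rw [← conj_pow, hcx])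
    · exact Subgroup.centralizer_le (Set.singleton_subset_iff.2 hx)
  · intro hC g hg
    by_contra hne
    obtain ⟨⟨x, hx⟩, hx1'⟩ := (Subgroup.ne_bot_iff_exists_ne_one).1 hne
    have hx1 : x ≠ 1 := fun h => hx1' (Subtype.ext h)
    have hy : g⁻¹ * x * g ∈ (P : Subgroup G) := mem_conj_smul.1 hx.2
    have hy1 : g⁻¹ * x * g ≠ 1 := by
      intro h
      apply hx1
      have : x = g * (g⁻¹ * x * g) * g⁻¹ := by group
      rw [this, h]; group
    have e1 := hC x hx.1 hx1
    have e2 := hC _ hy hy1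
    have e3 := centralizer_conj_singleton g (g⁻¹ * x * g)
    have e4 : g * (g⁻¹ * x * g) * g⁻¹ = x := by group
    rw [e4, e1, e2] at e3
    have h1 : MulAut.conj g • (P : Subgroup G) ≤ Subgroup.centralizer ((P : Subgroup G) : Set G) := by
      rw [e3]
      exact Subgroup.pointwise_smul_le_pointwise_smul_iff.2 hPC
    have h2 : MulAut.conj g • (P : Subgroup G) ≤ Subgroup.normalizer ((P : Subgroup G) : Set G) :=
      h1.trans (Subgroup.centralizer_le_normalizer _)
    have h3 := (isPGroup_conj P.2 g).inf_normalizer_sylow P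
    have h4 : MulAut.conj g • (P : Subgroup G) ≤ (P : Subgroup G) := by
      have : MulAut.conj g • (P : Subgroup G) ≤
          MulAut.conj g • (P : Subgroup G) ⊓ Subgroup.normalizer ((P : Subgroup G) : Set G) :=
        le_inf le_rfl h2
      exact (this.trans h3.le).trans inf_le_right
    apply hg
    rw [mem_normalizer_iff_conj_smul]
    exact Subgroup.eq_of_le_of_card_ge h4 (by rw [card_conj_smul])

end Cfsg.Agent.S3985
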