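import Cfsg.Statements.S4377

set_option autoImplicit false
open Cfsg

namespace Cfsg.Agent.S4377

theorem sum_card_order {G : Type*} [Group G] [Finite G] {n : ℕ} (hn : n ≠ 0) :
    ∑ m ∈ n.divisors, Nat.card {g : G // orderOf g = m} = Nat.card {g : G // g ^ n = 1} := by
  classical
  haveI : Fintype G := Fintype.ofFinite G
  have h := sum_card_orderOf_eq_card_pow_eq_one (G := G) hn
  have h1 : ∀ m : ℕ, Nat.card {g : G // orderOf g = m} =
      (Finset.univ.filter (fun x : G => orderOf x = m)).card := by
    intro m
    rw [Nat.card_eq_fintype_card, Fintype.card_subtype]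
  have h2 : Nat.card {g : G // g ^ n = 1} = (Finset.univ.filter (fun x : G => x ^ n = 1)).card := by
    rw [Nat.card_eq_fintype_card, Fintype.card_subtype]
  rw [h2, ← h]
  exact Finset.sum_congr rfl (fun m _ => h1 m)

/-- Two finite groups have the same number of elements of each order if and only if, for every n, they have the same number of elements g with gⁿ = 1. -/
theorem result {G H : Type*} [Group G] [Finite G] [Group H] [Finite H] :
    (∀ n : ℕ, Nat.card {g : G // orderOf g = n} = Nat.card {h : H // orderOf h = n}) ↔
      ∀ n : ℕ, Nat.card {g : G // g ^ n = 1} = Nat.card {h : H // h ^ n = 1} := by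
  constructor
  · intro h
    have hpos : ∀ n : ℕ, n ≠ 0 → Nat.card {g : G // g ^ n = 1} = Nat.card {h : H // h ^ n = 1} := by
      intro n hn
      rw [← sum_card_order hn, ← sum_card_order hn]
      exact Finset.sum_congr rfl (fun m _ => h m)
    intro n
    rcases eq_or_ne n 0 with rfl | hn
    · have h1 := hpos (Nat.card G * Nat.card H)
        (Nat.mul_ne_zero Nat.card_pos.ne' Nat.card_pos.ne')
      have h2 : ∀ x : G, x ^ (Nat.card G * Nat.card H) = 1 := by
        intro x; rw [pow_mul, pow_card_eq_one', one_pow]
      have h3 : ∀ x : H, x ^ (Nat.card G * Nat.card H) = 1 := by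
        intro x; rw [mul_comm, pow_mul, pow_card_eq_one', one_pow]
      simpa [h2, h3] using h1
    · exact hpos n hn
  · intro h n
    induction n using Nat.strong_induction_on with
    | _ n ih =>
      rcases eq_or_ne n 0 with rfl | hn
      · have h2 : ∀ x : G, orderOf x ≠ 0 := fun x => (orderOf_pos x).ne'
        have h3 : ∀ x : H, orderOf x ≠ 0 := fun x => (orderOf_pos x).ne'
        simp [h2, h3]
      · have h1 := h n
        rw [← sum_card_order hn, ← sum_card_order hn,
          ← Nat.insert_self_properDivisors hn,
          Finset.sum_insert Nat.self_notMem_properDivisors,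
          Finset.sum_insert Nat.self_notMem_properDivisors] at h1
        have h2 : ∑ m ∈ n.properDivisors, Nat.card {g : G // orderOf g = m} =
            ∑ m ∈ n.properDivisors, Nat.card {g : H // orderOf g = m} :=
          Finset.sum_congr rfl (fun m hm => ih m (Nat.mem_properDivisors.1 hm).2)
        omega

end Cfsg.Agent.S4377
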