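import Cfsg.Statements.S3997

import Cfsg.Agent.S4377
import Cfsg.Agent.Lib.Helper7_Class
set_option autoImplicit false
open Cfsg

namespace Cfsg.Agent.S3997

open Cfsg.Agent.Lib.Helper7_Class

/-- Let G and H be finite groups with the same order type: for every m they have the same number of elements of order m. If G is nilpotent then so is H. -/
theorem result {G H : Type*} [Group G] [Finite G] [Group H] [Finite H] (hT : (∀ m : ℕ, Nat.card {g : G // orderOf g = m} = Nat.card {h : H // orderOf h = m})) (hG : Group.IsNilpotent G) :
    Group.IsNilpotent H := by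
  have hsol := (Cfsg.Agent.S4377.result (G := G) (H := H)).1 hT
  have hcard : Nat.card G = Nat.card H := by simpa using hsol 0
  apply ((Group.isNilpotent_of_finite_tfae (G := H)).out 0 3 rfl rfl).2
  intro p hp Q
  haveI := hp
  set a := (Nat.card G).factorization p with ha
  obtain ⟨P⟩ : Nonempty (Sylow p G) := inferInstance
  have hPn : (P : Subgroup G).Normal := inferInstance
  have hPcard : Nat.card P = p ^ a := P.card_eq_multiplicity
  have hQcard : Nat.card Q = p ^ a := by rw [Q.card_eq_multiplicity, ← hcard]
  have hGset : Nat.card {g : G // g ^ (p ^ a) = 1} = p ^ a := by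
    refine Eq.trans ?_ hPcard
    apply Nat.card_congr
    apply Equiv.subtypeEquivRight
    intro g
    constructor
    · intro hg
      have hpg : IsPGroup p (Subgroup.zpowers g) := by
        obtain ⟨k, -, hk⟩ := (Nat.dvd_prime_pow hp.out).1 (orderOf_dvd_of_pow_eq_one hg)
        exact IsPGroup.of_card (n := k) (by rw [Nat.card_zpowers, hk])
      obtain ⟨P', hP'⟩ := hpg.exists_le_sylow
      have : P' = P := by
        haveI := Sylow.unique_of_normal P hPn
        exact Subsingleton.elim _ _
      exact this ▸ hP' (Subgroup.mem_zpowers g)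
    · intro hg
      rw [← hPcard]; exact pow_card_eq_one_of_mem hg
  have hHset : Nat.card {h : H // h ^ (p ^ a) = 1} = p ^ a := by rw [← hsol, hGset]
  have hQset : ((Q : Subgroup H) : Set H) = {h : H | h ^ (p ^ a) = 1} := by
    apply Set.eq_of_subset_of_ncard_le
    · intro h hh
      show h ^ (p ^ a) = 1
      rw [← hQcard]; exact pow_card_eq_one_of_mem hh
    · rw [← Nat.card_coe_set_eq, ← Nat.card_coe_set_eq]
      exact (hHset.trans hQcard.symm).le
    · exact Set.toFinite _
  refine ⟨fun n hn g => ?_⟩
  have h1 : n ∈ ((Q : Subgroup H) : Set H) := hn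
  rw [hQset] at h1
  have h1' : n ^ (p ^ a) = 1 := h1
  have h2 : g * n * g⁻¹ ∈ {h : H | h ^ (p ^ a) = 1} := by
    show _ = _
    rw [conj_pow, h1']; group
  rw [← hQset] at h2
  exact h2

end Cfsg.Agent.S3997
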