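import Cfsg.Statements.S4013

import Cfsg.Agent.Lib.Helper7_Class
set_option autoImplicit false
open Cfsg

namespace Cfsg.Agent.S4013

open Cfsg.Agent.Lib.Helper7_Class

/-- Let G be a finite p-group (p prime) and N < M normal subgroups of G such that for some g ∈ M ∖ N the conjugacy class of g is exactly M ∖ N. Then p = 2 and N has index 2 in M. -/
theorem result {G : Type*} [Group G] [Finite G] (p : ℕ) [Fact p.Prime] (hG : IsPGroup p G) (N M : Subgroup G) [N.Normal] [M.Normal] (hNM : N < M) (g : G) (hgM : g ∈ M) (hgN : g ∉ N) (hcl : {h : G | IsConj g h} = (M : Set G) \ (N : Set G)) : p = 2 ∧ N.relIndex M = 2 := by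
  have hp : p.Prime := Fact.out
  -- class size is a power of p
  obtain ⟨n, hn⟩ := hG.index (Subgroup.centralizer ({g} : Set G))
  rw [index_centralizer_eq_card_class] at hn
  have hcard : Nat.card {y : G // IsConj g y} = Nat.card M - Nat.card N := by
    have h1 : Nat.card {y : G // IsConj g y} = ((M : Set G) \ (N : Set G)).ncard := by
      rw [← hcl, ← Nat.card_coe_set_eq]; rfl
    rw [h1, Set.ncard_diff (SetLike.coe_subset_coe.2 hNM.le) (Set.toFinite _),
      ← Nat.card_coe_set_eq, ← Nat.card_coe_set_eq]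
    rfl
  have hmul := card_mul_relIndex hNM.le
  set r := N.relIndex M with hr
  have hr1 : r ≠ 1 := by
    intro h
    exact hNM.not_ge (Subgroup.relIndex_eq_one.1 h)
  obtain ⟨b, hb⟩ : ∃ b, r = p ^ b := by
    have := (hG.to_subgroup M).index (N.subgroupOf M)
    exact this
  have hb0 : b ≠ 0 := by
    rintro rfl
    exact hr1 (by simpa using hb)
  have hNpos : 0 < Nat.card N := Nat.card_pos
  have hrpos : 1 ≤ r := by rw [hb]; exact Nat.one_le_pow _ _ hp.pos
  have h2 : Nat.card N * (r - 1) = p ^ n := by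
    rw [← hn, hcard, ← hmul, Nat.mul_sub, mul_one]
  obtain ⟨c, -, hc⟩ := (Nat.dvd_prime_pow hp).1 (Dvd.intro_left _ h2)
  have hc0 : c = 0 := by
    by_contra hc0
    have h3 : p ∣ r - 1 := hc ▸ dvd_pow_self p hc0
    have h4 : p ∣ r := hb ▸ dvd_pow_self p hb0
    have h5 : p ∣ 1 := by
      have := (Nat.dvd_sub h4 h3)
      rwa [Nat.sub_sub_self hrpos] at this
    exact hp.one_lt.ne' (Nat.dvd_one.1 h5)
  subst hc0
  have hr2 : r = 2 := by simp at hc; omega
  refine ⟨?_, hr2⟩
  have h4 : p ∣ 2 := by rw [← hr2]; exact hb ▸ dvd_pow_self p hb0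
  exact (Nat.prime_dvd_prime_iff_eq hp Nat.prime_two).1 h4

end Cfsg.Agent.S4013
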