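import Cfsg.Statements.S4024
import Cfsg.Agent.S4023
import Cfsg.Agent.Lib.Helper3_Sig3
import Cfsg.Agent.Lib.Helper4_PSol2
import Cfsg.Agent.Lib.Helper3_PComp
import Cfsg.Agent.Lib.Helper4_Syl

set_option autoImplicit false
open Cfsg

namespace Cfsg.Agent.S4024

open Cfsg.Agent.Lib.Helper3_Core in
theorem exp_case {G : Type*} [Group G] [Finite G]
    {p : ℕ} [hpf : Fact p.Prime] (hC : ∀ H K : Subgroup G, IsPGroup p H → IsPGroup p K → Nat.card H = Nat.card K →
      ∃ g : G, K = H.map (MulAut.conj g).toMonoidHom) (P : Sylow p G)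
    (H : Subgroup G) [hHn : H.Normal] (hsolv : Cfsg.IsPSolvable p H) (hdiv : p ∣ Nat.card H)
    (hexp : ∀ a ∈ (P : Subgroup G), a ^ p = 1) :
    IsMulCommutative P ∧ (P : Subgroup G) ≤ H := by
  have hpp : p.Prime := hpf.out
  have hord : ∀ a ∈ (P : Subgroup G), a ≠ 1 → orderOf a = p := by
    intro a ha ha1
    rcases (Nat.dvd_prime hpp).1 (orderOf_dvd_of_pow_eq_one (hexp a ha)) with h | h
    · exact absurd (orderOf_eq_one_iff.1 h) ha1
    · exact h
  have hzp : ∀ a : G, orderOf a = p → IsPGroup p (Subgroup.zpowers a) := by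
    intro a ha
    exact IsPGroup.of_card (n := 1) (by rw [Nat.card_zpowers, ha, pow_one])
  have step1 : ∀ M : Subgroup G, M.Normal → p ∣ Nat.card M → (P : Subgroup G) ≤ M := by
    intro M hM hdvd a ha
    by_cases ha1 : a = 1
    · rw [ha1]; exact one_mem _
    obtain ⟨u, hu⟩ := exists_prime_orderOf_dvd_card' p hdvd
    have hu' : orderOf (u : G) = p := by rw [Subgroup.orderOf_coe, hu]
    obtain ⟨g, hg⟩ := hC (Subgroup.zpowers (u : G)) (Subgroup.zpowers a) (hzp _ hu') (hzp _ (hord a ha ha1))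
      (by rw [Nat.card_zpowers, Nat.card_zpowers, hu', hord a ha ha1])
    have h1 : a ∈ Subgroup.zpowers a := Subgroup.mem_zpowers a
    rw [hg] at h1
    obtain ⟨v, hv, rfl⟩ := h1
    exact hM.conj_mem v ((Subgroup.zpowers_le).2 u.2 hv) g
  have hPH := step1 H inferInstance hdiv
  refine ⟨?_, hPH⟩
  set K₀ := Cfsg.pPrimeCore p ↥H with hK₀
  set L₀ := Cfsg.pPrimePCore p ↥H with hL₀
  haveI hKc : K₀.Characteristic := rad_characteristic (fitClass_coprime p)
  haveI hLc : L₀.Characteristic := Cfsg.Agent.Lib.Helper3_Sig3.pPrimePCore_characteristic p ↥H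
  have hKn : (K₀.map H.subtype).Normal := ConjAct.normal_of_characteristic_of_normal
  have hLn : (L₀.map H.subtype).Normal := ConjAct.normal_of_characteristic_of_normal
  set K := K₀.map H.subtype with hK
  set L := L₀.map H.subtype with hL
  have hK₀cop : (Nat.card K₀).Coprime p := Cfsg.Agent.Lib.Helper4_Core.pPrimeCore_coprime p
  have hKcop : (Nat.card K).Coprime p := by
    rw [hK, Subgroup.card_map_of_injective H.subtype_injective]; exact hK₀cop
  have hred : Cfsg.pPrimeCore p (↥H ⧸ K₀) = ⊥ := Cfsg.Agent.Lib.Helper3_PComp.pPrimeCore_quotient_eq_bot p ↥H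
  have hsolb : Cfsg.IsPSolvable p (↥H ⧸ K₀) :=
    Cfsg.Agent.Lib.Helper4_PSol2.isPSolvable_of_surjective hpp _ (QuotientGroup.mk'_surjective _) hsolv
  have hh := Cfsg.Agent.Lib.Helper4_PSol.hall_higman hsolb hred
  have hne : Cfsg.pCore p (↥H ⧸ K₀) ≠ ⊥ := by
    intro hbot
    rw [hbot] at hh
    have htop : ∀ x : ↥H ⧸ K₀, x = 1 := fun x => Subgroup.mem_bot.1 (hh (by
      rw [Subgroup.mem_centralizer_iff]
      intro y hy
      rw [Subgroup.mem_bot.1 hy]; simp))
    have h1 : K₀ = ⊤ := by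
      rw [eq_top_iff]
      intro x _
      exact (QuotientGroup.eq_one_iff x).1 (htop _)
    rw [h1, Subgroup.card_top] at hK₀cop
    exact hpp.one_lt.ne' (Nat.Coprime.eq_one_of_dvd hK₀cop.symm hdiv)
  have hpL : p ∣ Nat.card L := by
    obtain ⟨ub, hub1⟩ := Subgroup.ne_bot_iff_exists_ne_one.1 hne
    obtain ⟨u₀, hu₀⟩ := QuotientGroup.mk'_surjective K₀ ub.1
    have hu₀L : u₀ ∈ L₀ := by
      show QuotientGroup.mk' K₀ u₀ ∈ Cfsg.pCore p (↥H ⧸ K₀)
      rw [hu₀]; exact ub.2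
    obtain ⟨k, hk⟩ := (IsPGroup.iff_orderOf.1 (Cfsg.Agent.Lib.Helper4_Core.pCore_isPGroup p (↥H ⧸ K₀))) ub
    have hk0 : k ≠ 0 := by
      rintro rfl
      rw [pow_zero, orderOf_eq_one_iff] at hk
      exact hub1 hk
    have h1 : p ∣ orderOf (ub : ↥H ⧸ K₀) := by
      rw [Subgroup.orderOf_coe, hk]; exact dvd_pow_self p hk0
    rw [← hu₀] at h1
    have h2 := h1.trans (orderOf_map_dvd (QuotientGroup.mk' K₀) u₀)
    rw [hL, Subgroup.card_map_of_injective H.subtype_injective]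
    exact h2.trans (Subgroup.orderOf_dvd_natCard L₀ hu₀L)
  have hPL := step1 L hLn hpL
  have hLPK : ∀ l ∈ L, ∃ t ∈ (P : Subgroup G), ∃ k ∈ K, l = t * k := by
    rintro _ ⟨l₀, hl₀, rfl⟩
    let PX : Sylow p ↥H := P.subtype hPH
    let Pb : Sylow p (↥H ⧸ K₀) := PX.mapSurjective (QuotientGroup.mk'_surjective K₀)
    have h1 : QuotientGroup.mk' K₀ l₀ ∈ (Pb : Subgroup (↥H ⧸ K₀)) :=
      Cfsg.Agent.Lib.Helper4_Core.pCore_le_sylow Pb hl₀
    obtain ⟨t, ht, htl⟩ := h1
    refine ⟨t.1, ht, (t⁻¹ * l₀).1, ⟨t⁻¹ * l₀, ?_, rfl⟩, by simp⟩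
    exact QuotientGroup.eq.1 htl
  have hPK : ∀ w ∈ (P : Subgroup G), w ∈ K → w = 1 := by
    intro w hw hwK
    have h1 : orderOf w ∣ p := orderOf_dvd_of_pow_eq_one (hexp w hw)
    have h2 : orderOf w ∣ Nat.card K := Subgroup.orderOf_dvd_natCard K hwK
    exact orderOf_eq_one_iff.1 (Nat.eq_one_of_dvd_coprimes hKcop h2 h1)
  have hPne : (P : Subgroup G) ≠ ⊥ := P.ne_bot_of_dvd_card (hdiv.trans (Subgroup.card_subgroup_dvd_card H))
  obtain ⟨z, hzP, hzo, hzc⟩ := Cfsg.Agent.Lib.Helper4_Syl.exists_central_orderOf_eq P.isPGroup' hPne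
  have hcomm : ∀ x ∈ (P : Subgroup G), ∀ s ∈ (P : Subgroup G), x * s = s * x := by
    intro x hx s hs
    by_cases hx1 : x = 1
    · rw [hx1]; simp
    obtain ⟨g, hg⟩ := hC (Subgroup.zpowers z) (Subgroup.zpowers x) (hzp _ hzo) (hzp _ (hord x hx hx1))
      (by rw [Nat.card_zpowers, Nat.card_zpowers, hzo, hord x hx hx1])
    have h0 : x ∈ Subgroup.zpowers x := Subgroup.mem_zpowers x
    rw [hg] at h0
    obtain ⟨v, hv, hvx⟩ := h0
    have hvx' : x = g * v * g⁻¹ := hvx.symm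
    have hvc : ∀ t ∈ (P : Subgroup G), t * v = v * t := by
      intro t ht
      obtain ⟨i, rfl⟩ := Subgroup.mem_zpowers_iff.1 hv
      exact ((show Commute t z from hzc t ht).zpow_right i).eq
    have h1 : g⁻¹ * s * g ∈ L := by
      have := hLn.conj_mem s (hPL hs) g⁻¹
      simpa using this
    obtain ⟨t, ht, k, hk, htk⟩ := hLPK _ h1
    have hs' : s = g * (t * k) * g⁻¹ := by rw [← htk]; group
    have hw : x * s * x⁻¹ * s⁻¹ ∈ K := by
      have e1 : x * s * x⁻¹ * s⁻¹ = g * (v * t * k * v⁻¹ * k⁻¹ * t⁻¹) * g⁻¹ := by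
        rw [hs', hvx']; group
      have e2 : g * (t * v * k * v⁻¹ * k⁻¹ * t⁻¹) * g⁻¹ = g * (t * (v * k * v⁻¹ * k⁻¹) * t⁻¹) * g⁻¹ := by
        group
      rw [e1, ← hvc t ht, e2]
      exact hKn.conj_mem _ (hKn.conj_mem _ (K.mul_mem (hKn.conj_mem k hk v) (K.inv_mem hk)) t) g
    have h2 := hPK _ (mul_mem (mul_mem (mul_mem hx hs) (inv_mem hx)) (inv_mem hs)) hw
    have h3 := mul_inv_eq_one.1 h2
    exact mul_inv_eq_iff_eq_mul.1 h3
  constructor
  constructor
  rintro ⟨a, ha⟩ ⟨b, hb⟩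
  exact Subtype.ext (hcomm a ha b hb)

/-- Let p be an odd prime and G a finite group in which any two p-subgroups of the same order are conjugate, with Sylow p-subgroup P. If H is a normal p-solvable subgroup of G whose order is divisible by p, then P is abelian, and either P ≤ H or P is cyclic. -/
theorem result {G : Type*} [Group G] [Finite G]
    {p : ℕ} [Fact p.Prime] (hp : p ≠ 2) (hC : ∀ H K : Subgroup G, IsPGroup p H → IsPGroup p K → Nat.card H = Nat.card K →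
      ∃ g : G, K = H.map (MulAut.conj g).toMonoidHom) (P : Sylow p G)
    (H : Subgroup G) [H.Normal] (hsolv : Cfsg.IsPSolvable p H) (hdiv : p ∣ Nat.card H) :
    IsMulCommutative P ∧ ((P : Subgroup G) ≤ H ∨ IsCyclic P) := by
  rcases Cfsg.Agent.S4023.result hC P with h | h | ⟨h, _⟩ | ⟨_, _, _, hexp⟩
  · refine ⟨?_, Or.inr h⟩
    letI := h.commGroup
    exact ⟨⟨fun a b => mul_comm a b⟩⟩
  · have := exp_case hC P H hsolv hdiv h.2
    exact ⟨this.1, Or.inl this.2⟩
  · exact absurd h hp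
  · have := exp_case hC P H hsolv hdiv (by
      intro a ha
      have h1 := Monoid.pow_exponent_eq_one (⟨a, ha⟩ : (P : Subgroup G))
      rw [hexp] at h1
      exact congrArg Subtype.val h1)
    exact ⟨this.1, Or.inl this.2⟩

end Cfsg.Agent.S4024
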