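import Cfsg.Statements.S4029
import Mathlib
import Cfsg.Agent.S0012
import Cfsg.Agent.Lib.CharPerm
import Cfsg.Agent.Lib.CharLinear

set_option autoImplicit false
open Cfsg

namespace Cfsg.Agent.S4029

open scoped commutatorElement
open Cfsg.Agent.Lib.CharPerm Cfsg.Agent.Lib.CharLinear Cfsg.Agent.Lib.CharBasic
  Cfsg.Agent.Lib.CharComplete

/-- Let P be a finite 2-group in which N_P(⟨y⟩) = C_P(y) for every y ∈ P. If s is the number of conjugacy classes of involutions of P, then #(P/Φ(P)) ≤ s + 1; in particular the subgroup generated by the involutions of P has order at least #(P/Φ(P)). -/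
theorem result {P : Type*} [Group P] [Finite P] (hP : IsPGroup 2 P)
    (hirr : ∀ y : P, Subgroup.normalizer ((Subgroup.zpowers y : Subgroup P) : Set P) ≤ Subgroup.centralizer {y}) :
    Nat.card (P ⧸ frattini P) ≤ Nat.card {c : ConjClasses P // ∃ y : P, ConjClasses.mk y = c ∧ orderOf y = 2} + 1 ∧
    Nat.card (P ⧸ frattini P) ≤ Nat.card (Subgroup.closure {y : P | orderOf y = 2}) := by
  classical
  haveI : Fact (Nat.Prime 2) := ⟨Nat.prime_two⟩
  haveI : Fintype P := Fintype.ofFinite P
  have h12 := Cfsg.Agent.S0012.result 2 hP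
  letI : CommGroup (P ⧸ frattini P) :=
    { (inferInstance : Group (P ⧸ frattini P)) with
      mul_comm := by
        intro a b
        obtain ⟨x, rfl⟩ := QuotientGroup.mk_surjective a
        obtain ⟨y, rfl⟩ := QuotientGroup.mk_surjective b
        rw [← QuotientGroup.mk_mul, ← QuotientGroup.mk_mul, QuotientGroup.eq]
        apply h12.1
        have : (x * y)⁻¹ * (y * x) = ⁅y⁻¹, x⁻¹⁆ := by
          rw [commutatorElement_def]
          group
        rw [this]
        exact Subgroup.commutator_mem_commutator (Subgroup.mem_top _) (Subgroup.mem_top _) }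
  have hsq : ∀ a : P ⧸ frattini P, a * a = 1 := by
    intro a
    obtain ⟨x, rfl⟩ := QuotientGroup.mk_surjective a
    rw [← QuotientGroup.mk_mul, ← pow_two]
    exact (QuotientGroup.eq_one_iff _).2 (h12.2 x)
  have hA : Nat.card ((P ⧸ frattini P) →* ℂˣ) = Nat.card (P ⧸ frattini P) :=
    CommGroup.card_monoidHom_of_hasEnoughRootsOfUnity _ ℂ
  -- step 1
  have h1 : Nat.card (P ⧸ frattini P) ≤
      Nat.card {χ : IrrCharacter P // ∀ g : P, ((χ : P → ℂ) g).im = 0} := by
    rw [← hA]
    refine Nat.card_le_card_of_injective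
      (fun lam => ⟨⟨fun g => (((lam.comp (QuotientGroup.mk' (frattini P))) g : ℂˣ) : ℂ),
        isIrr_hom (lam.comp (QuotientGroup.mk' (frattini P)))⟩, ?_⟩) ?_
    · intro g
      show (((lam (QuotientGroup.mk g) : ℂˣ) : ℂ)).im = 0
      have e1 : (lam (QuotientGroup.mk g)) * (lam (QuotientGroup.mk g)) = 1 := by
        rw [← map_mul, hsq, map_one]
      have e2 : ((lam (QuotientGroup.mk g) : ℂˣ) : ℂ) * ((lam (QuotientGroup.mk g) : ℂˣ) : ℂ) = 1 := by
        rw [← Units.val_mul, e1, Units.val_one]
      rcases mul_self_eq_one_iff.mp e2 with h | h <;> rw [h] <;> simp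
    · intro lam lam' h
      apply MonoidHom.ext
      intro a
      obtain ⟨x, rfl⟩ := QuotientGroup.mk_surjective a
      apply Units.ext
      have := congrFun (congrArg (fun χ => ((χ.1 : IrrCharacter P) : P → ℂ)) h) x
      exact this
  rw [card_real_irr] at h1
  -- step 2
  have hreal : ∀ y : P, IsConj y⁻¹ y → y = 1 ∨ orderOf y = 2 := by
    intro y hy
    obtain ⟨g, hg⟩ := isConj_iff.mp hy
    have hg' : g * y * g⁻¹ = y⁻¹ := by
      have := congrArg (·⁻¹) hg
      simp only [mul_inv_rev, inv_inv] at this
      rw [← this]; group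
    have hgn : g ∈ Subgroup.normalizer ((Subgroup.zpowers y : Subgroup P) : Set P) := by
      rw [Subgroup.mem_normalizer_iff]
      intro h
      constructor
      · intro hh
        obtain ⟨k, rfl⟩ := Subgroup.mem_zpowers_iff.mp hh
        have : g * y ^ k * g⁻¹ = (g * y * g⁻¹) ^ k := by
          rw [conj_zpow]
        rw [this, hg']
        exact Subgroup.zpow_mem _ (Subgroup.inv_mem _ (Subgroup.mem_zpowers y)) k
      · intro hh
        obtain ⟨k, hk⟩ := Subgroup.mem_zpowers_iff.mp hh
        have e : h = g⁻¹ * (y ^ k) * g := by rw [hk]; group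
        have e2 : g⁻¹ * y * g = y⁻¹ := by
          calc g⁻¹ * y * g = g⁻¹ * (g * y⁻¹ * g⁻¹) * g := by rw [hg]
            _ = y⁻¹ := by group
        have e3 : g⁻¹ * (y ^ k) * g = (g⁻¹ * y * g) ^ k := by
          have := conj_zpow (a := g⁻¹) (b := y) (i := k)
          rw [inv_inv] at this
          exact this.symm
        rw [e, e3, e2]
        exact Subgroup.zpow_mem _ (Subgroup.inv_mem _ (Subgroup.mem_zpowers y)) k
    have hgc := hirr y hgn
    rw [Subgroup.mem_centralizer_singleton_iff] at hgc
    have e : y⁻¹ = y := by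
      rw [← hg', hgc, mul_inv_cancel_right]
    have e2 : y * y = 1 := by
      nth_rewrite 1 [← e]; exact inv_mul_cancel y
    by_cases hy1 : y = 1
    · exact Or.inl hy1
    · exact Or.inr (orderOf_eq_prime (by rw [pow_two, e2]) hy1)
  have h2 : Nat.card {c : ConjClasses P // IsConj (rep c)⁻¹ (rep c)} ≤
      Nat.card {c : ConjClasses P // ∃ y : P, ConjClasses.mk y = c ∧ orderOf y = 2} + 1 := by
    rw [← Finite.card_option]
    refine Nat.card_le_card_of_injective
      (fun c => if h : rep c.1 = 1 then none else
        some ⟨c.1, rep c.1, mk_rep c.1, (hreal _ c.2).resolve_left h⟩) ?_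
    intro c c' h
    by_cases hc : rep c.1 = 1 <;> by_cases hc' : rep c'.1 = 1
    · apply Subtype.ext
      rw [← mk_rep c.1, ← mk_rep c'.1, hc, hc']
    · simp [hc, hc'] at h
    · simp [hc, hc'] at h
    · simp only [hc, hc', dite_false, Option.some.injEq, Subtype.mk.injEq] at h
      exact Subtype.ext h
  have h3 : Nat.card {c : ConjClasses P // ∃ y : P, ConjClasses.mk y = c ∧ orderOf y = 2} + 1 ≤
      Nat.card (Subgroup.closure {y : P | orderOf y = 2}) := by
    rw [← Finite.card_option]
    refine Nat.card_le_card_of_injective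
      (fun o => match o with
        | none => 1
        | some c => ⟨c.2.choose, Subgroup.subset_closure c.2.choose_spec.2⟩) ?_
    intro o o' h
    cases o with
    | none =>
      cases o' with
      | none => rfl
      | some c' =>
        exfalso
        have e : (1 : P) = c'.2.choose := congrArg Subtype.val h
        have := c'.2.choose_spec.2
        rw [← e, orderOf_one] at this
        omega
    | some c =>
      cases o' with
      | none =>
        exfalso
        have e : c.2.choose = (1 : P) := congrArg Subtype.val h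
        have := c.2.choose_spec.2
        rw [e, orderOf_one] at this
        omega
      | some c' =>
        have e : c.2.choose = c'.2.choose := congrArg Subtype.val h
        congr 1
        apply Subtype.ext
        rw [← c.2.choose_spec.1, ← c'.2.choose_spec.1, e]
  exact ⟨h1.trans h2, (h1.trans h2).trans h3⟩

end Cfsg.Agent.S4029
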