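import Cfsg.Statements.S4032

import Mathlib
import Cfsg.Agent.Lib.Helper7_Lift
set_option autoImplicit false
open Cfsg

namespace Cfsg.Agent.S4032

open Cfsg.Agent.Lib.Helper7_Lift

/-- Let π be a set of primes and G a finite group in which N_G(⟨x⟩) = C_G(x) for every π-element x. If N is a normal subgroup of G whose order is divisible by no prime of π, then G/N has the same property: N_{G/N}(⟨y⟩) = C_{G/N}(y) for every π-element y of G/N. -/
theorem result {G : Type*} [Group G] [Finite G] (π : Set ℕ)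
    (hirr : ∀ x : G, (∀ r : ℕ, r.Prime → r ∣ orderOf x → r ∈ π) →
      Subgroup.normalizer ((Subgroup.zpowers x : Subgroup G) : Set G) ≤ Subgroup.centralizer {x})
    (N : Subgroup G) [N.Normal] (hN : ∀ r : ℕ, r.Prime → r ∣ Nat.card N → r ∉ π) :
    ∀ y : G ⧸ N, (∀ r : ℕ, r.Prime → r ∣ orderOf y → r ∈ π) →
      Subgroup.normalizer ((Subgroup.zpowers y : Subgroup (G ⧸ N)) : Set (G ⧸ N)) ≤ Subgroup.centralizer {y} := by
  intro y hy z hz
  have hcop : (Nat.card N).Coprime (orderOf y) :=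
    Nat.coprime_of_dvd (fun r hr h1 h2 => hN r hr h1 (hy r hr h2))
  obtain ⟨x, rfl, hxy⟩ := exists_lift_orderOf_dvd N y hcop
  obtain ⟨g, rfl⟩ := QuotientGroup.mk'_surjective N z
  have hcop2 : (Nat.card (Subgroup.zpowers x)).Coprime (Nat.card N) := by
    rw [Nat.card_zpowers]
    exact (Nat.Coprime.coprime_dvd_right hxy hcop).symm
  have hz' : QuotientGroup.mk' N g ∈ Subgroup.normalizer
      (((Subgroup.zpowers x).map (QuotientGroup.mk' N) : Subgroup (G ⧸ N)) : Set (G ⧸ N)) := by
    rw [MonoidHom.map_zpowers]; exact hz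
  obtain ⟨d, hd, hdg⟩ := normalizer_lift N (Subgroup.zpowers x) hcop2 (Or.inl inferInstance) g hz'
  have h1 := hirr x (fun r hr hrx => hy r hr (hrx.trans hxy)) hdg
  have hd1 : QuotientGroup.mk' N d = 1 := (QuotientGroup.eq_one_iff d).2 hd
  have h2 : QuotientGroup.mk' N g = QuotientGroup.mk' N (d⁻¹ * g) := by
    rw [map_mul, map_inv, hd1]; simp
  rw [h2, Subgroup.mem_centralizer_iff]
  intro w hw
  rw [Set.mem_singleton_iff] at hw
  subst hw
  rw [← map_mul, ← map_mul, (Subgroup.mem_centralizer_iff.1 h1) x rfl]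

end Cfsg.Agent.S4032
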