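import Cfsg.Statements.S4034

import Cfsg.Agent.Lib.CharBurnside
import Cfsg.Agent.Lib.Helper7_Index
import Cfsg.Agent.Lib.Helper7_Conj
import Cfsg.Agent.Lib.Helper3_Comp
set_option autoImplicit false
open Cfsg

namespace Cfsg.Agent.S4034

open Cfsg.Agent.Lib.CharBurnside Cfsg.Agent.Lib.Helper7_Index Cfsg.Agent.Lib.Helper7_Class
open Cfsg.Agent.Lib.Helper7_Conj

universe u

/-- all `p`-regular classes have `p`-power size -/
def Hyp (p : ℕ) (G : Type*) [Group G] : Prop :=
  ∀ x : G, (orderOf x).Coprime p → ∃ k : ℕ, (Subgroup.centralizer ({x} : Set G)).index = p ^ k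

theorem pow_of_dvd {p d k : ℕ} (hp : p.Prime) (h : d ∣ p ^ k) : ∃ j, d = p ^ j := by
  obtain ⟨j, _, hj⟩ := (Nat.dvd_prime_pow hp).mp h
  exact ⟨j, hj⟩

theorem hyp_normal {p : ℕ} (hp : p.Prime) {G : Type*} [Group G] [Finite G] (h : Hyp p G)
    (N : Subgroup G) [N.Normal] : Hyp p N := by
  intro x hx
  obtain ⟨k, hk⟩ := h (x : G) (by rwa [Subgroup.orderOf_coe])
  have h1 : Subgroup.centralizer ({x} : Set N) =
      (Subgroup.centralizer ({(x : G)} : Set G)).subgroupOf N := by
    ext y
    rw [Subgroup.mem_subgroupOf, Subgroup.mem_centralizer_singleton_iff,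
      Subgroup.mem_centralizer_singleton_iff]
    constructor
    · intro h; exact congrArg Subtype.val h
    · intro h; exact Subtype.ext h
  rw [h1]
  apply pow_of_dvd hp (k := k)
  rw [← hk]
  exact relIndex_normal_dvd_index _ N

theorem exists_lift_coprime {p : ℕ} (hp : p.Prime) {G : Type*} [Group G] [Finite G]
    (N : Subgroup G) [N.Normal] (y : G ⧸ N) (hy : (orderOf y).Coprime p) :
    ∃ x : G, QuotientGroup.mk' N x = y ∧ (orderOf x).Coprime p := by
  obtain ⟨g, rfl⟩ := QuotientGroup.mk'_surjective N y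
  obtain ⟨a, m, hm, hgm⟩ := Nat.exists_eq_pow_mul_and_not_dvd (orderOf_pos g).ne' p hp.ne_one
  obtain ⟨u, hu⟩ := exists_pow_eq_self_of_coprime (x := QuotientGroup.mk' N g) (n := p ^ a)
    (Nat.Coprime.pow_left _ hy.symm)
  refine ⟨(g ^ p ^ a) ^ u, by rw [map_pow, map_pow, hu], ?_⟩
  have h1 : orderOf ((g ^ p ^ a) ^ u) ∣ m := by
    apply orderOf_dvd_of_pow_eq_one
    rw [← pow_mul, ← pow_mul, mul_comm u m, ← mul_assoc, ← hgm, pow_mul, pow_orderOf_eq_one,
      one_pow]
  exact Nat.Coprime.coprime_dvd_left h1 ((Nat.Prime.coprime_iff_not_dvd hp).2 hm).symm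

theorem hyp_quotient {p : ℕ} (hp : p.Prime) {G : Type*} [Group G] [Finite G] (h : Hyp p G)
    (N : Subgroup G) [N.Normal] : Hyp p (G ⧸ N) := by
  intro y hy
  obtain ⟨x, rfl, hx⟩ := exists_lift_coprime hp N y hy
  obtain ⟨k, hk⟩ := h x hx
  apply pow_of_dvd hp (k := k)
  rw [← hk]
  have h1 : (Subgroup.centralizer ({x} : Set G)).map (QuotientGroup.mk' N) ≤
      Subgroup.centralizer ({QuotientGroup.mk' N x} : Set (G ⧸ N)) := by
    rintro _ ⟨c, hc, rfl⟩
    rw [SetLike.mem_coe, Subgroup.mem_centralizer_singleton_iff] at hc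
    rw [Subgroup.mem_centralizer_singleton_iff, ← map_mul, ← map_mul, hc]
  exact (Subgroup.index_dvd_of_le h1).trans
    (Subgroup.index_map_dvd _ (QuotientGroup.mk'_surjective N))

theorem isPGroup_of_no_regular {p : ℕ} (hp : p.Prime) {G : Type*} [Group G] [Finite G]
    (K : Subgroup G) [K.Normal] (h : ∀ x : G, (orderOf x).Coprime p → x ∈ K) :
    IsPGroup p (G ⧸ K) := by
  intro y
  obtain ⟨g, rfl⟩ := QuotientGroup.mk'_surjective K y
  obtain ⟨a, m, hm, hgm⟩ := Nat.exists_eq_pow_mul_and_not_dvd (orderOf_pos g).ne' p hp.ne_one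
  refine ⟨a, ?_⟩
  rw [← map_pow]
  apply (QuotientGroup.eq_one_iff _).2
  apply h
  have h1 : orderOf (g ^ p ^ a) ∣ m := by
    apply orderOf_dvd_of_pow_eq_one
    rw [← pow_mul, ← hgm, pow_orderOf_eq_one]
  exact Nat.Coprime.coprime_dvd_left h1 ((Nat.Prime.coprime_iff_not_dvd hp).2 hm).symm

theorem solvable_aux {p : ℕ} (hp : p.Prime) (n : ℕ) : ∀ (G : Type u) [Group G] [Finite G],
    Nat.card G = n → Hyp p G → Group.IsSolvable G := by
  induction n using Nat.strong_induction_on with
  | _ n ih =>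
    intro G _ _ hn hyp
    haveI : Fact p.Prime := ⟨hp⟩
    by_cases hsub : Subsingleton G
    · infer_instance
    haveI : Nontrivial G := not_subsingleton_iff_nontrivial.mp hsub
    by_cases hsimple : IsSimpleGroup G
    · haveI := Fintype.ofFinite G
      by_cases hex : ∃ x : G, x ≠ 1 ∧ (orderOf x).Coprime p
      · obtain ⟨g, hg, hgp⟩ := hex
        obtain ⟨j, hj⟩ := hyp g hgp
        have hprime := prime_card_of_prime_power_class p j hp g hg hj
        haveI : Fact (Nat.card G).Prime := ⟨hprime⟩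
        haveI : IsCyclic G := isCyclic_of_prime_card rfl
        exact Group.isSolvable_of_comm (fun x y => IsCyclic.commutative.is_comm.comm x y)
      · push Not at hex
        have h1 : IsPGroup p (G ⧸ (⊥ : Subgroup G)) := isPGroup_of_no_regular hp ⊥ (by
          intro x hx
          by_contra hne
          exact hex x (fun h => hne (by rw [h]; exact one_mem _)) hx)
        have h2 : IsPGroup p G := h1.of_equiv QuotientGroup.quotientBot
        haveI := h2.isNilpotent
        infer_instance
    · have hex : ∃ N : Subgroup G, N.Normal ∧ N ≠ ⊥ ∧ N ≠ ⊤ := by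
        by_contra hcon
        push Not at hcon
        apply hsimple
        exact ⟨fun N hN => by
          by_cases h0 : N = ⊥
          · exact Or.inl h0
          · exact Or.inr (hcon N hN h0)⟩
      obtain ⟨N, hN, hN0, hN1⟩ := hex
      have hmul := N.card_mul_index
      have hidx1 : N.index ≠ 1 := fun h => hN1 (Subgroup.index_eq_one.mp h)
      have hcard1 : Nat.card N ≠ 1 := fun h => hN0 (Subgroup.card_eq_one.mp h)
      have hidx0 : N.index ≠ 0 := Subgroup.FiniteIndex.index_ne_zero
      have hcard0 : Nat.card N ≠ 0 := Nat.card_pos.ne'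
      have hlt1 : Nat.card N < n := by
        rw [← hn, ← hmul]
        exact lt_mul_of_one_lt_right (Nat.pos_of_ne_zero hcard0) (by omega)
      have hlt2 : N.index < n := by
        rw [← hn, ← hmul]
        exact lt_mul_of_one_lt_left (Nat.pos_of_ne_zero hidx0) (by omega)
      haveI h1 : Group.IsSolvable N := ih _ hlt1 N rfl (hyp_normal hp hyp N)
      haveI h2 : Group.IsSolvable (G ⧸ N) :=
        ih _ hlt2 (G ⧸ N) (by rw [Subgroup.index]) (hyp_quotient hp hyp N)
      exact (Group.isSolvable_iff_subgroup_quotient N).mpr ⟨h1, h2⟩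

theorem exists_complement_lift {G : Type*} [Group G] [Finite G] (N : Subgroup G) [N.Normal]
    (Hb : Subgroup (G ⧸ N)) (hcop : (Nat.card N).Coprime (Nat.card Hb)) :
    ∃ Q : Subgroup G, Nat.card Q = Nat.card Hb ∧ Q.map (QuotientGroup.mk' N) ≤ Hb ∧
      Q ⊓ N = ⊥ := by
  set L := Hb.comap (QuotientGroup.mk' N) with hL
  have hqpos : 0 < Nat.card N := Nat.card_pos
  have hLcard : Nat.card L = Nat.card N * Nat.card Hb :=
    QuotientGroup.card_preimage_mk N (Hb : Set (G ⧸ N))
  have hKL : N ≤ L := by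
    intro x hx
    show (x : G ⧸ N) ∈ Hb
    rw [(QuotientGroup.eq_one_iff x).2 hx]
    exact one_mem _
  have hKLcard : Nat.card (N.subgroupOf L) = Nat.card N := by
    rw [← Subgroup.card_map_of_injective L.subtype_injective,
      Subgroup.map_subgroupOf_eq_of_le hKL]
  have hKLidx : (N.subgroupOf L).index = Nat.card Hb := by
    have := Subgroup.card_mul_index (N.subgroupOf L)
    rw [hKLcard, hLcard] at this
    exact Nat.eq_of_mul_eq_mul_left hqpos this
  obtain ⟨Q', hQ'⟩ := Subgroup.exists_right_complement'_of_coprime (N := N.subgroupOf L)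
    (by rw [hKLcard, hKLidx]; exact hcop)
  have hQ'card : Nat.card Q' = Nat.card Hb := by
    have := hQ'.card_mul_card
    rw [hKLcard, hLcard] at this
    exact Nat.eq_of_mul_eq_mul_left hqpos this
  have hQcard : Nat.card (Q'.map L.subtype) = Nat.card Hb := by
    rw [Subgroup.card_map_of_injective L.subtype_injective, hQ'card]
  refine ⟨Q'.map L.subtype, hQcard, ?_, ?_⟩
  · rintro _ ⟨_, ⟨y, _, rfl⟩, rfl⟩
    exact y.2
  · apply Subgroup.inf_eq_bot_of_coprime
    rw [hQcard]
    exact hcop.symm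

theorem forward_aux {p : ℕ} (hp : p.Prime) (n : ℕ) : ∀ (G : Type u) [Group G] [Finite G]
    [Group.IsSolvable G], Nat.card G = n → Hyp p G →
    ∃ H : Subgroup G, IsMulCommutative H ∧ ¬ p ∣ Nat.card H ∧ ∃ k : ℕ, H.index = p ^ k := by
  induction n using Nat.strong_induction_on with
  | _ n ih =>
    intro G _ _ _ hn hyp
    haveI : Fact p.Prime := ⟨hp⟩
    by_cases hA : ∃ N : Subgroup G, N.Normal ∧ IsPGroup p N ∧ N ≠ ⊥
    · obtain ⟨N, hNn, hNp, hNne⟩ := hA
      haveI := hNn
      obtain ⟨i, hi⟩ := IsPGroup.iff_card.1 hNp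
      have hcardlt : Nat.card (G ⧸ N) < n := by
        show N.index < n
        rw [← hn, ← N.card_mul_index]
        exact lt_mul_of_one_lt_left (Nat.pos_of_ne_zero Subgroup.FiniteIndex.index_ne_zero)
          ((Subgroup.one_lt_card_iff_ne_bot N).2 hNne)
      obtain ⟨Hb, hHbc, hHbp, k, hk⟩ := ih _ hcardlt (G ⧸ N) rfl (hyp_quotient hp hyp N)
      have hcop : (Nat.card N).Coprime (Nat.card Hb) := by
        rw [hi]
        exact Nat.Coprime.pow_left _ ((Nat.Prime.coprime_iff_not_dvd hp).2 hHbp)
      obtain ⟨Q, hQcard, hQmap, hQN⟩ := exists_complement_lift N Hb hcop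
      refine ⟨Q, ⟨⟨fun a b => ?_⟩⟩, by rwa [hQcard], i + k, ?_⟩
      · apply Subtype.ext
        show (a : G) * b = b * a
        have ha : QuotientGroup.mk' N (a : G) ∈ Hb := hQmap ⟨a, a.2, rfl⟩
        have hb : QuotientGroup.mk' N (b : G) ∈ Hb := hQmap ⟨b, b.2, rfl⟩
        have hcomm : QuotientGroup.mk' N (a : G) * QuotientGroup.mk' N (b : G) =
            QuotientGroup.mk' N (b : G) * QuotientGroup.mk' N (a : G) :=
          congrArg Subtype.val (mul_comm' (⟨_, ha⟩ : Hb) ⟨_, hb⟩)
        have h1 : (a : G) * b * ((b : G) * a)⁻¹ ∈ N := by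
          rw [← QuotientGroup.eq_one_iff]
          show QuotientGroup.mk' N ((a : G) * b * ((b : G) * a)⁻¹) = 1
          rw [map_mul, map_inv, map_mul, map_mul, hcomm, mul_inv_cancel]
        have h2 : (a : G) * b * ((b : G) * a)⁻¹ ∈ Q :=
          Q.mul_mem (Q.mul_mem a.2 b.2) (Q.inv_mem (Q.mul_mem b.2 a.2))
        have h3 : (a : G) * b * ((b : G) * a)⁻¹ ∈ Q ⊓ N := ⟨h2, h1⟩
        rw [hQN, Subgroup.mem_bot] at h3
        exact mul_inv_eq_one.1 h3
      · have h1 := Q.card_mul_index
        have h2 := N.card_mul_index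
        have h3 := Hb.card_mul_index
        have h4 : Nat.card (G ⧸ N) = N.index := rfl
        rw [hQcard] at h1
        have h5 : Nat.card Hb * Q.index = Nat.card Hb * (p ^ (i + k)) := by
          rw [h1, ← h2, ← h4, ← h3, hi, hk, pow_add]; ring
        exact Nat.eq_of_mul_eq_mul_left Nat.card_pos h5
    · push Not at hA
      set F := Cfsg.fittingSubgroup G with hF
      haveI hFn : F.Normal := Cfsg.Agent.Lib.Helper3_Comp.fittingSubgroup_normal G
      haveI hFnil : Group.IsNilpotent F := Cfsg.Agent.Lib.Helper3_Comp.fittingSubgroup_isNilpotent G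
      have hFp : ¬ p ∣ Nat.card F := by
        intro hdvd
        obtain ⟨P⟩ : Nonempty (Sylow p F) := inferInstance
        haveI hPn : (P : Subgroup F).Normal := inferInstance
        haveI hPc : (P : Subgroup F).Characteristic := P.characteristic_of_normal hPn
        have h1 : ((P : Subgroup F).map F.subtype).Normal := inferInstance
        have h2 := hA _ h1 (P.isPGroup'.map _)
        apply P.ne_bot_of_dvd_card hdvd
        rw [← (Subgroup.map_eq_bot_iff_of_injective _ F.subtype_injective), h2]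
      have hcent : ∀ y : G, (orderOf y).Coprime p →
          y ∈ Subgroup.centralizer (F : Set G) := by
        intro y hy
        obtain ⟨k, hk⟩ := hyp y hy
        have h1 : (Subgroup.centralizer ({y} : Set G)).relIndex F ∣ p ^ k :=
          hk ▸ relIndex_normal_dvd_index _ F
        have h2 : (Subgroup.centralizer ({y} : Set G)).relIndex F ∣ Nat.card F :=
          Subgroup.relIndex_dvd_card _ _
        have h3 : (Subgroup.centralizer ({y} : Set G)).relIndex F = 1 := by
          apply Nat.eq_one_of_dvd_coprimes _ h1 h2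
          exact Nat.Coprime.pow_left _ ((Nat.Prime.coprime_iff_not_dvd hp).2 hFp)
        rw [Subgroup.relIndex_eq_one] at h3
        rw [Subgroup.mem_centralizer_iff]
        intro f hf
        exact (Subgroup.mem_centralizer_singleton_iff.1 (h3 hf))
      have hCF : Subgroup.centralizer (F : Set G) ≤ F :=
        Cfsg.Agent.Lib.Helper3_Comp.solvable_subnormal_le_fitting
          (inferInstance : (Subgroup.centralizer (F : Set G)).Normal).isSubnormal
          inferInstance le_rfl
      have hreg : ∀ y : G, (orderOf y).Coprime p → y ∈ F := fun y hy => hCF (hcent y hy)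
      refine ⟨F, ⟨⟨fun a b => ?_⟩⟩, hFp, ?_⟩
      · apply Subtype.ext
        have ha : (orderOf (a : G)).Coprime p := by
          rw [Subgroup.orderOf_coe]
          exact Nat.Coprime.coprime_dvd_left (orderOf_dvd_natCard a)
            ((Nat.Prime.coprime_iff_not_dvd hp).2 hFp).symm
        exact ((Subgroup.mem_centralizer_iff.1 (hcent a ha)) b b.2).symm
      · exact IsPGroup.iff_card.1 (isPGroup_of_no_regular hp F hreg)

theorem conj_into_aux {p : ℕ} (hp : p.Prime) (n : ℕ) : ∀ (G : Type u) [Group G] [Finite G],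
    Nat.card G = n → ∀ H : Subgroup G, IsMulCommutative H → ¬ p ∣ Nat.card H →
    (∃ k : ℕ, H.index = p ^ k) → ∀ x : G, (orderOf x).Coprime p → ∃ g : G, g⁻¹ * x * g ∈ H := by
  induction n using Nat.strong_induction_on with
  | _ n ih =>
    intro G _ _ hn H hHc hHp hHk x hx
    obtain ⟨k, hk⟩ := hHk
    by_cases hx1 : x = 1
    · exact ⟨1, by rw [hx1]; simp⟩
    have hox : orderOf x ≠ 1 := fun h => hx1 (orderOf_eq_one_iff.1 h)
    obtain ⟨q, hq, hqx⟩ := Nat.exists_prime_and_dvd hox
    haveI : Fact q.Prime := ⟨hq⟩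
    have hqp : q ≠ p := by
      rintro rfl
      exact (Nat.Prime.coprime_iff_not_dvd hq).1 hx.symm hqx
    set j := orderOf x / q with hj
    have hyo : orderOf (x ^ j) = q := orderOf_pow_orderOf_div (orderOf_pos x).ne' hqx
    -- conjugate `x ^ j` into `H`
    have hfix : ∃ g : G, g⁻¹ * (x ^ j) * g ∈ H := by
      have hpg : IsPGroup q (Subgroup.zpowers (x ^ j)) :=
        IsPGroup.of_card (n := 1) (by rw [Nat.card_zpowers, hyo, pow_one])
      have hnd : ¬ q ∣ Nat.card (G ⧸ H) := by
        show ¬ q ∣ H.index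
        rw [hk]
        intro h
        exact hqp ((Nat.prime_dvd_prime_iff_eq hq hp).1 (hq.dvd_of_dvd_pow h))
      obtain ⟨c, hc⟩ := hpg.nonempty_fixed_point_of_prime_not_dvd_card (G ⧸ H) hnd
      obtain ⟨g, rfl⟩ := QuotientGroup.mk_surjective c
      refine ⟨g, ?_⟩
      have h1 := hc ⟨x ^ j, Subgroup.mem_zpowers _⟩
      have h2 : ((x ^ j * g : G) : G ⧸ H) = (g : G ⧸ H) := h1
      have h3 := QuotientGroup.eq.1 h2.symm
      rwa [← mul_assoc] at h3
    obtain ⟨g, hg⟩ := hfix
    set x' := g⁻¹ * x * g with hx'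
    have hx'o : orderOf x' = orderOf x := by
      have := orderOf_conj g⁻¹ x
      rwa [inv_inv] at this
    have hy' : x' ^ j ∈ H := by
      have : x' ^ j = g⁻¹ * x ^ j * g := by
        have := conj_pow (a := g⁻¹) (b := x) (i := j)
        rwa [inv_inv] at this
      rwa [this]
    have hy'o : orderOf (x' ^ j) = q := by
      rw [hj, ← hx'o]
      exact orderOf_pow_orderOf_div (orderOf_pos x').ne' (hx'o ▸ hqx)
    have hy'1 : x' ^ j ≠ 1 := by
      intro h
      rw [h, orderOf_one] at hy'o
      exact hq.one_lt.ne hy'o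
    set C := Subgroup.centralizer ({x' ^ j} : Set G) with hC
    have hHC : H ≤ C := by
      intro h hh
      rw [hC, Subgroup.mem_centralizer_singleton_iff]
      exact congrArg Subtype.val (mul_comm' (⟨h, hh⟩ : H) ⟨x' ^ j, hy'⟩)
    have hx'C : x' ∈ C := by
      rw [hC, Subgroup.mem_centralizer_singleton_iff, ← pow_succ', ← pow_succ]
    suffices hsuff : ∃ c : G, c⁻¹ * x' * c ∈ H by
      obtain ⟨c, hc⟩ := hsuff
      refine ⟨g * c, ?_⟩
      have : (g * c)⁻¹ * x * (g * c) = c⁻¹ * x' * c := by rw [hx']; group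
      rwa [this]
    by_cases hCtop : C = ⊤
    · -- central case
      have hcen : ∀ a : G, a * x' ^ j = x' ^ j * a := by
        intro a
        have : a ∈ C := hCtop ▸ Subgroup.mem_top a
        exact Subgroup.mem_centralizer_singleton_iff.1 this
      set N := Subgroup.zpowers (x' ^ j) with hN
      have hNH : N ≤ H := by rw [hN, Subgroup.zpowers_le]; exact hy'
      haveI hNn : N.Normal := by
        refine ⟨fun m hm a => ?_⟩
        obtain ⟨t, rfl⟩ := Subgroup.mem_zpowers_iff.1 hm
        have : a * (x' ^ j) ^ t * a⁻¹ = (x' ^ j) ^ t := by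
          have hc : Commute a (x' ^ j) := hcen a
          rw [(hc.zpow_right t).eq, mul_inv_cancel_right]
        rw [this]
        exact hm
      have hNne : N ≠ ⊥ := by
        intro h
        apply hy'1
        have : x' ^ j ∈ N := Subgroup.mem_zpowers _
        rwa [h, Subgroup.mem_bot] at this
      have hcardlt : Nat.card (G ⧸ N) < n := by
        show N.index < n
        rw [← hn, ← N.card_mul_index]
        exact lt_mul_of_one_lt_left (Nat.pos_of_ne_zero Subgroup.FiniteIndex.index_ne_zero)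
          ((Subgroup.one_lt_card_iff_ne_bot N).2 hNne)
      obtain ⟨cb, hcb⟩ := ih _ hcardlt (G ⧸ N) rfl (H.map (QuotientGroup.mk' N)) inferInstance
        (fun h => hHp (h.trans (Subgroup.card_map_dvd _ _)))
        (pow_of_dvd hp (k := k) (hk ▸ Subgroup.index_map_dvd H (QuotientGroup.mk'_surjective N)))
        (QuotientGroup.mk' N x')
        (Nat.Coprime.coprime_dvd_left (orderOf_map_dvd _ _) (hx'o ▸ hx))
      obtain ⟨c, rfl⟩ := QuotientGroup.mk'_surjective N cb
      refine ⟨c, ?_⟩
      rw [← map_inv, ← map_mul, ← map_mul] at hcb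
      obtain ⟨h, hh, hhc⟩ := hcb
      have h1 : h⁻¹ * (c⁻¹ * x' * c) ∈ N := QuotientGroup.eq.1 hhc
      have h2 : c⁻¹ * x' * c = h * (h⁻¹ * (c⁻¹ * x' * c)) := by group
      rw [h2]
      exact H.mul_mem hh (hNH h1)
    · have hcardlt : Nat.card C < n := by
        rw [← hn]
        refine lt_of_le_of_ne (Subgroup.card_le_card_group _) (fun h => hCtop ?_)
        exact Subgroup.eq_top_of_card_eq _ h
      have hcardH : Nat.card (H.subgroupOf C) = Nat.card H := by
        rw [← Subgroup.card_map_of_injective C.subtype_injective,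
          Subgroup.map_subgroupOf_eq_of_le hHC]
      obtain ⟨c, hc⟩ := ih _ hcardlt C rfl (H.subgroupOf C) inferInstance
        (by rwa [hcardH])
        (pow_of_dvd hp (k := k) (hk ▸ Subgroup.relIndex_dvd_index_of_le hHC))
        ⟨x', hx'C⟩ (by rw [← Subgroup.orderOf_coe]; exact hx'o ▸ hx)
      exact ⟨c, hc⟩

theorem ncard_carrier {G : Type*} [Group G] (x : G) :
    (ConjClasses.mk x).carrier.ncard = (Subgroup.centralizer ({x} : Set G)).index := by
  rw [index_centralizer_eq_card_class, ← Nat.card_coe_set_eq]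
  apply Nat.card_congr
  apply Equiv.subtypeEquivRight
  intro y
  rw [ConjClasses.mem_carrier_iff_mk_eq, ConjClasses.mk_eq_mk_iff_isConj]
  exact isConj_comm

/-- Let G be a finite group and p a prime. Every conjugacy class of p-regular elements of G (elements of order prime to p) has p-power size if and only if G has an abelian p-complement, i.e. an abelian subgroup of order prime to p and p-power index. -/
theorem result {G : Type*} [Group G] [Finite G] {p : ℕ} (hp : p.Prime) :
    (∀ x : G, (orderOf x).Coprime p → ∃ k : ℕ, (ConjClasses.mk x).carrier.ncard = p ^ k) ↔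
    (∃ H : Subgroup G, IsMulCommutative H ∧ ¬ p ∣ Nat.card H ∧ ∃ k : ℕ, H.index = p ^ k) := by
  simp only [ncard_carrier]
  constructor
  · intro h
    haveI : Group.IsSolvable G := solvable_aux hp _ G rfl h
    exact forward_aux hp _ G rfl h
  · rintro ⟨H, hHc, hHp, k, hk⟩ x hx
    obtain ⟨g, hg⟩ := conj_into_aux hp _ G rfl H hHc hHp ⟨k, hk⟩ x hx
    apply pow_of_dvd hp (k := k)
    rw [← hk, ← Subgroup.index_map_of_bijective (f := (MulAut.conj g).toMonoidHom)
      (MulAut.conj g).bijective H]
    apply Subgroup.index_dvd_of_le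
    rintro _ ⟨h, hh, rfl⟩
    rw [Subgroup.mem_centralizer_singleton_iff]
    have h1 : h * (g⁻¹ * x * g) = (g⁻¹ * x * g) * h :=
      congrArg Subtype.val (mul_comm' (⟨h, hh⟩ : H) ⟨_, hg⟩)
    show g * h * g⁻¹ * x = x * (g * h * g⁻¹)
    calc g * h * g⁻¹ * x = g * (h * (g⁻¹ * x * g)) * g⁻¹ := by group
      _ = g * ((g⁻¹ * x * g) * h) * g⁻¹ := by rw [h1]
      _ = x * (g * h * g⁻¹) := by group

end Cfsg.Agent.S4034
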