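import Cfsg.Statements.S4036
import Cfsg.Agent.Lib.Helper4_Cop

set_option autoImplicit false
open Cfsg

namespace Cfsg.Agent.S4036

open Cfsg.Agent.Lib.Helper4_Cop

/-- Let P be a finite abelian p-group and K a group of automorphisms of P (a subgroup of Aut P) whose order is divisible by p. If all non-identity elements of K have the same fixed-point subgroup on P, then K has no non-trivial normal subgroup of order prime to p. -/
theorem result {P : Type*} [CommGroup P] [Finite P] {p : ℕ}
    [Fact p.Prime] (hP : IsPGroup p P) (K : Subgroup (MulAut P)) (hK : p ∣ Nat.card K)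
    (hfix : ∀ x y : MulAut P, x ∈ K → y ∈ K → x ≠ 1 → y ≠ 1 → ∀ v : P, x v = v ↔ y v = v) :
    ∀ N : Subgroup ↥K, N.Normal → ¬ p ∣ Nat.card N → N = ⊥ := by
  classical
  intro N hN hpN
  by_contra hne
  obtain ⟨n₀, hn₀1⟩ := (Subgroup.ne_bot_iff_exists_ne_one).1 hne
  obtain ⟨x, hx⟩ := exists_prime_orderOf_dvd_card' p hK
  haveI := Fintype.ofFinite N
  haveI := Fintype.ofFinite P
  have hpp : p.Prime := Fact.out
  let τ : P →* P :=
    { toFun := fun v => ∏ n : N, (((n : K) : MulAut P)) v
      map_one' := by simp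
      map_mul' := fun a b => by simp [Finset.prod_mul_distrib] }
  have hτ : ∀ v, τ v = ∏ n : N, (((n : K) : MulAut P)) v := fun v => rfl
  have hτfix : ∀ (n : N) (v : P), (((n : K) : MulAut P)) (τ v) = τ v := by
    intro n v
    rw [hτ, map_prod]
    exact Fintype.prod_equiv (Equiv.mulLeft n) _ _ (fun n' => rfl)
  have hτK : ∀ (k : K) (v : P), τ ((k : MulAut P) v) = (k : MulAut P) (τ v) := by
    intro k v
    rw [hτ, hτ, map_prod]
    refine (Fintype.prod_equiv (MulAut.conjNormal k : N ≃* N).toEquiv _ _ (fun n => ?_)).symm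
    show (k : MulAut P) ((((n : K) : MulAut P)) v) =
      ((((MulAut.conjNormal k n : N) : K) : MulAut P)) ((k : MulAut P) v)
    rw [MulAut.conjNormal_apply]
    simp
  have hx1 : (x : MulAut P) ≠ 1 := by
    intro h
    have : x = 1 := Subtype.ext h
    rw [this, orderOf_one] at hx
    exact hpp.one_lt.ne hx
  have hn₀' : ((n₀ : K) : MulAut P) ≠ 1 := by
    intro h
    exact hn₀1 (Subtype.ext (Subtype.ext h))
  have hcop : (Nat.card N).Coprime p := ((Nat.Prime.coprime_iff_not_dvd hpp).2 hpN).symm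
  have hFτ : ∀ v : P, (x : MulAut P) v = v → τ v = v ^ Nat.card N := by
    intro v hv
    rw [hτ, Nat.card_eq_fintype_card, ← Finset.card_univ, ← Finset.prod_const]
    refine Finset.prod_congr rfl (fun n _ => ?_)
    by_cases hn : ((n : K) : MulAut P) = 1
    · rw [hn]; rfl
    · exact (hfix _ _ x.2 (n : K).2 hx1 hn v).1 hv
  let f : Function.End τ.ker := fun v => ⟨(x : MulAut P) v, by
    rw [MonoidHom.mem_ker, hτK, MonoidHom.mem_ker.1 v.2, map_one]⟩
  have hfpow : ∀ (k : ℕ) (v : τ.ker), (((f ^ k) v : τ.ker) : P) = ((x : MulAut P) ^ k) v := by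
    intro k
    induction k with
    | zero => intro v; rfl
    | succ k ih =>
      intro v
      rw [pow_succ', pow_succ']
      show (x : MulAut P) (((f ^ k) v : τ.ker) : P) = (x : MulAut P) (((x : MulAut P) ^ k) v)
      rw [ih]
  have hfp : f ^ p ^ 1 = 1 := by
    funext v
    apply Subtype.ext
    have hxp : (x : MulAut P) ^ p = 1 := by
      have := congrArg Subtype.val (pow_orderOf_eq_one x)
      rwa [hx, Subgroup.coe_pow, Subgroup.coe_one] at this
    rw [pow_one, hfpow, hxp]
    rfl
  have h1 := Equiv.Perm.card_fixedPoints_modEq hfp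
  have h2 : Fintype.card (Function.fixedPoints f) = 1 := by
    rw [Fintype.card_eq_one_iff]
    refine ⟨⟨1, Subtype.ext (map_one _)⟩, ?_⟩
    rintro ⟨v, hv⟩
    apply Subtype.ext
    apply Subtype.ext
    have h3 : (x : MulAut P) (v : P) = v := congrArg Subtype.val hv
    have h4 := hFτ _ h3
    rw [MonoidHom.mem_ker.1 v.2] at h4
    obtain ⟨j, hj⟩ := hP (v : P)
    exact eq_one_of_coprime_pow h4.symm hj (Nat.Coprime.pow_right j hcop)
  have hker : τ.ker = ⊥ := by
    obtain ⟨j, hj⟩ := IsPGroup.iff_card.1 (hP.to_subgroup τ.ker)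
    rw [h2, ← Nat.card_eq_fintype_card, hj] at h1
    rcases Nat.eq_zero_or_pos j with rfl | hjpos
    · rw [pow_zero] at hj
      exact Subgroup.card_eq_one.1 hj
    · exfalso
      have h5 : p ^ j ≡ 0 [MOD p] := (Nat.modEq_zero_iff_dvd).2 (dvd_pow_self p hjpos.ne')
      have h6 : (0 : ℕ) ≡ 1 [MOD p] := h5.symm.trans h1
      have h7 := (Nat.modEq_zero_iff_dvd.1 h6.symm)
      exact hpp.one_lt.ne' (Nat.dvd_one.1 h7)
  have hinj : Function.Injective τ := (MonoidHom.ker_eq_bot_iff τ).1 hker
  have hsurj : Function.Surjective τ := Finite.surjective_of_injective hinj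
  apply hn₀'
  ext v
  obtain ⟨w, rfl⟩ := hsurj v
  exact hτfix n₀ w

end Cfsg.Agent.S4036
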