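import Cfsg.Statements.S4043
import Cfsg.Agent.Lib.Helper4_PSol
import Cfsg.Agent.Lib.Helper1_SZ
import Cfsg.Agent.Lib.Helper3_Local
import Cfsg.Agent.Lib.Helper4_Nilp
import Cfsg.Agent.Lib.Helper4_Syl

set_option autoImplicit false
open Cfsg

namespace Cfsg.Agent.S4043

theorem npc_data {G : Type*} [Group G] [Finite G] {p : ℕ} [Fact p.Prime] (A : Subgroup G)
    (h : Cfsg.HasNormalPComplement p A) :
    ∃ K S : Subgroup G, K ≤ A ∧ S ≤ A ∧ A ≤ Subgroup.normalizer (K : Set G) ∧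
      (Nat.card K).Coprime p ∧ IsPGroup p S ∧ ∀ a ∈ A, ∃ k ∈ K, ∃ s ∈ S, a = k * s := by
  obtain ⟨P, K', hn, hc⟩ := h
  refine ⟨K'.map A.subtype, (P : Subgroup A).map A.subtype, Subgroup.map_subtype_le _,
    Subgroup.map_subtype_le _, ?_, ?_, ?_, ?_⟩
  · rw [← Subgroup.normal_subgroupOf_iff_le_normalizer (Subgroup.map_subtype_le _)]
    have : (K'.map A.subtype).subgroupOf A = K' :=
      Subgroup.comap_map_eq_self_of_injective A.subtype_injective K'
    rw [this]; exact hn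
  · rw [Subgroup.card_map_of_injective A.subtype_injective, ← hc.index_eq_card]
    exact ((Nat.Prime.coprime_iff_not_dvd Fact.out).2 P.not_dvd_index).symm
  · exact P.2.map _
  · intro a ha
    obtain ⟨⟨k, s⟩, hks⟩ := hc.2 ⟨a, ha⟩
    exact ⟨k.1, ⟨k.1, k.2, rfl⟩, s.1, ⟨s.1, s.2, rfl⟩, (congrArg Subtype.val hks).symm⟩

theorem le_sup_aux {G : Type*} [Group G] [Finite G] {p : ℕ} [Fact p.Prime] (N : Subgroup G)
    [N.Normal] (A : Subgroup G) (hA : A.IsComplement' N) (K S K₁ : Subgroup G) (hKA : K ≤ A)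
    (hAK : A ≤ Subgroup.normalizer (K : Set G)) (hS : IsPGroup p S)
    (hks : ∀ a ∈ A, ∃ k ∈ K, ∃ s ∈ S, a = k * s) (hK₁ : (Nat.card K₁).Coprime p) :
    K₁ ≤ K ⊔ N := by
  have hform : ∀ g : G, ∃ a ∈ A, ∃ n ∈ N, g = a * n := by
    intro g
    obtain ⟨⟨a, n⟩, h⟩ := hA.2 g
    exact ⟨a.1, a.2, n.1, n.2, h.symm⟩
  have hMn : (K ⊔ N).Normal := by
    rw [← Subgroup.normalizer_eq_top_iff, eq_top_iff]
    intro g _
    obtain ⟨a, ha, n, hn, rfl⟩ := hform g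
    have h1 : A ≤ Subgroup.normalizer ((K ⊔ N : Subgroup G) : Set G) :=
      hAK.trans Subgroup.normalizer_le_normalizer_sup_normal
    exact Subgroup.mul_mem _ (h1 ha) (Subgroup.le_normalizer (Subgroup.mem_sup_right hn))
  intro x hx
  obtain ⟨a, ha, n, hn, rfl⟩ := hform x
  obtain ⟨k, hk, s, hs, rfl⟩ := hks a ha
  obtain ⟨j, hj⟩ := hS ⟨s, hs⟩
  have hsj : s ^ (p ^ j) = 1 := congrArg Subtype.val hj
  have h1 : (QuotientGroup.mk' (K ⊔ N)) (k * s * n) = (QuotientGroup.mk' (K ⊔ N)) s := by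
    have e1 : (QuotientGroup.mk' (K ⊔ N)) k = 1 :=
      (QuotientGroup.eq_one_iff k).2 (Subgroup.mem_sup_left hk)
    have e2 : (QuotientGroup.mk' (K ⊔ N)) n = 1 :=
      (QuotientGroup.eq_one_iff n).2 (Subgroup.mem_sup_right hn)
    rw [map_mul, map_mul, e1, e2, one_mul, mul_one]
  have h2 : (k * s * n) ^ (p ^ j) ∈ K ⊔ N := by
    rw [← QuotientGroup.eq_one_iff]
    show (QuotientGroup.mk' (K ⊔ N)) ((k * s * n) ^ (p ^ j)) = 1
    rw [map_pow, h1, ← map_pow, hsj, map_one]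
  have h3 : (k * s * n) ^ (Nat.card K₁) ∈ K ⊔ N := by
    have : (⟨k * s * n, hx⟩ : K₁) ^ (Nat.card K₁) = 1 := pow_card_eq_one'
    have h4 : (k * s * n) ^ (Nat.card K₁) = 1 := congrArg Subtype.val this
    rw [h4]; exact one_mem _
  exact Cfsg.Agent.Lib.Helper4_PSol.mem_of_pow_mem_coprime h3 h2 (Nat.Coprime.pow_right _ hK₁)

open scoped Pointwise in

/-- Let G be a finite group that is the semidirect product of a normal p-subgroup N by a subgroup A, and also of N by a subgroup A₁, where p is a prime and A and A₁ both have normal p-complements. If C_N(A) = C_N(A₁) = 1, then A₁ is conjugate to A by an element of N. -/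
theorem result {G : Type*} [Group G] [Finite G] {p : ℕ}
    [Fact p.Prime] (N : Subgroup G) [N.Normal] (hN : IsPGroup p N) (A A₁ : Subgroup G)
    (hA : A.IsComplement' N) (hA₁ : A₁.IsComplement' N)
    (hAp : Cfsg.HasNormalPComplement p A) (hA₁p : Cfsg.HasNormalPComplement p A₁)
    (hC : ∀ n : G, n ∈ N → (∀ a : G, a ∈ A → a * n * a⁻¹ = n) → n = 1)
    (hC₁ : ∀ n : G, n ∈ N → (∀ a : G, a ∈ A₁ → a * n * a⁻¹ = n) → n = 1) :
    ∃ n : G, n ∈ N ∧ A₁ = A.map (MulAut.conj n).toMonoidHom := by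
  obtain ⟨K, S, hKA, hSA, hAK, hKp, hS, hks⟩ := npc_data A hAp
  obtain ⟨K₁, S₁, hKA₁, hSA₁, hAK₁, hKp₁, hS₁, hks₁⟩ := npc_data A₁ hA₁p
  have hL : K ⊔ N = K₁ ⊔ N :=
    le_antisymm (sup_le (le_sup_aux N A₁ hA₁ K₁ S₁ K hKA₁ hAK₁ hS₁ hks₁ hKp) le_sup_right)
      (sup_le (le_sup_aux N A hA K S K₁ hKA hAK hS hks hKp₁) le_sup_right)
  have hdA : Disjoint A N := hA.disjoint
  have hdA₁ : Disjoint A₁ N := hA₁.disjoint
  have hr : N.relIndex (K ⊔ N) = Nat.card K :=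
    Cfsg.Agent.Lib.Helper1_SZ.relIndex_sup_eq_card_of_disjoint (hdA.mono_left hKA)
  have hr₁ : N.relIndex (K ⊔ N) = Nat.card K₁ := by
    rw [hL]
    exact Cfsg.Agent.Lib.Helper1_SZ.relIndex_sup_eq_card_of_disjoint (hdA₁.mono_left hKA₁)
  obtain ⟨e, he⟩ := hN.exists_card_eq
  obtain ⟨x, hxN, hx⟩ := Cfsg.Agent.Lib.Helper1_SZ.SZ_rel_conj (N := N) (L := K ⊔ N) (X := K)
    (Y := K₁) le_sup_right (by rw [Subgroup.normalizer_eq_top]; exact le_top)
    (by rw [hr, he]; exact (Nat.Coprime.pow_right _ hKp).symm)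
    (Or.inl (Cfsg.Agent.Lib.Helper3_Local.isSolvable_of_isPGroup hN)) le_sup_left
    (hL ▸ le_sup_left) hr.symm hr₁.symm
  refine ⟨x, hxN, ?_⟩
  -- the key claim
  have hD : Subgroup.normalizer (K₁ : Set G) ⊓ N = ⊥ := by
    by_contra hne
    set D := Subgroup.normalizer (K₁ : Set G) ⊓ N with hDdef
    have hDK : ∀ d ∈ D, ∀ k ∈ K₁, k * d * k⁻¹ = d := by
      intro d hd k hk
      have h1 : d * k⁻¹ * d⁻¹ ∈ K₁ :=
        (Subgroup.mem_normalizer_iff.1 hd.1 _).1 (K₁.inv_mem hk)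
      have h2 : k * (d * k⁻¹ * d⁻¹) ∈ K₁ := K₁.mul_mem hk h1
      have h3 : k * (d * k⁻¹ * d⁻¹) ∈ N := by
        have : k * d * k⁻¹ ∈ N := (inferInstance : N.Normal).conj_mem d hd.2 k
        have h4 := N.mul_mem this (N.inv_mem hd.2)
        have e : k * (d * k⁻¹ * d⁻¹) = k * d * k⁻¹ * d⁻¹ := by group
        rw [e]; exact h4
      have h5 : k * (d * k⁻¹ * d⁻¹) = 1 := by
        have := (hdA₁.mono_left hKA₁).le_bot ⟨h2, h3⟩
        exact this
      calc k * d * k⁻¹ = (k * (d * k⁻¹ * d⁻¹)) * d := by group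
        _ = d := by rw [h5, one_mul]
    have hA₁D : A₁ ≤ Subgroup.normalizer (D : Set G) :=
      (le_inf (hAK₁.trans Subgroup.le_normalizer)
        (by rw [Subgroup.normalizer_eq_top]; exact le_top)).trans
        Subgroup.inf_normalizer_le_normalizer_inf
    have hDp : IsPGroup p D := hN.to_le inf_le_right
    have hTp : IsPGroup p (S₁ ⊔ D : Subgroup G) :=
      IsPGroup.to_sup_of_normal_right' hS₁ hDp (hSA₁.trans hA₁D)
    have : Group.IsNilpotent (S₁ ⊔ D : Subgroup G) := hTp.isNilpotent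
    have : (D.subgroupOf (S₁ ⊔ D)).Normal :=
      (Subgroup.normal_subgroupOf_iff_le_normalizer le_sup_right).2
        (sup_le (hSA₁.trans hA₁D) Subgroup.le_normalizer)
    have hne' : D.subgroupOf (S₁ ⊔ D) ≠ ⊥ := by
      intro h
      rw [Subgroup.subgroupOf_eq_bot, disjoint_iff, inf_eq_left.2 le_sup_right] at h
      exact hne h
    have h6 := Cfsg.Agent.Lib.Helper4_Nilp.normal_inf_center_ne_bot _ hne'
    obtain ⟨z, hz1⟩ := Subgroup.ne_bot_iff_exists_ne_one.1 h6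
    obtain ⟨hzD, hzc⟩ := z.2
    apply hz1
    apply Subtype.ext
    apply Subtype.ext
    show (z.1.1 : G) = 1
    apply hC₁ z.1.1 (Subgroup.mem_subgroupOf.1 hzD).2
    intro a ha
    obtain ⟨k, hk, s, hs, rfl⟩ := hks₁ a ha
    have h7 := Subgroup.mem_center_iff.1 hzc ⟨s, Subgroup.mem_sup_left hs⟩
    have h8 : s * z.1.1 = z.1.1 * s := congrArg Subtype.val h7
    have h9 := hDK z.1.1 (Subgroup.mem_subgroupOf.1 hzD) k hk
    calc k * s * z.1.1 * (k * s)⁻¹ = k * (s * z.1.1) * s⁻¹ * k⁻¹ := by group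
      _ = k * (z.1.1 * s) * s⁻¹ * k⁻¹ := by rw [h8]
      _ = k * z.1.1 * k⁻¹ := by group
      _ = z.1.1 := h9
  have hle : A.map (MulAut.conj x).toMonoidHom ≤ A₁ := by
    rintro _ ⟨a, ha, rfl⟩
    show x * a * x⁻¹ ∈ A₁
    obtain ⟨⟨a₁, n⟩, h⟩ := hA₁.2 (x * a * x⁻¹)
    simp only at h
    have h1 : x * a * x⁻¹ ∈ Subgroup.normalizer (K₁ : Set G) := by
      rw [← hx, Cfsg.Agent.Lib.Helper4_Syl.normalizer_conj]
      exact ⟨a, hAK ha, rfl⟩
    have h2 : (n : G) ∈ Subgroup.normalizer (K₁ : Set G) ⊓ N := by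
      refine ⟨?_, n.2⟩
      have e : (n : G) = (a₁ : G)⁻¹ * (x * a * x⁻¹) := by rw [← h]; group
      rw [e]
      exact Subgroup.mul_mem _ (Subgroup.inv_mem _ (hAK₁ a₁.2)) h1
    rw [hD, Subgroup.mem_bot] at h2
    rw [← h, h2, mul_one]
    exact a₁.2
  symm
  apply Subgroup.eq_of_le_of_card_ge hle
  rw [Subgroup.card_map_of_injective (MulAut.conj x).injective]
  have c1 := hA.card_mul_card
  have c2 := hA₁.card_mul_card
  have hNpos : 0 < Nat.card N := Nat.card_pos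
  have : Nat.card A₁ = Nat.card A := Nat.eq_of_mul_eq_mul_right hNpos (c2.trans c1.symm)
  exact this.le

end Cfsg.Agent.S4043
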