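import Cfsg.Statements.S4056
import Cfsg.Agent.Lib.Helper1_Class2
import Cfsg.Agent.S0013

set_option autoImplicit false
open Cfsg

namespace Cfsg.Agent.S4056

open Subgroup Cfsg.Agent.Lib.Helper1_Class2
open scoped commutatorElement

/-- In a finite 2-group of nilpotency class at most 2 and exponent dividing 4, the Frattini subgroup lies in the centre and is elementary abelian. -/
theorem result {P : Type*} [Group P] [Finite P] (hP : IsPGroup 2 P)
    (hcl : Group.nilpotencyClass P ≤ 2) (hexp : Monoid.exponent P ∣ 4) :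
    frattini P ≤ Subgroup.center P ∧ Cfsg.IsElementaryAbelian 2 (frattini P) := by
  classical
  haveI : Fact (Nat.Prime 2) := ⟨Nat.prime_two⟩
  haveI : Group.IsNilpotent P := hP.isNilpotent
  have hu : Subgroup.upperCentralSeries P 2 = ⊤ := Subgroup.upperCentralSeries_eq_top_iff_nilpotencyClass_le.mpr hcl
  have hcl2 : Cl2 P := by
    intro x y
    have hx : x ∈ Subgroup.upperCentralSeries P (1 + 1) := by rw [show (1 + 1 : ℕ) = 2 from rfl, hu]; exact mem_top x
    rw [Subgroup.mem_upperCentralSeries_succ_iff] at hx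
    have := hx y
    rwa [Subgroup.upperCentralSeries_one] at this
  have h4 : ∀ x : P, x ^ 4 = 1 := fun x => by
    obtain ⟨k, hk⟩ := hexp
    rw [hk, pow_mul, Monoid.pow_exponent_eq_one, one_pow]
  have hc2 : ∀ x y : P, ⁅x, y⁆ ^ 2 = 1 := by
    intro y x
    have h1 := mul_pow' hcl2 x y 4
    rw [h4, h4, h4, one_mul, one_mul] at h1
    have h2 : ⁅y, x⁆ ^ 4 = 1 := by
      rw [← comm_pow_left hcl2, h4]; simp
    have h3 : (Nat.choose 4 2) = 4 + 2 := by decide
    rw [h3, pow_add, h2, one_mul] at h1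
    exact h1.symm
  have hsq : ∀ x : P, x ^ 2 ∈ center P := by
    intro x
    rw [mem_center_iff]
    intro y
    have h1 : ⁅x ^ 2, y⁆ = 1 := by rw [comm_pow_left hcl2, hc2]
    rw [commutatorElement_eq_one_iff_mul_comm] at h1
    exact h1.symm
  let N : Subgroup P :=
    { carrier := {z | z ∈ center P ∧ z ^ 2 = 1}
      one_mem' := ⟨one_mem _, one_pow _⟩
      mul_mem' := by
        rintro a b ⟨ha, ha2⟩ ⟨hb, hb2⟩
        refine ⟨mul_mem ha hb, ?_⟩
        have : Commute a b := (mem_center_iff.mp ha b).symm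
        rw [this.mul_pow, ha2, hb2, one_mul]
      inv_mem' := by
        rintro a ⟨ha, ha2⟩
        exact ⟨inv_mem ha, by rw [inv_pow, ha2, inv_one]⟩ }
  have hNmem : ∀ z, z ∈ N ↔ z ∈ center P ∧ z ^ 2 = 1 := fun z => Iff.rfl
  haveI hNn : N.Normal := by
    constructor
    intro z hz g
    have : g * z * g⁻¹ = z := by
      rw [(mem_center_iff.mp hz.1 g)]; group
    rw [this]; exact hz
  have hcomm : commutator P ≤ N := by
    rw [commutator_eq_closure, closure_le]
    rintro z ⟨x, y, rfl⟩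
    exact ⟨hcl2 x y, hc2 x y⟩
  have hpow : ∀ x : P, x ^ 2 ∈ N := fun x => ⟨hsq x, by rw [← pow_mul]; exact h4 x⟩
  have hF := Cfsg.Agent.S0013.result 2 hP N hcomm hpow
  refine ⟨fun z hz => (hF hz).1, ⟨⟨fun a b => ?_⟩⟩, fun a ha => (hF ha).2⟩
  exact Subtype.ext (mem_center_iff.mp (hF a.2).1 b).symm

end Cfsg.Agent.S4056
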