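import Mathlib
import Cfsg.Agent.Lib.helper8_FS
import Cfsg.Agent.Lib.CharLinCount
import Cfsg.Agent.S0012
import Cfsg.Statements.S4058

set_option autoImplicit false
open Cfsg

namespace Cfsg.Agent.S4058


open Cfsg.Agent.Lib.CharBasic Cfsg.Agent.Lib.CharOrtho Cfsg.Agent.Lib.CharComplete
  Cfsg.Agent.Lib.CharMore Cfsg.Agent.Lib.CharFS Cfsg.Agent.Lib.CharLinear
  Cfsg.Agent.Lib.CharCover2 Cfsg.Agent.Lib.CharLinCount Cfsg.Agent.Lib.helper8_FS
open scoped ComplexConjugate commutatorElement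

universe u v

/-- a sum of an invariant integer function is divisible by `m` if each orbit contribution is -/
theorem dvd_sum_of_orbits {L X : Type*} [Group L] [MulAction L X] [Fintype X] (f : X → ℤ)
    (hf : ∀ (l : L) x, f (l • x) = f x) (m : ℤ)
    (h : ∀ x, m ∣ (Nat.card (MulAction.orbit L x) : ℤ) * f x) : m ∣ ∑ x, f x := by
  classical
  rw [Finset.sum_partition (MulAction.orbitRel L X)]
  apply Finset.dvd_sum
  intro q _
  induction q using Quotient.inductionOn with
  | h x =>
    have h1 : ∀ y ∈ Finset.univ.filter (fun y : X => (Quotient.mk (MulAction.orbitRel L X) y) =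
        Quotient.mk (MulAction.orbitRel L X) x), f y = f x := by
      intro y hy
      rw [Finset.mem_filter] at hy
      have h2 := Quotient.exact hy.2
      obtain ⟨l, hl⟩ := (MulAction.orbitRel_apply.1 h2)
      rw [← hl]
      exact hf l x
    rw [Finset.sum_congr rfl h1, Finset.sum_const, nsmul_eq_mul]
    have h3 : (Finset.univ.filter (fun y : X => (Quotient.mk (MulAction.orbitRel L X) y) =
        Quotient.mk (MulAction.orbitRel L X) x)).card = Nat.card (MulAction.orbit L x) := by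
      rw [Nat.card_eq_fintype_card, Fintype.card_subtype]
      congr 1
      ext y
      simp only [Finset.mem_filter, Finset.mem_univ, true_and]
      rw [Quotient.eq]
      exact MulAction.orbitRel_apply
    rw [h3]
    exact h x

section

variable {G : Type u} [Group G] [Fintype G] {E : Type v} [CommGroup E] (π : G →* E)

/-- the twisting action of the dual of a quotient on the irreducible characters -/
noncomputable def twistAction : MulAction (E →* ℂˣ) (IrrCharacter G) where
  smul l χ := ⟨(fun g => (((l.comp π) g : ℂˣ) : ℂ)) * (χ : G → ℂ), isIrr_hom_mul (l.comp π) χ.2⟩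
  one_smul χ := by
    apply Subtype.ext
    funext g
    show ((((1 : E →* ℂˣ).comp π) g : ℂˣ) : ℂ) * (χ : G → ℂ) g = (χ : G → ℂ) g
    simp
  mul_smul l l' χ := by
    apply Subtype.ext
    funext g
    show ((((l * l').comp π) g : ℂˣ) : ℂ) * (χ : G → ℂ) g =
      (((l.comp π) g : ℂˣ) : ℂ) * ((((l'.comp π) g : ℂˣ) : ℂ) * (χ : G → ℂ) g)
    simp [mul_assoc]

theorem twist_apply (l : E →* ℂˣ) (χ : IrrCharacter G) (g : G) :
    ((letI := twistAction π; l • χ : IrrCharacter G) : G → ℂ) g =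
      ((l (π g) : ℂˣ) : ℂ) * (χ : G → ℂ) g := rfl

theorem card_stab_le [Finite E] (hπ : Function.Surjective π) (χ : IrrCharacter G) (a : ℕ)
    (ha : (χ : G → ℂ) 1 = a) :
    Nat.card (letI := twistAction π; MulAction.stabilizer (E →* ℂˣ) χ) ≤ a ^ 2 := by
  classical
  letI := twistAction π
  haveI : Finite (E →* ℂˣ) := by
    haveI : NeZero (Monoid.exponent E : ℂ) := ⟨by exact_mod_cast Monoid.exponent_ne_zero_of_finite⟩
    apply Nat.finite_of_card_ne_zero
    rw [CommGroup.card_monoidHom_of_hasEnoughRootsOfUnity]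
    exact Nat.card_pos.ne'
  haveI := Fintype.ofFinite (MulAction.stabilizer (E →* ℂˣ) χ)
  let F : MulAction.stabilizer (E →* ℂˣ) χ → IrrCharacter G := fun l =>
    ⟨fun g => ((((l : E →* ℂˣ).comp π) g : ℂˣ) : ℂ), isIrr_hom _⟩
  have hF : Function.Injective F := by
    intro l l' hll
    apply Subtype.ext
    ext e
    obtain ⟨g, rfl⟩ := hπ e
    have := congrFun (congrArg Subtype.val hll) g
    exact this
  have hΦ : IsCharacter G ((χ : G → ℂ) * (fun g => conj ((χ : G → ℂ) g))) :=
    isCharacter_mul (isCharacter_of_isIrr χ.2) (isCharacter_conj (isCharacter_of_isIrr χ.2))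
  have h1 := card_constituents_le hΦ (a := a ^ 2) (by simp [ha, sq])
    (Finset.univ.image F) (by
      intro ψ hψ
      rw [Finset.mem_image] at hψ
      obtain ⟨l, -, rfl⟩ := hψ
      have hl : (l : E →* ℂˣ) • χ = χ := l.2
      have h2 : classInner ((χ : G → ℂ) * (fun g => conj ((χ : G → ℂ) g))) (F l : G → ℂ) =
          classInner (χ : G → ℂ) (((l : E →* ℂˣ) • χ : IrrCharacter G) : G → ℂ) := by
        unfold classInner
        congr 1
        refine Finset.sum_congr rfl fun g _ => ?_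
        rw [twist_apply]
        simp only [Pi.mul_apply, map_mul, F, MonoidHom.comp_apply]
        ring
      rw [h2, hl, classInner_irr_self χ.2]
      exact one_ne_zero)
  rw [Finset.card_image_of_injective _ hF, Finset.card_univ, ← Nat.card_eq_fintype_card] at h1
  exact h1

theorem main [Finite E] (hπ : Function.Surjective π) (hE : ∀ e : E, e ^ 2 = 1) (n d k : ℕ)
    (hG : Nat.card G = 2 ^ n) (hd : Nat.card E = 2 ^ d) (hk : 2 * k + 1 ≤ d) :
    2 ^ (k + 1) ∣ Nat.card {x : G // x ^ 2 = 1} := by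
  classical
  letI := twistAction π
  have hL : Nat.card (E →* ℂˣ) = 2 ^ d := by
    haveI : NeZero (Monoid.exponent E : ℂ) := ⟨by exact_mod_cast Monoid.exponent_ne_zero_of_finite⟩
    rw [CommGroup.card_monoidHom_of_hasEnoughRootsOfUnity, hd]
  haveI : Finite (E →* ℂˣ) := by
    apply Nat.finite_of_card_ne_zero
    rw [hL]; positivity
  choose ε hε _ _ using fun χ : IrrCharacter G => fsInd_int χ.2
  choose a ha0 ha hadvd using fun χ : IrrCharacter G => irr_degree χ.2
  let f : IrrCharacter G → ℤ := fun χ => ε χ * a χ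
  have hfc : ∀ χ, ((f χ : ℤ) : ℂ) = fsInd (χ : G → ℂ) * (χ : G → ℂ) 1 := by
    intro χ
    simp only [f]
    rw [hε, ha]
    push_cast
    ring
  have hcount : (Nat.card {x : G // x ^ 2 = 1} : ℤ) = ∑ χ, f χ := by
    have h1 := sqrt_count (1 : G)
    have h2 : ((Nat.card {x : G // x ^ 2 = 1} : ℤ) : ℂ) = ((∑ χ, f χ : ℤ) : ℂ) := by
      push_cast
      simp only [hfc]
      rw [← h1]
      simp only [sq]
    exact_mod_cast h2
  have hinv : ∀ (l : E →* ℂˣ) χ, f (l • χ) = f χ := by
    intro l χ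
    have h1 : ((f (l • χ) : ℤ) : ℂ) = ((f χ : ℤ) : ℂ) := by
      rw [hfc, hfc]
      congr 1
      · unfold fsInd
        congr 1
        refine Finset.sum_congr rfl fun s _ => ?_
        rw [twist_apply, map_mul, ← sq, hE, map_one]
        simp
      · rw [twist_apply]
        simp
    exact_mod_cast h1
  have hdvd : ((2 ^ (k + 1) : ℕ) : ℤ) ∣ ∑ χ, f χ := by
    apply dvd_sum_of_orbits (L := E →* ℂˣ) f hinv
    intro χ
    have h1 : Nat.card (MulAction.orbit (E →* ℂˣ) χ) *
        Nat.card (MulAction.stabilizer (E →* ℂˣ) χ) = 2 ^ d := by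
      rw [Nat.card_congr (MulAction.orbitEquivQuotientStabilizer (E →* ℂˣ) χ), ← hL, mul_comm]
      exact Subgroup.card_mul_index _
    obtain ⟨s, hs, hs2⟩ := (Nat.dvd_prime_pow Nat.prime_two).1 (Dvd.intro_left _ h1)
    obtain ⟨j, hj, hj2⟩ := (Nat.dvd_prime_pow Nat.prime_two).1 (hG ▸ hadvd χ)
    have h2 := card_stab_le π hπ χ (a χ) (ha χ)
    rw [hs2, hj2, ← pow_mul] at h2
    have h3 : s ≤ j * 2 := (Nat.pow_le_pow_iff_right (by norm_num)).1 h2
    have h4 : Nat.card (MulAction.orbit (E →* ℂˣ) χ) = 2 ^ (d - s) := by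
      rw [hs2] at h1
      have : 2 ^ d = 2 ^ (d - s) * 2 ^ s := by rw [← pow_add]; congr 1; omega
      rw [this] at h1
      exact Nat.eq_of_mul_eq_mul_right (by positivity) h1
    simp only [f]
    rw [h4, hj2]
    have h5 : ((2 ^ (d - s) : ℕ) : ℤ) * (ε χ * ((2 ^ j : ℕ) : ℤ)) =
        ((2 ^ (k + 1) : ℕ) : ℤ) * (((2 ^ (d - s + j - (k + 1)) : ℕ) : ℤ) * ε χ) := by
      have : 2 ^ (d - s) * 2 ^ j = 2 ^ (k + 1) * 2 ^ (d - s + j - (k + 1)) := by
        rw [← pow_add, ← pow_add]; congr 1; omega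
      have h6 : ((2 ^ (d - s) : ℕ) : ℤ) * ((2 ^ j : ℕ) : ℤ) =
          ((2 ^ (k + 1) : ℕ) : ℤ) * ((2 ^ (d - s + j - (k + 1)) : ℕ) : ℤ) := by
        exact_mod_cast this
      calc _ = (((2 ^ (d - s) : ℕ) : ℤ) * ((2 ^ j : ℕ) : ℤ)) * ε χ := by ring
        _ = _ := by rw [h6]; ring
    rw [h5]
    exact Dvd.intro _ rfl
  rw [← hcount] at hdvd
  exact_mod_cast hdvd

end

/-- Let G be a finite 2-group with #(G/Φ(G)) ≥ 2^(2k+1). Then the number of elements x of G with x² = 1 is divisible by 2^(k+1). -/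
theorem result {G : Type*} [Group G] [Finite G] (hG : IsPGroup 2 G) (k : ℕ)
    (hgen : 2 ^ (2 * k + 1) ≤ Nat.card (G ⧸ frattini G)) :
    2 ^ (k + 1) ∣ Nat.card {x : G // x ^ 2 = 1} := by
  haveI := Fintype.ofFinite G
  haveI : Fact (Nat.Prime 2) := ⟨Nat.prime_two⟩
  have h12 := Cfsg.Agent.S0012.result 2 hG
  letI : CommGroup (G ⧸ frattini G) :=
    { (inferInstance : Group (G ⧸ frattini G)) with
      mul_comm := by
        intro a b
        obtain ⟨x, rfl⟩ := QuotientGroup.mk_surjective a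
        obtain ⟨y, rfl⟩ := QuotientGroup.mk_surjective b
        rw [← QuotientGroup.mk_mul, ← QuotientGroup.mk_mul, QuotientGroup.eq]
        apply h12.1
        have : (x * y)⁻¹ * (y * x) = ⁅y⁻¹, x⁻¹⁆ := by
          rw [commutatorElement_def]
          group
        rw [this]
        exact Subgroup.commutator_mem_commutator (Subgroup.mem_top _) (Subgroup.mem_top _) }
  obtain ⟨n, hn⟩ := IsPGroup.iff_card.1 hG
  have hq : IsPGroup 2 (G ⧸ frattini G) := hG.to_quotient _
  obtain ⟨d, hd⟩ := IsPGroup.iff_card.1 hq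
  have hk : 2 * k + 1 ≤ d := by
    rw [hd] at hgen
    exact (Nat.pow_le_pow_iff_right (by norm_num)).1 hgen
  refine main (QuotientGroup.mk' (frattini G)) (QuotientGroup.mk'_surjective _) ?_ n d k hn hd hk
  intro e
  obtain ⟨x, rfl⟩ := QuotientGroup.mk_surjective e
  rw [← QuotientGroup.mk_pow]
  exact (QuotientGroup.eq_one_iff _).2 (h12.2 x)

end Cfsg.Agent.S4058
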