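import Cfsg.Statements.S4065
import Cfsg.Agent.Lib.Helper5_SL2Cent

set_option autoImplicit false

open Cfsg

namespace Cfsg.Agent.S4065

open Cfsg.Agent.Lib.Helper5_PSLSpec Cfsg.Agent.Lib.Helper5_PSL2Prod Cfsg.Agent.Lib.Helper5_SL2Cent

/-- commuting in `PSL₂` lifts to commuting matrices in characteristic two -/
theorem lift_comm {F : Type*} [Field F] [CharP F 2] (A B : Matrix.SpecialLinearGroup (Fin 2) F)
    (h : Commute (mkP F 2 A) (mkP F 2 B)) :
    (A : Matrix (Fin 2) (Fin 2) F) * (B : Matrix (Fin 2) (Fin 2) F) = (B : Matrix (Fin 2) (Fin 2) F) * (A : Matrix (Fin 2) (Fin 2) F) := by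
  have h1 : mkP F 2 (B * A) = mkP F 2 (A * B) := by
    rw [map_mul, map_mul]; exact h.eq.symm
  rcases (mkP_eq_iff _ _).1 h1 with h2 | h2
  · exact h2
  · rw [Matrix.SpecialLinearGroup.coe_mul, Matrix.SpecialLinearGroup.coe_mul] at h2
    rw [h2]
    ext i j
    rw [Matrix.neg_apply, CharTwo.neg_eq]

/-- commuting is transitive on nonidentity elements -/
theorem ct {F : Type*} [Field F] [CharP F 2] (a b c : Matrix.ProjectiveSpecialLinearGroup (Fin 2) F) (hb : b ≠ 1)
    (hab : Commute a b) (hbc : Commute b c) : Commute a c := by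
  obtain ⟨A, rfl⟩ := QuotientGroup.mk'_surjective _ a
  obtain ⟨B, rfl⟩ := QuotientGroup.mk'_surjective _ b
  obtain ⟨C, rfl⟩ := QuotientGroup.mk'_surjective _ c
  have hB := ns_of_mkP_ne_one B hb
  obtain ⟨x1, y1, h1⟩ := commutant _ _ hB (lift_comm A B hab)
  obtain ⟨x2, y2, h2⟩ := commutant _ _ hB (lift_comm B C hbc).symm
  have : A * C = C * A := by
    apply Subtype.ext
    rw [Matrix.SpecialLinearGroup.coe_mul, Matrix.SpecialLinearGroup.coe_mul, h1, h2]
    simp only [add_mul, mul_add, smul_mul_assoc, mul_smul_comm, one_mul, mul_one, smul_add, smul_smul]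
    rw [mul_comm x2 x1, mul_comm y2 y1, mul_comm x2 y1, mul_comm y2 x1]
    abel
  show mkP F 2 A * mkP F 2 C = mkP F 2 C * mkP F 2 A
  rw [← map_mul, ← map_mul, this]

theorem ti {G : Type*} [Group G] (hct : ∀ a b c : G, b ≠ 1 → Commute a b → Commute b c → Commute a c) (x : G) :
    Cfsg.IsTISubset (Subgroup.centralizer ({x} : Set G) : Set G) := by
  intro g hg y hy hgy
  by_contra hy1
  apply hg
  have hy' : Commute y x := Subgroup.mem_centralizer_singleton_iff.1 hy
  have hgy' : Commute (g * y * g⁻¹) x := Subgroup.mem_centralizer_singleton_iff.1 hgy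
  have hgy1 : g * y * g⁻¹ ≠ 1 := by
    intro h
    apply hy1
    have : y = g⁻¹ * (g * y * g⁻¹) * g := by group
    rw [this, h]; group
  rw [Subgroup.mem_set_normalizer_iff]
  intro h
  by_cases hx : x = 1
  · subst hx
    simp [Subgroup.mem_centralizer_singleton_iff]
  show h ∈ Subgroup.centralizer ({x} : Set G) ↔ g * h * g⁻¹ ∈ Subgroup.centralizer ({x} : Set G)
  rw [Subgroup.mem_centralizer_singleton_iff, Subgroup.mem_centralizer_singleton_iff]
  constructor
  · intro hh
    have h1 : Commute h y := hct h x y hx hh hy'.symm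
    have h2 : Commute (g * h * g⁻¹) (g * y * g⁻¹) := by
      show g * h * g⁻¹ * (g * y * g⁻¹) = g * y * g⁻¹ * (g * h * g⁻¹)
      have e1 : g * h * g⁻¹ * (g * y * g⁻¹) = g * (h * y) * g⁻¹ := by group
      have e2 : g * y * g⁻¹ * (g * h * g⁻¹) = g * (y * h) * g⁻¹ := by group
      rw [e1, e2, h1.eq]
    exact hct _ _ _ hgy1 h2 hgy'
  · intro hh
    have h2 : Commute (g * h * g⁻¹) (g * y * g⁻¹) := hct _ _ _ hx hh hgy'.symm
    have h1 : Commute h y := by
      show h * y = y * h
      have e1 : h * y = g⁻¹ * (g * h * g⁻¹ * (g * y * g⁻¹)) * g := by group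
      have e2 : y * h = g⁻¹ * (g * y * g⁻¹ * (g * h * g⁻¹)) * g := by group
      rw [e1, e2, h2.eq]
    exact hct _ _ _ hy1 h1 hy'

theorem result (n : ℕ) (hn : 2 ≤ n)
    (x : Matrix.ProjectiveSpecialLinearGroup (Fin 2) (GaloisField 2 n)) :
    Cfsg.IsTISubset (Subgroup.centralizer ({x} : Set (Matrix.ProjectiveSpecialLinearGroup (Fin 2) (GaloisField 2 n))) :
      Set (Matrix.ProjectiveSpecialLinearGroup (Fin 2) (GaloisField 2 n))) :=
  ti (fun a b c => ct a b c) x

end Cfsg.Agent.S4065
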