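import Cfsg.Statements.S4066
import Cfsg.Agent.Lib.Helper4_Syl

set_option autoImplicit false
open Cfsg

namespace Cfsg.Agent.S4066

open Cfsg.Agent.Lib.Helper4_Syl
open scoped Pointwise

/-- Let G be a finite group in which the centralizer of every element meets each of its conjugates by elements outside its normalizer trivially. Then any two distinct Sylow p-subgroups of G, for any prime p, intersect trivially. -/
theorem result {G : Type*} [Group G] [Finite G] (hTI : ∀ x : G, Cfsg.IsTISubset (Subgroup.centralizer ({x} : Set G) : Set G))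
    {p : ℕ} [Fact p.Prime] (P Q : Sylow p G) (hPQ : P ≠ Q) : (P : Subgroup G) ⊓ (Q : Subgroup G) = ⊥ := by
  by_contra hne
  have hpp : p.Prime := Fact.out
  obtain ⟨⟨y, hy⟩, hy1'⟩ := (Subgroup.ne_bot_iff_exists_ne_one).1 hne
  have hy1 : y ≠ 1 := fun h => hy1' (Subtype.ext h)
  have hP1 : (P : Subgroup G) ≠ ⊥ := by
    intro h
    apply hy1
    have := hy.1
    rw [h] at this
    exact Subgroup.mem_bot.1 this
  obtain ⟨z, hzP, hzo, hzc⟩ := exists_central_orderOf_eq P.2 hP1
  have hz1 : z ≠ 1 := by
    rintro rfl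
    rw [orderOf_one] at hzo
    exact hpp.one_lt.ne hzo
  obtain ⟨g, -, hg⟩ := (IsSylIn.of_sylow_top P).conj (IsSylIn.of_sylow_top Q)
  set C := Subgroup.centralizer ({z} : Set G) with hC
  have hPC : (P : Subgroup G) ≤ C := by
    intro s hs
    rw [hC, Subgroup.mem_centralizer_singleton_iff]
    exact hzc s hs
  have hgN : g ∈ Subgroup.normalizer (C : Set G) := by
    by_contra hgN
    have hy' : g⁻¹ * y * g ∈ (P : Subgroup G) := by
      have := hy.2
      rw [← hg] at this
      exact mem_conj_smul.1 this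
    have h1 := hTI z g hgN (g⁻¹ * y * g) (hPC hy') (by
      have : g * (g⁻¹ * y * g) * g⁻¹ = y := by group
      rw [this]; exact hPC hy.1)
    apply hy1
    have : y = g * (g⁻¹ * y * g) * g⁻¹ := by group
    rw [this, h1]; group
  have hQC : (Q : Subgroup G) ≤ C := by
    rw [← hg, ← mem_normalizer_iff_conj_smul.1 hgN]
    exact Subgroup.pointwise_smul_le_pointwise_smul_iff.2 hPC
  have key : ∀ c ∈ C, ∀ h ∈ C, c * (h * c * h⁻¹) = (h * c * h⁻¹) * c := by
    intro c hc h hh
    have hcz : c * z = z * c := Subgroup.mem_centralizer_singleton_iff.1 hc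
    have hhz : h * z = z * h := Subgroup.mem_centralizer_singleton_iff.1 hh
    have hzc' : z ∈ Subgroup.centralizer ({c} : Set G) :=
      Subgroup.mem_centralizer_singleton_iff.2 hcz.symm
    have hhN : h ∈ Subgroup.normalizer ((Subgroup.centralizer ({c} : Set G) : Subgroup G) : Set G) := by
      by_contra hn
      apply hz1
      refine hTI c h hn z hzc' ?_
      have : h * z * h⁻¹ = z := by rw [hhz]; group
      rw [this]; exact hzc'
    have h1 := centralizer_conj_singleton h c
    rw [mem_normalizer_iff_conj_smul.1 hhN] at h1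
    have h2 : c ∈ Subgroup.centralizer ({h * c * h⁻¹} : Set G) := by
      rw [h1, Subgroup.mem_centralizer_singleton_iff]
    exact Subgroup.mem_centralizer_singleton_iff.1 h2
  have hQP : (Q : Subgroup G) ≤ P := by
    intro c hcQ
    have hcC : c ∈ C := hQC hcQ
    set S : Set G := {x | ∃ h ∈ C, x = h * c * h⁻¹} with hS
    set A := Subgroup.closure S with hA
    have hSC : ∀ x ∈ S, ∀ x' ∈ S, x * x' = x' * x := by
      rintro _ ⟨h, hh, rfl⟩ _ ⟨k, hk, rfl⟩
      have h1 := key (h * c * h⁻¹) (C.mul_mem (C.mul_mem hh hcC) (C.inv_mem hh)) (k * h⁻¹)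
        (C.mul_mem hk (C.inv_mem hh))
      have h2 : k * h⁻¹ * (h * c * h⁻¹) * (k * h⁻¹)⁻¹ = k * c * k⁻¹ := by group
      rwa [h2] at h1
    have hc1 : A ≤ Subgroup.centralizer S :=
      (Subgroup.closure_le _).2 (fun a ha => Subgroup.mem_centralizer_iff.2
        (fun b hb => hSC b hb a ha))
    have hc2 : A ≤ Subgroup.centralizer (A : Set G) := by
      rw [hA, Subgroup.closure_le]
      intro a ha
      show a ∈ Subgroup.centralizer (A : Set G)
      rw [Subgroup.mem_centralizer_iff]
      intro b hb
      exact (Subgroup.mem_centralizer_iff.1 (hc1 hb) a ha).symm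
    obtain ⟨k, hk⟩ := Q.2 ⟨c, hcQ⟩
    have hk' : c ^ p ^ k = 1 := by simpa using congrArg Subtype.val hk
    have hpow : ∀ a ∈ A, a ^ p ^ k = 1 := by
      intro a ha
      induction ha using Subgroup.closure_induction with
      | mem x hx =>
        obtain ⟨h, -, rfl⟩ := hx
        rw [conj_pow, hk']; group
      | one => simp
      | mul x y hx hy ihx ihy =>
        have hcm : Commute x y := (Subgroup.mem_centralizer_iff.1 (hc2 hy) x hx)
        rw [hcm.mul_pow, ihx, ihy, one_mul]
      | inv x _ ih => rw [inv_pow, ih, inv_one]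
    have hAp : IsPGroup p A := by
      intro a
      exact ⟨k, Subtype.ext (by rw [Subgroup.coe_pow, Subgroup.coe_one]; exact hpow a a.2)⟩
    have hPA : (P : Subgroup G) ≤ Subgroup.normalizer (A : Set G) := by
      apply le_normalizer_of_conj_mem
      intro l hl m hm
      have hle : A ≤ A.comap (MulAut.conj l).toMonoidHom := by
        rw [hA, Subgroup.closure_le]
        rintro _ ⟨h, hh, rfl⟩
        show l * (h * c * h⁻¹) * l⁻¹ ∈ Subgroup.closure S
        apply Subgroup.subset_closure
        exact ⟨l * h, C.mul_mem (hPC hl) hh, by group⟩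
      exact hle hm
    have h3 := P.3 (IsPGroup.to_sup_of_normal_right' P.2 hAp hPA) le_sup_left
    have h4 : c ∈ A := Subgroup.subset_closure ⟨1, C.one_mem, by group⟩
    rw [← h3]
    exact Subgroup.mem_sup_right h4
  exact hPQ (Sylow.ext (Q.3 P.2 hQP))

end Cfsg.Agent.S4066
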