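import Mathlib
import Cfsg.Agent.Lib.Helper7_Max
import Cfsg.Statements.S4071

set_option autoImplicit false
open Cfsg

namespace Cfsg.Agent.S4071

open Subgroup

theorem coprime_mem' {K : Type*} [Group K] (V : Subgroup K) {m n : ℕ} (hc : m.Coprime n) {w : K}
    (h1 : w ^ m ∈ V) (h2 : w ^ n ∈ V) : w ∈ V := by
  have h3 : w ^ (Nat.gcd m n : ℤ) ∈ V := by
    rw [Nat.gcd_eq_gcd_ab, zpow_add, zpow_mul, zpow_mul, zpow_natCast, zpow_natCast]
    exact V.mul_mem (V.zpow_mem h1 _) (V.zpow_mem h2 _)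
  rw [hc] at h3
  simpa using h3

theorem eq_one_of_coprime {K : Type*} [Group K] {m n : ℕ} (hc : m.Coprime n) {w : K}
    (h1 : w ^ m = 1) (h2 : w ^ n = 1) : w = 1 := by
  have := coprime_mem' (⊥ : Subgroup K) hc (w := w) (by rw [h1]; exact one_mem _)
    (by rw [h2]; exact one_mem _)
  simpa using this

theorem card_sup_of_inf {G : Type*} [Group G] (S N : Subgroup G) [S.Normal] (h0 : S ⊓ N = ⊥) :
    Nat.card S * Nat.card N = Nat.card (N ⊔ S : Subgroup G) := by
  have h1 := Subgroup.relIndex_sup_right N S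
  have h2 : S.relIndex N = Nat.card N := by
    rw [← Subgroup.inf_relIndex_right, h0, Subgroup.relIndex_bot_left]
  have h3 : Nat.card S * S.relIndex (N ⊔ S) = Nat.card (N ⊔ S : Subgroup G) := by
    rw [← Subgroup.relIndex_bot_left, ← Subgroup.relIndex_bot_left,
      Subgroup.relIndex_mul_relIndex _ _ _ bot_le le_sup_right]
  rw [← h3, h1, h2]

theorem conj_pow_comm {X : Type*} [Group X] {g h c : X} (hc : Commute g c)
    (h0 : g * h * g⁻¹ = c * h) (k : ℕ) : g ^ k * h * (g ^ k)⁻¹ = c ^ k * h := by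
  induction k with
  | zero => simp
  | succ k ih =>
    have h1 : g * c ^ k = c ^ k * g := (hc.pow_right k).eq
    calc g ^ (k + 1) * h * (g ^ (k + 1))⁻¹ = g * (g ^ k * h * (g ^ k)⁻¹) * g⁻¹ := by
          rw [pow_succ']; group
      _ = (g * c ^ k) * h * g⁻¹ := by rw [ih]; group
      _ = c ^ k * (g * h * g⁻¹) := by rw [h1]; group
      _ = c ^ (k + 1) * h := by rw [h0, pow_succ]; group

theorem nonab {G : Type*} [Group G] {Y : Subgroup G} {a b : G} (ha : a ∈ Y) (hb : b ∈ Y)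
    (hne : a * b ≠ b * a) : ¬ IsMulCommutative Y := by
  intro hc
  exact hne (congrArg Subtype.val (hc.is_comm.comm ⟨a, ha⟩ ⟨b, hb⟩))

/-- first half: a normal abelian `p`-complement with cyclic quotient. -/
theorem fwd1 {G : Type*} [Group G] [Finite G] [Group.IsSolvable G] (hnn : ¬ Group.IsNilpotent G)
    (hS : ∀ H : Subgroup G, ¬ IsMulCommutative H → normalizer (H : Set G) = H) :
    ∃ (x : G) (A : Subgroup G) (p : ℕ) (k : ℕ), p.Prime ∧ A.Normal ∧
      (∀ a ∈ A, ∀ b ∈ A, a * b = b * a) ∧ x ^ (p ^ k) = 1 ∧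
      (∀ a ∈ A, ∃ m : ℕ, m.Coprime p ∧ a ^ m = 1) ∧ A ⊔ zpowers x = ⊤ ∧
      x ∉ centralizer (A : Set G) := by
  classical
  have factA : ∀ K : Subgroup G, K.Normal → K ≠ ⊤ → ∀ a ∈ K, ∀ b ∈ K, a * b = b * a := by
    intro K hK hKtop
    by_contra hc
    push Not at hc
    obtain ⟨a, ha, b, hb, hne⟩ := hc
    have := hS K (nonab ha hb hne)
    rw [normalizer_eq_top] at this
    exact hKtop this.symm
  obtain ⟨p, hp, P, hPn⟩ : ∃ (p : ℕ) (_ : Fact p.Prime) (P : Sylow p G),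
      ¬ (P : Subgroup G).Normal := by
    by_contra hcon
    push Not at hcon
    exact hnn (((Group.isNilpotent_of_finite_tfae (G := G)).out 0 3).2 hcon)
  haveI := hp
  have hpp := hp.out
  haveI : Nontrivial G := by
    by_contra h0
    rw [not_nontrivial_iff_subsingleton] at h0
    exact hnn inferInstance
  set D := commutator G with hD
  have hDtop : D ≠ ⊤ := (Group.IsSolvable.commutator_lt_top_of_nontrivial G).ne
  have hDn : D.Normal := inferInstance
  have hDab := factA D hDn hDtop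
  have hcommD : ∀ g h : G, g * h * g⁻¹ * h⁻¹ ∈ D := by
    intro g h
    rw [hD, _root_.commutator_def, ← commutatorElement_def]
    exact Subgroup.commutator_mem_commutator (mem_top _) (mem_top _)
  set L := (P : Subgroup G) ⊔ D with hL
  have hLn : L.Normal := by
    constructor
    intro l hl g
    have : g * l * g⁻¹ = (g * l * g⁻¹ * l⁻¹) * l := by group
    rw [this]
    exact L.mul_mem ((le_sup_right : D ≤ L) (hcommD g l)) hl
  have hLtop : L = ⊤ := by
    by_contra hne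
    have hLab := factA L hLn hne
    apply hPn
    constructor
    intro y hy g
    have hgP : ((g • P : Sylow p G) : Subgroup G) ≤ L := by
      rw [Sylow.coe_subgroup_smul]
      rintro _ ⟨w, hw, rfl⟩
      exact hLn.conj_mem w ((le_sup_left : (P : Subgroup G) ≤ L) hw) g
    have hnorm : ((g • P : Sylow p G) : Subgroup G) ≤ normalizer ((P : Subgroup G) : Set G) := by
      intro w hw
      apply Cfsg.Agent.Lib.Helper7_Max.mem_normalizer_of_conj_mem
      intro d hd
      rw [hLab w (hgP hw) d ((le_sup_left : (P : Subgroup G) ≤ L) hd), mul_inv_cancel_right]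
      exact hd
    have h1 := P.is_maximal' ((g • P : Sylow p G).isPGroup'.to_sup_of_normal_right' P.isPGroup' hnorm)
      le_sup_right
    rw [← h1]
    apply (le_sup_left : ((g • P : Sylow p G) : Subgroup G) ≤ _)
    rw [Sylow.coe_subgroup_smul]
    exact ⟨_, hy, rfl⟩
  let A : Subgroup G :=
    { carrier := {d | d ∈ D ∧ ∃ m : ℕ, m.Coprime p ∧ d ^ m = 1}
      one_mem' := ⟨D.one_mem, 1, Nat.coprime_one_left p, by simp⟩
      mul_mem' := by
        rintro a b ⟨ha, m, hm, hm'⟩ ⟨hb, n, hn, hn'⟩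
        refine ⟨D.mul_mem ha hb, m * n, Nat.Coprime.mul_left hm hn, ?_⟩
        have hc : Commute a b := hDab a ha b hb
        rw [hc.mul_pow, pow_mul, hm', one_pow, mul_comm m, pow_mul, hn', one_pow, one_mul]
      inv_mem' := by
        rintro a ⟨ha, m, hm, hm'⟩
        exact ⟨D.inv_mem ha, m, hm, by rw [inv_pow, hm', inv_one]⟩ }
  have hA : ∀ d, d ∈ A ↔ d ∈ D ∧ ∃ m : ℕ, m.Coprime p ∧ d ^ m = 1 := fun d => Iff.rfl
  have hAn : A.Normal := by
    constructor
    rintro a ⟨ha, m, hm, hm'⟩ g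
    exact ⟨hDn.conj_mem a ha g, m, hm, by rw [conj_pow, hm']; simp⟩
  have hAab : ∀ a ∈ A, ∀ b ∈ A, a * b = b * a := fun a ha b hb => hDab a ha.1 b hb.1
  have hpow : ∀ g : G, ∃ k : ℕ, g ^ (p ^ k) ∈ A := by
    intro g
    have hg : g ∈ L := by rw [hLtop]; trivial
    obtain ⟨y, hy, d, hd, rfl⟩ := mem_sup_of_normal_right.1 hg
    obtain ⟨a, ha⟩ := P.isPGroup' ⟨y, hy⟩
    have ha' : y ^ (p ^ a) = 1 := by simpa using congrArg Subtype.val ha
    have h1 : (y * d) ^ (p ^ a) ∈ D := by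
      rw [← QuotientGroup.eq_one_iff, QuotientGroup.mk_pow, QuotientGroup.mk_mul,
        (QuotientGroup.eq_one_iff d).2 hd, mul_one, ← QuotientGroup.mk_pow, ha', QuotientGroup.mk_one]
    obtain ⟨b, m, hm, hbm⟩ := Nat.exists_eq_pow_mul_and_not_dvd
      (orderOf_pos ((y * d) ^ (p ^ a))).ne' p hpp.one_lt.ne'
    refine ⟨a + b, ?_⟩
    rw [pow_add, pow_mul, hA]
    refine ⟨D.pow_mem h1 _, m, ((Nat.Prime.coprime_iff_not_dvd hpp).2 hm).symm, ?_⟩
    rw [← pow_mul, ← hbm, pow_orderOf_eq_one]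
  have hPGA : IsPGroup p (G ⧸ A) := by
    intro q
    obtain ⟨g, rfl⟩ := QuotientGroup.mk_surjective q
    obtain ⟨k, hk⟩ := hpow g
    exact ⟨k, by rw [← QuotientGroup.mk_pow]; exact (QuotientGroup.eq_one_iff _).2 hk⟩
  haveI : Group.IsNilpotent (G ⧸ A) := hPGA.isNilpotent
  set C := centralizer (A : Set G) with hC
  have hAC : A ≤ C := by
    intro a ha
    rw [hC, mem_centralizer_iff]
    intro b hb
    exact hAab b hb a ha
  have hCtop : C ≠ ⊤ := by
    intro h0
    apply hnn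
    have hAZ : A ≤ center G := centralizer_eq_top_iff_subset.1 h0
    apply Group.of_quotient_center_nilpotent
    refine Group.nilpotent_of_surjective
      (QuotientGroup.map A (center G) (MonoidHom.id G) (by simpa using hAZ)) ?_
    intro q
    obtain ⟨g, rfl⟩ := QuotientGroup.mk_surjective q
    exact ⟨QuotientGroup.mk g, rfl⟩
  obtain ⟨g, hg⟩ : ∃ g, g ∉ C := by
    by_contra hcon
    push Not at hcon
    exact hCtop (eq_top_iff.2 (fun g _ => hcon g))
  obtain ⟨e, m, hm, hem⟩ := Nat.exists_eq_pow_mul_and_not_dvd (orderOf_pos g).ne' p hpp.one_lt.ne'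
  have hmc : m.Coprime p := ((Nat.Prime.coprime_iff_not_dvd hpp).2 hm).symm
  have hgA : g ^ (p ^ e) ∈ A := by
    obtain ⟨k, hk⟩ := hpow g
    apply coprime_mem' A (Nat.Coprime.pow_right k hmc)
    · rw [← pow_mul, ← hem, pow_orderOf_eq_one]; exact one_mem _
    · rw [← pow_mul, mul_comm, pow_mul]; exact A.pow_mem hk _
  have hxC : g ^ m ∉ C := by
    intro h0
    exact hg (coprime_mem' C (Nat.Coprime.pow_right e hmc) h0 (hAC hgA))
  have hxp : (g ^ m) ^ (p ^ e) = 1 := by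
    rw [← pow_mul, mul_comm, ← hem, pow_orderOf_eq_one]
  refine ⟨g ^ m, A, p, e, hpp, hAn, hAab, hxp, fun a ha => ha.2, ?_, hxC⟩
  set x := g ^ m with hx
  set H := A ⊔ zpowers x with hH
  have hHna : ¬ IsMulCommutative H := by
    rw [hC, mem_centralizer_iff] at hxC
    push Not at hxC
    obtain ⟨a, ha, hne⟩ := hxC
    exact nonab ((le_sup_left : A ≤ H) ha) ((le_sup_right : zpowers x ≤ H) (mem_zpowers x)) hne
  have hHN := hS H hHna
  by_contra hne
  have hs := QuotientGroup.mk'_surjective A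
  have hcm : comap (QuotientGroup.mk' A) (H.map (QuotientGroup.mk' A)) = H := by
    rw [comap_map_eq, QuotientGroup.ker_mk', sup_eq_left]
    exact le_sup_left
  have hbt : H.map (QuotientGroup.mk' A) ≠ ⊤ := by
    intro h0
    rw [h0, comap_top] at hcm
    exact hne hcm.symm
  have h1 := Group.normalizerCondition_of_isNilpotent (G := G ⧸ A) _ (lt_top_iff_ne_top.2 hbt)
  apply h1.ne
  apply comap_injective hs
  rw [comap_normalizer_eq_of_surjective _ hs, hcm, hHN]

theorem fwd {G : Type*} [Group G] [Finite G] [Group.IsSolvable G] (hnn : ¬ Group.IsNilpotent G)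
    (hS : ∀ H : Subgroup G, ¬ IsMulCommutative H → normalizer (H : Set G) = H) :
    ∃ (x : G) (A : Subgroup G) (p : ℕ), p.Prime ∧ A.Normal ∧ IsMulCommutative A ∧
      (∃ k : ℕ, orderOf x = p ^ k) ∧
      ¬ p ∣ Nat.card A ∧ (zpowers x).IsComplement' A ∧ x ^ p ∈ center G ∧
      ∀ a : G, a ∈ A → a ≠ 1 → x * a * x⁻¹ ≠ a := by
  classical
  obtain ⟨x, A, p, k, hpp, hAn, hAab, hxp, hAm, htop, hxC⟩ := fwd1 hnn hS
  haveI := Fact.mk hpp
  have factA : ∀ K : Subgroup G, K.Normal → K ≠ ⊤ → ∀ a ∈ K, ∀ b ∈ K, a * b = b * a := by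
    intro K hK hKtop
    by_contra hc
    push Not at hc
    obtain ⟨a, ha, b, hb, hne⟩ := hc
    have := hS K (nonab ha hb hne)
    rw [normalizer_eq_top] at this
    exact hKtop this.symm
  have hgen : ∀ g : G, ∃ a ∈ A, ∃ i : ℤ, g = a * x ^ i := by
    intro g
    have hg : g ∈ A ⊔ zpowers x := by rw [htop]; trivial
    obtain ⟨a, ha, _, ⟨i, rfl⟩, rfl⟩ := mem_sup_of_normal_left.1 hg
    exact ⟨a, ha, i, rfl⟩
  have hzp : ∀ w ∈ zpowers x, w ^ (p ^ k) = 1 := by
    rintro _ ⟨i, rfl⟩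
    show (x ^ i) ^ (p ^ k) = 1
    rw [← zpow_natCast, ← zpow_mul, mul_comm, zpow_mul, zpow_natCast, hxp, one_zpow]
  have hAx : ∀ w ∈ A, w ∈ zpowers x → w = 1 := by
    intro w hw hwx
    obtain ⟨m, hm, hm'⟩ := hAm w hw
    exact eq_one_of_coprime (Nat.Coprime.pow_right k hm) hm' (hzp w hwx)
  have hx1 : x ≠ 1 := by
    intro h0
    apply hxC
    rw [h0]; exact one_mem _
  have hcardA : ¬ p ∣ Nat.card A := by
    intro hd
    obtain ⟨a, ha⟩ := exists_prime_orderOf_dvd_card' (G := A) p hd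
    obtain ⟨m, hm, hm'⟩ := hAm a a.2
    have h1 : orderOf (a : G) ∣ m := orderOf_dvd_of_pow_eq_one hm'
    rw [Subgroup.orderOf_coe, ha] at h1
    exact hpp.one_lt.ne' (Nat.Coprime.eq_one_of_dvd hm.symm h1)
  obtain ⟨j, -, hj⟩ := (Nat.dvd_prime_pow hpp).1 (orderOf_dvd_of_pow_eq_one hxp)
  have hj0 : j ≠ 0 := by
    rintro rfl
    rw [pow_zero, orderOf_eq_one_iff] at hj
    exact hx1 hj
  -- `G / A` is abelian
  have hGA : ∀ g h : G, g * h * g⁻¹ * h⁻¹ ∈ A := by
    intro g h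
    obtain ⟨a, ha, i, rfl⟩ := hgen g
    obtain ⟨b, hb, l, rfl⟩ := hgen h
    rw [← QuotientGroup.eq_one_iff]
    simp only [QuotientGroup.mk_mul, QuotientGroup.mk_inv, (QuotientGroup.eq_one_iff a).2 ha,
      (QuotientGroup.eq_one_iff b).2 hb, one_mul, QuotientGroup.mk_zpow]
    rw [← zpow_add, add_comm, zpow_add]
    group
  -- quadratic lemma
  have QL : ∀ a ∈ A, Commute x (a * (x * a⁻¹ * x⁻¹)) → a * (x * a⁻¹ * x⁻¹) = 1 := by
    intro a ha hc
    set c := a * (x * a⁻¹ * x⁻¹) with hcdef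
    have hcA : c ∈ A := A.mul_mem ha (hAn.conj_mem _ (A.inv_mem ha) x)
    have h0 : x * a⁻¹ * x⁻¹ = c * a⁻¹ := by
      rw [hAab c hcA a⁻¹ (A.inv_mem ha), hcdef]; group
    have h1 := conj_pow_comm hc h0 (p ^ k)
    rw [hxp] at h1
    have h2 : c ^ (p ^ k) = 1 := by
      have := congrArg (fun t => t * a) h1
      simpa using this.symm
    obtain ⟨m, hm, hm'⟩ := hAm c hcA
    exact eq_one_of_coprime (Nat.Coprime.pow_right k hm) hm' h2
  refine ⟨x, A, p, hpp, hAn, ⟨⟨fun a b => Subtype.ext (hAab a a.2 b b.2)⟩⟩, ⟨j, hj⟩, hcardA, ?_, ?_, ?_⟩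
  · have hcop : (Nat.card (zpowers x)).Coprime (Nat.card A) := by
      rw [Nat.card_zpowers, hj]
      exact Nat.Coprime.pow_left j ((Nat.Prime.coprime_iff_not_dvd hpp).2 hcardA)
    apply isComplement'_of_coprime _ hcop
    have h0 : A ⊓ zpowers x = ⊥ := by
      rw [eq_bot_iff]
      rintro w ⟨h1, h2⟩
      exact hAx w h1 h2
    have h1 := card_sup_of_inf A (zpowers x) h0
    rw [sup_comm, htop, card_top] at h1
    rw [mul_comm]; exact h1
  · -- `x ^ p` central
    set M := A ⊔ zpowers (x ^ p) with hM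
    have hMn : M.Normal := by
      constructor
      intro l hl g
      have : g * l * g⁻¹ = (g * l * g⁻¹ * l⁻¹) * l := by group
      rw [this]
      exact M.mul_mem ((le_sup_left : A ≤ M) (hGA g l)) hl
    have hMtop : M ≠ ⊤ := by
      intro h0
      have hxM : x ∈ M := by rw [h0]; trivial
      obtain ⟨a, ha, _, ⟨i, rfl⟩, e⟩ := mem_sup_of_normal_left.1 hxM
      have e' : a * (x ^ p) ^ i = x := e
      have h1 : a = x * ((x ^ p) ^ i)⁻¹ := eq_mul_inv_of_mul_eq e'
      have h2 : a = 1 := by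
        apply hAx a ha
        rw [h1]
        exact mul_mem (mem_zpowers x) (inv_mem (zpow_mem (pow_mem (mem_zpowers x) p) i))
      rw [h2, one_mul, ← zpow_natCast, ← zpow_mul] at e'
      have h3 : x ^ ((p : ℤ) * i - 1) = 1 := by
        rw [zpow_sub, e', zpow_one, mul_inv_cancel]
      rw [← orderOf_dvd_iff_zpow_eq_one, hj] at h3
      have h4 : (p : ℤ) ∣ (p : ℤ) * i - 1 := by
        refine dvd_trans ?_ h3
        push_cast
        exact dvd_pow_self _ hj0
      have h5 : (p : ℤ) ∣ 1 := by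
        have := dvd_sub (dvd_mul_right (p : ℤ) i) h4
        simpa using this
      have h6 : p ∣ 1 := by exact_mod_cast h5
      exact hpp.one_lt.ne' (Nat.dvd_one.1 h6)
    have hMab := factA M hMn hMtop
    have hxpM : x ^ p ∈ M := (le_sup_right : zpowers (x ^ p) ≤ M) (mem_zpowers _)
    rw [mem_center_iff]
    intro g
    obtain ⟨a, ha, i, rfl⟩ := hgen g
    have h1 : Commute a (x ^ p) := hMab a ((le_sup_left : A ≤ M) ha) _ hxpM
    have h2 : Commute (x ^ i) (x ^ p) := ((Commute.refl x).zpow_left i).pow_right p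
    exact (h1.mul_left h2).eq
  · intro a₀ ha₀ ha1 hfix
    have hxa₀ : Commute x a₀ := by
      have h5 : x * a₀ = a₀ * x := by
        have := congrArg (fun t => t * x) hfix
        simpa using this
      exact h5
    let K : Subgroup G :=
      { carrier := {c | ∃ a ∈ A, c = a * (x * a⁻¹ * x⁻¹)}
        one_mem' := ⟨1, A.one_mem, by simp⟩
        mul_mem' := by
          rintro _ _ ⟨a, ha, rfl⟩ ⟨b, hb, rfl⟩
          refine ⟨a * b, A.mul_mem ha hb, ?_⟩
          have h1 := hAab (x * a⁻¹ * x⁻¹) (hAn.conj_mem _ (A.inv_mem ha) x) b hb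
          have h2 := hAab (x * a⁻¹ * x⁻¹) (hAn.conj_mem _ (A.inv_mem ha) x) (x * b⁻¹ * x⁻¹)
            (hAn.conj_mem _ (A.inv_mem hb) x)
          calc a * (x * a⁻¹ * x⁻¹) * (b * (x * b⁻¹ * x⁻¹))
              = a * ((x * a⁻¹ * x⁻¹) * b) * (x * b⁻¹ * x⁻¹) := by group
            _ = a * (b * (x * a⁻¹ * x⁻¹)) * (x * b⁻¹ * x⁻¹) := by rw [h1]
            _ = a * b * ((x * a⁻¹ * x⁻¹) * (x * b⁻¹ * x⁻¹)) := by group
            _ = a * b * ((x * b⁻¹ * x⁻¹) * (x * a⁻¹ * x⁻¹)) := by rw [h2]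
            _ = a * b * (x * (a * b)⁻¹ * x⁻¹) := by group
        inv_mem' := by
          rintro _ ⟨a, ha, rfl⟩
          refine ⟨a⁻¹, A.inv_mem ha, ?_⟩
          have h1 := hAab (x * a * x⁻¹) (hAn.conj_mem _ ha x) a⁻¹ (A.inv_mem ha)
          calc (a * (x * a⁻¹ * x⁻¹))⁻¹ = (x * a * x⁻¹) * a⁻¹ := by group
            _ = a⁻¹ * (x * a * x⁻¹) := h1
            _ = a⁻¹ * (x * a⁻¹⁻¹ * x⁻¹) := by group }
    have hK : ∀ c, c ∈ K ↔ ∃ a ∈ A, c = a * (x * a⁻¹ * x⁻¹) := fun c => Iff.rfl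
    have hKA : K ≤ A := by
      rintro _ ⟨a, ha, rfl⟩
      exact A.mul_mem ha (hAn.conj_mem _ (A.inv_mem ha) x)
    have hxK : zpowers x ≤ normalizer (K : Set G) := by
      rw [zpowers_le]
      apply Cfsg.Agent.Lib.Helper7_Max.mem_normalizer_of_conj_mem
      rintro _ ⟨a, ha, rfl⟩
      exact ⟨x * a * x⁻¹, hAn.conj_mem a ha x, by group⟩
    set H₁ := K ⊔ zpowers x with hH₁
    have hna : ¬ IsMulCommutative H₁ := by
      rw [mem_centralizer_iff] at hxC
      push Not at hxC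
      obtain ⟨a, ha, hne⟩ := hxC
      have hcK : a * (x * a⁻¹ * x⁻¹) ∈ K := ⟨a, ha, rfl⟩
      apply nonab ((le_sup_right : zpowers x ≤ H₁) (mem_zpowers x)) ((le_sup_left : K ≤ H₁) hcK)
      intro hcomm
      have h1 := QL a ha hcomm
      apply hne
      have := congrArg (fun t => t * x * a) h1
      simpa [mul_assoc] using this
    have hN := hS H₁ hna
    have ha₀N : a₀ ∈ normalizer (H₁ : Set G) := by
      apply Cfsg.Agent.Lib.Helper7_Max.mem_normalizer_of_conj_mem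
      intro d hd
      have hle : H₁ ≤ centralizer ({a₀} : Set G) := by
        apply sup_le
        · intro c hc
          rw [mem_centralizer_iff]
          intro y hy
          rw [Set.mem_singleton_iff.1 hy]
          exact hAab a₀ ha₀ c (hKA hc)
        · rw [zpowers_le, mem_centralizer_iff]
          intro y hy
          rw [Set.mem_singleton_iff.1 hy]
          exact hxa₀.eq.symm
      have h1 := (mem_centralizer_iff.1 (hle hd)) a₀ rfl
      rw [h1, mul_inv_cancel_right]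
      exact hd
    rw [hN] at ha₀N
    have h1 : a₀ ∈ ((K ⊔ zpowers x : Subgroup G) : Set G) := ha₀N
    rw [coe_mul_of_right_le_normalizer_left K (zpowers x) hxK] at h1
    obtain ⟨c, hc, w, hw, e⟩ := h1
    have e' : c * w = a₀ := e
    have hw1 : w = 1 := by
      apply hAx w _ hw
      have : w = c⁻¹ * a₀ := by rw [← e']; group
      rw [this]
      exact A.mul_mem (A.inv_mem (hKA hc)) ha₀
    rw [hw1, mul_one] at e'
    obtain ⟨a, ha, hca⟩ := (hK c).1 hc
    apply ha1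
    rw [← e', hca]
    apply QL a ha
    rw [← hca, e']
    exact hxa₀

theorem core {G : Type*} [Group G] [Finite G] (A : Subgroup G) [hAn : A.Normal] (H : Subgroup G)
    {h : G} (hH : h ∈ H) (P1 : ∀ g : G, ∃ a ∈ A, ∃ w ∈ zpowers h, g = a * w)
    (P2 : ∀ a ∈ A, a ≠ 1 → h * a * h⁻¹ ≠ a) : normalizer (H : Set G) ≤ H := by
  have hinj : ∀ a ∈ A, ∀ b ∈ A, a * (h * a⁻¹ * h⁻¹) = b * (h * b⁻¹ * h⁻¹) → a = b := by
    intro a ha b hb e
    by_contra hne
    have hd : b⁻¹ * a ≠ 1 := by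
      intro h0
      apply hne
      have := congrArg (fun t => b * t) h0
      simpa using this
    apply P2 (b⁻¹ * a) (A.mul_mem (A.inv_mem hb) ha) hd
    have := congrArg (fun t => b⁻¹ * t * (h * a * h⁻¹)) e
    rw [show b⁻¹ * (a * (h * a⁻¹ * h⁻¹)) * (h * a * h⁻¹) = b⁻¹ * a by group,
      show b⁻¹ * (b * (h * b⁻¹ * h⁻¹)) * (h * a * h⁻¹) = h * (b⁻¹ * a) * h⁻¹ by group] at this
    exact this.symm
  intro g hg
  obtain ⟨a, ha, w, hw, rfl⟩ := P1 g
  have hwH : w ∈ H := (zpowers_le.2 hH) hw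
  have haN : a ∈ normalizer (H : Set G) := by
    have : a = (a * w) * w⁻¹ := by group
    rw [this]
    exact mul_mem hg (inv_mem (le_normalizer hwH))
  have hc : a * (h * a⁻¹ * h⁻¹) ∈ H ⊓ A := by
    refine ⟨?_, A.mul_mem ha (hAn.conj_mem _ (A.inv_mem ha) h)⟩
    have h1 : a * h * a⁻¹ ∈ H := (mem_normalizer_iff.1 haN h).1 hH
    have : a * (h * a⁻¹ * h⁻¹) = (a * h * a⁻¹) * h⁻¹ := by group
    rw [this]
    exact H.mul_mem h1 (H.inv_mem hH)
  let φ : (H ⊓ A : Subgroup G) → (H ⊓ A : Subgroup G) := fun b =>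
    ⟨(b : G) * (h * (b : G)⁻¹ * h⁻¹),
      H.mul_mem b.2.1 (H.mul_mem (H.mul_mem hH (H.inv_mem b.2.1)) (H.inv_mem hH)),
      A.mul_mem b.2.2 (hAn.conj_mem _ (A.inv_mem b.2.2) h)⟩
  have hφ : Function.Injective φ := by
    intro b b' e
    exact Subtype.ext (hinj b b.2.2 b' b'.2.2 (congrArg Subtype.val e))
  obtain ⟨b, hb⟩ := (Finite.injective_iff_surjective.1 hφ) ⟨_, hc⟩
  have hab : (b : G) = a := hinj b b.2.2 a ha (congrArg Subtype.val hb)
  exact H.mul_mem (hab ▸ b.2.1) hwH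

theorem bwd {G : Type*} [Group G] [Finite G] (x : G) (A : Subgroup G) (p : ℕ) (hpp : p.Prime)
    (hAn : A.Normal) (hAc : IsMulCommutative A) (hx : ∃ k : ℕ, orderOf x = p ^ k)
    (hcomp : (zpowers x).IsComplement' A) (hxp : x ^ p ∈ center G)
    (hfpf : ∀ a : G, a ∈ A → a ≠ 1 → x * a * x⁻¹ ≠ a) (H : Subgroup G)
    (hH : ¬ IsMulCommutative H) : normalizer (H : Set G) = H := by
  refine le_antisymm ?_ le_normalizer
  obtain ⟨k, hk⟩ := hx
  have hxk : x ^ (p ^ k) = 1 := by rw [← hk, pow_orderOf_eq_one]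
  have hAab : ∀ a ∈ A, ∀ b ∈ A, a * b = b * a := fun a ha b hb =>
    congrArg Subtype.val (hAc.is_comm.comm ⟨a, ha⟩ ⟨b, hb⟩)
  have hgen : ∀ g : G, ∃ a ∈ A, ∃ i : ℕ, g = a * x ^ i := by
    intro g
    have hg : g ∈ zpowers x ⊔ A := by rw [hcomp.sup_eq_top]; trivial
    obtain ⟨w, hw, a, ha, rfl⟩ := mem_sup_of_normal_right.1 hg
    rw [← mem_powers_iff_mem_zpowers] at hw
    obtain ⟨i, rfl⟩ := hw
    exact ⟨x ^ i * a * (x ^ i)⁻¹, hAn.conj_mem a ha _, i, by group⟩
  obtain ⟨h, hhH, a₁, ha₁, i, hi, rfl⟩ : ∃ h ∈ H, ∃ a ∈ A, ∃ i : ℕ, ¬ p ∣ i ∧ h = a * x ^ i := by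
    by_contra hcon
    push Not at hcon
    apply hH
    have hform : ∀ h ∈ H, ∃ a ∈ A, ∃ z ∈ center G, h = a * z := by
      intro h hh
      obtain ⟨a, ha, i, e⟩ := hgen h
      by_cases hpi : p ∣ i
      · obtain ⟨j, rfl⟩ := hpi
        exact ⟨a, ha, (x ^ p) ^ j, (center G).pow_mem hxp j, by rw [e, pow_mul]⟩
      · exact absurd e (hcon h hh a ha i hpi)
    refine ⟨⟨fun u v => Subtype.ext ?_⟩⟩
    obtain ⟨a, ha, z, hz, e1⟩ := hform u u.2
    obtain ⟨b, hb, z', hz', e2⟩ := hform v v.2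
    show (u : G) * v = v * u
    rw [e1, e2]
    have c1 : Commute a b := hAab a ha b hb
    have c2 : Commute a z' := mem_center_iff.1 hz' a
    have c3 : Commute z b := (mem_center_iff.1 hz b).symm
    have c4 : Commute z z' := mem_center_iff.1 hz' z
    exact ((c1.mul_right c2).mul_left (c3.mul_right c4)).eq
  have hic : i.Coprime (p ^ k) :=
    Nat.Coprime.pow_right k ((Nat.Prime.coprime_iff_not_dvd hpp).2 hi).symm
  apply core A H hhH
  · intro g
    have hxz : (QuotientGroup.mk x : G ⧸ A) ∈ zpowers (QuotientGroup.mk (a₁ * x ^ i) : G ⧸ A) := by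
      apply coprime_mem' _ hic
      · have : (QuotientGroup.mk x : G ⧸ A) ^ i = QuotientGroup.mk (a₁ * x ^ i) := by
          rw [QuotientGroup.mk_mul, (QuotientGroup.eq_one_iff a₁).2 ha₁, one_mul, QuotientGroup.mk_pow]
        rw [this]
        exact mem_zpowers _
      · rw [← QuotientGroup.mk_pow, hxk, QuotientGroup.mk_one]
        exact one_mem _
    obtain ⟨a, ha, l, rfl⟩ := hgen g
    have hgz : (QuotientGroup.mk (a * x ^ l) : G ⧸ A) ∈
        zpowers (QuotientGroup.mk (a₁ * x ^ i) : G ⧸ A) := by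
      have e0 : (QuotientGroup.mk (a * x ^ l) : G ⧸ A) = (QuotientGroup.mk x : G ⧸ A) ^ l := by
        rw [QuotientGroup.mk_mul, (QuotientGroup.eq_one_iff a).2 ha, one_mul, QuotientGroup.mk_pow]
      rw [e0]
      exact pow_mem hxz l
    obtain ⟨t, ht⟩ := hgz
    have ht' : (QuotientGroup.mk (a₁ * x ^ i) : G ⧸ A) ^ t = QuotientGroup.mk (a * x ^ l) := ht
    refine ⟨a * x ^ l * ((a₁ * x ^ i) ^ t)⁻¹, ?_, (a₁ * x ^ i) ^ t, ⟨t, rfl⟩, by group⟩
    rw [← QuotientGroup.eq_one_iff, QuotientGroup.mk_mul, QuotientGroup.mk_inv, QuotientGroup.mk_zpow,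
      ht', mul_inv_cancel]
  · intro a ha ha1 hfix
    apply hfpf a ha ha1
    have h1 : x ^ i * a * (x ^ i)⁻¹ ∈ A := hAn.conj_mem a ha _
    have h2 : x ^ i * a * (x ^ i)⁻¹ = a := by
      have e : a₁ * x ^ i * a * (a₁ * x ^ i)⁻¹ = a₁ * (x ^ i * a * (x ^ i)⁻¹) * a₁⁻¹ := by group
      rw [e, hAab a₁ ha₁ _ h1, mul_inv_cancel_right] at hfix
      exact hfix
    have h3 : x ∈ centralizer ({a} : Set G) := by
      apply coprime_mem' _ hic
      · rw [mem_centralizer_iff]
        intro y hy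
        rw [Set.mem_singleton_iff.1 hy]
        have := congrArg (fun t => t * x ^ i) h2
        simpa using this.symm
      · rw [hxk]; exact one_mem _
    have h4 := (mem_centralizer_iff.1 h3) a rfl
    rw [← h4, mul_inv_cancel_right]

/-- Let G be a finite solvable non-nilpotent group. Every non-abelian subgroup of G is self-normalizing if and only if G is a semidirect product ⟨x⟩ ⋉ A in which ⟨x⟩ is a p-group for some prime p, A is a normal abelian subgroup of order prime to p, x^p is central in G, and x acts fixed-point-freely on A (no non-identity element of A commutes with x). -/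
theorem result {G : Type*} [Group G] [Finite G]
    [Group.IsSolvable G] (hnn : ¬ Group.IsNilpotent G) :
    (∀ H : Subgroup G, ¬ IsMulCommutative H → Subgroup.normalizer (H : Set G) = H) ↔
    ∃ (x : G) (A : Subgroup G) (p : ℕ), p.Prime ∧ A.Normal ∧ IsMulCommutative A ∧ (∃ k : ℕ, orderOf x = p ^ k) ∧
      ¬ p ∣ Nat.card A ∧ (Subgroup.zpowers x).IsComplement' A ∧ x ^ p ∈ Subgroup.center G ∧
      ∀ a : G, a ∈ A → a ≠ 1 → x * a * x⁻¹ ≠ a := by
  constructor
  · intro hS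
    exact fwd hnn hS
  · rintro ⟨x, A, p, hpp, hAn, hAc, hx, -, hcomp, hxp, hfpf⟩ H hH
    exact bwd x A p hpp hAn hAc hx hcomp hxp hfpf H hH

end Cfsg.Agent.S4071
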