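import Mathlib
import Cfsg.Agent.Lib.helper6_SelfCent
import Cfsg.Agent.Lib.Helper1_FrobPNil
import Cfsg.Agent.Lib.Helper3_Local
import Cfsg.Agent.Lib.Helper7_Transfer
import Cfsg.Agent.Lib.Helper7_Max
import Cfsg.Statements.S4072

set_option autoImplicit false
open Cfsg

namespace Cfsg.Agent.S4072

open Subgroup Cfsg.Agent.Lib.helper6_SelfCent Cfsg.Agent.Lib.Helper1_FrobPNil Cfsg.Agent.Lib.Helper1_PNil

theorem coprime_mem' {K : Type*} [Group K] (V : Subgroup K) {m n : ℕ} (hc : m.Coprime n) {w : K}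
    (h1 : w ^ m ∈ V) (h2 : w ^ n ∈ V) : w ∈ V := by
  have h3 : w ^ (Nat.gcd m n : ℤ) ∈ V := by
    rw [Nat.gcd_eq_gcd_ab, zpow_add, zpow_mul, zpow_mul, zpow_natCast, zpow_natCast]
    exact V.mul_mem (V.zpow_mem h1 _) (V.zpow_mem h2 _)
  rw [hc] at h3
  simpa using h3

theorem lemW0 {W : Type*} [Group W] [Finite W] [Nontrivial W]
    (h : ∀ Y : Subgroup W, Y ≠ ⊥ → normalizer (Y : Set W) = Y) : (Nat.card W).Prime := by
  classical
  haveI := Fintype.ofFinite W
  set r := (Nat.card W).minFac with hr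
  have hr' : r.Prime := Nat.minFac_prime (Finite.one_lt_card).ne'
  haveI := Fact.mk hr'
  obtain ⟨w, hw⟩ := exists_prime_orderOf_dvd_card (G := W) r
    (by rw [← Nat.card_eq_fintype_card]; exact Nat.minFac_dvd _)
  have hw1 : zpowers w ≠ ⊥ := by
    rw [Ne, zpowers_eq_bot]
    rintro rfl
    rw [orderOf_one] at hw
    exact hr'.one_lt.ne hw
  have hN := h _ hw1
  have hSC : SC r w := by
    refine ⟨hr', hw, le_antisymm ?_ ?_⟩
    · intro x hx
      rw [← hN]
      apply Cfsg.Agent.Lib.Helper7_Max.mem_normalizer_of_conj_mem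
      rintro _ ⟨i, rfl⟩
      have h1 : Commute w x := (mem_centralizer_iff.1 hx) w rfl
      have h2 : w ^ i * x = x * w ^ i := (h1.zpow_left i).eq
      show x * w ^ i * x⁻¹ ∈ zpowers w
      rw [← h2, mul_inv_cancel_right]
      exact ⟨i, rfl⟩
    · rw [zpowers_le, mem_centralizer_iff]
      intro y hy
      rw [Set.mem_singleton_iff.1 hy]
  have he : eN w = 1 := by
    rw [eN, relIndex_eq_one]
    exact hN.le
  obtain ⟨hidx, -⟩ := hSC.burnside he
  by_cases hc : commutator W = ⊥
  · rw [hc, index_bot] at hidx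
    rw [hidx]; exact hr'
  · have h1 := h _ hc
    rw [normalizer_eq_top] at h1
    rw [← h1, index_top] at hidx
    exact absurd hidx hr'.one_lt.ne

theorem lemW {X : Type*} [Group X] [Finite X] (D : Subgroup X) [D.Normal] (hD : D ≠ ⊤)
    (h : ∀ Y : Subgroup X, D < Y → normalizer (Y : Set X) = Y) : D.index.Prime := by
  haveI : Nontrivial (X ⧸ D) := by
    rw [← Finite.one_lt_card_iff_nontrivial]
    have h1 : D.index ≠ 1 := fun h => hD (index_eq_one.1 h)
    have h2 : D.index ≠ 0 := index_ne_zero_of_finite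
    show 1 < D.index
    omega
  apply lemW0 (W := X ⧸ D)
  intro Y hY
  have hs := QuotientGroup.mk'_surjective D
  apply comap_injective hs
  rw [comap_normalizer_eq_of_surjective _ hs]
  apply h
  refine lt_of_le_of_ne ?_ ?_
  · intro d hd
    rw [mem_comap]
    have : (QuotientGroup.mk' D) d = 1 := (QuotientGroup.eq_one_iff d).2 hd
    rw [this]
    exact Y.one_mem
  · intro h0
    apply hY
    rw [← map_comap_eq_self_of_surjective hs Y, ← h0, QuotientGroup.map_mk'_self]

theorem nonab {G : Type*} [Group G] {Y : Subgroup G} {a b : G} (ha : a ∈ Y) (hb : b ∈ Y)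
    (hne : a * b ≠ b * a) : ¬ IsMulCommutative Y := by
  intro hc
  exact hne (congrArg Subtype.val (hc.is_comm.comm ⟨a, ha⟩ ⟨b, hb⟩))

theorem ab_of {G : Type*} [Group G] {Y : Subgroup G} (h : ∀ a ∈ Y, ∀ b ∈ Y, a * b = b * a) :
    IsMulCommutative Y := ⟨⟨fun a b => Subtype.ext (h a a.2 b b.2)⟩⟩

theorem lemF {G : Type*} [Group G] [Finite G] {p : ℕ} [hp : Fact p.Prime]
    (hS : ∀ H : Subgroup G, ¬ IsMulCommutative H → Subgroup.normalizer (H : Set G) = H)
    (hF : ¬ FrobHyp p G) :
    ∃ P : Sylow p G, (∀ a ∈ P, ∀ b ∈ P, a * b = b * a) ∧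
      ∀ z ∈ center G, (∃ k : ℕ, z ^ (p ^ k) = 1) → z ∈ P := by
  classical
  let S : Set (Subgroup G) := {Q | IsPGroup p Q ∧ ∃ g ∈ normalizer (Q : Set G),
    (orderOf g).Coprime p ∧ g ∉ centralizer (Q : Set G)}
  have hSne : S.Nonempty := by
    unfold FrobHyp at hF
    push Not at hF
    obtain ⟨Q, hQ, g, hg, ho, hc⟩ := hF
    exact ⟨Q, hQ, g, hg, ho, hc⟩
  obtain ⟨U, hUS, hUmax⟩ := WellFounded.has_min (wellFounded_gt (α := Subgroup G)) S hSne
  obtain ⟨hU, g, hgN, ho, hgC⟩ := hUS
  have hUpow : ∀ v ∈ U, ∃ j : ℕ, v ^ (p ^ j) = 1 := by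
    intro v hv
    obtain ⟨j, hj⟩ := hU ⟨v, hv⟩
    exact ⟨j, by simpa using congrArg Subtype.val hj⟩
  have hUab : ∀ a ∈ U, ∀ b ∈ U, a * b = b * a := by
    by_contra hcon
    push Not at hcon
    obtain ⟨a, ha, b, hb, hne⟩ := hcon
    have h1 := hS U (nonab ha hb hne)
    rw [h1] at hgN
    obtain ⟨j, hj⟩ := hUpow g hgN
    have h2 : g = 1 := Cfsg.Agent.Lib.Helper7_Transfer.eq_one_of_pow_coprime
      (Nat.Coprime.pow_right j ho) (pow_orderOf_eq_one g) hj
    rw [h2] at hgC
    exact hgC (one_mem _)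
  set X := normalizer (U : Set G) with hX
  set D := centralizer (U : Set G) with hD
  have hDX : D ≤ X := centralizer_le_normalizer _
  have hUD : U ≤ D := by
    intro u hu
    rw [hD, mem_centralizer_iff]
    intro v hv
    exact hUab v hv u hu
  haveI hDn : (D.subgroupOf X).Normal := by
    rw [hD, hX, ← normalizerMonoidHom_ker]
    infer_instance
  have hXD : X ≤ normalizer (D : Set G) := (normal_subgroupOf_iff_le_normalizer hDX).1 hDn
  have hDab : ∀ a ∈ D, ∀ b ∈ D, a * b = b * a := by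
    by_contra hcon
    push Not at hcon
    obtain ⟨a, ha, b, hb, hne⟩ := hcon
    have h1 := hS D (nonab ha hb hne)
    apply hgC
    rw [← h1]
    exact hXD hgN
  have hD'top : D.subgroupOf X ≠ ⊤ := by
    intro h0
    rw [subgroupOf_eq_top] at h0
    exact hgC (h0 hgN)
  have hprime : (D.subgroupOf X).index.Prime := by
    apply lemW _ hD'top
    intro Y hY
    obtain ⟨y, hyY, hyD⟩ := SetLike.exists_of_lt hY
    rw [mem_subgroupOf, hD, mem_centralizer_iff] at hyD
    push Not at hyD
    obtain ⟨u, hu, hne⟩ := hyD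
    have huY : (⟨u, hDX (hUD hu)⟩ : X) ∈ Y := hY.le (mem_subgroupOf.2 (hUD hu))
    have h1 := hS (Y.map X.subtype) (nonab (a := u) (b := y) ⟨_, huY, rfl⟩ ⟨_, hyY, rfl⟩ hne)
    refine le_antisymm ?_ le_normalizer
    intro x hx
    have h2 : (x : G) ∈ normalizer ((Y.map X.subtype : Subgroup G) : Set G) :=
      le_normalizer_map X.subtype ⟨x, hx, rfl⟩
    rw [h1] at h2
    obtain ⟨y', hy', e⟩ := h2
    have : y' = x := Subtype.ext e
    rwa [← this]
  set r := (D.subgroupOf X).index with hr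
  have hrp : r.Coprime p := by
    have h1 : r ∣ orderOf g := by
      by_contra hnd
      have hc : r.Coprime (orderOf g) := (Nat.Prime.coprime_iff_not_dvd hprime).2 hnd
      have h2 : (⟨g, hgN⟩ : X) ∈ D.subgroupOf X := by
        apply coprime_mem' _ hc (pow_index_mem _ _)
        have : (⟨g, hgN⟩ : X) ^ orderOf g = 1 := by
          ext; simp [pow_orderOf_eq_one]
        rw [this]; exact one_mem _
      exact hgC h2
    exact Nat.Coprime.coprime_dvd_left h1 ho
  have hpel : ∀ x ∈ X, (∃ k : ℕ, x ^ (p ^ k) = 1) → x ∈ D := by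
    rintro x hx ⟨k, hk⟩
    have h2 : (⟨x, hx⟩ : X) ∈ D.subgroupOf X := by
      apply coprime_mem' _ (Nat.Coprime.pow_right k hrp) (pow_index_mem _ _)
      have : (⟨x, hx⟩ : X) ^ (p ^ k) = 1 := by
        ext; simp [hk]
      rw [this]; exact one_mem _
    exact h2
  let T : Subgroup G :=
    { carrier := {x | x ∈ D ∧ ∃ k : ℕ, x ^ (p ^ k) = 1}
      one_mem' := ⟨D.one_mem, 0, by simp⟩
      mul_mem' := by
        rintro a b ⟨ha, j, hj⟩ ⟨hb, k, hk⟩
        refine ⟨D.mul_mem ha hb, j + k, ?_⟩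
        have hc : Commute a b := hDab a ha b hb
        rw [hc.mul_pow, pow_add, pow_mul, hj, one_pow, mul_comm (p ^ j), pow_mul, hk, one_pow, one_mul]
      inv_mem' := by
        rintro a ⟨ha, j, hj⟩
        exact ⟨D.inv_mem ha, j, by rw [inv_pow, hj, inv_one]⟩ }
  have hT : ∀ x, x ∈ T ↔ x ∈ D ∧ ∃ k : ℕ, x ^ (p ^ k) = 1 := fun x => Iff.rfl
  have hUT : U ≤ T := fun u hu => (hT u).2 ⟨hUD hu, hUpow u hu⟩
  have hTS : T ∈ S := by
    refine ⟨?_, g, ?_, ho, ?_⟩
    · intro t
      obtain ⟨k, hk⟩ := ((hT _).1 t.2).2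
      exact ⟨k, Subtype.ext (by simpa using hk)⟩
    · apply Cfsg.Agent.Lib.Helper7_Max.mem_normalizer_of_conj_mem
      intro t ht
      obtain ⟨htD, k, hk⟩ := (hT t).1 ht
      rw [hT]
      refine ⟨?_, k, by rw [conj_pow, hk]; simp⟩
      exact (mem_normalizer_iff.1 (hXD hgN) t).1 htD
    · intro h0
      exact hgC (centralizer_le hUT h0)
  have hTU : T = U := by
    by_contra hne
    exact hUmax T hTS (lt_of_le_of_ne hUT (Ne.symm hne))
  obtain ⟨P, hUP⟩ := hU.exists_le_sylow
  have hPU : U = P := by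
    by_contra hne
    obtain ⟨x, hxP, hxN, hxU⟩ := Cfsg.Agent.Lib.Helper3_Local.exists_mem_normalizer_not_mem
      P.isPGroup' (lt_of_le_of_ne hUP hne)
    apply hxU
    have hxk : ∃ k : ℕ, x ^ (p ^ k) = 1 := by
      obtain ⟨j, hj⟩ := P.isPGroup' ⟨x, hxP⟩
      exact ⟨j, by simpa using congrArg Subtype.val hj⟩
    rw [← hTU, hT]
    exact ⟨hpel x hxN hxk, hxk⟩
  refine ⟨P, ?_, ?_⟩
  · intro a ha b hb
    have ha' : a ∈ (P : Subgroup G) := ha
    have hb' : b ∈ (P : Subgroup G) := hb
    rw [← hPU] at ha' hb'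
    exact hUab a ha' b hb'
  · intro z hz hk
    show z ∈ (P : Subgroup G)
    rw [← hPU, ← hTU, hT]
    exact ⟨center_le_centralizer _ hz, hk⟩

theorem factB {G A : Type*} [Group G] [Group A] [Group.IsSolvable A] (f : G →* A)
    (hk : IsMulCommutative f.ker) : Group.IsSolvable G := by
  haveI : Group.IsSolvable f.ker := Group.isSolvable_of_comm (fun a b => hk.is_comm.comm a b)
  exact Group.isSolvable_of_ker_le_range f.ker.subtype f (by simp)

theorem result' {G : Type*} [Group G] [Finite G]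
    (hS : ∀ H : Subgroup G, ¬ IsMulCommutative H → Subgroup.normalizer (H : Set G) = H) :
    Group.IsSolvable G ∨ IsSimpleGroup G := by
  classical
  by_cases hsimple : IsSimpleGroup G
  · exact Or.inr hsimple
  left
  by_cases htriv : Subsingleton G
  · infer_instance
  rw [not_subsingleton_iff_nontrivial] at htriv
  have hex : ∃ N : Subgroup G, N.Normal ∧ N ≠ ⊥ ∧ N ≠ ⊤ := by
    by_contra hcon
    push Not at hcon
    exact hsimple ⟨fun N hN => by
      by_cases h : N = ⊥
      · exact Or.inl h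
      · exact Or.inr (hcon N hN h)⟩
  obtain ⟨N, hNn, hNbot, hNtop⟩ := hex
  have factA : ∀ K : Subgroup G, K.Normal → K ≠ ⊤ → IsMulCommutative K := by
    intro K hK hKtop
    by_contra hc
    have := hS K hc
    rw [normalizer_eq_top] at this
    exact hKtop this.symm
  have hNab := factA N hNn hNtop
  set C := centralizer (N : Set G) with hCdef
  haveI hCn : C.Normal := inferInstance
  have hNC : N ≤ C := by
    intro n hn
    rw [hCdef, mem_centralizer_iff]
    intro m hm
    exact congrArg Subtype.val (hNab.is_comm.comm ⟨m, hm⟩ ⟨n, hn⟩)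
  by_cases hC : C = ⊤
  · have hNZ : N ≤ center G := centralizer_eq_top_iff_subset.1 hC
    have hcard : Nat.card N ≠ 1 := fun h => hNbot (N.eq_bot_of_card_eq h)
    set p := (Nat.card N).minFac with hp
    have hp' : p.Prime := Nat.minFac_prime hcard
    haveI := Fact.mk hp'
    obtain ⟨z, hz⟩ := exists_prime_orderOf_dvd_card' (G := N) p (Nat.minFac_dvd _)
    have hzo : orderOf (z : G) = p := by rw [Subgroup.orderOf_coe, hz]
    have hzZ : (z : G) ∈ center G := hNZ z.2
    by_cases hF : FrobHyp p G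
    · obtain ⟨K, hKn, hKc, k, hk⟩ := Cfsg.Agent.Lib.Helper1_FrobPNil.frobenius hF
      have hKtop : K ≠ ⊤ := by
        rintro rfl
        have h1 : p ∣ Nat.card (⊤ : Subgroup G) := by
          rw [card_top, ← hzo]; exact orderOf_dvd_natCard _
        exact hp'.one_lt.ne' (Nat.Coprime.eq_one_of_dvd hKc.symm h1)
      have hpg : IsPGroup p (G ⧸ K) := IsPGroup.of_card (n := k) hk
      haveI : Group.IsNilpotent (G ⧸ K) := hpg.isNilpotent
      exact factB (QuotientGroup.mk' K) (by rw [QuotientGroup.ker_mk']; exact factA K hKn hKtop)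
    · obtain ⟨P, hPab, hPz⟩ := lemF hS hF
      letI : CommGroup (P : Subgroup G) :=
        { (inferInstance : Group (P : Subgroup G)) with
          mul_comm := fun a b => Subtype.ext (hPab a a.2 b b.2) }
      have hzP : (z : G) ∈ (P : Subgroup G) :=
        hPz z hzZ ⟨1, by rw [pow_one, ← hzo, pow_orderOf_eq_one]⟩
      have hz1 : (z : G) ≠ 1 := by
        intro h0
        rw [h0, orderOf_one] at hzo
        exact hp'.one_lt.ne hzo
      have hτ : MonoidHom.transfer (MonoidHom.id (P : Subgroup G)) (z : G) ≠ 1 := by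
        apply Cfsg.Agent.Lib.Helper7_Transfer.transfer_ne_one (p := p) (MonoidHom.id (P : Subgroup G))
          ((Nat.Prime.coprime_iff_not_dvd hp').2 P.not_dvd_index) (z : G) hzP
        · intro h0
          exact hz1 (congrArg Subtype.val h0)
        · exact ⟨1, by rw [pow_one, hzo]⟩
        · intro k g₀ hk
          ext
          show g₀⁻¹ * (z : G) ^ k * g₀ = (z : G) ^ k
          have h1 : (z : G) ^ k ∈ center G := (center G).pow_mem hzZ k
          rw [mul_assoc, ← mem_center_iff.1 h1 g₀, inv_mul_cancel_left]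
      apply factB (MonoidHom.transfer (MonoidHom.id (P : Subgroup G)))
      apply factA _ inferInstance
      intro h0
      apply hτ
      rw [← MonoidHom.mem_ker, h0]
      trivial
  · have hprime : C.index.Prime := by
      apply lemW C hC
      intro Y hY
      obtain ⟨y, hyY, hyC⟩ := SetLike.exists_of_lt hY
      rw [hCdef, mem_centralizer_iff] at hyC
      push Not at hyC
      obtain ⟨n, hn, hne⟩ := hyC
      exact hS Y (nonab (hY.le (hNC hn)) hyY hne)
    haveI := Fact.mk hprime
    have hpg : IsPGroup C.index (G ⧸ C) := IsPGroup.of_card (n := 1) (by rw [pow_one]; rfl)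
    haveI : Group.IsNilpotent (G ⧸ C) := hpg.isNilpotent
    exact factB (QuotientGroup.mk' C) (by rw [QuotientGroup.ker_mk']; exact factA C hCn hC)

/-- A finite group in which every non-abelian subgroup is self-normalizing is solvable or simple. -/
theorem result {G : Type*} [Group G] [Finite G] (hS : ∀ H : Subgroup G, ¬ IsMulCommutative H → Subgroup.normalizer (H : Set G) = H) :
    Group.IsSolvable G ∨ IsSimpleGroup G := by
  exact result' hS

end Cfsg.Agent.S4072
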