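import Cfsg.Statements.S4075

import Mathlib
set_option autoImplicit false
open Cfsg

namespace Cfsg.Agent.S4075


/-- Let G be a finite nilpotent group. Every non-abelian subgroup of G is self-normalizing if and only if G is abelian or G is a minimal non-abelian p-group for some prime p (non-abelian of prime-power order with every proper subgroup abelian). -/
theorem result {G : Type*} [Group G] [Finite G]
    [Group.IsNilpotent G] :
    (∀ H : Subgroup G, ¬ IsMulCommutative H → Subgroup.normalizer (H : Set G) = H) ↔
    (IsMulCommutative G ∨ (IsPrimePow (Nat.card G) ∧ ¬ IsMulCommutative G ∧ ∀ H : Subgroup G, H ≠ ⊤ → IsMulCommutative H)) := by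
  constructor
  · intro h
    by_cases hc : IsMulCommutative G
    · exact Or.inl hc
    · right
      have hprop : ∀ H : Subgroup G, H ≠ ⊤ → IsMulCommutative H := by
        intro H hH
        by_contra hHc
        have h1 := h H hHc
        have h2 := Group.normalizerCondition_of_isNilpotent (G := G) H (lt_top_iff_ne_top.2 hH)
        rw [h1] at h2
        exact lt_irrefl _ h2
      refine ⟨?_, hc, hprop⟩
      by_contra hpp
      apply hc
      obtain ⟨e⟩ := ((Group.isNilpotent_of_finite_tfae (G := G)).out 0 4 rfl rfl).1 inferInstance
      have hSyl : ∀ (p : (Nat.card G).primeFactors) (P : Sylow p G), (P : Subgroup G) ≠ ⊤ := by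
        intro p P htop
        apply hpp
        haveI : Fact (p : ℕ).Prime := ⟨Nat.prime_of_mem_primeFactors p.2⟩
        obtain ⟨k, hk⟩ := IsPGroup.iff_card.1 P.isPGroup'
        rw [htop, Subgroup.card_top] at hk
        rw [hk]
        refine ⟨p, k, (Nat.prime_of_mem_primeFactors p.2).prime, ?_, rfl⟩
        rcases Nat.eq_zero_or_pos k with rfl | hk0
        · exfalso
          have h1 : (p : ℕ) ∣ Nat.card G := Nat.dvd_of_mem_primeFactors p.2
          have h2 : Nat.card G = 1 := by simpa using hk
          have h3 : (p : ℕ) ∣ 1 := h2 ▸ h1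
          exact (Nat.prime_of_mem_primeFactors p.2).one_lt.ne' (Nat.dvd_one.1 h3)
        · exact hk0
      refine ⟨⟨fun a b => ?_⟩⟩
      obtain ⟨a', rfl⟩ := e.surjective a
      obtain ⟨b', rfl⟩ := e.surjective b
      rw [← map_mul, ← map_mul]
      congr 1
      funext p P
      haveI := hprop _ (hSyl p P)
      exact mul_comm' (a' p P) (b' p P)
  · rintro (hc | ⟨-, hc, hprop⟩) H hH
    · exfalso
      apply hH
      exact ⟨⟨fun a b => Subtype.ext (mul_comm' a.1 b.1)⟩⟩
    · have : H = ⊤ := by
        by_contra hne
        exact hH (hprop H hne)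
      rw [this]
      exact Subgroup.normalizer_eq_top_iff.2 inferInstance

end Cfsg.Agent.S4075
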