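import Cfsg.Statements.S4084

import Mathlib
set_option autoImplicit false
open Cfsg

namespace Cfsg.Agent.S4084

theorem one_dir {G H : Type*} [Group G] [Finite G] [Group H] [Finite H] (e : G ≃ H)
    (he : ∀ x y : G, Commute x y ↔ Commute (e x) (e y))
    {p q : ℕ} (hp : p.Prime) (hq : q.Prime) (hpq : p ≠ q) :
    (∃ g : G, orderOf g = p * q) → (∃ h : H, orderOf h = p * q) := by
  rintro ⟨g, hg⟩
  let A : Subgroup G := Subgroup.centralizer (Subgroup.centralizer ({g} : Set G) : Set G)
  let B : Subgroup H := Subgroup.centralizer (Subgroup.centralizer ({e g} : Set H) : Set H)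
  have hA : ∀ x : G, x ∈ A ↔ ∀ y : G, Commute g y → Commute y x := by
    intro x
    constructor
    · intro hx y hy
      exact (Subgroup.mem_centralizer_iff.1 hx) y (Subgroup.mem_centralizer_iff.2 (by
        intro h hh
        rw [Set.mem_singleton_iff] at hh
        subst hh
        exact hy))
    · intro hx
      rw [Subgroup.mem_centralizer_iff]
      intro y hy
      exact hx y ((Subgroup.mem_centralizer_iff.1 hy) g rfl)
  have hB : ∀ x : H, x ∈ B ↔ ∀ y : H, Commute (e g) y → Commute y x := by
    intro x
    constructor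
    · intro hx y hy
      exact (Subgroup.mem_centralizer_iff.1 hx) y (Subgroup.mem_centralizer_iff.2 (by
        intro h hh
        rw [Set.mem_singleton_iff] at hh
        subst hh
        exact hy))
    · intro hx
      rw [Subgroup.mem_centralizer_iff]
      intro y hy
      exact hx y ((Subgroup.mem_centralizer_iff.1 hy) (e g) rfl)
  have hAB : ∀ x : G, x ∈ A ↔ e x ∈ B := by
    intro x
    rw [hA, hB]
    constructor
    · intro h y hy
      obtain ⟨y, rfl⟩ := e.surjective y
      exact (he _ _).1 (h y ((he _ _).2 hy))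
    · intro h y hy
      exact (he _ _).2 (h (e y) ((he _ _).1 hy))
  have hcard : Nat.card A = Nat.card B :=
    Nat.card_congr (e.subtypeEquiv hAB)
  have hgA : g ∈ A := (hA g).2 (fun y hy => hy.symm)
  have hdvd : p * q ∣ Nat.card B := by
    rw [← hcard, ← hg]
    have := orderOf_dvd_natCard (⟨g, hgA⟩ : A)
    rwa [Subgroup.orderOf_mk] at this
  haveI : Fact p.Prime := ⟨hp⟩
  haveI : Fact q.Prime := ⟨hq⟩
  obtain ⟨u, hu⟩ := exists_prime_orderOf_dvd_card' p ((Dvd.intro _ rfl).trans hdvd)
  obtain ⟨v, hv⟩ := exists_prime_orderOf_dvd_card' q ((Dvd.intro_left _ rfl).trans hdvd)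
  have hcomm : Commute u.1 v.1 := by
    have h1 : Commute (e g) u.1 := ((hB u.1).1 u.2 (e g) (Commute.refl _))
    exact (hB v.1).1 v.2 u.1 h1
  refine ⟨u.1 * v.1, ?_⟩
  rw [hcomm.orderOf_mul_eq_mul_orderOf_of_coprime, Subgroup.orderOf_coe, Subgroup.orderOf_coe, hu, hv]
  rw [Subgroup.orderOf_coe, Subgroup.orderOf_coe, hu, hv]
  exact (Nat.coprime_primes hp hq).2 hpq

/-- Let G and H be finite groups whose commuting graphs are isomorphic: there is a bijection e : G → H with x, y commuting exactly when e(x), e(y) commute. Then G and H have the same prime graph: for distinct primes p, q, G has an element of order pq if and only if H does (and #G = #H, so the prime divisors agree). -/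
theorem result {G H : Type*} [Group G] [Finite G] [Group H] [Finite H] (e : G ≃ H)
    (he : ∀ x y : G, Commute x y ↔ Commute (e x) (e y))
    {p q : ℕ} (hp : p.Prime) (hq : q.Prime) (hpq : p ≠ q) :
    (∃ g : G, orderOf g = p * q) ↔ (∃ h : H, orderOf h = p * q) := by
  constructor
  · exact one_dir e he hp hq hpq
  · apply one_dir e.symm _ hp hq hpq
    intro x y
    rw [he, e.apply_symm_apply, e.apply_symm_apply]

end Cfsg.Agent.S4084
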