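import Cfsg.Statements.S4086

import Mathlib
set_option autoImplicit false
open Cfsg

namespace Cfsg.Agent.S4086

theorem mem_zpowers_of_orderOf_dvd {C : Type*} [Group C] [Finite C] [IsCyclic C] (x y : C)
    (h : orderOf x ∣ orderOf y) : x ∈ Subgroup.zpowers y := by
  classical
  haveI := Fintype.ofFinite C
  have hm : 0 < orderOf y := orderOf_pos y
  have h1 := IsCyclic.card_pow_eq_one_le (α := C) hm
  have h2 : (Finset.univ.filter (fun a : C => a ∈ Subgroup.zpowers y)) ⊆
      Finset.univ.filter (fun a : C => a ^ orderOf y = 1) := by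
    intro a ha
    simp only [Finset.mem_filter, Finset.mem_univ, true_and] at ha ⊢
    obtain ⟨k, rfl⟩ := Subgroup.mem_zpowers_iff.1 ha
    rw [← zpow_natCast, ← zpow_mul, mul_comm, zpow_mul, zpow_natCast, pow_orderOf_eq_one, one_zpow]
  have h3 : (Finset.univ.filter (fun a : C => a ∈ Subgroup.zpowers y)).card = orderOf y := by
    rw [← Nat.card_zpowers, Nat.card_eq_fintype_card, Fintype.card_subtype]
  have h4 := Finset.eq_of_subset_of_card_le h2 (by rw [h3]; exact h1)
  have h5 : x ∈ Finset.univ.filter (fun a : C => a ^ orderOf y = 1) := by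
    simp only [Finset.mem_filter, Finset.mem_univ, true_and]
    exact (orderOf_dvd_iff_pow_eq_one).1 h
  rw [← h4] at h5
  simpa using h5

/-- For a finite group G the following are equivalent: every non-identity element has prime-power order; whenever two elements generate a cyclic subgroup, one of them is a power of the other (the enhanced power graph of G coincides with its power graph). -/
theorem result {G : Type*} [Group G] [Finite G] :
    (∀ g : G, g ≠ 1 → IsPrimePow (orderOf g)) ↔
    (∀ x y : G, IsCyclic ↥(Subgroup.closure ({x, y} : Set G)) → (x ∈ Subgroup.zpowers y ∨ y ∈ Subgroup.zpowers x)) := by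
  constructor
  · intro h x y hcyc
    haveI := hcyc
    set C := Subgroup.closure ({x, y} : Set G) with hC
    have hxC : x ∈ C := Subgroup.subset_closure (by simp)
    have hyC : y ∈ C := Subgroup.subset_closure (by simp)
    obtain ⟨z, hz⟩ := hcyc.exists_generator
    have hzcard : orderOf z = Nat.card C := orderOf_eq_card_of_forall_mem_zpowers hz
    obtain ⟨p, k, hp, hpk⟩ : ∃ p k : ℕ, p.Prime ∧ Nat.card C = p ^ k := by
      by_cases hz1 : z.1 = 1
      · refine ⟨2, 0, Nat.prime_two, ?_⟩
        rw [← hzcard, ← Subgroup.orderOf_coe, hz1]; simp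
      · obtain ⟨p, k, hp, -, hpk⟩ := h z.1 hz1
        exact ⟨p, k, hp.nat_prime, by rw [← hzcard, ← Subgroup.orderOf_coe, hpk]⟩
    obtain ⟨i, -, hi⟩ := (Nat.dvd_prime_pow hp).1 (hpk ▸ orderOf_dvd_natCard (⟨x, hxC⟩ : C))
    obtain ⟨j, -, hj⟩ := (Nat.dvd_prime_pow hp).1 (hpk ▸ orderOf_dvd_natCard (⟨y, hyC⟩ : C))
    rcases le_total i j with hij | hij
    · left
      have h1 := mem_zpowers_of_orderOf_dvd (⟨x, hxC⟩ : C) ⟨y, hyC⟩
        (by rw [hi, hj]; exact pow_dvd_pow p hij)
      obtain ⟨n, hn⟩ := Subgroup.mem_zpowers_iff.1 h1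
      exact Subgroup.mem_zpowers_iff.2 ⟨n, by simpa using congrArg Subtype.val hn⟩
    · right
      have h1 := mem_zpowers_of_orderOf_dvd (⟨y, hyC⟩ : C) ⟨x, hxC⟩
        (by rw [hi, hj]; exact pow_dvd_pow p hij)
      obtain ⟨n, hn⟩ := Subgroup.mem_zpowers_iff.1 h1
      exact Subgroup.mem_zpowers_iff.2 ⟨n, by simpa using congrArg Subtype.val hn⟩
  · intro h g hg
    by_contra hnp
    have hn1 : orderOf g ≠ 1 := by rwa [Ne, orderOf_eq_one_iff]
    obtain ⟨p, hp, hpd⟩ := Nat.exists_prime_and_dvd hn1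
    obtain ⟨k, m, hm, hgm⟩ := Nat.exists_eq_pow_mul_and_not_dvd (orderOf_pos g).ne' p hp.ne_one
    have hk : k ≠ 0 := by
      rintro rfl
      simp at hgm
      exact hm (hgm ▸ hpd)
    have hm1 : m ≠ 1 := by
      rintro rfl
      apply hnp
      rw [hgm, mul_one]
      exact ⟨p, k, hp.prime, Nat.pos_of_ne_zero hk, rfl⟩
    have hm0 : m ≠ 0 := by
      rintro rfl
      rw [mul_zero] at hgm
      exact (orderOf_pos g).ne' hgm
    have hx : orderOf (g ^ m) = p ^ k := by
      rw [orderOf_pow, hgm, Nat.gcd_eq_right (Dvd.intro_left _ rfl)]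
      exact Nat.mul_div_cancel _ (Nat.pos_of_ne_zero hm0)
    have hy : orderOf (g ^ (p ^ k)) = m := by
      rw [orderOf_pow, hgm, Nat.gcd_eq_right (Dvd.intro _ rfl)]
      exact Nat.mul_div_cancel_left _ (pow_pos hp.pos k)
    have hcyc : IsCyclic (Subgroup.closure ({g ^ m, g ^ (p ^ k)} : Set G)) := by
      apply Subgroup.isCyclic_of_le (H' := Subgroup.zpowers g)
      rw [Subgroup.closure_le]
      rintro z (rfl | rfl)
      · exact Subgroup.npow_mem_zpowers g m
      · exact Subgroup.npow_mem_zpowers g _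
    have hcop : (p ^ k).Coprime m :=
      Nat.Coprime.pow_left k ((Nat.Prime.coprime_iff_not_dvd hp).2 hm)
    rcases h _ _ hcyc with h1 | h1
    · have h2 := orderOf_dvd_of_mem_zpowers h1
      rw [hx, hy] at h2
      have h3 := Nat.Coprime.eq_one_of_dvd hcop h2
      exact absurd h3 (Nat.one_lt_pow hk hp.one_lt).ne'
    · have h2 := orderOf_dvd_of_mem_zpowers h1
      rw [hx, hy] at h2
      exact hm1 (Nat.Coprime.eq_one_of_dvd hcop.symm h2)

end Cfsg.Agent.S4086
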