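import Cfsg.Statements.S4089
import Cfsg.Agent.Lib.Helper4_Subn
import Cfsg.Agent.Lib.Helper7_Subnormal

set_option autoImplicit false
open Cfsg

namespace Cfsg.Agent.S4089

open scoped Pointwise
open Cfsg.Agent.Lib.Helper4_Cop Cfsg.Agent.Lib.Helper4_Syl Cfsg.Agent.Lib.Helper4_Subn

theorem keyK {G : Type*} [Group G] [Finite G] (p : ℕ) [Fact p.Prime]
    (H : Subgroup G) (hH : IsPGroup p H) (g : G) :
    ((H).subgroupOf (H ⊔ Subgroup.zpowers g)).IsSubnormal ↔
      ∃ R : Subgroup G, H ≤ R ∧ IsPGroup p R ∧ g ∈ Subgroup.normalizer (R : Set G) := by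
  constructor
  · intro hsn
    refine ⟨pCoreOf p (H ⊔ Subgroup.zpowers g), ?_, pCoreOf_isPGroup p _, ?_⟩
    · have h1 : H.subgroupOf (H ⊔ Subgroup.zpowers g) ≤ Cfsg.pCore p ↥(H ⊔ Subgroup.zpowers g) :=
        subnormal_pgroup_le_pCore hsn (hH.comap_subtype)
      intro x hx
      have hxL : x ∈ H ⊔ Subgroup.zpowers g := (le_sup_left : H ≤ _) hx
      have h2 : (⟨x, hxL⟩ : ↥(H ⊔ Subgroup.zpowers g)) ∈ H.subgroupOf (H ⊔ Subgroup.zpowers g) := by
        rw [Subgroup.mem_subgroupOf]; exact hx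
      exact (mem_pCoreOf_iff (p := p) (⟨x, hxL⟩ : ↥(H ⊔ Subgroup.zpowers g))).2 (h1 h2)
    · exact le_normalizer_pCoreOf p _ ((le_sup_right : Subgroup.zpowers g ≤ _) (Subgroup.mem_zpowers g))
  · rintro ⟨R, hHR, hR, hg⟩
    have hLN : H ⊔ Subgroup.zpowers g ≤ Subgroup.normalizer (R : Set G) :=
      sup_le (hHR.trans Subgroup.le_normalizer) ((Subgroup.zpowers_le).2 hg)
    haveI hn : (R.subgroupOf (H ⊔ Subgroup.zpowers g)).Normal :=
      Subgroup.normal_subgroupOf_of_le_normalizer hLN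
    have hle : H.subgroupOf (H ⊔ Subgroup.zpowers g) ≤ R.subgroupOf (H ⊔ Subgroup.zpowers g) := by
      intro x hx
      rw [Subgroup.mem_subgroupOf] at hx ⊢
      exact hHR hx
    refine Subgroup.IsSubnormal.trans hle ?_ (Subgroup.Normal.isSubnormal hn)
    haveI : Group.IsNilpotent ↥(R.subgroupOf (H ⊔ Subgroup.zpowers g)) :=
      IsPGroup.isNilpotent (hR.comap_subtype)
    exact Cfsg.Agent.Lib.Helper7_Subnormal.isSubnormal_of_isNilpotent _

theorem radical_of {G : Type*} [Group G] [Finite G] (p : ℕ) [Fact p.Prime]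
    (H R0 : Subgroup G) (g : G) (h0 : H ≤ R0) (hp0 : IsPGroup p R0)
    (hg0 : g ∈ Subgroup.normalizer (R0 : Set G)) :
    ∃ R : Subgroup G, H ≤ R ∧ pCoreOf p (Subgroup.normalizer (R : Set G)) = R ∧
      g ∈ Subgroup.normalizer (R : Set G) := by
  haveI : Nonempty {R : Subgroup G // H ≤ R ∧ IsPGroup p R ∧ g ∈ Subgroup.normalizer (R : Set G)} :=
    ⟨⟨R0, h0, hp0, hg0⟩⟩
  obtain ⟨⟨R, hHR, hR, hg⟩, hmax⟩ := Finite.exists_max
    (fun R : {R : Subgroup G // H ≤ R ∧ IsPGroup p R ∧ g ∈ Subgroup.normalizer (R : Set G)} =>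
      Nat.card R.1)
  have hle : R ≤ pCoreOf p (Subgroup.normalizer (R : Set G)) :=
    le_pCoreOf Subgroup.le_normalizer hR le_rfl
  have h1 := hmax ⟨pCoreOf p (Subgroup.normalizer (R : Set G)), hHR.trans hle,
    pCoreOf_isPGroup p _, le_normalizer_pCoreOf p _ hg⟩
  exact ⟨R, hHR, (Subgroup.eq_of_le_of_card_ge hle h1).symm, hg⟩

theorem rad_inter {G : Type*} [Group G] [Finite G] (p : ℕ) [Fact p.Prime]
    (R : Subgroup G) (hR : pCoreOf p (Subgroup.normalizer (R : Set G)) = R) :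
    sInf {K : Subgroup G | ∃ Q : Sylow p G, R ≤ (Q : Subgroup G) ∧ K = (Q : Subgroup G)} ≤ R := by
  have hRp : IsPGroup p R := by
    have := pCoreOf_isPGroup p (Subgroup.normalizer (R : Set G))
    rwa [hR] at this
  set D := sInf {K : Subgroup G | ∃ Q : Sylow p G, R ≤ (Q : Subgroup G) ∧ K = (Q : Subgroup G)}
    with hD
  have hRD : R ≤ D := by
    refine le_sInf ?_
    rintro K ⟨Q, hQ, rfl⟩
    exact hQ
  have hDp : IsPGroup p D := by
    obtain ⟨Q, hQ⟩ := hRp.exists_le_sylow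
    exact Q.2.to_le (sInf_le ⟨Q, hQ, rfl⟩)
  have hconj : ∀ n ∈ Subgroup.normalizer (R : Set G), ∀ d ∈ D, n * d * n⁻¹ ∈ D := by
    intro n hn d hd
    rw [hD, Subgroup.mem_sInf]
    rintro K ⟨Q, hQ, rfl⟩
    have h1 : R ≤ ((MulAut.conj n⁻¹ • Q : Sylow p G) : Subgroup G) := by
      intro r hr
      show r ∈ MulAut.conj n⁻¹ • (Q : Subgroup G)
      rw [mem_conj_smul, inv_inv]
      exact hQ (conj_mem_of_mem_normalizer hn hr)
    have h2 : d ∈ ((MulAut.conj n⁻¹ • Q : Sylow p G) : Subgroup G) := by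
      rw [hD, Subgroup.mem_sInf] at hd
      exact hd _ ⟨_, h1, rfl⟩
    have h3 : d ∈ MulAut.conj n⁻¹ • (Q : Subgroup G) := h2
    rw [mem_conj_smul, inv_inv] at h3
    exact h3
  by_contra hcon
  have hne : R ≠ D := fun h => hcon (h ▸ le_rfl)
  obtain ⟨x, hxD, hxR, hxN⟩ := exists_mem_normalizer_not_mem hDp hRD hne
  have hV : D ⊓ Subgroup.normalizer (R : Set G) ≤ pCoreOf p (Subgroup.normalizer (R : Set G)) := by
    refine le_pCoreOf inf_le_right (hDp.to_le inf_le_left) ?_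
    refine le_normalizer_of_conj_mem ?_
    intro n hn v hv
    exact ⟨hconj n hn v hv.1, (Subgroup.normalizer (R : Set G)).mul_mem
      ((Subgroup.normalizer (R : Set G)).mul_mem hn hv.2)
      ((Subgroup.normalizer (R : Set G)).inv_mem hn)⟩
  rw [hR] at hV
  exact hxR (hV ⟨hxD, hxN⟩)

/-- Let G be a finite group, p a prime and H a p-subgroup of G. Then the set of elements g of G such that H is subnormal in the subgroup generated by H and g is the union of the normalizers N_G(R) over the subgroups R of G containing H with R = O_p(N_G(R)); and this set does not change when H is replaced by the intersection of all Sylow p-subgroups of G containing H. -/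
theorem result {G : Type*} [Group G] [Finite G] (p : ℕ) [Fact p.Prime]
    (H : Subgroup G) (hH : IsPGroup p H) :
    {g : G | ((H).subgroupOf (H ⊔ Subgroup.zpowers g)).IsSubnormal} =
      {g : G | ∃ R : Subgroup G, H ≤ R ∧ (Cfsg.pCore p (Subgroup.normalizer (R : Set G))).map (Subgroup.normalizer (R : Set G)).subtype = R ∧ g ∈ Subgroup.normalizer (R : Set G)} ∧
    ∀ g : G, (((H).subgroupOf (H ⊔ Subgroup.zpowers g)).IsSubnormal ↔
      (((sInf {K : Subgroup G | ∃ Q : Sylow p G, H ≤ (Q : Subgroup G) ∧ K = (Q : Subgroup G)})).subgroupOf ((sInf {K : Subgroup G | ∃ Q : Sylow p G, H ≤ (Q : Subgroup G) ∧ K = (Q : Subgroup G)}) ⊔ Subgroup.zpowers g)).IsSubnormal) := by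
  constructor
  · ext g
    simp only [Set.mem_setOf_eq]
    rw [keyK p H hH g]
    constructor
    · rintro ⟨R0, h0, hp0, hg0⟩
      exact radical_of p H R0 g h0 hp0 hg0
    · rintro ⟨R, hHR, hR, hg⟩
      refine ⟨R, hHR, ?_, hg⟩
      have := pCoreOf_isPGroup p (Subgroup.normalizer (R : Set G))
      have hR' : pCoreOf p (Subgroup.normalizer (R : Set G)) = R := hR
      rwa [hR'] at this
  · intro g
    have hHs : H ≤ sInf {K : Subgroup G | ∃ Q : Sylow p G, H ≤ (Q : Subgroup G) ∧ K = (Q : Subgroup G)} := by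
      refine le_sInf ?_
      rintro K ⟨Q, hQ, rfl⟩
      exact hQ
    have hHsp : IsPGroup p ↥(sInf {K : Subgroup G | ∃ Q : Sylow p G, H ≤ (Q : Subgroup G) ∧ K = (Q : Subgroup G)}) := by
      obtain ⟨Q, hQ⟩ := hH.exists_le_sylow
      exact Q.2.to_le (sInf_le ⟨Q, hQ, rfl⟩)
    rw [keyK p H hH g, keyK p _ hHsp g]
    constructor
    · rintro ⟨R0, h0, hp0, hg0⟩
      obtain ⟨R, hHR, hR, hg⟩ := radical_of p H R0 g h0 hp0 hg0
      have hRp : IsPGroup p R := by
        have := pCoreOf_isPGroup p (Subgroup.normalizer (R : Set G))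
        rwa [hR] at this
      refine ⟨R, ?_, hRp, hg⟩
      refine le_trans ?_ (rad_inter p R hR)
      refine sInf_le_sInf ?_
      rintro K ⟨Q, hQ, rfl⟩
      exact ⟨Q, hHR.trans hQ, rfl⟩
    · rintro ⟨R, hHR, hR, hg⟩
      exact ⟨R, hHs.trans hHR, hR, hg⟩

end Cfsg.Agent.S4089
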