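import Cfsg.Statements.S4092
import Cfsg.Agent.Lib.Helper4_Syl
import Cfsg.Agent.S0986

set_option autoImplicit false
open Cfsg

namespace Cfsg.Agent.S4092

open Cfsg.Agent.Lib.Helper4_Syl

/-- Let G be a finite group, p a prime and P a Sylow p-subgroup of G that is not normal in G. Then G has at least p·#P elements of p-power order (the identity included). -/
theorem result {G : Type*} [Group G] [Finite G] (p : ℕ) [Fact p.Prime]
    (P : Sylow p G) (hP : ¬ (P : Subgroup G).Normal) :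
    p * Nat.card (P : Subgroup G) ≤ Nat.card {g : G // ∃ k : ℕ, orderOf g = p ^ k} := by
  classical
  have hp : p.Prime := Fact.out
  haveI : Fintype G := Fintype.ofFinite G
  obtain ⟨Q, hQ⟩ : ∃ Q : Sylow p G, Q ≠ P := by
    by_contra h
    push_neg at h
    haveI : Subsingleton (Sylow p G) := ⟨fun a b => (h a).trans (h b).symm⟩
    exact hP (Sylow.normal_of_subsingleton P)
  haveI : Nonempty {pq : Sylow p G × Sylow p G // pq.1 ≠ pq.2} := ⟨⟨(Q, P), hQ⟩⟩
  obtain ⟨⟨⟨P₁, Q₁⟩, hne⟩, hmax'⟩ := Finite.exists_max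
    (fun pq : {pq : Sylow p G × Sylow p G // pq.1 ≠ pq.2} =>
      Nat.card ↥((pq.1.1 : Subgroup G) ⊓ (pq.1.2 : Subgroup G)))
  have hne' : P₁ ≠ Q₁ := hne
  have hmax : ∀ P' Q' : Sylow p G, P' ≠ Q' → Nat.card ↥((P' : Subgroup G) ⊓ (Q' : Subgroup G)) ≤
      Nat.card ↥((P₁ : Subgroup G) ⊓ (Q₁ : Subgroup G)) := fun P' Q' h => hmax' ⟨(P', Q'), h⟩
  obtain ⟨h1, h2, h3⟩ := Cfsg.Agent.S0986.result p P₁ Q₁ hne' hmax
  have hDne : (P₁ : Subgroup G) ⊓ (Q₁ : Subgroup G) ≠ (P₁ : Subgroup G) := by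
    intro h
    apply hne'
    have h4 : (P₁ : Subgroup G) ≤ Q₁ := inf_eq_left.1 h
    exact (Sylow.ext (P₁.3 Q₁.2 h4)).symm
  have hDP₁ : (P₁ : Subgroup G) ⊓ (Q₁ : Subgroup G) ≤ (P₁ : Subgroup G) := inf_le_left
  generalize (P₁ : Subgroup G) ⊓ (Q₁ : Subgroup G) = D at hmax h1 h2 h3 hDne hDP₁
  have hcardS : ∀ T : Sylow p G, Nat.card ↥(T : Subgroup G) = Nat.card ↥(P : Subgroup G) := by
    intro T
    rw [Sylow.card_eq_multiplicity, Sylow.card_eq_multiplicity]
  have hpd : p * Nat.card ↥D ≤ Nat.card ↥(P : Subgroup G) := by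
    rw [← hcardS P₁]
    obtain ⟨a, ha⟩ := IsPGroup.iff_card.1 (P₁.2.to_le hDP₁)
    obtain ⟨b, hb⟩ := IsPGroup.iff_card.1 P₁.2
    have hlt : Nat.card ↥D < Nat.card ↥(P₁ : Subgroup G) := by
      by_contra hcon
      exact hDne (Subgroup.eq_of_le_of_card_ge hDP₁ (not_lt.1 hcon))
    rw [ha, hb] at hlt ⊢
    have hab : a < b := (Nat.pow_lt_pow_iff_right hp.one_lt).1 hlt
    calc p * p ^ a = p ^ (a + 1) := by ring
      _ ≤ p ^ b := Nat.pow_le_pow_right hp.pos hab
  choose τ hτ hτu using h3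
  have hDS : ∀ S : Sylow p ↥(Subgroup.normalizer (D : Set G)), D ≤ (τ S : Subgroup G) := by
    intro S
    obtain ⟨S', hS'⟩ : ∃ S' : Sylow p ↥(Subgroup.normalizer (D : Set G)), S ≠ S' := by
      by_contra h
      push_neg at h
      haveI : Subsingleton (Sylow p ↥(Subgroup.normalizer (D : Set G))) :=
        ⟨fun a b => (h a).symm.trans (h b)⟩
      have := Finite.card_le_one_iff_subsingleton.2 this
      omega
    have h4 := h2 S S' hS'
    intro x hx
    have hxN : x ∈ Subgroup.normalizer (D : Set G) := Subgroup.le_normalizer hx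
    have h5 : (⟨x, hxN⟩ : ↥(Subgroup.normalizer (D : Set G))) ∈
        D.subgroupOf (Subgroup.normalizer (D : Set G)) := by
      rw [Subgroup.mem_subgroupOf]; exact hx
    rw [← h4] at h5
    exact hτ S ⟨_, h5.1, rfl⟩
  have hτinj : ∀ S S' : Sylow p ↥(Subgroup.normalizer (D : Set G)), S ≠ S' → τ S ≠ τ S' := by
    intro S S' hSS' heq
    have hS := IsSylIn.of_sylow (Subgroup.normalizer (D : Set G)) S
    have hS' := IsSylIn.of_sylow (Subgroup.normalizer (D : Set G)) S'
    have e1 := hS.eq_of_le (inf_le_right : (τ S : Subgroup G) ⊓ Subgroup.normalizer (D : Set G) ≤ _)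
      ((τ S).2.to_le inf_le_left) (le_inf (hτ S) hS.le)
    have e2 := hS'.eq_of_le (inf_le_right : (τ S : Subgroup G) ⊓ Subgroup.normalizer (D : Set G) ≤ _)
      ((τ S).2.to_le inf_le_left) (le_inf (heq ▸ hτ S') hS'.le)
    apply hSS'
    apply Sylow.ext
    exact Subgroup.map_injective (Subgroup.normalizer (D : Set G)).subtype_injective
      (e1.symm.trans e2)
  have hinter : ∀ S S' : Sylow p ↥(Subgroup.normalizer (D : Set G)), S ≠ S' →
      (τ S : Subgroup G) ⊓ (τ S' : Subgroup G) = D := by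
    intro S S' hSS'
    exact (Subgroup.eq_of_le_of_card_ge (le_inf (hDS S) (hDS S'))
      (hmax _ _ (hτinj S S' hSS'))).symm
  have hfin : ∀ H : Subgroup G, Nat.card ↥H = (Finset.univ.filter (fun g : G => g ∈ H)).card := by
    intro H
    rw [Nat.card_eq_fintype_card, Fintype.card_subtype]
  haveI : Fintype (Sylow p ↥(Subgroup.normalizer (D : Set G))) := Fintype.ofFinite _
  have hn : p + 1 ≤ Fintype.card (Sylow p ↥(Subgroup.normalizer (D : Set G))) := by
    rw [← Nat.card_eq_fintype_card]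
    have h4 := card_sylow_modEq_one p ↥(Subgroup.normalizer (D : Set G))
    have h5 : p ∣ Nat.card (Sylow p ↥(Subgroup.normalizer (D : Set G))) - 1 :=
      (Nat.modEq_iff_dvd' (by omega)).1 h4.symm
    have h6 := Nat.le_of_dvd (by omega) h5
    omega
  have hgoal : Nat.card {g : G // ∃ k : ℕ, orderOf g = p ^ k} =
      (Finset.univ.filter (fun g : G => ∃ k : ℕ, orderOf g = p ^ k)).card := by
    rw [Nat.card_eq_fintype_card, Fintype.card_subtype]
  rw [hgoal]
  have hsub : (Finset.univ.filter (fun g : G => g ∈ D)) ∪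
      (Finset.univ : Finset (Sylow p ↥(Subgroup.normalizer (D : Set G)))).biUnion
        (fun S => (Finset.univ.filter (fun g : G => g ∈ (τ S : Subgroup G))) \
          (Finset.univ.filter (fun g : G => g ∈ D))) ⊆
      Finset.univ.filter (fun g : G => ∃ k : ℕ, orderOf g = p ^ k) := by
    intro g hg
    rw [Finset.mem_filter]
    refine ⟨Finset.mem_univ _, ?_⟩
    have hgT : ∃ T : Sylow p G, g ∈ (T : Subgroup G) := by
      rcases Finset.mem_union.1 hg with h | h
      · exact ⟨P₁, hDP₁ (Finset.mem_filter.1 h).2⟩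
      · obtain ⟨S, _, hS⟩ := Finset.mem_biUnion.1 h
        exact ⟨τ S, (Finset.mem_filter.1 (Finset.mem_sdiff.1 hS).1).2⟩
    obtain ⟨T, hT⟩ := hgT
    obtain ⟨k, hk⟩ := (IsPGroup.iff_orderOf.1 T.2) ⟨g, hT⟩
    exact ⟨k, by rw [← hk, Subgroup.orderOf_mk]⟩
  refine le_trans ?_ (Finset.card_le_card hsub)
  rw [Finset.card_union_of_disjoint, Finset.card_biUnion]
  · have hterm : ∀ S ∈ (Finset.univ : Finset (Sylow p ↥(Subgroup.normalizer (D : Set G)))),
        ((Finset.univ.filter (fun g : G => g ∈ (τ S : Subgroup G))) \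
          (Finset.univ.filter (fun g : G => g ∈ D))).card =
        Nat.card ↥(P : Subgroup G) - Nat.card ↥D := by
      intro S _
      rw [Finset.card_sdiff_of_subset, ← hfin, ← hfin, hcardS]
      intro g hg
      rw [Finset.mem_filter] at hg ⊢
      exact ⟨hg.1, hDS S hg.2⟩
    rw [Finset.sum_congr rfl hterm, Finset.sum_const, Finset.card_univ, ← hfin, smul_eq_mul]
    have hle : (p + 1) * (Nat.card ↥(P : Subgroup G) - Nat.card ↥D) ≤
        Fintype.card (Sylow p ↥(Subgroup.normalizer (D : Set G))) *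
          (Nat.card ↥(P : Subgroup G) - Nat.card ↥D) := Nat.mul_le_mul_right _ hn
    have hdP : Nat.card ↥D ≤ Nat.card ↥(P : Subgroup G) := by
      have := hp.two_le
      nlinarith
    obtain ⟨e, he⟩ := Nat.exists_eq_add_of_le hdP
    rw [he] at hle hpd ⊢
    rw [Nat.add_sub_cancel_left] at hle ⊢
    nlinarith
  · intro S _ S' _ hSS'
    rw [Function.onFun, Finset.disjoint_left]
    intro g hg hg'
    rw [Finset.mem_sdiff, Finset.mem_filter, Finset.mem_filter] at hg hg'
    apply hg.2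
    refine ⟨Finset.mem_univ _, ?_⟩
    rw [← hinter S S' hSS']
    exact ⟨hg.1.2, hg'.1.2⟩
  · rw [Finset.disjoint_left]
    intro g hg hg'
    obtain ⟨S, _, hS⟩ := Finset.mem_biUnion.1 hg'
    exact (Finset.mem_sdiff.1 hS).2 hg

end Cfsg.Agent.S4092
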