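import Cfsg.Statements.S4093
import Mathlib

set_option autoImplicit false
open scoped BigOperators
open Cfsg

namespace Cfsg.Agent.S4093

theorem orb {G : Type*} [Group G] [Finite G] (N : Subgroup G) (x : G) :
    Nat.card {g : G // ∃ n ∈ N, n * x * n⁻¹ = g} *
      Nat.card ↥(N ⊓ Subgroup.centralizer ({x} : Set G)) = Nat.card N := by
  classical
  choose r hrN hr using fun t : {g : G // ∃ n ∈ N, n * x * n⁻¹ = g} => t.2
  have hc : ∀ c : ↥(N ⊓ Subgroup.centralizer ({x} : Set G)), (c : G) * x * (c : G)⁻¹ = x := by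
    intro c
    have := (Subgroup.mem_centralizer_singleton_iff.mp c.2.2)
    rw [this]; group
  rw [← Nat.card_prod]
  refine Nat.card_congr (Equiv.ofBijective
    (fun tc => (⟨r tc.1 * tc.2, N.mul_mem (hrN _) tc.2.2.1⟩ : N)) ⟨?_, ?_⟩)
  · rintro ⟨t, c⟩ ⟨t', c'⟩ h
    have h1 : r t * (c : G) = r t' * (c' : G) := congrArg Subtype.val h
    have h2 : (t : G) = t' := by
      rw [← hr t, ← hr t']
      calc r t * x * (r t)⁻¹ = r t * ((c:G) * x * (c:G)⁻¹) * (r t)⁻¹ := by rw [hc]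
        _ = (r t * c) * x * (r t * c)⁻¹ := by group
        _ = (r t' * c') * x * (r t' * c')⁻¹ := by rw [h1]
        _ = r t' * ((c':G) * x * (c':G)⁻¹) * (r t')⁻¹ := by group
        _ = _ := by rw [hc]
    have h3 : t = t' := Subtype.ext h2
    subst h3
    have h4 : c = c' := Subtype.ext (mul_left_cancel h1)
    rw [h4]
  · intro n
    let t : {g : G // ∃ n ∈ N, n * x * n⁻¹ = g} := ⟨n * x * (n:G)⁻¹, n, n.2, rfl⟩
    refine ⟨(t, ⟨(r t)⁻¹ * n, N.mul_mem (N.inv_mem (hrN t)) n.2, ?_⟩), ?_⟩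
    · show (r t)⁻¹ * (n : G) ∈ Subgroup.centralizer ({x} : Set G)
      rw [Subgroup.mem_centralizer_singleton_iff]
      have h5 : r t * x * (r t)⁻¹ = (n:G) * x * (n:G)⁻¹ := hr t
      calc (r t)⁻¹ * n * x = (r t)⁻¹ * ((n:G) * x * (n:G)⁻¹) * n := by group
        _ = (r t)⁻¹ * (r t * x * (r t)⁻¹) * n := by rw [h5]
        _ = _ := by group
    · apply Subtype.ext
      show r t * ((r t)⁻¹ * n) = n
      group


/-- Let G be a finite group with a normal subgroup N complementing a Sylow p-subgroup P (a normal p-complement). Then the number of elements of G of p-power order equals the sum over x ∈ P of the index of C_N(x) in N. -/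
theorem result {G : Type*} [Group G] [Finite G] (p : ℕ) [Fact p.Prime]
    (P : Sylow p G) (N : Subgroup G) [N.Normal] (hNP : N.IsComplement' (P : Subgroup G)) :
    Nat.card {g : G // ∃ k : ℕ, orderOf g = p ^ k} =
      ∑ᶠ x : (P : Subgroup G), Nat.card N / Nat.card ↥(N ⊓ Subgroup.centralizer ({(x : G)} : Set G)) := by
  classical
  have := Fintype.ofFinite (P : Subgroup G)
  have hp := (Fact.out : p.Prime)
  rw [finsum_eq_sum_of_fintype]
  have hdiv : ∀ x : (P : Subgroup G),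
      Nat.card N / Nat.card ↥(N ⊓ Subgroup.centralizer ({(x : G)} : Set G)) =
        Nat.card {g : G // ∃ n ∈ N, n * (x:G) * n⁻¹ = g} := by
    intro x
    exact Nat.div_eq_of_eq_mul_left Nat.card_pos (orb N x).symm
  rw [Finset.sum_congr rfl (fun x _ => hdiv x), ← Nat.card_sigma]
  symm
  have hpel : ∀ s : (Σ x : (P : Subgroup G), {g : G // ∃ n ∈ N, n * (x:G) * n⁻¹ = g}),
      ∃ k : ℕ, orderOf (s.2.1) = p ^ k := by
    rintro ⟨x, t, n, hn, ht⟩
    obtain ⟨k, hk⟩ := IsPGroup.iff_orderOf.mp P.2 x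
    refine ⟨k, ?_⟩
    show orderOf t = p ^ k
    rw [← ht, ← hk, ← Subgroup.orderOf_coe, ← MulAut.conj_apply, MulEquiv.orderOf_eq]
  refine Nat.card_congr (Equiv.ofBijective (fun s => ⟨s.2.1, hpel s⟩) ⟨?_, ?_⟩)
  · rintro ⟨x, t, n, hn, ht⟩ ⟨x', t', n', hn', ht'⟩ h
    have h1 : t = t' := congrArg Subtype.val h
    have hm : n * ((x:G) * n⁻¹ * (x:G)⁻¹) ∈ N :=
      N.mul_mem hn (‹N.Normal›.conj_mem _ (N.inv_mem hn) _)
    have hm' : n' * ((x':G) * n'⁻¹ * (x':G)⁻¹) ∈ N :=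
      N.mul_mem hn' (‹N.Normal›.conj_mem _ (N.inv_mem hn') _)
    have h2 := hNP.1 (a₁ := (⟨_, hm⟩, x)) (a₂ := (⟨_, hm'⟩, x')) (by
      show n * ((x:G) * n⁻¹ * (x:G)⁻¹) * x = n' * ((x':G) * n'⁻¹ * (x':G)⁻¹) * x'
      calc n * ((x:G) * n⁻¹ * (x:G)⁻¹) * x = n * x * n⁻¹ := by group
        _ = n' * x' * n'⁻¹ := by rw [ht, ht', h1]
        _ = _ := by group)
    have h3 : x = x' := (Prod.ext_iff.mp h2).2
    subst h3
    subst h1
    rfl
  · rintro ⟨g, k, hk⟩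
    have hpg : IsPGroup p (Subgroup.zpowers g) :=
      IsPGroup.iff_card.2 ⟨k, by rw [Nat.card_zpowers, hk]⟩
    obtain ⟨Q, hQ⟩ := hpg.exists_le_sylow
    obtain ⟨a, rfl⟩ := MulAction.exists_smul_eq G P Q
    have hg : g ∈ ((a • P : Sylow p G) : Subgroup G) := hQ (Subgroup.mem_zpowers g)
    rw [Sylow.coe_subgroup_smul, Subgroup.mem_smul_pointwise_iff_exists] at hg
    obtain ⟨y, hy, hyg⟩ := hg
    rw [MulAut.smul_def, MulAut.conj_apply] at hyg
    obtain ⟨⟨n, u⟩, hnu⟩ := hNP.2 a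
    have hnu' : (n : G) * (u : G) = a := hnu
    refine ⟨⟨⟨u * y * (u:G)⁻¹, (P : Subgroup G).mul_mem ((P : Subgroup G).mul_mem u.2 hy)
      ((P : Subgroup G).inv_mem u.2)⟩, ⟨g, n, n.2, ?_⟩⟩, rfl⟩
    show (n : G) * ((u:G) * y * (u:G)⁻¹) * (n:G)⁻¹ = g
    rw [← hyg, ← hnu']
    group

end Cfsg.Agent.S4093
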