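import Cfsg.Statements.S4106
import Cfsg.Agent.Lib.Helper7_PiClass

set_option autoImplicit false
open Cfsg

namespace Cfsg.Agent.S4106

open Cfsg.Agent.Lib.Helper7_PiClass

/-- Let G be a finite group, π a set of primes and m the π-part of the order of G. Then the number of conjugacy classes of G consisting of π-elements (elements whose order is divisible only by primes in π) is at most m. -/
theorem result {G : Type*} [Group G] [Finite G]
    (π : Set ℕ) (hπ : ∀ q ∈ π, q.Prime)
    (m : ℕ) (hm : m ∣ Nat.card G) (hmπ : ∀ q : ℕ, q.Prime → q ∣ m → q ∈ π)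
    (hm' : ∀ q ∈ π, ¬ q ∣ Nat.card G / m) :
    Nat.card {C : ConjClasses G // ∀ q : ℕ, q.Prime → (∃ g : G, ConjClasses.mk g = C ∧ q ∣ orderOf g) → q ∈ π} ≤ m := by
  classical
  have hG0 : Nat.card G ≠ 0 := Nat.card_pos.ne'
  have hm0 : m ≠ 0 := fun h => hG0 (by rw [h] at hm; exact Nat.eq_zero_of_zero_dvd hm)
  set σ : Finset ℕ := (Nat.card G).primeFactors.filter (· ∈ π) with hσ
  have hσp : ∀ q ∈ σ, q.Prime := fun q hq => hπ q (Finset.mem_filter.mp hq).2
  have h1 := card_piCl_le σ hσp G
  have h2 : Nat.card {C : ConjClasses G // ∀ q : ℕ, q.Prime →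
      (∃ g : G, ConjClasses.mk g = C ∧ q ∣ orderOf g) → q ∈ π} ≤ Nat.card (PiCl σ G) := by
    apply Nat.card_le_card_of_injective
      (fun C => (⟨C.1, fun x hx r hr hrx => Finset.mem_filter.mpr
        ⟨Nat.mem_primeFactors.mpr ⟨hr, hrx.trans (orderOf_dvd_natCard x), hG0⟩,
          C.2 r hr ⟨x, ConjClasses.mem_carrier_iff_mk_eq.mp hx, hrx⟩⟩⟩ : PiCl σ G))
    intro C D h
    apply Subtype.ext
    exact congrArg (fun z : PiCl σ G => z.1) h
  refine h2.trans (h1.trans (le_of_eq ?_))
  have h3 : ∀ q ∈ σ, q ^ (Nat.card G).factorization q = q ^ m.factorization q := by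
    intro q hq
    have hqπ := (Finset.mem_filter.mp hq).2
    have hdiv0 : Nat.card G / m ≠ 0 := by
      intro h
      rw [Nat.div_eq_zero_iff] at h
      rcases h with h | h
      · exact hm0 h
      · exact absurd (Nat.le_of_dvd Nat.card_pos hm) (not_le.mpr h)
    conv_lhs => rw [← Nat.mul_div_cancel' hm, Nat.factorization_mul hm0 hdiv0, Finsupp.add_apply,
      Nat.factorization_eq_zero_of_not_dvd (hm' q hqπ), add_zero]
  rw [Finset.prod_congr rfl h3]
  have hsub : m.primeFactors ⊆ σ := by
    intro q hq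
    have hqp := Nat.prime_of_mem_primeFactors hq
    have hqd := Nat.dvd_of_mem_primeFactors hq
    exact Finset.mem_filter.mpr ⟨Nat.mem_primeFactors.mpr ⟨hqp, hqd.trans hm, hG0⟩, hmπ q hqp hqd⟩
  rw [← Finset.prod_subset hsub]
  · conv_rhs => rw [← Nat.prod_factorization_pow_eq_self hm0]
    rfl
  · intro q _ hq
    have : m.factorization q = 0 := by
      rw [← Finsupp.notMem_support_iff, Nat.support_factorization]
      exact hq
    rw [this, pow_zero]

end Cfsg.Agent.S4106
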