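import Mathlib
import Cfsg.Agent.Lib.Helper3_Comp
import Cfsg.Statements.S4107

set_option autoImplicit false
open Cfsg

namespace Cfsg.Agent.S4107

/-- Let G be a finite group and N a proper non-trivial normal subgroup such that for every x outside N all elements of the coset xN have the same order as x. Then N ≤ F(G) or F(G) ≤ N, where F(G) is the Fitting subgroup; and if N is properly contained in F(G) then F(G) has prime-power order. -/
theorem result {G : Type*} [Group G] [Finite G] (N : Subgroup G) [N.Normal] (hN1 : N ≠ ⊥) (hN2 : N ≠ ⊤)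
    (heq : ∀ x : G, x ∉ N → ∀ n ∈ N, orderOf (x * n) = orderOf x) :
    (N ≤ Cfsg.fittingSubgroup G ∨ Cfsg.fittingSubgroup G ≤ N) ∧
    (N < Cfsg.fittingSubgroup G → IsPrimePow (Nat.card (Cfsg.fittingSubgroup G))) := by
  classical
  set F := Cfsg.fittingSubgroup G with hF
  haveI hFn : F.Normal := Cfsg.Agent.Lib.Helper3_Comp.fittingSubgroup_normal G
  haveI hFnil : Group.IsNilpotent F := Cfsg.Agent.Lib.Helper3_Comp.fittingSubgroup_isNilpotent G
  -- Lemma A
  have lemA : ∀ (p : ℕ) [Fact p.Prime] (x : G) (k : ℕ), x ∈ F → x ∉ N → orderOf x = p ^ k →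
      IsPGroup p N := by
    intro p _ x k hxF hxN hxo
    have hnorm : ∀ P : Sylow p F, (P : Subgroup F).Normal := by
      have := (isNilpotent_of_finite_tfae (G := F)).out 0 3
      exact fun P => (this.1 hFnil) p inferInstance P
    have hzp : IsPGroup p (Subgroup.zpowers (⟨x, hxF⟩ : F)) := by
      apply IsPGroup.of_card (n := k)
      rw [Nat.card_zpowers, ← Subgroup.orderOf_coe]
      exact hxo
    obtain ⟨P, hP⟩ := hzp.exists_le_sylow
    haveI := hnorm P
    haveI : (P : Subgroup F).Characteristic := Sylow.characteristic_of_normal P (hnorm P)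
    set Q : Subgroup G := (P : Subgroup F).map F.subtype with hQ
    haveI hQn : Q.Normal := inferInstance
    have hQp : IsPGroup p Q := P.2.map _
    have hxQ : x ∈ Q := ⟨⟨x, hxF⟩, hP (Subgroup.mem_zpowers _), rfl⟩
    intro u
    have h1 : (x * (u : G)) ^ p ^ k = 1 := by
      rw [← hxo, ← heq x hxN u u.2]
      exact pow_orderOf_eq_one _
    have h2 : ((u : G) ^ p ^ k) ∈ Q := by
      rw [← QuotientGroup.eq_one_iff]
      have h3 : (((x * (u : G)) ^ p ^ k : G) : G ⧸ Q) = 1 := by rw [h1]; rfl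
      rw [QuotientGroup.mk_pow, QuotientGroup.mk_mul, (QuotientGroup.eq_one_iff x).2 hxQ,
        one_mul] at h3
      rw [QuotientGroup.mk_pow]
      exact h3
    obtain ⟨j, hj⟩ := hQp ⟨_, h2⟩
    refine ⟨k + j, ?_⟩
    ext
    have h4 : (((u : G) ^ p ^ k) ^ p ^ j) = 1 := congrArg Subtype.val hj
    rw [Subgroup.coe_pow, pow_add, pow_mul]
    exact h4
  -- Lemma B
  have lemB : ∀ x : G, x ∈ F → x ∉ N → ∃ (p : ℕ) (_ : Fact p.Prime) (y : G) (k : ℕ),
      y ∈ F ∧ y ∉ N ∧ orderOf y = p ^ k := by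
    intro x hxF hxN
    have h1 : orderOf (x : G ⧸ N) ≠ 1 := by
      rw [Ne, orderOf_eq_one_iff, QuotientGroup.eq_one_iff]
      exact hxN
    obtain ⟨p, hp, hpd⟩ := Nat.exists_prime_and_dvd h1
    have hpos : orderOf x ≠ 0 := (orderOf_pos x).ne'
    obtain ⟨a, m, hm, hxm⟩ := Nat.exists_eq_pow_mul_and_not_dvd hpos p hp.ne_one
    have hm0 : m ≠ 0 := by
      rintro rfl
      exact hm (dvd_zero p)
    refine ⟨p, ⟨hp⟩, x ^ m, a, F.pow_mem hxF m, ?_, ?_⟩
    · intro h2
      have h3 : (x : G ⧸ N) ^ m = 1 := by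
        rw [← QuotientGroup.mk_pow, QuotientGroup.eq_one_iff]
        exact h2
      exact hm (hpd.trans (orderOf_dvd_of_pow_eq_one h3))
    · rw [orderOf_pow_of_dvd hm0 (by rw [hxm]; exact dvd_mul_left m _), hxm,
        Nat.mul_div_cancel _ (Nat.pos_of_ne_zero hm0)]
  have hle : ∀ (p : ℕ) [Fact p.Prime], IsPGroup p N → N ≤ F := by
    intro p _ hNp
    exact le_sSup ⟨inferInstance, hNp.isNilpotent⟩
  constructor
  · by_cases h : F ≤ N
    · exact Or.inr h
    · obtain ⟨x, hxF, hxN⟩ := SetLike.not_le_iff_exists.1 h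
      obtain ⟨p, hp, y, k, hyF, hyN, hyo⟩ := lemB x hxF hxN
      exact Or.inl (hle p (lemA p y k hyF hyN hyo))
  · intro hlt
    obtain ⟨x, hxF, hxN⟩ := SetLike.not_le_iff_exists.1 (not_le_of_gt hlt)
    obtain ⟨p, hp, y, k, hyF, hyN, hyo⟩ := lemB x hxF hxN
    have hNp := lemA p y k hyF hyN hyo
    have huniq : ∀ {q : ℕ}, q.Prime → q ∣ Nat.card F → q = p := by
      intro q hq hqd
      by_contra hne
      haveI := Fact.mk hq
      obtain ⟨w, hw⟩ := exists_prime_orderOf_dvd_card' (G := F) q hqd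
      have hw' : orderOf (w : G) = q ^ 1 := by rw [Subgroup.orderOf_coe, hw, pow_one]
      have hwN : (w : G) ∉ N := by
        intro h0
        obtain ⟨j, hj⟩ := hNp ⟨w, h0⟩
        have h1 : (w : G) ^ p ^ j = 1 := congrArg Subtype.val hj
        have h2 := orderOf_dvd_of_pow_eq_one h1
        rw [hw', pow_one] at h2
        exact hne ((Nat.prime_dvd_prime_iff_eq hq hp.out).1 (hq.dvd_of_dvd_pow h2))
      have hNq := lemA q w 1 w.2 hwN hw'
      apply hN1
      rw [Subgroup.eq_bot_iff_forall]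
      intro n hn
      obtain ⟨i, hi⟩ := hNp ⟨n, hn⟩
      obtain ⟨j, hj⟩ := hNq ⟨n, hn⟩
      have h1 : n ^ p ^ i = 1 := congrArg Subtype.val hi
      have h2 : n ^ q ^ j = 1 := congrArg Subtype.val hj
      have h3 : Nat.Coprime (p ^ i) (q ^ j) :=
        Nat.Coprime.pow _ _ ((Nat.coprime_primes hp.out hq).2 (fun h => hne h.symm))
      have h4 := orderOf_dvd_of_pow_eq_one h1
      have h5 := orderOf_dvd_of_pow_eq_one h2
      have h6 : orderOf n = 1 := Nat.eq_one_of_dvd_coprimes h3 h4 h5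
      exact orderOf_eq_one_iff.1 h6
    have hcard := Nat.eq_prime_pow_of_unique_prime_dvd (Nat.card_pos (α := F)).ne' huniq
    rw [hcard]
    refine ⟨p, _, hp.out.prime, ?_, rfl⟩
    rw [List.length_pos_iff]
    intro h0
    rw [h0] at hcard
    simp only [List.length_nil, pow_zero] at hcard
    have h1 : F = ⊥ := (Subgroup.card_eq_one).1 hcard
    rw [h1] at hlt
    exact not_lt_bot hlt
end Cfsg.Agent.S4107
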