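import Cfsg.Statements.S4108
import Cfsg.Agent.Lib.Helper1_FrobKer

set_option autoImplicit false
open Cfsg

namespace Cfsg.Agent.S4108

open Subgroup Cfsg.Agent.Lib.Helper1_FrobKer Cfsg.Agent.Lib.Helper1_Basic

/-- Let G be a finite group, p a prime and N a proper non-trivial normal p-subgroup such that for every x outside N all elements of the coset xN have the same order as x. Then every non-trivial subgroup H of G of order prime to p acts fixed-point-freely on N: NH is a Frobenius group with complement H and kernel N. -/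
theorem result {G : Type*} [Group G] [Finite G] (N : Subgroup G) [N.Normal] (hN1 : N ≠ ⊥) (hN2 : N ≠ ⊤)
    (heq : ∀ x : G, x ∉ N → ∀ n ∈ N, orderOf (x * n) = orderOf x)
    (p : ℕ) [Fact p.Prime] (hNp : IsPGroup p N) :
    ∀ H : Subgroup G, H ≠ ⊥ → (Nat.card H).Coprime p →
      Cfsg.IsFrobeniusComplement (H.subgroupOf (N ⊔ H)) ∧ Cfsg.frobeniusKernel (H.subgroupOf (N ⊔ H)) = (N.subgroupOf (N ⊔ H) : Set ↥(N ⊔ H)) := by
  classical
  intro H hH hcop
  have hp : p.Prime := Fact.out
  set L := N ⊔ H with hL
  have hNL : N ≤ L := le_sup_left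
  have hHL : H ≤ L := le_sup_right
  haveI : (N.subgroupOf L).Normal := inferInstance
  obtain ⟨k, hk⟩ := hNp.exists_card_eq
  have hcardN : Nat.card (N.subgroupOf L) = p ^ k := by rw [card_subgroupOf_of_le hNL, hk]
  have hcardH : Nat.card (H.subgroupOf L) = Nat.card H := card_subgroupOf_of_le hHL
  have hcop' : (Nat.card (N.subgroupOf L)).Coprime (Nat.card (H.subgroupOf L)) := by
    rw [hcardN, hcardH]
    exact (Nat.Coprime.pow_left k hcop.symm)
  have hsup : N.subgroupOf L ⊔ H.subgroupOf L = ⊤ := by
    rw [← subgroupOf_sup hNL hHL, ← hL, subgroupOf_self]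
  have hc := isComplement'_of_sup_eq_top_of_coprime hsup hcop'
  apply frob_and_kernel _ _ hc
  · intro h
    apply hN1
    have := hcardN
    rw [h, Subgroup.card_bot] at this
    rw [← this] at hk
    exact Subgroup.card_eq_one.mp hk
  · intro h
    apply hH
    have := hcardH
    rw [h, Subgroup.card_bot] at this
    exact Subgroup.card_eq_one.mp this.symm
  · intro h hh hh1
    rw [eq_bot_iff]
    rintro x ⟨hx, hxc⟩
    have hxc' : x ∈ centralizer {h} := hxc
    rw [mem_centralizer_singleton_iff] at hxc'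
    rw [mem_bot]
    replace hx : x ∈ N.subgroupOf L := hx
    rw [mem_subgroupOf] at hx
    rw [mem_subgroupOf] at hh
    have hh1' : (h : G) ≠ 1 := fun e => hh1 (Subtype.ext e)
    have hoh : (orderOf (h : G)).Coprime p :=
      Nat.Coprime.coprime_dvd_left (Subgroup.orderOf_dvd_natCard H hh) hcop
    have hpow : ∀ y ∈ N, ∃ j, orderOf y = p ^ j := by
      intro y hy
      obtain ⟨j, hj⟩ := (IsPGroup.iff_orderOf.mp hNp) ⟨y, hy⟩
      exact ⟨j, by rw [← hj, Subgroup.orderOf_mk]⟩
    have hhN : (h : G) ∉ N := by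
      intro hmem
      obtain ⟨j, hj⟩ := hpow _ hmem
      rw [hj] at hoh
      apply hh1'
      rw [← orderOf_eq_one_iff, hj]
      rcases Nat.eq_zero_or_pos j with rfl | hjpos
      · simp
      · exfalso
        have : p ∣ Nat.gcd (p ^ j) p := Nat.dvd_gcd (dvd_pow_self p hjpos.ne') dvd_rfl
        rw [hoh] at this
        exact hp.one_lt.ne' (Nat.dvd_one.mp this)
    have h1 := heq h hhN x hx
    obtain ⟨j, hj⟩ := hpow _ hx
    have hco : (orderOf (h : G)).Coprime (orderOf (x : G)) := by
      rw [hj]; exact Nat.Coprime.pow_right j hoh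
    have hcm : Commute (h : G) (x : G) := (congrArg Subtype.val hxc').symm
    have h2 := hcm.orderOf_mul_eq_mul_orderOf_of_coprime hco
    rw [h1] at h2
    have hpos : 0 < orderOf (h : G) := orderOf_pos _
    have h3 : orderOf (x : G) = 1 := by
      have : orderOf (h : G) * 1 = orderOf (h : G) * orderOf (x : G) := by rw [mul_one]; exact h2
      exact (Nat.eq_of_mul_eq_mul_left hpos this).symm
    exact Subtype.ext (orderOf_eq_one_iff.mp h3)

end Cfsg.Agent.S4108
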