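import Mathlib
import Cfsg.Agent.Lib.helper6_UniqueFix
import Cfsg.Statements.S4116

set_option autoImplicit false
open Cfsg

namespace Cfsg.Agent.S4116

theorem mem_of_mem_normalizer {G : Type*} [Group G] [Finite G] (H : Subgroup G) (z : G)
    (hz : z ∈ Subgroup.normalizer (H : Set G)) (hco : (orderOf z).Coprime H.index) : z ∈ H := by
  have hn : (H.subgroupOf (Subgroup.normalizer (H : Set G))).Normal := Subgroup.normal_in_normalizer
  have h1 : orderOf (QuotientGroup.mk (s := H.subgroupOf (Subgroup.normalizer (H : Set G)))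
      (⟨z, hz⟩ : Subgroup.normalizer (H : Set G))) ∣ orderOf z := by
    have := orderOf_map_dvd (QuotientGroup.mk' (H.subgroupOf (Subgroup.normalizer (H : Set G))))
      (⟨z, hz⟩ : Subgroup.normalizer (H : Set G))
    rwa [Subgroup.orderOf_mk] at this
  have h2 : orderOf (QuotientGroup.mk (s := H.subgroupOf (Subgroup.normalizer (H : Set G)))
      (⟨z, hz⟩ : Subgroup.normalizer (H : Set G))) ∣ H.index := by
    refine dvd_trans (orderOf_dvd_natCard _) ?_
    exact Subgroup.relIndex_dvd_index_of_le Subgroup.le_normalizer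
  have h3 := Nat.Coprime.eq_one_of_dvd (hco.coprime_dvd_left h1) h2
  rw [orderOf_eq_one_iff, QuotientGroup.eq_one_iff, Subgroup.mem_subgroupOf] at h3
  exact h3

theorem orderOf_conj' {G : Type*} [Group G] (a x : G) : orderOf (a⁻¹ * x * a) = orderOf x := by
  have := MulEquiv.orderOf_eq (MulAut.conj a⁻¹) x
  rwa [MulAut.conj_apply, inv_inv] at this

/-- Let G be a finite group with a subgroup H whose order is coprime to its index (a Hall subgroup) and which meets each of its conjugates by elements outside N_G(H) trivially. Then every subgroup of G whose order is divisible only by primes dividing the order of H lies in a conjugate of H. -/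
theorem result {G : Type*} [Group G] [Finite G] (H : Subgroup G)
    (hHall : (Nat.card H).Coprime H.index) (hTI : Cfsg.IsTISubset (H : Set G))
    (K : Subgroup G) (hK : ∀ q : ℕ, q.Prime → q ∣ Nat.card K → q ∣ Nat.card H) :
    ∃ g : G, K ≤ H.map (MulAut.conj g).toMonoidHom := by
  classical
  have hcop : (Nat.card K).Coprime H.index := by
    by_contra hc
    obtain ⟨q, hq, h1, h2⟩ := Nat.Prime.not_coprime_iff_dvd.mp hc
    exact Nat.Prime.not_coprime_iff_dvd.mpr ⟨q, hq, hK q hq h1, h2⟩ hHall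
  have hord : ∀ k : K, (orderOf (k : G)).Coprime H.index := by
    intro k
    have h1 : orderOf (k : G) ∣ Nat.card K := by
      rw [Subgroup.orderOf_coe]
      exact orderOf_dvd_natCard k
    exact hcop.coprime_dvd_left h1
  have hfixiff : ∀ (k : K) (a : G),
      k • (a : G ⧸ Subgroup.normalizer (H : Set G)) = a ↔ a⁻¹ * (k : G) * a ∈ H := by
    intro k a
    have h1 : k • (a : G ⧸ Subgroup.normalizer (H : Set G)) =
        (((k : G) * a : G) : G ⧸ Subgroup.normalizer (H : Set G)) := rfl
    rw [h1, eq_comm, QuotientGroup.eq, ← mul_assoc]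
    constructor
    · intro h2
      exact mem_of_mem_normalizer H _ h2 (by rw [orderOf_conj']; exact hord k)
    · intro h2
      exact Subgroup.le_normalizer h2
  have hfix : ∀ k : K, k ≠ 1 → ∃! ω : G ⧸ Subgroup.normalizer (H : Set G), k • ω = ω := by
    intro k hk
    have hx1 : (k : G) ≠ 1 := fun h => hk (Subtype.ext h)
    have ho1 : orderOf (k : G) ≠ 1 := fun h => hx1 (orderOf_eq_one_iff.mp h)
    obtain ⟨q, hq, hqd⟩ := Nat.exists_prime_and_dvd ho1
    haveI : Fact q.Prime := ⟨hq⟩
    have hy : orderOf ((k : G) ^ (orderOf (k : G) / q)) = q :=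
      orderOf_pow_orderOf_div (orderOf_pos _).ne' hqd
    have hqK : q ∣ Nat.card K := by
      refine dvd_trans hqd ?_
      rw [Subgroup.orderOf_coe]
      exact orderOf_dvd_natCard k
    have hqi : ¬ q ∣ Nat.card (G ⧸ H) := by
      intro h2
      exact Nat.Prime.not_coprime_iff_dvd.mpr ⟨q, hq, hqK, h2⟩ hcop
    have hpg : IsPGroup q (Subgroup.zpowers ((k : G) ^ (orderOf (k : G) / q))) := by
      apply IsPGroup.of_card (n := 1)
      rw [Nat.card_zpowers, hy, pow_one]
    obtain ⟨ω, hω⟩ := hpg.nonempty_fixed_point_of_prime_not_dvd_card (G ⧸ H) hqi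
    obtain ⟨a, rfl⟩ := QuotientGroup.mk_surjective ω
    have hyH : a⁻¹ * ((k : G) ^ (orderOf (k : G) / q)) * a ∈ H := by
      have h2 := hω ⟨_, Subgroup.mem_zpowers _⟩
      have h3 : (((k : G) ^ (orderOf (k : G) / q) * a : G) : G ⧸ H) = (a : G ⧸ H) := h2
      rw [eq_comm, QuotientGroup.eq, ← mul_assoc] at h3
      exact h3
    have hy1 : a⁻¹ * ((k : G) ^ (orderOf (k : G) / q)) * a ≠ 1 := by
      intro h2
      have h3 := orderOf_conj' a ((k : G) ^ (orderOf (k : G) / q))
      rw [h2, orderOf_one, hy] at h3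
      exact hq.one_lt.ne h3
    have hxN : a⁻¹ * (k : G) * a ∈ Subgroup.normalizer (H : Set G) := by
      by_contra hcon
      apply hy1
      apply hTI _ hcon _ hyH
      have h4 : (k : G) * (k : G) ^ (orderOf (k : G) / q) * (k : G)⁻¹ =
          (k : G) ^ (orderOf (k : G) / q) := by
        rw [← pow_succ', pow_succ, mul_assoc, mul_inv_cancel, mul_one]
      have h5 : a⁻¹ * (k : G) * a * (a⁻¹ * (k : G) ^ (orderOf (k : G) / q) * a) *
          (a⁻¹ * (k : G) * a)⁻¹ =
          a⁻¹ * ((k : G) * (k : G) ^ (orderOf (k : G) / q) * (k : G)⁻¹) * a := by group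
      rw [h5, h4]
      exact hyH
    have hxH : a⁻¹ * (k : G) * a ∈ H :=
      mem_of_mem_normalizer H _ hxN (by rw [orderOf_conj']; exact hord k)
    refine ⟨(a : G ⧸ Subgroup.normalizer (H : Set G)), (hfixiff k a).mpr hxH, ?_⟩
    intro ω' hω'
    obtain ⟨b, rfl⟩ := QuotientGroup.mk_surjective ω'
    have hbH := (hfixiff k b).mp hω'
    rw [QuotientGroup.eq]
    by_contra hcon
    have hb1 : a⁻¹ * (k : G) * a = 1 := by
      apply hTI _ hcon _ hxH
      have h5 : b⁻¹ * a * (a⁻¹ * (k : G) * a) * (b⁻¹ * a)⁻¹ = b⁻¹ * (k : G) * b := by group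
      rw [h5]
      exact hbH
    apply hx1
    calc (k : G) = a * (a⁻¹ * (k : G) * a) * a⁻¹ := by group
      _ = 1 := by rw [hb1]; group
  obtain ⟨ω, hω⟩ := Cfsg.Agent.Lib.helper6_UniqueFix.exists_global_fixed hfix
  obtain ⟨a, rfl⟩ := QuotientGroup.mk_surjective ω
  refine ⟨a, ?_⟩
  intro k hk
  have h1 := (hfixiff ⟨k, hk⟩ a).mp (hω ⟨k, hk⟩)
  refine ⟨a⁻¹ * k * a, h1, ?_⟩
  simp only [MulEquiv.coe_toMonoidHom, MulAut.conj_apply]
  group

end Cfsg.Agent.S4116
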