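import Mathlib
import Cfsg.Agent.Lib.Helper4_Frobenius
import Cfsg.Agent.Lib.Helper4_Omega
import Cfsg.Statements.S4126

set_option autoImplicit false
open Cfsg

namespace Cfsg.Agent.S4126

open Cfsg.Agent.Lib.Helper4_Frobenius Cfsg.Agent.Lib.Helper4_Omega Cfsg.Agent.Lib.Helper4_Chain
  Cfsg.Agent.Lib.Helper4_Syl
open scoped commutatorElement

/-- a Sylow `p`-subgroup is transitive on the cosets of a subgroup of `p`-power index -/
theorem sylow_mul {G : Type*} [Group G] [Finite G] {p : ℕ} [hp : Fact p.Prime] (T : Sylow p G)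
    (C : Subgroup G) (a : ℕ) (hC : C.index = p ^ a) (g : G) :
    ∃ u ∈ (T : Subgroup G), u⁻¹ * g ∈ C := by
  classical
  have hstab : MulAction.stabilizer T ((1 : G) : G ⧸ C) = C.subgroupOf T := by
    ext x
    rw [MulAction.mem_stabilizer_iff, Subgroup.mem_subgroupOf]
    have h1 : x • ((1 : G) : G ⧸ C) = (((x : G) * 1 : G) : G ⧸ C) := rfl
    rw [h1, eq_comm, QuotientGroup.eq]
    simp
  have hle : (MulAction.stabilizer T ((1 : G) : G ⧸ C)).index ≤ p ^ a := by
    rw [hstab, ← hC]
    show C.relIndex T ≤ _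
    rw [← Subgroup.relIndex_top_right C]
    exact Subgroup.relIndex_le_of_le_right le_top
      (by rw [Subgroup.relIndex_top_right]; exact Subgroup.index_ne_zero_of_finite)
  have hdvd : p ^ a ∣ (MulAction.stabilizer T ((1 : G) : G ⧸ C)).index := by
    rw [hstab]
    show p ^ a ∣ C.relIndex T
    have h1 := Subgroup.relIndex_mul_index (inf_le_left : (T : Subgroup G) ⊓ C ≤ T)
    have h2 := Subgroup.relIndex_mul_index (inf_le_right : (T : Subgroup G) ⊓ C ≤ C)
    rw [Subgroup.inf_relIndex_left] at h1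
    rw [hC] at h2
    have h3 : p ^ a ∣ C.relIndex T * (T : Subgroup G).index := by
      rw [h1, ← h2]
      exact Dvd.intro_left _ rfl
    exact (Nat.Coprime.pow_left a
      ((Nat.Prime.coprime_iff_not_dvd hp.out).mpr T.not_dvd_index)).dvd_of_dvd_mul_right h3
  have heq : (MulAction.stabilizer T ((1 : G) : G ⧸ C)).index = p ^ a :=
    le_antisymm hle (Nat.le_of_dvd (Nat.pos_of_ne_zero Subgroup.index_ne_zero_of_finite) hdvd)
  have horb : MulAction.orbit T ((1 : G) : G ⧸ C) = Set.univ := by
    apply Set.eq_of_subset_of_ncard_le (Set.subset_univ _) _ Set.finite_univ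
    rw [← MulAction.index_stabilizer, heq, Set.ncard_univ, ← hC]
    exact le_of_eq rfl
  have hg : (g : G ⧸ C) ∈ MulAction.orbit T ((1 : G) : G ⧸ C) := by rw [horb]; trivial
  obtain ⟨u, hu⟩ := hg
  refine ⟨u, u.2, ?_⟩
  have h1 : (((u : G) * 1 : G) : G ⧸ C) = (g : G ⧸ C) := hu
  rw [QuotientGroup.eq, mul_one] at h1
  exact h1

/-- Let G be a finite group and p a prime. Suppose every element of order p, and when p = 2 also every element of order 4, has a conjugacy class of p-power size. Then G has a normal p-complement. -/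
theorem result {G : Type*} [Group G] [Finite G] (p : ℕ) [Fact p.Prime]
    (h : ∀ x : G, (orderOf x = p ∨ (p = 2 ∧ orderOf x = 4)) → ∃ a : ℕ, (Subgroup.centralizer ({x} : Set G)).index = p ^ a) :
    Cfsg.HasNormalPComplement p G := by
  apply pnil_iff_hasNormalPComplement.1
  apply frobenius_pnil
  intro Q hQ g hgN hgc
  by_contra hgC
  obtain ⟨R, hRQ, hRN, hRC, hR⟩ := exists_small_exponent hQ hgc hgN hgC
  apply hRC
  have hRp : IsPGroup p R := hQ.to_le hRQ
  obtain ⟨T, hRT⟩ := hRp.exists_le_sylow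
  have hnil : Group.IsNilpotent (T : Subgroup G) := T.isPGroup'.isNilpotent
  obtain ⟨k, hk⟩ := (Subgroup.isNilpotent_iff_lowerCentralSeries _).mp hnil
  have hconj : ∀ x ∈ R, ∃ u ∈ (T : Subgroup G), g * x * g⁻¹ = u * x * u⁻¹ := by
    intro x hx
    by_cases hx1 : x = 1
    · exact ⟨1, Subgroup.one_mem _, by simp [hx1]⟩
    · have hord : orderOf x = p ∨ (p = 2 ∧ orderOf x = 4) := by
        rcases hR x hx with h1 | ⟨h2, h4⟩
        · exact Or.inl (orderOf_eq_prime h1 hx1)
        · have h5 : orderOf x ∣ 2 ^ 2 := orderOf_dvd_of_pow_eq_one (by simpa using h4)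
          obtain ⟨j, hj, hj2⟩ := (Nat.dvd_prime_pow Nat.prime_two).mp h5
          interval_cases j
          · exact absurd (orderOf_eq_one_iff.mp (by simpa using hj2)) hx1
          · left
            rw [h2]
            simpa using hj2
          · right
            exact ⟨h2, by simpa using hj2⟩
      obtain ⟨a, ha⟩ := h x hord
      obtain ⟨u, huT, hu⟩ := sylow_mul T _ a ha g
      refine ⟨u, huT, ?_⟩
      rw [Subgroup.mem_centralizer_singleton_iff] at hu
      calc g * x * g⁻¹ = u * ((u⁻¹ * g) * x) * g⁻¹ := by group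
        _ = u * (x * (u⁻¹ * g)) * g⁻¹ := by rw [hu]
        _ = u * x * u⁻¹ := by group
  apply mem_centralizer_of_comm
  intro x hx
  refine centralizes_of_chain hRp hgc
    (fun i => R ⊓ (T : Subgroup G).lowerCentralSeries (k - i)) k (by simp [hk])
    (fun i _ => inf_le_left) ?_ k le_rfl x ⟨hx, by
      show x ∈ (T : Subgroup G).lowerCentralSeries (k - k)
      rw [Nat.sub_self, Subgroup.lowerCentralSeries_zero]
      exact hRT hx⟩
  intro i hi x hx
  refine ⟨?_, ?_⟩
  · rw [commutatorElement_def]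
    exact R.mul_mem (conj_mem_of_mem_normalizer hRN hx.1) (R.inv_mem hx.1)
  · have hki : k - i = (k - (i + 1)) + 1 := by omega
    show ⁅g, x⁆ ∈ (T : Subgroup G).lowerCentralSeries (k - i)
    rw [hki, Subgroup.lowerCentralSeries_succ]
    obtain ⟨u, huT, hu⟩ := hconj x hx.1
    have h1 : ⁅g, x⁆ = ⁅x, u⁆⁻¹ := by
      rw [commutatorElement_inv, commutatorElement_def, commutatorElement_def, hu]
    rw [h1]
    exact Subgroup.inv_mem _ (Subgroup.commutator_mem_commutator hx.2 huT)

end Cfsg.Agent.S4126
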