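import Cfsg.Statements.S4142

set_option autoImplicit false
open Cfsg

namespace Cfsg.Agent.S4142

theorem per_elt {G : Type*} [Group G] [Finite G] (N : Subgroup G) [N.Normal] (g : G) :
    (∀ n ∈ N, ∃ x : G, x * g * x⁻¹ = g * n) ↔
      Nat.card (Subgroup.centralizer ({g} : Set G)) =
        Nat.card (Subgroup.centralizer ({(QuotientGroup.mk g : G ⧸ N)} : Set (G ⧸ N))) := by
  set Cb := Subgroup.centralizer ({(QuotientGroup.mk g : G ⧸ N)} : Set (G ⧸ N)) with hCb
  set C := Subgroup.centralizer ({g} : Set G) with hC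
  set D : Subgroup G := Cb.comap (QuotientGroup.mk' N) with hD
  have hmemD : ∀ x : G, x ∈ D ↔ (g : G ⧸ N) * (x : G ⧸ N) = (x : G ⧸ N) * (g : G ⧸ N) := by
    intro x
    rw [hD, Subgroup.mem_comap, hCb, Subgroup.mem_centralizer_singleton_iff]
    exact eq_comm
  have hCD : C ≤ D := by
    intro x hx
    rw [hC, Subgroup.mem_centralizer_singleton_iff] at hx
    rw [hmemD, ← QuotientGroup.mk_mul, ← QuotientGroup.mk_mul, hx]
  have hcardD : Nat.card D = Nat.card N * Nat.card Cb := by
    have h1 : D.index = Cb.index :=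
      Subgroup.index_comap_of_surjective Cb (QuotientGroup.mk'_surjective N)
    have h2 := D.card_mul_index
    have h3 := Cb.card_mul_index
    have h4 := N.card_mul_index
    have h5 : N.index = Nat.card (G ⧸ N) := rfl
    have hpos : 0 < Cb.index := Nat.pos_of_ne_zero Subgroup.index_ne_zero_of_finite
    rw [h1] at h2
    rw [h5, ← h3] at h4
    apply Nat.eq_of_mul_eq_mul_right hpos
    rw [h2, ← h4, mul_assoc]
  have hcardD2 : Nat.card D = Nat.card (↥D ⧸ C.subgroupOf D) * Nat.card C := by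
    rw [Subgroup.card_eq_card_quotient_mul_card_subgroup (C.subgroupOf D),
      Nat.card_congr (Subgroup.subgroupOfEquivOfLe hCD).toEquiv]
  have hN : ∀ x : ↥D, g⁻¹ * ((x : G) * g * (x : G)⁻¹) ∈ N := by
    intro x
    have hx := (hmemD x).1 x.2
    rw [← QuotientGroup.eq_one_iff, QuotientGroup.mk_mul, QuotientGroup.mk_mul,
      QuotientGroup.mk_mul, QuotientGroup.mk_inv, QuotientGroup.mk_inv, ← hx]
    group
  let φ : ↥D ⧸ C.subgroupOf D → ↥N := fun q =>
    Quotient.liftOn' q (fun x => (⟨g⁻¹ * ((x : G) * g * (x : G)⁻¹), hN x⟩ : ↥N)) (by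
      intro x y hxy
      rw [QuotientGroup.leftRel_apply, Subgroup.mem_subgroupOf, hC,
        Subgroup.mem_centralizer_singleton_iff] at hxy
      apply Subtype.ext
      show g⁻¹ * ((x : G) * g * (x : G)⁻¹) = g⁻¹ * ((y : G) * g * (y : G)⁻¹)
      congr 1
      have h1 : g * ((x : G)⁻¹ * (y : G)) = ((x : G)⁻¹ * (y : G)) * g := by
        simpa using hxy.symm
      calc (x : G) * g * (x : G)⁻¹
          = (x : G) * (g * ((x : G)⁻¹ * (y : G))) * (y : G)⁻¹ := by group
        _ = (y : G) * g * (y : G)⁻¹ := by rw [h1]; group)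
  have hφinj : Function.Injective φ := by
    intro a b hab
    obtain ⟨x, rfl⟩ := QuotientGroup.mk_surjective a
    obtain ⟨y, rfl⟩ := QuotientGroup.mk_surjective b
    have h1 : g⁻¹ * ((x : G) * g * (x : G)⁻¹) = g⁻¹ * ((y : G) * g * (y : G)⁻¹) :=
      congrArg Subtype.val hab
    have h2 : (x : G) * g * (x : G)⁻¹ = (y : G) * g * (y : G)⁻¹ := mul_left_cancel h1
    rw [QuotientGroup.eq, Subgroup.mem_subgroupOf, hC, Subgroup.mem_centralizer_singleton_iff]
    show ((x : G)⁻¹ * (y : G)) * g = g * ((x : G)⁻¹ * (y : G))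
    symm
    calc g * ((x : G)⁻¹ * (y : G))
        = (x : G)⁻¹ * ((x : G) * g * (x : G)⁻¹) * (y : G) := by group
      _ = ((x : G)⁻¹ * (y : G)) * g := by rw [h2]; group
  have hNpos : 0 < Nat.card N := Nat.card_pos
  have hCpos : 0 < Nat.card C := Nat.card_pos
  constructor
  · intro h
    have hsurj : Function.Surjective φ := by
      intro n
      obtain ⟨x, hx⟩ := h n n.2
      have hxD : x ∈ D := by
        rw [hmemD]
        have h1 : ((x * g * x⁻¹ : G) : G ⧸ N) = (g : G ⧸ N) := by
          rw [hx, QuotientGroup.mk_mul, (QuotientGroup.eq_one_iff (n : G)).2 n.2, mul_one]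
        rw [QuotientGroup.mk_mul, QuotientGroup.mk_mul, QuotientGroup.mk_inv] at h1
        exact (mul_inv_eq_iff_eq_mul.1 h1).symm
      refine ⟨QuotientGroup.mk ⟨x, hxD⟩, ?_⟩
      apply Subtype.ext
      show g⁻¹ * (x * g * x⁻¹) = n
      rw [hx]; group
    have h1 : Nat.card (↥D ⧸ C.subgroupOf D) = Nat.card N :=
      Nat.card_congr (Equiv.ofBijective φ ⟨hφinj, hsurj⟩)
    rw [h1, hcardD] at hcardD2
    exact (Nat.eq_of_mul_eq_mul_left hNpos hcardD2).symm
  · intro h n hn
    rw [hcardD, ← h] at hcardD2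
    have h1 : Nat.card N = Nat.card (↥D ⧸ C.subgroupOf D) :=
      Nat.eq_of_mul_eq_mul_right hCpos hcardD2
    have hbij : Function.Bijective φ :=
      (Nat.bijective_iff_injective_and_card φ).2 ⟨hφinj, h1.symm⟩
    obtain ⟨q, hq⟩ := hbij.2 ⟨n, hn⟩
    obtain ⟨x, rfl⟩ := QuotientGroup.mk_surjective q
    refine ⟨x, ?_⟩
    have h2 : g⁻¹ * ((x : G) * g * (x : G)⁻¹) = n := congrArg Subtype.val hq
    rw [← h2]; group

/-- Let G be a finite group and N a normal subgroup. Then the conjugacy class of every element g outside N is a union of cosets of N (gn is conjugate to g for all n ∈ N) if and only if for every g outside N the centralizer of g in G has the same order as the centralizer of gN in G/N. -/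
theorem result {G : Type*} [Group G] [Finite G] (N : Subgroup G) [N.Normal] :
    (∀ g : G, g ∉ N → ∀ n ∈ N, ∃ x : G, x * g * x⁻¹ = g * n) ↔
      ∀ g : G, g ∉ N → Nat.card (Subgroup.centralizer ({g} : Set G)) =
        Nat.card (Subgroup.centralizer ({(QuotientGroup.mk g : G ⧸ N)} : Set (G ⧸ N))) := by
  constructor
  · intro h g hg
    exact (per_elt N g).1 (h g hg)
  · intro h g hg
    exact (per_elt N g).2 (h g hg)

end Cfsg.Agent.S4142
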