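import Mathlib
import Cfsg.Agent.Lib.helper6_MaxClass
import Cfsg.Statements.S4143

set_option autoImplicit false
open Cfsg

namespace Cfsg.Agent.S4143

open Subgroup Cfsg.Agent.Lib.helper6_MaxClass

theorem comm_of_card_dvd_sq {E : Type*} [Group E] [Finite E] {p : ℕ} [hp : Fact p.Prime]
    (h : Nat.card E ∣ p ^ 2) : ∀ a b : E, a * b = b * a := by
  obtain ⟨k, hk, hkE⟩ := (Nat.dvd_prime_pow hp.out).1 h
  interval_cases k
  · have : Subsingleton E := (Nat.card_eq_one_iff_unique.1 (by simpa using hkE)).1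
    intro a b
    exact Subsingleton.elim _ _
  · have hc : IsCyclic E := isCyclic_of_prime_card (p := p) (by simpa using hkE)
    let _ := IsCyclic.commGroup (α := E)
    intro a b
    exact mul_comm a b
  · exact (IsPGroup.isMulCommutative_of_card_eq_prime_sq hkE).is_comm.comm

theorem conj_pow_central {X : Type*} [Group X] {g h c : X} (hc : ∀ y : X, y * c = c * y)
    (h0 : g * h * g⁻¹ = c * h) (k : ℕ) : g ^ k * h * (g ^ k)⁻¹ = c ^ k * h := by
  induction k with
  | zero => simp
  | succ k ih =>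
    have h1 : g * c ^ k = c ^ k * g := (Commute.pow_right (show Commute g c from hc g) k).eq
    calc g ^ (k + 1) * h * (g ^ (k + 1))⁻¹ = g * (g ^ k * h * (g ^ k)⁻¹) * g⁻¹ := by
          rw [pow_succ']; group
      _ = (g * c ^ k) * h * g⁻¹ := by rw [ih]; group
      _ = c ^ k * (g * h * g⁻¹) := by rw [h1]; group
      _ = c ^ (k + 1) * h := by rw [h0, pow_succ]; group

/-- Let X be a finite p-group of order p^n containing a non-abelian subgroup B of order p³ with C_X(B) ≤ B. Then X has nilpotency class n − 1 (maximal class). -/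
theorem result {X : Type*} [Group X] [Finite X] {p : ℕ} [Fact p.Prime] (n : ℕ) (hX : Nat.card X = p ^ n)
    (B : Subgroup X) (hB : Nat.card B = p ^ 3) (hBna : ¬ IsMulCommutative B) (hC : Subgroup.centralizer (B : Set X) ≤ B) :
    Group.nilpotencyClass X = n - 1 := by
  have hpp : p.Prime := Fact.out
  have hPX : IsPGroup p X := IsPGroup.of_card hX
  haveI : Group.IsNilpotent X := hPX.isNilpotent
  haveI : Nontrivial X := by
    rw [← Finite.one_lt_card_iff_nontrivial]
    calc 1 < p ^ 3 := Nat.one_lt_pow (by norm_num) hpp.one_lt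
      _ = Nat.card B := hB.symm
      _ ≤ _ := card_le_card_group _
  rw [Group.nilpotencyClass_eq_quotient_center_plus_one]
  set Z := center X with hZ
  have hZB : Z ≤ B := (center_le_centralizer _).trans hC
  have hZc : ∀ c ∈ Z, ∀ g : X, g * c = c * g := fun c hc g => mem_center_iff.1 hc g
  obtain ⟨u, hu, v, hv, huv⟩ : ∃ u ∈ B, ∃ v ∈ B, u * v ≠ v * u := by
    by_contra hcon
    push Not at hcon
    exact hBna ⟨⟨fun a b => Subtype.ext (hcon a a.2 b b.2)⟩⟩
  set π := QuotientGroup.mk' Z with hπ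
  have hπs : Function.Surjective π := QuotientGroup.mk'_surjective Z
  have hπ1 : ∀ x, π x = 1 ↔ x ∈ Z := fun x => QuotientGroup.eq_one_iff x
  have hZbot : Z ≠ ⊥ := by
    haveI := hPX.center_nontrivial
    exact (nontrivial_iff_ne_bot _).1 this
  set Bb := B.map π with hBb
  have hmul := card_map_mk Z B hZB
  rw [hB] at hmul
  have hZcard : Nat.card Z = p := by
    have h1 : Nat.card Z ∣ p ^ 3 := ⟨_, hmul.symm⟩
    obtain ⟨j, hj, hj'⟩ := (Nat.dvd_prime_pow hpp).1 h1
    have hcyc : ∀ (w : X), w ∈ B → w ∉ Z → Nat.card Bb = p → False := by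
      intro w hw hwZ hcard
      have hgen : ∀ b ∈ B, ∃ i : ℤ, ∃ c ∈ Z, b = w ^ i * c := by
        intro b hb
        have h1 : (⟨π w, w, hw, rfl⟩ : Bb) ≠ 1 := by
          intro h0
          exact hwZ ((hπ1 w).1 (congrArg Subtype.val h0))
        obtain ⟨i, hi⟩ := mem_zpowers_of_prime_card hcard h1 (g' := ⟨π b, b, hb, rfl⟩)
        have h2 : π w ^ i = π b := by
          have := congrArg Subtype.val hi
          simpa using this
        refine ⟨i, (w ^ i)⁻¹ * b, ?_, by group⟩
        rw [← hπ1, map_mul, map_inv, map_zpow, h2, inv_mul_cancel]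
      apply huv
      obtain ⟨i, c, hc, rfl⟩ := hgen u hu
      obtain ⟨j, d, hd, rfl⟩ := hgen v hv
      have h1 : Commute (w ^ i) (w ^ j) := ((Commute.refl w).zpow_left i).zpow_right j
      have h2 : Commute (w ^ i) d := hZc d hd _
      have h3 : Commute c (w ^ j) := (hZc c hc _).symm
      have h4 : Commute c d := hZc d hd _
      exact ((h1.mul_right h2).mul_left (h3.mul_right h4)).eq
    have huZ : u ∉ Z := fun h => huv (hZc u h v).symm
    interval_cases j
    · rw [pow_zero] at hj'
      exact absurd (eq_bot_of_card_eq _ hj') hZbot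
    · rw [hj', pow_one]
    · exfalso
      apply hcyc u hu huZ
      rw [hj'] at hmul
      have : p ^ 2 * Nat.card Bb = p ^ 2 * p := by rw [hmul]; ring
      exact Nat.eq_of_mul_eq_mul_left (pow_pos hpp.pos 2) this
    · exfalso
      have : Z = B := eq_of_le_of_card_ge hZB (by rw [hB, hj'])
      exact huZ (this ▸ hu)
  have hBbcard : Nat.card Bb = p ^ 2 := by
    rw [hZcard] at hmul
    have : p * Nat.card Bb = p * p ^ 2 := by rw [hmul]; ring
    exact Nat.eq_of_mul_eq_mul_left hpp.pos this
  have hBbc := IsPGroup.isMulCommutative_of_card_eq_prime_sq hBbcard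
  have hcommZ : ∀ a ∈ B, ∀ b ∈ B, a * b * a⁻¹ * b⁻¹ ∈ Z := by
    intro a ha b hb
    have h1 : π a * π b = π b * π a :=
      congrArg Subtype.val (hBbc.is_comm.comm ⟨π a, a, ha, rfl⟩ ⟨π b, b, hb, rfl⟩)
    rw [← hπ1, map_mul, map_mul, map_mul, map_inv, map_inv, h1]
    group
  set z := u * v * u⁻¹ * v⁻¹ with hz
  have hzZ : z ∈ Z := hcommZ u hu v hv
  have hz1 : z ≠ 1 := by
    intro h0
    apply huv
    have := congrArg (fun t => t * v * u) h0
    simpa [hz] using this
  have hzc : ∀ y : X, y * z = z * y := hZc z hzZ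
  have hzp : z ^ p = 1 := by
    have h1 : (⟨z, hzZ⟩ : Z) ^ Nat.card Z = 1 := pow_card_eq_one'
    rw [hZcard] at h1
    exact congrArg Subtype.val h1
  have hZgen : ∀ c ∈ Z, ∃ i : ℕ, z ^ i = c := by
    intro c hc
    have h1 : (⟨z, hzZ⟩ : Z) ≠ 1 := fun h0 => hz1 (congrArg Subtype.val h0)
    have h2 := mem_zpowers_of_prime_card hZcard h1 (g' := ⟨c, hc⟩)
    rw [← mem_powers_iff_mem_zpowers] at h2
    obtain ⟨i, hi⟩ := h2
    exact ⟨i, by simpa using congrArg Subtype.val hi⟩
  have hBbC : centralizer (Bb : Set (X ⧸ Z)) = Bb := by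
    apply le_antisymm
    · intro xb hxb
      obtain ⟨x, rfl⟩ := hπs xb
      have hx : ∀ b ∈ B, x * b * x⁻¹ * b⁻¹ ∈ Z := by
        intro b hb
        have h1 := (mem_centralizer_iff.1 hxb) (π b) ⟨b, hb, rfl⟩
        rw [← hπ1, map_mul, map_mul, map_mul, map_inv, map_inv, ← h1]
        group
      obtain ⟨i, hi⟩ := hZgen _ (hx u hu)
      obtain ⟨j, hj⟩ := hZgen _ (hx v hv)
      have hxu : x * u * x⁻¹ = z ^ i * u := by rw [hi]; group
      have hxv : x * v * x⁻¹ = z ^ j * v := by rw [hj]; group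
      have e1 : u * v * u⁻¹ = z * v := by rw [hz]; group
      have e2 : v * u * v⁻¹ = z⁻¹ * u := by rw [hz]; group
      have hzic : ∀ y : X, y * z⁻¹ = z⁻¹ * y := hZc _ (Z.inv_mem hzZ)
      have e3 := conj_pow_central hzc e1 j
      have e4 := conj_pow_central hzic e2 ((p - 1) * i)
      have e5 : (z⁻¹) ^ ((p - 1) * i) = z ^ i := by
        rw [inv_pow, inv_eq_iff_mul_eq_one, ← pow_add]
        have : (p - 1) * i + i = p * i := by
          have := hpp.pos
          obtain ⟨q, rfl⟩ : ∃ q, p = q + 1 := ⟨p - 1, by omega⟩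
          simp; ring
        rw [this, pow_mul, hzp, one_pow]
      rw [e5] at e4
      set b := u ^ j * v ^ ((p - 1) * i) with hb
      have hbB : b ∈ B := B.mul_mem (B.pow_mem hu _) (B.pow_mem hv _)
      have hzi : ∀ y : X, y * z ^ i = z ^ i * y := hZc _ (Z.pow_mem hzZ i)
      have hbu : b * u * b⁻¹ = z ^ i * u := by
        calc b * u * b⁻¹ = u ^ j * (v ^ ((p - 1) * i) * u * (v ^ ((p - 1) * i))⁻¹) * (u ^ j)⁻¹ := by
              rw [hb]; group
          _ = (u ^ j * z ^ i) * u * (u ^ j)⁻¹ := by rw [e4]; group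
          _ = z ^ i * (u ^ j * u * (u ^ j)⁻¹) := by rw [hzi]; group
          _ = z ^ i * u := by
              congr 1
              rw [← pow_succ, pow_succ', mul_assoc, mul_inv_cancel, mul_one]
      have hbv : b * v * b⁻¹ = z ^ j * v := by
        calc b * v * b⁻¹ = u ^ j * (v ^ ((p - 1) * i) * v * (v ^ ((p - 1) * i))⁻¹) * (u ^ j)⁻¹ := by
              rw [hb]; group
          _ = u ^ j * v * (u ^ j)⁻¹ := by
              congr 2
              rw [← pow_succ, pow_succ', mul_assoc, mul_inv_cancel, mul_one]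
          _ = _ := e3
      set y := b⁻¹ * x with hy
      have hyu : u * y = y * u := by
        have h1 : x * u * x⁻¹ = b * u * b⁻¹ := by rw [hxu, hbu]
        have := congrArg (fun t => b⁻¹ * t * x) h1
        rw [show b⁻¹ * (x * u * x⁻¹) * x = b⁻¹ * x * u by group,
          show b⁻¹ * (b * u * b⁻¹) * x = u * (b⁻¹ * x) by group] at this
        exact this.symm
      have hyv : v * y = y * v := by
        have h1 : x * v * x⁻¹ = b * v * b⁻¹ := by rw [hxv, hbv]
        have := congrArg (fun t => b⁻¹ * t * x) h1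
        rw [show b⁻¹ * (x * v * x⁻¹) * x = b⁻¹ * x * v by group,
          show b⁻¹ * (b * v * b⁻¹) * x = v * (b⁻¹ * x) by group] at this
        exact this.symm
      set K := centralizer ({y} : Set X) ⊓ B with hK
      have huK : u ∈ K := by
        rw [hK, mem_inf, mem_centralizer_iff]
        refine ⟨?_, hu⟩
        intro w hw; rw [Set.mem_singleton_iff.1 hw]; exact hyu.symm
      have hvK : v ∈ K := by
        rw [hK, mem_inf, mem_centralizer_iff]
        refine ⟨?_, hv⟩
        intro w hw; rw [Set.mem_singleton_iff.1 hw]; exact hyv.symm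
      have hKB : K = B := by
        have h1 : Nat.card K ∣ p ^ 3 := hB ▸ card_dvd_of_le inf_le_right
        obtain ⟨k, hk, hk'⟩ := (Nat.dvd_prime_pow hpp).1 h1
        by_cases hk3 : k = 3
        · exact eq_of_le_of_card_ge inf_le_right (by rw [hB, hk', hk3])
        · exfalso
          have h2 : Nat.card K ∣ p ^ 2 := by rw [hk']; exact pow_dvd_pow p (by omega)
          exact huv (congrArg Subtype.val (comm_of_card_dvd_sq h2 ⟨u, huK⟩ ⟨v, hvK⟩))
      have hyC : y ∈ centralizer (B : Set X) := by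
        rw [mem_centralizer_iff]
        intro w hw
        have hw' : w ∈ K := by rw [hKB]; exact hw
        exact ((mem_centralizer_iff.1 hw'.1) y rfl).symm
      have hxB : x ∈ B := by
        have : x = b * y := by rw [hy]; group
        rw [this]
        exact B.mul_mem hbB (hC hyC)
      exact ⟨x, hxB, rfl⟩
    · intro x hx
      rw [mem_centralizer_iff]
      intro y hy
      exact congrArg Subtype.val (hBbc.is_comm.comm ⟨y, hy⟩ ⟨x, hx⟩)
  have hn3 : 3 ≤ n := by
    have h1 := card_le_card_group B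
    rw [hB, hX] at h1
    exact (Nat.pow_le_pow_iff_right hpp.one_lt).1 h1
  obtain ⟨m, rfl⟩ : ∃ m, n = m + 1 := ⟨n - 1, by omega⟩
  have hXbar : Nat.card (X ⧸ Z) = p ^ m := by
    have h2 := card_eq_card_quotient_mul_card_subgroup Z
    rw [hX, hZcard, pow_succ] at h2
    exact (Nat.eq_of_mul_eq_mul_right hpp.pos h2).symm
  rw [suzuki m (X ⧸ Z) hXbar Bb hBbcard hBbC]
  omega

end Cfsg.Agent.S4143
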