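import Cfsg.Statements.S4153
import Mathlib

set_option autoImplicit false
open Cfsg

namespace Cfsg.Agent.S4153

theorem card_inf_mul_card_map {G : Type*} [Group G] [Finite G] (N : Subgroup G) [N.Normal]
    (S : Subgroup G) :
    Nat.card ↥(S.map (QuotientGroup.mk' N)) * Nat.card ↥(S ⊓ N) = Nat.card S := by
  classical
  choose r hrS hr using fun t : ↥(S.map (QuotientGroup.mk' N)) => Subgroup.mem_map.mp t.2
  rw [← Nat.card_prod]
  refine Nat.card_congr (Equiv.ofBijective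
    (fun tn => (⟨r tn.1 * tn.2, S.mul_mem (hrS _) tn.2.2.1⟩ : S)) ⟨?_, ?_⟩)
  · rintro ⟨t, n⟩ ⟨t', n'⟩ h
    have h1 : r t * (n : G) = r t' * (n' : G) := congrArg Subtype.val h
    have hn : QuotientGroup.mk' N (n : G) = 1 := (QuotientGroup.eq_one_iff _).mpr n.2.2
    have hn' : QuotientGroup.mk' N (n' : G) = 1 := (QuotientGroup.eq_one_iff _).mpr n'.2.2
    have h2 : (t : G ⧸ N) = t' := by
      have h3 := congrArg (QuotientGroup.mk' N) h1
      rw [map_mul, map_mul, hn, hn', mul_one, mul_one, hr, hr] at h3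
      exact h3
    have h3 : t = t' := Subtype.ext h2
    subst h3
    have h4 : n = n' := Subtype.ext (mul_left_cancel h1)
    rw [h4]
  · intro s
    let t : ↥(S.map (QuotientGroup.mk' N)) := ⟨QuotientGroup.mk' N s, Subgroup.mem_map_of_mem _ s.2⟩
    refine ⟨(t, ⟨(r t)⁻¹ * s, S.mul_mem (S.inv_mem (hrS t)) s.2, ?_⟩), ?_⟩
    · show (r t)⁻¹ * (s : G) ∈ N
      rw [← QuotientGroup.eq_one_iff]
      have h5 : QuotientGroup.mk' N (r t) = QuotientGroup.mk' N (s : G) := hr t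
      show QuotientGroup.mk' N ((r t)⁻¹ * (s : G)) = 1
      rw [map_mul, map_inv, h5, inv_mul_cancel]
    · apply Subtype.ext
      show r t * ((r t)⁻¹ * s) = s
      group

theorem pelem_of_mem {G : Type*} [Group G] (p : ℕ) [Fact p.Prime] (S : Sylow p G) {g : G}
    (hg : g ∈ (S : Subgroup G)) : ∃ k : ℕ, orderOf g = p ^ k := by
  obtain ⟨k, hk⟩ := IsPGroup.iff_orderOf.mp S.2 ⟨g, hg⟩
  exact ⟨k, by rw [← hk, ← Subgroup.orderOf_coe]⟩


/-- Let G be a finite group, p a prime, N a normal subgroup, P a Sylow p-subgroup of G and P̄ a Sylow p-subgroup of G/N. Count the elements of p-power order, the identity included. Then (number of such elements of G/N)/#P̄ ≤ (number of such elements of G)/#P, stated as a cross-multiplied inequality, with equality when N is central. -/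
theorem result {G : Type*} [Group G] [Finite G] (p : ℕ) [Fact p.Prime] (N : Subgroup G) [N.Normal]
    (P : Sylow p G) (Pbar : Sylow p (G ⧸ N)) :
    Nat.card {g : (G ⧸ N) // ∃ k : ℕ, orderOf g = p ^ k} * Nat.card (P : Subgroup G) ≤ Nat.card {g : G // ∃ k : ℕ, orderOf g = p ^ k} * Nat.card (Pbar : Subgroup (G ⧸ N)) ∧
    (N ≤ Subgroup.center G → Nat.card {g : (G ⧸ N) // ∃ k : ℕ, orderOf g = p ^ k} * Nat.card (P : Subgroup G) = Nat.card {g : G // ∃ k : ℕ, orderOf g = p ^ k} * Nat.card (Pbar : Subgroup (G ⧸ N))) := by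
  classical
  have hp := (Fact.out : p.Prime)
  have := Fintype.ofFinite {g : (G ⧸ N) // ∃ k : ℕ, orderOf g = p ^ k}
  have hsurj : Function.Surjective (QuotientGroup.mk' N) := QuotientGroup.mk'_surjective N
  have hex : ∀ t : {g : (G ⧸ N) // ∃ k : ℕ, orderOf g = p ^ k},
      ∃ (S : Sylow p G) (x : G), x ∈ (S : Subgroup G) ∧ QuotientGroup.mk' N x = t.1 := by
    rintro ⟨t, k, hk⟩
    have hpg : IsPGroup p (Subgroup.zpowers t) :=
      IsPGroup.iff_card.2 ⟨k, by rw [Nat.card_zpowers, hk]⟩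
    obtain ⟨Q, hQ⟩ := hpg.exists_le_sylow
    obtain ⟨S, rfl⟩ := Sylow.mapSurjective_surjective hsurj p Q
    have ht : t ∈ (S : Subgroup G).map (QuotientGroup.mk' N) := hQ (Subgroup.mem_zpowers t)
    obtain ⟨x, hx, e⟩ := Subgroup.mem_map.mp ht
    exact ⟨S, x, hx, e⟩
  choose S x hxS hx using hex
  have hA : ∀ T : Sylow p G, Nat.card (T : Subgroup G) = Nat.card (P : Subgroup G) := by
    intro T
    rw [Sylow.card_eq_multiplicity, ← Sylow.card_eq_multiplicity P]
  have hB : ∀ T : Sylow p G, Nat.card ↥((T : Subgroup G).map (QuotientGroup.mk' N)) =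
      Nat.card (Pbar : Subgroup (G ⧸ N)) := by
    intro T
    have h1 := Sylow.card_eq_multiplicity (T.mapSurjective hsurj)
    rw [← Sylow.card_eq_multiplicity Pbar] at h1
    exact h1
  have hK : ∀ t, Nat.card (Pbar : Subgroup (G ⧸ N)) * Nat.card ↥((S t : Subgroup G) ⊓ N) =
      Nat.card (P : Subgroup G) := by
    intro t
    rw [← hB (S t), card_inf_mul_card_map, hA]
  have hpel : ∀ s : (Σ t, ↥((S t : Subgroup G) ⊓ N)), ∃ k : ℕ, orderOf (x s.1 * (s.2 : G)) = p ^ k :=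
    fun s => pelem_of_mem p (S s.1) ((S s.1 : Subgroup G).mul_mem (hxS s.1) s.2.2.1)
  have hinj : Function.Injective (fun s : (Σ t, ↥((S t : Subgroup G) ⊓ N)) =>
      (⟨x s.1 * (s.2 : G), hpel s⟩ : {g : G // ∃ k : ℕ, orderOf g = p ^ k})) := by
    rintro ⟨t, n⟩ ⟨t', n'⟩ e
    have e1 : x t * (n : G) = x t' * (n' : G) := congrArg Subtype.val e
    have hn : QuotientGroup.mk' N (n : G) = 1 := (QuotientGroup.eq_one_iff _).mpr n.2.2
    have hn' : QuotientGroup.mk' N (n' : G) = 1 := (QuotientGroup.eq_one_iff _).mpr n'.2.2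
    have e2 := congrArg (QuotientGroup.mk' N) e1
    rw [map_mul, map_mul, hn, hn', mul_one, mul_one, hx, hx] at e2
    obtain rfl : t = t' := Subtype.ext e2
    obtain rfl : n = n' := Subtype.ext (mul_left_cancel e1)
    rfl
  have hsum : Nat.card (Σ t, ↥((S t : Subgroup G) ⊓ N)) * Nat.card (Pbar : Subgroup (G ⧸ N)) =
      Nat.card {g : (G ⧸ N) // ∃ k : ℕ, orderOf g = p ^ k} * Nat.card (P : Subgroup G) := by
    rw [Nat.card_sigma, Finset.sum_mul,
      Finset.sum_congr rfl (fun t _ => by rw [mul_comm, hK t]), Finset.sum_const, Finset.card_univ,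
      smul_eq_mul, ← Nat.card_eq_fintype_card]
  refine ⟨?_, ?_⟩
  · rw [← hsum]
    exact Nat.mul_le_mul_right _ (Nat.card_le_card_of_injective _ hinj)
  · intro hZ
    rw [← hsum]
    congr 1
    refine Nat.card_congr (Equiv.ofBijective _ ⟨hinj, ?_⟩)
    rintro ⟨g, b, hb⟩
    have htp : ∃ k : ℕ, orderOf (QuotientGroup.mk' N g) = p ^ k := by
      have h1 : orderOf (QuotientGroup.mk' N g) ∣ p ^ b := hb ▸ orderOf_map_dvd _ g
      obtain ⟨j, -, hj⟩ := (Nat.dvd_prime_pow hp).mp h1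
      exact ⟨j, hj⟩
    set t : {g : (G ⧸ N) // ∃ k : ℕ, orderOf g = p ^ k} := ⟨QuotientGroup.mk' N g, htp⟩ with ht
    have hnN : (x t)⁻¹ * g ∈ N := by
      rw [← QuotientGroup.eq_one_iff]
      show QuotientGroup.mk' N ((x t)⁻¹ * g) = 1
      rw [map_mul, map_inv, hx t, inv_mul_cancel]
    have hcen : ∀ y : G, y * ((x t)⁻¹ * g) = ((x t)⁻¹ * g) * y :=
      fun y => Subgroup.mem_center_iff.mp (hZ hnN) y
    obtain ⟨a, ha⟩ := pelem_of_mem p (S t) (hxS t)
    have hcomm : Commute (x t)⁻¹ g := by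
      show (x t)⁻¹ * g = g * (x t)⁻¹
      have h1 := hcen (x t)
      calc (x t)⁻¹ * g = (x t)⁻¹ * (x t * ((x t)⁻¹ * g)) := by group
        _ = (x t)⁻¹ * (((x t)⁻¹ * g) * x t) := by rw [h1]
        _ = (x t)⁻¹ * ((x t)⁻¹ * g * x t) := rfl
        _ = (x t)⁻¹ * (x t * ((x t)⁻¹ * g)) * ((x t)⁻¹ * x t) := by rw [h1]; group
        _ = (x t)⁻¹ * g := by group
        _ = g * (x t)⁻¹ := by
          have h2 := hcen (x t)⁻¹
          calc (x t)⁻¹ * g = (x t) * ((x t)⁻¹ * ((x t)⁻¹ * g)) := by group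
            _ = (x t) * (((x t)⁻¹ * g) * (x t)⁻¹) := by rw [h2]
            _ = _ := by group
    have hpow : ((x t)⁻¹ * g) ^ (p ^ (a + b)) = 1 := by
      rw [hcomm.mul_pow, inv_pow, pow_add, pow_mul, ← ha, pow_orderOf_eq_one, one_pow, inv_one,
        one_mul, mul_comm, pow_mul, ← hb, pow_orderOf_eq_one, one_pow]
    obtain ⟨j, -, hj⟩ := (Nat.dvd_prime_pow hp).mp (orderOf_dvd_of_pow_eq_one hpow)
    have hpg : IsPGroup p (Subgroup.zpowers ((x t)⁻¹ * g)) :=
      IsPGroup.iff_card.2 ⟨j, by rw [Nat.card_zpowers, hj]⟩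
    obtain ⟨Q, hQ⟩ := hpg.exists_le_sylow
    obtain ⟨c, rfl⟩ := MulAction.exists_smul_eq G (S t) Q
    have hmem : (x t)⁻¹ * g ∈ ((c • S t : Sylow p G) : Subgroup G) := hQ (Subgroup.mem_zpowers _)
    rw [Sylow.coe_subgroup_smul, Subgroup.mem_smul_pointwise_iff_exists] at hmem
    obtain ⟨s, hs, e⟩ := hmem
    rw [MulAut.smul_def, MulAut.conj_apply] at e
    have hs' : s = (x t)⁻¹ * g := by
      calc s = c⁻¹ * (c * s * c⁻¹) * c := by group
        _ = c⁻¹ * ((x t)⁻¹ * g) * c := by rw [e]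
        _ = c⁻¹ * (((x t)⁻¹ * g) * c) := by group
        _ = c⁻¹ * (c * ((x t)⁻¹ * g)) := by rw [hcen c]
        _ = _ := by group
    refine ⟨⟨t, ⟨(x t)⁻¹ * g, hs' ▸ hs, hnN⟩⟩, ?_⟩
    apply Subtype.ext
    show x t * ((x t)⁻¹ * g) = g
    group

end Cfsg.Agent.S4153
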