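import Cfsg.Statements.S4154

set_option autoImplicit false
open Cfsg

namespace Cfsg.Agent.S4154

theorem ccp_unique {Q : Type*} [Group Q] [Finite Q] (β : Q →* Q)
    (hs : ∀ x : Q, ∃ c g : Q, β c = c ∧ x = c * (g⁻¹ * β g)) (g : Q)
    (hg : β (g⁻¹ * β g) = g⁻¹ * β g) : g⁻¹ * β g = 1 := by
  let C : Subgroup Q := β.eqLocus (MonoidHom.id Q)
  have hC : ∀ c, c ∈ C ↔ β c = c := fun c => Iff.rfl
  let κ : Q ⧸ C → Q := fun q => Quotient.liftOn' q (fun h => h * (β h)⁻¹) (by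
    intro a b hab
    have h1 : a⁻¹ * b ∈ C := QuotientGroup.leftRel_apply.1 hab
    rw [hC, map_mul, map_inv] at h1
    show a * (β a)⁻¹ = b * (β b)⁻¹
    have h2 : β b = β a * (a⁻¹ * b) := by rw [← h1]; group
    rw [h2]; group)
  have hκ : ∀ h : Q, κ (QuotientGroup.mk h) = h * (β h)⁻¹ := fun h => rfl
  let Ψ : C × (Q ⧸ C) → Q := fun p => p.1.1 * κ p.2
  have hsurj : Function.Surjective Ψ := by
    intro x
    obtain ⟨c, g, hc, hx⟩ := hs x
    refine ⟨(⟨c, (hC c).2 hc⟩, QuotientGroup.mk g⁻¹), ?_⟩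
    show c * κ (QuotientGroup.mk g⁻¹) = x
    rw [hκ, hx, map_inv, inv_inv]
  have hbij : Function.Bijective Ψ := hsurj.bijective_of_nat_card_le (by
    rw [Nat.card_prod]
    exact (Subgroup.card_mul_index C).le)
  have h1 : Ψ (⟨g⁻¹ * β g, (hC _).2 hg⟩, QuotientGroup.mk 1) = Ψ (1, QuotientGroup.mk g⁻¹) := by
    show (g⁻¹ * β g) * κ (QuotientGroup.mk 1) = 1 * κ (QuotientGroup.mk g⁻¹)
    rw [hκ, hκ, map_inv, map_one]; group
  have h2 := congrArg (fun p => p.1.1) (hbij.1 h1)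
  exact h2

/-- Let G be a finite group and α an automorphism of G such that every element of G is the product of an element fixed by α and an element of the form g⁻¹α(g). If N is a normal α-invariant subgroup, then the automorphism ᾱ induced on G/N has the same property, and every coset fixed by ᾱ contains an element fixed by α (so the fixed points of ᾱ are the images of the fixed points of α). -/
theorem result {G : Type*} [Group G] [Finite G] (α : MulAut G)
    (hccp : ∀ x : G, ∃ c g : G, α c = c ∧ x = c * (g⁻¹ * α g))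
    (N : Subgroup G) [N.Normal] (hN : ∀ n ∈ N, α n ∈ N) :
    (∀ x : G, ∃ c g : G, c⁻¹ * α c ∈ N ∧ x⁻¹ * (c * (g⁻¹ * α g)) ∈ N) ∧
    (∀ x : G, x⁻¹ * α x ∈ N → ∃ c : G, α c = c ∧ c⁻¹ * x ∈ N) := by
  constructor
  · intro x
    obtain ⟨c, g, hc, hx⟩ := hccp x
    refine ⟨c, g, ?_, ?_⟩
    · rw [hc]; simp
    · rw [← hx]; simp
  · intro x hx
    let β : G ⧸ N →* G ⧸ N := QuotientGroup.map N N α.toMonoidHom (fun n hn => hN n hn)
    have hβ : ∀ y : G, β (QuotientGroup.mk y) = QuotientGroup.mk (α y) := fun y => rfl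
    obtain ⟨c, g, hc, hxc⟩ := hccp x
    have hs : ∀ x : G ⧸ N, ∃ c g : G ⧸ N, β c = c ∧ x = c * (g⁻¹ * β g) := by
      intro y
      obtain ⟨y, rfl⟩ := QuotientGroup.mk_surjective y
      obtain ⟨c, g, hc, hy⟩ := hccp y
      refine ⟨QuotientGroup.mk c, QuotientGroup.mk g, by rw [hβ, hc], ?_⟩
      rw [hβ, hy]; rfl
    have hfix : β (QuotientGroup.mk x) = QuotientGroup.mk x := by
      rw [hβ]; exact (QuotientGroup.eq.2 hx).symm
    have hk : β ((QuotientGroup.mk g : G ⧸ N)⁻¹ * β (QuotientGroup.mk g)) =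
        (QuotientGroup.mk g : G ⧸ N)⁻¹ * β (QuotientGroup.mk g) := by
      have h1 : (QuotientGroup.mk g : G ⧸ N)⁻¹ * β (QuotientGroup.mk g) =
          (QuotientGroup.mk c : G ⧸ N)⁻¹ * QuotientGroup.mk x := by
        rw [hβ, hxc]
        show _ = (QuotientGroup.mk c : G ⧸ N)⁻¹ * (QuotientGroup.mk c * ((QuotientGroup.mk g)⁻¹ * QuotientGroup.mk (α g)))
        group
      rw [h1, map_mul, map_inv, hfix, hβ, hc]
    have h2 := ccp_unique β hs _ hk
    refine ⟨c, hc, ?_⟩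
    have h3 : c⁻¹ * x = g⁻¹ * α g := by rw [hxc]; group
    rw [h3]
    rw [hβ] at h2
    exact (QuotientGroup.eq_one_iff _).1 h2

end Cfsg.Agent.S4154
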