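import Cfsg.Statements.S4155
import Cfsg.Agent.Lib.Helper1_FpfAct
import Cfsg.Agent.Lib.Helper7_Nilp
import Cfsg.Agent.Lib.Helper4_PSol
import Cfsg.Agent.Lib.Helper4_Nilp
import Cfsg.Agent.Lib.Helper3_Comp

set_option autoImplicit false
open Cfsg

namespace Cfsg.Agent.S4155

theorem K2 {G : Type*} [Group G] [Finite G] (N : Subgroup G)
    (heq : ∀ x : G, x ∉ N → ∀ n ∈ N, orderOf (x * n) = orderOf x) {x w : G} (hx : x ∉ N) (hw : w ∈ N)
    (hc : Commute x w) (hcop : (orderOf x).Coprime (orderOf w)) : w = 1 := by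
  have h1 := hc.orderOf_mul_eq_mul_orderOf_of_coprime hcop
  rw [heq x hx w hw] at h1
  have h2 : orderOf w = 1 := by
    have hpos : 0 < orderOf x := orderOf_pos x
    have : orderOf x * 1 = orderOf x * orderOf w := by rw [mul_one]; exact h1
    exact (Nat.eq_of_mul_eq_mul_left hpos this).symm
  exact orderOf_eq_one_iff.1 h2

theorem K1 {N : Type*} [Group N] [Finite N] [Nontrivial N] [hnil : Group.IsNilpotent N]
    (hnpp : ¬ IsPrimePow (Nat.card N)) (q : ℕ) (hq : q.Prime) :
    ∃ r : ℕ, r.Prime ∧ r ≠ q ∧ r ∣ Nat.card N := by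
  by_contra hcon
  push_neg at hcon
  apply hnpp
  have h1 := Nat.eq_prime_pow_of_unique_prime_dvd (n := Nat.card N) (p := q) Nat.card_pos.ne'
    (fun {d} hd hdn => by
      by_contra hne
      exact hcon d hd hne hdn)
  rw [isPrimePow_nat_iff]
  refine ⟨q, _, hq, ?_, h1.symm⟩
  by_contra h0
  have h2 : (Nat.card N).primeFactorsList.length = 0 := by omega
  rw [h2, pow_zero] at h1
  have := Finite.one_lt_card (α := N)
  omega

/-- Let G be a finite group and N a proper non-trivial normal nilpotent subgroup whose order is not a prime power, such that for every x outside N all elements of the coset xN have the same order as x. Then N is the Fitting subgroup of G, and for every prime q every Sylow q-subgroup of G/N is cyclic or generalized quaternion. -/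
theorem result {G : Type*} [Group G] [Finite G] (N : Subgroup G) [N.Normal] (hN1 : N ≠ ⊥) (hN2 : N ≠ ⊤)
    (heq : ∀ x : G, x ∉ N → ∀ n ∈ N, orderOf (x * n) = orderOf x)
    (hnil : Group.IsNilpotent N) (hnpp : ¬ IsPrimePow (Nat.card N)) :
    N = Cfsg.fittingSubgroup G ∧
    ∀ (q : ℕ) [Fact q.Prime] (Q : Sylow q (G ⧸ N)), IsCyclic (Q : Subgroup (G ⧸ N)) ∨ ∃ n : ℕ, Nonempty ((Q : Subgroup (G ⧸ N)) ≃* QuaternionGroup (2 ^ n)) := by
  haveI hNnt : Nontrivial N := (Subgroup.nontrivial_iff_ne_bot N).2 hN1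
  -- central elements of prime order
  have hW : ∀ q : ℕ, q.Prime → ∃ (r : ℕ) (W : Subgroup G), r.Prime ∧ r ≠ q ∧ W.Normal ∧ W ≤ N ∧ W ≠ ⊥ ∧
      IsPGroup r W ∧ ∀ w ∈ W, ∀ n ∈ N, n * w = w * n := by
    intro q hq
    obtain ⟨r, hr, hrq, hrN⟩ := K1 hnpp q hq
    haveI : Fact r.Prime := ⟨hr⟩
    obtain ⟨R⟩ : Nonempty (Sylow r N) := inferInstance
    have hRn : (R : Subgroup N).Normal := inferInstance
    haveI hRc : (R : Subgroup N).Characteristic := R.characteristic_of_normal hRn
    have hRne : (R : Subgroup N) ≠ ⊥ := by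
      intro h
      have h1 := R.card_eq_multiplicity
      rw [h, Subgroup.card_bot] at h1
      have h2 : (Nat.card N).factorization r ≠ 0 := by
        have := (hr.dvd_iff_one_le_factorization (Nat.card_pos.ne')).1 hrN
        omega
      have := Nat.one_lt_pow h2 hr.one_lt
      omega
    have hne := Cfsg.Agent.Lib.Helper4_Nilp.normal_inf_center_ne_bot (R : Subgroup N) hRne
    have hn1 : ((R : Subgroup N).map N.subtype).Normal := ConjAct.normal_of_characteristic_of_normal
    have hn2 : ((Subgroup.center N).map N.subtype).Normal := ConjAct.normal_of_characteristic_of_normal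
    refine ⟨r, (R : Subgroup N).map N.subtype ⊓ (Subgroup.center N).map N.subtype, hr, hrq, inferInstance,
      inf_le_left.trans (Subgroup.map_subtype_le _), ?_, ?_, ?_⟩
    · obtain ⟨z, hz1⟩ := Subgroup.ne_bot_iff_exists_ne_one.1 hne
      intro hbot
      have h1 : (z.1 : G) ∈ (R : Subgroup N).map N.subtype ⊓ (Subgroup.center N).map N.subtype :=
        ⟨⟨z.1, z.2.1, rfl⟩, ⟨z.1, z.2.2, rfl⟩⟩
      rw [hbot, Subgroup.mem_bot] at h1
      apply hz1
      apply Subtype.ext
      apply Subtype.ext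
      exact h1
    · exact (R.isPGroup'.map N.subtype).to_le inf_le_left
    · rintro w ⟨-, ⟨z, hz, rfl⟩⟩ n hn
      have := (Subgroup.mem_center_iff.1 hz) ⟨n, hn⟩
      exact congrArg Subtype.val this
  constructor
  · apply le_antisymm
    · exact le_sSup ⟨inferInstance, hnil⟩
    · haveI := Cfsg.Agent.Lib.Helper3_Comp.fittingSubgroup_isNilpotent G
      have hNF : N ≤ Cfsg.fittingSubgroup G := le_sSup ⟨inferInstance, hnil⟩
      have key := Cfsg.Agent.Lib.Helper7_Nilp.mem_of_prime_power_parts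
        (G := Cfsg.fittingSubgroup G) (N.subgroupOf (Cfsg.fittingSubgroup G)) (fun _ => True) (by
          rintro y ⟨q, b, hq, -, hy⟩
          by_contra hyN
          obtain ⟨r, W, hr, hrq, -, hWN, hWne, hWp, -⟩ := hW q hq
          haveI : Fact r.Prime := ⟨hr⟩
          obtain ⟨w, hw1⟩ := Subgroup.ne_bot_iff_exists_ne_one.1 hWne
          obtain ⟨c, hc⟩ := (IsPGroup.iff_orderOf.1 hWp) w
          have hcop : (orderOf y).Coprime (orderOf (⟨w.1, hNF (hWN w.2)⟩ : Cfsg.fittingSubgroup G)) := by
            rw [hy, ← Subgroup.orderOf_coe]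
            change (q ^ b).Coprime (orderOf (w : G))
            rw [Subgroup.orderOf_coe, hc]
            exact Nat.Coprime.pow _ _ ((Nat.coprime_primes hq hr).2 hrq.symm)
          have hcomm := Cfsg.Agent.Lib.Helper7_Nilp.commute_of_coprime_orderOf hcop
          have hcomm' : Commute (y : G) (w : G) := congrArg Subtype.val hcomm
          apply hw1
          apply Subtype.ext
          apply K2 N heq (x := (y : G)) (fun h => hyN (Subgroup.mem_subgroupOf.2 h)) (hWN w.2) hcomm'
          rw [← Subgroup.orderOf_coe] at hcop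
          rw [← Subgroup.orderOf_coe] at hcop
          exact hcop)
      intro y hy
      exact Subgroup.mem_subgroupOf.1 (key ⟨y, hy⟩ (fun _ _ _ => trivial))
  · intro q hqf Q
    have hq : q.Prime := hqf.out
    obtain ⟨r, W, hr, hrq, hWn, hWN, hWne, hWp, hWc⟩ := hW q hq
    haveI : Fact r.Prime := ⟨hr⟩
    haveI : Nontrivial W := (Subgroup.nontrivial_iff_ne_bot W).2 hWne
    letI : CommGroup W := { (inferInstance : Group W) with
      mul_comm := fun a b => Subtype.ext (hWc b.1 b.2 a.1 (hWN a.2)) }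
    let φ₀ : G →* MulAut W := MulAut.conjNormal
    have hφ₀ : ∀ n ∈ N, φ₀ n = 1 := by
      intro n hn
      ext w
      rw [MulAut.conjNormal_apply]
      simp only [MulAut.one_apply]
      rw [mul_inv_eq_iff_eq_mul]
      exact hWc w.1 w.2 n hn
    let φ₁ : G ⧸ N →* MulAut W := QuotientGroup.lift N φ₀ hφ₀
    let φ : (Q : Subgroup (G ⧸ N)) →* MulAut W := φ₁.comp (Q : Subgroup (G ⧸ N)).subtype
    have hfpf : ∀ l : (Q : Subgroup (G ⧸ N)), l ≠ 1 → ∀ w : W, φ l w = w → w = 1 := by
      rintro ⟨l, hl⟩ hl1 w hw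
      obtain ⟨x, rfl⟩ := QuotientGroup.mk_surjective l
      have hxN : x ∉ N := by
        intro h
        apply hl1
        apply Subtype.ext
        exact (QuotientGroup.eq_one_iff x).2 h
      have hxw : Commute x (w : G) := by
        have h1 : φ₀ x w = w := hw
        have h2 := congrArg Subtype.val h1
        rw [MulAut.conjNormal_apply] at h2
        exact mul_inv_eq_iff_eq_mul.1 h2
      obtain ⟨b, hb⟩ := Q.isPGroup' ⟨(x : G ⧸ N), hl⟩
      have hxb : x ^ (q ^ b) ∈ N := by
        have h1 := congrArg Subtype.val hb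
        rw [Subgroup.coe_pow, Subgroup.coe_one] at h1
        rw [← QuotientGroup.eq_one_iff]
        exact h1
      obtain ⟨a, m, hm, ham⟩ := Nat.exists_eq_pow_mul_and_not_dvd (orderOf_pos x).ne' q hq.ne_one
      have hm0 : m ≠ 0 := by
        rintro rfl
        exact hm (dvd_zero q)
      have ho : orderOf (x ^ m) = q ^ a := Cfsg.Agent.Lib.Helper7_Nilp.orderOf_pow_of_eq_mul ham hm0
      have hxm : x ^ m ∉ N := by
        intro h
        apply hxN
        exact Cfsg.Agent.Lib.Helper4_PSol.mem_of_pow_mem_coprime h hxb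
          (Nat.Coprime.pow_right _ ((Nat.Prime.coprime_iff_not_dvd hq).2 hm).symm)
      obtain ⟨c, hc⟩ := (IsPGroup.iff_orderOf.1 hWp) w
      apply Subtype.ext
      apply K2 N heq hxm (hWN w.2) (hxw.pow_left m)
      rw [ho, Subgroup.orderOf_coe, hc]
      exact Nat.Coprime.pow _ _ ((Nat.coprime_primes hq hr).2 hrq.symm)
    have hres := Cfsg.Agent.Lib.Helper1_FpfAct.pgroup_of_fpf φ hfpf (p := q) ⊤
      (Q.isPGroup'.to_subgroup ⊤)
    rcases hres with h | ⟨-, n, ⟨e⟩⟩
    · left
      exact (Subgroup.topEquiv).isCyclic.1 h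
    · right
      exact ⟨n, ⟨(Subgroup.topEquiv).symm.trans e⟩⟩

end Cfsg.Agent.S4155
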