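import Cfsg.Statements.S4160
import Cfsg.Agent.Lib.Helper1_ConjCover

set_option autoImplicit false
open Cfsg

namespace Cfsg.Agent.S4160

/-- Let G be a finite group and p ≠ q primes each dividing the size of some conjugacy class of G, such that no conjugacy class size is divisible by pq. Then G has a normal p-complement or a normal q-complement. -/
theorem result {G : Type*} [Group G] [Finite G] (p q : ℕ) (hp : p.Prime) (hq : q.Prime) (hpq : p ≠ q)
    (hp' : ∃ x : G, p ∣ (Subgroup.centralizer ({x} : Set G)).index) (hq' : ∃ x : G, q ∣ (Subgroup.centralizer ({x} : Set G)).index) (h : ∀ x : G, ¬ p * q ∣ (Subgroup.centralizer ({x} : Set G)).index) :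
    Cfsg.HasNormalPComplement p G ∨ Cfsg.HasNormalPComplement q G := by
  haveI := Fact.mk hp
  haveI := Fact.mk hq
  obtain ⟨P⟩ : Nonempty (Sylow p G) := inferInstance
  obtain ⟨Q⟩ : Nonempty (Sylow q G) := inferInstance
  have hcov : ∀ g : G, (∃ x : G, x⁻¹ * g * x ∈ Subgroup.centralizer ((P : Subgroup G) : Set G)) ∨
      ∃ x : G, x⁻¹ * g * x ∈ Subgroup.centralizer ((Q : Subgroup G) : Set G) := by
    intro g
    by_cases h1 : p ∣ (Subgroup.centralizer ({g} : Set G)).index
    · right
      apply Cfsg.Agent.Lib.Helper1_ConjCover.exists_conj_mem_centralizer Q g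
      intro h2
      exact h g (Nat.Coprime.mul_dvd_of_dvd_of_dvd ((Nat.coprime_primes hp hq).mpr hpq) h1 h2)
    · left
      exact Cfsg.Agent.Lib.Helper1_ConjCover.exists_conj_mem_centralizer P g h1
  have hnorm : ∀ (H : Subgroup G), Subgroup.normalizer (H : Set G) ≤
      Subgroup.normalizer ((Subgroup.centralizer (H : Set G) : Subgroup G) : Set G) := by
    intro H n hn
    rw [Subgroup.mem_normalizer_iff]
    intro c
    have hn' := Subgroup.mem_normalizer_iff.mp hn
    have hn'' := Subgroup.mem_normalizer_iff.mp (inv_mem hn)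
    constructor
    · intro hc
      rw [Subgroup.mem_centralizer_iff] at hc ⊢
      intro y hy
      have h1 : n⁻¹ * y * n⁻¹⁻¹ ∈ H := (hn'' y).mp hy
      have h2 := hc _ h1
      calc y * (n * c * n⁻¹) = n * ((n⁻¹ * y * n⁻¹⁻¹) * c) * n⁻¹ := by group
        _ = n * (c * (n⁻¹ * y * n⁻¹⁻¹)) * n⁻¹ := by rw [h2]
        _ = n * c * n⁻¹ * y := by group
    · intro hc
      rw [Subgroup.mem_centralizer_iff] at hc ⊢
      intro y hy
      have h1 : n * y * n⁻¹ ∈ H := (hn' y).mp hy
      have h2 := hc _ h1
      calc y * c = n⁻¹ * ((n * y * n⁻¹) * (n * c * n⁻¹)) * n := by group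
        _ = n⁻¹ * ((n * c * n⁻¹) * (n * y * n⁻¹)) * n := by rw [h2]
        _ = c * y := by group
  rcases Cfsg.Agent.Lib.Helper1_ConjCover.eq_or_eq_of_cover
    (Subgroup.centralizer ((P : Subgroup G) : Set G)) (Subgroup.normalizer ((P : Subgroup G) : Set G))
    (Subgroup.centralizer ((Q : Subgroup G) : Set G)) (Subgroup.normalizer ((Q : Subgroup G) : Set G))
    (Subgroup.centralizer_le_normalizer _) (Subgroup.centralizer_le_normalizer _)
    (hnorm _) (hnorm _) hcov with h1 | h1
  · left
    exact ⟨P, _, inferInstance, MonoidHom.ker_transferSylow_isComplement' P h1.ge⟩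
  · right
    exact ⟨Q, _, inferInstance, MonoidHom.ker_transferSylow_isComplement' Q h1.ge⟩

end Cfsg.Agent.S4160
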