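import Cfsg.Statements.S4168

import Cfsg.Agent.Lib.Helper7_Class
set_option autoImplicit false
open Cfsg

namespace Cfsg.Agent.S4168

open Cfsg.Agent.Lib.Helper7_Class
open scoped commutatorElement

/-- Let L be a finite quasisimple group (perfect with L/Z(L) simple). Then every prime dividing the order of the centre Z(L) also divides the order of L/Z(L). -/
theorem result {L : Type*} [Group L] [Finite L] (hL : Cfsg.IsQuasisimple L)
    (p : ℕ) (hp : p.Prime) (hdiv : p ∣ Nat.card (Subgroup.center L)) : p ∣ (Subgroup.center L).index := by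
  obtain ⟨hperf, hsimp⟩ := hL
  haveI : Fact p.Prime := ⟨hp⟩
  by_contra hnd
  obtain ⟨P⟩ : Nonempty (Sylow p L) := inferInstance
  have hPZ : (P : Subgroup L) ≤ Subgroup.center L := by
    intro x hx
    obtain ⟨k, hk⟩ := (IsPGroup.iff_orderOf.1 P.isPGroup') ⟨x, hx⟩
    rw [Subgroup.orderOf_mk] at hk
    apply mem_of_pow_mem_of_coprime _ x (a := p ^ k) (b := (Subgroup.center L).index)
    · exact Nat.Coprime.pow_left k ((Nat.Prime.coprime_iff_not_dvd hp).2 hnd)
    · rw [← hk, pow_orderOf_eq_one]; exact one_mem _
    · exact Subgroup.pow_index_mem _ x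
  have hNC : Subgroup.normalizer (P : Set L) ≤ Subgroup.centralizer (P : Set L) := by
    intro g _
    rw [Subgroup.mem_centralizer_iff]
    intro h hh
    exact ((Subgroup.mem_center_iff.1 (hPZ hh)) g).symm
  have hcompl := MonoidHom.ker_transferSylow_isComplement' P hNC
  have hker : (MonoidHom.transferSylow P hNC).ker = ⊤ := by
    rw [eq_top_iff, ← hperf.commutator_eq_top]
    apply Subgroup.commutator_le.2
    intro a _ b _
    rw [MonoidHom.mem_ker, commutatorElement_def, map_mul, map_mul, map_mul, map_inv, map_inv]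
    set u := MonoidHom.transferSylow P hNC a
    set v := MonoidHom.transferSylow P hNC b
    have huv : u * v = v * u := Subtype.ext ((Subgroup.mem_center_iff.1 (hPZ v.2)) u.1)
    rw [huv]; group
  rw [hker] at hcompl
  have hPbot : (P : Subgroup L) = ⊥ := Subgroup.isComplement'_top_left.1 hcompl
  have h1 := P.not_dvd_index
  rw [hPbot, Subgroup.index_bot] at h1
  exact h1 (hdiv.trans (Subgroup.card_subgroup_dvd_card _))

end Cfsg.Agent.S4168
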