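import Cfsg.Statements.S4177
import Mathlib

set_option autoImplicit false
open Cfsg

namespace Cfsg.Agent.S4177

section aux

variable {k V H : Type*} [Field k] [AddCommGroup V] [Module k V] [Group H]

/-- the stabilizer of a vector. -/
def St (ρ : Representation k H V) (a : V) : Subgroup H where
  carrier := {h | ρ h a = a}
  one_mem' := by simp
  mul_mem' := by
    intro x y hx hy
    simp only [Set.mem_setOf_eq] at hx hy ⊢
    rw [map_mul, Module.End.mul_apply, hy, hx]
  inv_mem' := by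
    intro x hx
    simp only [Set.mem_setOf_eq] at hx ⊢
    calc ρ x⁻¹ a = ρ x⁻¹ (ρ x a) := by rw [hx]
      _ = (ρ x⁻¹ * ρ x) a := rfl
      _ = a := by rw [← map_mul]; simp

theorem orbL [Finite H] (ρ : Representation k H V) (B : Subgroup H) (a : V) :
    Nat.card ({u : V | ∃ n ∈ B, ρ n a = u} : Set V) * Nat.card ↥(B ⊓ St ρ a) = Nat.card B := by
  classical
  choose r hrN hr using fun t : ({u : V | ∃ n ∈ B, ρ n a = u} : Set V) =>
    (t.2 : ∃ n ∈ B, ρ n a = t.1)
  have hc : ∀ c : ↥(B ⊓ St ρ a), ρ (c : H) a = a := fun c => c.2.2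
  rw [← Nat.card_prod]
  refine Nat.card_congr (Equiv.ofBijective
    (fun tc => (⟨r tc.1 * tc.2, B.mul_mem (hrN _) tc.2.2.1⟩ : B)) ⟨?_, ?_⟩)
  · rintro ⟨t, c⟩ ⟨t', c'⟩ h
    have h1 : r t * (c : H) = r t' * (c' : H) := congrArg Subtype.val h
    have h2 : (t : V) = t' := by
      rw [← hr t, ← hr t']
      calc ρ (r t) a = ρ (r t) (ρ (c : H) a) := by rw [hc]
        _ = ρ (r t * c) a := by rw [map_mul]; rfl
        _ = ρ (r t' * c') a := by rw [h1]
        _ = ρ (r t') (ρ (c' : H) a) := by rw [map_mul]; rfl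
        _ = _ := by rw [hc]
    have h3 : t = t' := Subtype.ext h2
    subst h3
    have h4 : c = c' := Subtype.ext (mul_left_cancel h1)
    rw [h4]
  · intro n
    let t : ({u : V | ∃ n ∈ B, ρ n a = u} : Set V) := ⟨ρ n a, n, n.2, rfl⟩
    refine ⟨(t, ⟨(r t)⁻¹ * n, B.mul_mem (B.inv_mem (hrN t)) n.2, ?_⟩), ?_⟩
    · show ρ ((r t)⁻¹ * n) a = a
      have h5 : ρ (r t) a = ρ (n : H) a := hr t
      rw [map_mul, Module.End.mul_apply, ← h5, ← Module.End.mul_apply, ← map_mul]
      simp
    · apply Subtype.ext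
      show r t * ((r t)⁻¹ * n) = n
      group

theorem inner_sum (ρ : Representation k H V) (a : V) (B : Subgroup H) [Fintype B]
    (htr : ∀ h : H, ∃ β ∈ B, ρ h a = ρ β a) (h : H) :
    ∑ β : B, ρ (β : H) (ρ h a) = ∑ β : B, ρ (β : H) a := by
  obtain ⟨β0, hβ0, h0⟩ := htr h
  rw [h0]
  refine Fintype.sum_equiv (Equiv.mulRight (⟨β0, hβ0⟩ : B)) _ _ ?_
  intro β
  show ρ (β : H) (ρ β0 a) = ρ ((β * ⟨β0, hβ0⟩ : B) : H) a
  rw [Subgroup.coe_mul, map_mul]; rfl

theorem genLem (ρ : Representation k H V) (a : V)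
    (hspan : Submodule.span k {u : V | ∃ h : H, ρ h a = u} = ⊤) (B : Subgroup H) [Fintype B]
    (htr : ∀ h : H, ∃ β ∈ B, ρ h a = ρ β a) (hB : (Nat.card B : k) ≠ 0) (w : V)
    (hw : ∀ β ∈ B, ρ β w = w) : w ∈ Submodule.span k {∑ β : B, ρ (β : H) a} := by
  set s := ∑ β : B, ρ (β : H) a with hs
  let E : V →ₗ[k] V := ∑ β : B, ρ (β : H)
  have hE : ∀ v, E v = ∑ β : B, ρ (β : H) v := fun v => by simp [E, LinearMap.sum_apply]
  have h1 : ∀ h : H, E (ρ h a) = s := by
    intro h
    rw [hE, inner_sum ρ a B htr h]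
  have h2 : (⊤ : Submodule k V) ≤ (Submodule.span k {s}).comap E := by
    rw [← hspan, Submodule.span_le]
    rintro u ⟨h, rfl⟩
    show E (ρ h a) ∈ Submodule.span k {s}
    rw [h1]
    exact Submodule.mem_span_singleton_self s
  have h3 : E w ∈ Submodule.span k {s} := h2 (Submodule.mem_top)
  have h4 : E w = (Nat.card B : k) • w := by
    rw [hE, Finset.sum_congr rfl (fun (β : B) _ => hw β β.2), Finset.sum_const, Finset.card_univ,
      Nat.card_eq_fintype_card, Nat.cast_smul_eq_nsmul]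
  rw [h4] at h3
  have := Submodule.smul_mem _ ((Nat.card B : k)⁻¹) h3
  rwa [smul_smul, inv_mul_cancel₀ hB, one_smul] at this

end aux


/-- Let k be a field whose characteristic does not divide the order of the finite group H (for instance a field of characteristic zero), and ρ a k-linear representation of H on V. Let a be a vector whose H-orbit spans V. Then the space of H-fixed vectors has dimension at most 1, and every vector b whose H-orbit has size coprime to the size of the orbit of a is fixed by H. -/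
theorem result {k V H : Type*} [Field k] [AddCommGroup V] [Module k V] [Group H] [Finite H]
    (hchar : ¬ ringChar k ∣ Nat.card H) (ρ : Representation k H V) (a : V)
    (hspan : Submodule.span k {u : V | ∃ h : H, ρ h a = u} = ⊤) :
    Module.finrank k ρ.invariants ≤ 1 ∧
    ∀ b : V, (Nat.card {u : V | ∃ h : H, ρ h a = u}).Coprime (Nat.card {u : V | ∃ h : H, ρ h b = u}) → ∀ h : H, ρ h b = b := by
  classical
  have := Fintype.ofFinite H
  have hH : (Nat.card H : k) ≠ 0 := fun h => hchar ((ringChar.spec k _).mp h)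
  refine ⟨?_, ?_⟩
  · have h1 : ρ.invariants ≤ Submodule.span k {∑ β : (⊤ : Subgroup H), ρ (β : H) a} := by
      intro w hw
      exact genLem ρ a hspan ⊤ (fun h => ⟨h, Subgroup.mem_top _, rfl⟩)
        (by rw [Subgroup.card_top]; exact hH) w
        (fun β _ => (Representation.mem_invariants ρ w).mp hw β)
    exact (Submodule.finrank_mono h1).trans ((finrank_span_le_card _).trans (by simp))
  · intro b hcop
    have hset : ∀ c : V, ({u : V | ∃ n ∈ (⊤ : Subgroup H), ρ n c = u} : Set V) =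
        {u | ∃ h : H, ρ h c = u} := by intro c; ext u; simp
    have e1 := orbL ρ ⊤ a
    have e2 := orbL ρ ⊤ b
    have e3 := orbL ρ (St ρ b) a
    rw [hset, top_inf_eq, Subgroup.card_top] at e1 e2
    obtain ⟨j, hj⟩ : Nat.card ↥(St ρ b ⊓ St ρ a) ∣ Nat.card (St ρ a) :=
      Subgroup.card_dvd_of_le inf_le_right
    have hpos : 0 < Nat.card ↥(St ρ b ⊓ St ρ a) := Nat.card_pos
    set ma := Nat.card {u : V | ∃ h : H, ρ h a = u} with hma
    set mb := Nat.card {u : V | ∃ h : H, ρ h b = u} with hmb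
    set o := Nat.card ({u : V | ∃ n ∈ St ρ b, ρ n a = u} : Set V) with ho
    have h5 : ma * j = mb * o := by
      refine Nat.eq_of_mul_eq_mul_left hpos ?_
      calc Nat.card ↥(St ρ b ⊓ St ρ a) * (ma * j) = ma * (Nat.card ↥(St ρ b ⊓ St ρ a) * j) := by ring
        _ = mb * (o * Nat.card ↥(St ρ b ⊓ St ρ a)) := by rw [← hj, e1, e3, e2]
        _ = _ := by ring
    have hdvd : ma ∣ o := hcop.dvd_of_dvd_mul_left ⟨j, h5.symm⟩
    have hopos : 0 < o := by
      rcases Nat.eq_zero_or_pos o with h0 | h0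
      · rw [h0, zero_mul] at e3
        exact absurd e3.symm (Nat.card_pos).ne'
      · exact h0
    have hle : ma ≤ o := Nat.le_of_dvd hopos hdvd
    have hsub : ({u : V | ∃ n ∈ St ρ b, ρ n a = u} : Set V) ⊆ {u | ∃ h : H, ρ h a = u} := by
      rintro u ⟨n, -, rfl⟩; exact ⟨n, rfl⟩
    have heq := Set.eq_of_subset_of_ncard_le hsub
      (by rw [← Nat.card_coe_set_eq, ← Nat.card_coe_set_eq]; exact hle)
      (Set.finite_range (fun h : H => ρ h a))
    have htr : ∀ h : H, ∃ β ∈ St ρ b, ρ h a = ρ β a := by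
      intro h
      have h6 : ρ h a ∈ ({u : V | ∃ n ∈ St ρ b, ρ n a = u} : Set V) := by
        rw [heq]; exact ⟨h, rfl⟩
      obtain ⟨n, hn, h'⟩ := h6
      exact ⟨n, hn, h'.symm⟩
    have hBk : (Nat.card (St ρ b) : k) ≠ 0 := by
      intro h0
      apply hH
      rw [← e2]
      push_cast
      rw [h0, mul_zero]
    have hb := genLem ρ a hspan (St ρ b) htr hBk b (fun β hβ => hβ)
    obtain ⟨c, hc⟩ := Submodule.mem_span_singleton.mp hb
    have hsH : ∀ g : H, ρ g (∑ h : H, ρ h a) = ∑ h : H, ρ h a := by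
      intro g
      rw [map_sum]
      exact Fintype.sum_equiv (Equiv.mulLeft g) _ _ (fun h => by
        show ρ g (ρ h a) = ρ (g * h) a
        rw [map_mul]; rfl)
    have hrel : (Nat.card (St ρ b) : k) • (∑ h : H, ρ h a) =
        (Nat.card H : k) • (∑ β : St ρ b, ρ (β : H) a) := by
      have h1 : ∑ h : H, ∑ β : St ρ b, ρ (β:H) (ρ h a) =
          (Nat.card H : k) • (∑ β : St ρ b, ρ (β : H) a) := by
        rw [Finset.sum_congr rfl (fun h _ => inner_sum ρ a (St ρ b) htr h), Finset.sum_const,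
          Finset.card_univ, Nat.card_eq_fintype_card, Nat.cast_smul_eq_nsmul]
      have h2 : ∑ h : H, ∑ β : St ρ b, ρ (β:H) (ρ h a) =
          (Nat.card (St ρ b) : k) • (∑ h : H, ρ h a) := by
        rw [Finset.sum_comm]
        have h3 : ∀ β : St ρ b, ∑ h : H, ρ (β:H) (ρ h a) = ∑ h : H, ρ h a := by
          intro β
          rw [← map_sum]; exact hsH β
        rw [Finset.sum_congr rfl (fun β _ => h3 β), Finset.sum_const, Finset.card_univ,
          Nat.card_eq_fintype_card, Nat.cast_smul_eq_nsmul]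
      rw [← h2, h1]
    have hs : ∀ g : H, ρ g (∑ β : St ρ b, ρ (β : H) a) = ∑ β : St ρ b, ρ (β : H) a := by
      intro g
      have h1 : (Nat.card H : k) • ρ g (∑ β : St ρ b, ρ (β : H) a) =
          (Nat.card H : k) • (∑ β : St ρ b, ρ (β : H) a) := by
        rw [← map_smul, ← hrel, map_smul, hsH]
      exact smul_right_injective V hH h1
    intro h
    rw [← hc, map_smul, hs]

end Cfsg.Agent.S4177
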