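import Cfsg.Statements.S4178
import Mathlib

set_option autoImplicit false
open Cfsg

namespace Cfsg.Agent.S4178

theorem index_le_of_map {H α : Type*} [Group H] (K : Subgroup H) [Finite α] (φ : H → α)
    (hφ : ∀ a b, φ a = φ b → a⁻¹ * b ∈ K) : K.index ≤ Nat.card α := by
  rw [Subgroup.index]
  apply Nat.card_le_card_of_injective (fun q : H ⧸ K => φ (Quotient.out q))
  intro q q' h
  have h1 := hφ _ _ h
  have h2 : (QuotientGroup.mk (Quotient.out q) : H ⧸ K) = QuotientGroup.mk (Quotient.out q') :=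
    QuotientGroup.eq.mpr h1
  have e1 : (QuotientGroup.mk (Quotient.out q) : H ⧸ K) = q := Quotient.out_eq' q
  have e2 : (QuotientGroup.mk (Quotient.out q') : H ⧸ K) = q' := Quotient.out_eq' q'
  rw [← e1, ← e2, h2]

theorem card_ne_zero' {F U : Type*} [Field F] [Fintype F] [AddCommGroup U] [Module F U]
    [FiniteDimensional F U] :
    Finite {x : U // x ≠ 0} ∧ Nat.card {x : U // x ≠ 0} = Fintype.card F ^ Module.finrank F U - 1 := by
  classical
  have hfin : Finite U := Module.finite_of_finite F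
  have := Fintype.ofFinite U
  refine ⟨inferInstance, ?_⟩
  have h1 := Set.card_ne_eq (0 : U)
  have h2 : Nat.card U = Fintype.card F ^ Module.finrank F U := by
    rw [Module.natCard_eq_pow_finrank (K := F), Nat.card_eq_fintype_card]
  rw [← h2, Nat.card_eq_fintype_card, Nat.card_eq_fintype_card, ← h1]
  rfl


/-- Let F be a finite field with q elements, V a non-zero finite-dimensional F-space of dimension d, H a group of invertible linear maps of V, and R the subgroup of H generated by the elements of H that fix some non-zero vector (have eigenvalue 1). Then the index of R in H is at most q^d − 1; and if H leaves invariant some proper non-zero subspace, the index is at most q^(d/2) − 1. -/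
theorem result {F V : Type*} [Field F] [Fintype F] [AddCommGroup V] [Module F V] [FiniteDimensional F V] [Nontrivial V]
    (H : Subgroup (V ≃ₗ[F] V)) :
    (Subgroup.closure {h : ↥H | ∃ v : V, v ≠ 0 ∧ (h : V ≃ₗ[F] V) v = v}).index ≤ Fintype.card F ^ Module.finrank F V - 1 ∧
    ((∃ W : Submodule F V, W ≠ ⊥ ∧ W ≠ ⊤ ∧ ∀ h ∈ H, ∀ w ∈ W, h w ∈ W) →
      ((Subgroup.closure {h : ↥H | ∃ v : V, v ≠ 0 ∧ (h : V ≃ₗ[F] V) v = v}).index : ℝ) ≤ Real.sqrt ((Fintype.card F : ℝ) ^ Module.finrank F V) - 1) := by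
  classical
  set R := Subgroup.closure {h : ↥H | ∃ v : V, v ≠ 0 ∧ (h : V ≃ₗ[F] V) v = v} with hR
  have hmemR : ∀ c : ↥H, (∃ v : V, v ≠ 0 ∧ (c : V ≃ₗ[F] V) v = v) → c ∈ R :=
    fun c hc => Subgroup.subset_closure hc
  have hfinV : Finite V := Module.finite_of_finite F
  have hq1 : 1 ≤ Fintype.card F := Fintype.card_pos
  constructor
  · obtain ⟨v, hv⟩ := exists_ne (0 : V)
    obtain ⟨hf, hc⟩ := card_ne_zero' (F := F) (U := V)
    rw [← hc]
    refine index_le_of_map R (fun h : ↥H => (⟨(h : V ≃ₗ[F] V) v, by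
      intro h0
      exact hv ((LinearEquiv.map_eq_zero_iff _).mp h0)⟩ : {x : V // x ≠ 0})) ?_
    intro a b hab
    apply hmemR
    refine ⟨v, hv, ?_⟩
    have h1 : (a : V ≃ₗ[F] V) v = (b : V ≃ₗ[F] V) v := congrArg Subtype.val hab
    show ((a : V ≃ₗ[F] V)⁻¹ * (b : V ≃ₗ[F] V)) v = v
    rw [LinearEquiv.mul_apply, ← h1]
    exact (a : V ≃ₗ[F] V).symm_apply_apply v
  · rintro ⟨W, hW0, hW1, hinv⟩
    -- it suffices to bound by `q ^ k - 1` with `2 * k ≤ d`
    have hred : ∀ k : ℕ, 2 * k ≤ Module.finrank F V → R.index ≤ Fintype.card F ^ k - 1 →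
        (R.index : ℝ) ≤ Real.sqrt ((Fintype.card F : ℝ) ^ Module.finrank F V) - 1 := by
      intro k hk hle
      have h1 : (1 : ℕ) ≤ Fintype.card F ^ k := Nat.one_le_pow _ _ hq1
      have h2 : ((Fintype.card F ^ k - 1 : ℕ) : ℝ) = (Fintype.card F : ℝ) ^ k - 1 := by
        rw [Nat.cast_sub h1]; push_cast; ring
      have h3 : (R.index : ℝ) ≤ (Fintype.card F : ℝ) ^ k - 1 := by
        rw [← h2]; exact_mod_cast hle
      have h4 : (Fintype.card F : ℝ) ^ k ≤ Real.sqrt ((Fintype.card F : ℝ) ^ Module.finrank F V) := by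
        apply Real.le_sqrt_of_sq_le
        rw [← pow_mul, mul_comm]
        exact pow_le_pow_right₀ (by exact_mod_cast hq1) hk
      linarith
    by_cases hcase : 2 * Module.finrank F W ≤ Module.finrank F V
    · apply hred _ hcase
      obtain ⟨w, hwW, hw0⟩ := (Submodule.ne_bot_iff W).mp hW0
      obtain ⟨hf, hc⟩ := card_ne_zero' (F := F) (U := W)
      rw [← hc]
      refine index_le_of_map R (fun h : ↥H => (⟨⟨(h : V ≃ₗ[F] V) w, hinv h h.2 w hwW⟩, by
        intro h0
        have h1 : (h : V ≃ₗ[F] V) w = 0 := congrArg Subtype.val h0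
        exact hw0 ((LinearEquiv.map_eq_zero_iff _).mp h1)⟩ : {x : W // x ≠ 0})) ?_
      intro a b hab
      apply hmemR
      refine ⟨w, hw0, ?_⟩
      have h1 : (a : V ≃ₗ[F] V) w = (b : V ≃ₗ[F] V) w :=
        congrArg (fun x : {x : W // x ≠ 0} => ((x : W) : V)) hab
      show ((a : V ≃ₗ[F] V)⁻¹ * (b : V ≃ₗ[F] V)) w = w
      rw [LinearEquiv.mul_apply, ← h1]
      exact (a : V ≃ₗ[F] V).symm_apply_apply w
    · have hdim := Submodule.finrank_quotient_add_finrank W
      apply hred (Module.finrank F (V ⧸ W)) (by omega)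
      obtain ⟨v, hvW⟩ : ∃ v : V, v ∉ W := by
        by_contra hall
        push Not at hall
        exact hW1 (eq_top_iff.mpr fun x _ => hall x)
      obtain ⟨hf, hc⟩ := card_ne_zero' (F := F) (U := V ⧸ W)
      rw [← hc]
      have hinv' : ∀ h : ↥H, ∀ x : V, (h : V ≃ₗ[F] V) x ∈ W → x ∈ W := by
        intro h x hx
        have h1 := hinv (h⁻¹ : ↥H) (h⁻¹ : ↥H).2 _ hx
        have h2 : ((h⁻¹ : ↥H) : V ≃ₗ[F] V) ((h : V ≃ₗ[F] V) x) = x :=
          (h : V ≃ₗ[F] V).symm_apply_apply x
        rwa [h2] at h1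
      refine index_le_of_map R (fun h : ↥H => (⟨Submodule.Quotient.mk ((h : V ≃ₗ[F] V) v), by
        intro h0
        rw [Submodule.Quotient.mk_eq_zero] at h0
        exact hvW (hinv' h v h0)⟩ : {x : V ⧸ W // x ≠ 0})) ?_
      intro a b hab
      apply hmemR
      have h1 : (Submodule.Quotient.mk ((a : V ≃ₗ[F] V) v) : V ⧸ W) =
          Submodule.Quotient.mk ((b : V ≃ₗ[F] V) v) := congrArg Subtype.val hab
      rw [Submodule.Quotient.eq] at h1
      set c : ↥H := a⁻¹ * b with hc'
      have hcv : (c : V ≃ₗ[F] V) v - v ∈ W := by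
        apply hinv' a
        have e : (a : V ≃ₗ[F] V) ((c : V ≃ₗ[F] V) v - v) =
            (b : V ≃ₗ[F] V) v - (a : V ≃ₗ[F] V) v := by
          rw [map_sub]
          congr 1
          show (a : V ≃ₗ[F] V) (((a : V ≃ₗ[F] V)⁻¹ * (b : V ≃ₗ[F] V)) v) = _
          rw [LinearEquiv.mul_apply]
          exact (a : V ≃ₗ[F] V).apply_symm_apply _
        rw [e, ← neg_sub]
        exact W.neg_mem h1
      by_contra hno
      push Not at hno
      have hfinW : Finite W := Module.finite_of_finite F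
      let g : W → W := fun w => ⟨(c : V ≃ₗ[F] V) w - w, W.sub_mem (hinv c c.2 w w.2) w.2⟩
      have hginj : Function.Injective g := by
        intro w w' hww
        have h2 : (c : V ≃ₗ[F] V) (w : V) - w = (c : V ≃ₗ[F] V) (w' : V) - w' :=
          congrArg Subtype.val hww
        by_contra hne
        have h3 : (w : V) - w' ≠ 0 := fun h => hne (Subtype.ext (sub_eq_zero.mp h))
        apply hno _ h3
        rw [map_sub]
        have : (c : V ≃ₗ[F] V) (w : V) - (c : V ≃ₗ[F] V) (w' : V) - ((w : V) - w') =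
            ((c : V ≃ₗ[F] V) (w : V) - w) - ((c : V ≃ₗ[F] V) (w' : V) - w') := by abel
        exact sub_eq_zero.mp (by rw [this, h2, sub_self])
      obtain ⟨w, hw⟩ := (Finite.injective_iff_surjective.mp hginj) ⟨_, hcv⟩
      have h4 : (c : V ≃ₗ[F] V) (w : V) - w = (c : V ≃ₗ[F] V) v - v := congrArg Subtype.val hw
      have h5 : v - (w : V) ≠ 0 := by
        intro h
        apply hvW
        rw [sub_eq_zero.mp h]
        exact w.2
      apply hno _ h5
      rw [map_sub]
      have : (c : V ≃ₗ[F] V) v - (c : V ≃ₗ[F] V) (w : V) - (v - (w : V)) =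
          ((c : V ≃ₗ[F] V) v - v) - ((c : V ≃ₗ[F] V) (w : V) - w) := by abel
      exact sub_eq_zero.mp (by rw [this, h4, sub_self])

end Cfsg.Agent.S4178
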