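import Cfsg.Statements.S4182
import Cfsg.Agent.Lib.Helper7_Class
import Cfsg.Agent.Lib.Helper7_TI

set_option autoImplicit false
open Cfsg

namespace Cfsg.Agent.S4182

open Pointwise

universe u v

/-- `H` is generated by its `p`-elements. -/
def Gen (p : ℕ) {G : Type u} [Group G] (H : Subgroup G) : Prop :=
  Subgroup.closure {g : G | g ∈ H ∧ ∃ k : ℕ, orderOf g = p ^ k} = H

theorem gen_top_sub {p : ℕ} {G : Type u} [Group G] {H : Subgroup G} (h : Gen p H) :
    Subgroup.closure {g : ↥H | ∃ k : ℕ, orderOf g = p ^ k} = ⊤ := by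
  apply Subgroup.map_injective H.subtype_injective
  rw [MonoidHom.map_closure, ← MonoidHom.range_eq_map, Subgroup.range_subtype]
  conv_rhs => rw [← h]
  congr 1
  ext x
  constructor
  · rintro ⟨y, ⟨k, hk⟩, rfl⟩
    exact ⟨y.2, k, by rw [← hk]; exact Subgroup.orderOf_coe y⟩
  · rintro ⟨hx, k, hk⟩
    exact ⟨⟨x, hx⟩, ⟨k, by rw [← hk]; exact (Subgroup.orderOf_coe (⟨x, hx⟩ : ↥H)).symm⟩, rfl⟩

theorem gen_sup {p : ℕ} {G : Type u} [Group G] {H H' : Subgroup G} (h : Gen p H) (h' : Gen p H') :
    Gen p (H ⊔ H') := by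
  apply le_antisymm
  · rw [Subgroup.closure_le]
    intro x hx
    exact hx.1
  · apply sup_le
    · conv_lhs => rw [← h]
      exact Subgroup.closure_mono fun x hx => ⟨le_sup_left (a := H) hx.1, hx.2⟩
    · conv_lhs => rw [← h']
      exact Subgroup.closure_mono fun x hx => ⟨le_sup_right (b := H') hx.1, hx.2⟩

theorem gen_smul {p : ℕ} {G : Type u} [Group G] {H : Subgroup G} (h : Gen p H) (a : MulAut G) :
    Gen p (a • H) := by
  apply le_antisymm
  · rw [Subgroup.closure_le]
    intro x hx
    exact hx.1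
  · have e : a • H = Subgroup.map (a : G ≃* G).toMonoidHom H := rfl
    rw [e]
    conv_lhs => rw [← h, MonoidHom.map_closure]
    apply Subgroup.closure_mono
    rintro _ ⟨x, ⟨hx, k, hk⟩, rfl⟩
    refine ⟨⟨x, hx, rfl⟩, k, ?_⟩
    rw [← hk]
    exact MulEquiv.orderOf_eq a x

theorem gen_of_isPGroup {p : ℕ} [Fact p.Prime] {G : Type u} [Group G] {H : Subgroup G}
    (h : IsPGroup p H) : Gen p H := by
  apply le_antisymm
  · rw [Subgroup.closure_le]
    intro x hx
    exact hx.1
  · intro x hx
    apply Subgroup.subset_closure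
    obtain ⟨k, hk⟩ := IsPGroup.iff_orderOf.mp h ⟨x, hx⟩
    exact ⟨hx, k, by rw [← hk]; exact Subgroup.orderOf_coe (⟨x, hx⟩ : ↥H)⟩

theorem mem_normalizer_of_smul_eq {G : Type u} [Group G] {M : Subgroup G} {g : G}
    (h : MulAut.conj g • M = M) : g ∈ Subgroup.normalizer (M : Set G) := by
  rw [Subgroup.mem_normalizer_iff]
  intro x
  have h1 : g * x * g⁻¹ = MulAut.conj g • x := rfl
  rw [h1]
  conv_rhs => rw [← h]
  exact Subgroup.smul_mem_pointwise_smul_iff.symm

theorem ne_top_of_isPGroup {p : ℕ} {G : Type u} [Group G] (hpg : ¬ IsPGroup p G) {H : Subgroup G}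
    (h : IsPGroup p H) : H ≠ ⊤ := by
  intro e
  apply hpg
  rw [e] at h
  exact h.of_equiv Subgroup.topEquiv

theorem pgroup_case {p : ℕ} [hp : Fact p.Prime] {G : Type u} [Group G] [Finite G]
    (hpg : IsPGroup p G) {ι : Type v} [Fintype ι] (K : ι → Subgroup G) (hK : ∀ i, K i ≠ ⊤)
    (hcov : ∀ g : G, ∃ i, g ∈ K i) : p + 1 ≤ Fintype.card ι := by
  classical
  haveI := Fintype.ofFinite G
  by_contra hlt
  have hn : Fintype.card ι ≤ p := by omega
  obtain ⟨a, ha⟩ := IsPGroup.iff_card.mp hpg
  have h1 : ∀ i, p * Nat.card (K i) ≤ Nat.card G := by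
    intro i
    have h2 : (K i).index ∣ p ^ a := ha ▸ Subgroup.index_dvd_card (K i)
    obtain ⟨j, -, hj⟩ := (Nat.dvd_prime_pow hp.out).mp h2
    have h3 : p ∣ (K i).index := by
      rw [hj]
      rcases j with _ | j
      · exfalso
        rw [pow_zero, Subgroup.index_eq_one] at hj
        exact hK i hj
      · exact dvd_pow_self p (Nat.succ_ne_zero j)
    have h4 : p ≤ (K i).index := Nat.le_of_dvd (Nat.pos_of_ne_zero (Subgroup.index_ne_zero_of_finite)) h3
    rw [← Subgroup.card_mul_index (K i), mul_comm]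
    exact Nat.mul_le_mul_left _ h4
  have h5 : (Finset.univ.erase (1 : G)) ⊆
      Finset.univ.biUnion (fun i => (Finset.univ.filter (fun g : G => g ∈ K i)).erase 1) := by
    intro g hg
    obtain ⟨i, hi⟩ := hcov g
    rw [Finset.mem_biUnion]
    refine ⟨i, Finset.mem_univ _, ?_⟩
    rw [Finset.mem_erase]
    exact ⟨(Finset.mem_erase.mp hg).1, by simpa using hi⟩
  have h6 := (Finset.card_le_card h5).trans Finset.card_biUnion_le
  rw [Finset.card_erase_of_mem (Finset.mem_univ _), Finset.card_univ, ← Nat.card_eq_fintype_card]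
    at h6
  have h7 : ∀ i, ((Finset.univ.filter (fun g : G => g ∈ K i)).erase 1).card = Nat.card (K i) - 1 := by
    intro i
    rw [Finset.card_erase_of_mem (by simp [one_mem]), Nat.card_eq_fintype_card,
      Fintype.card_subtype]
  simp only [h7] at h6
  obtain ⟨i₀, -⟩ := hcov 1
  have h8 : p ≤ Nat.card G := by
    have := h1 i₀
    have h9 : 0 < Nat.card (K i₀) := Nat.card_pos
    nlinarith
  have h10 : ∀ i, p * (Nat.card (K i) - 1) ≤ Nat.card G - p := by
    intro i
    rw [Nat.mul_sub, mul_one]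
    exact Nat.sub_le_sub_right (h1 i) p
  have h11 : p * (Nat.card G - 1) ≤ p * (Nat.card G - p) := by
    calc p * (Nat.card G - 1) ≤ p * ∑ i, (Nat.card (K i) - 1) := Nat.mul_le_mul_left _ h6
      _ = ∑ i, p * (Nat.card (K i) - 1) := Finset.mul_sum _ _ _
      _ ≤ ∑ _i : ι, (Nat.card G - p) := Finset.sum_le_sum fun i _ => h10 i
      _ = Fintype.card ι * (Nat.card G - p) := by simp
      _ ≤ p * (Nat.card G - p) := Nat.mul_le_mul_right _ hn
  have h12 := Nat.le_of_mul_le_mul_left h11 hp.out.pos
  have := hp.out.two_le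
  omega

theorem main (p : ℕ) [hp : Fact p.Prime] {ι : Type v} [Fintype ι] : ∀ (n : ℕ) (G : Type u) [Group G]
    [Finite G], Nat.card G = n →
    Subgroup.closure {g : G | ∃ k : ℕ, orderOf g = p ^ k} = ⊤ →
    ∀ (K : ι → Subgroup G), (∀ i, K i ≠ ⊤) →
    (∀ g : G, (∃ k : ℕ, orderOf g = p ^ k) → ∃ i, g ∈ K i) → p + 1 ≤ Fintype.card ι := by
  intro n
  induction n using Nat.strong_induction_on with
  | _ n ih =>
  intro G _ _ hn hgen K hK hcov
  by_cases hpg : IsPGroup p G
  · exact pgroup_case hpg K hK (fun g => hcov g (IsPGroup.iff_orderOf.mp hpg g))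
  by_contra hlt
  have key : ∀ H : Subgroup G, H ≠ ⊤ → Gen p H → ∃ i, H ≤ K i := by
    intro H hH hg
    by_contra hno
    push Not at hno
    apply hlt
    have hc : Nat.card H < n := by
      rw [← hn]
      exact lt_of_le_of_ne (Subgroup.card_le_card_group H) (fun h => hH (Subgroup.eq_top_of_card_eq H h))
    refine ih (Nat.card H) hc ↥H rfl (gen_top_sub hg) (fun i => (K i).subgroupOf H) ?_ ?_
    · intro i h
      rw [Subgroup.subgroupOf_eq_top] at h
      exact hno i h
    · rintro g ⟨k, hk⟩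
      obtain ⟨i, hi⟩ := hcov g ⟨k, by rw [← hk]; exact Subgroup.orderOf_coe g⟩
      exact ⟨i, Subgroup.mem_subgroupOf.mpr hi⟩
  set MM : Set (Subgroup G) := {H | H ≠ ⊤ ∧ Gen p H} with hMM
  have hsmul : ∀ (a : MulAut G) (H : Subgroup G), H ∈ MM → a • H ∈ MM := by
    intro a H hH
    refine ⟨?_, gen_smul hH.2 a⟩
    intro e
    apply hH.1
    rw [eq_top_iff] at e ⊢
    rw [Subgroup.subset_pointwise_smul_iff] at e
    refine le_trans ?_ e
    intro x _
    rw [Subgroup.mem_pointwise_smul_iff_inv_smul_mem]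
    exact Subgroup.mem_top _
  have hmaxsmul : ∀ (a : MulAut G) (M : Subgroup G), Maximal (· ∈ MM) M → Maximal (· ∈ MM) (a • M) := by
    intro a M hM
    refine ⟨hsmul a M hM.1, ?_⟩
    intro H hH hle
    rw [Subgroup.pointwise_smul_subset_iff] at hle
    have := hM.2 (hsmul a⁻¹ H hH) hle
    rwa [← Subgroup.subset_pointwise_smul_iff] at this
  have hinj : ∀ (M M' : Subgroup G) (i : ι), Maximal (· ∈ MM) M → Maximal (· ∈ MM) M' → M ≤ K i →
      M' ≤ K i → M = M' := by
    intro M M' i hM hM' h1 h2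
    have h3 : M ⊔ M' ∈ MM := by
      refine ⟨?_, gen_sup hM.1.2 hM'.1.2⟩
      intro e
      apply hK i
      rw [eq_top_iff, ← e]
      exact sup_le h1 h2
    exact le_antisymm (le_sup_left.trans (hM'.2 h3 le_sup_right))
      (le_sup_right.trans (hM.2 h3 le_sup_left))
  obtain ⟨P⟩ : Nonempty (Sylow p G) := inferInstance
  obtain ⟨M₀, hPM, hmax⟩ := (Set.toFinite MM).exists_le_maximal
    (show (P : Subgroup G) ∈ MM from ⟨ne_top_of_isPGroup hpg P.isPGroup', gen_of_isPGroup P.isPGroup'⟩)
  have claim : ∀ w : G, (∃ k : ℕ, orderOf w = p ^ k) → w ∈ Subgroup.normalizer (M₀ : Set G) := by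
    rintro w ⟨k, hk⟩
    by_contra hw
    have hz : IsPGroup p (Subgroup.zpowers w) := IsPGroup.of_card (n := k) (by rw [Nat.card_zpowers, hk])
    obtain ⟨Mw, hwM, hmaxw⟩ := (Set.toFinite MM).exists_le_maximal
      (show Subgroup.zpowers w ∈ MM from ⟨ne_top_of_isPGroup hpg hz, gen_of_isPGroup hz⟩)
    have hwMw : w ∈ Mw := hwM (Subgroup.mem_zpowers w)
    let L : Option (Fin p) → Subgroup G := fun j =>
      match j with
      | none => Mw
      | some j => MulAut.conj (w ^ (j : ℕ)) • M₀
    have hL : ∀ j, Maximal (· ∈ MM) (L j) := by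
      intro j
      cases j with
      | none => exact hmaxw
      | some j => exact hmaxsmul _ _ hmax
    have hch : ∀ j, ∃ i, L j ≤ K i := fun j => key _ (hL j).1.1 (hL j).1.2
    choose f hf using hch
    have hd1 : ∀ a d : ℕ, 0 < d → d < p →
        MulAut.conj (w ^ (a + d)) • M₀ ≠ MulAut.conj (w ^ a) • M₀ := by
      intro a d hd0 hdp e
      rw [pow_add, map_mul, mul_smul] at e
      have e2 := smul_left_cancel _ e
      have h1 := mem_normalizer_of_smul_eq e2
      apply hw
      apply Cfsg.Agent.Lib.Helper7_Class.mem_of_pow_mem_of_coprime _ w (a := d) (b := p ^ k) _ h1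
      · rw [← hk, pow_orderOf_eq_one]
        exact one_mem _
      · apply Nat.Coprime.pow_right
        rw [Nat.coprime_comm, Nat.Prime.coprime_iff_not_dvd hp.out]
        intro hdv
        exact absurd (Nat.le_of_dvd hd0 hdv) (by omega)
    have hd2 : ∀ a : ℕ, MulAut.conj (w ^ a) • M₀ ≠ Mw := by
      intro a e
      apply hw
      have h1 : M₀ = Mw := by
        have h2 : MulAut.conj (w ^ a) • Mw = Mw := Subgroup.conj_smul_eq_self_of_mem (pow_mem hwMw a)
        rw [← h2] at e
        exact smul_left_cancel _ e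
      rw [h1]
      exact Subgroup.le_normalizer hwMw
    have hfinj : Function.Injective f := by
      intro j j' e
      have h1 : L j = L j' := hinj _ _ (f j) (hL j) (hL j') (hf j) (e ▸ hf j')
      cases j with
      | none =>
        cases j' with
        | none => rfl
        | some b => exact absurd h1.symm (hd2 _)
      | some a =>
        cases j' with
        | none => exact absurd h1 (hd2 _)
        | some b =>
          congr 1
          apply Fin.ext
          by_contra hne
          have ha := a.2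
          have hb := b.2
          rcases Nat.lt_or_gt_of_ne hne with hlt' | hlt'
          · obtain ⟨d, hd⟩ := Nat.exists_eq_add_of_lt hlt'
            apply hd1 (a : ℕ) (d + 1) (by omega) (by omega)
            have : (b : ℕ) = (a : ℕ) + (d + 1) := by omega
            rw [← this]
            exact h1.symm
          · obtain ⟨d, hd⟩ := Nat.exists_eq_add_of_lt hlt'
            apply hd1 (b : ℕ) (d + 1) (by omega) (by omega)
            have : (a : ℕ) = (b : ℕ) + (d + 1) := by omega
            rw [← this]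
            exact h1
    apply hlt
    have := Fintype.card_le_of_injective f hfinj
    simpa using this
  have hnorm : Subgroup.normalizer (M₀ : Set G) = ⊤ := by
    rw [eq_top_iff, ← hgen, Subgroup.closure_le]
    intro w hw
    exact claim w hw
  apply hmax.1.1
  rw [eq_top_iff, ← hgen, Subgroup.closure_le]
  rintro w ⟨k, hk⟩
  have hz : IsPGroup p (Subgroup.zpowers w) := IsPGroup.of_card (n := k) (by rw [Nat.card_zpowers, hk])
  obtain ⟨Q, hQ⟩ := hz.exists_le_sylow
  obtain ⟨g, hg⟩ := MulAction.exists_smul_eq G P Q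
  have h1 : w ∈ g • P := by
    rw [hg]
    exact hQ (Subgroup.mem_zpowers w)
  rw [Cfsg.Agent.Lib.Helper7_TI.mem_sylow_smul] at h1
  have h2 : g⁻¹ * w * g ∈ M₀ := hPM h1
  have h3 : g ∈ Subgroup.normalizer (M₀ : Set G) := by rw [hnorm]; exact Subgroup.mem_top _
  rw [Subgroup.mem_normalizer_iff] at h3
  have h4 := (h3 _).mp h2
  simpa [mul_assoc] using h4

/-- Let p be a prime and G a finite group generated by its p-elements. If a finite family of proper subgroups of G covers the set of p-elements of G (every element of p-power order lies in one of them), then the family has at least p + 1 members. -/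
theorem result {G : Type*} [Group G] [Finite G] (p : ℕ) [Fact p.Prime] (hgen : Subgroup.closure {g : G | ∃ k : ℕ, orderOf g = p ^ k} = ⊤)
    {ι : Type*} [Fintype ι] (K : ι → Subgroup G) (hK : ∀ i, K i ≠ ⊤)
    (hcov : ∀ g : G, (∃ k : ℕ, orderOf g = p ^ k) → ∃ i, g ∈ K i) :
    p + 1 ≤ Fintype.card ι := by
  exact main p _ G rfl hgen K hK hcov

end Cfsg.Agent.S4182
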