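import Cfsg.Statements.S4186

set_option autoImplicit false
open Cfsg

namespace Cfsg.Agent.S4186


/-- Let T and X be subgroups of a group with T a finite 2-group normalizing X but not centralizing it. Then some element of T inverts some non-identity element of X under conjugation. -/
theorem result {G : Type*} [Group G] (T X : Subgroup G) [Finite ↥T] (hT : IsPGroup 2 ↥T) (hTN : T ≤ Subgroup.normalizer (X : Set G)) (hTC : ¬ T ≤ Subgroup.centralizer (X : Set G)) : ∃ t ∈ T, ∃ x ∈ X, x ≠ 1 ∧ t * x * t⁻¹ = x⁻¹ := by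
  classical
  obtain ⟨t0, ht0T, ht0C⟩ := SetLike.not_le_iff_exists.1 hTC
  obtain ⟨k, hk⟩ := hT ⟨t0, ht0T⟩
  have hk' : t0 ^ 2 ^ k = 1 := by simpa using congrArg Subtype.val hk
  have hex : ∃ n, t0 ^ 2 ^ n ∈ Subgroup.centralizer (X : Set G) :=
    ⟨k, by rw [hk']; exact one_mem _⟩
  have hnC : t0 ^ 2 ^ (Nat.find hex) ∈ Subgroup.centralizer (X : Set G) := Nat.find_spec hex
  have hn0 : Nat.find hex ≠ 0 := by
    intro h0
    rw [h0] at hnC
    simp only [pow_zero, pow_one] at hnC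
    exact ht0C hnC
  obtain ⟨m, hm⟩ := Nat.exists_eq_succ_of_ne_zero hn0
  have hmC : t0 ^ 2 ^ m ∉ Subgroup.centralizer (X : Set G) := Nat.find_min hex (by omega)
  set t := t0 ^ 2 ^ m with ht
  have htT : t ∈ T := pow_mem ht0T _
  have ht2 : t * t ∈ Subgroup.centralizer (X : Set G) := by
    have h5 : t * t = t0 ^ 2 ^ (Nat.find hex) := by
      rw [ht, ← pow_add, hm, Nat.succ_eq_add_one, pow_succ, mul_two]
    rw [h5]; exact hnC
  have hx : ∃ x ∈ X, x * t ≠ t * x := by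
    by_contra hcon
    push Not at hcon
    exact hmC (Subgroup.mem_centralizer_iff.2 (fun x hx => hcon x hx))
  obtain ⟨x, hxX, hxt⟩ := hx
  have htx : t * x * t⁻¹ ∈ X := (Subgroup.mem_normalizer_iff.1 (hTN htT) x).1 hxX
  refine ⟨t, htT, x⁻¹ * (t * x * t⁻¹), mul_mem (inv_mem hxX) htx, ?_, ?_⟩
  · intro h
    apply hxt
    have h1 : t * x * t⁻¹ = x := by
      rw [inv_mul_eq_one] at h
      exact h.symm
    rw [mul_inv_eq_iff_eq_mul] at h1
    exact h1.symm
  · have h2 : x * (t * t) = (t * t) * x := Subgroup.mem_centralizer_iff.1 ht2 x hxX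
    have h3 : t * t * x * t⁻¹ * t⁻¹ = x := by rw [← h2]; group
    calc t * (x⁻¹ * (t * x * t⁻¹)) * t⁻¹ = (t * x * t⁻¹)⁻¹ * (t * t * x * t⁻¹ * t⁻¹) := by group
      _ = (t * x * t⁻¹)⁻¹ * x := by rw [h3]
      _ = (x⁻¹ * (t * x * t⁻¹))⁻¹ := by group

end Cfsg.Agent.S4186
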