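import Mathlib
import Cfsg.Agent.Lib.helper6_MaxClass2
import Cfsg.Agent.Lib.helper6_Taussky
import Cfsg.Agent.Lib.Helper1_Quat
import Cfsg.Statements.S4189

set_option autoImplicit false
open Cfsg

namespace Cfsg.Agent.S4189

open Subgroup Cfsg.Agent.Lib

theorem odd_pow_two (s : ℤ) (hs : Odd s) : ∀ j : ℕ, (2^(j+1) : ℤ) ∣ s^(2^j) - 1 := by
  intro j
  induction j with
  | zero =>
    obtain ⟨c, rfl⟩ := hs
    exact ⟨c, by ring⟩
  | succ j ih =>
    obtain ⟨c, hc⟩ := ih
    have hodd : Odd (s^(2^j)) := hs.pow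
    obtain ⟨d, hd⟩ := hodd
    refine ⟨c * (d + 1), ?_⟩
    have : s^(2^(j+1)) - 1 = (s^(2^j) - 1) * (s^(2^j) + 1) := by ring
    rw [this, hc, hd]; ring

theorem aut_two {P : Type*} [Group P] [Finite P] (k : ℕ) (a b : P) (ha : orderOf a = 2^(k+2))
    (hb : b ∉ zpowers a) (hidx : (zpowers a).index = 2)
    (hout : ∀ g : P, g ∉ zpowers a → g^(2^(k+1)) = 1) : IsPGroup 2 (MulAut P) := by
  have hone : ∀ j : ℤ, a^j = 1 ↔ (2^(k+2) : ℤ) ∣ j := by
    intro j
    rw [← orderOf_dvd_iff_zpow_eq_one, ha]; push_cast; rfl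
  have hz1 : a^(2^(k+1)) ≠ 1 := by
    intro h
    have h2 := orderOf_dvd_of_pow_eq_one h
    rw [ha] at h2
    have h3 := Nat.le_of_dvd (by positivity) h2
    have h4 : 2^(k+2) = 2 * 2^(k+1) := by ring
    have h5 : 0 < 2^(k+1) := by positivity
    omega
  have hi : ∀ γ : MulAut P, γ a ∈ zpowers a := by
    intro γ
    by_contra h
    have h1 := hout _ h
    rw [← map_pow] at h1
    exact hz1 ((map_eq_one_iff γ γ.injective).1 h1)
  have hii : ∀ γ : MulAut P, γ b ∉ zpowers a := by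
    intro γ h
    obtain ⟨i, hi'⟩ := mem_zpowers_iff.1 h
    apply hb
    have h1 : b = γ⁻¹ (a^i) := by rw [hi']; simp
    rw [h1, map_zpow]
    exact zpow_mem (hi γ⁻¹) i
  have hv : ∀ δ : MulAut P, δ a = a → δ b = b → δ = 1 := by
    intro δ h1 h2
    ext g
    obtain ⟨i, rfl | rfl⟩ := helper6_MaxClass2.gen a b hidx hb g
    · rw [map_zpow, h1]; rfl
    · rw [map_mul, map_zpow, h1, h2]; rfl
  intro α
  obtain ⟨s, hs⟩ := mem_zpowers_iff.1 (hi α)
  have hsodd : Odd s := by
    by_contra hne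
    rw [Int.not_odd_iff_even] at hne
    obtain ⟨c, rfl⟩ := hne
    have h1 : (α a)^(2^(k+1)) = 1 := by
      rw [← hs, ← zpow_natCast, ← zpow_mul, hone]
      refine ⟨c, ?_⟩
      push_cast; ring
    rw [← map_pow] at h1
    exact hz1 ((map_eq_one_iff α α.injective).1 h1)
  have hpow : ∀ j : ℕ, (α^j) a = a^(s^j) := by
    intro j
    induction j with
    | zero => simp
    | succ j ih =>
      rw [pow_succ, MulAut.mul_apply, ← hs, map_zpow, ih, ← zpow_mul, pow_succ]
  obtain ⟨β, hβ⟩ : ∃ β : MulAut P, β = α^(2^(k+1)) := ⟨_, rfl⟩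
  have hβa : β a = a := by
    rw [hβ, hpow]
    have h1 := odd_pow_two s hsodd (k+1)
    have h2 := (hone _).2 h1
    rw [zpow_sub, zpow_one, mul_inv_eq_one] at h2
    exact h2
  obtain ⟨t, ht⟩ : ∃ t : ℤ, β b = b * a^t := by
    obtain ⟨t, h | h⟩ := helper6_MaxClass2.gen a b hidx hb (β b)
    · exact absurd (h ▸ zpow_mem (mem_zpowers a) t) (hii β)
    · exact ⟨t, h⟩
  have hβpa : ∀ j : ℕ, (β^j) a = a := by
    intro j
    induction j with
    | zero => simp
    | succ j ih => rw [pow_succ, MulAut.mul_apply, hβa, ih]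
  have hβpb : ∀ j : ℕ, (β^j) b = b * a^((j:ℤ) * t) := by
    intro j
    induction j with
    | zero => simp
    | succ j ih =>
      rw [pow_succ, MulAut.mul_apply, ht, map_mul, map_zpow, hβpa, ih, mul_assoc, ← zpow_add]
      congr 2; push_cast; ring
  refine ⟨(k+1) + (k+2), ?_⟩
  rw [pow_add, pow_mul, ← hβ]
  apply hv
  · exact hβpa _
  · rw [hβpb]
    have : a^(((2^(k+2) : ℕ) : ℤ) * t) = 1 := by
      rw [hone]; exact ⟨t, by push_cast; ring⟩
    rw [this, mul_one]


/-- Let P be a finite non-abelian 2-group whose commutator subgroup has index 4 and whose automorphism group is not a 2-group (some automorphism has order that is not a power of 2). Then P is isomorphic to the quaternion group of order 8. -/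
theorem result {P : Type*} [Group P] [Finite P] (hP : IsPGroup 2 P) (hna : ¬ IsMulCommutative P) (h4 : (commutator P).index = 4) (haut : ¬ IsPGroup 2 (MulAut P)) : Nonempty (P ≃* QuaternionGroup 2) := by
  obtain ⟨n, hn⟩ := IsPGroup.iff_card.1 hP
  have hn3 : 3 ≤ n := by
    by_contra hlt
    apply hna
    have : n = 0 ∨ n = 1 ∨ n = 2 := by omega
    rcases this with rfl | rfl | rfl
    · rw [pow_zero] at hn
      haveI := (Nat.card_eq_one_iff_unique.1 hn).1
      exact ⟨⟨fun a b => Subsingleton.elim _ _⟩⟩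
    · rw [pow_one] at hn
      haveI : IsCyclic P := isCyclic_of_prime_card hn
      exact IsCyclic.isMulCommutative
    · exact IsPGroup.isMulCommutative_of_card_eq_prime_sq (p := 2) hn
  obtain ⟨k, rfl⟩ : ∃ k, n = k+3 := ⟨n-3, by omega⟩
  have hclass := helper6_Taussky.taussky (k+1) P (hn.trans (by ring)) h4
  obtain ⟨a, b, ha, hb, hidx, hcases⟩ := helper6_MaxClass2.struct k hn (by omega)
  by_cases hQ8 : k = 0 ∧ b^2 = a^(2^(k+1)) ∧ b*a*b⁻¹ = a⁻¹
  · obtain ⟨rfl, hb2, hba⟩ := hQ8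
    refine Helper1_Quat.quaternion_equiv 2 a b (by rw [ha]; norm_num) hba (by rw [hb2]; norm_num) ?_ hb
    intro g
    by_cases hg : g ∈ zpowers a
    · exact Or.inl hg
    · right
      rw [mul_mem_iff_of_index_two hidx, inv_mem_iff]
      exact ⟨fun h => absurd h hb, fun h => absurd h hg⟩
  · exfalso
    apply haut
    apply aut_two k a b ha hb hidx
    have hone : ∀ j : ℤ, a^j = 1 ↔ (2^(k+2) : ℤ) ∣ j := by
      intro j
      rw [← orderOf_dvd_iff_zpow_eq_one, ha]; push_cast; rfl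
    obtain ⟨r, e, hrel, hbe, hw⟩ : ∃ r e : ℤ, b*a*b⁻¹ = a^r ∧ b^2 = a^e ∧
        ∀ i : ℤ, (2^(k+2) : ℤ) ∣ ((r + 1) * i + e) * 2^k := by
      rcases hcases with ⟨hb2, hba⟩ | ⟨hb2, hba⟩ | ⟨hk, hb2, hba⟩
      · exact ⟨-1, 0, by rw [hba]; simp, by rw [hb2]; simp, fun i => by simp⟩
      · have hk : 1 ≤ k := by
          by_contra hk
          exact hQ8 ⟨by omega, hb2, hba⟩
        obtain ⟨k', rfl⟩ : ∃ k', k = k' + 1 := ⟨k - 1, by omega⟩
        refine ⟨-1, 2^(k'+1+1), by rw [hba]; simp, ?_, fun i => ⟨2^k', by ring⟩⟩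
        rw [hb2, ← zpow_natCast]; push_cast; rfl
      · obtain ⟨k', rfl⟩ : ∃ k', k = k' + 1 := ⟨k - 1, by omega⟩
        refine ⟨2^(k'+1+1) - 1, 0, ?_, by rw [hb2]; simp, fun i => ⟨i * 2^k', by ring⟩⟩
        rw [hba, ← zpow_natCast, Nat.cast_sub Nat.one_le_two_pow]; push_cast; rfl
    intro g hg
    obtain ⟨i, rfl | rfl⟩ := helper6_MaxClass2.gen a b hidx hb g
    · exact absurd (zpow_mem (mem_zpowers a) i) hg
    · have h1 : b * a^i * b⁻¹ = a^(r * i) := by
        rw [← conj_zpow, hrel, zpow_mul]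
      have h2 : (b * a^i)^2 = a^((r + 1) * i + e) := by
        have : (b * a^i)^2 = (b * a^i * b⁻¹) * b^2 * a^i := by
          rw [pow_two, pow_two]; group
        rw [this, h1, hbe, ← zpow_add, ← zpow_add]
        congr 1; ring
      rw [pow_succ' 2 k, pow_mul, h2, ← zpow_natCast, ← zpow_mul, hone]
      have := hw i
      push_cast
      exact this

end Cfsg.Agent.S4189
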