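import Cfsg.Statements.S4195

import Cfsg.Agent.Lib.Helper7_Class
set_option autoImplicit false
open Cfsg

namespace Cfsg.Agent.S4195

open Cfsg.Agent.Lib.Helper7_Class

/-- Let x be a non-identity element of a finite group G whose centralizer contains a Sylow 2-subgroup of G. If x is conjugate to its inverse, then x has order 2. -/
theorem result {G : Type*} [Group G] [Finite G] (x : G) (hx : x ≠ 1) (P : Sylow 2 G) (hP : (P : Subgroup G) ≤ Subgroup.centralizer ({x} : Set G)) (hreal : IsConj x x⁻¹) : orderOf x = 2 := by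
  classical
  have hodd : ¬ 2 ∣ Nat.card {y : G // IsConj x y} := by
    rw [← index_centralizer_eq_card_class]
    intro h
    exact P.not_dvd_index (h.trans (Subgroup.index_dvd_of_le hP))
  have hinv : ∀ y : G, IsConj x y → IsConj x y⁻¹ := by
    intro y hy
    obtain ⟨c, hc⟩ := isConj_iff.1 hy
    refine hreal.trans (isConj_iff.2 ⟨c, ?_⟩)
    rw [← hc]; group
  let f : {y : G // IsConj x y} → {y : G // IsConj x y} := fun y => ⟨y.1⁻¹, hinv y.1 y.2⟩
  have hf : Function.Involutive f := fun y => Subtype.ext (inv_inv y.1)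
  haveI : Fintype {y : G // IsConj x y} := Fintype.ofFinite _
  rw [Nat.card_eq_fintype_card] at hodd
  obtain ⟨a, ha⟩ := Equiv.Perm.exists_fixed_point_of_prime (p := 2) (n := 1) hodd
    (σ := hf.toPerm) (by
      ext y
      simp [pow_two, hf y])
  have ha' : a.1⁻¹ = a.1 := congrArg Subtype.val ha
  obtain ⟨c, hc⟩ := isConj_iff.1 a.2
  have hx2 : x⁻¹ = x := by
    rw [← hc] at ha'
    have : c * x⁻¹ * c⁻¹ = c * x * c⁻¹ := by rw [← ha']; group
    simpa using this
  apply orderOf_eq_prime
  · rw [pow_two]; nth_rewrite 1 [← hx2]; group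
  · exact hx

end Cfsg.Agent.S4195
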