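import Cfsg.Statements.S4196

import Cfsg.Agent.S4195
import Cfsg.Agent.Lib.Helper7_Conj
set_option autoImplicit false
open Cfsg

namespace Cfsg.Agent.S4196

open Cfsg.Agent.Lib.Helper7_Conj
open scoped Pointwise

/-- A finite group G has elementary abelian Sylow 2-subgroups (commutative with every element squaring to the identity) if and only if every 2-element of G has a Sylow 2-subgroup in its centralizer and is conjugate to its inverse. -/
theorem result {G : Type*} [Group G] [Finite G] (P : Sylow 2 G) :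
    (IsMulCommutative (P : Subgroup G) ∧ ∀ x ∈ (P : Subgroup G), x ^ 2 = 1) ↔
      ∀ x : G, (∃ k : ℕ, orderOf x = 2 ^ k) → (∃ Q : Sylow 2 G, (Q : Subgroup G) ≤ Subgroup.centralizer ({x} : Set G)) ∧ IsConj x x⁻¹ := by
  constructor
  · rintro ⟨hcomm, hexp⟩ x ⟨k, hk⟩
    have hpg : IsPGroup 2 (Subgroup.zpowers x) :=
      IsPGroup.of_card (n := k) (by rw [Nat.card_zpowers, hk])
    obtain ⟨Q, hQ⟩ := hpg.exists_le_sylow
    have hxQ : x ∈ Q := hQ (Subgroup.mem_zpowers x)
    obtain ⟨g, rfl⟩ := MulAction.exists_smul_eq G P Q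
    have hmem : ∀ y : G, y ∈ g • P ↔ g⁻¹ * y * g ∈ (P : Subgroup G) := by
      intro y
      change y ∈ ((g • P : Sylow 2 G) : Subgroup G) ↔ _
      rw [Sylow.coe_subgroup_smul, mem_smul_conj]
    have hx' := (hmem x).1 hxQ
    refine ⟨⟨g • P, ?_⟩, ?_⟩
    · intro y hy
      have hy' := (hmem y).1 hy
      rw [Subgroup.mem_centralizer_iff]
      intro h hh
      rw [Set.mem_singleton_iff] at hh
      subst hh
      have h1 := congrArg Subtype.val (mul_comm' (⟨_, hx'⟩ : (P : Subgroup G)) ⟨_, hy'⟩)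
      simp only [Subgroup.coe_mul] at h1
      have h2 : g * (g⁻¹ * h * g * (g⁻¹ * y * g)) * g⁻¹ = g * (g⁻¹ * y * g * (g⁻¹ * h * g)) * g⁻¹ := by
        rw [h1]
      simpa [mul_assoc] using h2
    · have h1 := hexp _ hx'
      have h2 : x ^ 2 = 1 := by
        have : (g⁻¹ * x * g) ^ 2 = g⁻¹ * x ^ 2 * g := by
          have := conj_pow (a := g⁻¹) (b := x) (i := 2)
          simpa using this
        rw [this] at h1
        have h3 : x ^ 2 = g * (g⁻¹ * x ^ 2 * g) * g⁻¹ := by group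
        rw [h3, h1]; group
      have h3 : x⁻¹ = x := by
        apply inv_eq_of_mul_eq_one_left
        rw [← pow_two]; exact h2
      rw [h3]
  · intro h
    have hexp : ∀ x ∈ (P : Subgroup G), x ^ 2 = 1 := by
      intro x hx
      by_cases hx1 : x = 1
      · rw [hx1]; simp
      · obtain ⟨k, hk⟩ := (IsPGroup.iff_orderOf.1 P.isPGroup') ⟨x, hx⟩
        rw [Subgroup.orderOf_mk] at hk
        obtain ⟨⟨Q, hQ⟩, hreal⟩ := h x ⟨k, hk⟩
        have := Cfsg.Agent.S4195.result x hx1 Q hQ hreal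
        rw [← this, pow_orderOf_eq_one]
    refine ⟨⟨⟨fun a b => ?_⟩⟩, hexp⟩
    apply Subtype.ext
    have hinv : ∀ x ∈ (P : Subgroup G), x⁻¹ = x := by
      intro x hx
      apply inv_eq_of_mul_eq_one_left
      rw [← pow_two]; exact hexp x hx
    show a.1 * b.1 = b.1 * a.1
    calc a.1 * b.1 = (a.1 * b.1)⁻¹ := (hinv _ (mul_mem a.2 b.2)).symm
      _ = b.1⁻¹ * a.1⁻¹ := by group
      _ = b.1 * a.1 := by rw [hinv _ a.2, hinv _ b.2]

end Cfsg.Agent.S4196
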