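import Cfsg.Statements.S4250
import Cfsg.Agent.Lib.Helper4_Frobenius
import Cfsg.Agent.Lib.Helper4_PSol

set_option autoImplicit false
open Cfsg

namespace Cfsg.Agent.S4250

open Cfsg.Agent.Lib.Helper4_Syl Cfsg.Agent.Lib.Helper4_Alperin Cfsg.Agent.Lib.Helper4_Alperin2 Cfsg.Agent.Lib.Helper4_Frobenius in
theorem foc_of_fusS {G : Type*} [Group G] [Finite G] {p : ℕ} [Fact p.Prime] (P : Sylow p G)
    (F : Subgroup G)
    (hstep : ∀ T x, TameStep p (P : Subgroup G) T x → x ∈ Subgroup.normalizer (T : Set G) →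
      ∀ a ∈ T, a⁻¹ * (x⁻¹ * a * x) ∈ F)
    {A : Subgroup G} {g : G} (h : FusS (TameStep p (P : Subgroup G)) A g) :
    ∀ a ∈ A, a⁻¹ * (g⁻¹ * a * g) ∈ F := by
  induction h with
  | nil A => intro a _; simp
  | @cons A T x g hT hx hA _ ih =>
    intro a ha
    have h1 := ih _ (conj_mem_cj (g := x) ha)
    have h2 := hstep T x hT hx a (hA ha)
    have h3 := F.mul_mem h2 h1
    have e : a⁻¹ * (x⁻¹ * a * x) * ((x⁻¹ * a * x)⁻¹ * (g⁻¹ * (x⁻¹ * a * x) * g)) =
        a⁻¹ * ((x * g)⁻¹ * a * (x * g)) := by group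
    rwa [e] at h3

open Cfsg.Agent.Lib.Helper4_Syl Cfsg.Agent.Lib.Helper4_Alperin Cfsg.Agent.Lib.Helper4_Alperin2 Cfsg.Agent.Lib.Helper4_Frobenius Cfsg.Agent.Lib.Helper4_Transfer Cfsg.Agent.Lib.Helper4_Control in
theorem aux {G : Type*} [Group G] [Finite G] (p : ℕ) [Fact p.Prime] (P : Sylow p G) :
    (P : Subgroup G) ⊓ commutator G =
      ⁅(P : Subgroup G), Subgroup.normalizer ((P : Subgroup G) : Set G)⁆ ⊔
        ⨆ (Q : Sylow p G) (_ : (¬ p ∣ ((P : Subgroup G) ⊓ Subgroup.normalizer (((P : Subgroup G) ⊓ (Q : Subgroup G) : Subgroup G) : Set G)).relIndex (Subgroup.normalizer (((P : Subgroup G) ⊓ (Q : Subgroup G) : Subgroup G) : Set G)) ∧ ¬ p ∣ ((Q : Subgroup G) ⊓ Subgroup.normalizer (((P : Subgroup G) ⊓ (Q : Subgroup G) : Subgroup G) : Set G)).relIndex (Subgroup.normalizer (((P : Subgroup G) ⊓ (Q : Subgroup G) : Subgroup G) : Set G))))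
          (x : G) (_ : x ∈ Subgroup.normalizer (((P : Subgroup G) ⊓ (Q : Subgroup G) : Subgroup G) : Set G) ∧ ∃ k : ℕ, orderOf x = p ^ k),
          ⁅(P : Subgroup G) ⊓ (Q : Subgroup G), Subgroup.zpowers x⁆ := by
  set F := ⁅(P : Subgroup G), Subgroup.normalizer ((P : Subgroup G) : Set G)⁆ ⊔
        ⨆ (Q : Sylow p G) (_ : (¬ p ∣ ((P : Subgroup G) ⊓ Subgroup.normalizer (((P : Subgroup G) ⊓ (Q : Subgroup G) : Subgroup G) : Set G)).relIndex (Subgroup.normalizer (((P : Subgroup G) ⊓ (Q : Subgroup G) : Subgroup G) : Set G)) ∧ ¬ p ∣ ((Q : Subgroup G) ⊓ Subgroup.normalizer (((P : Subgroup G) ⊓ (Q : Subgroup G) : Subgroup G) : Set G)).relIndex (Subgroup.normalizer (((P : Subgroup G) ⊓ (Q : Subgroup G) : Subgroup G) : Set G))))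
          (x : G) (_ : x ∈ Subgroup.normalizer (((P : Subgroup G) ⊓ (Q : Subgroup G) : Subgroup G) : Set G) ∧ ∃ k : ℕ, orderOf x = p ^ k),
          ⁅(P : Subgroup G) ⊓ (Q : Subgroup G), Subgroup.zpowers x⁆ with hF
  have hcl : ∀ (T : Subgroup G) (x : G), x ∈ Subgroup.normalizer (T : Set G) →
      ⁅T, Subgroup.zpowers x⁆ ≤ T := by
    intro T x hx
    rw [Subgroup.commutator_le]
    intro a ha y hy
    have hy' : y ∈ Subgroup.normalizer (T : Set G) := (Subgroup.zpowers_le.2 hx) hy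
    have := T.mul_mem ha (T.inv_mem (conj_mem_of_mem_normalizer hy' ha))
    simpa [commutatorElement_def, mul_assoc] using this
  apply le_antisymm
  · rw [commutator_def]
    apply inf_commutator_le_of_foc (IsSylIn.of_sylow_top P)
    intro l _ A hA hlA a ha
    have hstep : ∀ T x, TameStep p (P : Subgroup G) T x → x ∈ Subgroup.normalizer (T : Set G) →
        ∀ a ∈ T, a⁻¹ * (x⁻¹ * a * x) ∈ F := by
      rintro T x ⟨Q, hTQ, hFN1, hFN2, hor⟩ hx a ha
      rcases hor with hQP | hxp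
      · have hTP : T = P := by rw [hTQ, hQP, inf_idem]
        apply Subgroup.mem_sup_left
        have h1 := Subgroup.commutator_mem_commutator (H₁ := (P : Subgroup G))
          (H₂ := Subgroup.normalizer ((P : Subgroup G) : Set G)) (Subgroup.inv_mem _ (hTP ▸ ha))
          (Subgroup.inv_mem _ (hTP ▸ hx))
        simpa [commutatorElement_def, mul_assoc] using h1
      · apply Subgroup.mem_sup_right
        have h1 : ⁅(P : Subgroup G) ⊓ (Q : Subgroup G), Subgroup.zpowers x⁆ ≤ ⨆ (Q : Sylow p G) (_ : (¬ p ∣ ((P : Subgroup G) ⊓ Subgroup.normalizer (((P : Subgroup G) ⊓ (Q : Subgroup G) : Subgroup G) : Set G)).relIndex (Subgroup.normalizer (((P : Subgroup G) ⊓ (Q : Subgroup G) : Subgroup G) : Set G)) ∧ ¬ p ∣ ((Q : Subgroup G) ⊓ Subgroup.normalizer (((P : Subgroup G) ⊓ (Q : Subgroup G) : Subgroup G) : Set G)).relIndex (Subgroup.normalizer (((P : Subgroup G) ⊓ (Q : Subgroup G) : Subgroup G) : Set G))))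
          (x : G) (_ : x ∈ Subgroup.normalizer (((P : Subgroup G) ⊓ (Q : Subgroup G) : Subgroup G) : Set G) ∧ ∃ k : ℕ, orderOf x = p ^ k),
          ⁅(P : Subgroup G) ⊓ (Q : Subgroup G), Subgroup.zpowers x⁆ := by
          refine le_iSup_of_le Q (le_iSup_of_le ⟨by rw [← hTQ]; exact (fn_iff_relIndex P.2).1 hFN1,
            by rw [← hTQ]; exact (fn_iff_relIndex Q.2).1 hFN2⟩ (le_iSup_of_le x
              (le_iSup_of_le ⟨hTQ ▸ hx, hxp⟩ le_rfl)))
        apply h1
        rw [← hTQ]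
        have h2 := Subgroup.commutator_mem_commutator (H₁ := T)
          (H₂ := Subgroup.zpowers x) (Subgroup.inv_mem _ ha)
          (Subgroup.inv_mem _ (Subgroup.mem_zpowers x))
        simpa [commutatorElement_def, mul_assoc] using h2
    have h1 := foc_of_fusS P F hstep (alperin_tame P A l⁻¹ hA (by rw [cj_eq_lc, inv_inv]; exact hlA)) a ha
    rwa [inv_inv] at h1
  · rw [hF]
    apply sup_le
    · apply le_inf
      · rw [Subgroup.commutator_le]
        intro a ha y hy
        have := (P : Subgroup G).mul_mem ha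
          ((P : Subgroup G).inv_mem (conj_mem_of_mem_normalizer hy ha))
        simpa [commutatorElement_def, mul_assoc] using this
      · rw [commutator_def]; exact Subgroup.commutator_mono le_top le_top
    · apply iSup_le; intro Q
      apply iSup_le; intro _
      apply iSup_le; intro x
      apply iSup_le; intro hx
      apply le_inf
      · exact (hcl _ x hx.1).trans inf_le_left
      · rw [commutator_def]; exact Subgroup.commutator_mono le_top le_top

/-- Let P be a Sylow p-subgroup of a finite group G. Call an intersection H = P ∩ Q with a Sylow p-subgroup Q tame when N_P(H) and N_Q(H) are Sylow p-subgroups of N_G(H). Then P ∩ G′ is generated by [P, N_G(P)] together with the commutator subgroups [P ∩ Q, ⟨x⟩] for all tame intersections P ∩ Q and all p-elements x of N_G(P ∩ Q). -/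
theorem result {G : Type*} [Group G] [Finite G] (p : ℕ) [Fact p.Prime] (P : Sylow p G) :
    (P : Subgroup G) ⊓ commutator G =
      ⁅(P : Subgroup G), Subgroup.normalizer ((P : Subgroup G) : Set G)⁆ ⊔
        ⨆ (Q : Sylow p G) (_ : (¬ p ∣ ((P : Subgroup G) ⊓ Subgroup.normalizer (((P : Subgroup G) ⊓ (Q : Subgroup G) : Subgroup G) : Set G)).relIndex (Subgroup.normalizer (((P : Subgroup G) ⊓ (Q : Subgroup G) : Subgroup G) : Set G)) ∧ ¬ p ∣ ((Q : Subgroup G) ⊓ Subgroup.normalizer (((P : Subgroup G) ⊓ (Q : Subgroup G) : Subgroup G) : Set G)).relIndex (Subgroup.normalizer (((P : Subgroup G) ⊓ (Q : Subgroup G) : Subgroup G) : Set G))))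
          (x : G) (_ : x ∈ Subgroup.normalizer (((P : Subgroup G) ⊓ (Q : Subgroup G) : Subgroup G) : Set G) ∧ ∃ k : ℕ, orderOf x = p ^ k),
          ⁅(P : Subgroup G) ⊓ (Q : Subgroup G), Subgroup.zpowers x⁆ := by
  exact aux p P

end Cfsg.Agent.S4250
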