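import Cfsg.Statements.S4216
import Cfsg.Agent.S4250

set_option autoImplicit false
open Cfsg

namespace Cfsg.Agent.S4216

open scoped Pointwise commutatorElement in
open Cfsg.Agent.Lib.Helper4_Syl in
theorem aux {G : Type*} [Group G] [Finite G] {p : ℕ} [Fact p.Prime] (P : Sylow p G) : (P : Subgroup G) ⊓ commutator G = ((P : Subgroup G) ⊓ ⁅Subgroup.normalizer ((P : Subgroup G) : Set G), Subgroup.normalizer ((P : Subgroup G) : Set G)⁆) ⊔ ⨆ z : G, (P : Subgroup G) ⊓ (⁅(P : Subgroup G), (P : Subgroup G)⁆).map (MulAut.conj z).toMonoidHom := by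
  apply le_antisymm
  · rw [Cfsg.Agent.S4250.result p P]
    apply sup_le
    · apply le_sup_of_le_left
      apply le_inf
      · rw [Subgroup.commutator_le]
        intro a ha y hy
        have := (P : Subgroup G).mul_mem ha
          ((P : Subgroup G).inv_mem (conj_mem_of_mem_normalizer hy ha))
        simpa [commutatorElement_def, mul_assoc] using this
      · exact Subgroup.commutator_mono Subgroup.le_normalizer le_rfl
    · apply iSup_le; intro Q
      apply iSup_le; intro _
      apply iSup_le; intro x
      apply iSup_le; intro hx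
      apply le_sup_of_le_right
      set T := (P : Subgroup G) ⊓ (Q : Subgroup G) with hT
      obtain ⟨k, hk⟩ := hx.2
      have hxp : IsPGroup p (Subgroup.zpowers x) := by
        apply IsPGroup.of_card (n := k)
        rw [Nat.card_zpowers, hk]
      have hTp : IsPGroup p T := P.2.to_le inf_le_left
      have hp : IsPGroup p (Subgroup.zpowers x ⊔ T : Subgroup G) :=
        IsPGroup.to_sup_of_normal_right' hxp hTp (Subgroup.zpowers_le.2 hx.1)
      obtain ⟨R, hR⟩ := hp.exists_le_sylow
      obtain ⟨z, hz⟩ := MulAction.exists_smul_eq G P R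
      have hz' : (R : Subgroup G) = (P : Subgroup G).map (MulAut.conj z).toMonoidHom := by
        rw [← hz]; rfl
      refine le_iSup_of_le z (le_inf ?_ ?_)
      · refine le_trans ?_ (inf_le_left : T ≤ P)
        rw [Subgroup.commutator_le]
        intro a ha y hy
        have hy' : y ∈ Subgroup.normalizer (T : Set G) := (Subgroup.zpowers_le.2 hx.1) hy
        have := T.mul_mem ha (T.inv_mem (conj_mem_of_mem_normalizer hy' ha))
        have e : ⁅a, y⁆ = a * (y * a * y⁻¹)⁻¹ := by rw [commutatorElement_def]; group
        rw [e]; exact this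
      · rw [Subgroup.map_commutator, ← hz']
        exact Subgroup.commutator_mono (le_sup_right.trans hR) (le_sup_left.trans hR)
  · apply sup_le
    · apply inf_le_inf_left
      rw [commutator_def]; exact Subgroup.commutator_mono le_top le_top
    · apply iSup_le; intro z
      apply inf_le_inf_left
      rw [commutator_def, Subgroup.map_commutator]; exact Subgroup.commutator_mono le_top le_top

/-- Grün's first Theorem: if `P` is a Sylow `p`-subgroup of the finite group `G`, then `P ∩ G'` is the subgroup generated by `P ∩ N_G(P)'` together with the subgroups `P ∩ z P' z⁻¹` for all `z ∈ G`, where `'` denotes the derived subgroup and `N_G(P)` the normalizer of `P`. -/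
theorem result {G : Type*} [Group G] [Finite G] {p : ℕ} [Fact p.Prime] (P : Sylow p G) : (P : Subgroup G) ⊓ commutator G = ((P : Subgroup G) ⊓ ⁅Subgroup.normalizer ((P : Subgroup G) : Set G), Subgroup.normalizer ((P : Subgroup G) : Set G)⁆) ⊔ ⨆ z : G, (P : Subgroup G) ⊓ (⁅(P : Subgroup G), (P : Subgroup G)⁆).map (MulAut.conj z).toMonoidHom := by
  exact aux P

end Cfsg.Agent.S4216
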