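import Cfsg.Statements.S4230

set_option autoImplicit false
open Cfsg

namespace Cfsg.Agent.S4230


/-- Let p be an odd prime, q a natural number not divisible by p, and e the multiplicative order of q modulo p. For a natural number f, p divides the value at q of the f-th cyclotomic polynomial if and only if f = e·p^j for some j ≥ 0. -/
theorem result (p q f : ℕ) (hp : p.Prime) (hp2 : p ≠ 2) (hpq : ¬ p ∣ q) :
    ((p : ℤ) ∣ (Polynomial.cyclotomic f ℤ).eval (q : ℤ)) ↔ ∃ j : ℕ, f = orderOf (q : ZMod p) * p ^ j := by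
  haveI : Fact p.Prime := ⟨hp⟩
  have hq0 : (q : ZMod p) ≠ 0 := by
    rw [Ne, ZMod.natCast_eq_zero_iff]; exact hpq
  have hiff : ((p : ℤ) ∣ (Polynomial.cyclotomic f ℤ).eval (q : ℤ)) ↔
      (Polynomial.cyclotomic f (ZMod p)).IsRoot (q : ZMod p) := by
    rw [← ZMod.intCast_zmod_eq_zero_iff_dvd, Polynomial.IsRoot.def,
      ← Polynomial.map_cyclotomic_int f (ZMod p)]
    have := Polynomial.eval_map_apply (p := Polynomial.cyclotomic f ℤ)
      (Int.castRingHom (ZMod p)) (q : ℤ)
    simp only [eq_intCast, Int.cast_natCast] at this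
    rw [this]
  rw [hiff]
  have hord : ¬ p ∣ orderOf (q : ZMod p) := by
    intro h
    have h1 := ZMod.orderOf_dvd_card_sub_one hq0
    have h2 := Nat.le_of_dvd (by have := hp.two_le; omega) (h.trans h1)
    have := hp.two_le; omega
  constructor
  · intro hroot
    have hf : f ≠ 0 := by
      rintro rfl
      simp [Polynomial.IsRoot.def] at hroot
    obtain ⟨k, m, hm, rfl⟩ := Nat.exists_eq_pow_mul_and_not_dvd hf p hp.ne_one
    haveI : NeZero (m : ZMod p) := ⟨by rw [Ne, ZMod.natCast_eq_zero_iff]; exact hm⟩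
    rw [Polynomial.isRoot_cyclotomic_prime_pow_mul_iff_of_charP] at hroot
    exact ⟨k, by rw [← hroot.eq_orderOf, mul_comm]⟩
  · rintro ⟨j, rfl⟩
    haveI : NeZero ((orderOf (q : ZMod p) : ℕ) : ZMod p) :=
      ⟨by rw [Ne, ZMod.natCast_eq_zero_iff]; exact hord⟩
    rw [mul_comm, Polynomial.isRoot_cyclotomic_prime_pow_mul_iff_of_charP]
    exact IsPrimitiveRoot.orderOf _

end Cfsg.Agent.S4230
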