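import Mathlib
import Cfsg.Agent.Lib.Helper1_FrobPNil
import Cfsg.Agent.Lib.Helper1_MinNormal
import Cfsg.Agent.Lib.Helper7_Max
import Cfsg.Statements.S4238

set_option autoImplicit false
open Cfsg

namespace Cfsg.Agent.S4238

open Subgroup Cfsg.Agent.Lib.Helper1_FrobPNil Cfsg.Agent.Lib.Helper1_PNil
open scoped commutatorElement

theorem coprime_mem {K : Type*} [Group K] (V : Subgroup K) {p m : ℕ} (hm : m.Coprime p) (j : ℕ) {w : K}
    (h1 : w ^ m ∈ V) (h2 : w ^ (p ^ j) ∈ V) : w ∈ V := by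
  have hc : Nat.Coprime m (p ^ j) := Nat.Coprime.pow_right j hm
  have h3 : w ^ (Nat.gcd m (p ^ j) : ℤ) ∈ V := by
    rw [Nat.gcd_eq_gcd_ab, zpow_add, zpow_mul, zpow_mul, zpow_natCast, zpow_natCast]
    exact V.mul_mem (V.zpow_mem h1 _) (V.zpow_mem h2 _)
  rw [hc] at h3
  simpa using h3

theorem lemQ {K : Type*} [Group K] [Finite K] {p : ℕ} [hp : Fact p.Prime] (V : Subgroup K) [hVn : V.Normal]
    (hV : IsPGroup p V) {v₀ : K} (hv₀ : v₀ ∈ V) (hv1 : v₀ ≠ 1) {g₀ : K} (hg₀ : g₀ ∉ V)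
    {m : ℕ} (hm : m.Coprime p) (hmV : ∀ k : K, k ^ m ∈ V)
    (hcen : ∀ v ∈ V, v ≠ 1 → ∀ k : K, k * v = v * k → k ∈ V) :
    pPrimeCore p K = ⊥ ∧ ¬ ∃ k : K, orderOf k = Monoid.exponent K := by
  have hVpow : ∀ v ∈ V, ∃ j : ℕ, v ^ (p ^ j) = 1 := by
    intro v hv
    obtain ⟨j, hj⟩ := hV ⟨v, hv⟩
    exact ⟨j, by simpa using congrArg Subtype.val hj⟩
  constructor
  · unfold pPrimeCore
    rw [sSup_eq_bot]
    rintro X ⟨hXn, hX⟩
    have hXV : ∀ x ∈ X, x ∈ V → x = 1 := by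
      intro x hx hxV
      obtain ⟨j, hj⟩ := hVpow x hxV
      have h1 : orderOf x ∣ Nat.card X := by
        have := orderOf_dvd_natCard (⟨x, hx⟩ : X)
        rwa [Subgroup.orderOf_mk] at this
      have h2 : orderOf x ∣ p ^ j := orderOf_dvd_of_pow_eq_one hj
      have h3 : orderOf x = 1 :=
        Nat.eq_one_of_dvd_coprimes (Nat.Coprime.pow_right j hX) h1 h2
      exact orderOf_eq_one_iff.1 h3
    rw [eq_bot_iff]
    intro x hx
    rw [mem_bot]
    apply hXV x hx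
    apply hcen v₀ hv₀ hv1
    have h1 : x * v₀ * x⁻¹ * v₀⁻¹ = 1 := by
      apply hXV
      · have : x * v₀ * x⁻¹ * v₀⁻¹ = x * (v₀ * x⁻¹ * v₀⁻¹) := by group
        rw [this]
        exact X.mul_mem hx (hXn.conj_mem _ (X.inv_mem hx) _)
      · exact V.mul_mem (hVn.conj_mem _ hv₀ _) (V.inv_mem hv₀)
    have := congrArg (fun t => t * v₀ * x) h1
    simpa using this
  · rintro ⟨k, hk⟩
    obtain ⟨j, hj⟩ := hVpow v₀ hv₀
    have hpn : p ∣ orderOf k := by
      rw [hk]
      have h1 : orderOf v₀ ∣ p ^ j := orderOf_dvd_of_pow_eq_one hj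
      obtain ⟨i, -, hi⟩ := (Nat.dvd_prime_pow hp.out).1 h1
      have hi0 : i ≠ 0 := by
        rintro rfl
        rw [pow_zero, orderOf_eq_one_iff] at hi
        exact hv1 hi
      have h2 : p ∣ orderOf v₀ := by rw [hi]; exact dvd_pow_self p hi0
      exact h2.trans (Monoid.order_dvd_exponent v₀)
    obtain ⟨n, hn⟩ := hpn
    have hkpos : 0 < orderOf k := orderOf_pos k
    have hn0 : n ≠ 0 := by
      rintro rfl
      rw [mul_zero] at hn
      omega
    have hw : orderOf (k ^ n) = p := by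
      rw [orderOf_pow_of_dvd hn0 ⟨p, by rw [hn, mul_comm]⟩, hn]
      exact Nat.mul_div_cancel _ (Nat.pos_of_ne_zero hn0)
    have hwV : k ^ n ∈ V := by
      apply coprime_mem V hm 1 (hmV _)
      rw [pow_one, ← hw, pow_orderOf_eq_one]
      exact V.one_mem
    have hw1 : k ^ n ≠ 1 := by
      intro h0
      rw [← orderOf_eq_one_iff, hw] at h0
      exact hp.out.one_lt.ne' h0
    have hkV : k ∈ V := hcen _ hwV hw1 k (by rw [← pow_succ', ← pow_succ])
    obtain ⟨a, ha⟩ := hVpow k hkV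
    apply hg₀
    apply coprime_mem V hm a (hmV _)
    have : g₀ ^ (p ^ a) = 1 := by
      have h1 : orderOf g₀ ∣ p ^ a :=
        (Monoid.order_dvd_exponent g₀).trans (hk ▸ orderOf_dvd_of_pow_eq_one ha)
      exact orderOf_dvd_iff_pow_eq_one.1 h1
    rw [this]
    exact V.one_mem

theorem lemR {H : Type*} [Group H] [Finite H] {p : ℕ} [hp : Fact p.Prime] (U : Subgroup H)
    [hUn : U.Normal] (hU : IsPGroup p U) (g : H) (hg : (orderOf g).Coprime p)
    (hgen : ∀ h : H, ∃ u ∈ U, ∃ i : ℤ, h = u * g ^ i)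
    {u₀ : H} (hu₀ : u₀ ∈ U) (hne : g * u₀ ≠ u₀ * g)
    (hmin : ∀ W : Subgroup H, W < U → (∀ w ∈ W, g * w * g⁻¹ ∈ W) → ∀ w ∈ W, g * w = w * g) :
    ∃ (N : Subgroup H) (_ : N.Normal), pPrimeCore p (H ⧸ N) = ⊥ ∧
      ¬ ∃ k : H ⧸ N, orderOf k = Monoid.exponent (H ⧸ N) := by
  have hUpow : ∀ v ∈ U, ∃ j : ℕ, v ^ (p ^ j) = 1 := by
    intro v hv
    obtain ⟨j, hj⟩ := hU ⟨v, hv⟩
    exact ⟨j, by simpa using congrArg Subtype.val hj⟩
  have hgpow : ∀ a ∈ zpowers g, a ^ orderOf g = 1 := by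
    rintro _ ⟨i, rfl⟩
    show (g ^ i) ^ orderOf g = 1
    rw [← zpow_natCast, ← zpow_mul, mul_comm, zpow_mul, zpow_natCast, pow_orderOf_eq_one, one_zpow]
  have hcop : ∀ x ∈ U, x ^ orderOf g = 1 → x = 1 := by
    intro x hx h1
    obtain ⟨j, hj⟩ := hUpow x hx
    have h3 : orderOf x = 1 :=
      Nat.eq_one_of_dvd_coprimes (Nat.Coprime.pow_right j hg) (orderOf_dvd_of_pow_eq_one h1)
        (orderOf_dvd_of_pow_eq_one hj)
    exact orderOf_eq_one_iff.1 h3
  have hUg : ∀ x ∈ U, x ∈ zpowers g → x = 1 := fun x hx hxg => hcop x hx (hgpow x hxg)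
  have F1 : ∀ a ∈ zpowers g, ∀ u ∈ U, Commute a (u⁻¹ * (a * u * a⁻¹)) → a * u = u * a := by
    intro a ha u hu hc
    set c := u⁻¹ * (a * u * a⁻¹) with hcdef
    have hcU : c ∈ U := U.mul_mem (U.inv_mem hu) (hUn.conj_mem u hu a)
    have hau : a * u = u * c * a := by rw [hcdef]; group
    have hpow : ∀ k : ℕ, a ^ k * u = u * c ^ k * a ^ k := by
      intro k
      induction k with
      | zero => simp
      | succ k ih =>
        have h1 : a * c ^ k = c ^ k * a := (hc.pow_right k).eq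
        calc a ^ (k + 1) * u = a * (a ^ k * u) := by rw [pow_succ']; group
          _ = (a * u) * c ^ k * a ^ k := by rw [ih]; group
          _ = u * c * (a * c ^ k) * a ^ k := by rw [hau]; group
          _ = u * c * (c ^ k * a) * a ^ k := by rw [h1]
          _ = u * c ^ (k + 1) * a ^ (k + 1) := by rw [pow_succ' c, pow_succ' a]; group
    have h1 := hpow (orderOf g)
    rw [hgpow a ha, one_mul, mul_one] at h1
    have h2 : c ^ orderOf g = 1 := by
      have := congrArg (fun w => u⁻¹ * w) h1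
      simpa using this.symm
    have h3 := hcop c hcU h2
    rw [hau, h3, mul_one]
  set T : Subgroup H := U ⊓ centralizer {g} with hTdef
  have hT : ∀ t, t ∈ T ↔ t ∈ U ∧ g * t = t * g := by
    intro t
    rw [hTdef, mem_inf, mem_centralizer_iff]
    simp
  have hTpow : ∀ t ∈ T, ∀ a ∈ zpowers g, a * t = t * a := by
    rintro t ht _ ⟨i, rfl⟩
    have : Commute g t := ((hT t).1 ht).2
    exact (this.zpow_left i).eq
  set C : Subgroup H := zpowers g ⊓ centralizer (U : Set H) with hCdef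
  have hC : ∀ c, c ∈ C ↔ c ∈ zpowers g ∧ ∀ u ∈ U, u * c = c * u := by
    intro c
    rw [hCdef, mem_inf, mem_centralizer_iff]
    rfl
  have hUbot : U ≠ ⊥ := by
    intro h0
    rw [h0, mem_bot] at hu₀
    rw [hu₀] at hne
    simp at hne
  have F2 : ⁅U, U⁆ ≤ T := by
    haveI : Group.IsNilpotent U := hU.isNilpotent
    have hlt : ⁅U, U⁆ < U := Cfsg.Agent.Lib.Helper1_MinNormal.commutator_lt_of_isSolvable hUbot
    intro w hw
    rw [hT]
    exact ⟨hlt.le hw, hmin _ hlt (fun w hw => (commutator_normal U U).conj_mem w hw g) w hw⟩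
  have hTn : T.Normal := by
    constructor
    intro t ht h
    obtain ⟨u, hu, i, rfl⟩ := hgen h
    have h1 := hTpow t ht (g ^ i) ⟨i, rfl⟩
    have h2 : u * g ^ i * t * (u * g ^ i)⁻¹ = ⁅u, t⁆ * t := by
      rw [commutatorElement_def]
      calc u * g ^ i * t * (u * g ^ i)⁻¹ = u * (g ^ i * t) * (g ^ i)⁻¹ * u⁻¹ := by group
        _ = u * (t * g ^ i) * (g ^ i)⁻¹ * u⁻¹ := by rw [h1]
        _ = _ := by group
    rw [h2]
    exact T.mul_mem (F2 (commutator_mem_commutator hu ((hT t).1 ht).1)) ht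
  have hCc : ∀ c ∈ C, ∀ h : H, h * c = c * h := by
    intro c hc h
    obtain ⟨u, hu, i, rfl⟩ := hgen h
    obtain ⟨⟨j, rfl⟩, hcU⟩ := (hC c).1 hc
    have h1 := hcU u hu
    simp only at h1
    show u * g ^ i * g ^ j = g ^ j * (u * g ^ i)
    rw [← mul_assoc, ← h1, mul_assoc, mul_assoc, ← zpow_add, ← zpow_add, add_comm]
  have hCn : C.Normal := by
    constructor
    intro c hc h
    rw [hCc c hc h, mul_inv_cancel_right]
    exact hc
  set N : Subgroup H := T ⊔ C with hNdef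
  have hNn : N.Normal := inferInstance
  have hN : ∀ x, x ∈ N ↔ ∃ t ∈ T, ∃ c ∈ C, t * c = x := fun x => mem_sup_of_normal_left
  have F6 : ∀ x ∈ U, x ∈ N → x ∈ T := by
    intro x hx hxN
    obtain ⟨t, ht, c, hc, rfl⟩ := (hN x).1 hxN
    have h1 : c ∈ U := by
      have : c = t⁻¹ * (t * c) := by group
      rw [this]
      exact U.mul_mem (U.inv_mem ((hT t).1 ht).1) hx
    rw [hUg c h1 ((hC c).1 hc).1, mul_one]
    exact ht
  refine ⟨N, hNn, ?_⟩
  set π := QuotientGroup.mk' N with hπ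
  have hπs : Function.Surjective π := QuotientGroup.mk'_surjective N
  have hπ1 : ∀ x, π x = 1 ↔ x ∈ N := fun x => QuotientGroup.eq_one_iff x
  haveI hVn : (U.map π).Normal := hUn.map π hπs
  refine lemQ (p := p) (U.map π) (hU.map π) (v₀ := π u₀) ⟨u₀, hu₀, rfl⟩ ?_ (g₀ := π g) ?_ hg ?_ ?_
  · intro h0
    exact hne ((hT _).1 (F6 u₀ hu₀ ((hπ1 _).1 h0))).2
  · rintro ⟨u, hu, e⟩
    have h1 : π (u⁻¹ * g) = 1 := by rw [map_mul, map_inv, e, inv_mul_cancel]
    obtain ⟨t, ht, c, hc, e2⟩ := (hN _).1 ((hπ1 _).1 h1)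
    have h2 : g * c⁻¹ = u * t := by
      have := congrArg (fun w => u * w * c⁻¹) e2
      rw [show u * (u⁻¹ * g) * c⁻¹ = g * c⁻¹ by group, show u * (t * c) * c⁻¹ = u * t by group] at this
      exact this.symm
    have h3 : g * c⁻¹ = 1 := by
      apply hUg
      · rw [h2]; exact U.mul_mem hu ((hT t).1 ht).1
      · exact (zpowers g).mul_mem (mem_zpowers g) ((zpowers g).inv_mem ((hC c).1 hc).1)
    have h4 : g = c := mul_inv_eq_one.1 h3
    rw [← h4] at hc
    exact hne (((hC g).1 hc).2 u₀ hu₀).symm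
  · intro k
    obtain ⟨h, rfl⟩ := hπs k
    obtain ⟨u, hu, i, rfl⟩ := hgen h
    have hpow : ∀ n : ℕ, ∃ u' ∈ U, (u * g ^ i) ^ n = u' * (g ^ i) ^ n := by
      intro n
      induction n with
      | zero => exact ⟨1, U.one_mem, by simp⟩
      | succ n ih =>
        obtain ⟨u', hu', e⟩ := ih
        refine ⟨u' * ((g ^ i) ^ n * u * ((g ^ i) ^ n)⁻¹), U.mul_mem hu' (hUn.conj_mem u hu _), ?_⟩
        rw [pow_succ, e, pow_succ]
        group
    obtain ⟨u', hu', e⟩ := hpow (orderOf g)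
    rw [hgpow _ ⟨i, rfl⟩, mul_one] at e
    rw [← map_pow, e]
    exact ⟨u', hu', rfl⟩
  · rintro _ ⟨u, hu, rfl⟩ hv1 k hk
    obtain ⟨h, rfl⟩ := hπs k
    obtain ⟨u₁, hu₁, i, rfl⟩ := hgen h
    set a := g ^ i with ha
    have haz : a ∈ zpowers g := ⟨i, rfl⟩
    have huT : u ∉ T := by
      intro h0
      apply hv1
      rw [hπ1]
      exact (le_sup_left : T ≤ N) h0
    have hz : (u * (u₁ * a))⁻¹ * ((u₁ * a) * u) ∈ N := by
      rw [← hπ1, map_mul, map_inv, map_mul, map_mul π (u₁ * a) u, hk, inv_mul_cancel]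
    have hzU : (u * (u₁ * a))⁻¹ * ((u₁ * a) * u) ∈ U := by
      have : (u * (u₁ * a))⁻¹ * ((u₁ * a) * u) = a⁻¹ * (u₁⁻¹ * u⁻¹ * u₁) * a⁻¹⁻¹ * u := by group
      rw [this]
      exact U.mul_mem (hUn.conj_mem _ (U.mul_mem (U.mul_mem (U.inv_mem hu₁) (U.inv_mem hu)) hu₁) _) hu
    have hzT := F6 _ hzU hz
    have hcT : u⁻¹ * (a * u * a⁻¹) ∈ T := by
      have h1 : u⁻¹ * (a * u * a⁻¹) =
          ⁅u₁⁻¹, u⁻¹⁆⁻¹ * (a * ((u * (u₁ * a))⁻¹ * ((u₁ * a) * u)) * a⁻¹) := by
        rw [commutatorElement_def]; group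
      rw [h1]
      exact T.mul_mem (T.inv_mem (F2 (commutator_mem_commutator (U.inv_mem hu₁) (U.inv_mem hu))))
        (hTn.conj_mem _ hzT a)
    have hau : a * u = u * a := F1 a haz u hu (hTpow _ hcT a haz)
    set W : Subgroup H := U ⊓ centralizer {a} with hWdef
    have hW : ∀ w, w ∈ W ↔ w ∈ U ∧ a * w = w * a := by
      intro t
      rw [hWdef, mem_inf, mem_centralizer_iff]
      simp
    have hga : g * a = a * g := by
      rw [ha, ← zpow_one_add, ← zpow_add_one, add_comm]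
    by_cases hWU : W = U
    · have haC : a ∈ C := by
        rw [hC]
        refine ⟨haz, fun w hw => ?_⟩
        rw [← hWU] at hw
        exact ((hW w).1 hw).2.symm
      have : π (u₁ * a) = π u₁ := by
        rw [map_mul, (hπ1 a).2 ((le_sup_right : C ≤ N) haC), mul_one]
      rw [this]
      exact ⟨u₁, hu₁, rfl⟩
    · exfalso
      have hlt : W < U := lt_of_le_of_ne inf_le_left hWU
      apply huT
      rw [hT]
      refine ⟨hu, hmin W hlt ?_ u ((hW u).2 ⟨hu, hau⟩)⟩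
      intro w hw
      rw [hW] at hw ⊢
      refine ⟨hUn.conj_mem w hw.1 g, ?_⟩
      calc a * (g * w * g⁻¹) = (a * g) * w * g⁻¹ := by group
        _ = g * (a * w) * g⁻¹ := by rw [← hga]; group
        _ = g * w * (a * g⁻¹) := by rw [hw.2]; group
        _ = g * w * (g⁻¹ * (g * a) * g⁻¹) := by group
        _ = g * w * g⁻¹ * a := by rw [hga]; group

theorem exists_min {G : Type*} [Group G] [Finite G] {p : ℕ} (h : ¬ FrobHyp p G) :
    ∃ (U : Subgroup G) (g : G), IsPGroup p U ∧ g ∈ normalizer (U : Set G) ∧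
      (orderOf g).Coprime p ∧ g ∉ centralizer (U : Set G) ∧
      ∀ W : Subgroup G, W < U → g ∈ normalizer (W : Set G) → g ∈ centralizer (W : Set G) := by
  classical
  let S : Set (Subgroup G) := {Q | IsPGroup p Q ∧ ∃ g ∈ normalizer (Q : Set G),
    (orderOf g).Coprime p ∧ g ∉ centralizer (Q : Set G)}
  have hS : S.Nonempty := by
    unfold FrobHyp at h
    push Not at h
    obtain ⟨Q, hQ, g, hg, ho, hc⟩ := h
    exact ⟨Q, hQ, g, hg, ho, hc⟩
  obtain ⟨U, hUS, hUmin⟩ := WellFounded.has_min (wellFounded_lt (α := Subgroup G)) S hS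
  obtain ⟨hU, g, hg, ho, hc⟩ := hUS
  refine ⟨U, g, hU, hg, ho, hc, ?_⟩
  intro W hlt hgW
  by_contra hcon
  exact hUmin W ⟨hU.to_le hlt.le, g, hgW, ho, hcon⟩ hlt

theorem result' {G : Type*} [Group G] [Finite G] (p : ℕ) [hp : Fact p.Prime] :
    Cfsg.HasNormalPComplement p G ↔
      ∀ (H : Subgroup G) (N : Subgroup H) [N.Normal], Cfsg.pPrimeCore p (H ⧸ N) = ⊥ →
        ∃ k : H ⧸ N, orderOf k = Monoid.exponent (H ⧸ N) := by
  constructor
  · intro hG H N _ hcore
    obtain ⟨M, hM⟩ := hasNormalPComplement_iff.1 hG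
    obtain ⟨hn, hcop, k, hk⟩ := hM.subgroupOf H
    have hle : M.subgroupOf H ≤ N := by
      have h1 : (M.subgroupOf H).map (QuotientGroup.mk' N) ≤ pPrimeCore p (H ⧸ N) := by
        apply le_sSup
        exact ⟨hn.map _ (QuotientGroup.mk'_surjective N),
          Nat.Coprime.coprime_dvd_left (card_map_dvd _ _) hcop⟩
      rw [hcore, le_bot_iff, Subgroup.map_eq_bot_iff, QuotientGroup.ker_mk'] at h1
      exact h1
    have hcard : Nat.card (H ⧸ N) ∣ p ^ k := by
      rw [← hk]; exact index_dvd_of_le hle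
    obtain ⟨k₀, hk₀⟩ := Finite.exists_max (fun x : H ⧸ N => orderOf x)
    refine ⟨k₀, Nat.dvd_antisymm (Monoid.order_dvd_exponent _)
      (Monoid.exponent_dvd_of_forall_pow_eq_one ?_)⟩
    intro x
    obtain ⟨a, -, ha⟩ := (Nat.dvd_prime_pow hp.out).1 ((orderOf_dvd_natCard x).trans hcard)
    obtain ⟨b, -, hb⟩ := (Nat.dvd_prime_pow hp.out).1 ((orderOf_dvd_natCard k₀).trans hcard)
    have h1 : orderOf x ≤ orderOf k₀ := hk₀ x
    rw [ha, hb] at h1
    have hab : a ≤ b := (Nat.pow_le_pow_iff_right hp.out.one_lt).1 h1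
    apply orderOf_dvd_iff_pow_eq_one.1
    rw [ha, hb]
    exact pow_dvd_pow p hab
  · intro h
    rw [hasNormalPComplement_iff]
    apply Cfsg.Agent.Lib.Helper1_FrobPNil.frobenius
    by_contra hF
    obtain ⟨U, g, hU, hgU, ho, hc, hmin⟩ := exists_min hF
    have hzU : zpowers g ≤ normalizer (U : Set G) := by rwa [zpowers_le]
    set H : Subgroup G := U ⊔ zpowers g with hH
    have hUH : U ≤ H := le_sup_left
    have hgH : g ∈ H := (le_sup_right : zpowers g ≤ H) (mem_zpowers g)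
    have hHn : H ≤ normalizer (U : Set G) := sup_le le_normalizer hzU
    haveI hUn : (U.subgroupOf H).Normal := normal_subgroupOf_of_le_normalizer hHn
    have hmem : ∀ x ∈ H, ∃ u ∈ U, ∃ i : ℤ, x = u * g ^ i := by
      intro x hx
      have h1 : x ∈ ((U ⊔ zpowers g : Subgroup G) : Set G) := hx
      rw [coe_mul_of_right_le_normalizer_left U (zpowers g) hzU] at h1
      obtain ⟨u, hu, _, ⟨i, rfl⟩, rfl⟩ := h1
      exact ⟨u, hu, i, rfl⟩
    rw [mem_centralizer_iff] at hc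
    push Not at hc
    obtain ⟨u₀, hu₀, hne⟩ := hc
    have A1 : ∀ x : H, ∃ u ∈ U.subgroupOf H, ∃ i : ℤ, x = u * (⟨g, hgH⟩ : H) ^ i := by
      intro x
      obtain ⟨u, hu, i, e⟩ := hmem x.1 x.2
      refine ⟨⟨u, hUH hu⟩, mem_subgroupOf.2 hu, i, ?_⟩
      ext
      simpa using e
    have A2 : (⟨g, hgH⟩ : H) * ⟨u₀, hUH hu₀⟩ ≠ ⟨u₀, hUH hu₀⟩ * ⟨g, hgH⟩ := by
      intro h0
      exact hne (congrArg Subtype.val h0).symm
    have A3 : ∀ W : Subgroup H, W < U.subgroupOf H →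
        (∀ w ∈ W, (⟨g, hgH⟩ : H) * w * (⟨g, hgH⟩ : H)⁻¹ ∈ W) →
        ∀ w ∈ W, (⟨g, hgH⟩ : H) * w = w * ⟨g, hgH⟩ := by
      intro W hW hinv w hw
      have hlt : W.map H.subtype < U := by
        have h1 : W.map H.subtype < (U.subgroupOf H).map H.subtype :=
          (map_subtype_lt_map_subtype).2 hW
        rwa [subgroupOf_map_subtype, inf_eq_left.2 hUH] at h1
      have hgW : g ∈ normalizer ((W.map H.subtype : Subgroup G) : Set G) := by
        apply Cfsg.Agent.Lib.Helper7_Max.mem_normalizer_of_conj_mem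
        rintro _ ⟨d, hd, rfl⟩
        exact ⟨_, hinv d hd, rfl⟩
      have h1 := (mem_centralizer_iff.1 (hmin _ hlt hgW)) (w : G) ⟨w, hw, rfl⟩
      ext
      exact h1.symm
    obtain ⟨N, hN, hcore, hno⟩ := lemR (p := p) (U.subgroupOf H)
      (hU.comap_of_injective H.subtype H.subtype_injective) (⟨g, hgH⟩ : H)
      (by rwa [Subgroup.orderOf_mk]) A1 (u₀ := ⟨u₀, hUH hu₀⟩) (mem_subgroupOf.2 hu₀) A2 A3
    exact hno (h H N hcore)

/-- Let G be a finite group and p a prime. Then G has a normal p-complement if and only if every section K = H/N of G (N a normal subgroup of a subgroup H) whose largest normal subgroup of order prime to p is trivial contains an element whose order equals the exponent of K. -/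
theorem result {G : Type*} [Group G] [Finite G] (p : ℕ) [Fact p.Prime] :
    Cfsg.HasNormalPComplement p G ↔
      ∀ (H : Subgroup G) (N : Subgroup H) [N.Normal], Cfsg.pPrimeCore p (H ⧸ N) = ⊥ →
        ∃ k : H ⧸ N, orderOf k = Monoid.exponent (H ⧸ N) := by
  exact result' p

end Cfsg.Agent.S4238
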