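import Cfsg.Statements.S4251
import Cfsg.Agent.Lib.Helper4_Frobenius
import Cfsg.Agent.Lib.Helper4_PSol

set_option autoImplicit false
open Cfsg

namespace Cfsg.Agent.S4251

open Cfsg.Agent.Lib.Helper4_Syl Cfsg.Agent.Lib.Helper4_Alperin Cfsg.Agent.Lib.Helper4_Alperin2 Cfsg.Agent.Lib.Helper4_Frobenius in
theorem ind_of_fusS {G : Type*} [Group G] [Finite G] {p : ℕ} [Fact p.Prime] (P : Sylow p G)
    (hstep : ∀ T x, TameStep p (P : Subgroup G) T x → x ∈ Subgroup.normalizer (T : Set G) →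
      ∃ r ∈ (P : Subgroup G), ∀ a ∈ T, x⁻¹ * a * x = r⁻¹ * a * r)
    {A : Subgroup G} {g : G} (h : FusS (TameStep p (P : Subgroup G)) A g) :
    ∃ u ∈ (P : Subgroup G), ∀ a ∈ A, g⁻¹ * a * g = u⁻¹ * a * u := by
  induction h with
  | nil A => exact ⟨1, Subgroup.one_mem _, fun a _ => by simp⟩
  | @cons A T x g hT hx hA _ ih =>
    obtain ⟨r, hr, hxr⟩ := hstep T x hT hx
    obtain ⟨u, hu, hgu⟩ := ih
    refine ⟨r * u, Subgroup.mul_mem _ hr hu, fun a ha => ?_⟩
    have h1 := hgu _ (conj_mem_cj (g := x) ha)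
    calc (x * g)⁻¹ * a * (x * g) = g⁻¹ * (x⁻¹ * a * x) * g := by group
      _ = u⁻¹ * (x⁻¹ * a * x) * u := h1
      _ = u⁻¹ * (r⁻¹ * a * r) * u := by rw [hxr a (hA ha)]
      _ = (r * u)⁻¹ * a * (r * u) := by group

open Cfsg.Agent.Lib.Helper4_Syl Cfsg.Agent.Lib.Helper4_Alperin Cfsg.Agent.Lib.Helper4_Alperin2 Cfsg.Agent.Lib.Helper4_Frobenius in
theorem aux {G : Type*} [Group G] [Finite G] (p : ℕ) [Fact p.Prime] (P : Sylow p G)
    (h : ∀ Q : Sylow p G, (P : Subgroup G) ⊓ (Q : Subgroup G) ≠ ⊥ → (¬ p ∣ ((P : Subgroup G) ⊓ Subgroup.normalizer (((P : Subgroup G) ⊓ (Q : Subgroup G) : Subgroup G) : Set G)).relIndex (Subgroup.normalizer (((P : Subgroup G) ⊓ (Q : Subgroup G) : Subgroup G) : Set G)) ∧ ¬ p ∣ ((Q : Subgroup G) ⊓ Subgroup.normalizer (((P : Subgroup G) ⊓ (Q : Subgroup G) : Subgroup G) : Set G)).relIndex (Subgroup.normalizer (((P : Subgroup G) ⊓ (Q : Subgroup G) : Subgroup G) : Set G))) →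
      IsPGroup p (Subgroup.normalizer (((P : Subgroup G) ⊓ (Q : Subgroup G) : Subgroup G) : Set G) ⧸
        (Subgroup.centralizer (((P : Subgroup G) ⊓ (Q : Subgroup G) : Subgroup G) : Set G)).subgroupOf
          (Subgroup.normalizer (((P : Subgroup G) ⊓ (Q : Subgroup G) : Subgroup G) : Set G)))) :
    Cfsg.HasNormalPComplement p G := by
  rw [← pnil_iff_hasNormalPComplement]
  apply frobenius_pnil
  have hstep : ∀ T x, TameStep p (P : Subgroup G) T x → x ∈ Subgroup.normalizer (T : Set G) →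
      ∃ r ∈ (P : Subgroup G), ∀ a ∈ T, x⁻¹ * a * x = r⁻¹ * a * r := by
    rintro T x ⟨Q, hTQ, hFN1, hFN2, -⟩ hx
    by_cases hT : T = ⊥
    · refine ⟨1, Subgroup.one_mem _, fun a ha => ?_⟩
      rw [hT, Subgroup.mem_bot] at ha
      rw [ha]; simp
    · have h1 := h Q (hTQ ▸ hT) ⟨by rw [← hTQ]; exact (fn_iff_relIndex P.2).1 hFN1,
        by rw [← hTQ]; exact (fn_iff_relIndex Q.2).1 hFN2⟩
      rw [← hTQ] at h1
      have hC : ∀ g ∈ Subgroup.normalizer (T : Set G), (orderOf g).Coprime p →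
          g ∈ Subgroup.centralizer (T : Set G) := by
        intro g hg hgc
        obtain ⟨k, hk⟩ := h1 (QuotientGroup.mk ⟨g, hg⟩)
        rw [← QuotientGroup.mk_pow, QuotientGroup.eq_one_iff, Subgroup.mem_subgroupOf] at hk
        have hk' : g ^ p ^ k ∈ Subgroup.centralizer (T : Set G) := by simpa using hk
        have h2 : g ^ orderOf g ∈ Subgroup.centralizer (T : Set G) := by
          rw [pow_orderOf_eq_one]; exact Subgroup.one_mem _
        exact Cfsg.Agent.Lib.Helper4_PSol.mem_of_pow_mem_coprime hk' h2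
          (Nat.Coprime.pow_left k hgc.symm)
      obtain ⟨u, hu, r, hr, rfl⟩ := exists_mul_of_sylow hFN1 hC hx
      refine ⟨r, hr.1, fun a ha => ?_⟩
      have h3 := Subgroup.mem_centralizer_iff.1 hu a ha
      calc (u * r)⁻¹ * a * (u * r) = r⁻¹ * (u⁻¹ * (a * u)) * r := by group
        _ = r⁻¹ * a * r := by rw [h3]; group
  apply frobHyp_of_sylow P
  intro Q hQ g hg hgc
  have hcj : cj g Q = Q := mem_normalizer_iff_cj.1 hg
  obtain ⟨u, hu, hgu⟩ := ind_of_fusS P hstep (alperin_tame P Q g hQ (hcj.le.trans hQ))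
  have hinv : ∀ a ∈ Q, g⁻¹ * a * g ∈ Q := by
    intro a ha
    have := conj_mem_cj (g := g) ha
    rwa [hcj] at this
  have hpow : ∀ k : ℕ, ∀ a ∈ Q, (g ^ k)⁻¹ * a * g ^ k = (u ^ k)⁻¹ * a * u ^ k := by
    intro k
    induction k with
    | zero => intro a _; simp
    | succ k ih =>
      intro a ha
      calc (g ^ (k + 1))⁻¹ * a * g ^ (k + 1) = (g ^ k)⁻¹ * (g⁻¹ * a * g) * g ^ k := by
            rw [pow_succ']; group
        _ = (u ^ k)⁻¹ * (g⁻¹ * a * g) * u ^ k := ih _ (hinv a ha)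
        _ = (u ^ k)⁻¹ * (u⁻¹ * a * u) * u ^ k := by rw [hgu a ha]
        _ = (u ^ (k + 1))⁻¹ * a * u ^ (k + 1) := by rw [pow_succ']; group
  obtain ⟨k, hk⟩ := P.2 ⟨u, hu⟩
  have hk' : u ^ p ^ k = 1 := by simpa using congrArg Subtype.val hk
  have h1 : g ^ p ^ k ∈ Subgroup.centralizer (Q : Set G) := by
    rw [Subgroup.mem_centralizer_iff]
    intro a ha
    have h2 := hpow (p ^ k) a ha
    rw [hk'] at h2
    have h3 : (g ^ p ^ k)⁻¹ * a * g ^ p ^ k = a := by simpa using h2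
    calc a * g ^ p ^ k = g ^ p ^ k * ((g ^ p ^ k)⁻¹ * a * g ^ p ^ k) := by group
      _ = g ^ p ^ k * a := by rw [h3]
  have h2 : g ^ orderOf g ∈ Subgroup.centralizer (Q : Set G) := by
    rw [pow_orderOf_eq_one]; exact Subgroup.one_mem _
  exact Cfsg.Agent.Lib.Helper4_PSol.mem_of_pow_mem_coprime h1 h2 (Nat.Coprime.pow_left k hgc.symm)

/-- Let P be a Sylow p-subgroup of a finite group G. Call an intersection H = P ∩ Q with a Sylow p-subgroup Q tame when N_P(H) and N_Q(H) are Sylow p-subgroups of N_G(H). If N_G(H)/C_G(H) is a p-group for every nontrivial tame intersection H = P ∩ Q, then G has a normal p-complement. -/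
theorem result {G : Type*} [Group G] [Finite G] (p : ℕ) [Fact p.Prime] (P : Sylow p G)
    (h : ∀ Q : Sylow p G, (P : Subgroup G) ⊓ (Q : Subgroup G) ≠ ⊥ → (¬ p ∣ ((P : Subgroup G) ⊓ Subgroup.normalizer (((P : Subgroup G) ⊓ (Q : Subgroup G) : Subgroup G) : Set G)).relIndex (Subgroup.normalizer (((P : Subgroup G) ⊓ (Q : Subgroup G) : Subgroup G) : Set G)) ∧ ¬ p ∣ ((Q : Subgroup G) ⊓ Subgroup.normalizer (((P : Subgroup G) ⊓ (Q : Subgroup G) : Subgroup G) : Set G)).relIndex (Subgroup.normalizer (((P : Subgroup G) ⊓ (Q : Subgroup G) : Subgroup G) : Set G))) →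
      IsPGroup p (Subgroup.normalizer (((P : Subgroup G) ⊓ (Q : Subgroup G) : Subgroup G) : Set G) ⧸
        (Subgroup.centralizer (((P : Subgroup G) ⊓ (Q : Subgroup G) : Subgroup G) : Set G)).subgroupOf
          (Subgroup.normalizer (((P : Subgroup G) ⊓ (Q : Subgroup G) : Subgroup G) : Set G)))) :
    Cfsg.HasNormalPComplement p G := by
  exact aux p P h

end Cfsg.Agent.S4251
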