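import Cfsg.Statements.S4252

import Cfsg.Agent.Lib.Helper7_Conj
set_option autoImplicit false
open Cfsg

namespace Cfsg.Agent.S4252

open Cfsg.Agent.Lib.Helper7_Conj
open scoped Pointwise

/-- Let a finite group G act on a finite set Ω with more than one point, transitively but not regularly, so that no non-identity element of G fixes two distinct points. Then the stabilizer H of any point is a Frobenius complement in G (nontrivial, proper, meeting its other conjugates trivially), and the Frobenius kernel of G with respect to H (the identity together with the elements lying in no conjugate of H) is exactly the set consisting of the identity and the elements fixing no point. -/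
theorem result {G Ω : Type*} [Group G] [Finite G] [Fintype Ω] [MulAction G Ω] (hΩ : 1 < Fintype.card Ω)
    (htrans : ∀ α β : Ω, ∃ g : G, g • α = β) (hnreg : ∃ g : G, g ≠ 1 ∧ ∃ α : Ω, g • α = α)
    (hfix : ∀ g : G, g ≠ 1 → ∀ α β : Ω, g • α = α → g • β = β → α = β) (α : Ω) :
    Cfsg.IsFrobeniusComplement (MulAction.stabilizer G α) ∧
      Cfsg.frobeniusKernel (MulAction.stabilizer G α) = {g : G | g = 1 ∨ ∀ ω : Ω, g • ω ≠ ω} := by
  have key : ∀ x g : G, x ∈ MulAut.conj g • MulAction.stabilizer G α ↔ x • (g • α) = g • α := by
    intro x g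
    rw [mem_smul_conj, MulAction.mem_stabilizer_iff, mul_smul, mul_smul, inv_smul_eq_iff]
  refine ⟨⟨?_, ?_, ?_⟩, ?_⟩
  · obtain ⟨g, hg, β, hβ⟩ := hnreg
    obtain ⟨k, rfl⟩ := htrans α β
    intro hbot
    have h1 : k⁻¹ * g * k ∈ MulAction.stabilizer G α := by
      rw [MulAction.mem_stabilizer_iff, mul_smul, mul_smul, inv_smul_eq_iff]; exact hβ
    rw [hbot, Subgroup.mem_bot] at h1
    apply hg
    have : g = k * (k⁻¹ * g * k) * k⁻¹ := by group
    rw [this, h1]; group
  · intro htop
    have hall : ∀ β : Ω, β = α := by
      intro β
      obtain ⟨k, rfl⟩ := htrans α β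
      have : k ∈ MulAction.stabilizer G α := by rw [htop]; trivial
      exact this
    have : Fintype.card Ω ≤ 1 := Fintype.card_le_one_iff.2 (fun a b => by rw [hall a, hall b])
    omega
  · intro g hg
    rw [eq_bot_iff]
    intro x hx
    obtain ⟨hx1, hx2⟩ := Subgroup.mem_inf.1 hx
    rw [key] at hx2
    rw [Subgroup.mem_bot]
    by_contra hx0
    exact hg (hfix x hx0 α (g • α) hx1 hx2).symm
  · ext x
    simp only [Cfsg.frobeniusKernel, Set.mem_setOf_eq, key]
    constructor
    · rintro (h | h)
      · exact Or.inl h
      · right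
        intro ω
        obtain ⟨k, rfl⟩ := htrans α ω
        exact h k
    · rintro (h | h)
      · exact Or.inl h
      · exact Or.inr (fun g => h _)

end Cfsg.Agent.S4252
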