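import Cfsg.Statements.S4253

import Cfsg.Agent.Lib.Helper7_Conj
set_option autoImplicit false
open Cfsg

namespace Cfsg.Agent.S4253

open Cfsg.Agent.Lib.Helper7_Conj
open scoped Pointwise

/-- Let H be a Frobenius complement in a finite group G (a nontrivial proper subgroup meeting each conjugate gHg⁻¹ with g outside H trivially). Then in the action of G on the left cosets of H by left multiplication, no non-identity element of G fixes two distinct cosets. -/
theorem result {G : Type*} [Group G] [Finite G] (H : Subgroup G) (hH : Cfsg.IsFrobeniusComplement H)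
    (g : G) (hg : g ≠ 1) (a b : G ⧸ H) (ha : g • a = a) (hb : g • b = b) : a = b := by
  obtain ⟨h1, h2, h3⟩ := hH
  obtain ⟨x, rfl⟩ := QuotientGroup.mk_surjective a
  obtain ⟨y, rfl⟩ := QuotientGroup.mk_surjective b
  by_contra hne
  have hxy : x⁻¹ * y ∉ H := fun h => hne (QuotientGroup.eq.2 h)
  have hx : (g * x)⁻¹ * x ∈ H := QuotientGroup.eq.1 ha
  have hy : (g * y)⁻¹ * y ∈ H := QuotientGroup.eq.1 hb
  have hx' : x⁻¹ * g * x ∈ H := by
    have := inv_mem hx
    convert this using 1; group
  have hy' : y⁻¹ * g * y ∈ H := by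
    have := inv_mem hy
    convert this using 1; group
  have hmem : x⁻¹ * g * x ∈ H ⊓ (MulAut.conj (x⁻¹ * y) • H) := by
    refine Subgroup.mem_inf.2 ⟨hx', mem_smul_conj.2 ?_⟩
    convert hy' using 1; group
  rw [h3 _ hxy, Subgroup.mem_bot] at hmem
  apply hg
  have : g = x * (x⁻¹ * g * x) * x⁻¹ := by group
  rw [this, hmem]; group

end Cfsg.Agent.S4253
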