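import Cfsg.Statements.S4260

import Cfsg.Agent.Lib.Helper7_Class
set_option autoImplicit false
open Cfsg

namespace Cfsg.Agent.S4260

open Cfsg.Agent.Lib.Helper7_Class

/-- Let H be a Hall subgroup of a finite group G (the order of H is coprime to its index) such that x^[G : H] lies in H for every x in G. Then H is normal in G. -/
theorem result {G : Type*} [Group G] [Finite G] (H : Subgroup G) (hHall : (Nat.card H).Coprime H.index)
    (hexp : ∀ x : G, x ^ H.index ∈ H) : H.Normal := by
  have key : ∀ y : G, y ^ Nat.card H = 1 → y ∈ H := by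
    intro y hy
    have h1 : orderOf y ∣ Nat.card H := orderOf_dvd_of_pow_eq_one hy
    have h2 : (H.index).Coprime (orderOf y) := (Nat.Coprime.coprime_dvd_left h1 hHall).symm
    obtain ⟨m, hm⟩ := exists_pow_eq_self_of_coprime h2
    rw [← hm]
    exact pow_mem (hexp y) m
  refine ⟨fun n hn g => key _ ?_⟩
  rw [conj_pow, pow_card_eq_one_of_mem hn]
  group

end Cfsg.Agent.S4260
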