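import Cfsg.Statements.S4263

import Cfsg.Agent.Lib.Helper7_Subnormal
import Cfsg.Agent.Lib.Helper7_Nilp
import Cfsg.Agent.Lib.Helper7_Index
import Cfsg.Agent.Lib.Helper3_Comp
set_option autoImplicit false
open Cfsg

namespace Cfsg.Agent.S4263

open Cfsg.Agent.Lib.Helper7_Subnormal Cfsg.Agent.Lib.Helper7_Nilp Cfsg.Agent.Lib.Helper7_Index
open Cfsg.Agent.Lib.Helper7_Conj

theorem pow_index_mem_of_isSubnormal {F : Type*} [Group F] {D : Subgroup F} (hD : D.IsSubnormal)
    (x : F) : x ^ D.index ∈ D := by
  induction hD with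
  | top => exact Subgroup.mem_top _
  | step D K hle _ hN ih =>
    haveI := hN
    have h1 := Subgroup.pow_index_mem (D.subgroupOf K) ⟨x ^ K.index, ih⟩
    have h2 : (x ^ K.index) ^ D.relIndex K ∈ D := h1
    rwa [← pow_mul, mul_comm, Subgroup.relIndex_mul_index hle] at h2

/-- Let G be a finite group. An element x lies in the Fitting subgroup F(G) if and only if, for every subgroup H of G, the power x^[G : H] lies in H. -/
theorem result {G : Type*} [Group G] [Finite G] (x : G) :
    x ∈ Cfsg.fittingSubgroup G ↔ ∀ H : Subgroup G, x ^ H.index ∈ H := by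
  constructor
  · intro hx H
    set F := Cfsg.fittingSubgroup G with hF
    haveI : F.Normal := Cfsg.Agent.Lib.Helper3_Comp.fittingSubgroup_normal G
    haveI : Group.IsNilpotent F := Cfsg.Agent.Lib.Helper3_Comp.fittingSubgroup_isNilpotent G
    have h1 := pow_index_mem_of_isSubnormal (isSubnormal_of_isNilpotent (H.subgroupOf F)) ⟨x, hx⟩
    have h2 : x ^ H.relIndex F ∈ H := h1
    obtain ⟨c, hc⟩ := relIndex_normal_dvd_index H F
    rw [hc, pow_mul]
    exact H.pow_mem h2 c
  · intro h
    have key : ∀ y : Subgroup.zpowers x,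
        y ∈ (Cfsg.fittingSubgroup G).subgroupOf (Subgroup.zpowers x) := by
      intro y
      apply mem_of_prime_power_parts ((Cfsg.fittingSubgroup G).subgroupOf (Subgroup.zpowers x))
        (fun _ => True) ?_ y (fun _ _ _ => trivial)
      rintro y ⟨q, b, hq, -, hy⟩
      haveI : Fact q.Prime := ⟨hq⟩
      obtain ⟨Q⟩ : Nonempty (Sylow q G) := inferInstance
      have hyo : orderOf (y : G) = q ^ b := by rw [← hy]; exact Subgroup.orderOf_coe y
      obtain ⟨j, hj⟩ := Subgroup.mem_zpowers_iff.1 y.2
      -- y lies in every subgroup of index prime to q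
      have hmem : ∀ H : Subgroup G, H.index.Coprime q → (y : G) ∈ H := by
        intro H hH
        have h1 : (y : G) ^ H.index ∈ H := by
          rw [← hj, ← zpow_natCast, ← zpow_mul, mul_comm, zpow_mul, zpow_natCast]
          exact H.zpow_mem (h H) j
        obtain ⟨t, ht⟩ := exists_pow_eq_self_of_coprime (x := (y : G)) (n := H.index)
          (by rw [hyo]; exact Nat.Coprime.pow_right _ hH)
        rw [← ht]
        exact H.pow_mem h1 t
      have hcore : (y : G) ∈ (Q : Subgroup G).normalCore := by
        intro c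
        have h1 : (y : G) ∈ (Q : Subgroup G).map (MulAut.conj c⁻¹).toMonoidHom := by
          apply hmem
          rw [Subgroup.index_map_of_bijective (MulAut.conj c⁻¹).bijective]
          exact ((Nat.Prime.coprime_iff_not_dvd hq).2 Q.not_dvd_index).symm
        rw [mem_cj] at h1
        simpa using h1
      have hle : (Q : Subgroup G).normalCore ≤ Cfsg.fittingSubgroup G :=
        le_sSup ⟨inferInstance, (Q.isPGroup'.to_le (Subgroup.normalCore_le _)).isNilpotent⟩
      exact hle hcore
    exact key ⟨x, Subgroup.mem_zpowers x⟩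

end Cfsg.Agent.S4263
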