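import Cfsg.Statements.S4269
import Cfsg.Agent.Lib.Helper4_Syl

set_option autoImplicit false
open Cfsg

namespace Cfsg.Agent.S4269

open Cfsg.Agent.Lib.Helper4_Syl
open scoped Pointwise commutatorElement

theorem exists_mul {G : Type*} [Group G] (V : Subgroup G) [V.Normal] (H : Subgroup G)
    (hHV : H ⊔ V = ⊤) (g : G) : ∃ h ∈ H, ∃ v ∈ V, g = h * v := by
  have : g ∈ ((H ⊔ V : Subgroup G) : Set G) := by rw [hHV]; trivial
  rw [Subgroup.mul_normal] at this
  obtain ⟨h, hh, v, hv, rfl⟩ := this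
  exact ⟨h, hh, v, hv, rfl⟩

theorem comm_normal {G : Type*} [Group G] (V : Subgroup G) [V.Normal]
    (hc : ∀ a ∈ V, ∀ b ∈ V, a * b = b * a) (H : Subgroup G) (hHV : H ⊔ V = ⊤)
    (U : Subgroup G) (hUV : U ≤ V) (hU : ∀ h ∈ H, U.map (MulAut.conj h).toMonoidHom = U) :
    ⁅H, U⁆ ≤ U ∧ (⁅H, U⁆).Normal := by
  have hle : ⁅H, U⁆ ≤ U := by
    rw [Subgroup.commutator_le]
    intro h hh u hu
    rw [commutatorElement_def]
    refine U.mul_mem ?_ (U.inv_mem hu)
    have : h * u * h⁻¹ ∈ U.map (MulAut.conj h).toMonoidHom := ⟨u, hu, rfl⟩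
    rwa [hU h hh] at this
  refine ⟨hle, ?_⟩
  constructor
  intro n hn g
  obtain ⟨h, hh, v, hv, rfl⟩ := exists_mul V H hHV g
  have e1 : h * v * n * (h * v)⁻¹ = h * n * h⁻¹ := by
    have := hc v hv n (hUV (hle hn))
    calc h * v * n * (h * v)⁻¹ = h * (v * n) * v⁻¹ * h⁻¹ := by group
      _ = h * (n * v) * v⁻¹ * h⁻¹ := by rw [this]
      _ = h * n * h⁻¹ := by group
  rw [e1]
  have e2 : (⁅H, U⁆).map (MulAut.conj h).toMonoidHom = ⁅H, U⁆ := by
    rw [Subgroup.map_commutator, hU h hh]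
    have : H.map (MulAut.conj h).toMonoidHom = H := conj_smul_eq_of_mem hh
    rw [this]
  rw [← e2]
  exact ⟨n, hn, rfl⟩

/-- Let G be a finite group, V an abelian normal subgroup and H a subgroup with HV = G. Then H is pronormal in G (H and gHg⁻¹ are conjugate inside the subgroup they generate, for every g) if and only if every H-invariant subgroup U of V satisfies U = N_U(H)·[H, U], that is, U is the join of U ∩ N_G(H) and the commutator subgroup [H, U]. -/
theorem result {G : Type*} [Group G] [Finite G]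
    (V : Subgroup G) [V.Normal] (hV : IsMulCommutative ↥V) (H : Subgroup G) (hHV : H ⊔ V = ⊤) :
    Cfsg.IsPronormal H ↔
      ∀ U : Subgroup G, U ≤ V → (∀ h ∈ H, U.map (MulAut.conj h).toMonoidHom = U) →
        U = (U ⊓ Subgroup.normalizer (H : Set G)) ⊔ ⁅H, U⁆ := by
  have hc : ∀ a ∈ V, ∀ b ∈ V, a * b = b * a := by
    intro a ha b hb
    have := hV.is_comm.comm (⟨a, ha⟩ : V) ⟨b, hb⟩
    simpa using congrArg Subtype.val this
  constructor
  · intro hpro U hUV hU
    obtain ⟨hle, hn⟩ := comm_normal V hc H hHV U hUV hU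
    apply le_antisymm
    · intro u hu
      obtain ⟨x, hx, hxe⟩ := hpro u
      have h1 : H ⊔ H.map (MulAut.conj u).toMonoidHom ≤ ⁅H, U⁆ ⊔ H := by
        rw [sup_le_iff]
        refine ⟨le_sup_right, ?_⟩
        rintro _ ⟨h, hh, rfl⟩
        have e : (MulAut.conj u).toMonoidHom h = ⁅h, u⁆⁻¹ * h := by
          rw [commutatorElement_def]
          simp only [MulEquiv.toMonoidHom_eq_coe, MonoidHom.coe_coe, MulAut.conj_apply]
          group
        rw [e]
        exact Subgroup.mul_mem _ (Subgroup.inv_mem _ (Subgroup.mem_sup_left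
          (Subgroup.commutator_mem_commutator hh hu))) (Subgroup.mem_sup_right hh)
      have h2 : x ∈ ((⁅H, U⁆ ⊔ H : Subgroup G) : Set G) := h1 hx
      rw [Subgroup.normal_mul] at h2
      obtain ⟨w, hw, h, hh, rfl⟩ := h2
      have h3 : MulAut.conj u • H = MulAut.conj (w * h) • H := hxe
      rw [conj_mul_smul, conj_smul_eq_of_mem hh] at h3
      have h4 : w⁻¹ * u ∈ Subgroup.normalizer (H : Set G) := by
        rw [mem_normalizer_iff_conj_smul, conj_mul_smul, h3, conj_inv_smul_smul]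
      have h5 : u = (w⁻¹ * u) * w := by
        have := hc (w⁻¹ * u) (hUV (U.mul_mem (U.inv_mem (hle hw)) hu)) w (hUV (hle hw))
        rw [this]; group
      rw [h5]
      exact Subgroup.mul_mem _ (Subgroup.mem_sup_left ⟨U.mul_mem (U.inv_mem (hle hw)) hu, h4⟩)
        (Subgroup.mem_sup_right hw)
    · rw [sup_le_iff]
      exact ⟨inf_le_left, hle⟩
  · intro hcond g
    obtain ⟨h0, hh0, v0, hv0, hg0⟩ := exists_mul V H hHV g⁻¹
    -- g = v * h
    obtain ⟨v, hv, h, hh, rfl⟩ : ∃ v ∈ V, ∃ h ∈ H, g = v * h := by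
      refine ⟨v0⁻¹, V.inv_mem hv0, h0⁻¹, H.inv_mem hh0, ?_⟩
      rw [← mul_inv_rev, ← hg0, inv_inv]
    set U := Subgroup.normalClosure ({v} : Set G) with hUdef
    have hUV : U ≤ V := Subgroup.normalClosure_le_normal (by simpa using hv)
    have hU : ∀ h ∈ H, U.map (MulAut.conj h).toMonoidHom = U := by
      intro h _
      exact conj_smul_eq_of_normal U h
    obtain ⟨hle, hn⟩ := comm_normal V hc H hHV U hUV hU
    have hvU : v ∈ U := Subgroup.subset_normalClosure (Set.mem_singleton v)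
    have e0 : MulAut.conj (v * h) • H = MulAut.conj v • H := by
      rw [conj_mul_smul, conj_smul_eq_of_mem hh]
    show ∃ x ∈ H ⊔ MulAut.conj (v * h) • H, MulAut.conj (v * h) • H = MulAut.conj x • H
    rw [e0]
    set L := H ⊔ MulAut.conj v • H with hL
    have hHL : H ≤ L := le_sup_left
    have hvL : ∀ k ∈ H, v * k * v⁻¹ ∈ L := fun k hk =>
      Subgroup.mem_sup_right (conj_mem_conj_smul hk)
    have hWL : ⁅H, U⁆ ≤ L := by
      rw [Subgroup.commutator_le]
      intro k hk u hu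
      revert k
      have hu' : u ∈ Subgroup.closure (Group.conjugatesOfSet ({v} : Set G)) := hu
      induction hu' using Subgroup.closure_induction with
      | mem u hu1 =>
        intro k hk
        rw [Group.mem_conjugatesOfSet_iff] at hu1
        obtain ⟨a, ha, hau⟩ := hu1
        rw [Set.mem_singleton_iff] at ha
        subst ha
        rw [isConj_iff] at hau
        obtain ⟨c, rfl⟩ := hau
        obtain ⟨h1, hh1, v1, hv1, rfl⟩ := exists_mul V H hHV c
        have e1 : h1 * v1 * a * (h1 * v1)⁻¹ = h1 * a * h1⁻¹ := by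
          have := hc v1 hv1 a hv
          calc h1 * v1 * a * (h1 * v1)⁻¹ = h1 * (v1 * a) * v1⁻¹ * h1⁻¹ := by group
            _ = h1 * (a * v1) * v1⁻¹ * h1⁻¹ := by rw [this]
            _ = h1 * a * h1⁻¹ := by group
        rw [e1, commutatorElement_def]
        have e2 : k * (h1 * a * h1⁻¹) * k⁻¹ * (h1 * a * h1⁻¹)⁻¹ =
            h1 * ((h1⁻¹ * k * h1) * (a * (h1⁻¹ * k * h1)⁻¹ * a⁻¹)) * h1⁻¹ := by group
        rw [e2]
        have hk' : h1⁻¹ * k * h1 ∈ H := H.mul_mem (H.mul_mem (H.inv_mem hh1) hk) hh1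
        exact L.mul_mem (L.mul_mem (hHL hh1) (L.mul_mem (hHL hk') (hvL _ (H.inv_mem hk'))))
          (L.inv_mem (hHL hh1))
      | one => intro k _; simp
      | mul a b ha hb iha ihb =>
        intro k hk
        have haV : a ∈ V := hUV ha
        have hbV : b ∈ V := hUV hb
        have e : ⁅k, a * b⁆ = ⁅k, a⁆ * ⁅k, b⁆ := by
          rw [commutatorElement_def, commutatorElement_def, commutatorElement_def]
          have hkb : k * b * k⁻¹ ∈ V := ‹V.Normal›.conj_mem b hbV k
          have c1 := hc a⁻¹ (V.inv_mem haV) (k * b * k⁻¹ * b⁻¹) (V.mul_mem hkb (V.inv_mem hbV))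
          calc k * (a * b) * k⁻¹ * (a * b)⁻¹ = k * a * k⁻¹ * ((k * b * k⁻¹ * b⁻¹) * a⁻¹) := by group
            _ = k * a * k⁻¹ * (a⁻¹ * (k * b * k⁻¹ * b⁻¹)) := by rw [c1]
            _ = k * a * k⁻¹ * a⁻¹ * (k * b * k⁻¹ * b⁻¹) := by group
        rw [e]
        exact L.mul_mem (iha ha k hk) (ihb hb k hk)
      | inv a ha iha =>
        intro k hk
        have haV : a ∈ V := hUV ha
        have e : ⁅k, a⁻¹⁆ = ⁅k, a⁆⁻¹ := by
          rw [commutatorElement_def, commutatorElement_def]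
          have hka : k * a⁻¹ * k⁻¹ ∈ V := ‹V.Normal›.conj_mem _ (V.inv_mem haV) k
          have c1 := hc a haV (k * a⁻¹ * k⁻¹) hka
          calc k * a⁻¹ * k⁻¹ * a⁻¹⁻¹ = (k * a⁻¹ * k⁻¹) * a := by group
            _ = a * (k * a⁻¹ * k⁻¹) := c1.symm
            _ = (k * a * k⁻¹ * a⁻¹)⁻¹ := by group
        rw [e]
        exact L.inv_mem (iha ha k hk)
    have h6 := hcond U hUV hU
    have h7 : v ∈ (((U ⊓ Subgroup.normalizer (H : Set G)) ⊔ ⁅H, U⁆ : Subgroup G) : Set G) := by
      rw [← h6]; exact hvU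
    rw [Subgroup.mul_normal] at h7
    obtain ⟨n, hn', w, hw, hnw⟩ := h7
    refine ⟨w, hWL hw, ?_⟩
    have e3 : v = w * n := by
      rw [← hc n (hUV hn'.1) w (hUV (hle hw))]; exact hnw.symm
    rw [e3, conj_mul_smul, mem_normalizer_iff_conj_smul.mp hn'.2]

end Cfsg.Agent.S4269
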