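import Cfsg.Statements.S4275
import Cfsg.Agent.S4023

set_option autoImplicit false
open Cfsg

namespace Cfsg.Agent.S4275



/-- Let G be a transitive group of permutations of a finite set Ω, let o ∈ Ω, and let α be an automorphism of G. Then α is induced by conjugation by a permutation of Ω normalizing G if and only if the image under α of the stabilizer of o fixes some point of Ω. -/
theorem result {Ω : Type*} [Fintype Ω] (G : Subgroup (Equiv.Perm Ω)) (htr : MulAction.IsPretransitive G Ω) (o : Ω) (α : G ≃* G) : (∃ σ : Equiv.Perm Ω, σ ∈ Subgroup.normalizer (G : Set (Equiv.Perm Ω)) ∧ ∀ g : G, ((α g : G) : Equiv.Perm Ω) = σ * (g : Equiv.Perm Ω) * σ⁻¹) ↔ ∃ ω : Ω, ∀ g ∈ (MulAction.stabilizer G o).map α.toMonoidHom, g • ω = ω := by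
  constructor
  · rintro ⟨σ, -, hσ⟩
    refine ⟨σ o, ?_⟩
    rintro _ ⟨g, hg, rfl⟩
    have hg' : (g : Equiv.Perm Ω) o = o := hg
    show ((α g : G) : Equiv.Perm Ω) (σ o) = σ o
    rw [hσ g, Equiv.Perm.mul_apply, Equiv.Perm.mul_apply]
    have h1 : σ⁻¹ (σ o) = o := Equiv.symm_apply_apply σ o
    rw [h1, hg']
  · rintro ⟨ω, hω⟩
    have hex : ∀ x : Ω, ∃ g : G, (g : Equiv.Perm Ω) o = x :=
      fun x => MulAction.exists_smul_eq G o x
    choose γ hγ using hex
    have key : ∀ g : G, ((α (γ ((g : Equiv.Perm Ω) o)) : G) : Equiv.Perm Ω) ω =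
        ((α g : G) : Equiv.Perm Ω) ω := by
      intro g
      have h1 : (γ ((g : Equiv.Perm Ω) o))⁻¹ * g ∈ MulAction.stabilizer G o := by
        rw [MulAction.mem_stabilizer_iff]
        show (((γ ((g : Equiv.Perm Ω) o))⁻¹ * g : G) : Equiv.Perm Ω) o = o
        rw [Subgroup.coe_mul, Subgroup.coe_inv, Equiv.Perm.mul_apply, Equiv.Perm.inv_eq_iff_eq]
        exact (hγ _).symm
      have h2 : ((α ((γ ((g : Equiv.Perm Ω) o))⁻¹ * g) : G) : Equiv.Perm Ω) ω = ω :=
        hω _ ⟨_, h1, rfl⟩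
      rw [map_mul, map_inv, Subgroup.coe_mul, Subgroup.coe_inv, Equiv.Perm.mul_apply,
        Equiv.Perm.inv_eq_iff_eq] at h2
      exact h2.symm
    have hequiv : ∀ (h : G) (x : Ω), ((α (γ ((h : Equiv.Perm Ω) x)) : G) : Equiv.Perm Ω) ω =
        ((α h : G) : Equiv.Perm Ω) (((α (γ x) : G) : Equiv.Perm Ω) ω) := by
      intro h x
      have hx := hγ x
      have h1 : (h : Equiv.Perm Ω) x = ((h * γ x : G) : Equiv.Perm Ω) o := by
        rw [Subgroup.coe_mul, Equiv.Perm.mul_apply, hx]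
      rw [h1, key, map_mul, Subgroup.coe_mul, Equiv.Perm.mul_apply]
    have hsurj : Function.Surjective (fun x => ((α (γ x) : G) : Equiv.Perm Ω) ω) := by
      intro y
      obtain ⟨k, hk⟩ := MulAction.exists_smul_eq G ω y
      obtain ⟨g, rfl⟩ := α.surjective k
      exact ⟨(g : Equiv.Perm Ω) o, (key g).trans hk⟩
    have hbij : Function.Bijective (fun x => ((α (γ x) : G) : Equiv.Perm Ω) ω) :=
      ⟨Finite.injective_iff_surjective.2 hsurj, hsurj⟩
    have hσ : ∀ g : G, ((α g : G) : Equiv.Perm Ω) =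
        (Equiv.ofBijective _ hbij : Equiv.Perm Ω) * g * (Equiv.ofBijective _ hbij : Equiv.Perm Ω)⁻¹ := by
      intro g
      ext y
      rw [Equiv.Perm.mul_apply, Equiv.Perm.mul_apply]
      show _ = ((α (γ ((g : Equiv.Perm Ω) ((Equiv.ofBijective _ hbij : Equiv.Perm Ω)⁻¹ y))) : G) :
        Equiv.Perm Ω) ω
      rw [hequiv]
      have h1 : ((α (γ ((Equiv.ofBijective _ hbij : Equiv.Perm Ω)⁻¹ y)) : G) : Equiv.Perm Ω) ω = y :=
        Equiv.apply_symm_apply (Equiv.ofBijective _ hbij : Equiv.Perm Ω) y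
      rw [h1]
    refine ⟨Equiv.ofBijective _ hbij, ?_, hσ⟩
    apply Cfsg.Agent.S4023.norm_of_conj
    intro s hs
    rw [← hσ ⟨s, hs⟩]
    exact (α ⟨s, hs⟩).2

end Cfsg.Agent.S4275
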