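import Cfsg.Statements.S4333
import Cfsg.Agent.S0066

set_option autoImplicit false
open Pointwise
open Cfsg

namespace Cfsg.Agent.S4333

open Pointwise Cfsg.Agent.Lib.Helper4_Syl Cfsg.Agent.Lib.Helper7_Idx Cfsg.Agent.Lib.Helper7_Subnormal
open Cfsg.Agent.S0066

universe u

theorem aux : ∀ (n : ℕ) (G : Type u) [Group G] [Finite G], Nat.card G = n → ∀ A : Subgroup G,
    (∀ a ∈ A, ∀ g : G, (A.subgroupOf (A ⊔ MulAut.conj (g⁻¹ * a * g) • A)).IsSubnormal) →
    A.IsSubnormal := by
  intro n
  induction n using Nat.strong_induction_on with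
  | _ n ih =>
  intro G _ _ hn A h
  by_contra hns
  have hprop : ∀ H : Subgroup G, A ≤ H → H ≠ ⊤ → (A.subgroupOf H).IsSubnormal := by
    intro H hAH hH
    have hlt : Nat.card H < n := by
      rw [← hn]
      exact lt_of_le_of_ne (Subgroup.card_le_card_group H)
        (fun h => hH ((Subgroup.card_eq_iff_eq_top H).mp h))
    apply ih _ hlt H rfl
    intro a ha g
    apply sn_of_map
    rw [Subgroup.map_sup, map_subtype_conj_smul, Subgroup.map_subgroupOf_eq_of_le hAH]
    exact h a ha g
  have hAtop : A ≠ ⊤ := fun h => hns (h ▸ Subgroup.IsSubnormal.top)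
  obtain ⟨M, hM, hAM⟩ := (eq_top_or_exists_le_coatom _).resolve_left hAtop
  have hconj : ∀ a ∈ A, ∀ g : G, MulAut.conj (g⁻¹ * a * g) • A ≤ M := by
    intro a ha g
    by_cases hJ : A ⊔ MulAut.conj (g⁻¹ * a * g) • A = ⊤
    · exfalso
      have h1 := h a ha g
      rw [hJ] at h1
      exact hns (Subgroup.IsSubnormal.trans le_top h1 Subgroup.IsSubnormal.top)
    · obtain ⟨K, hK, hJK⟩ := (eq_top_or_exists_le_coatom _).resolve_left hJ
      have := zipper _ A rfl hprop hns M K hM hK hAM (le_sup_left.trans hJK)
      rw [this]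
      exact le_sup_right.trans hJK
  have hMn : ¬ M.Normal := fun hn' =>
    hns (Subgroup.IsSubnormal.trans hAM (hprop _ hAM hM.1) hn'.isSubnormal)
  have hNM : Subgroup.normalizer (M : Set G) = M := by
    rcases hM.le_iff.mp (Subgroup.le_normalizer (H := M)) with h1 | h1
    · exact absurd (Subgroup.normalizer_eq_top_iff.mp h1) hMn
    · exact h1
  have hmem : ∀ a ∈ A, ∀ g : G, g⁻¹ * a * g ∈ M := by
    intro a ha g
    set x := g⁻¹ * a * g with hx
    have h1 : A ≤ MulAut.conj x⁻¹ • M := by
      have := Subgroup.pointwise_smul_le_pointwise_smul_iff (a := MulAut.conj x⁻¹) |>.mpr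
        (hconj a ha g)
      rwa [conj_inv_smul_smul] at this
    have h2 : MulAut.conj x⁻¹ • M ≠ ⊤ := by
      intro h
      apply hM.1
      rw [← Subgroup.card_eq_iff_eq_top] at h ⊢
      rw [← h, card_conj_smul]
    obtain ⟨K, hK, hJK⟩ := (eq_top_or_exists_le_coatom _).resolve_left h2
    have h3 := zipper _ A rfl hprop hns M K hM hK hAM (h1.trans hJK)
    rw [← h3] at hJK
    have h4 : MulAut.conj x⁻¹ • M = M :=
      Subgroup.eq_of_le_of_card_ge hJK (card_conj_smul _ M).ge
    have h5 : x⁻¹ ∈ Subgroup.normalizer (M : Set G) := by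
      rw [Subgroup.mem_normalizer_iff]
      intro m
      constructor
      · intro hm
        rw [← h4]
        exact conj_mem_conj_smul hm
      · intro hm
        rw [← h4, mem_conj_smul] at hm
        simpa [mul_assoc] using hm
    rw [hNM] at h5
    simpa using M.inv_mem h5
  have hAN : A ≤ M.normalCore := by
    intro a ha b
    have := hmem a ha b⁻¹
    simpa using this
  have hNtop : M.normalCore ≠ ⊤ := fun h => hM.1 (top_le_iff.mp (h ▸ Subgroup.normalCore_le M))
  exact hns (Subgroup.IsSubnormal.trans hAN (hprop _ hAN hNtop)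
    (Subgroup.normalCore_normal M).isSubnormal)

/-- Let A be a subgroup of a finite group G. If A is subnormal in the subgroup generated by A and its conjugate by g⁻¹ a g, for every a ∈ A and every g ∈ G, then A is subnormal in G. (A sharpening of Wielandt's subnormality criterion: only conjugates of A by conjugates of elements of A are needed.) -/
theorem result {G : Type*} [Group G] [Finite G]
    (A : Subgroup G)
    (h : ∀ a ∈ A, ∀ g : G, (A.subgroupOf (A ⊔ MulAut.conj (g⁻¹ * a * g) • A)).IsSubnormal) :
    A.IsSubnormal := by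
  exact aux _ G rfl A h

end Cfsg.Agent.S4333
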