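import Cfsg.Statements.S4337
import Cfsg.Agent.Lib.CharBurnside
import Cfsg.Agent.Lib.Helper1_Coprime

set_option autoImplicit false
open Cfsg

namespace Cfsg.Agent.S4337

theorem solv_of_dvd48 {K : Type} [Group K] [Finite K] (h : Nat.card K ∣ 24) :
    Group.IsSolvable K := by
  have hmem : Nat.card K ∈ Nat.divisors 24 := Nat.mem_divisors.2 ⟨h, by norm_num⟩
  have hd : Nat.divisors 24 = {1, 2, 3, 4, 6, 8, 12, 24} := by decide
  rw [hd] at hmem
  simp only [Finset.mem_insert, Finset.mem_singleton] at hmem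
  rcases hmem with h | h | h | h | h | h | h | h
  · exact Cfsg.Agent.Lib.CharBurnside.burnside 2 3 0 0 Nat.prime_two Nat.prime_three (by rw [h]; norm_num)
  · exact Cfsg.Agent.Lib.CharBurnside.burnside 2 3 1 0 Nat.prime_two Nat.prime_three (by rw [h]; norm_num)
  · exact Cfsg.Agent.Lib.CharBurnside.burnside 2 3 0 1 Nat.prime_two Nat.prime_three (by rw [h]; norm_num)
  · exact Cfsg.Agent.Lib.CharBurnside.burnside 2 3 2 0 Nat.prime_two Nat.prime_three (by rw [h]; norm_num)
  · exact Cfsg.Agent.Lib.CharBurnside.burnside 2 3 1 1 Nat.prime_two Nat.prime_three (by rw [h]; norm_num)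
  · exact Cfsg.Agent.Lib.CharBurnside.burnside 2 3 3 0 Nat.prime_two Nat.prime_three (by rw [h]; norm_num)
  · exact Cfsg.Agent.Lib.CharBurnside.burnside 2 3 2 1 Nat.prime_two Nat.prime_three (by rw [h]; norm_num)
  · exact Cfsg.Agent.Lib.CharBurnside.burnside 2 3 3 1 Nat.prime_two Nat.prime_three (by rw [h]; norm_num)

theorem solv_of_support {n : ℕ} (X : Finset (Fin n)) (hX : X.card ≤ 4)
    (S : Set (Equiv.Perm (Fin n)))
    (hS : ∀ σ ∈ S, ∃ x y : Fin n, x ∈ X ∧ y ∈ X ∧ σ = Equiv.swap x y) :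
    Group.IsSolvable (Subgroup.closure S) := by
  let φ : Equiv.Perm {i // i ∈ X} →* Equiv.Perm (Fin n) := Equiv.Perm.ofSubtype
  have hφ : Function.Injective φ := Equiv.Perm.ofSubtype_injective
  have hle : Subgroup.closure S ≤ φ.range := by
    rw [Subgroup.closure_le]
    intro σ hσ
    obtain ⟨x, y, hx, hy, rfl⟩ := hS σ hσ
    exact ⟨Equiv.swap ⟨x, hx⟩ ⟨y, hy⟩, Equiv.Perm.ofSubtype_swap_eq _ _⟩
  apply solv_of_dvd48
  have h1 : Nat.card φ.range = (X.card).factorial := by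
    rw [← Nat.card_congr (MonoidHom.ofInjective hφ).toEquiv, Nat.card_eq_fintype_card,
      Fintype.card_perm, Fintype.card_coe]
  have h2 := Subgroup.card_dvd_of_le hle
  rw [h1] at h2
  exact h2.trans (Nat.factorial_dvd_factorial hX)

theorem solv_sup {G : Type*} [Group G] (D : Subgroup G) (hD : Group.IsSolvable D) (c : G)
    (hc : ∀ d ∈ D, Commute d c) : Group.IsSolvable (D ⊔ Subgroup.zpowers c : Subgroup G) := by
  let ψ : D × Subgroup.zpowers c →* G := MonoidHom.noncommCoprod D.subtype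
    (Subgroup.zpowers c).subtype (by
      rintro d ⟨_, k, rfl⟩
      exact (hc d.1 d.2).zpow_right k)
  have hr : ψ.range = D ⊔ Subgroup.zpowers c := by
    rw [MonoidHom.noncommCoprod_range, Subgroup.range_subtype, Subgroup.range_subtype]
  rw [← hr]
  have : Group.IsSolvable (Subgroup.zpowers c) :=
    @Group.isSolvable_of_comm _ _ (fun a b => by
      obtain ⟨_, i, rfl⟩ := a
      obtain ⟨_, j, rfl⟩ := b
      apply Subtype.ext
      exact ((Commute.refl c).zpow_zpow i j))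
  exact Group.isSolvable_of_surjective (f := ψ.rangeRestrict) ψ.rangeRestrict_surjective

theorem card_union_lt {α : Type*} [DecidableEq α] (S T : Finset α) (h : ¬ Disjoint S T) :
    (S ∪ T).card + 1 ≤ S.card + T.card := by
  have h1 := Finset.card_union_add_card_inter S T
  have h2 : 0 < (S ∩ T).card := by
    rw [Finset.card_pos]
    exact Finset.not_disjoint_iff_nonempty_inter.1 h
  omega

theorem case_disj {n : ℕ} (x₁ y₁ x₂ y₂ x₃ y₃ : Fin n) (h3 : x₃ ≠ y₃)
    (hd : Disjoint ({x₃, y₃} : Finset (Fin n)) ({x₁, y₁} ∪ {x₂, y₂})) :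
    Group.IsSolvable (Subgroup.closure ({Equiv.swap x₁ y₁, Equiv.swap x₂ y₂} : Set _) ⊔
      Subgroup.zpowers (Equiv.swap x₃ y₃) : Subgroup (Equiv.Perm (Fin n))) := by
  apply solv_sup
  · apply solv_of_support ({x₁, y₁} ∪ {x₂, y₂})
    · refine (Finset.card_union_le _ _).trans ?_
      have := Finset.card_le_two (a := x₁) (b := y₁)
      have := Finset.card_le_two (a := x₂) (b := y₂)
      omega
    · rintro σ (rfl | rfl)
      · exact ⟨x₁, y₁, by simp, by simp, rfl⟩
      · exact ⟨x₂, y₂, by simp, by simp, rfl⟩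
  · have hcomm : ∀ x y : Fin n, x ∈ ({x₁, y₁} ∪ {x₂, y₂} : Finset (Fin n)) →
        y ∈ ({x₁, y₁} ∪ {x₂, y₂} : Finset (Fin n)) →
        Commute (Equiv.swap x y) (Equiv.swap x₃ y₃) := by
      intro x y hx hy
      by_cases hxy : x = y
      · subst hxy; rw [Equiv.swap_self]; exact Commute.one_left _
      · apply Equiv.Perm.Disjoint.commute
        apply Equiv.Perm.disjoint_swap_swap
        have a1 : x₃ ≠ x := fun h => Finset.disjoint_left.1 hd (by simp) (h ▸ hx)
        have a2 : y₃ ≠ x := fun h => Finset.disjoint_left.1 hd (by simp) (h ▸ hx)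
        have a3 : x₃ ≠ y := fun h => Finset.disjoint_left.1 hd (by simp) (h ▸ hy)
        have a4 : y₃ ≠ y := fun h => Finset.disjoint_left.1 hd (by simp) (h ▸ hy)
        simp [hxy, a1.symm, a2.symm, a3.symm, a4.symm, h3]
    have : Subgroup.closure ({Equiv.swap x₁ y₁, Equiv.swap x₂ y₂} : Set (Equiv.Perm (Fin n))) ≤
        Subgroup.centralizer {Equiv.swap x₃ y₃} := by
      rw [Subgroup.closure_le]
      rintro σ (rfl | rfl)
      · rw [SetLike.mem_coe, Subgroup.mem_centralizer_singleton_iff]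
        exact hcomm x₁ y₁ (by simp) (by simp)
      · rw [SetLike.mem_coe, Subgroup.mem_centralizer_singleton_iff]
        exact hcomm x₂ y₂ (by simp) (by simp)
    intro d hd'
    exact Subgroup.mem_centralizer_singleton_iff.1 (this hd')

/-- In a finite symmetric group, any three transpositions generate a solvable subgroup. -/
theorem result (n : ℕ) (a b c : Equiv.Perm (Fin n))
    (ha : a.IsSwap) (hb : b.IsSwap) (hc : c.IsSwap) :
    Group.IsSolvable (Subgroup.closure ({a, b, c} : Set (Equiv.Perm (Fin n)))) := by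
  obtain ⟨x₁, y₁, h1, rfl⟩ := ha
  obtain ⟨x₂, y₂, h2, rfl⟩ := hb
  obtain ⟨x₃, y₃, h3, rfl⟩ := hc
  have hle : ∀ (u v w : Equiv.Perm (Fin n)) (T : Set (Equiv.Perm (Fin n))),
      T ⊆ {u, v, w} → Subgroup.closure T ≤
      Subgroup.closure ({u, v} : Set (Equiv.Perm (Fin n))) ⊔ Subgroup.zpowers w := by
    intro u v w T hT
    rw [Subgroup.closure_le]
    intro σ hσ
    rcases hT hσ with rfl | rfl | rfl
    · exact Subgroup.mem_sup_left (Subgroup.subset_closure (by simp))
    · exact Subgroup.mem_sup_left (Subgroup.subset_closure (by simp))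
    · exact Subgroup.mem_sup_right (Subgroup.mem_zpowers _)
  by_cases c1 : Disjoint ({x₃, y₃} : Finset (Fin n)) ({x₁, y₁} ∪ {x₂, y₂})
  · have := case_disj x₁ y₁ x₂ y₂ x₃ y₃ h3 c1
    exact Cfsg.Agent.Lib.Helper1_Coprime.isSolvable_of_le (hle _ _ _ _ (le_refl _))
  by_cases c2 : Disjoint ({x₁, y₁} : Finset (Fin n)) ({x₂, y₂} ∪ {x₃, y₃})
  · have := case_disj x₂ y₂ x₃ y₃ x₁ y₁ h1 c2
    exact Cfsg.Agent.Lib.Helper1_Coprime.isSolvable_of_le
      (hle (Equiv.swap x₂ y₂) (Equiv.swap x₃ y₃) (Equiv.swap x₁ y₁) _ (by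
      rintro σ (rfl | rfl | rfl) <;> simp))
  by_cases c3 : Disjoint ({x₂, y₂} : Finset (Fin n)) ({x₁, y₁} ∪ {x₃, y₃})
  · have := case_disj x₁ y₁ x₃ y₃ x₂ y₂ h2 c3
    exact Cfsg.Agent.Lib.Helper1_Coprime.isSolvable_of_le
      (hle (Equiv.swap x₁ y₁) (Equiv.swap x₃ y₃) (Equiv.swap x₂ y₂) _ (by
      rintro σ (rfl | rfl | rfl) <;> simp))
  apply solv_of_support ({x₁, y₁} ∪ {x₂, y₂} ∪ {x₃, y₃})
  · have k1 := Finset.card_le_two (a := x₁) (b := y₁)
    have k2 := Finset.card_le_two (a := x₂) (b := y₂)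
    have k3 := Finset.card_le_two (a := x₃) (b := y₃)
    by_cases c4 : Disjoint ({x₁, y₁} : Finset (Fin n)) {x₂, y₂}
    · have c5 : ¬ Disjoint ({x₁, y₁} : Finset (Fin n)) {x₃, y₃} := by
        intro h; exact c2 (Finset.disjoint_union_right.2 ⟨c4, h⟩)
      have e1 := card_union_lt _ _ c5
      have e2 := card_union_lt _ _ c3
      have e3 : ({x₁, y₁} ∪ {x₂, y₂} ∪ {x₃, y₃} : Finset (Fin n)) =
          {x₂, y₂} ∪ ({x₁, y₁} ∪ {x₃, y₃}) := by
        rw [Finset.union_comm {x₁, y₁} {x₂, y₂}, Finset.union_assoc]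
      rw [e3]
      omega
    · have e1 := card_union_lt _ _ c4
      have e2 := card_union_lt _ _ c1
      rw [Finset.union_comm]
      omega
  · rintro σ (rfl | rfl | rfl)
    · exact ⟨x₁, y₁, by simp, by simp, rfl⟩
    · exact ⟨x₂, y₂, by simp, by simp, rfl⟩
    · exact ⟨x₃, y₃, by simp, by simp, rfl⟩

end Cfsg.Agent.S4337
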