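import Cfsg.Statements.S4341
import Cfsg.Agent.Lib.Helper7_SylCount
import Cfsg.Agent.Lib.Helper4_Syl

set_option autoImplicit false
open Cfsg

namespace Cfsg.Agent.S4341

open Cfsg.Agent.Lib MulAction

/-- the orbit of a Sylow subgroup under a subgroup of itself is a singleton. -/
theorem orbit_ncard_one {G : Type*} [Group G] {p : ℕ} (P : Sylow p G) (D : Subgroup G)
    (hD : D ≤ P) : (orbit D P).ncard = 1 := by
  have : orbit D P = {P} := by
    ext Q
    constructor
    · rintro ⟨d, rfl⟩
      exact Sylow.smul_eq_iff_mem_normalizer.mpr (Subgroup.le_normalizer (hD d.2))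
    · rintro rfl
      exact MulAction.mem_orbit_self _
  rw [this, Set.ncard_singleton]

/-- Let K be a normal subgroup of a finite group G, p a prime and P a Sylow p-subgroup of G; let N be the normalizer of P ∩ K inside the subgroup PK. Then the number of Sylow p-subgroups of G equals the product of the numbers of Sylow p-subgroups of G/K, of K, and of N/(P ∩ K). (The normality of P ∩ K in N, which always holds, is assumed as a hypothesis so that the quotient can be formed.) -/
theorem result {G : Type*} [Group G] [Finite G]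
    (p : ℕ) [Fact p.Prime] (K : Subgroup G) [K.Normal] (P : Sylow p G) (N : Subgroup G)
    (hN : N = ((P : Subgroup G) ⊔ K) ⊓ Subgroup.normalizer (((P : Subgroup G) ⊓ K : Subgroup G) : Set G))
    [hn : (((P : Subgroup G) ⊓ K).subgroupOf N).Normal] :
    Nat.card (Sylow p G) =
      Nat.card (Sylow p (G ⧸ K)) * Nat.card (Sylow p K) * Nat.card (Sylow p (N ⧸ ((P : Subgroup G) ⊓ K).subgroupOf N)) := by
  set D := (P : Subgroup G) ⊓ K with hD
  set NP := Subgroup.normalizer ((P : Subgroup G) : Set G) with hNP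
  set ND := Subgroup.normalizer (D : Set G) with hND
  have hNPD : NP ≤ ND := by
    have key : ∀ g ∈ NP, ∀ x ∈ D, g * x * g⁻¹ ∈ D := fun g hg x hx =>
      ⟨(Subgroup.mem_normalizer_iff.mp hg x).1 hx.1,
        Subgroup.Normal.conj_mem inferInstance x hx.2 g⟩
    intro g hg
    rw [hND, Subgroup.mem_normalizer_iff]
    intro x
    refine ⟨key g hg x, fun hx => ?_⟩
    have := key g⁻¹ (NP.inv_mem hg) _ hx
    simpa [mul_assoc] using this
  have hPN : (P : Subgroup G) ≤ N := by
    rw [hN]
    exact le_inf le_sup_left ((Subgroup.le_normalizer).trans hNPD)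
  -- step 1
  have h1 := Helper7_SylCount.card_sylow_eq_mul K P
  -- the Sylow subgroup of `K`
  obtain ⟨R, hR⟩ := (Helper4_Syl.IsSylIn.inf_normal (Helper4_Syl.IsSylIn.of_sylow_top P) K).exists_sylow
  have hRD : (R : Subgroup K) = D.subgroupOf K := by
    rw [hD, ← hR, Subgroup.subgroupOf, Subgroup.comap_map_eq_self_of_injective K.subtype_injective]
  have h2 : Nat.card (Sylow p K) = ND.relIndex K := by
    have e0 : Nat.card (Sylow p K) = (Subgroup.normalizer ((R : Subgroup K) : Set K)).index :=
      Sylow.card_eq_index_normalizer R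
    rw [e0, hRD, ← Subgroup.subgroupOf_normalizer_eq (inf_le_right : D ≤ K)]
    rfl
  -- the quotient of `N`
  have h3 := Helper7_SylCount.card_sylow_eq_mul (D.subgroupOf N) (P.subtype hPN)
  have h4 : (orbit (D.subgroupOf N) (P.subtype hPN)).ncard = 1 := by
    apply orbit_ncard_one
    intro x hx
    exact hx.1
  rw [h4, mul_one, Helper7_SylCount.card_sylow_sub N P hPN] at h3
  -- orbits
  set K1 := K ⊓ ND with hK1
  have h5 : orbit N P = orbit K1 P := by
    ext Q
    constructor
    · rintro ⟨n, rfl⟩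
      have hn : (n : G) ∈ ((P : Subgroup G) ⊔ K) ⊓ ND := hN ▸ n.2
      have hn1 : (n : G) ∈ (((P : Subgroup G) ⊔ K : Subgroup G) : Set G) := hn.1
      rw [sup_comm, Subgroup.normal_mul] at hn1
      obtain ⟨k, hk, x, hx, hkx⟩ := Set.mem_mul.mp hn1
      have hxN : x ∈ ND := hNPD (Subgroup.le_normalizer hx)
      have hkN : k ∈ ND := by
        have : k = (n : G) * x⁻¹ := by rw [← hkx]; group
        rw [this]
        exact ND.mul_mem hn.2 (ND.inv_mem hxN)
      refine ⟨⟨k, hk, hkN⟩, ?_⟩
      show k • P = (n : G) • P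
      rw [← hkx, mul_smul]
      congr 1
      exact (Sylow.smul_eq_iff_mem_normalizer.mpr (Subgroup.le_normalizer hx)).symm
    · rintro ⟨k, rfl⟩
      have hk : (k : G) ∈ N := by
        rw [hN]
        exact ⟨Subgroup.mem_sup_right k.2.1, k.2.2⟩
      exact ⟨⟨k, hk⟩, rfl⟩
  have h6 : (orbit K P).ncard = ND.relIndex K * (orbit K1 P).ncard := by
    rw [← Helper7_SylCount.relIndex_normalizer_eq, ← Helper7_SylCount.relIndex_normalizer_eq,
      ← hNP, ← Subgroup.inf_relIndex_right NP K, ← Subgroup.inf_relIndex_right NP K1,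
      ← Subgroup.inf_relIndex_right ND K]
    have e1 : NP ⊓ K1 = NP ⊓ K := by
      rw [hK1, ← inf_assoc]
      exact inf_eq_left.mpr (inf_le_left.trans hNPD)
    have e2 : ND ⊓ K = K1 := by rw [hK1, inf_comm]
    rw [e1, e2, mul_comm]
    exact (Subgroup.relIndex_mul_relIndex (NP ⊓ K) K1 K
      (le_inf inf_le_right (inf_le_left.trans hNPD)) inf_le_left).symm
  rw [h1, h6, h2, ← h3, h5, mul_assoc]

end Cfsg.Agent.S4341
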