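import Cfsg.Statements.S4342
import Cfsg.Agent.Lib.Helper7_SylCount
import Cfsg.Agent.Lib.Helper7_Transfer
import Cfsg.Agent.S4341

set_option autoImplicit false
open Cfsg

namespace Cfsg.Agent.S4342

open Cfsg.Agent.Lib MulAction

/-- Let H be a normal subgroup of a finite group G and p a prime not dividing the index of H. Then the number of Sylow p-subgroups of H/Z(H) equals the number of Sylow p-subgroups of G. -/
theorem result {G : Type*} [Group G] [Finite G]
    (p : ℕ) [Fact p.Prime] (H : Subgroup G) [H.Normal] (hp : ¬ p ∣ H.index) :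
    Nat.card (Sylow p (H ⧸ Subgroup.center H)) = Nat.card (Sylow p G) := by
  obtain ⟨P⟩ : Nonempty (Sylow p G) := inferInstance
  have hPH : (P : Subgroup G) ≤ H := by
    intro x hx
    obtain ⟨k, hk⟩ := P.2 ⟨x, hx⟩
    have hk' : x ^ p ^ k = 1 := congrArg Subtype.val hk
    rw [← QuotientGroup.eq_one_iff]
    apply Helper7_Transfer.eq_one_of_pow_coprime (m := p ^ k) (n := H.index)
    · exact Nat.Coprime.pow_left _ ((Nat.Prime.coprime_iff_not_dvd Fact.out).2 hp)
    · rw [← QuotientGroup.mk_pow, hk']; rfl
    · rw [Subgroup.index]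
      exact pow_card_eq_one'
  have h1 := Helper7_SylCount.card_sylow_eq_mul (Subgroup.center H) (P.subtype hPH)
  have h2 : (orbit (Subgroup.center H) (P.subtype hPH)).ncard = 1 := by
    have : orbit (Subgroup.center H) (P.subtype hPH) = {P.subtype hPH} := by
      ext Q
      constructor
      · rintro ⟨d, rfl⟩
        apply Sylow.smul_eq_iff_mem_normalizer.mpr
        show (d : H) ∈ Subgroup.normalizer (((P.subtype hPH : Sylow p H) : Subgroup H) : Set H)
        rw [Subgroup.mem_normalizer_iff]
        intro x
        have : (d : H) * x * (d : H)⁻¹ = x := by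
          rw [(Subgroup.mem_center_iff.mp d.2 x).symm]; group
        rw [this]
      · rintro rfl
        exact MulAction.mem_orbit_self _
    rw [this, Set.ncard_singleton]
  rw [h2, mul_one, Helper7_SylCount.card_sylow_sub H P hPH] at h1
  rw [← h1]
  have e0 : Nat.card (Sylow p G) = (Subgroup.normalizer ((P : Subgroup G) : Set G)).index :=
    Sylow.card_eq_index_normalizer P
  rw [e0, ← Subgroup.relIndex_top_right, Helper7_SylCount.relIndex_normalizer_eq]
  have h3 : (P : Subgroup G) ⊔ H = H := sup_eq_right.mpr hPH
  rw [Helper7_SylCount.orbit_eq_of_sup H P ⊤ le_top (by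
    rw [h3, Subgroup.normalizer_eq_top])]

end Cfsg.Agent.S4342
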