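import Mathlib
import Cfsg.Agent.Lib.helper6_Brodkey
import Cfsg.Statements.S4343

set_option autoImplicit false
open Cfsg

namespace Cfsg.Agent.S4343

open Cfsg.Agent.Lib.helper6_Brodkey
open scoped commutatorElement

/-- Let S be a finite non-abelian simple group and p a prime dividing its order. If S has fewer than p² Sylow p-subgroups, then its Sylow p-subgroups have order p. -/
theorem result {S : Type*} [Group S] [Finite S]
    [IsSimpleGroup S] (hS : ¬ IsMulCommutative S) (p : ℕ) [Fact p.Prime] (hp : p ∣ Nat.card S)
    (hn : Nat.card (Sylow p S) < p ^ 2) (P : Sylow p S) : Nat.card P = p := by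
  classical
  have hpp : p.Prime := Fact.out
  have hcore : ∀ P : Sylow p S, (P : Subgroup S).normalCore = ⊥ := by
    intro P
    rcases (Subgroup.normalCore_normal (P : Subgroup S)).eq_bot_or_eq_top with h | h
    · exact h
    · exfalso
      have hPtop : (P : Subgroup S) = ⊤ := by
        rw [eq_top_iff, ← h]
        exact Subgroup.normalCore_le _
      have hpg : IsPGroup p S := by
        have h1 := P.isPGroup'
        rw [hPtop] at h1
        exact h1.of_equiv Subgroup.topEquiv
      have hnt := hpg.center_nontrivial
      have hcn : (Subgroup.center S).Normal := inferInstance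
      rcases hcn.eq_bot_or_eq_top with h2 | h2
      · exact (Subgroup.nontrivial_iff_ne_bot _).mp hnt h2
      · apply hS
        refine ⟨⟨fun a b => ?_⟩⟩
        have hb : b ∈ Subgroup.center S := by rw [h2]; trivial
        exact Subgroup.mem_center_iff.mp hb a
  have hmemcore : ∀ (P : Sylow p S) (c : S), (∀ Q : Sylow p S, c ∈ (Q : Subgroup S)) → c = 1 := by
    intro P c hc
    have h1 : c ∈ (P : Subgroup S).normalCore := by
      intro b
      have h2 := hc (b⁻¹ • P)
      rw [mem_smul_sylow_iff] at h2
      simpa using h2
    rw [hcore P] at h1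
    exact h1
  have hcardP : ∀ P : Sylow p S, Nat.card P = p ^ (Nat.card S).factorization p :=
    fun P => P.card_eq_multiplicity
  have hk : (Nat.card S).factorization p ≠ 0 := by
    have := (hpp.dvd_iff_one_le_factorization (Nat.card_pos.ne')).mp hp
    omega
  have hab : ∀ P : Sylow p S, ∀ a ∈ (P : Subgroup S), ∀ b ∈ (P : Subgroup S), a * b = b * a := by
    intro P a ha b hb
    have h1 : a * b * a⁻¹ * b⁻¹ = 1 := by
      apply hmemcore P
      intro Q
      have hr := relIndex_le_card_sylow P Q
      have hr2 : (Q : Subgroup S).relIndex P < p ^ 2 := lt_of_le_of_lt hr hn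
      have hd : (Q : Subgroup S).relIndex P ∣ p ^ (Nat.card S).factorization p := by
        have h3 := Subgroup.relIndex_dvd_card (Q : Subgroup S) (P : Subgroup S)
        have h4 : Nat.card (P : Subgroup S) = p ^ (Nat.card S).factorization p := hcardP P
        rwa [h4] at h3
      obtain ⟨j, -, hj⟩ := (Nat.dvd_prime_pow hpp).mp hd
      have hj2 : j < 2 := by
        rw [hj] at hr2
        exact (Nat.pow_lt_pow_iff_right hpp.one_lt).mp hr2
      have hcomm : commutator P ≤ (Q : Subgroup S).subgroupOf P := by
        interval_cases j
        · have h5 : ((Q : Subgroup S).subgroupOf P).index = 1 := by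
            have : (Q : Subgroup S).relIndex P = 1 := by simpa using hj
            exact this
          rw [Subgroup.index_eq_one.mp h5]
          exact le_top
        · have h5 : ((Q : Subgroup S).subgroupOf P).index = p := by
            have : (Q : Subgroup S).relIndex P = p := by simpa using hj
            exact this
          have hnorm : ((Q : Subgroup S).subgroupOf P).Normal := by
            apply Subgroup.normal_of_index_eq_minFac_card
            rw [h5]
            have h4 : Nat.card (P : Subgroup S) = p ^ (Nat.card S).factorization p := hcardP P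
            rw [h4, hpp.pow_minFac hk]
          have hq : Nat.card ((P : Subgroup S) ⧸ (Q : Subgroup S).subgroupOf P) = p := h5
          have hcyc : IsCyclic ((P : Subgroup S) ⧸ (Q : Subgroup S).subgroupOf P) :=
            isCyclic_of_prime_card hq
          exact Subgroup.Normal.quotient_commutative_iff_commutator_le.mp inferInstance
      have h6 : ⁅(⟨a, ha⟩ : P), (⟨b, hb⟩ : P)⁆ ∈ commutator P :=
        Subgroup.commutator_mem_commutator (Subgroup.mem_top _) (Subgroup.mem_top _)
      have h7 := hcomm h6
      rw [Subgroup.mem_subgroupOf] at h7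
      simpa [commutatorElement_def] using h7
    calc a * b = (a * b * a⁻¹ * b⁻¹) * (b * a) := by group
      _ = b * a := by rw [h1, one_mul]
  obtain ⟨P1, Q1, hPQ⟩ := brodkey hab
  have hD : (Q1 : Subgroup S) ⊓ (P1 : Subgroup S) = ⊥ := by
    rw [eq_bot_iff]
    intro d hd
    rw [Subgroup.mem_bot]
    apply hmemcore P1
    intro R
    exact hPQ R ⟨hd.2, hd.1⟩
  have h1 := relIndex_le_card_sylow P1 Q1
  rw [← Subgroup.inf_relIndex_right, hD, Subgroup.relIndex_bot_left] at h1
  have h2 : Nat.card (P1 : Subgroup S) = p ^ (Nat.card S).factorization p := hcardP P1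
  rw [h2] at h1
  have h3 : p ^ (Nat.card S).factorization p < p ^ 2 := lt_of_le_of_lt h1 hn
  have h4 : (Nat.card S).factorization p < 2 := (Nat.pow_lt_pow_iff_right hpp.one_lt).mp h3
  have h5 : (Nat.card S).factorization p = 1 := by omega
  rw [hcardP P, h5, pow_one]

end Cfsg.Agent.S4343
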