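import Cfsg.Statements.S4344

set_option autoImplicit false
open Cfsg

namespace Cfsg.Agent.S4344


/-- Let S be a finite non-abelian simple group, M a maximal subgroup of S and C a cyclic normal subgroup of M. If a Sylow p-subgroup P of S (for a prime p dividing the order of S) is contained in C, then the number of Sylow p-subgroups of S equals the index of M. -/
theorem result {S : Type*} [Group S] [Finite S]
    [IsSimpleGroup S] (hS : ¬ IsMulCommutative S) (p : ℕ) [Fact p.Prime] (hp : p ∣ Nat.card S)
    (M : Subgroup S) (hM : IsCoatom M) (C : Subgroup S) (hCM : C ≤ M) (hCn : (C.subgroupOf M).Normal)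
    (hC : IsCyclic C) (P : Sylow p S) (hP : (P : Subgroup S) ≤ C) :
    Nat.card (Sylow p S) = M.index := by
  have hp' : p.Prime := Fact.out
  haveI := hC
  have hcomm : ∀ a ∈ C, ∀ b ∈ C, a * b = b * a := by
    intro a ha b hb
    have := mul_comm' (⟨a, ha⟩ : C) ⟨b, hb⟩
    exact congrArg Subtype.val this
  -- M normalizes P
  have hMP : M ≤ Subgroup.normalizer ((P : Subgroup S) : Set S) := by
    intro m hm
    rw [Subgroup.mem_normalizer_iff_map_conj_eq]
    set P' : Subgroup S := (P : Subgroup S).map (MulAut.conj m).toMonoidHom with hP'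
    have hP'C : P' ≤ C := by
      rintro _ ⟨y, hy, rfl⟩
      have h1 := hCn.conj_mem ⟨y, hCM (hP hy)⟩ (Subgroup.mem_subgroupOf.2 (hP hy)) ⟨m, hm⟩
      exact Subgroup.mem_subgroupOf.1 h1
    have hP'p : IsPGroup p P' := P.isPGroup'.map _
    have hnorm : P' ≤ Subgroup.normalizer ((P : Subgroup S) : Set S) := by
      refine le_trans ?_ (Subgroup.centralizer_le_normalizer _)
      intro y hy
      rw [Subgroup.mem_centralizer_iff]
      intro h hh
      exact hcomm h (hP hh) y (hP'C hy)
    have hsup : IsPGroup p ((P' ⊔ (P : Subgroup S) : Subgroup S)) := hP'p.to_sup_of_normal_right' P.isPGroup' hnorm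
    have h1 := P.is_maximal' hsup le_sup_right
    have hle : P' ≤ P := by rw [← h1]; exact le_sup_left
    apply Subgroup.eq_of_le_of_card_ge hle
    rw [hP', Subgroup.card_map_of_injective (MulAut.conj m).injective]
  have hne : Subgroup.normalizer ((P : Subgroup S) : Set S) ≠ ⊤ := by
    intro htop
    have hPn : (P : Subgroup S).Normal := Subgroup.normalizer_eq_top_iff.1 htop
    rcases IsSimpleGroup.eq_bot_or_eq_top_of_normal _ hPn with h | h
    · have h1 := P.not_dvd_index
      rw [h, Subgroup.index_bot] at h1
      exact h1 hp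
    · apply hS
      refine ⟨⟨fun a b => ?_⟩⟩
      exact hcomm a (hP (h ▸ Subgroup.mem_top a)) b (hP (h ▸ Subgroup.mem_top b))
  have heq : Subgroup.normalizer ((P : Subgroup S) : Set S) = M := by
    rcases eq_or_lt_of_le hMP with h | h
    · exact h.symm
    · exact absurd (hM.2 _ h) hne
  rw [Sylow.card_eq_index_normalizer P]
  exact congrArg Subgroup.index heq

end Cfsg.Agent.S4344
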