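import Cfsg.Statements.S4345
import Cfsg.Agent.Lib.Helper7_SylCount
import Cfsg.Agent.Lib.Helper1_MinNormal

set_option autoImplicit false
open Cfsg

namespace Cfsg.Agent.S4345

open Cfsg.Agent.Lib

universe u

theorem main (p ℓ : ℕ) [Fact p.Prime] (hℓ : ℓ.Prime) : ∀ (n : ℕ) (G : Type u) [Group G] [Finite G],
    Nat.card G = n → Group.IsSolvable G →
    ℓ ^ (Nat.card (Sylow p G)).factorization ℓ ≡ 1 [MOD p] := by
  intro n
  induction n using Nat.strong_induction_on with
  | _ n ih =>
  intro G _ _ hn hG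
  obtain ⟨P⟩ : Nonempty (Sylow p G) := inferInstance
  by_cases hnt : Nontrivial G
  · obtain ⟨q, M, hq, hMn, hM, -, hpow, -⟩ :=
      Helper1_MinNormal.exists_normal_elementary_abelian (G := G)
    haveI := hMn
    haveI : Fact q.Prime := ⟨hq⟩
    have hMp : IsPGroup q M := by
      intro x
      refine ⟨1, ?_⟩
      apply Subtype.ext
      rw [pow_one]
      exact hpow x x.2
    obtain ⟨b, hb⟩ := IsPGroup.iff_card.mp hMp
    have h1 := Helper7_SylCount.card_sylow_eq_mul M P
    set m := (MulAction.orbit M P).ncard with hm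
    have h2 : m ∣ Nat.card M := by
      rw [hm, ← MulAction.index_stabilizer]
      exact Subgroup.index_dvd_card _
    rw [hb] at h2
    obtain ⟨a, -, ha⟩ := (Nat.dvd_prime_pow hq).1 h2
    have h3 : Nat.card (Sylow p G) ≡ 1 [MOD p] := card_sylow_modEq_one p G
    have h4 : Nat.card (Sylow p (G ⧸ M)) ≡ 1 [MOD p] := card_sylow_modEq_one p (G ⧸ M)
    have h5 : m ≡ 1 [MOD p] := by
      have : Nat.card (Sylow p (G ⧸ M)) * m ≡ 1 * m [MOD p] := h4.mul_right m
      rw [← h1, one_mul] at this
      exact this.symm.trans h3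
    have hlt : Nat.card (G ⧸ M) < n := by
      rw [← hn, Subgroup.card_eq_card_quotient_mul_card_subgroup M]
      have h6 : 1 < Nat.card M := by
        rw [Subgroup.one_lt_card_iff_ne_bot]
        exact hM
      have h7 : 0 < Nat.card (G ⧸ M) := Nat.card_pos
      nlinarith
    have h8 := ih _ hlt (G ⧸ M) rfl inferInstance
    have h9 : Nat.card (Sylow p (G ⧸ M)) ≠ 0 := Nat.card_pos.ne'
    have h10 : m ≠ 0 := by rw [ha]; exact pow_ne_zero _ hq.pos.ne'
    rw [h1, Nat.factorization_mul h9 h10, Finsupp.add_apply, pow_add]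
    have h11 : ℓ ^ m.factorization ℓ ≡ 1 [MOD p] := by
      by_cases hlq : ℓ = q
      · subst hlq
        rw [ha, Nat.Prime.factorization_pow hq, Finsupp.single_eq_same, ← ha]
        exact h5
      · rw [ha, Nat.Prime.factorization_pow hq, Finsupp.single_eq_of_ne (by tauto), pow_zero]
    simpa using h8.mul h11
  · rw [not_nontrivial_iff_subsingleton] at hnt
    have h1 : Nat.card (Sylow p G) = 1 := by
      have h2 := P.card_dvd_index
      have h3 : (P : Subgroup G).index ∣ Nat.card G := Subgroup.index_dvd_card _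
      rw [Nat.card_of_subsingleton (1 : G)] at h3
      exact Nat.dvd_one.mp (h2.trans h3)
    rw [h1]
    simp [Nat.ModEq]

/-- Let G be a finite solvable group and p, ℓ primes. Then the largest power of ℓ dividing the number of Sylow p-subgroups of G is congruent to 1 modulo p. -/
theorem result {G : Type*} [Group G] [Finite G]
    (hG : Group.IsSolvable G) (p ℓ : ℕ) [Fact p.Prime] (hℓ : ℓ.Prime) :
    ℓ ^ (Nat.card (Sylow p G)).factorization ℓ ≡ 1 [MOD p] := by
  exact main p ℓ hℓ _ G rfl hG

end Cfsg.Agent.S4345
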