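import Cfsg.Statements.S4354

import Mathlib
import Cfsg.Agent.Lib.Helper7_PClass
import Cfsg.Agent.Lib.Helper7_Hall
import Cfsg.Agent.Lib.Helper7_Idx
set_option autoImplicit false
open Cfsg

namespace Cfsg.Agent.S4354


open Pointwise Cfsg.Agent.Lib.Helper4_Syl Cfsg.Agent.Lib.Helper7_PClass

theorem exists_conj_central {G : Type*} [Group G] [Finite G] {p : ℕ} [Fact p.Prime] (P : Sylow p G)
    (hcl : ∀ x : G, (∃ k : ℕ, orderOf x = p ^ k) →
      ¬ p ∣ (Subgroup.centralizer ({x} : Set G)).index)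
    {x : G} (hx : x ∈ (P : Subgroup G)) :
    ∃ c : G, c * x * c⁻¹ ∈ (P : Subgroup G) ∧
      ∀ y ∈ (P : Subgroup G), y * (c * x * c⁻¹) = (c * x * c⁻¹) * y := by
  have hxo := exists_orderOf_of_mem P.isPGroup' hx
  obtain ⟨P₁, hP₁⟩ := Cfsg.Agent.Lib.Helper7_Hall.exists_sylow_le_of_not_dvd_index _ (hcl x hxo)
  obtain ⟨c, hc⟩ := MulAction.exists_smul_eq G P₁ P
  have hmem : ∀ y ∈ (P : Subgroup G), c⁻¹ * y * c ∈ (P₁ : Subgroup G) := by
    intro y hy
    rw [← hc] at hy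
    have hy' : y ∈ MulAut.conj c • (P₁ : Subgroup G) := hy
    rwa [mem_conj_smul] at hy'
  have hcomm : ∀ y ∈ (P : Subgroup G), y * (c * x * c⁻¹) = (c * x * c⁻¹) * y := by
    intro y hy
    have h1 := hP₁ (hmem y hy)
    rw [Subgroup.mem_centralizer_singleton_iff] at h1
    have h2 : (c⁻¹ * y * c) * x = x * (c⁻¹ * y * c) := by first | exact h1 | exact h1.symm
    calc y * (c * x * c⁻¹) = c * ((c⁻¹ * y * c) * x) * c⁻¹ := by group
      _ = c * (x * (c⁻¹ * y * c)) * c⁻¹ := by rw [h2]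
      _ = (c * x * c⁻¹) * y := by group
  refine ⟨c, ?_, hcomm⟩
  obtain ⟨k, hk⟩ := hxo
  have hz : IsPGroup p (Subgroup.zpowers (c * x * c⁻¹)) :=
    IsPGroup.of_card (n := k) (by rw [Nat.card_zpowers, orderOf_conj_eq, hk])
  have h3 := hz.inf_normalizer_sylow P
  have h4 : c * x * c⁻¹ ∈ Subgroup.zpowers (c * x * c⁻¹) ⊓
      Subgroup.normalizer ((P : Subgroup G) : Set G) := by
    refine Subgroup.mem_inf.mpr ⟨Subgroup.mem_zpowers _, Subgroup.centralizer_le_normalizer _ ?_⟩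
    rw [Subgroup.mem_centralizer_iff]
    intro y hy
    exact hcomm y hy
  have h5 : c * x * c⁻¹ ∈ Subgroup.zpowers (c * x * c⁻¹) ⊓ (P : Subgroup G) := by
    rw [← h3]; exact h4
  exact (Subgroup.mem_inf.mp h5).2

theorem cond_normal {G : Type*} [Group G] [Finite G] {p : ℕ} (N : Subgroup G) [N.Normal]
    (hcl : ∀ x : G, (∃ k : ℕ, orderOf x = p ^ k) →
      ¬ p ∣ (Subgroup.centralizer ({x} : Set G)).index) :
    ∀ x : N, (∃ k : ℕ, orderOf x = p ^ k) →
      ¬ p ∣ (Subgroup.centralizer ({x} : Set N)).index := by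
  rintro x ⟨k, hk⟩ hdvd
  apply hcl (x : G) ⟨k, by rw [Subgroup.orderOf_coe]; exact hk⟩
  have h1 : Subgroup.centralizer ({x} : Set N) =
      (Subgroup.centralizer ({(x : G)} : Set G)).subgroupOf N := by
    ext y
    simp [Subgroup.mem_centralizer_singleton_iff, Subgroup.mem_subgroupOf, Subtype.ext_iff]
  rw [h1] at hdvd
  exact hdvd.trans (Cfsg.Agent.Lib.Helper7_Idx.relIndex_dvd_index_of_normal_right _ N)

theorem cond_quot {G : Type*} [Group G] [Finite G] {p : ℕ} [Fact p.Prime] (N : Subgroup G)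
    [N.Normal]
    (hcl : ∀ x : G, (∃ k : ℕ, orderOf x = p ^ k) →
      ¬ p ∣ (Subgroup.centralizer ({x} : Set G)).index) :
    ∀ x : G ⧸ N, (∃ k : ℕ, orderOf x = p ^ k) →
      ¬ p ∣ (Subgroup.centralizer ({x} : Set (G ⧸ N))).index := by
  rintro x ⟨k, hk⟩ hdvd
  have h1 : IsPGroup p (Subgroup.zpowers x) :=
    IsPGroup.of_card (n := k) (by rw [Nat.card_zpowers, hk])
  obtain ⟨Rb, hRb⟩ := h1.exists_le_sylow
  obtain ⟨R, rfl⟩ := Sylow.mapSurjective_surjective (QuotientGroup.mk'_surjective N) p Rb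
  have h2 : x ∈ (R : Subgroup G).map (QuotientGroup.mk' N) := by
    have := hRb (Subgroup.mem_zpowers x)
    rwa [Sylow.coe_mapSurjective] at this
  obtain ⟨g, hg, rfl⟩ := h2
  apply hcl g (exists_orderOf_of_mem R.isPGroup' hg)
  have h3 : (Subgroup.centralizer ({g} : Set G)).map (QuotientGroup.mk' N) ≤
      Subgroup.centralizer ({QuotientGroup.mk' N g} : Set (G ⧸ N)) := by
    rintro _ ⟨y, hy, rfl⟩
    rw [SetLike.mem_coe] at hy
    rw [Subgroup.mem_centralizer_singleton_iff] at hy ⊢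
    rw [← map_mul, ← map_mul, hy]
  exact (hdvd.trans (Subgroup.index_dvd_of_le h3)).trans
    (Subgroup.index_map_dvd _ (QuotientGroup.mk'_surjective N))

theorem aux {G : Type*} [Group G] [Finite G] {p : ℕ} [Fact p.Prime] (P : Sylow p G)
    (hcl : ∀ x : G, (∃ k : ℕ, orderOf x = p ^ k) →
      ¬ p ∣ (Subgroup.centralizer ({x} : Set G)).index)
    (N : Subgroup G) [N.Normal]
    (hN : ∀ a ∈ (P : Subgroup G) ⊓ N, ∀ b ∈ (P : Subgroup G) ⊓ N, a * b = b * a)
    (hQ : ∀ R : Sylow p (G ⧸ N), IsMulCommutative ↥(R : Subgroup (G ⧸ N))) :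
    ∀ x ∈ (P : Subgroup G), ∀ y ∈ (P : Subgroup G), x * y = y * x := by
  have hdec : ∀ x ∈ (P : Subgroup G), ∃ z q : G, z ∈ (P : Subgroup G) ∧
      (∀ y ∈ (P : Subgroup G), y * z = z * y) ∧ q ∈ (P : Subgroup G) ⊓ N ∧ x = z * q := by
    intro x hx
    obtain ⟨c, hzP, hzc⟩ := exists_conj_central P hcl hx
    set z := c * x * c⁻¹ with hz
    let Pb : Sylow p (G ⧸ N) := P.mapSurjective (QuotientGroup.mk'_surjective N)
    haveI := hQ Pb
    have hPb : (Pb : Subgroup (G ⧸ N)) = (P : Subgroup G).map (QuotientGroup.mk' N) :=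
      Sylow.coe_mapSurjective _ _
    have hxb : QuotientGroup.mk' N x ∈ (Pb : Subgroup (G ⧸ N)) := by
      rw [hPb]; exact Subgroup.mem_map_of_mem _ hx
    have hzeq : (QuotientGroup.mk' N c⁻¹)⁻¹ * QuotientGroup.mk' N x * QuotientGroup.mk' N c⁻¹ =
        QuotientGroup.mk' N z := by
      rw [hz, ← map_inv, ← map_mul, ← map_mul, inv_inv]
    have hzb : (QuotientGroup.mk' N c⁻¹)⁻¹ * QuotientGroup.mk' N x * QuotientGroup.mk' N c⁻¹ ∈
        (Pb : Subgroup (G ⧸ N)) := by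
      rw [hzeq, hPb]; exact Subgroup.mem_map_of_mem _ hzP
    obtain ⟨nb, hnb, hnb2⟩ := Pb.conj_eq_normalizer_conj_of_mem _ _ hxb hzb
    obtain ⟨n₀, rfl⟩ := QuotientGroup.mk'_surjective N nb
    have hM : ∀ y : G, y ∈ (P : Subgroup G) ⊔ N ↔
        QuotientGroup.mk' N y ∈ (Pb : Subgroup (G ⧸ N)) := by
      intro y
      rw [hPb, ← Subgroup.mem_comap, Subgroup.comap_map_eq, QuotientGroup.ker_mk']
    have hn₀ : MulAut.conj n₀ • ((P : Subgroup G) ⊔ N) = (P : Subgroup G) ⊔ N := by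
      ext y
      rw [mem_conj_smul, hM, hM]
      have h1 := Subgroup.mem_normalizer_iff.mp hnb (QuotientGroup.mk' N (n₀⁻¹ * y * n₀))
      have h2 : QuotientGroup.mk' N n₀ * QuotientGroup.mk' N (n₀⁻¹ * y * n₀) *
          (QuotientGroup.mk' N n₀)⁻¹ = QuotientGroup.mk' N y := by
        rw [← map_inv, ← map_mul, ← map_mul]; congr 1; group
      rw [h2] at h1
      exact h1
    have hsyl : IsSylIn p (P : Subgroup G) ((P : Subgroup G) ⊔ N) :=
      (IsSylIn.of_sylow_top P).mono le_sup_left le_top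
    obtain ⟨m, hm, hn₁⟩ := frattini hsyl n₀ hn₀
    set n₁ := m⁻¹ * n₀ with hn₁def
    have hmb : QuotientGroup.mk' N m ∈ (Pb : Subgroup (G ⧸ N)) := (hM m).mp hm
    have hcm : QuotientGroup.mk' N m * QuotientGroup.mk' N x =
        QuotientGroup.mk' N x * QuotientGroup.mk' N m := by
      have := (hQ Pb).is_comm.comm ⟨_, hmb⟩ ⟨_, hxb⟩
      exact congrArg Subtype.val this
    have hzn : QuotientGroup.mk' N z = QuotientGroup.mk' N (n₁⁻¹ * x * n₁) := by
      rw [← hzeq, hnb2]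
      have h0 : n₀ = m * n₁ := by rw [hn₁def]; group
      rw [h0]
      simp only [map_mul, map_inv, mul_inv_rev]
      calc (QuotientGroup.mk' N n₁)⁻¹ * (QuotientGroup.mk' N m)⁻¹ * QuotientGroup.mk' N x *
            (QuotientGroup.mk' N m * QuotientGroup.mk' N n₁)
          = (QuotientGroup.mk' N n₁)⁻¹ * ((QuotientGroup.mk' N m)⁻¹ *
            (QuotientGroup.mk' N x * QuotientGroup.mk' N m)) * QuotientGroup.mk' N n₁ := by group
        _ = (QuotientGroup.mk' N n₁)⁻¹ * ((QuotientGroup.mk' N m)⁻¹ *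
            (QuotientGroup.mk' N m * QuotientGroup.mk' N x)) * QuotientGroup.mk' N n₁ := by
              rw [hcm]
        _ = (QuotientGroup.mk' N n₁)⁻¹ * QuotientGroup.mk' N x * QuotientGroup.mk' N n₁ := by
              group
    have hxn : n₁⁻¹ * x * n₁ ∈ (P : Subgroup G) := (Subgroup.mem_normalizer_iff''.mp hn₁ x).mp hx
    have hq₀N : z⁻¹ * (n₁⁻¹ * x * n₁) ∈ N := by
      have := QuotientGroup.eq.mp (show (z : G ⧸ N) = ((n₁⁻¹ * x * n₁ : G) : G ⧸ N) from hzn)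
      exact this
    have hq₀P : z⁻¹ * (n₁⁻¹ * x * n₁) ∈ (P : Subgroup G) :=
      (P : Subgroup G).mul_mem ((P : Subgroup G).inv_mem hzP) hxn
    refine ⟨n₁ * z * n₁⁻¹, n₁ * (z⁻¹ * (n₁⁻¹ * x * n₁)) * n₁⁻¹,
      (Subgroup.mem_normalizer_iff.mp hn₁ z).mp hzP, ?_, Subgroup.mem_inf.mpr
        ⟨(Subgroup.mem_normalizer_iff.mp hn₁ _).mp hq₀P,
          (inferInstance : N.Normal).conj_mem _ hq₀N _⟩, by group⟩
    intro y hy
    have h1 := hzc _ ((Subgroup.mem_normalizer_iff''.mp hn₁ y).mp hy)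
    calc y * (n₁ * z * n₁⁻¹) = n₁ * ((n₁⁻¹ * y * n₁) * z) * n₁⁻¹ := by group
      _ = n₁ * (z * (n₁⁻¹ * y * n₁)) * n₁⁻¹ := by rw [h1]
      _ = n₁ * z * n₁⁻¹ * y := by group
  intro x hx y hy
  obtain ⟨z, q, hz, hzc, hq, rfl⟩ := hdec x hx
  obtain ⟨z', q', hz', hzc', hq', rfl⟩ := hdec y hy
  have e1 : q * z' = z' * q := hzc' q (Subgroup.mem_inf.mp hq).1
  have e2 : q' * z = z * q' := hzc q' (Subgroup.mem_inf.mp hq').1
  have e3 : z * z' = z' * z := hzc' z hz
  have e4 : q * q' = q' * q := hN q hq q' hq'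
  calc z * q * (z' * q') = z * (q * z') * q' := by group
    _ = z * (z' * q) * q' := by rw [e1]
    _ = (z * z') * (q * q') := by group
    _ = (z' * z) * (q' * q) := by rw [e3, e4]
    _ = z' * (z * q') * q := by group
    _ = z' * (q' * z) * q := by rw [e2]
    _ = z' * q' * (z * q) := by group

/-- Let G be a finite group and p a prime such that the Sylow p-subgroups of G are non-abelian while every element of p-power order has conjugacy class size prime to p, and suppose no nontrivial proper normal subgroup N of G has this property and no quotient G/N by such an N has it. Then G is simple. -/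
theorem result {G : Type*} [Group G] [Finite G]
    (p : ℕ) [Fact p.Prime] (h : ((∃ P : Sylow p G, ¬ IsMulCommutative P) ∧ ∀ x : G, (∃ k : ℕ, orderOf x = p ^ k) → ¬ p ∣ (Subgroup.centralizer ({x} : Set G)).index))
    (hmin : ∀ (N : Subgroup G) [N.Normal], N ≠ ⊥ → N ≠ ⊤ →
      ¬ ((∃ P : Sylow p N, ¬ IsMulCommutative P) ∧ ∀ x : N, (∃ k : ℕ, orderOf x = p ^ k) → ¬ p ∣ (Subgroup.centralizer ({x} : Set N)).index) ∧
      ¬ ((∃ P : Sylow p (G ⧸ N), ¬ IsMulCommutative P) ∧ ∀ x : (G ⧸ N), (∃ k : ℕ, orderOf x = p ^ k) → ¬ p ∣ (Subgroup.centralizer ({x} : Set (G ⧸ N))).index)) :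
    IsSimpleGroup G := by
  obtain ⟨⟨P, hP⟩, hcl⟩ := h
  have hnt : Nontrivial G := by
    by_contra hnt
    rw [not_nontrivial_iff_subsingleton] at hnt
    exact hP ⟨⟨fun a b => Subsingleton.elim _ _⟩⟩
  refine { toNontrivial := hnt, eq_bot_or_eq_top_of_normal := fun N hNn => ?_ }
  by_contra hcon
  push_neg at hcon
  obtain ⟨hb, ht⟩ := hcon
  haveI := hNn
  obtain ⟨h1, h2⟩ := hmin N hb ht
  have hNab : ∀ R : Sylow p N, IsMulCommutative R := by
    intro R
    by_contra hR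
    exact h1 ⟨⟨R, hR⟩, cond_normal N hcl⟩
  have hQab : ∀ R : Sylow p (G ⧸ N), IsMulCommutative R := by
    intro R
    by_contra hR
    exact h2 ⟨⟨R, hR⟩, cond_quot N hcl⟩
  apply hP
  have hN' : ∀ a ∈ (P : Subgroup G) ⊓ N, ∀ b ∈ (P : Subgroup G) ⊓ N, a * b = b * a := by
    have hpg : IsPGroup p (((P : Subgroup G) ⊓ N).subgroupOf N) :=
      (P.isPGroup'.to_le inf_le_left).comap_subtype
    obtain ⟨R, hR⟩ := hpg.exists_le_sylow
    intro a ha b hb
    have ha' : (⟨a, (Subgroup.mem_inf.mp ha).2⟩ : N) ∈ (R : Subgroup N) :=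
      hR (Subgroup.mem_subgroupOf.mpr ha)
    have hb' : (⟨b, (Subgroup.mem_inf.mp hb).2⟩ : N) ∈ (R : Subgroup N) :=
      hR (Subgroup.mem_subgroupOf.mpr hb)
    have := (hNab R).is_comm.comm ⟨_, ha'⟩ ⟨_, hb'⟩
    exact congrArg (fun t : ↥(R : Subgroup N) => ((t : N) : G)) this
  exact ⟨⟨fun a b => Subtype.ext (aux P hcl N hN' hQab a a.2 b b.2)⟩⟩

end Cfsg.Agent.S4354
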