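import Cfsg.Statements.S4370
import Cfsg.Agent.S0016
import Cfsg.Agent.Lib.Helper1_AbCyc
import Cfsg.Agent.Lib.Helper7_Nilp
import Cfsg.Agent.Lib.Helper4_Stem2

set_option autoImplicit false
open Cfsg

namespace Cfsg.Agent.S4370

open QuaternionGroup in
theorem quat_cent (n : ℕ) [NeZero n] (q : QuaternionGroup n) (hq : q ∉ Subgroup.center (QuaternionGroup n)) :
    IsCyclic (Subgroup.centralizer ({q} : Set (QuaternionGroup n))) := by
  cases q with
  | a i =>
    have h2i : 2 * i ≠ 0 := by
      intro h
      apply hq
      rw [Subgroup.mem_center_iff]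
      intro g
      cases g with
      | a j => rw [a_mul_a, a_mul_a, add_comm]
      | xa j =>
        rw [xa_mul_a, a_mul_xa]
        congr 1
        linear_combination h
    have hle : Subgroup.centralizer ({a i} : Set (QuaternionGroup n)) ≤ Subgroup.zpowers (a 1) := by
      intro g hg
      rw [Subgroup.mem_centralizer_singleton_iff] at hg
      rw [Cfsg.Agent.Lib.Helper4_Stem2.quat_mem]
      cases g with
      | a j => exact ⟨j, rfl⟩
      | xa j =>
        exfalso
        rw [xa_mul_a, a_mul_xa] at hg
        have h3 : j + i = j - i := by injection hg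
        apply h2i
        linear_combination h3
    exact Subgroup.isCyclic_of_le hle
  | xa i =>
    have hsq : (xa i : QuaternionGroup n) ^ 2 = a n := by
      rw [pow_two, xa_mul_xa]; congr 1; ring
    have hle : Subgroup.centralizer ({xa i} : Set (QuaternionGroup n)) ≤ Subgroup.zpowers (xa i) := by
      intro g hg
      rw [Subgroup.mem_centralizer_singleton_iff] at hg
      cases g with
      | a j =>
        rw [xa_mul_a, a_mul_xa] at hg
        have h3 : i - j = i + j := by injection hg
        rcases Cfsg.Agent.Lib.Helper4_Stem2.two_mul_eq_zero n j (by linear_combination -h3) with h | h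
        · rw [h, a_zero]; exact one_mem _
        · rw [h, ← hsq]; exact Subgroup.pow_mem _ (Subgroup.mem_zpowers _) 2
      | xa j =>
        rw [xa_mul_xa, xa_mul_xa] at hg
        have h3 : (n : ZMod (2 * n)) + i - j = n + j - i := by injection hg
        rcases Cfsg.Agent.Lib.Helper4_Stem2.two_mul_eq_zero n (j - i) (by linear_combination -h3) with h | h
        · have : j = i := by linear_combination h
          rw [this]; exact Subgroup.mem_zpowers _
        · have h4 : (xa j : QuaternionGroup n) = xa i * (xa i) ^ 2 := by
            rw [hsq, xa_mul_a]; congr 1; linear_combination h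
          rw [h4]
          exact Subgroup.mul_mem _ (Subgroup.mem_zpowers _) (Subgroup.pow_mem _ (Subgroup.mem_zpowers _) 2)
    exact Subgroup.isCyclic_of_le hle

theorem pgroup_aux {G T : Type*} [Group G] [Group T] [Finite T]
    (hab : ∀ A : Subgroup G, IsMulCommutative A → IsCyclic A) (f : T →* G) (hf : Function.Injective f)
    (q : ℕ) [Fact q.Prime] (hT : IsPGroup q T) :
    IsCyclic T ∨ (q = 2 ∧ ∃ n : ℕ, Nonempty (T ≃* QuaternionGroup (2 ^ n))) := by
  apply Cfsg.Agent.S0016.result q hT
  apply Cfsg.Agent.Lib.Helper1_AbCyc.unique_of_abelian_cyclic hT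
  intro B hB
  have h1 : IsCyclic (B.map f) := by
    apply hab
    constructor
    constructor
    rintro ⟨_, ⟨a, ha, rfl⟩⟩ ⟨_, ⟨b, hb, rfl⟩⟩
    apply Subtype.ext
    show f a * f b = f b * f a
    have := mul_comm' (⟨a, ha⟩ : B) ⟨b, hb⟩
    have h2 : a * b = b * a := congrArg Subtype.val this
    rw [← map_mul, h2, map_mul]
  exact (B.equivMapOfInjective _ hf).isCyclic.mpr h1

/-- Let G be a finite non-abelian nilpotent group. Then the centralizer of every non-central element of G is cyclic if and only if G is isomorphic to the direct product of a generalized quaternion group and a cyclic group of odd order. -/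
theorem result {G : Type*} [Group G] [Finite G] (hG : Group.IsNilpotent G)
    (hna : ¬ IsMulCommutative G) :
    (∀ x : G, x ∉ Subgroup.center G → IsCyclic (Subgroup.centralizer ({x} : Set G))) ↔
      ∃ (k m : ℕ), 1 ≤ k ∧ Odd m ∧ Nonempty (G ≃* QuaternionGroup (2 ^ k) × Multiplicative (ZMod m)) := by
  constructor
  · intro hcyc
    obtain ⟨x₀, hx₀⟩ : ∃ x₀ : G, x₀ ∉ Subgroup.center G := by
      by_contra hcon
      push_neg at hcon
      apply hna
      constructor
      constructor
      intro a b
      exact ((Subgroup.mem_center_iff.1 (hcon a)) b).symm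
    have hab : ∀ A : Subgroup G, IsMulCommutative A → IsCyclic A := by
      intro A hA
      by_cases h : A ≤ Subgroup.center G
      · haveI := hcyc x₀ hx₀
        refine Subgroup.isCyclic_of_le (H' := Subgroup.centralizer ({x₀} : Set G)) ?_
        intro a ha
        rw [Subgroup.mem_centralizer_singleton_iff]
        exact ((Subgroup.mem_center_iff.1 (h ha)) x₀).symm
      · obtain ⟨a, ha, hac⟩ := SetLike.not_le_iff_exists.1 h
        haveI := hcyc a hac
        refine Subgroup.isCyclic_of_le (H' := Subgroup.centralizer ({a} : Set G)) ?_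
        intro b hb
        rw [Subgroup.mem_centralizer_singleton_iff]
        exact congrArg Subtype.val (mul_comm' (⟨b, hb⟩ : A) ⟨a, ha⟩)
    obtain ⟨P⟩ : Nonempty (Sylow 2 G) := inferInstance
    have hPn : (P : Subgroup G).Normal := inferInstance
    obtain ⟨K, hK⟩ := Subgroup.exists_right_complement'_of_coprime P.card_coprime_index
    have hKcard : Nat.card K = (P : Subgroup G).index := hK.symm.index_eq_card.symm
    have hKodd : ¬ 2 ∣ Nat.card K := by
      rw [hKcard]; exact P.not_dvd_index
    have hcomm : ∀ (a : (P : Subgroup G)) (b : K), Commute (a : G) (b : G) := by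
      intro a b
      apply Cfsg.Agent.Lib.Helper7_Nilp.commute_of_coprime_orderOf
      have h1 : orderOf (a : G) ∣ Nat.card (P : Subgroup G) := Subgroup.orderOf_dvd_natCard _ a.2
      have h2 : orderOf (b : G) ∣ Nat.card K := Subgroup.orderOf_dvd_natCard _ b.2
      rw [hKcard] at h2
      exact Nat.Coprime.coprime_dvd_left h1 (Nat.Coprime.coprime_dvd_right h2 P.card_coprime_index)
    have hKc : IsCyclic K := by
      obtain ⟨x, hx⟩ := Cfsg.Agent.Lib.Helper7_Nilp.exists_orderOf_dvd (G := K)
      apply isCyclic_of_orderOf_eq_card x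
      apply Nat.dvd_antisymm (orderOf_dvd_natCard x)
      rw [Nat.dvd_iff_prime_pow_dvd_dvd]
      intro q k hq hqk
      haveI : Fact q.Prime := ⟨hq⟩
      obtain ⟨S⟩ : Nonempty (Sylow q K) := inferInstance
      have hS := pgroup_aux hab (K.subtype.comp (S : Subgroup K).subtype)
        (K.subtype_injective.comp (S : Subgroup K).subtype_injective) q S.isPGroup'
      have hSc : IsCyclic (S : Subgroup K) := by
        rcases hS with h | ⟨rfl, n, ⟨e⟩⟩
        · exact h
        · exfalso
          apply hKodd
          have h1 : Nat.card (S : Subgroup K) = 4 * 2 ^ n := by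
            rw [Nat.card_congr e.toEquiv, Nat.card_eq_fintype_card, QuaternionGroup.card]
          have h2 : Nat.card (S : Subgroup K) ∣ Nat.card K := Subgroup.card_subgroup_dvd_card _
          rw [h1] at h2
          exact (Dvd.intro (2 * 2 ^ n) (by ring)).trans h2
      obtain ⟨g, hg⟩ := hSc.exists_ofOrder_eq_natCard
      have h3 : q ^ k ∣ Nat.card (S : Subgroup K) := S.pow_dvd_card_of_pow_dvd_card hqk
      rw [← hg, ← Subgroup.orderOf_coe] at h3
      exact h3.trans (hx _)
    let φ : ↥(P : Subgroup G) × ↥K →* G :=
      MonoidHom.noncommCoprod (P : Subgroup G).subtype K.subtype hcomm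
    have hφ : Function.Bijective φ := hK
    let E : ↥(P : Subgroup G) × ↥K ≃* G := MulEquiv.ofBijective φ hφ
    have hPnc : ¬ IsCyclic (P : Subgroup G) := by
      intro hPc
      apply hna
      constructor
      constructor
      intro a b
      obtain ⟨⟨a1, a2⟩, rfl⟩ := E.surjective a
      obtain ⟨⟨b1, b2⟩, rfl⟩ := E.surjective b
      rw [← map_mul, ← map_mul]
      congr 1
      letI := hPc.commGroup
      letI := hKc.commGroup
      exact Prod.ext (mul_comm a1 b1) (mul_comm a2 b2)
    rcases pgroup_aux hab (P : Subgroup G).subtype (P : Subgroup G).subtype_injective 2 P.isPGroup' with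
      h | ⟨_, n, ⟨e⟩⟩
    · exact absurd h hPnc
    · refine ⟨n, Nat.card K, ?_, Nat.not_even_iff_odd.1 (fun h => hKodd h.two_dvd), ?_⟩
      · by_contra hn
        have hn0 : n = 0 := by omega
        subst hn0
        apply hPnc
        rw [e.isCyclic, pow_zero]
        exact QuaternionGroup.quaternionGroup_one_isCyclic
      · exact ⟨E.symm.trans (MulEquiv.prodCongr e (zmodCyclicMulEquiv hKc).symm)⟩
  · rintro ⟨k, m, hk, hm, ⟨e⟩⟩ x hx
    set q := (e x).1 with hq
    have hqc : q ∉ Subgroup.center (QuaternionGroup (2 ^ k)) := by
      intro hqc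
      apply hx
      rw [Subgroup.mem_center_iff]
      intro g
      apply e.injective
      rw [map_mul, map_mul]
      exact Prod.ext ((Subgroup.mem_center_iff.1 hqc) (e g).1) (mul_comm _ _)
    have hD := quat_cent (2 ^ k) q hqc
    set D := Subgroup.centralizer ({q} : Set (QuaternionGroup (2 ^ k))) with hDdef
    haveI : NeZero m := ⟨fun h => by subst h; simp at hm⟩
    have hprod : IsCyclic (D × Multiplicative (ZMod m)) := by
      rw [Group.isCyclic_prod_iff]
      refine ⟨hD, inferInstance, ?_⟩
      have h1 : Nat.card D ∣ 2 ^ (k + 2) := by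
        have := Subgroup.card_subgroup_dvd_card D
        rw [Nat.card_eq_fintype_card (α := QuaternionGroup (2 ^ k)), QuaternionGroup.card] at this
        rw [pow_add, mul_comm]
        exact this
      have h2 : Nat.card (Multiplicative (ZMod m)) = m := by
        rw [Nat.card_eq_fintype_card]
        simp [ZMod.card]
      rw [h2]
      exact Nat.Coprime.coprime_dvd_left h1 (Nat.Coprime.pow_left _ (Nat.coprime_two_left.2 hm))
    let C := Subgroup.centralizer ({x} : Set G)
    let f1 : C →* D := ((MonoidHom.fst _ _).comp (e.toMonoidHom.comp C.subtype)).codRestrict D (by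
      intro g
      rw [hDdef, Subgroup.mem_centralizer_singleton_iff]
      have h1 := (Subgroup.mem_centralizer_singleton_iff).1 g.2
      have h2 := congrArg (fun y => (e y).1) h1
      simpa using h2)
    let f2 : C →* Multiplicative (ZMod m) := (MonoidHom.snd _ _).comp (e.toMonoidHom.comp C.subtype)
    apply isCyclic_of_injective (f1.prod f2)
    intro a b hab
    apply Subtype.ext
    apply e.injective
    have h1 := congrArg (fun y => (y.1 : QuaternionGroup (2 ^ k))) hab
    have h2 := congrArg Prod.snd hab
    exact Prod.ext h1 h2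

end Cfsg.Agent.S4370
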