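import Cfsg.Statements.S4387

import Cfsg.Agent.Lib.Helper7_Conj
import Cfsg.Agent.Lib.Helper7_Union
set_option autoImplicit false
open Pointwise
open Cfsg

namespace Cfsg.Agent.S4387

open Cfsg.Agent.Lib.Helper7_Conj Cfsg.Agent.Lib.Helper7_Union
open scoped Pointwise

/-- Let G be a non-trivial finite group in which any two maximal subgroups are conjugate. Then G is cyclic of prime-power order. -/
theorem result {G : Type*} [Group G] [Finite G] [Nontrivial G]
    (h : ∀ M N : Subgroup G, IsCoatom M → IsCoatom N → ∃ g : G, N = MulAut.conj g • M) :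
    IsCyclic G ∧ IsPrimePow (Nat.card G) := by
  obtain ⟨M, hM, -⟩ : ∃ M : Subgroup G, IsCoatom M ∧ ⊥ ≤ M :=
    (eq_top_or_exists_le_coatom (⊥ : Subgroup G)).resolve_left bot_ne_top
  constructor
  · obtain ⟨x, hx⟩ := exists_not_mem_conj M hM.1
    refine ⟨x, ?_⟩
    have htop : Subgroup.zpowers x = ⊤ := by
      rcases eq_top_or_exists_le_coatom (Subgroup.zpowers x) with h1 | ⟨N, hN, hle⟩
      · exact h1
      · exfalso
        obtain ⟨g, rfl⟩ := h M N hM hN
        exact hx g (mem_smul_conj.1 (hle (Subgroup.mem_zpowers x)))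
    intro y
    have : y ∈ Subgroup.zpowers x := by rw [htop]; trivial
    exact this
  · have hidx : M.index ≠ 1 := fun h1 => hM.1 (Subgroup.index_eq_one.1 h1)
    obtain ⟨p, hp, hpd⟩ := Nat.exists_prime_and_dvd hidx
    haveI : Fact p.Prime := ⟨hp⟩
    obtain ⟨P⟩ : Nonempty (Sylow p G) := inferInstance
    have hPtop : (P : Subgroup G) = ⊤ := by
      rcases eq_top_or_exists_le_coatom (P : Subgroup G) with h1 | ⟨N, hN, hle⟩
      · exact h1
      · exfalso
        obtain ⟨g, rfl⟩ := h M N hM hN
        have h2 : (MulAut.conj g • M).index = M.index :=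
          Subgroup.index_map_of_bijective (MulAut.conj g).bijective M
        exact P.not_dvd_index ((h2 ▸ hpd).trans (Subgroup.index_dvd_of_le hle))
    obtain ⟨k, hk⟩ := IsPGroup.iff_card.1 P.isPGroup'
    rw [hPtop, Subgroup.card_top] at hk
    rw [hk]
    refine ⟨p, k, hp.prime, ?_, rfl⟩
    rcases Nat.eq_zero_or_pos k with rfl | hk0
    · exfalso
      have := Finite.one_lt_card (α := G)
      simp at hk
      omega
    · exact hk0

end Cfsg.Agent.S4387
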