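import Mathlib
import Cfsg.Agent.Lib.helper6_MaxClass2
import Cfsg.Agent.Lib.helper6_Taussky
import Cfsg.Agent.Lib.Helper1_Quat
import Cfsg.Statements.S4399

set_option autoImplicit false
open Cfsg

namespace Cfsg.Agent.S4399

open Subgroup Cfsg.Agent.Lib

/-- Let S be a finite 2-group whose commutator quotient S/[S,S] is a Klein four-group (order 4 and exponent 2). Then S itself has order 4, or S is dihedral of order at least 8, semidihedral of order at least 16 (order 2^(k+4) with an element a of order 2^(k+3) and an involution b with b a b⁻¹ = a^(2^(k+2)−1)), or generalized quaternion of order at least 8. -/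
theorem result {S : Type*} [Group S] [Finite S] (h2 : IsPGroup 2 S) (hab : Nat.card (Abelianization S) = 4)
    (hexp : ∀ x : Abelianization S, x ^ 2 = 1) :
    Nat.card S = 4 ∨
    ((∃ k : ℕ, Nonempty (S ≃* DihedralGroup (2 ^ (k + 2)))) ∨
      (∃ k : ℕ, Nat.card S = 2 ^ (k + 4) ∧ ∃ a b : S, orderOf a = 2 ^ (k + 3) ∧ orderOf b = 2 ∧ b * a * b⁻¹ = a ^ (2 ^ (k + 2) - 1)) ∨
      (∃ k : ℕ, Nonempty (S ≃* QuaternionGroup (2 ^ (k + 1))))) := by
  obtain ⟨n, hn⟩ := IsPGroup.iff_card.1 h2
  have hi : (commutator S).index = 4 := by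
    rw [index_eq_card]; exact hab
  by_cases h4 : Nat.card S = 4
  · exact Or.inl h4
  right
  have hn3 : 3 ≤ n := by
    have h1 : (commutator S).index ∣ Nat.card S := index_dvd_card _
    rw [hi, hn] at h1
    by_contra hlt
    have : n = 0 ∨ n = 1 ∨ n = 2 := by omega
    rcases this with rfl | rfl | rfl
    · norm_num at h1
    · norm_num at h1
    · exact h4 (by rw [hn]; norm_num)
  obtain ⟨k, rfl⟩ : ∃ k, n = k+3 := ⟨n-3, by omega⟩
  have hclass := helper6_Taussky.taussky (k+1) S (hn.trans (by ring)) hi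
  obtain ⟨a, b, ha, hb, hidx, hcases⟩ := helper6_MaxClass2.struct k hn (by omega)
  have hb1 : b ≠ 1 := fun h => hb (h ▸ one_mem _)
  rcases hcases with ⟨hb2, hba⟩ | ⟨hb2, hba⟩ | ⟨hk, hb2, hba⟩
  · left
    exact ⟨k, helper6_MaxClass2.dihedral_of (2^(k+2)) a b (by rw [hn]; ring) ha hb hb2 hba⟩
  · right; right
    refine ⟨k, Helper1_Quat.quaternion_equiv (2^(k+1)) a b (by rw [ha]; ring) hba hb2 ?_ hb⟩
    intro g
    by_cases hg : g ∈ zpowers a
    · exact Or.inl hg
    · right
      rw [mul_mem_iff_of_index_two hidx, inv_mem_iff]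
      exact ⟨fun h => absurd h hb, fun h => absurd h hg⟩
  · right; left
    obtain ⟨k', rfl⟩ : ∃ k', k = k' + 1 := ⟨k - 1, by omega⟩
    exact ⟨k', hn, a, b, ha, orderOf_eq_prime hb2 hb1, hba⟩

end Cfsg.Agent.S4399
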