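import Cfsg.Statements.S4420

import Mathlib
set_option autoImplicit false
open Cfsg

namespace Cfsg.Agent.S4420


/-- Structure of groups in which every element outside some proper subgroup has square 1. Let H be a finite group with a proper subgroup A such that every element outside A has square 1. Then H has an abelian normal subgroup B of index 2 such that every element outside B is an involution inverting every element of B; and if H is not an elementary abelian 2-group, B is the only abelian normal subgroup of index 2 with this property. -/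
theorem result {H : Type*} [Group H] [Finite H] (A : Subgroup H) (hA : A ≠ ⊤) (hD : ∀ x : H, x ∉ A → x ^ 2 = 1) :
    ∃ B : Subgroup H, B.Normal ∧ IsMulCommutative ↥B ∧ B.index = 2 ∧
      (∀ x : H, x ∉ B → x ^ 2 = 1 ∧ ∀ b ∈ B, x * b * x⁻¹ = b⁻¹) ∧
      (¬ (IsMulCommutative H ∧ ∀ x : H, x ^ 2 = 1) →
        ∀ B' : Subgroup H, B'.Normal → IsMulCommutative ↥B' → B'.index = 2 →
          (∀ x : H, x ∉ B' → x ^ 2 = 1 ∧ ∀ b ∈ B', x * b * x⁻¹ = b⁻¹) → B' = B) := by
  classical
  by_cases hexp : ∀ x : H, x ^ 2 = 1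
  · have hinv : ∀ x : H, x⁻¹ = x :=
      fun x => inv_eq_of_mul_eq_one_left (by rw [← pow_two]; exact hexp x)
    have hcomm : ∀ a b : H, a * b = b * a := by
      intro a b
      calc a * b = (a * b)⁻¹ := (hinv _).symm
        _ = b⁻¹ * a⁻¹ := by group
        _ = b * a := by rw [hinv a, hinv b]
    have hpg : IsPGroup 2 H := fun g => ⟨1, by simpa using hexp g⟩
    obtain ⟨k, hk⟩ := IsPGroup.iff_card.1 hpg
    have hk0 : k ≠ 0 := by
      rintro rfl
      apply hA
      have : Subsingleton H := (Nat.card_eq_one_iff_unique.1 (by simpa using hk)).1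
      exact Subsingleton.elim _ _
    obtain ⟨B, hB⟩ := Sylow.exists_subgroup_card_pow_prime 2 (n := k - 1) (G := H)
      (by rw [hk]; exact pow_dvd_pow 2 (Nat.sub_le _ _))
    have hidx : B.index = 2 := by
      have h1 := Subgroup.card_mul_index B
      rw [hB, hk] at h1
      obtain ⟨j, rfl⟩ : ∃ j, k = j + 1 := ⟨k - 1, by omega⟩
      simp only [Nat.add_sub_cancel] at h1
      rw [pow_succ] at h1
      exact Nat.eq_of_mul_eq_mul_left (pow_pos (by norm_num) j) h1
    refine ⟨B, ⟨fun n hn g => by rw [hcomm g n]; simpa using hn⟩,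
      ⟨⟨fun a b => Subtype.ext (hcomm a.1 b.1)⟩⟩, hidx, ?_, ?_⟩
    · intro x _
      refine ⟨hexp x, fun b _ => ?_⟩
      rw [hcomm x b, hinv b]; group
    · intro hcon
      exact absurd ⟨⟨⟨hcomm⟩⟩, hexp⟩ hcon
  · push Not at hexp
    obtain ⟨a0, ha0⟩ := hexp
    have ha0A : a0 ∈ A := by
      by_contra h
      exact ha0 (hD a0 h)
    obtain ⟨x0, hx0⟩ : ∃ x0, x0 ∉ A := by
      by_contra hcon
      push Not at hcon
      exact hA (eq_top_iff.2 fun z _ => hcon z)
    have hinvA : ∀ x : H, x ∉ A → ∀ a ∈ A, x * a * x⁻¹ = a⁻¹ := by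
      intro x hx a ha
      have hxa : x * a ∉ A := fun h => hx (by simpa using mul_mem h (inv_mem ha))
      have h1 := hD _ hxa
      have h2 := hD _ hx
      have hxinv : x⁻¹ = x := inv_eq_of_mul_eq_one_left (by rw [← pow_two]; exact h2)
      rw [hxinv]
      rw [pow_two] at h1
      exact eq_inv_of_mul_eq_one_left (by rw [← h1]; group)
    have hAcomm : ∀ a ∈ A, ∀ b ∈ A, a * b = b * a := by
      intro a ha b hb
      have h1 := hinvA x0 hx0 (a * b) (mul_mem ha hb)
      have h2 := hinvA x0 hx0 a ha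
      have h3 := hinvA x0 hx0 b hb
      have h4 : a⁻¹ * b⁻¹ = b⁻¹ * a⁻¹ := by
        calc a⁻¹ * b⁻¹ = (x0 * a * x0⁻¹) * (x0 * b * x0⁻¹) := by rw [h2, h3]
          _ = x0 * (a * b) * x0⁻¹ := by group
          _ = (a * b)⁻¹ := h1
          _ = b⁻¹ * a⁻¹ := by group
      have h5 := congrArg (·⁻¹) h4
      simpa using h5.symm
    have hAn : A.Normal := by
      refine ⟨fun n hn g => ?_⟩
      by_cases hg : g ∈ A
      · exact mul_mem (mul_mem hg hn) (inv_mem hg)
      · rw [hinvA g hg n hn]; exact inv_mem hn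
    have hprod : ∀ x y : H, x ∉ A → y ∉ A → x * y ∈ A := by
      intro x y hx hy
      by_contra hxy
      have h1 := hinvA _ hxy a0 ha0A
      have h2 := hinvA y hy a0 ha0A
      have h3 := hinvA x hx a0⁻¹ (inv_mem ha0A)
      have h4 : x * y * a0 * (x * y)⁻¹ = a0 := by
        calc x * y * a0 * (x * y)⁻¹ = x * (y * a0 * y⁻¹) * x⁻¹ := by group
          _ = x * a0⁻¹ * x⁻¹ := by rw [h2]
          _ = a0 := by rw [h3, inv_inv]
      rw [h4] at h1
      apply ha0
      rw [pow_two]; nth_rewrite 1 [h1]; group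
    have hidx : A.index = 2 := by
      rw [Subgroup.index_eq_two_iff]
      refine ⟨x0, fun b => ?_⟩
      by_cases hb : b ∈ A
      · right
        exact ⟨hb, fun h => hx0 (by simpa using mul_mem (inv_mem hb) h)⟩
      · left
        exact ⟨hprod b x0 hb hx0, hb⟩
    refine ⟨A, hAn, ⟨⟨fun a b => Subtype.ext (hAcomm a.1 a.2 b.1 b.2)⟩⟩, hidx,
      fun x hx => ⟨hD x hx, hinvA x hx⟩, ?_⟩
    intro _ B' hB'n hB'c hB'i hB'
    have ha0B' : a0 ∈ B' := by
      by_contra h
      exact ha0 (hB' a0 h).1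
    have hle : B' ≤ A := by
      intro b hb
      by_contra hbA
      have h1 := hinvA b hbA a0 ha0A
      have h2 : b * a0 = a0 * b := congrArg Subtype.val (mul_comm' (⟨b, hb⟩ : B') ⟨a0, ha0B'⟩)
      rw [h2] at h1
      apply ha0
      have h3 : a0 = a0⁻¹ := by simpa using h1
      rw [pow_two]; nth_rewrite 1 [h3]; group
    apply le_antisymm hle
    have h1 := Subgroup.relIndex_mul_index hle
    rw [hidx, hB'i] at h1
    have h2 : B'.relIndex A = 1 := by omega
    exact Subgroup.relIndex_eq_one.1 h2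

end Cfsg.Agent.S4420
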