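import Cfsg.Statements.S4517
import Mathlib
import Mathlib
import Cfsg.Agent.Lib.Helper2_RealBlock


set_option autoImplicit false
open Cfsg

namespace Cfsg.Agent.S4517

/-- Let G be a finite group, M a maximal ideal of the algebraic integers containing 2, and k a natural number coprime to the order of G with g ^ k = g⁻¹ for every element g of odd order (so that g ↦ g ^ k induces a field automorphism of the character values inverting the roots of unity of odd order). If B is a 2-block of full defect (its defect equals the exponent of 2 in the order of G) that is stable under χ ↦ χ ∘ (· ^ k), then B is the principal 2-block. -/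
theorem result {G : Type*} [Group G] [Finite G] (M : Ideal Cfsg.AlgInt) (hM : Cfsg.IsPModular 2 M) (k : ℕ) (hk : Nat.Coprime k (Nat.card G)) (hk₂ : ∀ g : G, Odd (orderOf g) → g ^ k = g⁻¹) (B : Set (Cfsg.IrrCharacter G)) (hB : Cfsg.IsPBlock M B) (hdef : Cfsg.blockDefect 2 B = (Nat.card G).factorization 2) (hstab : ∀ χ ∈ B, ∃ ψ ∈ B, ∀ g : G, (ψ : G → ℂ) g = (χ : G → ℂ) (g ^ k)) : B = Cfsg.principalBlock M G := by
  classical
  haveI : Fintype G := Fintype.ofFinite G
  haveI : Fact (Nat.Prime 2) := ⟨Nat.prime_two⟩
  apply Cfsg.Agent.Lib.Helper2_RealBlock.real_full_defect_principal hM hB hdef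
  intro g
  by_cases hg : 2 ∣ orderOf g
  · rw [Cfsg.Agent.Lib.Helper2_BlockOrtho.blockCoeff_singular hM hB hg,
      Cfsg.Agent.Lib.Helper2_BlockOrtho.blockCoeff_singular hM hB (by rwa [orderOf_inv])]
  · have hodd : Odd (orderOf g) := by
      rw [← Nat.not_even_iff_odd, even_iff_two_dvd]; exact hg
    rw [← hk₂ g hodd]
    exact Cfsg.Agent.Lib.Helper2_RealBlock.blockCoeff_pow hk hstab g

end Cfsg.Agent.S4517
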