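import Cfsg.Statements.S4519
import Mathlib
import Cfsg.Agent.Lib.Helper2_GalOdd2


set_option autoImplicit false
open Cfsg

namespace Cfsg.Agent.S4519

open Cfsg Cfsg.Agent.Lib.CharBasic Cfsg.Agent.Lib.CharOrtho
  Cfsg.Agent.Lib.CharComplete Cfsg.Agent.Lib.CharIntegral Cfsg.Agent.Lib.CharMore
  Cfsg.Agent.Lib.CharInd Cfsg.Agent.Lib.CharClifford
  Cfsg.Agent.Lib.Helper2_GalOdd Cfsg.Agent.Lib.Helper2_GalOdd2

/-- Let N be a normal subgroup of odd index in the finite group G, and let k be coprime to the order of G with k ^ (2 ^ e) ≡ 1 modulo the order of G for some e and g ^ k = g⁻¹ for every element g of odd order (so g ↦ g ^ k induces a field automorphism of 2-power order inverting the roots of unity of odd order). If an irreducible character θ of N satisfies θ (n ^ k) = θ n for all n, then there is exactly one irreducible character χ of G with θ a constituent of its restriction to N and χ (g ^ k) = χ g for all g; moreover,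 if θ is invariant under conjugation by G, that χ restricts to θ. -/
theorem result {G : Type*} [Group G] [Fintype G] (N : Subgroup G) [hN : N.Normal] [Fintype N] (hidx : Odd N.index) (k e : ℕ) (hk : Nat.Coprime k (Nat.card G)) (hke : k ^ (2 ^ e) ≡ 1 [MOD Nat.card G]) (hk₂ : ∀ g : G, Odd (orderOf g) → g ^ k = g⁻¹) (θ : Cfsg.IrrCharacter N) (hθ : ∀ n : N, (θ : N → ℂ) (n ^ k) = (θ : N → ℂ) n) : ∃ χ : Cfsg.IrrCharacter G, (Cfsg.classInner (fun n : N => (χ : G → ℂ) n) (θ : N → ℂ) ≠ 0 ∧ (∀ g : G, (χ : G → ℂ) (g ^ k) = (χ : G → ℂ) g) ∧ ((∀ g : G, ∀ n : N, (θ : N → ℂ) ⟨g * n * g⁻¹, hN.conj_mem n n.2 g⟩ = (θ : N → ℂ) n) → ∀ n : N, (χ : G → ℂ) n = (θ : N → ℂ) n)) ∧ ∀ χ' : Cfsg.IrrCharacter G, Cfsg.classInner (fun n : N => (χ' : G → ℂ) n) (θ : N → ℂ) ≠ 0 → (∀ g : G, (χ' : G → ℂ) (g ^ k) = (χ' : G → ℂ) g) → χ' = χ := by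
  classical
  have hke' : ∀ g : G, g ^ (k ^ (2 ^ e)) = g := by
    intro g
    have h1 := (pow_eq_pow_iff_modEq (x := g)).2 (hke.of_dvd (orderOf_dvd_natCard g))
    rw [h1, pow_one]
  obtain ⟨χ, hc, hfix⟩ := gal_exists N hidx hk hke' θ hθ
  refine ⟨χ, ⟨hc, hfix, fun hinv' => ?_⟩, fun χ' hc' hfix' =>
    gal_unique N hidx hk hke' hk₂ χ' χ hfix' hfix θ hc' hc⟩
  have hinv : ∀ g : G, conjFun N hN (θ : N → ℂ) g = θ := fun g => funext fun n => hinv' g n
  obtain ⟨χ₁, hres, hfix₁⟩ := gal_ext N hidx hk hke' hk₂ θ hθ hinv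
  have hresfun : (fun n : N => (χ₁ : G → ℂ) n) = θ := funext hres
  have heq : χ = χ₁ := gal_unique N hidx hk hke' hk₂ χ χ₁ hfix hfix₁ θ hc (by
    rw [hresfun, classInner_irr_self θ.2]; exact one_ne_zero)
  rw [heq]
  exact hres

end Cfsg.Agent.S4519
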