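import Cfsg.Statements.S4520
import Mathlib
import Cfsg.Agent.Lib.Helper2_GalOdd
import Cfsg.Agent.Lib.Helper2_BlockNormal
import Cfsg.Agent.Lib.Helper2_BlockThird


set_option autoImplicit false
open Cfsg

namespace Cfsg.Agent.S4520

open Cfsg Cfsg.Agent.Lib.Helper2_BlockLocal Cfsg.Agent.Lib.Helper2_BlockOm
  Cfsg.Agent.Lib.Helper2_BlockOsima Cfsg.Agent.Lib.Helper2_BlockBasic
  Cfsg.Agent.Lib.Helper2_BlockThird Cfsg.Agent.Lib.Helper2_BlockQuot
  Cfsg.Agent.Lib.Helper2_BlockNormal
  Cfsg.Agent.Lib.CharBasic Cfsg.Agent.Lib.CharOrtho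
  Cfsg.Agent.Lib.CharComplete Cfsg.Agent.Lib.CharIntegral Cfsg.Agent.Lib.CharMore
  Cfsg.Agent.Lib.CharInd Cfsg.Agent.Lib.CharClifford Cfsg.Agent.Lib.CharPow
  Cfsg.Agent.Lib.CharPow2
  Cfsg.Agent.Lib.Helper2_GalThompson Cfsg.Agent.Lib.Helper2_GalOdd
  Cfsg.Agent.S4735
open scoped ComplexConjugate

/-- Let N be a normal subgroup of odd index in the finite group G, M a maximal ideal of the algebraic integers containing 2, and k coprime to the order of G with k ^ (2 ^ e) ≡ 1 modulo the order of G for some e and g ^ k = g⁻¹ for every element g of odd order. Let θ be an irreducible character of N and χ an irreducible character of G over θ, both unchanged by composing with g ↦ g ^ k. Then χ lies in the principal 2-block of G if and only if θ lies in the principal 2-block of N. -/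
theorem result {G : Type*} [Group G] [Fintype G] (M : Ideal Cfsg.AlgInt) (hM : Cfsg.IsPModular 2 M) (N : Subgroup G) [N.Normal] [Fintype N] (hidx : Odd N.index) (k e : ℕ) (hk : Nat.Coprime k (Nat.card G)) (hke : k ^ (2 ^ e) ≡ 1 [MOD Nat.card G]) (hk₂ : ∀ g : G, Odd (orderOf g) → g ^ k = g⁻¹) (θ : Cfsg.IrrCharacter N) (hθ : ∀ n : N, (θ : N → ℂ) (n ^ k) = (θ : N → ℂ) n) (χ : Cfsg.IrrCharacter G) (hχ : ∀ g : G, (χ : G → ℂ) (g ^ k) = (χ : G → ℂ) g) (hover : Cfsg.classInner (fun n : N => (χ : G → ℂ) n) (θ : N → ℂ) ≠ 0) : χ ∈ Cfsg.principalBlock M G ↔ θ ∈ Cfsg.principalBlock M N := by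
  classical
  haveI : Fact (Nat.Prime 2) := ⟨Nat.prime_two⟩
  have hPr := isPrime_of_modular hM
  have hN : N.Normal := inferInstance
  have hke' : ∀ g : G, g ^ (k ^ (2 ^ e)) = g := by
    intro g
    have h1 := (pow_eq_pow_iff_modEq (x := g)).2 (hke.of_dvd (orderOf_dvd_natCard g))
    rw [h1, pow_one]
  constructor
  · intro hχB
    set c : G → ℂ := fun x => if x ∈ N then reg 2 G x else 0 with hc
    have hccf : IsClassFunction G c := by
      intro x y
      have h1 : y * x * y⁻¹ ∈ N ↔ x ∈ N := by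
        constructor
        · intro h
          have := hN.conj_mem _ h y⁻¹
          simpa [mul_assoc] using this
        · intro h
          exact hN.conj_mem _ h y
      simp only [hc, h1, reg_classFunction (p := 2) x y]
    have hcr : ∀ x, MemLocalRing M (c x) := by
      intro x
      simp only [hc]
      split_ifs
      · exact reg_ring hPr x
      · exact ring_zero hPr
    have hc0 : ∀ g, g ∉ N → c g = 0 := by
      intro g hg
      simp only [hc, if_neg hg]
    have hcN : (fun n : N => c n) = reg 2 N := by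
      funext n
      simp only [hc, if_pos n.2, reg_coe]
    have e1 : Om c (χ : G → ℂ) = Om (reg 2 N) (θ : N → ℂ) := by
      rw [Om_eq_Om_restrict N hc0 χ, Om_restrict_eq N hN χ.2 θ.2 hover hccf, hcN]
    have e2 : Om c (oneIrr G : G → ℂ) = Om (reg 2 N) (oneIrr N : N → ℂ) := by
      rw [Om_eq_Om_restrict N hc0, hcN]
      rfl
    have hs : SameBlock M (oneIrr G : G → ℂ) (χ : G → ℂ) := hχB
    have h2 := Om_congr hPr hccf hcr (irr_classFunction χ) (irr_classFunction (oneIrr G))
      (sameBlock_symm hs)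
    rw [e1, e2] at h2
    rw [mem_principal_iff hM]
    apply not_ideal_of_sub hPr h2
    rw [Om_oneIrr]
    exact not_ideal_sum_reg hM
  · intro hθB
    have hInd : IsCharacter G (indFun N (θ : N → ℂ)) :=
      isCharacter_indFun N _ (isCharacter_of_isIrr θ.2)
    obtain ⟨m, hm, hme⟩ := exists_mult hInd
    have hm' : ∀ ψ : IrrCharacter G,
        classInner (fun n : N => (ψ : G → ℂ) n) (θ : N → ℂ) = m ψ := by
      intro ψ
      have h1 := hm ψ
      rw [frobenius_reciprocity N _ _ (irr_classFunction ψ), ← classInner_conj_symm] at h1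
      have h2 := congrArg conj h1
      simpa using h2
    set S := Finset.univ.filter
      (fun ψ : IrrCharacter N => ∃ g : G, (ψ : N → ℂ) = conjFun N hN θ g) with hS
    have hdeg : ∀ ψ : IrrCharacter G, (m ψ : ℂ) * (ψ : G → ℂ) 1 =
        (m ψ : ℂ) ^ 2 * S.card * (θ : N → ℂ) 1 := by
      intro ψ
      by_cases h0 : m ψ = 0
      · simp [h0]
      · have hc : classInner (fun n : N => (ψ : G → ℂ) n) (θ : N → ℂ) ≠ 0 := by
          rw [hm']
          exact_mod_cast h0
        have hcl := congrFun (clifford N hN ψ.2 θ.2 hc) 1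
        rw [hm'] at hcl
        have h4 : ∀ ψ' ∈ S, (ψ' : N → ℂ) 1 = (θ : N → ℂ) 1 := by
          intro ψ' hψ'
          obtain ⟨g, hg⟩ := (Finset.mem_filter.mp hψ').2
          rw [hg, conjFun_apply]
          exact congrArg (θ : N → ℂ) (Subtype.ext (by simp))
        have h5 : (ψ : G → ℂ) 1 = (m ψ : ℂ) * ((S.card : ℂ) * (θ : N → ℂ) 1) := by
          have h6 : (ψ : G → ℂ) 1 = (m ψ : ℂ) * ∑ ψ' ∈ S, (ψ' : N → ℂ) 1 := by
            simpa [Finset.sum_apply] using hcl
          rw [h6, Finset.sum_congr rfl h4, Finset.sum_const, nsmul_eq_mul]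
        rw [h5]
        ring
    have hregconj : ∀ x : G, conj (reg 2 G x) = reg 2 G x := by
      intro x
      unfold reg
      split_ifs <;> simp
    have hI : ∑ x, reg 2 G x * indFun N (θ : N → ℂ) x =
        (N.index : ℂ) * ∑ n : N, reg 2 N n * (θ : N → ℂ) n := by
      have h1 := frobenius_reciprocity N (θ : N → ℂ) (reg 2 G) (reg_classFunction (p := 2))
      unfold classInner at h1
      have hG0 : (Nat.card G : ℂ) ≠ 0 := by exact_mod_cast Nat.card_pos.ne'
      have hN0 : (Nat.card N : ℂ) ≠ 0 := by exact_mod_cast Nat.card_pos.ne'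
      have h2 : (Nat.card G : ℂ) = (Nat.card N : ℂ) * (N.index : ℂ) := by
        exact_mod_cast N.card_mul_index.symm
      have h3 : ∑ x, reg 2 G x * indFun N (θ : N → ℂ) x =
          ∑ x, indFun N (θ : N → ℂ) x * conj (reg 2 G x) :=
        Finset.sum_congr rfl fun x _ => by rw [hregconj, mul_comm]
      have h4 : ∑ n : N, reg 2 N n * (θ : N → ℂ) n =
          ∑ n : N, (θ : N → ℂ) n * conj (reg 2 G (n : G)) :=
        Finset.sum_congr rfl fun n _ => by rw [hregconj, reg_coe, mul_comm]
      rw [h3, h4]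
      field_simp at h1
      rw [h2] at h1
      have h5 : (Nat.card N : ℂ) * ∑ x, indFun N (θ : N → ℂ) x * conj (reg 2 G x) =
          (Nat.card N : ℂ) * ((N.index : ℂ) * ∑ n : N, (θ : N → ℂ) n * conj (reg 2 G (n : G))) := by
        linear_combination h1
      exact mul_left_cancel₀ hN0 h5
    have hT : ∀ ψ : IrrCharacter G, ∑ x, reg 2 G x * (ψ : G → ℂ) x =
        (ψ : G → ℂ) 1 * Om (reg 2 G) (ψ : G → ℂ) := by
      intro ψ
      unfold Om
      rw [mul_div_cancel₀ _ (irr_degree_ne_zero ψ.2)]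
    have hTN : ∑ n : N, reg 2 N n * (θ : N → ℂ) n =
        (θ : N → ℂ) 1 * Om (reg 2 N) (θ : N → ℂ) := by
      unfold Om
      rw [mul_div_cancel₀ _ (irr_degree_ne_zero θ.2)]
    have hII : (S.card : ℂ) * ∑ ψ : IrrCharacter G, (m ψ : ℂ) ^ 2 * Om (reg 2 G) (ψ : G → ℂ) =
        (N.index : ℂ) * Om (reg 2 N) (θ : N → ℂ) := by
      have h1 : ∑ x, reg 2 G x * indFun N (θ : N → ℂ) x =
          ∑ ψ : IrrCharacter G, (m ψ : ℂ) * ∑ x, reg 2 G x * (ψ : G → ℂ) x := by
        conv_lhs => rw [hme]
        simp only [Finset.sum_apply, Pi.smul_apply, smul_eq_mul, Finset.mul_sum]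
        rw [Finset.sum_comm]
        refine Finset.sum_congr rfl fun ψ _ => Finset.sum_congr rfl fun x _ => by ring
      rw [hI, hTN] at h1
      simp only [hT] at h1
      have h2 : ∀ ψ : IrrCharacter G, (m ψ : ℂ) * ((ψ : G → ℂ) 1 * Om (reg 2 G) (ψ : G → ℂ)) =
          (θ : N → ℂ) 1 * ((S.card : ℂ) * ((m ψ : ℂ) ^ 2 * Om (reg 2 G) (ψ : G → ℂ))) := by
        intro ψ
        rw [← mul_assoc, hdeg]
        ring
      simp only [h2, ← Finset.mul_sum] at h1
      apply mul_left_cancel₀ (irr_degree_ne_zero θ.2)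
      rw [← h1]
      ring
    set D : IrrCharacter G → ℕ := fun ψ => if ψ ∈ principalBlock M G then m ψ ^ 2 else 0 with hD
    have hodd : ¬ 2 ∣ ∑ ψ, D ψ := by
      intro hdvd
      have h1 : MemLocalIdeal M ((∑ ψ, D ψ : ℕ) : ℂ) := (ideal_natCast_iff hM _).2 hdvd
      set ω₁ := Om (reg 2 G) (oneIrr G : G → ℂ) with hω
      have hω₁ : MemLocalRing M ω₁ :=
        Om_ring hPr (reg_classFunction (p := 2)) (reg_ring hPr) (oneIrr G).2
      have h2 : ∀ ψ : IrrCharacter G, MemLocalIdeal M
          ((m ψ : ℂ) ^ 2 * Om (reg 2 G) (ψ : G → ℂ) - (D ψ : ℂ) * ω₁) := by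
        intro ψ
        by_cases hψ : ψ ∈ principalBlock M G
        · have hs : SameBlock M (oneIrr G : G → ℂ) (ψ : G → ℂ) := hψ
          have h3 := Om_congr hPr (reg_classFunction (p := 2)) (reg_ring hPr) (irr_classFunction ψ)
            (irr_classFunction (oneIrr G)) (sameBlock_symm hs)
          have h4 : (m ψ : ℂ) ^ 2 * Om (reg 2 G) (ψ : G → ℂ) - (D ψ : ℂ) * ω₁ =
              ((m ψ ^ 2 : ℕ) : ℂ) * (Om (reg 2 G) (ψ : G → ℂ) - ω₁) := by
            simp only [hD, if_pos hψ]
            push_cast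
            ring
          rw [h4]
          exact ideal_mul_left hPr (ring_natCast hPr _) h3
        · have h3 : ∑ x, reg 2 G x * (ψ : G → ℂ) x = 0 := by
            by_contra hne
            exact hψ ((mem_principal_iff_sum hM ψ).2 hne)
          have h4 : Om (reg 2 G) (ψ : G → ℂ) = 0 := by
            unfold Om
            rw [h3, zero_div]
          simp only [hD, if_neg hψ, h4]
          simpa using ideal_zero hPr
      have h3 := ideal_sum hPr Finset.univ _ (fun ψ _ => h2 ψ)
      rw [Finset.sum_sub_distrib, ← Finset.sum_mul] at h3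
      have h4 : MemLocalIdeal M ((∑ ψ, (D ψ : ℂ)) * ω₁) := by
        apply ideal_mul_right hPr _ hω₁
        have : (∑ ψ, (D ψ : ℂ)) = ((∑ ψ, D ψ : ℕ) : ℂ) := by push_cast; rfl
        rw [this]
        exact h1
      have h5 := ideal_add hPr h3 h4
      rw [sub_add_cancel] at h5
      have h6 := ideal_mul_left hPr (ring_natCast hPr S.card) h5
      rw [hII] at h6
      rcases ideal_mul_mem hPr (ring_natCast hPr _)
        (Om_ring hPr (reg_classFunction (p := 2)) (reg_ring hPr) θ.2) h6 with h7 | h7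
      · have := (ideal_natCast_iff hM _).1 h7
        exact (Nat.not_even_iff_odd.2 hidx) (even_iff_two_dvd.2 this)
      · exact (mem_principal_iff hM θ).1 hθB h7
    have hkN := coprime_card_subgroup N hk
    have hmσ : ∀ ψ, m (powIrr hk ψ) = m ψ := by
      intro ψ
      have h1 := hm' (powIrr hk ψ)
      have h2 : (fun n : N => ((powIrr hk ψ : IrrCharacter G) : G → ℂ) n) =
          powFun (fun n : N => (ψ : G → ℂ) n) k := rfl
      have h3 : (θ : N → ℂ) = powFun (θ : N → ℂ) k := funext fun n => (hθ n).symm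
      rw [h2] at h1
      nth_rewrite 1 [h3] at h1
      rw [classInner_powFun _ _ hkN, hm'] at h1
      exact_mod_cast h1.symm
    have hDσ : ∀ ψ, D (powIrr hk ψ) = D ψ := by
      intro ψ
      simp only [hD, powIrr_mem_iff hM hk ψ, hmσ ψ]
    have S1 := sum_modEq_powIrr 2 hk e hke' D hDσ
    have hne : ∑ ψ, (if powIrr hk ψ = ψ then D ψ else 0) ≠ 0 := by
      intro h0
      rw [h0] at S1
      exact hodd ((Nat.modEq_zero_iff_dvd).1 S1)
    obtain ⟨ψ, -, hψ⟩ := Finset.exists_ne_zero_of_sum_ne_zero hne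
    have hfix : powIrr hk ψ = ψ := by
      by_contra h
      exact hψ (if_neg h)
    rw [if_pos hfix] at hψ
    have hψB : ψ ∈ principalBlock M G := by
      by_contra h
      exact hψ (by simp only [hD, if_neg h])
    have hmψ : m ψ ≠ 0 := by
      intro h
      apply hψ
      simp only [hD, if_pos hψB, h]
      rfl
    have heq : χ = ψ := gal_unique N hidx hk hke' hk₂ χ ψ hχ
      (fun g => congrFun (congrArg Subtype.val hfix) g) θ hover (by
        rw [hm']
        exact_mod_cast hmψ)
    rw [heq]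
    exact hψB

end Cfsg.Agent.S4520
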