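import Cfsg.Statements.S4521
import Mathlib
import Mathlib
import Cfsg.Agent.Lib.Helper2_BlockThird
import Cfsg.Agent.Lib.Helper2_BlockNormal


set_option autoImplicit false
open Cfsg

namespace Cfsg.Agent.S4521

open Cfsg Cfsg.Agent.Lib.Helper2_BlockLocal Cfsg.Agent.Lib.Helper2_BlockOm
  Cfsg.Agent.Lib.Helper2_BlockOsima Cfsg.Agent.Lib.Helper2_BlockBasic
  Cfsg.Agent.Lib.Helper2_BlockInd Cfsg.Agent.Lib.Helper2_BlockThird Cfsg.Agent.Lib.Helper2_BlockQuot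
  Cfsg.Agent.Lib.Helper2_BlockNormal
  Cfsg.Agent.Lib.CharBasic Cfsg.Agent.Lib.CharOrtho
  Cfsg.Agent.Lib.CharComplete Cfsg.Agent.Lib.CharIntegral Cfsg.Agent.Lib.CharMore
  Cfsg.Agent.Lib.CharInd Cfsg.Agent.Lib.CharClifford
open scoped ComplexConjugate Pointwise

lemma regular_mul {G : Type*} [Group G] {p : ℕ} (hp : p.Prime) {a b : G} (hc : Commute a b)
    (ha : ¬ p ∣ orderOf a) (hb : ¬ p ∣ orderOf b) : ¬ p ∣ orderOf (a * b) := by
  intro h
  have h1 := h.trans (hc.orderOf_mul_dvd_lcm)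
  have h2 := h1.trans (Nat.lcm_dvd_mul _ _)
  rcases (Nat.Prime.dvd_mul hp).1 h2 with h3 | h3
  exacts [ha h3, hb h3]

lemma normal_of_comm {G : Type*} [Group G] (U₁ U₂ : Subgroup G)
    (hcomm : ∀ u ∈ U₁, ∀ v ∈ U₂, u * v = v * u) (hgen : U₁ ⊔ U₂ = ⊤) : U₁.Normal := by
  rw [← Subgroup.normalizer_eq_top_iff, eq_top_iff, ← hgen, sup_le_iff]
  refine ⟨Subgroup.le_normalizer, ?_⟩
  rw [Subgroup.le_normalizer_iff]
  intro v hv u hu
  rw [← hcomm u hu v hv, mul_inv_cancel_right]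
  exact hu

lemma cut_classFunction {G : Type*} [Group G] (p : ℕ) (U : Subgroup G) (hU : U.Normal)
    [DecidablePred (· ∈ U)] :
    IsClassFunction G (fun x => if x ∈ U then reg p G x else 0) := by
  intro x g
  have h1 : g * x * g⁻¹ ∈ U ↔ x ∈ U := by
    constructor
    · intro h
      have := hU.conj_mem _ h g⁻¹
      simpa [mul_assoc] using this
    · intro h; exact hU.conj_mem _ h g
  simp only [h1, reg_classFunction (p := p) x g]

lemma exists_regular_pow {G : Type*} [Group G] [Finite G] (p : ℕ) [Fact p.Prime] {g : G}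
    (hg : ¬ p ∣ orderOf g) : ∃ k : ℕ, g ^ k = g ∧ ∀ u : G, ¬ p ∣ orderOf (u ^ k) := by
  have hp : p.Prime := Fact.out
  obtain ⟨a, m, hm, hn⟩ := Nat.exists_eq_pow_mul_and_not_dvd (n := Nat.card G)
    Nat.card_pos.ne' p hp.ne_one
  have hco : (orderOf g).Coprime (p ^ a) :=
    Nat.Coprime.pow_right _ ((Nat.Prime.coprime_iff_not_dvd hp).2 hg).symm
  obtain ⟨k, hk1, hk0⟩ := Nat.chineseRemainder hco 1 0
  refine ⟨k, ?_, ?_⟩
  · have := (pow_eq_pow_iff_modEq (x := g) (n := k) (m := 1)).2 hk1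
    rwa [pow_one] at this
  · intro u hd
    have h1 : p ^ a ∣ k := (Nat.modEq_zero_iff_dvd).1 hk0
    have h2 : (u ^ k) ^ m = 1 := by
      rw [← pow_mul]
      obtain ⟨c, rfl⟩ := h1
      rw [show p ^ a * c * m = (p ^ a * m) * c by ring, ← hn, pow_mul, pow_card_eq_one', one_pow]
    exact hm (hd.trans (orderOf_dvd_of_pow_eq_one h2))

lemma conv_reg {G : Type*} [Group G] [Fintype G] (p : ℕ) [Fact p.Prime] (U₁ U₂ : Subgroup G)
    (hcomm : ∀ u ∈ U₁, ∀ v ∈ U₂, u * v = v * u) (hgen : U₁ ⊔ U₂ = ⊤)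
    (hZ : IsPGroup p ↥(U₁ ⊓ U₂)) [DecidablePred (· ∈ U₁)] [DecidablePred (· ∈ U₂)] (g : G) :
    conv (fun x => if x ∈ U₁ then reg p G x else 0) (fun x => if x ∈ U₂ then reg p G x else 0) g
      = reg p G g := by
  classical
  have hp : p.Prime := Fact.out
  have hterm : ∀ x : G, (if x ∈ U₁ then reg p G x else 0) *
      (if x⁻¹ * g ∈ U₂ then reg p G (x⁻¹ * g) else 0) =
      if (x ∈ U₁ ∧ ¬ p ∣ orderOf x ∧ x⁻¹ * g ∈ U₂ ∧ ¬ p ∣ orderOf (x⁻¹ * g)) then 1 else 0 := by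
    intro x
    unfold reg
    by_cases h1 : x ∈ U₁ <;> by_cases h2 : p ∣ orderOf x <;> by_cases h3 : x⁻¹ * g ∈ U₂ <;>
      by_cases h4 : p ∣ orderOf (x⁻¹ * g) <;> simp [h1, h2, h3, h4]
  unfold conv
  simp only [hterm]
  by_cases hg : p ∣ orderOf g
  · rw [show reg p G g = 0 from if_pos hg]
    apply Finset.sum_eq_zero
    intro x _
    rw [if_neg]
    rintro ⟨h1, h2, h3, h4⟩
    have := regular_mul hp (hcomm x h1 _ h3) h2 h4
    rw [mul_inv_cancel_left] at this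
    exact this hg
  · rw [show reg p G g = 1 from if_neg hg]
    obtain ⟨x₀, hx₀⟩ : ∃ x₀, x₀ ∈ U₁ ∧ ¬ p ∣ orderOf x₀ ∧ x₀⁻¹ * g ∈ U₂ ∧
        ¬ p ∣ orderOf (x₀⁻¹ * g) := by
      haveI := normal_of_comm U₁ U₂ hcomm hgen
      have hgm : g ∈ ((U₁ : Set G) * (U₂ : Set G)) := by
        rw [← Subgroup.normal_mul, hgen]; exact Subgroup.mem_top g
      obtain ⟨u₁, h1, u₂, h2, rfl⟩ := hgm
      obtain ⟨k, hk, hreg⟩ := exists_regular_pow p hg
      have hc : Commute u₁ u₂ := hcomm u₁ h1 u₂ h2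
      have e : (u₁ ^ k)⁻¹ * (u₁ * u₂) = u₂ ^ k := by
        rw [inv_mul_eq_iff_eq_mul, ← hc.mul_pow, hk]
      refine ⟨u₁ ^ k, U₁.pow_mem h1 k, hreg u₁, ?_, ?_⟩
      · rw [e]; exact U₂.pow_mem h2 k
      · rw [e]; exact hreg u₂
    rw [Finset.sum_eq_single x₀, if_pos hx₀]
    · intro x _ hne
      rw [if_neg]
      intro hx
      apply hne
      obtain ⟨a1, a2, a3, a4⟩ := hx
      obtain ⟨b1, b2, b3, b4⟩ := hx₀
      have hz1 : x₀⁻¹ * x ∈ U₁ := U₁.mul_mem (U₁.inv_mem b1) a1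
      have hz2 : x₀⁻¹ * x ∈ U₂ := by
        have := U₂.mul_mem b3 (U₂.inv_mem a3)
        have e : x₀⁻¹ * g * (x⁻¹ * g)⁻¹ = x₀⁻¹ * x := by group
        rwa [e] at this
      have hc : Commute x₀ x := by
        have := hcomm x₀ b1 _ hz2
        rw [mul_inv_cancel_left] at this
        show x₀ * x = x * x₀
        calc x₀ * x = x₀ * (x₀⁻¹ * x * x₀) := by rw [← this]
          _ = x * x₀ := by group
      have hzr : ¬ p ∣ orderOf (x₀⁻¹ * x) :=
        regular_mul hp hc.inv_left (by rwa [orderOf_inv]) a2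
      obtain ⟨k, hk⟩ := hZ ⟨x₀⁻¹ * x, hz1, hz2⟩
      have hk' : (x₀⁻¹ * x) ^ (p ^ k) = 1 := by
        have := congrArg Subtype.val hk
        simpa using this
      obtain ⟨j, -, hj⟩ := (Nat.dvd_prime_pow hp).1 (orderOf_dvd_of_pow_eq_one hk')
      have hj0 : j = 0 := by
        by_contra h0
        apply hzr
        rw [hj]
        exact dvd_pow_self p h0
      rw [hj0, pow_zero, orderOf_eq_one_iff, inv_mul_eq_one] at hj
      exact hj.symm
    · intro h; exact absurd (Finset.mem_univ _) h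

/-- Let the finite group G be generated by subgroups U₁ and U₂ that commute elementwise and whose intersection is a p-group, and let M be a maximal ideal of the algebraic integers containing the prime p. If the irreducible character χ of G has the irreducible constituents ψ₁ on U₁ and ψ₂ on U₂, then χ lies in the principal block of G if and only if ψ₁ and ψ₂ lie in the principal blocks of U₁ and U₂. -/
theorem result {G : Type*} [Group G] [Fintype G] (p : ℕ) [Fact p.Prime] (M : Ideal Cfsg.AlgInt) (hM : Cfsg.IsPModular p M) (U₁ U₂ : Subgroup G) [Fintype U₁] [Fintype U₂] (hcomm : ∀ u ∈ U₁, ∀ v ∈ U₂, u * v = v * u) (hgen : U₁ ⊔ U₂ = ⊤) (hZ : IsPGroup p ↥(U₁ ⊓ U₂)) (χ : Cfsg.IrrCharacter G) (ψ₁ : Cfsg.IrrCharacter U₁) (ψ₂ : Cfsg.IrrCharacter U₂) (h₁ : Cfsg.classInner (fun u : U₁ => (χ : G → ℂ) u) (ψ₁ : U₁ → ℂ) ≠ 0) (h₂ : Cfsg.classInner (fun u : U₂ => (χ : G → ℂ) u) (ψ₂ : U₂ → ℂ) ≠ 0) : χ ∈ Cfsg.principalBlock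 M G ↔ (ψ₁ ∈ Cfsg.principalBlock M U₁ ∧ ψ₂ ∈ Cfsg.principalBlock M U₂) := by
  classical
  have hPr := isPrime_of_modular hM
  have hN1 : U₁.Normal := normal_of_comm U₁ U₂ hcomm hgen
  have hN2 : U₂.Normal := normal_of_comm U₂ U₁ (fun u hu v hv => (hcomm v hv u hu).symm)
    (by rw [sup_comm]; exact hgen)
  set c₁ : G → ℂ := fun x => if x ∈ U₁ then reg p G x else 0 with hc₁
  set c₂ : G → ℂ := fun x => if x ∈ U₂ then reg p G x else 0 with hc₂
  have hcf1 : IsClassFunction G c₁ := cut_classFunction p U₁ hN1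
  have hcf2 : IsClassFunction G c₂ := cut_classFunction p U₂ hN2
  have hconv : conv c₁ c₂ = reg p G := funext fun g => conv_reg p U₁ U₂ hcomm hgen hZ g
  have hO := Om_conv (c := c₁) hcf2 χ.2
  rw [hconv] at hO
  have e1 : Om c₁ (χ : G → ℂ) = Om (reg p U₁) (ψ₁ : U₁ → ℂ) := by
    rw [Om_eq_Om_restrict U₁ (c := c₁) (fun g hg => if_neg hg),
      Om_restrict_eq U₁ hN1 χ.2 ψ₁.2 h₁ hcf1]
    congr 1
    funext n
    rw [hc₁]
    simp only [n.2, if_true]
    exact reg_coe U₁ n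
  have e2 : Om c₂ (χ : G → ℂ) = Om (reg p U₂) (ψ₂ : U₂ → ℂ) := by
    rw [Om_eq_Om_restrict U₂ (c := c₂) (fun g hg => if_neg hg),
      Om_restrict_eq U₂ hN2 χ.2 ψ₂.2 h₂ hcf2]
    congr 1
    funext n
    rw [hc₂]
    simp only [n.2, if_true]
    exact reg_coe U₂ n
  rw [e1, e2] at hO
  rw [mem_principal_iff hM, mem_principal_iff hM, mem_principal_iff hM, hO]
  have r1 : MemLocalRing M (Om (reg p U₁) (ψ₁ : U₁ → ℂ)) :=
    Om_ring hPr reg_classFunction (reg_ring hPr) ψ₁.2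
  have r2 : MemLocalRing M (Om (reg p U₂) (ψ₂ : U₂ → ℂ)) :=
    Om_ring hPr reg_classFunction (reg_ring hPr) ψ₂.2
  constructor
  · intro h
    exact ⟨fun h1 => h (ideal_mul_right hPr h1 r2), fun h2 => h (ideal_mul_left hPr r1 h2)⟩
  · rintro ⟨h1, h2⟩ h
    rcases ideal_mul_mem hPr r1 r2 h with h | h
    · exact h1 h
    · exact h2 h

end Cfsg.Agent.S4521
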