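import Cfsg.Statements.S4540
import Cfsg.Agent.Lib.helper8_Broue7

set_option autoImplicit false
open Cfsg

namespace Cfsg.Agent.S4540

theorem arith {ι : Type*} [DecidableEq ι] (S : Finset ι) (h : ι → ℕ) (A : ι → ℤ) (d l : ℕ)
    (h1 : ∀ i ∈ S, h i = 0 → Odd (A i) ∧ ∑ i ∈ S, (4 : ℤ) ^ h i ≤ 2 ^ d * A i)
    (h2 : ∀ i ∈ S, 0 ≤ A i) (h3 : ∀ i ∈ S, 0 < h i → 2 ^ (h i + 1) ≤ A i)
    (h4 : ∑ i ∈ S, A i = 2 ^ d * (l : ℤ)) (hl : l ≤ 3) :
    3 * S.card ≤ 3 * (S.filter (fun i => h i = 0)).card +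
      2 * ∑ i ∈ S.filter (fun i => 1 ≤ h i), 2 ^ h i ∧
    3 * (S.filter (fun i => h i = 0)).card +
      2 * ∑ i ∈ S.filter (fun i => 1 ≤ h i), 2 ^ h i ≤ 3 * 2 ^ d := by
  have hw : 3 * (S.filter (fun i => h i = 0)).card +
      2 * ∑ i ∈ S.filter (fun i => 1 ≤ h i), 2 ^ h i =
      ∑ i ∈ S, (if h i = 0 then 3 else 2 * 2 ^ h i) := by
    rw [Finset.sum_ite, Finset.sum_const, smul_eq_mul, mul_comm 3, Finset.mul_sum]
    congr 1
    refine Finset.sum_congr ?_ fun _ _ => rfl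
    ext i
    simp only [Finset.mem_filter]
    constructor
    · rintro ⟨a, b⟩; exact ⟨a, by omega⟩
    · rintro ⟨a, b⟩; exact ⟨a, by omega⟩
  rw [hw]
  constructor
  · have : ∑ _i ∈ S, 3 ≤ ∑ i ∈ S, (if h i = 0 then 3 else 2 * 2 ^ h i) := by
      refine Finset.sum_le_sum fun i _ => ?_
      split_ifs with h0
      · exact le_rfl
      · have : 2 ^ 1 ≤ 2 ^ h i := Nat.pow_le_pow_right (by norm_num) (by omega)
        omega
    rw [Finset.sum_const, smul_eq_mul] at this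
    omega
  · have goal : ∑ i ∈ S, (if h i = 0 then (3 : ℤ) else 2 * 2 ^ h i) ≤ 3 * 2 ^ d := by
      have hP : (0 : ℤ) < 2 ^ d := by positivity
      by_cases hc : ∃ i ∈ S, h i = 0 ∧ A i ≤ 1
      · obtain ⟨i, hi, h0, hle⟩ := hc
        obtain ⟨-, hrow⟩ := h1 i hi h0
        have h5 : ∑ i ∈ S, (4 : ℤ) ^ h i ≤ 2 ^ d := by nlinarith
        have h6 : ∑ i ∈ S, (if h i = 0 then (3 : ℤ) else 2 * 2 ^ h i) ≤
            ∑ i ∈ S, 3 * (4 : ℤ) ^ h i := by
          refine Finset.sum_le_sum fun i _ => ?_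
          split_ifs with h0
          · rw [h0]; norm_num
          · have e : (4 : ℤ) ^ h i = 2 ^ h i * 2 ^ h i := by
              rw [← mul_pow]; norm_num
            have : (1 : ℤ) ≤ 2 ^ h i := one_le_pow₀ (by norm_num)
            rw [e]
            nlinarith
        rw [← Finset.mul_sum] at h6
        linarith
      · push Not at hc
        have h6 : ∑ i ∈ S, (if h i = 0 then (3 : ℤ) else 2 * 2 ^ h i) ≤ ∑ i ∈ S, A i := by
          refine Finset.sum_le_sum fun i hi => ?_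
          split_ifs with h0
          · have := hc i hi h0
            obtain ⟨⟨x, hx⟩, -⟩ := h1 i hi h0
            omega
          · have := h3 i hi (Nat.pos_of_ne_zero h0)
            rw [pow_succ] at this
            linarith
        rw [h4] at h6
        have hl' : (l : ℤ) ≤ 3 := by exact_mod_cast hl
        nlinarith
    have e : ((∑ i ∈ S, (if h i = 0 then 3 else 2 * 2 ^ h i) : ℕ) : ℤ) =
        ∑ i ∈ S, (if h i = 0 then (3 : ℤ) else 2 * 2 ^ h i) := by
      push_cast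
      refine Finset.sum_congr rfl fun i _ => ?_
      split_ifs <;> simp
    have : ((∑ i ∈ S, (if h i = 0 then 3 else 2 * 2 ^ h i) : ℕ) : ℤ) ≤ ((3 * 2 ^ d : ℕ) : ℤ) := by
      rw [e]
      push_cast
      exact goal
    exact_mod_cast this

/-- Let B be a 2-block of the finite group G (relative to a maximal ideal M of the algebraic integers containing 2) of defect d with defect group D. Let z be an element of D commuting with every element of D, and let b be a block of the centralizer C of z with defect group D that induces B (a major subsection (z, b)). If b has 2-regular rank at most three, then 3·k(B) ≤ 3·k₀(B) + 2·Σ 2 ^ h(χ), where k(B) is the number of members of B, k₀(B) the number of members of height zero, and the sum runs over the members χ of B of positive height h(χ); this bound is at most 3·2 ^ d, so in particular B contains at most 2 ^ d irreducible characters. -/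
theorem result {G : Type*} [Group G] [Finite G] (M : Ideal Cfsg.AlgInt) (hM : Cfsg.IsPModular 2 M) (B : Set (Cfsg.IrrCharacter G)) (hB : Cfsg.IsPBlock M B) (D : Subgroup G) (hD : Cfsg.IsDefectGroup 2 M B D) (z : G) (hzD : z ∈ D) (hzc : ∀ d ∈ D, d * z = z * d) (b : Set (Cfsg.IrrCharacter ↥(Subgroup.centralizer ({z} : Set G)))) (hb : Cfsg.IsInducedBlock M (Subgroup.centralizer ({z} : Set G)) b B) (hbD : Cfsg.IsDefectGroup 2 M b (D.subgroupOf (Subgroup.centralizer ({z} : Set G)))) (hl : Cfsg.blockRank 2 b ≤ 3) : 3 * Nat.card B ≤ 3 * Nat.card {χ : Cfsg.IrrCharacter G // χ ∈ B ∧ Cfsg.blockHeight 2 B (χ : G → ℂ) = 0} + 2 * (∑ᶠ χ ∈ {χ : Cfsg.IrrCharacter G | χ ∈ B ∧ 1 ≤ Cfsg.blockHeight 2 B (χ : G → ℂ)}, 2 ^ Cfsg.blockHeight 2 B (χ : G → ℂ)) ∧ 3 * Nat.card {χ : Cfsg.IrrCharacter G // χ ∈ B ∧ Cfsg.blockHeight 2 B (χ : G → ℂ) = 0} + 2 * (∑ᶠ χ ∈ {χ : Cfsg.IrrCharacter G | χ ∈ B ∧ 1 ≤ Cfsg.blockHeight 2 B (χ : G → ℂ)}, 2 ^ Cfsg.blockHeight 2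 B (χ : G → ℂ)) ≤ 3 * 2 ^ Cfsg.blockDefect 2 B := by
  classical
  have := Fintype.ofFinite G
  have hc1 := Cfsg.Agent.Lib.Helper2_BlockDefOrder.card_defectGroup hM hB hD
  have hc2 := Cfsg.Agent.Lib.Helper2_BlockDefOrder.card_defectGroup hM hb.1 hbD
  have hle : D ≤ Subgroup.centralizer ({z} : Set G) := by
    intro x hx
    rw [Subgroup.mem_centralizer_singleton_iff]
    exact hzc x hx
  have hc3 : Nat.card (D.subgroupOf (Subgroup.centralizer ({z} : Set G))) = Nat.card D :=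
    Nat.card_congr (Subgroup.subgroupOfEquivOfLe hle).toEquiv
  have hdb : blockDefect 2 b = blockDefect 2 B := by
    rw [hc3, hc1] at hc2
    exact (Nat.pow_right_injective (le_refl 2) hc2).symm
  have hy : ∃ k : ℕ, orderOf z = 2 ^ k := by
    have h1 : orderOf (⟨z, hzD⟩ : D) ∣ Nat.card D := orderOf_dvd_natCard _
    rw [hc1, Subgroup.orderOf_mk] at h1
    obtain ⟨k, -, hk⟩ := (Nat.dvd_prime_pow Nat.prime_two).mp h1
    exact ⟨k, hk⟩
  obtain ⟨A, hA1, hA2, hA3, hA4⟩ :=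
    Cfsg.Agent.Lib.helper8_Broue7.major_data2 hM (y := z) rfl hy hb hdb
  set SB := Finset.univ.filter (fun χ : IrrCharacter G => χ ∈ B) with hSB
  have hcard : Nat.card B = SB.card := by
    rw [Nat.card_eq_fintype_card, Fintype.card_subtype]
  have hcard0 : Nat.card {χ : Cfsg.IrrCharacter G // χ ∈ B ∧
      Cfsg.blockHeight 2 B (χ : G → ℂ) = 0} =
      (SB.filter (fun χ : IrrCharacter G => blockHeight 2 B (χ : G → ℂ) = 0)).card := by
    rw [Nat.card_eq_fintype_card, Fintype.card_subtype, hSB, Finset.filter_filter]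
  have hsum : (∑ᶠ χ ∈ {χ : Cfsg.IrrCharacter G | χ ∈ B ∧
      1 ≤ Cfsg.blockHeight 2 B (χ : G → ℂ)}, 2 ^ Cfsg.blockHeight 2 B (χ : G → ℂ)) =
      ∑ χ ∈ SB.filter (fun χ : IrrCharacter G => 1 ≤ blockHeight 2 B (χ : G → ℂ)),
        2 ^ blockHeight 2 B (χ : G → ℂ) := by
    rw [finsum_mem_eq_finite_toFinset_sum _ (Set.toFinite _)]
    refine Finset.sum_congr ?_ fun _ _ => rfl
    ext χ
    simp [hSB]
  rw [hcard, hcard0, hsum]
  refine arith SB (fun χ : IrrCharacter G => blockHeight 2 B (χ : G → ℂ)) A _ (blockRank 2 b)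
    ?_ ?_ ?_ ?_ hl
  · intro χ hχ h0
    exact hA1 χ (Finset.mem_filter.mp hχ).2 h0
  · intro χ hχ
    exact hA2 χ (Finset.mem_filter.mp hχ).2
  · intro χ hχ h0
    exact hA3 χ (Finset.mem_filter.mp hχ).2 h0
  · exact hA4

end Cfsg.Agent.S4540
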