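import Cfsg.Statements.S4541
import Cfsg.Agent.Lib.helper8_Broue4

set_option autoImplicit false
open Cfsg

namespace Cfsg.Agent.S4541

theorem arith {ι : Type*} (S : Finset ι) (A : ι → ℤ) (P l : ℕ)
    (h1 : ∀ i ∈ S, Odd (A i) ∧ (S.card : ℤ) ≤ (P : ℤ) * A i)
    (h2 : ∑ i ∈ S, A i ≤ (P : ℤ) * (l : ℤ)) :
    (Odd (Nat.sqrt l) → S.card ≤ Nat.sqrt l * P) ∧
    (¬ Odd (Nat.sqrt l) → (Nat.sqrt l + 1) * S.card ≤ l * P) ∧ (l ≤ 3 → S.card ≤ P) := by
  have hs1 : (Nat.sqrt l : ℤ) ^ 2 ≤ (l : ℤ) := by exact_mod_cast Nat.sqrt_le' l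
  have hs2 : (l : ℤ) + 1 ≤ ((Nat.sqrt l : ℤ) + 1) ^ 2 := by
    have := Nat.lt_succ_sqrt' l
    have h : l + 1 ≤ (Nat.sqrt l + 1) ^ 2 := this
    exact_mod_cast h
  have ha0 : (0 : ℤ) ≤ (Nat.sqrt l : ℤ) := Int.natCast_nonneg _
  have hP0 : (0 : ℤ) ≤ (P : ℤ) := Int.natCast_nonneg _
  have part1 : Odd (Nat.sqrt l) → S.card ≤ Nat.sqrt l * P := by
    intro hodd
    by_contra hlt
    push Not at hlt
    have hlt' : (Nat.sqrt l : ℤ) * (P : ℤ) < (S.card : ℤ) := by exact_mod_cast hlt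
    have hodd' : Odd (Nat.sqrt l : ℤ) := by exact_mod_cast hodd
    have h3 : ∀ i ∈ S, (Nat.sqrt l : ℤ) + 2 ≤ A i := by
      intro i hi
      obtain ⟨ho, hle⟩ := h1 i hi
      have h4 : (Nat.sqrt l : ℤ) < A i := by
        by_contra hcon
        push Not at hcon
        have : (P : ℤ) * A i ≤ (P : ℤ) * (Nat.sqrt l : ℤ) := mul_le_mul_of_nonneg_left hcon hP0
        linarith
      obtain ⟨x, hx⟩ := ho
      obtain ⟨z, hz⟩ := hodd'
      omega
    have h5 := Finset.card_nsmul_le_sum S A _ h3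
    rw [nsmul_eq_mul] at h5
    nlinarith
  have part2 : ¬ Odd (Nat.sqrt l) → (Nat.sqrt l + 1) * S.card ≤ l * P := by
    intro hev
    by_contra hlt
    push Not at hlt
    have hlt' : (l : ℤ) * (P : ℤ) < ((Nat.sqrt l : ℤ) + 1) * (S.card : ℤ) := by exact_mod_cast hlt
    have hev' : Even (Nat.sqrt l : ℤ) := by
      have := Nat.not_odd_iff_even.mp hev
      exact_mod_cast this
    have h3 : ∃ i ∈ S, A i < (Nat.sqrt l : ℤ) + 1 := by
      by_contra hcon
      push Not at hcon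
      have h5 := Finset.card_nsmul_le_sum S A _ hcon
      rw [nsmul_eq_mul] at h5
      nlinarith
    obtain ⟨i, hi, hlt2⟩ := h3
    obtain ⟨ho, hle⟩ := h1 i hi
    have h4 : A i ≤ (Nat.sqrt l : ℤ) - 1 := by
      obtain ⟨x, hx⟩ := ho
      obtain ⟨z, hz⟩ := hev'
      omega
    have h6 : (S.card : ℤ) ≤ (P : ℤ) * ((Nat.sqrt l : ℤ) - 1) :=
      hle.trans (mul_le_mul_of_nonneg_left h4 hP0)
    nlinarith
  refine ⟨part1, part2, ?_⟩
  intro hl
  interval_cases l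
  · have := part2 (by decide)
    have e : Nat.sqrt 0 = 0 := by decide
    rw [e] at this
    omega
  · have := part1 (by decide)
    have e : Nat.sqrt 1 = 1 := by decide
    rw [e] at this
    omega
  · have e : Nat.sqrt 2 = 1 := (Nat.eq_sqrt.mpr ⟨by norm_num, by norm_num⟩).symm
    have := part1 (by rw [e]; exact odd_one)
    rw [e] at this
    omega
  · have e : Nat.sqrt 3 = 1 := (Nat.eq_sqrt.mpr ⟨by norm_num, by norm_num⟩).symm
    have := part1 (by rw [e]; exact odd_one)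
    rw [e] at this
    omega

/-- Let B be a 2-block of the finite group G (relative to a maximal ideal M of the algebraic integers containing 2), u a 2-element, and b a block of the centralizer of u inducing B (a subsection (u, b)), of defect q and 2-regular rank l; write s for the integer square root of l and k₀(B) for the number of members of B of height zero. If s is odd then k₀(B) ≤ s·2 ^ q, and otherwise (s + 1)·k₀(B) ≤ l·2 ^ q; in particular k₀(B) ≤ 2 ^ q when l ≤ 3. -/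
theorem result {G : Type*} [Group G] [Finite G] (M : Ideal Cfsg.AlgInt) (hM : Cfsg.IsPModular 2 M) (B : Set (Cfsg.IrrCharacter G)) (hB : Cfsg.IsPBlock M B) (u : G) (hu : ∃ j : ℕ, orderOf u = 2 ^ j) (b : Set (Cfsg.IrrCharacter ↥(Subgroup.centralizer ({u} : Set G)))) (hb : Cfsg.IsInducedBlock M (Subgroup.centralizer ({u} : Set G)) b B) : (Odd (Nat.sqrt (Cfsg.blockRank 2 b)) → Nat.card {χ : Cfsg.IrrCharacter G // χ ∈ B ∧ Cfsg.blockHeight 2 B (χ : G → ℂ) = 0} ≤ Nat.sqrt (Cfsg.blockRank 2 b) * 2 ^ Cfsg.blockDefect 2 b) ∧ (¬ Odd (Nat.sqrt (Cfsg.blockRank 2 b)) → (Nat.sqrt (Cfsg.blockRank 2 b) + 1) * Nat.card {χ : Cfsg.IrrCharacter G // χ ∈ B ∧ Cfsg.blockHeight 2 B (χ : G → ℂ) = 0} ≤ Cfsg.blockRank 2 b * 2 ^ Cfsg.blockDefect 2 b) ∧ (Cfsg.blockRank 2 b ≤ 3 → Nat.card {χ : Cfsg.IrrCharacter G // χ ∈ B ∧ Cfsg.blockHeight 2 B (χ : G → ℂ) = 0} ≤ 2 ^ Cfsg.blockDefect 2 b) := by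
  classical
  have := Fintype.ofFinite G
  obtain ⟨A, hA1, hA2⟩ := Cfsg.Agent.Lib.helper8_Broue4.exists_odd hM (y := u) rfl hu hb
  have hcard : Nat.card {χ : Cfsg.IrrCharacter G // χ ∈ B ∧
      Cfsg.blockHeight 2 B (χ : G → ℂ) = 0} = (Finset.univ.filter (fun χ : IrrCharacter G => χ ∈ B ∧
      blockHeight 2 B (χ : G → ℂ) = 0)).card := by
    rw [Nat.card_eq_fintype_card, Fintype.card_subtype]
  rw [hcard]
  have := arith _ A (2 ^ blockDefect 2 b) (blockRank 2 b)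
    (fun i hi => by
      have := hA1 i hi
      push_cast
      convert this) (by push_cast; convert hA2)
  convert this

end Cfsg.Agent.S4541
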