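import Cfsg.Statements.S4549
import Mathlib
import Cfsg.Agent.Lib.Helper2_GalThompson2
import Cfsg.Agent.Lib.CharQuot
import Cfsg.Agent.Lib.CharLinear


set_option autoImplicit false
open Cfsg

namespace Cfsg.Agent.S4549

open Cfsg Cfsg.Agent.Lib.Helper2_BlockLocal Cfsg.Agent.Lib.Helper2_BlockOm
  Cfsg.Agent.Lib.Helper2_BlockOsima Cfsg.Agent.Lib.Helper2_BlockBasic
  Cfsg.Agent.Lib.Helper2_BlockThird Cfsg.Agent.Lib.Helper2_BlockQuot
  Cfsg.Agent.Lib.CharBasic Cfsg.Agent.Lib.CharOrtho
  Cfsg.Agent.Lib.CharComplete Cfsg.Agent.Lib.CharIntegral Cfsg.Agent.Lib.CharMore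
  Cfsg.Agent.Lib.CharInd Cfsg.Agent.Lib.CharClifford Cfsg.Agent.Lib.CharPow
  Cfsg.Agent.Lib.CharPow2 Cfsg.Agent.Lib.CharDet Cfsg.Agent.Lib.CharThompson
  Cfsg.Agent.Lib.CharQuot Cfsg.Agent.Lib.CharLinear
  Cfsg.Agent.Lib.Helper9_PResidual Cfsg.Agent.Lib.Helper2_GalThompson
  Cfsg.Agent.Lib.Helper2_GalThompson2
  Cfsg.Agent.S4735
open scoped ComplexConjugate

/-- Let G be a finite group and M a maximal ideal of the algebraic integers containing 2. Let k be a natural number with g ^ k = g ^ 3 for every 2-element g and g ^ k = g for every element g of odd order (such k exist); an irreducible character χ is unchanged by g ↦ g ^ k exactly when it is fixed by the field automorphism that cubes the 2-power roots of unity and fixes the roots of unity of odd order. Then G has a normal 2-complement if and only if every member χ of the principal 2-block of odd degree with χ (g ^ k) = χ g for all g has degree one. -/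
theorem result {G : Type*} [Group G] [Finite G] (M : Ideal Cfsg.AlgInt) (hM : Cfsg.IsPModular 2 M) (k : ℕ) (hk₁ : ∀ g : G, (∃ j : ℕ, orderOf g = 2 ^ j) → g ^ k = g ^ 3) (hk₂ : ∀ g : G, Odd (orderOf g) → g ^ k = g) : Cfsg.HasNormalPComplement 2 G ↔ ∀ χ ∈ Cfsg.principalBlock M G, Odd (Cfsg.charDegree (χ : G → ℂ)) → (∀ g : G, (χ : G → ℂ) (g ^ k) = (χ : G → ℂ) g) → Cfsg.charDegree (χ : G → ℂ) = 1 := by
  classical
  haveI : Fact (Nat.Prime 2) := ⟨Nat.prime_two⟩
  cases nonempty_fintype G
  have hPr := isPrime_of_modular hM
  have hk₁' : ∀ g : G, (∃ j : ℕ, orderOf g = 2 ^ j) → g ^ k = g ^ (1 + 2) := hk₁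
  have hk₂' : ∀ g : G, Nat.Coprime (orderOf g) 2 → g ^ k = g :=
    fun g h => hk₂ g (Nat.coprime_two_right.1 h)
  constructor
  · rintro ⟨P, N, hN, hc⟩ χ hχ hodd -
    have hNp : ¬ 2 ∣ Nat.card N := by
      rw [← hc.index_eq_card]
      exact P.not_dvd_index
    have hs : SameBlock M (oneIrr G : G → ℂ) (χ : G → ℂ) := hχ
    have hker := ker_of_sameBlock_pprime hM N hN hNp hs (fun _ _ => rfl)
    obtain ⟨χ', hχ', hinf⟩ := exists_deflate_irr N χ.2 hker
    obtain ⟨n, hn0, hn1, hndvd⟩ := irr_degree hχ'
    have hdeg : charDegree (χ : G → ℂ) = n := by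
      apply charDegree_eq
      rw [hinf, ← hn1]
      rfl
    rw [hdeg] at hodd ⊢
    rw [← Subgroup.index_eq_card, hc.symm.index_eq_card] at hndvd
    obtain ⟨m, hm⟩ := IsPGroup.iff_card.1 P.2
    rw [hm] at hndvd
    obtain ⟨i, -, hi⟩ := (Nat.dvd_prime_pow Nat.prime_two).1 hndvd
    cases i with
    | zero => simpa using hi
    | succ i =>
      exfalso
      rw [hi] at hodd
      exact (Nat.not_even_iff_odd.2 hodd) (by rw [pow_succ]; exact even_two.mul_left _)
  · intro H
    set K := pResidual 2 G with hKdef
    have hK : K.Normal := pResidual_normal 2 G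
    haveI : Fintype K := Fintype.ofFinite K
    obtain ⟨m, hm⟩ := index_residual 2 G
    have hcop : Nat.Coprime (Nat.card K) 2 := by
      by_contra hcon
      have h2K : 2 ∣ Nat.card K := by
        by_contra hn
        exact hcon ((Nat.Prime.coprime_iff_not_dvd Nat.prime_two).2 hn).symm
      have hkG : k.Coprime (Nat.card G) := coprime_of_galois 2 k hk₁' hk₂'
      have hkK : k.Coprime (Nat.card K) :=
        Nat.Coprime.coprime_dvd_right (Subgroup.card_subgroup_dvd_card K) hkG
      obtain ⟨e, he⟩ := galois_pow_order 2 k hk₁' hk₂'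
      have heK : ∀ n : K, n ^ (k ^ (2 ^ e)) = n := fun n => Subtype.ext (he n)
      set k' := Nat.card K - 1 with hk'def
      have hk'1 : k' + 1 = Nat.card K := Nat.sub_add_cancel Nat.card_pos
      have hk'K : k'.Coprime (Nat.card K) := by rw [← hk'1]; simp
      have hinvK : ∀ n : K, n ^ k' = n⁻¹ := by
        intro n
        rw [eq_inv_iff_mul_eq_one, ← pow_succ, hk'1, pow_card_eq_one']
      have he' : ∀ n : K, n ^ (k' ^ (2 ^ 1)) = n := by
        intro n
        rw [pow_one, pow_two, pow_mul, hinvK, hinvK, inv_inv]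
      set D0 : IrrCharacter K → ℕ := fun θ =>
        if θ ∈ principalBlock M K then charDegree (θ : K → ℂ) ^ 2 else 0 with hD0def
      have hD0 : ∀ (g : G) (θ θ' : IrrCharacter K), (θ' : K → ℂ) = conjFun K hK θ g →
          D0 θ' = D0 θ := by
        intro g θ θ' h
        have h1 : charDegree (θ' : K → ℂ) = charDegree (θ : K → ℂ) := by
          have e0 : (θ' : K → ℂ) 1 = (θ : K → ℂ) 1 := by
            rw [h, conjFun_apply]
            exact congrArg (θ : K → ℂ) (Subtype.ext (by simp))
          unfold charDegree
          rw [e0]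
        simp only [hD0def, principal_conj_iff K hK hM θ θ' g h, h1]
      have S0 : 2 ∣ ∑ θ, D0 θ := block_sq_dvd hM (principalBlock_isPBlock M K) h2K
      have S1 := sum_irr_modEq K hK 2 hm D0 hD0
      rw [Finset.sum_filter] at S1
      set D1 : IrrCharacter K → ℕ := fun θ =>
        if (∀ g : G, conjFun K hK (θ : K → ℂ) g = θ) then D0 θ else 0 with hD1def
      have hD0p : ∀ {t : ℕ} (ht : t.Coprime (Nat.card K)) (θ : IrrCharacter K),
          D0 (powIrr ht θ) = D0 θ := by
        intro t ht θ
        simp only [hD0def, powIrr_mem_iff hM ht θ, charDegree_powIrr ht θ]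
      have hD1p : ∀ {t : ℕ} (ht : t.Coprime (Nat.card K)) (θ : IrrCharacter K),
          D1 (powIrr ht θ) = D1 θ := by
        intro t ht θ
        simp only [hD1def, invariant_powIrr_iff K hK ht θ, hD0p ht θ]
      have S2 := sum_modEq_powIrr 2 hkK e heK D1 (hD1p hkK)
      set D2 : IrrCharacter K → ℕ := fun θ =>
        if powIrr hkK θ = θ then D1 θ else 0 with hD2def
      have hD2 : ∀ θ, D2 (powIrr hk'K θ) = D2 θ := by
        intro θ
        simp only [hD2def, powIrr_fixed_iff hkK hk'K θ, hD1p hk'K θ]
      have S3 := sum_modEq_powIrr 2 hk'K 1 he' D2 hD2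
      have key : ∀ θ : IrrCharacter K, θ ∈ principalBlock M K →
          (∀ g : G, conjFun K hK (θ : K → ℂ) g = θ) → powIrr hkK θ = θ → powIrr hk'K θ = θ →
          ¬ 2 ∣ charDegree (θ : K → ℂ) → θ = oneIrr K := by
        intro θ c0 c1 c2 c3 hodd
        obtain ⟨χ, hχ, hres, hdet, hfix⟩ := exists_ext_residual_fixed 2 θ.2 c1
          (charDegree_spec θ.2) hodd hkG (fun n => congrFun (congrArg Subtype.val c2) n)
        have hχB : (⟨χ, hχ⟩ : IrrCharacter G) ∈ principalBlock M G :=
          (principal_ext_iff K hM (regular_mem_residual Nat.prime_two) ⟨χ, hχ⟩ θ hres).2 c0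
        have hdegχ : charDegree χ = charDegree (θ : K → ℂ) := by
          unfold charDegree
          rw [← hres 1]
          rfl
        have h1 := H ⟨χ, hχ⟩ hχB (by
          show Odd (charDegree χ)
          rw [hdegχ, ← Nat.not_even_iff_odd, even_iff_two_dvd]
          exact hodd) hfix
        have hθ1 : (θ : K → ℂ) 1 = 1 := by
          rw [charDegree_spec θ.2, ← hdegχ]
          have : charDegree χ = 1 := h1
          rw [this, Nat.cast_one]
        set f := homOfLinear (isCharacter_of_isIrr θ.2) hθ1 with hf
        have hf2 : f ^ 2 = 1 := by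
          ext n
          rw [MonoidHom.pow_apply, MonoidHom.one_apply, pow_two]
          have e1 : f n = f n⁻¹ := by
            ext
            rw [homOfLinear_apply, homOfLinear_apply, ← hinvK n]
            exact (congrFun (congrArg Subtype.val c3) n).symm
          nth_rewrite 2 [e1]
          rw [← map_mul, mul_inv_cancel, map_one]
        have hfo := hom_order_coprime 2 (closure_residual 2 G) f
        have hf1 : f = 1 := by
          have h3 : orderOf f ∣ 2 := orderOf_dvd_of_pow_eq_one hf2
          have h4 : orderOf f = 1 := Nat.Coprime.eq_one_of_dvd hfo h3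
          exact orderOf_eq_one_iff.1 h4
        apply Subtype.ext
        funext n
        rw [← homOfLinear_apply (isCharacter_of_isIrr θ.2) hθ1 n, ← hf, hf1]
        rfl
      have S4 : ∑ θ, (if powIrr hk'K θ = θ then D2 θ else 0) ≡
          ∑ θ : IrrCharacter K, (if θ = oneIrr K then 1 else 0) [MOD 2] := by
        unfold Nat.ModEq
        rw [Finset.sum_nat_mod, Finset.sum_nat_mod (f := fun θ : IrrCharacter K =>
          if θ = oneIrr K then 1 else 0)]
        congr 1
        refine Finset.sum_congr rfl fun θ _ => ?_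
        by_cases hθ1 : θ = oneIrr K
        · subst hθ1
          have a3 : ∀ {t : ℕ} (ht : t.Coprime (Nat.card K)), powIrr ht (oneIrr K) = oneIrr K := by
            intro t ht
            apply Subtype.ext
            funext n
            rfl
          have a1 : ∀ g : G, conjFun K hK ((oneIrr K : IrrCharacter K) : K → ℂ) g = oneIrr K := by
            intro g
            funext n
            rfl
          have a0 : oneIrr K ∈ principalBlock M K := oneIrr_mem_principal hPr K
          have ad : charDegree ((oneIrr K : IrrCharacter K) : K → ℂ) = 1 := by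
            apply charDegree_eq
            simp [oneIrr]
          simp only [hD2def, hD1def, hD0def, a3 hk'K, a3 hkK, if_pos a0, ad]
          rw [if_pos a1]
          simp
        · rw [if_neg hθ1]
          by_cases c3 : powIrr hk'K θ = θ
          · rw [if_pos c3]
            by_cases c2 : powIrr hkK θ = θ
            · simp only [hD2def, if_pos c2]
              by_cases c1 : ∀ g : G, conjFun K hK (θ : K → ℂ) g = θ
              · simp only [hD1def, if_pos c1]
                by_cases c0 : θ ∈ principalBlock M K
                · simp only [hD0def, if_pos c0]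
                  have h2 : 2 ∣ charDegree (θ : K → ℂ) := by
                    by_contra hodd
                    exact hθ1 (key θ c0 c1 c2 c3 hodd)
                  rw [Nat.zero_mod]
                  exact Nat.mod_eq_zero_of_dvd (dvd_pow h2 two_ne_zero)
                · simp only [hD0def, if_neg c0]
              · simp only [hD1def, if_neg c1]
            · simp only [hD2def, if_neg c2]
          · rw [if_neg c3]
      have S5 : ∑ θ : IrrCharacter K, (if θ = oneIrr K then 1 else 0) = 1 := by
        simp
      rw [S5] at S4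
      have S6 := ((S1.trans S2).trans S3).trans S4
      have := (Nat.ModEq.dvd_iff S6 (dvd_refl 2)).1 S0
      omega
    obtain ⟨P⟩ : Nonempty (Sylow 2 G) := inferInstance
    have hcard : Nat.card K * 2 ^ m = Nat.card G := by
      rw [← hm]
      exact K.card_mul_index
    have hP : Nat.card P = 2 ^ m := by
      rw [Sylow.card_eq_multiplicity, ← hcard, Nat.factorization_mul Nat.card_pos.ne' (by positivity)]
      rw [Finsupp.add_apply, Nat.factorization_eq_zero_of_not_dvd, Nat.Prime.factorization_pow Nat.prime_two]
      · simp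
      · intro h
        have := Nat.Coprime.eq_one_of_dvd hcop.symm h
        omega
    refine ⟨P, K, hK, Subgroup.isComplement'_of_coprime ?_ ?_⟩
    · rw [hP, hcard]
    · rw [hP]
      exact Nat.Coprime.pow_right _ hcop

end Cfsg.Agent.S4549
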