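import Cfsg.Statements.S4550
import Cfsg.Agent.Lib.Helper2_BlockThird
import Cfsg.Agent.Lib.helper8_BlockCount
import Cfsg.Agent.Lib.CharPow2

set_option autoImplicit false
open Cfsg Cfsg.Agent.Lib.Helper2_BlockLocal
  Cfsg.Agent.Lib.Helper2_BlockOm Cfsg.Agent.Lib.CharBasic Cfsg.Agent.Lib.CharOrtho Cfsg.Agent.Lib.CharMore
  Cfsg.Agent.Lib.helper8_Defect Cfsg.Agent.Lib.Helper2_BlockThird Cfsg.Agent.Lib.helper8_BlockCount
  Cfsg.Agent.Lib.Helper2_BlockQuot Cfsg.Agent.Lib.CharPow Cfsg.Agent.Lib.CharPow2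
open scoped ComplexConjugate Classical

namespace Cfsg.Agent.S4550

theorem three_pow_modEq (b A : ℕ) (hb : 2 ^ b ≤ A) : 3 ^ (2 ^ A) ≡ 1 [MOD 2 ^ b] := by
  rcases b with _ | b
  · rw [pow_zero]; exact Nat.modEq_one
  have h1 : 3 ^ Nat.totient (2 ^ (b + 1)) ≡ 1 [MOD 2 ^ (b + 1)] :=
    Nat.ModEq.pow_totient (Nat.Coprime.pow_right _ (by norm_num))
  rw [Nat.totient_prime_pow_succ Nat.prime_two] at h1
  have h2 : b ≤ A := by
    have : b + 1 < 2 ^ (b + 1) := Nat.lt_two_pow_self
    omega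
  obtain ⟨c, rfl⟩ := Nat.exists_eq_add_of_le h2
  have h3 := h1.pow (2 ^ c)
  rw [one_pow, ← pow_mul] at h3
  simpa [pow_add] using h3

theorem pow_fix {G : Type*} [Group G] [Finite G] (k : ℕ)
    (hk₁ : ∀ g : G, (∃ j : ℕ, orderOf g = 2 ^ j) → g ^ k = g ^ 3)
    (hk₂ : ∀ g : G, Odd (orderOf g) → g ^ k = g) (g : G) : g ^ (k ^ (2 ^ Nat.card G)) = g := by
  have hn0 : orderOf g ≠ 0 := (orderOf_pos g).ne'
  set n := orderOf g with hn
  have hmul := Nat.ordProj_mul_ordCompl_eq_self n 2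
  set b := n.factorization 2 with hb
  set m := n / 2 ^ b with hm
  have hm0 : m ≠ 0 := by
    intro h; rw [h, mul_zero] at hmul; exact hn0 hmul.symm
  have hb0 : 2 ^ b ≠ 0 := by positivity
  have ho1 : orderOf (g ^ m) = 2 ^ b := by
    rw [orderOf_pow_of_dvd hm0 (Dvd.intro_left _ hmul), ← hn]
    exact Nat.div_eq_of_eq_mul_left (Nat.pos_of_ne_zero hm0) hmul.symm
  have ho2 : orderOf (g ^ 2 ^ b) = m := by
    rw [orderOf_pow_of_dvd hb0 (Dvd.intro _ hmul)]
  have hmodd : ¬ 2 ∣ m := Nat.not_dvd_ordCompl Nat.prime_two hn0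
  have e1 : k ≡ 3 [MOD 2 ^ b] := by
    have := hk₁ (g ^ m) ⟨b, ho1⟩
    rwa [pow_eq_pow_iff_modEq, ho1] at this
  have e2 : k ≡ 1 [MOD m] := by
    have := hk₂ (g ^ 2 ^ b) (by rw [ho2, ← Nat.not_even_iff_odd, even_iff_two_dvd]; exact hmodd)
    nth_rewrite 2 [← pow_one (g ^ 2 ^ b)] at this
    rwa [pow_eq_pow_iff_modEq, ho2] at this
  have hle : 2 ^ b ≤ Nat.card G :=
    (Nat.le_of_dvd (Nat.pos_of_ne_zero hn0) (Dvd.intro _ hmul)).trans (orderOf_le_card)
  have f1 : k ^ (2 ^ Nat.card G) ≡ 1 [MOD 2 ^ b] :=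
    (e1.pow _).trans (three_pow_modEq b _ hle)
  have f2 : k ^ (2 ^ Nat.card G) ≡ 1 [MOD m] := by
    simpa using e2.pow (2 ^ Nat.card G)
  have hcop : Nat.Coprime (2 ^ b) m :=
    Nat.Coprime.pow_left _ ((Nat.Prime.coprime_iff_not_dvd Nat.prime_two).mpr hmodd)
  have f3 := (Nat.modEq_and_modEq_iff_modEq_mul hcop).mp ⟨f1, f2⟩
  rw [hmul] at f3
  nth_rewrite 2 [← pow_one g]
  rw [pow_eq_pow_iff_modEq]
  exact f3

theorem coprime_of_fix {G : Type*} [Group G] [Finite G] (k : ℕ)
    (h : ∀ g : G, g ^ (k ^ (2 ^ Nat.card G)) = g) : k.Coprime (Nat.card G) := by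
  apply Nat.coprime_of_dvd
  intro q hq hqk hqG
  haveI : Fact q.Prime := ⟨hq⟩
  obtain ⟨g, hg⟩ := exists_prime_orderOf_dvd_card' q hqG
  have h1 : g ^ k = 1 := orderOf_dvd_iff_pow_eq_one.mp (hg ▸ hqk)
  have h2 := h g
  have h3 : 2 ^ Nat.card G = (2 ^ Nat.card G - 1) + 1 := by
    have : 0 < 2 ^ Nat.card G := by positivity
    omega
  rw [h3, pow_succ, mul_comm, pow_mul, h1, one_pow] at h2
  rw [← h2, orderOf_one] at hg
  exact hq.one_lt.ne hg

/-- Let G be a finite group of even order and M a maximal ideal of the algebraic integers containing 2. Let k be a natural number with g ^ k = g ^ 3 for every 2-element g and g ^ k = g for every element g of odd order (such k exist); an irreducible character χ is unchanged by g ↦ g ^ k exactly when it is fixed by the field automorphism that cubes the 2-power roots of unity and fixes the roots of unity of odd order. Then the number of members χ of the principal 2-block of odd degree with χ (g ^ k) = χ g for all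 g is even. -/
theorem result {G : Type*} [Group G] [Finite G] (M : Ideal Cfsg.AlgInt) (hM : Cfsg.IsPModular 2 M) (hev : Even (Nat.card G)) (k : ℕ) (hk₁ : ∀ g : G, (∃ j : ℕ, orderOf g = 2 ^ j) → g ^ k = g ^ 3) (hk₂ : ∀ g : G, Odd (orderOf g) → g ^ k = g) : Even (Nat.card {χ : Cfsg.IrrCharacter G // χ ∈ Cfsg.principalBlock M G ∧ Odd (Cfsg.charDegree (χ : G → ℂ)) ∧ ∀ g : G, (χ : G → ℂ) (g ^ k) = (χ : G → ℂ) g}) := by
  have := Fintype.ofFinite G
  have hP := isPrime_of_modular hM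
  have hfix := pow_fix k hk₁ hk₂
  have hcop := coprime_of_fix k hfix
  have hdeg : ∀ χ : IrrCharacter G, charDegree (powFun (χ : G → ℂ) k) = charDegree (χ : G → ℂ) := by
    intro χ
    unfold charDegree
    rw [powFun_apply, one_pow]
  have hblk : ∀ χ : IrrCharacter G, χ ∈ principalBlock M G →
      (⟨_, isIrr_powFun χ.2 hcop⟩ : IrrCharacter G) ∈ principalBlock M G := by
    intro χ hχ
    rw [mem_principal_iff hM] at hχ ⊢
    have : Om (reg 2 G) (powFun (χ : G → ℂ) k) = Om (reg 2 G) (χ : G → ℂ) := by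
      unfold Om
      rw [powFun_apply, one_pow]
      congr 1
      refine Finset.sum_congr rfl fun g _ => ?_
      by_cases hg : 2 ∣ orderOf g
      · simp [reg, hg]
      · rw [powFun_apply, hk₂ g (by rw [← Nat.not_even_iff_odd, even_iff_two_dvd]; exact hg)]
    rw [this]
    exact hχ
  let X := {χ : IrrCharacter G // χ ∈ principalBlock M G ∧ Odd (charDegree (χ : G → ℂ))}
  let f : Function.End X := fun x =>
    ⟨⟨_, isIrr_powFun x.1.2 hcop⟩, hblk x.1 x.2.1, by rw [hdeg]; exact x.2.2⟩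
  have hfn : ∀ (n : ℕ) (x : X), (((f ^ n) x).1 : G → ℂ) = powFun (x.1 : G → ℂ) (k ^ n) := by
    intro n
    induction n with
    | zero => intro x; rw [pow_zero, pow_zero, powFun_one]; rfl
    | succ n ih =>
      intro x
      rw [pow_succ]
      show (((f ^ n) (f x)).1 : G → ℂ) = _
      rw [ih]
      show powFun (powFun (x.1 : G → ℂ) k) (k ^ n) = _
      rw [powFun_powFun, pow_succ]
  have hf1 : f ^ 2 ^ Nat.card G = 1 := by
    funext x
    apply Subtype.ext
    apply Subtype.ext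
    rw [hfn]
    funext g
    rw [powFun_apply, hfix]
    rfl
  haveI : Fact (Nat.Prime 2) := ⟨Nat.prime_two⟩
  have h1 := Equiv.Perm.card_fixedPoints_modEq hf1
  -- the cardinality of `X` is even
  have h2 : 2 ∣ Fintype.card X := by
    have h3 := dvd_sum_sq hM (principalBlock_isPBlock M G) (even_iff_two_dvd.mp hev)
    rw [Fintype.card_subtype, Finset.card_filter]
    rw [Finset.sum_filter] at h3
    rw [← Nat.modEq_zero_iff_dvd] at h3 ⊢
    refine Nat.ModEq.trans ?_ h3
    unfold Nat.ModEq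
    rw [Finset.sum_nat_mod, Finset.sum_nat_mod (f := fun χ : IrrCharacter G =>
      if χ ∈ principalBlock M G then charDegree (χ : G → ℂ) ^ 2 else 0)]
    congr 1
    refine Finset.sum_congr rfl fun χ _ => ?_
    by_cases hχ : χ ∈ principalBlock M G
    · rcases Nat.even_or_odd (charDegree (χ : G → ℂ)) with he | ho
      · have : ¬ Odd (charDegree (χ : G → ℂ)) := Nat.not_odd_iff_even.mpr he
        simp only [hχ, this, and_false, if_false, if_true]
        have := (Nat.even_pow.mpr ⟨he, two_ne_zero⟩ : Even (charDegree (χ : G → ℂ) ^ 2))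
        rw [Nat.even_iff.mp this]
      · simp only [hχ, ho, and_true, if_true]
        have := (Odd.pow ho : Odd (charDegree (χ : G → ℂ) ^ 2))
        rw [Nat.odd_iff.mp this]
    · simp [hχ]
  have h4 : 2 ∣ Fintype.card (Function.fixedPoints f) :=
    (Nat.modEq_zero_iff_dvd.mp (h1.symm.trans (Nat.modEq_zero_iff_dvd.mpr h2)))
  rw [even_iff_two_dvd, Nat.card_eq_fintype_card]
  have e : {χ : Cfsg.IrrCharacter G // χ ∈ Cfsg.principalBlock M G ∧
      Odd (Cfsg.charDegree (χ : G → ℂ)) ∧ ∀ g : G, (χ : G → ℂ) (g ^ k) = (χ : G → ℂ) g} ≃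
      Function.fixedPoints f :=
    { toFun := fun x => ⟨⟨x.1, x.2.1, x.2.2.1⟩, by
        apply Subtype.ext
        apply Subtype.ext
        funext g
        exact x.2.2.2 g⟩
      invFun := fun y => ⟨y.1.1, y.1.2.1, y.1.2.2, fun g => by
        have := congrArg (fun z : X => (z.1 : G → ℂ) g) y.2
        exact this⟩
      left_inv := fun x => rfl
      right_inv := fun y => rfl }
  rw [Fintype.card_congr e]
  exact h4

end Cfsg.Agent.S4550
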