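import Cfsg.Statements.S4553
import Mathlib
import Cfsg.Agent.Lib.Helper2_GalThompson2
import Cfsg.Agent.Lib.CharQuot
import Cfsg.Agent.Lib.CharLinear
import Cfsg.Agent.Lib.CharGallagher


set_option autoImplicit false
open Cfsg

namespace Cfsg.Agent.S4553

open Cfsg Cfsg.Agent.Lib.Helper2_BlockLocal Cfsg.Agent.Lib.Helper2_BlockOm
  Cfsg.Agent.Lib.Helper2_BlockOsima Cfsg.Agent.Lib.Helper2_BlockBasic
  Cfsg.Agent.Lib.Helper2_BlockThird Cfsg.Agent.Lib.Helper2_BlockQuot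
  Cfsg.Agent.Lib.CharBasic Cfsg.Agent.Lib.CharOrtho
  Cfsg.Agent.Lib.CharComplete Cfsg.Agent.Lib.CharIntegral Cfsg.Agent.Lib.CharMore
  Cfsg.Agent.Lib.CharInd Cfsg.Agent.Lib.CharClifford Cfsg.Agent.Lib.CharPow
  Cfsg.Agent.Lib.CharPow2 Cfsg.Agent.Lib.CharDet Cfsg.Agent.Lib.CharThompson
  Cfsg.Agent.Lib.CharQuot Cfsg.Agent.Lib.CharLinear Cfsg.Agent.Lib.CharGallagher
  Cfsg.Agent.Lib.CharCover2 Cfsg.Agent.Lib.CharIto
  Cfsg.Agent.Lib.Helper9_PResidual Cfsg.Agent.Lib.Helper2_GalThompson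
  Cfsg.Agent.Lib.Helper2_GalThompson2
  Cfsg.Agent.S4735
open scoped ComplexConjugate

lemma card_hom_pow (Q : Type*) [Group Q] [Finite Q] [IsCyclic Q] (p : ℕ) (hp : p ∣ Nat.card Q) :
    Nat.card {f : Q →* ℂˣ // f ^ p = 1} = p := by
  letI : CommGroup Q := IsCyclic.commGroup
  haveI : NeZero (Monoid.exponent Q) := ⟨Monoid.exponent_ne_zero_of_finite⟩
  obtain ⟨e⟩ := CommGroup.monoidHom_mulEquiv_of_hasEnoughRootsOfUnity Q ℂ
  have h1 : Nat.card {f : Q →* ℂˣ // f ^ p = 1} = Nat.card (powMonoidHom p : Q →* Q).ker := by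
    apply Nat.card_congr
    refine Equiv.subtypeEquiv e.toEquiv fun f => ?_
    rw [MonoidHom.mem_ker, powMonoidHom_apply]
    show f ^ p = 1 ↔ (e f) ^ p = 1
    rw [← map_pow, map_eq_one_iff e e.injective]
  rw [h1, IsCyclic.card_powMonoidHom_ker]
  exact Nat.gcd_eq_right hp

lemma split_galois {G : Type*} [Group G] [Finite G] (p : ℕ) [hp : Fact p.Prime] (k : ℕ)
    (hk₁ : ∀ g : G, (∃ j : ℕ, orderOf g = p ^ j) → g ^ k = g ^ (1 + p))
    (hk₂ : ∀ g : G, Nat.Coprime (orderOf g) p → g ^ k = g) (g : G) :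
    ∃ u v : G, u * v = g ∧ ¬ p ∣ orderOf v ∧ g ^ k = u ^ (1 + p) * v := by
  obtain ⟨a, b, s, hab, ha, hb⟩ := Cfsg.Agent.Lib.Helper2_PPart.exists_parts hp.out g
  refine ⟨g ^ a, g ^ b, hab, hb, ?_⟩
  obtain ⟨i, -, hi⟩ := (Nat.dvd_prime_pow hp.out).1 (orderOf_dvd_of_pow_eq_one ha)
  have hcomm : Commute (g ^ a) (g ^ b) := (Commute.refl g).pow_pow a b
  nth_rewrite 1 [← hab]
  rw [hcomm.mul_pow, hk₁ _ ⟨i, hi⟩, hk₂ _ ((Nat.Prime.coprime_iff_not_dvd hp.out).2 hb).symm]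

lemma hom_fixed_of_pow {G : Type*} [Group G] [Finite G] (p : ℕ) [hp : Fact p.Prime] (k : ℕ)
    (hk₁ : ∀ g : G, (∃ j : ℕ, orderOf g = p ^ j) → g ^ k = g ^ (1 + p))
    (hk₂ : ∀ g : G, Nat.Coprime (orderOf g) p → g ^ k = g) (lam : G →* ℂˣ)
    (h : ∀ g, lam g ^ p = 1) (g : G) : lam (g ^ k) = lam g := by
  obtain ⟨u, v, huv, -, hgk⟩ := split_galois p k hk₁ hk₂ g
  rw [hgk, map_mul, map_pow, pow_add, pow_one, h, mul_one, ← map_mul, huv]

lemma hom_pow_of_fixed {G : Type*} [Group G] [Finite G] (p : ℕ) [hp : Fact p.Prime] (k : ℕ)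
    (hk₁ : ∀ g : G, (∃ j : ℕ, orderOf g = p ^ j) → g ^ k = g ^ (1 + p))
    (hk₂ : ∀ g : G, Nat.Coprime (orderOf g) p → g ^ k = g) (lam : G →* ℂˣ)
    (hN : ∀ n ∈ pResidual p G, lam n = 1)
    (h : ∀ g, lam (g ^ k) = lam g) (g : G) : lam g ^ p = 1 := by
  obtain ⟨u, v, huv, hv, hgk⟩ := split_galois p k hk₁ hk₂ g
  have hv1 : lam v = 1 := hN v (regular_mem_residual hp.out v hv)
  have h1 := h g
  rw [hgk, ← huv, map_mul, map_mul, hv1, mul_one, mul_one, map_pow, pow_add, pow_one] at h1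
  rw [← huv, map_mul, hv1, mul_one]
  exact mul_left_cancel (a := lam u) (by rw [h1, mul_one])

/-- Let G be a finite group, p a prime, P a Sylow p-subgroup, N the p-residual of G (the subgroup generated by the elements of order prime to p, the smallest normal subgroup with G/N a p-group), and M a maximal ideal of the algebraic integers containing p; suppose G/N is cyclic and nontrivial. Let k be a natural number with g ^ k = g ^ (1 + p) for every p-element g and g ^ k = g for every element g of order prime to p (so that χ (g ^ k) is the image of χ g under the field automorphism that raises p-power roots of unity to the power 1 + p and fixes the roots of unity of order prime to p). Then the number of members χ of the principal block of G of degree prime to p with χ (g ^ k) = χ g for all g equals p times the number of members θ of the principal block of N of degree prime to p that are invariant under conjugation by P and satisfy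 θ (n ^ k) = θ n for all n. -/
theorem result {G : Type*} [Group G] [Finite G] (p : ℕ) [Fact p.Prime] (M : Ideal Cfsg.AlgInt) (hM : Cfsg.IsPModular p M) (P : Sylow p G) (N : Subgroup G) [hN : N.Normal] (hNres : N = Cfsg.pResidual p G) (hcyc : IsCyclic (G ⧸ N)) (hnt : N ≠ ⊤) (k : ℕ) (hk₁ : ∀ g : G, (∃ j : ℕ, orderOf g = p ^ j) → g ^ k = g ^ (1 + p)) (hk₂ : ∀ g : G, Nat.Coprime (orderOf g) p → g ^ k = g) : Nat.card {χ : Cfsg.IrrCharacter G // χ ∈ Cfsg.principalBlock M G ∧ ¬ p ∣ Cfsg.charDegree (χ : G → ℂ) ∧ ∀ g : G, (χ : G → ℂ) (g ^ k) = (χ : G → ℂ) g} = p * Nat.card {θ : Cfsg.IrrCharacter ↥N // θ ∈ Cfsg.principalBlock M ↥N ∧ ¬ p ∣ Cfsg.charDegree (θ : ↥N → ℂ) ∧ (∀ x ∈ (P : Subgroup G), ∀ n : ↥N, (θ : ↥N → ℂ) ⟨x * n * x⁻¹, hN.conj_mem n n.2 x⟩ = (θ : ↥N → ℂ) n) ∧ ∀ n : ↥N, (θ : ↥N → ℂ) (n ^ k) = (θ : ↥N → ℂ) n} := by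
  classical
  subst hNres
  cases nonempty_fintype G
  haveI : Fintype (pResidual p G) := Fintype.ofFinite (pResidual p G)
  have hp : p.Prime := Fact.out
  have hkG : k.Coprime (Nat.card G) := coprime_of_galois p k hk₁ hk₂
  obtain ⟨m, hm⟩ := index_residual p G
  have hpQ : p ∣ Nat.card (G ⧸ (pResidual p G)) := by
    rw [← Subgroup.index_eq_card, hm]
    cases m with
    | zero =>
      exfalso
      apply hnt
      rw [← Subgroup.index_eq_one, hm, pow_zero]
    | succ m => exact dvd_pow_self p (Nat.succ_ne_zero m)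
  have hΛ := card_hom_pow (G ⧸ (pResidual p G)) p hpQ
  suffices hsuff : Nat.card ({f : G ⧸ (pResidual p G) →* ℂˣ // f ^ p = 1} × {θ : Cfsg.IrrCharacter ↥(pResidual p G) // θ ∈ Cfsg.principalBlock M ↥(pResidual p G) ∧
      ¬ p ∣ Cfsg.charDegree (θ : ↥(pResidual p G) → ℂ) ∧ (∀ x ∈ (P : Subgroup G), ∀ n : ↥(pResidual p G),
      (θ : ↥(pResidual p G) → ℂ) ⟨x * n * x⁻¹, hN.conj_mem n n.2 x⟩ = (θ : ↥(pResidual p G) → ℂ) n) ∧
      ∀ n : ↥(pResidual p G), (θ : ↥(pResidual p G) → ℂ) (n ^ k) = (θ : ↥(pResidual p G) → ℂ) n}) = Nat.card {χ : Cfsg.IrrCharacter G // χ ∈ Cfsg.principalBlock M G ∧ ¬ p ∣ Cfsg.charDegree (χ : G → ℂ) ∧ ∀ g : G, (χ : G → ℂ) (g ^ k) = (χ : G → ℂ) g} by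
    rw [← hsuff, Nat.card_prod, hΛ]
  have hinvY : ∀ θ : IrrCharacter (pResidual p G), (∀ x ∈ (P : Subgroup G), ∀ n : ↥(pResidual p G),
      (θ : ↥(pResidual p G) → ℂ) ⟨x * n * x⁻¹, hN.conj_mem n n.2 x⟩ = (θ : ↥(pResidual p G) → ℂ) n) →
      ∀ g : G, conjFun (pResidual p G) hN (θ : (pResidual p G) → ℂ) g = θ := by
    intro θ h g
    have h1 : inertia (pResidual p G) hN (θ : (pResidual p G) → ℂ) = ⊤ := by
      apply le_of_pResidual_le_of_sylow_le P
      · exact le_inertia (pResidual p G) hN (isClassFunction_of_isCharacter (isCharacter_of_isIrr θ.2))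
      · intro x hx
        rw [mem_inertia]
        funext n
        exact h x hx n
    rw [← mem_inertia, h1]
    exact Subgroup.mem_top g
  have hext : ∀ θ : {θ : Cfsg.IrrCharacter ↥(pResidual p G) // θ ∈ Cfsg.principalBlock M ↥(pResidual p G) ∧
      ¬ p ∣ Cfsg.charDegree (θ : ↥(pResidual p G) → ℂ) ∧ (∀ x ∈ (P : Subgroup G), ∀ n : ↥(pResidual p G),
      (θ : ↥(pResidual p G) → ℂ) ⟨x * n * x⁻¹, hN.conj_mem n n.2 x⟩ = (θ : ↥(pResidual p G) → ℂ) n) ∧
      ∀ n : ↥(pResidual p G), (θ : ↥(pResidual p G) → ℂ) (n ^ k) = (θ : ↥(pResidual p G) → ℂ) n},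
      ∃ χ : G → ℂ, IsIrrCharacter G χ ∧ (∀ n : (pResidual p G), χ n = (θ.1 : (pResidual p G) → ℂ) n) ∧
        detOrder χ = detOrder (θ.1 : (pResidual p G) → ℂ) ∧ ∀ g : G, χ (g ^ k) = χ g := fun θ =>
    exists_ext_residual_fixed p θ.1.2 (hinvY θ.1 θ.2.2.2.1) (charDegree_spec θ.1.2) θ.2.2.1 hkG
      θ.2.2.2.2
  choose E hE1 hE2 hE3 hE4 using hext
  have hEres : ∀ θ, (fun n : (pResidual p G) => E θ n) = (θ.1 : (pResidual p G) → ℂ) := fun θ => funext (hE2 θ)
  have hlamN : ∀ (f : G ⧸ (pResidual p G) →* ℂˣ) (n : G), n ∈ (pResidual p G) → (f.comp (QuotientGroup.mk' (pResidual p G))) n = 1 := by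
    intro f n hn
    rw [MonoidHom.comp_apply, QuotientGroup.mk'_apply, (QuotientGroup.eq_one_iff n).2 hn, map_one]
  have hres : ∀ (f : G ⧸ (pResidual p G) →* ℂˣ) θ (n : (pResidual p G)),
      ((fun g => (((f.comp (QuotientGroup.mk' (pResidual p G))) g : ℂˣ) : ℂ)) * E θ) n = (θ.1 : (pResidual p G) → ℂ) n := by
    intro f θ n
    rw [Pi.mul_apply, hlamN f n n.2, Units.val_one, one_mul, hE2]
  apply Nat.card_congr
  refine Equiv.ofBijective (fun x => ⟨⟨(fun g => (((x.1.1.comp (QuotientGroup.mk' (pResidual p G))) g : ℂˣ) : ℂ)) * E x.2,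
    isIrr_hom_mul _ (hE1 x.2)⟩, ?_, ?_, ?_⟩) ⟨?_, ?_⟩
  · exact (principal_ext_iff (pResidual p G) hM (regular_mem_residual hp) _ x.2.1 (hres x.1.1 x.2)).2 x.2.2.1
  · have : charDegree ((fun g => (((x.1.1.comp (QuotientGroup.mk' (pResidual p G))) g : ℂˣ) : ℂ)) * E x.2) =
        charDegree (x.2.1 : (pResidual p G) → ℂ) := by
      unfold charDegree
      rw [← hres x.1.1 x.2 1]
      rfl
    show ¬ p ∣ charDegree ((fun g => (((x.1.1.comp (QuotientGroup.mk' (pResidual p G))) g : ℂˣ) : ℂ)) * E x.2)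
    rw [this]
    exact x.2.2.2.1
  · intro g
    show (((x.1.1.comp (QuotientGroup.mk' (pResidual p G))) (g ^ k) : ℂˣ) : ℂ) * E x.2 (g ^ k) =
      (((x.1.1.comp (QuotientGroup.mk' (pResidual p G))) g : ℂˣ) : ℂ) * E x.2 g
    rw [hE4, hom_fixed_of_pow p k hk₁ hk₂ _ (fun g => ?_) g]
    have := congrArg (fun F : G ⧸ (pResidual p G) →* ℂˣ => F (QuotientGroup.mk g)) x.1.2
    simpa using this
  · rintro ⟨f, θ⟩ ⟨f', θ'⟩ heq
    have heq' : (fun g => (((f.1.comp (QuotientGroup.mk' (pResidual p G))) g : ℂˣ) : ℂ)) * E θ =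
        (fun g => (((f'.1.comp (QuotientGroup.mk' (pResidual p G))) g : ℂˣ) : ℂ)) * E θ' :=
      congrArg (fun z => (z.1 : G → ℂ)) heq
    have hθ : θ = θ' := by
      apply Subtype.ext
      apply Subtype.ext
      funext n
      rw [← hres f.1 θ n, ← hres f'.1 θ' n, heq']
    subst hθ
    have h1 := gallagher_mul_inj (pResidual p G) hN (hE1 θ) (by rw [hEres]; exact θ.1.2)
      (isIrr_hom (f.1.comp (QuotientGroup.mk' (pResidual p G))))
      (fun n hn => by rw [hlamN f.1 n hn, map_one])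
      (isIrr_hom (f'.1.comp (QuotientGroup.mk' (pResidual p G))))
      (fun n hn => by rw [hlamN f'.1 n hn, map_one]) heq'
    have hf : f = f' := by
      apply Subtype.ext
      ext q
      exact congrFun h1 q
    rw [hf]
  · rintro ⟨χ, hχB, hχd, hχk⟩
    have hθirr : IsIrrCharacter (pResidual p G) (fun n : (pResidual p G) => (χ : G → ℂ) n) :=
      restrict_irr_of_coprime p (pResidual p G) hN hm χ.2 (charDegree_spec χ.2) hχd
    set θ0 : IrrCharacter (pResidual p G) := ⟨fun n : (pResidual p G) => (χ : G → ℂ) n, hθirr⟩ with hθ0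
    have hY : θ0 ∈ Cfsg.principalBlock M ↥(pResidual p G) ∧
      ¬ p ∣ Cfsg.charDegree (θ0 : ↥(pResidual p G) → ℂ) ∧ (∀ x ∈ (P : Subgroup G), ∀ n : ↥(pResidual p G),
      (θ0 : ↥(pResidual p G) → ℂ) ⟨x * n * x⁻¹, hN.conj_mem n n.2 x⟩ = (θ0 : ↥(pResidual p G) → ℂ) n) ∧
      ∀ n : ↥(pResidual p G), (θ0 : ↥(pResidual p G) → ℂ) (n ^ k) = (θ0 : ↥(pResidual p G) → ℂ) n := by
      refine ⟨(principal_ext_iff (pResidual p G) hM (regular_mem_residual hp) χ θ0 (fun _ => rfl)).1 hχB,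
        hχd, fun x _ n => ?_, fun n => hχk n⟩
      exact isClassFunction_of_isCharacter (isCharacter_of_isIrr χ.2) n x
    set θ : {θ : Cfsg.IrrCharacter ↥(pResidual p G) // θ ∈ Cfsg.principalBlock M ↥(pResidual p G) ∧
      ¬ p ∣ Cfsg.charDegree (θ : ↥(pResidual p G) → ℂ) ∧ (∀ x ∈ (P : Subgroup G), ∀ n : ↥(pResidual p G),
      (θ : ↥(pResidual p G) → ℂ) ⟨x * n * x⁻¹, hN.conj_mem n n.2 x⟩ = (θ : ↥(pResidual p G) → ℂ) n) ∧
      ∀ n : ↥(pResidual p G), (θ : ↥(pResidual p G) → ℂ) (n ^ k) = (θ : ↥(pResidual p G) → ℂ) n} := ⟨θ0, hY⟩ with hθ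
    have hEirr : IsIrrCharacter (pResidual p G) (fun n : (pResidual p G) => E θ n) := by rw [hEres]; exact θ0.2
    obtain ⟨β, hβ, hβN, hβη⟩ := gallagher_exists (pResidual p G) hN (hE1 θ) hEirr χ.2 (by
      rw [hEres]
      show classInner (θ0 : (pResidual p G) → ℂ) (θ0 : (pResidual p G) → ℂ) ≠ 0
      rw [classInner_irr_self θ0.2]; exact one_ne_zero)
    have hE0 : E θ 1 ≠ 0 := irr_degree_ne_zero (hE1 θ)
    have hβ1 : β 1 = 1 := by
      have h1 := congrFun hβη 1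
      rw [Pi.mul_apply] at h1
      have h2 : (χ : G → ℂ) 1 = E θ 1 := (hE2 θ 1).symm
      rw [h2] at h1
      exact mul_right_cancel₀ hE0 (by rw [h1, one_mul])
    have hβc := isCharacter_of_isIrr hβ
    set lam := homOfLinear hβc hβ1 with hlam
    have hβfun : (fun g => ((lam g : ℂˣ) : ℂ)) = β := funext fun g => homOfLinear_apply hβc hβ1 g
    have hlamN' : ∀ n ∈ (pResidual p G), lam n = 1 := by
      intro n hn
      apply Units.ext
      rw [hlam, homOfLinear_apply, hβN n hn, hβ1, Units.val_one]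
    have hfix : ∀ g, lam (g ^ k) = lam g := by
      have h1 := gallagher_mul_inj (pResidual p G) hN (hE1 θ) hEirr (isIrr_hom (lam ^ k))
        (fun n hn => by rw [MonoidHom.pow_apply, hlamN' n hn, map_one, one_pow])
        (isIrr_hom lam) (fun n hn => by rw [hlamN' n hn, map_one]) (by
          funext g
          show (((lam ^ k) g : ℂˣ) : ℂ) * E θ g = ((lam g : ℂˣ) : ℂ) * E θ g
          have e1 : ((lam (g ^ k) : ℂˣ) : ℂ) * E θ (g ^ k) = (χ : G → ℂ) (g ^ k) := by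
            have := congrFun hβη (g ^ k)
            rw [← hβfun] at this
            exact this
          have e2 : ((lam g : ℂˣ) : ℂ) * E θ g = (χ : G → ℂ) g := by
            have := congrFun hβη g
            rw [← hβfun] at this
            exact this
          rw [MonoidHom.pow_apply, ← map_pow, e2, ← hχk g, ← e1, hE4])
      intro g
      apply Units.ext
      have := congrFun h1 g
      rw [map_pow]
      simpa using this
    have hpow := hom_pow_of_fixed p k hk₁ hk₂ lam hlamN' hfix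
    refine ⟨⟨⟨QuotientGroup.lift (pResidual p G) lam hlamN', ?_⟩, θ⟩, ?_⟩
    · ext q
      have h9 := hpow q
      have h8 : (QuotientGroup.lift (pResidual p G) lam hlamN') (q : G ⧸ (pResidual p G)) = lam q := rfl
      simp only [MonoidHom.comp_apply, QuotientGroup.mk'_apply, MonoidHom.pow_apply, h8, h9,
        MonoidHom.one_apply]
    · apply Subtype.ext
      apply Subtype.ext
      rw [← hβη, ← hβfun]
      rfl

end Cfsg.Agent.S4553
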