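import Cfsg.Statements.S4558
import Cfsg.Agent.Lib.helper8_ModP

set_option autoImplicit false
open Cfsg

namespace Cfsg.Agent.S4558

/-- Let χ be a character of the finite group G and g an element of p-power order for the prime p. If χ g = 0, then p divides the degree of χ. -/
theorem result {G : Type*} [Group G] [Finite G] (p : ℕ) [Fact p.Prime] (χ : G → ℂ) (hχ : Cfsg.IsCharacter G χ) (g : G) (hg : ∃ j : ℕ, orderOf g = p ^ j) (h0 : χ g = 0) : p ∣ Cfsg.charDegree χ := by
  obtain ⟨M, hM⟩ := Cfsg.Agent.Lib.helper8_DefectZero.exists_modular (Fact.out : p.Prime)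
  obtain ⟨j, hj⟩ := hg
  have h1 := Cfsg.Agent.Lib.helper8_ModP.char_congr_one hM hχ g (j := j)
    (by rw [← hj]; exact pow_orderOf_eq_one g)
  rw [h0, sub_zero] at h1
  have h2 : ∃ n : ℕ, χ 1 = n := by
    obtain ⟨n, ρ, rfl⟩ := hχ
    exact ⟨_, Representation.char_one ρ⟩
  obtain ⟨n, hn⟩ := h2
  rw [Cfsg.Agent.Lib.helper8_Defect.charDegree_of_eq hn]
  rw [hn] at h1
  exact (Cfsg.Agent.Lib.Helper2_BlockLocal.ideal_natCast_iff hM n).mp h1

end Cfsg.Agent.S4558
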