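import Cfsg.Statements.S4566
import Cfsg.Agent.Lib.helper8_Center

open Cfsg.Agent.Lib.CharBasic Cfsg.Agent.Lib.CharOrtho Cfsg.Agent.Lib.CharComplete Cfsg.Agent.Lib.CharMore Cfsg.Agent.Lib.CharLinear Cfsg.Agent.Lib.helper8_Kernel Cfsg.Agent.Lib.helper8_Defect Cfsg.Agent.Lib.helper8_Codegree Cfsg.Agent.Lib.helper8_Center

set_option autoImplicit false
open Cfsg

namespace Cfsg.Agent.S4566

/-- Let N be a central subgroup of the finite group G, ψ a faithful irreducible (hence degree-one) character of N, and χ an irreducible character of G whose restriction to N contains ψ. If g ∈ G and some x ∈ G has commutator x⁻¹ g⁻¹ x g in N but different from 1, then χ g = 0. -/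
theorem result {G : Type*} [Group G] [Fintype G] (N : Subgroup G) [Fintype N] (hN : N ≤ Subgroup.center G) (ψ : Cfsg.IrrCharacter ↥N) (hfaith : ∀ n : ↥N, (ψ : ↥N → ℂ) n = (ψ : ↥N → ℂ) 1 → n = 1) (χ : Cfsg.IrrCharacter G) (hover : Cfsg.classInner (fun n : ↥N => (χ : G → ℂ) n) (ψ : ↥N → ℂ) ≠ 0) (g x : G) (hcomm : x⁻¹ * g⁻¹ * x * g ∈ N) (hne : x⁻¹ * g⁻¹ * x * g ≠ 1) : (χ : G → ℂ) g = 0 := by
  classical
  have hcen : ∀ n ∈ N, ∀ a : G, a * n = n * a := fun n hn a => Subgroup.mem_center_iff.1 (hN hn) a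
  have h1 := irr_degree_ne_zero χ.2
  let lam0 : N →* ℂ :=
    { toFun := fun n => (χ : G → ℂ) n / (χ : G → ℂ) 1
      map_one' := by simp [h1]
      map_mul' := by
        intro a b
        simp only [Subgroup.coe_mul]
        rw [central_mul χ.2 (hcen b b.2)]
        field_simp }
  let lam : N →* ℂˣ := MonoidHom.toHomUnits lam0
  have hlam : ∀ n : N, ((lam n : ℂˣ) : ℂ) = (χ : G → ℂ) n / (χ : G → ℂ) 1 := fun n => rfl
  have heq : (fun n : N => ((lam n : ℂˣ) : ℂ)) = (ψ : N → ℂ) := by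
    by_contra hne'
    apply hover
    have h2 := classInner_irr_ne (isIrr_hom lam) ψ.2 hne'
    have h3 : (fun n : N => (χ : G → ℂ) n) = fun n : N => (χ : G → ℂ) 1 * ((lam n : ℂˣ) : ℂ) := by
      ext n
      rw [hlam]
      field_simp
    rw [h3]
    rw [classInner] at h2 ⊢
    simp only [mul_assoc]
    rw [← Finset.mul_sum, mul_left_comm, h2, mul_zero]
  set z := x⁻¹ * g⁻¹ * x * g with hz
  have hz1 : (χ : G → ℂ) z / (χ : G → ℂ) 1 ≠ 1 := by
    intro h
    apply hne
    have h4 := hfaith ⟨z, hcomm⟩ (by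
      rw [← heq]
      simp only [hlam, Subgroup.coe_one]
      rw [h, div_self h1])
    exact congrArg Subtype.val h4
  have h5 : g = (x⁻¹ * g * x) * z := by rw [hz]; group
  have h6 : (χ : G → ℂ) (x⁻¹ * g * x) = (χ : G → ℂ) g := by
    have := isClassFunction_of_isCharacter (isCharacter_of_isIrr χ.2) g x⁻¹
    rwa [inv_inv] at this
  have h7 := central_mul χ.2 (hcen z hcomm) (x⁻¹ * g * x)
  rw [← h5, h6] at h7
  have h8 : (χ : G → ℂ) g * (1 - (χ : G → ℂ) z / (χ : G → ℂ) 1) = 0 := by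
    rw [mul_sub, mul_one, ← h7, sub_self]
  rcases mul_eq_zero.1 h8 with h9 | h9
  · exact h9
  · exact absurd (sub_eq_zero.1 h9).symm hz1

end Cfsg.Agent.S4566
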