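import Cfsg.Statements.S4574
import Cfsg.Agent.Lib.helper8_Zeros

open Cfsg.Agent.Lib.CharBasic Cfsg.Agent.Lib.helper8_Zeros Cfsg.Agent.Lib.helper8_Center Cfsg.Agent.Lib.helper8_Defect

set_option autoImplicit false
open Cfsg

namespace Cfsg.Agent.S4574

lemma norm_pow_eq {G : Type*} [Group G] [Finite G] {χ : G → ℂ} (hχ : IsIrrCharacter G χ) {h : G}
    (hh : ‖χ h‖ = (charDegree χ : ℝ)) (j : ℕ) : ‖χ (h ^ j)‖ = (charDegree χ : ℝ) := by
  obtain ⟨n, ρ, hρ, rfl⟩ := hχ
  rw [charDegree_of_eq (Representation.char_one ρ), char_norm_eq_iff] at hh ⊢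
  obtain ⟨ω, hω⟩ := hh
  refine ⟨ω ^ j, ?_⟩
  rw [map_pow, hω]
  induction j with
  | zero => simp; rfl
  | succ j ih =>
    rw [pow_succ, ih, pow_succ]
    ext v
    simp [smul_smul, mul_comm]


/-- Let χ be an irreducible character of the finite group G, of degree d, and let Z(χ) be the set of elements g with |χ g| = d (the centre of χ). Then χ vanishes on at least (d ^ 2 - 1) · |Z(χ)| elements of G, with equality when every value |χ g| is 0, 1 or d. -/
theorem result {G : Type*} [Group G] [Fintype G] [DecidableEq G] (χ : G → ℂ) (hχ : Cfsg.IsIrrCharacter G χ) : (Cfsg.charDegree χ ^ 2 - 1) * (Finset.univ.filter (fun g : G => ‖χ g‖ = (Cfsg.charDegree χ : ℝ))).card ≤ (Finset.univ.filter (fun g : G => χ g = 0)).card ∧ ((∀ g : G, ‖χ g‖ = 0 ∨ ‖χ g‖ = 1 ∨ ‖χ g‖ = (Cfsg.charDegree χ : ℝ)) → (Cfsg.charDegree χ ^ 2 - 1) * (Finset.univ.filter (fun g : G => ‖χ g‖ = (Cfsg.charDegree χ : ℝ))).card = (Finset.univ.filter (fun g : G => χ g = 0)).card) := by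
  obtain ⟨h0, h3, -⟩ := irr_charDegree hχ
  set d := charDegree χ with hd
  have hdR : (0 : ℝ) < (d : ℝ) := by exact_mod_cast h0
  set Z := Finset.univ.filter (fun g : G => ‖χ g‖ = (d : ℝ)) with hZ
  set N0 := Finset.univ.filter (fun g : G => χ g = 0) with hN0
  set S := Finset.univ.filter (fun g : G => ¬ ‖χ g‖ = (d : ℝ)) with hS
  have hclosed : ∀ g ∈ S, ∀ k : ℕ, k.Coprime (Nat.card G) → g ^ k ∈ S := by
    intro g hg k hk
    rw [hS, Finset.mem_filter] at hg ⊢
    refine ⟨Finset.mem_univ _, fun hmem => hg.2 ?_⟩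
    obtain ⟨j, hj⟩ := exists_pow_eq_self_of_coprime (x := g) (n := k)
      (Nat.Coprime.coprime_dvd_right (orderOf_dvd_natCard g) hk)
    rw [← hj]
    exact norm_pow_eq hχ hmem j
  have h2 := sum_norm_sq hχ
  rw [← Finset.sum_filter_add_sum_filter_not Finset.univ (fun g : G => ‖χ g‖ = (d : ℝ))] at h2
  have h4 : ∑ g ∈ Z, ‖χ g‖ ^ 2 = (Z.card : ℝ) * (d : ℝ) ^ 2 := by
    rw [Finset.sum_congr rfl (fun g hg => by rw [(Finset.mem_filter.1 hg).2]),
      Finset.sum_const, nsmul_eq_mul]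
  rw [h4] at h2
  have h5 : (S.filter (fun g => χ g = 0)).card + (S.filter (fun g => ¬ χ g = 0)).card = S.card :=
    Finset.card_filter_add_card_filter_not _
  have h6 : Z.card + S.card = Nat.card G := by
    rw [hZ, hS, Finset.card_filter_add_card_filter_not, Finset.card_univ,
      Nat.card_eq_fintype_card]
  have h7 : S.filter (fun g => χ g = 0) = N0 := by
    ext g
    simp only [hS, hN0, Finset.mem_filter, Finset.mem_univ, true_and]
    constructor
    · exact fun h => h.2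
    · intro h
      refine ⟨?_, h⟩
      rw [h, norm_zero]
      exact hdR.ne
  rw [h7] at h5
  have h5' : (N0.card : ℝ) + ((S.filter (fun g => ¬ χ g = 0)).card : ℝ) = (S.card : ℝ) := by
    exact_mod_cast h5
  have h6' : (Z.card : ℝ) + (S.card : ℝ) = (Nat.card G : ℝ) := by exact_mod_cast h6
  have hcast : (((d ^ 2 - 1) * Z.card : ℕ) : ℝ) = ((d : ℝ) ^ 2 - 1) * (Z.card : ℝ) := by
    rw [Nat.cast_mul, Nat.cast_sub (Nat.one_le_pow _ _ h0)]
    push_cast
    rfl
  constructor
  · have h1 := card_nonzero_le_sum (isCharacter_of_isIrr hχ) S hclosed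
    have h8 : ((S.filter (fun g => χ g ≠ 0)).card : ℝ) =
        ((S.filter (fun g => ¬ χ g = 0)).card : ℝ) := by
      congr 2
    rw [h8] at h1
    have : (((d ^ 2 - 1) * Z.card : ℕ) : ℝ) ≤ (N0.card : ℝ) := by
      rw [hcast]
      nlinarith
    exact_mod_cast this
  · intro hall
    have h1 : ∑ g ∈ S, ‖χ g‖ ^ 2 = ((S.filter (fun g => ¬ χ g = 0)).card : ℝ) := by
      rw [Finset.card_filter, Nat.cast_sum]
      refine Finset.sum_congr rfl fun g hg => ?_
      have hg' := (Finset.mem_filter.1 hg).2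
      rcases hall g with h | h | h
      · rw [h, if_neg (by rw [not_not]; exact norm_eq_zero.1 h)]
        simp
      · rw [h, if_pos (by intro h9; rw [h9, norm_zero] at h; exact zero_ne_one h)]
        simp
      · exact absurd h hg'
    rw [h1] at h2
    have : (((d ^ 2 - 1) * Z.card : ℕ) : ℝ) = (N0.card : ℝ) := by
      rw [hcast]
      nlinarith
    exact_mod_cast this

end Cfsg.Agent.S4574
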