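import Cfsg.Statements.S4575
import Cfsg.Agent.Lib.helper8_Broue6

set_option autoImplicit false
open Cfsg

namespace Cfsg.Agent.S4575

theorem arith {ι : Type*} (S : Finset ι) (Z : ι → Prop) (A : ι → ℤ) (d l : ℕ)
    (h1 : ∀ i ∈ S, Z i → Odd (A i) ∧ (S.card : ℤ) - 1 ≤ A i * (2 ^ d - A i))
    (h2 : ∀ i ∈ S, 0 ≤ A i ∧ A i ≤ 2 ^ d)
    (h3 : ∀ i ∈ S, ¬ Z i → A i + 3 ≤ 2 ^ d)
    (h4 : ∑ i ∈ S, A i = 2 ^ d * (l : ℤ)) (hk : S.card ≤ l + 3) : S.card ≤ 2 ^ d := by
  have hP1 : (1 : ℤ) ≤ 2 ^ d := one_le_pow₀ (by norm_num)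
  have goal : (S.card : ℤ) ≤ 2 ^ d := by
    by_cases hc : ∃ i ∈ S, Z i ∧ 2 ^ d - A i ≤ 1
    · obtain ⟨i, hi, hZ, hle⟩ := hc
      obtain ⟨-, hrow⟩ := h1 i hi hZ
      obtain ⟨h0, hle2⟩ := h2 i hi
      have hν : 2 ^ d - A i = 0 ∨ 2 ^ d - A i = 1 := by omega
      rcases hν with hν | hν
      · rw [hν, mul_zero] at hrow
        omega
      · rw [hν, mul_one] at hrow
        omega
    · push Not at hc
      have h5 : ∀ i ∈ S, A i + 3 ≤ 2 ^ d := by
        intro i hi
        by_cases hZ : Z i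
        · have h6 := hc i hi hZ
          obtain ⟨hodd, -⟩ := h1 i hi hZ
          obtain ⟨h0, -⟩ := h2 i hi
          rcases Nat.eq_zero_or_pos d with hd | hd
          · subst hd
            simp only [pow_zero] at h6
            omega
          · have hev : Even ((2 : ℤ) ^ d) := (Int.even_pow' hd.ne').mpr even_two
            obtain ⟨x, hx⟩ := hodd
            obtain ⟨w, hw⟩ := hev
            omega
        · exact h3 i hi hZ
      have h6 : ∑ i ∈ S, (A i + 3) ≤ ∑ _i ∈ S, (2 : ℤ) ^ d := Finset.sum_le_sum h5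
      rw [Finset.sum_add_distrib, Finset.sum_const, Finset.sum_const, h4, nsmul_eq_mul,
        nsmul_eq_mul] at h6
      have hk' : (S.card : ℤ) ≤ (l : ℤ) + 3 := by exact_mod_cast hk
      nlinarith
  exact_mod_cast goal

/-- Let B be a 2-block of the finite group G (relative to a maximal ideal M of the algebraic integers containing 2) of defect d with defect group D. Let z be an element of D commuting with every element of D, and let b be a block of the centralizer of z with defect group D that induces B (a major subsection (z, b)). If the number of irreducible characters in B exceeds the 2-regular rank of b by at most three, then B contains at most 2 ^ d irreducible characters. -/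
theorem result {G : Type*} [Group G] [Finite G] (M : Ideal Cfsg.AlgInt) (hM : Cfsg.IsPModular 2 M) (B : Set (Cfsg.IrrCharacter G)) (hB : Cfsg.IsPBlock M B) (D : Subgroup G) (hD : Cfsg.IsDefectGroup 2 M B D) (z : G) (hzD : z ∈ D) (hzc : ∀ d ∈ D, d * z = z * d) (b : Set (Cfsg.IrrCharacter ↥(Subgroup.centralizer ({z} : Set G)))) (hb : Cfsg.IsInducedBlock M (Subgroup.centralizer ({z} : Set G)) b B) (hbD : Cfsg.IsDefectGroup 2 M b (D.subgroupOf (Subgroup.centralizer ({z} : Set G)))) (h : Nat.card B ≤ Cfsg.blockRank 2 b + 3) : Nat.card B ≤ 2 ^ Cfsg.blockDefect 2 B := by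
  classical
  have := Fintype.ofFinite G
  have hc1 := Cfsg.Agent.Lib.Helper2_BlockDefOrder.card_defectGroup hM hB hD
  have hc2 := Cfsg.Agent.Lib.Helper2_BlockDefOrder.card_defectGroup hM hb.1 hbD
  have hle : D ≤ Subgroup.centralizer ({z} : Set G) := by
    intro x hx
    rw [Subgroup.mem_centralizer_singleton_iff]
    exact hzc x hx
  have hc3 : Nat.card (D.subgroupOf (Subgroup.centralizer ({z} : Set G))) = Nat.card D :=
    Nat.card_congr (Subgroup.subgroupOfEquivOfLe hle).toEquiv
  have hdb : blockDefect 2 b = blockDefect 2 B := by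
    rw [hc3, hc1] at hc2
    exact (Nat.pow_right_injective (le_refl 2) hc2).symm
  have hy : ∃ k : ℕ, orderOf z = 2 ^ k := by
    have h1 : orderOf (⟨z, hzD⟩ : D) ∣ Nat.card D := orderOf_dvd_natCard _
    rw [hc1, Subgroup.orderOf_mk] at h1
    obtain ⟨k, -, hk⟩ := (Nat.dvd_prime_pow Nat.prime_two).mp h1
    exact ⟨k, hk⟩
  obtain ⟨A, hA1, hA2, hA3, hA4⟩ :=
    Cfsg.Agent.Lib.helper8_Broue6.major_data hM (y := z) rfl hy hb hdb
  have hcard : Nat.card B = (Finset.univ.filter (fun χ : IrrCharacter G => χ ∈ B)).card := by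
    rw [Nat.card_eq_fintype_card, Fintype.card_subtype]
  rw [hcard] at h ⊢
  refine arith _ (fun χ : IrrCharacter G => blockHeight 2 B (χ : G → ℂ) = 0) A _ (blockRank 2 b) ?_ ?_ ?_ ?_ h
  · intro χ hχ h0
    convert hA1 χ (Finset.mem_filter.mp hχ).2 h0
  · intro χ hχ
    exact hA2 χ (Finset.mem_filter.mp hχ).2
  · intro χ hχ h0
    exact hA3 χ (Finset.mem_filter.mp hχ).2 (Nat.pos_of_ne_zero h0)
  · convert hA4

end Cfsg.Agent.S4575
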