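import Cfsg.Statements.S4580
import Cfsg.Agent.Lib.Helper2_BlockThird
import Cfsg.Agent.Lib.CharGallagher
import Cfsg.Agent.Lib.CharLinear
import Cfsg.Agent.Lib.helper8_Defect

set_option autoImplicit false
open Cfsg Cfsg.Agent.Lib.Helper2_BlockLocal
  Cfsg.Agent.Lib.Helper2_BlockOm Cfsg.Agent.Lib.CharBasic Cfsg.Agent.Lib.CharOrtho Cfsg.Agent.Lib.CharMore
  Cfsg.Agent.Lib.helper8_Defect Cfsg.Agent.Lib.Helper2_BlockThird Cfsg.Agent.Lib.CharGallagher
  Cfsg.Agent.Lib.CharLinear
open scoped ComplexConjugate Classical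

namespace Cfsg.Agent.S4580

theorem sum_mem {G : Type*} [Group G] [Fintype G] {M : Ideal AlgInt} (hM : IsPModular 2 M)
    (χ : IrrCharacter G) (hreal : ∀ g, ¬ 2 ∣ orderOf g → (χ : G → ℂ) g⁻¹ = (χ : G → ℂ) g) :
    MemLocalIdeal M (∑ g : G, if g = 1 then 0 else reg 2 G g * (χ : G → ℂ) g) := by
  have hP := isPrime_of_modular hM
  have hχ := isCharacter_of_isIrr χ.2
  let F : G → AlgInt := fun g => if g = 1 ∨ 2 ∣ orderOf g then 0 else
    ⟨(χ : G → ℂ) g, isIntegral_of_isCharacter hχ g⟩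
  have e1 : (∑ g : G, if g = 1 then 0 else reg 2 G g * (χ : G → ℂ) g) =
      ((∑ g : G, F g : AlgInt) : ℂ) := by
    rw [AddSubmonoidClass.coe_finsetSum]
    refine Finset.sum_congr rfl fun g _ => ?_
    simp only [F, reg]
    by_cases h1 : g = 1
    · simp [h1]
    · by_cases h2 : 2 ∣ orderOf g
      · simp [h1, h2]
      · simp [h1, h2]
  rw [e1, ideal_algInt_iff hP, ← Ideal.Quotient.eq_zero_iff_mem, map_sum]
  have h2 : (Ideal.Quotient.mk M) (2 : AlgInt) = 0 := by
    rw [Ideal.Quotient.eq_zero_iff_mem]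
    exact_mod_cast hM.2.2
  refine Finset.sum_involution (fun g _ => g⁻¹) ?_ ?_ ?_ ?_
  · intro g _
    have : F g⁻¹ = F g := by
      simp only [F, inv_eq_one, orderOf_inv]
      split_ifs with h
      · rfl
      · push Not at h
        exact Subtype.ext (hreal g h.2)
    rw [this, ← map_add, ← two_mul, map_mul, h2, zero_mul]
  · intro g _ hne hinv
    apply hne
    have hg2 : g ^ 2 = 1 := by
      rw [pow_two]
      nth_rewrite 1 [← hinv]
      exact inv_mul_cancel g
    have hd : orderOf g ∣ 2 := orderOf_dvd_of_pow_eq_one hg2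
    rcases (Nat.dvd_prime Nat.prime_two).mp hd with h | h
    · have : g = 1 := orderOf_eq_one_iff.mp h
      simp [F, this]
    · simp [F, h]
  · intro g _; exact Finset.mem_univ _
  · intro g _; exact inv_inv g

theorem mem_principal {G : Type*} [Group G] [Fintype G] {M : Ideal AlgInt} (hM : IsPModular 2 M)
    (χ : IrrCharacter G) (hreal : ∀ g, ¬ 2 ∣ orderOf g → (χ : G → ℂ) g⁻¹ = (χ : G → ℂ) g)
    (hodd : Odd (charDegree (χ : G → ℂ))) : χ ∈ principalBlock M G := by
  have hP := isPrime_of_modular hM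
  obtain ⟨hd0, hd1, -⟩ := irr_charDegree χ.2
  rw [mem_principal_iff hM]
  have hT := sum_mem hM χ hreal
  have hnd : ¬ 2 ∣ charDegree (χ : G → ℂ) := by
    rw [← even_iff_two_dvd, Nat.not_even_iff_odd]; exact hodd
  have hd0' : (charDegree (χ : G → ℂ) : ℂ) ≠ 0 := by exact_mod_cast hd0.ne'
  have e : Om (reg 2 G) (χ : G → ℂ) - 1 =
      (∑ g : G, if g = 1 then 0 else reg 2 G g * (χ : G → ℂ) g) *
        ((charDegree (χ : G → ℂ) : ℕ) : ℂ)⁻¹ := by
    unfold Om
    have e2 : ∑ g : G, reg 2 G g * (χ : G → ℂ) g =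
        (∑ g : G, if g = 1 then 0 else reg 2 G g * (χ : G → ℂ) g) + (χ : G → ℂ) 1 := by
      have e3 : ∀ g : G, reg 2 G g * (χ : G → ℂ) g =
          (if g = 1 then 0 else reg 2 G g * (χ : G → ℂ) g) +
            (if g = 1 then (χ : G → ℂ) 1 else 0) := by
        intro g
        by_cases h1 : g = 1
        · simp [h1, reg]
        · simp [h1]
      rw [Finset.sum_congr rfl fun g _ => e3 g, Finset.sum_add_distrib]
      simp
    rw [e2, hd1]
    field_simp
    ring
  apply not_ideal_of_sub hP (y := 1) _ (not_ideal_one hP)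
  rw [e]
  exact ideal_mul_right hP hT (ring_inv_natCast hM hnd)

/-- Let N be a normal subgroup of the finite group G, M a maximal ideal of the algebraic integers containing 2, and θ a real-valued irreducible character of N of odd degree that extends to G (some irreducible character of G restricts to θ). Then θ has an extension to G lying in the principal 2-block of G. -/
theorem result {G : Type*} [Group G] [Finite G] (N : Subgroup G) [N.Normal] (M : Ideal Cfsg.AlgInt) (hM : Cfsg.IsPModular 2 M) (θ : Cfsg.IrrCharacter N) (hreal : ∀ n : N, ((θ : N → ℂ) n).im = 0) (hodd : Odd (Cfsg.charDegree (θ : N → ℂ))) (hext : ∃ η : Cfsg.IrrCharacter G, ∀ n : N, (η : G → ℂ) n = (θ : N → ℂ) n) :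
    ∃ η : Cfsg.IrrCharacter G, (∀ n : N, (η : G → ℂ) n = (θ : N → ℂ) n) ∧ η ∈ Cfsg.principalBlock M G := by
  have := Fintype.ofFinite G
  have hN : N.Normal := inferInstance
  obtain ⟨η0, hη0⟩ := hext
  have hη0c := isCharacter_of_isIrr η0.2
  have hres : IsIrrCharacter N (fun n : N => (η0 : G → ℂ) n) := by
    have : (fun n : N => (η0 : G → ℂ) n) = (θ : N → ℂ) := funext hη0
    rw [this]; exact θ.2
  have hθreal : ∀ n : N, conj ((θ : N → ℂ) n) = (θ : N → ℂ) n := fun n =>
    Complex.conj_eq_iff_im.mpr (hreal n)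
  have hc : classInner (fun n : N => conj ((η0 : G → ℂ) n)) (fun n : N => (η0 : G → ℂ) n) ≠ 0 := by
    have e1 : (fun n : N => conj ((η0 : G → ℂ) n)) = (θ : N → ℂ) := by
      funext n; rw [hη0, hθreal]
    have e2 : (fun n : N => (η0 : G → ℂ) n) = (θ : N → ℂ) := funext hη0
    rw [e1, e2, classInner_irr_self θ.2]
    exact one_ne_zero
  obtain ⟨β, hβ, hβker, hβmul⟩ := gallagher_exists N hN η0.2 hres (isIrr_conj η0.2) hc
  have hη01 : (η0 : G → ℂ) 1 ≠ 0 := irr_degree_ne_zero η0.2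
  obtain ⟨hd0, hd1, -⟩ := irr_charDegree η0.2
  have hβ1 : β 1 = 1 := by
    have h1 := congrFun hβmul 1
    simp only [Pi.mul_apply] at h1
    rw [hd1, Complex.conj_natCast] at h1
    have hd0' : (charDegree (η0 : G → ℂ) : ℂ) ≠ 0 := by exact_mod_cast hd0.ne'
    exact mul_right_cancel₀ hd0' (by rw [h1, one_mul])
  have hβc := isCharacter_of_isIrr hβ
  set lam := homOfLinear hβc hβ1 with hlam
  have hlamv : ∀ g, ((lam g : ℂˣ) : ℂ) = β g := fun g => rfl
  set m := Nat.card G / 2 ^ (Nat.card G).factorization 2 with hm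
  have hmodd : ¬ 2 ∣ m := Nat.not_dvd_ordCompl Nat.prime_two Nat.card_pos.ne'
  obtain ⟨j, hj⟩ : ∃ j, m + 1 = 2 * j := by
    have : m % 2 = 1 := by omega
    exact ⟨(m + 1) / 2, by omega⟩
  set μ : G →* ℂˣ := lam ^ j with hμ
  have hμv : ∀ g, ((μ g : ℂˣ) : ℂ) = (β g) ^ j := by
    intro g
    rw [hμ, MonoidHom.pow_apply, Units.val_pow_eq_pow_val, hlamv]
  have hμker : ∀ n ∈ N, (fun g => ((μ g : ℂˣ) : ℂ)) n = (fun g => ((μ g : ℂˣ) : ℂ)) 1 := by
    intro n hn
    show ((μ n : ℂˣ) : ℂ) = ((μ 1 : ℂˣ) : ℂ)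
    rw [hμv, hμv, hβker n hn]
  have hirr := gallagher_mul_irr N hN η0.2 hres (isIrr_hom μ) hμker
  refine ⟨⟨_, hirr⟩, ?_, ?_⟩
  · intro n
    show ((μ n : ℂˣ) : ℂ) * (η0 : G → ℂ) n = _
    rw [hμv, hβker n n.2, hβ1, one_pow, one_mul, hη0]
  · apply mem_principal hM
    · intro g hg
      show ((fun g => ((μ g : ℂˣ) : ℂ)) * (η0 : G → ℂ)) g⁻¹ = ((μ g : ℂˣ) : ℂ) * (η0 : G → ℂ) g
      rw [inv_of_isCharacter (isCharacter_of_isIrr hirr)]
      show conj (((μ g : ℂˣ) : ℂ) * (η0 : G → ℂ) g) = ((μ g : ℂˣ) : ℂ) * (η0 : G → ℂ) g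
      have h1 := congrFun hβmul g
      simp only [Pi.mul_apply] at h1
      rw [map_mul, ← h1, hμv, map_pow]
      -- `β g` has order dividing `m`
      have hgm : g ^ m = 1 := by
        apply orderOf_dvd_iff_pow_eq_one.mp
        have h2 : orderOf g ∣ 2 ^ (Nat.card G).factorization 2 * m := by
          rw [hm, Nat.ordProj_mul_ordCompl_eq_self]
          exact orderOf_dvd_natCard g
        have hcop : Nat.Coprime (orderOf g) (2 ^ (Nat.card G).factorization 2) :=
          Nat.Coprime.pow_right _ ((Nat.Prime.coprime_iff_not_dvd Nat.prime_two).mpr hg).symm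
        exact hcop.dvd_of_dvd_mul_left h2
      have hum : (β g) ^ m = 1 := by
        rw [← hlamv, ← Units.val_pow_eq_pow_val, ← map_pow, hgm, map_one, Units.val_one]
      have hnorm : conj (β g) * β g = 1 := by
        rw [mul_comm, Complex.mul_conj, Complex.normSq_eq_norm_sq, ← hlamv, hom_norm]
        norm_num
      have h2j : (β g) ^ j * (β g) ^ j = β g := by
        rw [← pow_add, ← two_mul, ← hj, pow_succ, hum, one_mul]
      calc conj (β g) ^ j * (β g * (η0 : G → ℂ) g)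
          = conj (β g) ^ j * ((β g) ^ j * (β g) ^ j) * (η0 : G → ℂ) g := by rw [h2j]; ring
        _ = (conj (β g) * β g) ^ j * (β g) ^ j * (η0 : G → ℂ) g := by rw [mul_pow]; ring
        _ = _ := by rw [hnorm, one_pow, one_mul]
    · have e : charDegree (fun g => ((μ g : ℂˣ) : ℂ) * (η0 : G → ℂ) g) = charDegree (θ : N → ℂ) := by
        obtain ⟨-, ht1, -⟩ := irr_charDegree θ.2
        apply charDegree_of_eq
        rw [map_one, Units.val_one, one_mul, ← ht1, ← hη0 1]
        rfl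
      show Odd (charDegree (fun g => ((μ g : ℂˣ) : ℂ) * (η0 : G → ℂ) g))
      rw [e]; exact hodd

end Cfsg.Agent.S4580
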