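import Cfsg.Statements.S4582
import Cfsg.Agent.Lib.Helper1_TrSq
import Cfsg.Agent.Lib.Helper7_Class

set_option autoImplicit false
open Cfsg

namespace Cfsg.Agent.S4582

/-- Let N be a normal subgroup of the finite group G, P a Sylow 2-subgroup of G and Q = P ∩ N. Suppose that P/QP' and Q/Q' are elementary abelian (every square of an element of P lies in the subgroup generated by Q and the derived subgroup of P, and every square of an element of Q lies in the derived subgroup of Q), and that the commutator factor group N/N' has odd order. Then P/P' is elementary abelian. -/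
theorem result {G : Type*} [Group G] [Finite G] (N : Subgroup G) [N.Normal] (P : Sylow 2 G)
    (hP : ∀ x ∈ (P : Subgroup G), x ^ 2 ∈ ((P : Subgroup G) ⊓ N) ⊔ ⁅(P : Subgroup G), (P : Subgroup G)⁆)
    (hQ : ∀ x ∈ (P : Subgroup G) ⊓ N, x ^ 2 ∈ ⁅(P : Subgroup G) ⊓ N, (P : Subgroup G) ⊓ N⁆)
    (hodd : Odd (Nat.card (Abelianization N))) :
    ∀ x ∈ (P : Subgroup G), x ^ 2 ∈ ⁅(P : Subgroup G), (P : Subgroup G)⁆ := by
  haveI : Fact (Nat.Prime 2) := ⟨Nat.prime_two⟩
  intro x hx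
  set Γ : Subgroup G := N ⊔ (P : Subgroup G) with hΓ
  have hNΓ : N ≤ Γ := le_sup_left
  have hPΓ : (P : Subgroup G) ≤ Γ := le_sup_right
  set H : Subgroup Γ := (P : Subgroup G).subgroupOf Γ with hH
  let e : H ≃* (P : Subgroup G) := Subgroup.subgroupOfEquivOfLe hPΓ
  let ϕ : H →* Abelianization (P : Subgroup G) := Abelianization.of.comp e.toMonoidHom
  set N' : Subgroup Γ := N.subgroupOf Γ with hN'
  haveI : N'.Normal := inferInstance
  have hfac : ∀ g : Γ, ∃ n ∈ N', ∃ a ∈ H, g = n * a := by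
    intro g
    have hg : (g : G) ∈ ((N ⊔ (P : Subgroup G) : Subgroup G) : Set G) := g.2
    rw [Subgroup.normal_mul] at hg
    obtain ⟨n, hn, a, ha, hna⟩ := Set.mem_mul.mp hg
    exact ⟨⟨n, hNΓ hn⟩, hn, ⟨a, hPΓ ha⟩, ha, Subtype.ext hna.symm⟩
  have hker : ∀ w : H, ϕ w = 1 ↔ ((w : Γ) : G) ∈ ⁅(P : Subgroup G), (P : Subgroup G)⁆ := by
    intro w
    have h1 : ϕ w = Abelianization.of (e w) := rfl
    rw [h1, ← MonoidHom.mem_ker, Abelianization.ker_of, ← Subgroup.map_subtype_commutator,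
      Subgroup.mem_map]
    constructor
    · intro h; exact ⟨e w, h, rfl⟩
    · rintro ⟨z, hz, hzw⟩
      have : z = e w := Subtype.ext hzw
      rwa [← this]
  have hsq : ∀ q : H, (q : Γ) ∈ N' → ϕ q ^ 2 = 1 := by
    intro q hq
    rw [← map_pow, hker]
    have h1 : ((q : Γ) : G) ∈ (P : Subgroup G) ⊓ N := ⟨q.2, hq⟩
    have h2 := hQ _ h1
    exact Subgroup.commutator_mono inf_le_left inf_le_left h2
  set V := MonoidHom.transfer ϕ with hV
  obtain ⟨k, hk⟩ := P.2.exists_card_eq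
  have hVN : ∀ γ : Γ, (γ : G) ∈ N → V γ = 1 := by
    intro γ hγ
    let ψ : N →* Abelianization (P : Subgroup G) := V.comp (Subgroup.inclusion hNΓ)
    have h1 : V γ = Abelianization.lift ψ (Abelianization.of ⟨γ, hγ⟩) := by
      rw [Abelianization.lift_apply_of]; rfl
    have h2 : orderOf (V γ) ∣ Nat.card (Abelianization N) := by
      rw [h1]; exact (orderOf_map_dvd _ _).trans (orderOf_dvd_natCard _)
    have h3 : orderOf (V γ) ∣ Nat.card (Abelianization (P : Subgroup G)) := orderOf_dvd_natCard _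
    have h4 : Nat.card (Abelianization (P : Subgroup G)) ∣ Nat.card (P : Subgroup G) :=
      Subgroup.card_quotient_dvd_card _
    have h5 : orderOf (V γ) ∣ 2 ^ k := hk ▸ h3.trans h4
    have hcop : Nat.Coprime (Nat.card (Abelianization N)) (2 ^ k) :=
      Nat.Coprime.pow_right k (Nat.coprime_two_right.2 hodd)
    have := Nat.eq_one_of_dvd_coprimes hcop h2 h5
    exact orderOf_eq_one_iff.mp this
  have hK : ((P : Subgroup G) ⊓ N) ⊔ ⁅(P : Subgroup G), (P : Subgroup G)⁆ ≤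
      V.ker.map Γ.subtype := by
    refine sup_le ?_ ?_
    · intro y hy
      exact ⟨⟨y, hPΓ hy.1⟩, hVN _ hy.2, rfl⟩
    · rw [Subgroup.commutator_le]
      intro a ha b hb
      refine ⟨(⟨a, hPΓ ha⟩ : Γ) * ⟨b, hPΓ hb⟩ * (⟨a, hPΓ ha⟩ : Γ)⁻¹ * (⟨b, hPΓ hb⟩ : Γ)⁻¹, ?_, rfl⟩
      have hab : ∀ u v : Abelianization (P : Subgroup G), u * v * u⁻¹ * v⁻¹ = 1 := by
        intro u v; rw [mul_comm u v, mul_inv_cancel_right, mul_inv_cancel]
      rw [SetLike.mem_coe, MonoidHom.mem_ker, map_mul, map_mul, map_mul, map_inv, map_inv]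
      exact hab _ _
  obtain ⟨γ, hγ, hγx⟩ := hK (hP x hx)
  let xH : H := ⟨⟨x, hPΓ hx⟩, hx⟩
  have hγ' : γ = ((xH : Γ)) ^ 2 := Subtype.ext hγx
  have h1 := Cfsg.Agent.Lib.Helper1_TrSq.transfer_sq ϕ N' hfac hsq xH
  have h2 : V (xH : Γ) ^ 2 = 1 := by rw [← map_pow, ← hγ']; exact hγ
  rw [← hV, h2] at h1
  have h3 : ((x ^ 2) ^ H.index) ∈ ⁅(P : Subgroup G), (P : Subgroup G)⁆ := by
    have := (hker (xH ^ (2 * H.index))).1 (by rw [map_pow]; exact h1.symm)
    rw [← pow_mul]; exact this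
  have hidx : ¬ 2 ∣ H.index := by
    intro hd
    have h4 : (P : Subgroup G).relIndex Γ * Γ.index = (P : Subgroup G).index :=
      Subgroup.relIndex_mul_index hPΓ
    exact P.not_dvd_index (h4 ▸ Dvd.dvd.mul_right hd _)
  have h5 : (x ^ 2) ^ (2 ^ k) ∈ ⁅(P : Subgroup G), (P : Subgroup G)⁆ := by
    have h6 : (⟨x, hx⟩ : (P : Subgroup G)) ^ (2 ^ k) = 1 := by rw [← hk]; exact pow_card_eq_one'
    have h7 : x ^ (2 ^ k) = 1 := congrArg Subtype.val h6
    rw [← pow_mul, mul_comm, pow_mul, h7, one_pow]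
    exact Subgroup.one_mem _
  have hcop : Nat.Coprime H.index (2 ^ k) :=
    Nat.Coprime.pow_right k ((Nat.Prime.coprime_iff_not_dvd Nat.prime_two).2 hidx).symm
  exact Cfsg.Agent.Lib.Helper7_Class.mem_of_pow_mem_of_coprime _ _ hcop h3 h5

end Cfsg.Agent.S4582
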