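import Cfsg.Statements.S4583
import Mathlib
import Cfsg.Agent.Lib.Helper2_BlockThird
import Cfsg.Agent.Lib.Helper2_BlockDefect
import Cfsg.Agent.Lib.Helper2_BlockFMT
import Cfsg.Agent.Lib.helper8_Defect


set_option autoImplicit false
open Cfsg

namespace Cfsg.Agent.S4583

open Cfsg Cfsg.Agent.Lib.Helper2_BlockLocal Cfsg.Agent.Lib.Helper2_BlockOm
  Cfsg.Agent.Lib.Helper2_BlockOsima Cfsg.Agent.Lib.Helper2_BlockBasic
  Cfsg.Agent.Lib.Helper2_BlockInd Cfsg.Agent.Lib.Helper2_BlockThird Cfsg.Agent.Lib.Helper2_BlockQuot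
  Cfsg.Agent.Lib.CharBasic Cfsg.Agent.Lib.CharOrtho
  Cfsg.Agent.Lib.CharComplete Cfsg.Agent.Lib.CharIntegral Cfsg.Agent.Lib.CharMore
  Cfsg.Agent.Lib.CharInd
open scoped ComplexConjugate Pointwise

/-- a `p`-regular element of `N P` lies in `N` -/
lemma mem_of_regular {G : Type*} [Group G] [Finite G] (N : Subgroup G) [N.Normal] (p : ℕ)
    [Fact p.Prime] (P : Subgroup G) (hP : IsPGroup p P) {h : G} (hh : h ∈ N ⊔ P)
    (hreg : ¬ p ∣ orderOf h) : h ∈ N := by
  have hp : p.Prime := Fact.out
  have h1 : h ∈ ((N : Set G) * (P : Set G)) := by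
    rw [← Subgroup.normal_mul]; exact hh
  obtain ⟨n, hn, y, hy, rfl⟩ := h1
  have h2 : (QuotientGroup.mk (n * y) : G ⧸ N) = QuotientGroup.mk y := by
    rw [QuotientGroup.mk_mul, (QuotientGroup.eq_one_iff n).2 hn, one_mul]
  obtain ⟨k, hk⟩ := hP.exists_orderOf_eq_pow ⟨y, hy⟩
  rw [Subgroup.orderOf_mk] at hk
  have h3 : orderOf (QuotientGroup.mk y : G ⧸ N) ∣ p ^ k := by
    rw [← hk]; exact orderOf_map_dvd (QuotientGroup.mk' N) y
  have h4 : orderOf (QuotientGroup.mk y : G ⧸ N) ∣ orderOf (n * y) := by
    rw [← h2]; exact orderOf_map_dvd (QuotientGroup.mk' N) (n * y)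
  have h5 : (orderOf (n * y)).Coprime (p ^ k) :=
    Nat.Coprime.pow_right _ ((Nat.Prime.coprime_iff_not_dvd hp).2 hreg).symm
  have h6 : orderOf (QuotientGroup.mk y : G ⧸ N) = 1 :=
    Nat.eq_one_of_dvd_coprimes h5 h4 h3
  rw [orderOf_eq_one_iff, QuotientGroup.eq_one_iff] at h6
  exact N.mul_mem hn h6

/-- Let N be a normal subgroup of the finite group G, p a prime, M a maximal ideal of the algebraic integers containing p, and P a Sylow p-subgroup of G. Let θ be an irreducible character of N of degree prime to p lying in the principal p-block of N, and suppose θ extends to the subgroup NP (some irreducible character of NP restricts to θ). Then some irreducible character χ of G of degree prime to p in the principal p-block of G lies over θ (θ is a constituent of the restriction of χ to N). -/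
theorem result {G : Type*} [Group G] [Finite G] (N : Subgroup G) [N.Normal] (p : ℕ) [Fact p.Prime] (M : Ideal Cfsg.AlgInt) (hM : Cfsg.IsPModular p M) (P : Sylow p G)
    (θ : Cfsg.IrrCharacter N) (hθ : θ ∈ Cfsg.principalBlock M N) (hdeg : ¬ p ∣ Cfsg.charDegree (θ : N → ℂ))
    (hext : ∃ η : Cfsg.IrrCharacter ↥(N ⊔ (P : Subgroup G)), ∀ n : N, (η : ↥(N ⊔ (P : Subgroup G)) → ℂ) (Subgroup.inclusion le_sup_left n) = (θ : N → ℂ) n) :
    ∃ χ : Cfsg.IrrCharacter G, χ ∈ Cfsg.principalBlock M G ∧ ¬ p ∣ Cfsg.charDegree (χ : G → ℂ) ∧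
      haveI := Fintype.ofFinite N; Cfsg.classInner (fun n : N => (χ : G → ℂ) n) (θ : N → ℂ) ≠ 0 := by
  classical
  haveI : Fintype G := Fintype.ofFinite G
  letI : Fintype N := Fintype.ofFinite N
  have hPr := isPrime_of_modular hM
  have hp : p.Prime := Fact.out
  set H := N ⊔ (P : Subgroup G) with hH
  obtain ⟨η, hη⟩ := hext
  haveI : Fintype H := Fintype.ofFinite H
  by_contra hcon
  push Not at hcon
  have hη1 : (η : H → ℂ) 1 = (θ : N → ℂ) 1 := by
    have := hη 1
    rw [map_one] at this
    exact this
  obtain ⟨hd0, hd1, -⟩ := Cfsg.Agent.Lib.helper8_Defect.irr_charDegree θ.2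
  -- the left hand side
  have hL : Om (fun h : H => reg p G (h : G)) (η : H → ℂ) = Om (reg p N) (θ : N → ℂ) := by
    unfold Om
    rw [hη1]
    congr 1
    symm
    apply Fintype.sum_of_injective (Subgroup.inclusion (le_sup_left : N ≤ H))
      (Subgroup.inclusion_injective _)
    · intro h hh
      have hreg : reg p G (h : G) = 0 := by
        unfold reg
        rw [if_pos]
        by_contra hnd
        apply hh
        exact ⟨⟨(h : G), mem_of_regular N p (P : Subgroup G) P.2 h.2 hnd⟩, rfl⟩
      beta_reduce
      rw [hreg, zero_mul]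
    · intro n
      beta_reduce
      rw [hη n, ← reg_coe N n]
      rfl
  have hLunit : ¬ MemLocalIdeal M (Om (fun h : H => reg p G (h : G)) (η : H → ℂ)) := by
    rw [hL]
    have h1 := Om_congr hPr (reg_classFunction (p := p) (G := N)) (reg_ring hPr)
      (irr_classFunction θ) (irr_classFunction (oneIrr N))
      (sameBlock_of_mem hPr (principalBlock_isPBlock M N) hθ (oneIrr_mem_principal hPr N))
    apply not_ideal_of_sub hPr h1
    rw [Om_oneIrr]
    exact not_ideal_sum_reg hM
  have hLring : MemLocalRing M (Om (fun h : H => reg p G (h : G)) (η : H → ℂ)) :=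
    Om_ring hPr (restrict_classFunction H reg_classFunction) (fun _ => reg_ring hPr _) η.2
  -- the identity
  have hidx : ¬ p ∣ H.index := fun hd =>
    P.not_dvd_index (hd.trans (Subgroup.index_dvd_of_le (le_sup_right : (P : Subgroup G) ≤ H)))
  have hkey : Om (fun h : H => reg p G (h : G)) (η : H → ℂ) *
      ((H.index * charDegree (θ : N → ℂ) : ℕ) : ℂ) =
      ∑ χ : IrrCharacter G, classInner (indFun H (η : H → ℂ)) (χ : G → ℂ) *
        ((χ : G → ℂ) 1 * Om (reg p G) (χ : G → ℂ)) := by
    rw [← Cfsg.Agent.Lib.Helper2_BlockDefect.Om_ind H reg_classFunction,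
      ← sum_mul_classFunction _ _ (indFun_isClassFunction H _)]
    unfold Om
    rw [indFun_one, hη1, hd1]
    have h0 : ((H.index : ℂ) * (charDegree (θ : N → ℂ) : ℂ)) ≠ 0 := by
      apply mul_ne_zero
      · exact_mod_cast Subgroup.index_ne_zero_of_finite
      · exact_mod_cast hd0.ne'
    push_cast
    rw [div_mul_cancel₀ _ h0]
  have hR : MemLocalIdeal M (∑ χ : IrrCharacter G,
      classInner (indFun H (η : H → ℂ)) (χ : G → ℂ) *
        ((χ : G → ℂ) 1 * Om (reg p G) (χ : G → ℂ))) := by
    refine ideal_sum hPr _ _ fun χ _ => ?_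
    have hχc := isCharacter_of_isIrr χ.2
    by_cases hχB : χ ∈ principalBlock M G
    · by_cases hm : classInner (indFun H (η : H → ℂ)) (χ : G → ℂ) = 0
      · rw [hm, zero_mul]; exact ideal_zero hPr
      · -- χ lies over θ
        have hover : classInner (fun n : N => (χ : G → ℂ) n) (θ : N → ℂ) ≠ 0 := by
          choose m hm' using fun ξ : IrrCharacter H =>
            classInner_char_nat (isCharacter_restrict H hχc) (isCharacter_of_isIrr ξ.2)
          choose k hk using fun ξ : IrrCharacter H =>
            classInner_char_nat (isCharacter_comp (Subgroup.inclusion (le_sup_left : N ≤ H))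
              (isCharacter_of_isIrr ξ.2)) (isCharacter_of_isIrr θ.2)
          have hexp := char_expansion (isCharacter_restrict H hχc)
          have e1 : (fun n : N => (χ : G → ℂ) n) = ∑ ξ : IrrCharacter H, (m ξ : ℂ) •
              ((ξ : H → ℂ) ∘ (Subgroup.inclusion (le_sup_left : N ≤ H))) := by
            funext n
            have := congrFun hexp (Subgroup.inclusion (le_sup_left : N ≤ H) n)
            rw [Finset.sum_apply] at this ⊢
            have e0 : (χ : G → ℂ) ((Subgroup.inclusion (le_sup_left : N ≤ H) n : H) : G) =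
                (χ : G → ℂ) n := rfl
            rw [← e0, this]
            refine Finset.sum_congr rfl fun ξ _ => ?_
            simp only [Pi.smul_apply, smul_eq_mul, Function.comp_apply, hm']
          rw [e1, classInner_sum_left]
          simp only [classInner_smul_left]
          have e2 : ∀ ξ : IrrCharacter H, classInner ((ξ : H → ℂ) ∘
              (Subgroup.inclusion (le_sup_left : N ≤ H))) (θ : N → ℂ) = (k ξ : ℂ) := hk
          simp only [e2]
          have hmη : m η ≠ 0 := by
            intro h0
            apply hm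
            rw [frobenius_reciprocity H _ _ (isClassFunction_of_isCharacter hχc),
              ← classInner_conj_symm, hm' η, h0]
            simp
          have hkη : k η = 1 := by
            have e3 : ((η : H → ℂ) ∘ (Subgroup.inclusion (le_sup_left : N ≤ H))) = (θ : N → ℂ) :=
              funext hη
            have := hk η
            rw [e3, classInner_irr_self θ.2] at this
            exact_mod_cast this.symm
          have e4 : (∑ ξ : IrrCharacter H, (m ξ : ℂ) * (k ξ : ℂ)) =
              ((∑ ξ : IrrCharacter H, m ξ * k ξ : ℕ) : ℂ) := by push_cast; rfl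
          rw [e4]
          have e5 : 0 < ∑ ξ : IrrCharacter H, m ξ * k ξ := by
            apply Finset.sum_pos' (fun _ _ => Nat.zero_le _)
            exact ⟨η, Finset.mem_univ _, by rw [hkη, mul_one]; exact Nat.pos_of_ne_zero hmη⟩
          exact_mod_cast e5.ne'
        have hdvd : p ∣ charDegree (χ : G → ℂ) := by
          by_contra hnd
          exact hover (hcon χ hχB hnd)
        obtain ⟨-, hχ1, -⟩ := Cfsg.Agent.Lib.helper8_Defect.irr_charDegree χ.2
        obtain ⟨j, hj⟩ := classInner_char_nat (isCharacter_indFun H _ (isCharacter_of_isIrr η.2)) hχc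
        rw [hj, hχ1]
        apply ideal_mul_left hPr (ring_natCast hPr j)
        apply ideal_mul_right hPr ((ideal_natCast_iff hM _).2 hdvd)
        exact Om_ring hPr reg_classFunction (reg_ring hPr) χ.2
    · have h0 : Om (reg p G) (χ : G → ℂ) = 0 := by
        unfold Om
        rw [sum_reg_eq_zero hM (B := blockOf M (χ : G → ℂ)) ⟨χ, rfl⟩ ?_ (self_mem_blockOf hPr χ),
          zero_div]
        intro h1
        apply hχB
        have h2 : blockOf M (χ : G → ℂ) = principalBlock M G :=
          Cfsg.Agent.Lib.Helper2_BlockFMT.block_eq_of_mem hPr ⟨χ, rfl⟩ (principalBlock_isPBlock M G) h1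
            (oneIrr_mem_principal hPr G)
        rw [← h2]
        exact self_mem_blockOf hPr χ
      rw [h0, mul_zero, mul_zero]
      exact ideal_zero hPr
  rw [← hkey] at hR
  rcases ideal_mul_mem hPr hLring (ring_natCast hPr _) hR with h | h
  · exact hLunit h
  · rw [ideal_natCast_iff hM] at h
    rcases (Nat.Prime.dvd_mul hp).1 h with h | h
    · exact hidx h
    · exact hdeg h

end Cfsg.Agent.S4583
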