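import Cfsg.Statements.S4593
import Cfsg.Agent.Lib.Helper1_AutSyl
import Cfsg.Agent.Lib.Helper4_Core

set_option autoImplicit false
open Cfsg

namespace Cfsg.Agent.S4593

open Subgroup SemidirectProduct

/-- Let G be a finite group with trivial centre and no nontrivial normal subgroup of odd order, whose Sylow 2-subgroups are abelian, and let P be a Sylow 2-subgroup. Every automorphism of G of 2-power order that fixes P elementwise is inner. -/
theorem result {G : Type*} [Group G] [Finite G] (hZ : Subgroup.center G = ⊥) (hcore : Cfsg.pPrimeCore 2 G = ⊥) (P : Sylow 2 G) (hab : IsMulCommutative (P : Subgroup G))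
    (α : MulAut G) (h2 : ∃ j : ℕ, orderOf α = 2 ^ j) (hfix : ∀ x ∈ (P : Subgroup G), α x = x) :
    ∃ g : G, ∀ x : G, α x = g * x * g⁻¹ := by
  classical
  obtain ⟨j, hj⟩ := h2
  let φ : ↥(zpowers α) →* MulAut G := (zpowers α).subtype
  -- every power of `α` fixes `P` pointwise
  have hfix' : ∀ β : ↥(zpowers α), ∀ x ∈ (P : Subgroup G), φ β x = x := by
    intro β x hx
    obtain ⟨i, hi⟩ := mem_zpowers_iff.1 β.2
    have hfixi : ∀ i : ℤ, (α ^ i) x = x := by
      intro i
      induction i using Int.induction_on with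
      | zero => simp
      | succ i ih => rw [zpow_add_one, MulAut.mul_apply, hfix x hx, ih]
      | pred i ih =>
        rw [zpow_sub_one, MulAut.mul_apply]
        have : α⁻¹ x = x := by
          have h0 : α⁻¹ (α x) = x := MulAut.inv_apply_self G α x
          rwa [hfix x hx] at h0
        rw [this, ih]
    show (β : MulAut G) x = x
    rw [← hi]; exact hfixi i
  have hcz : ∀ a b : ↥(zpowers α), a * b = b * a := by
    intro a b
    obtain ⟨i, hi⟩ := mem_zpowers_iff.1 a.2
    obtain ⟨k, hk⟩ := mem_zpowers_iff.1 b.2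
    apply Subtype.ext
    show (a : MulAut G) * b = b * a
    rw [← hi, ← hk, ← zpow_add, ← zpow_add, add_comm]
  let Γ := G ⋊[φ] ↥(zpowers α)
  haveI : Finite Γ := Finite.of_equiv _ (SemidirectProduct.equivProd (φ := φ)).symm
  let G' : Subgroup Γ := (inl : G →* Γ).range
  have hG' : G' = (rightHom : Γ →* ↥(zpowers α)).ker := range_inl_eq_ker_rightHom
  haveI : G'.Normal := by rw [hG']; infer_instance
  have hidx : ∃ k : ℕ, G'.index = 2 ^ k := by
    refine ⟨j, ?_⟩
    rw [hG', Subgroup.index_ker, MonoidHom.range_eq_top.2 rightHom_surjective, Subgroup.card_top,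
      Nat.card_zpowers, hj]
  have hcomm : ∀ a b : Γ, a * b * a⁻¹ * b⁻¹ ∈ G' := by
    intro a b
    rw [hG', MonoidHom.mem_ker]
    rw [map_mul, map_mul, map_mul, map_inv, map_inv]
    rw [hcz (rightHom a) (rightHom b), mul_inv_cancel_right, mul_inv_cancel]
  -- the Sylow subgroup
  let T0 : Subgroup Γ :=
    { carrier := {γ | γ.left ∈ (P : Subgroup G)}
      one_mem' := by simp
      mul_mem' := by
        intro a b ha hb
        show (a * b).left ∈ (P : Subgroup G)
        rw [mul_left, hfix' _ _ hb]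
        exact mul_mem ha hb
      inv_mem' := by
        intro a ha
        show (a⁻¹).left ∈ (P : Subgroup G)
        rw [inv_left, hfix' _ _ (inv_mem ha)]
        exact inv_mem ha }
  have hT0mem : ∀ γ : Γ, γ ∈ T0 ↔ γ.left ∈ (P : Subgroup G) := fun _ => Iff.rfl
  have hT0card : Nat.card T0 = Nat.card (P : Subgroup G) * 2 ^ j := by
    rw [← hj, ← Nat.card_zpowers, ← Nat.card_prod]
    refine Nat.card_congr
      { toFun := fun γ => (⟨γ.1.left, γ.2⟩, γ.1.right)
        invFun := fun q => ⟨⟨q.1.1, q.2⟩, q.1.2⟩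
        left_inv := fun γ => rfl
        right_inv := fun q => rfl }
  obtain ⟨a, ha⟩ := P.2.exists_card_eq
  have hT0p : IsPGroup 2 T0 := IsPGroup.of_card (n := a + j) (by rw [hT0card, ha, pow_add])
  have hT0idx : ¬ 2 ∣ T0.index := by
    have h1 := T0.index_mul_card
    have h2 : Nat.card Γ = Nat.card G * 2 ^ j := by
      rw [← hj, ← Nat.card_zpowers]; exact SemidirectProduct.card
    have h3 := (P : Subgroup G).index_mul_card
    rw [h2, hT0card, ← h3, ← mul_assoc] at h1
    have h4 : T0.index = (P : Subgroup G).index := by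
      have hpos : 0 < Nat.card (P : Subgroup G) * 2 ^ j := Nat.mul_pos Nat.card_pos (by positivity)
      rw [mul_assoc, mul_assoc] at h1
      exact Nat.eq_of_mul_eq_mul_right hpos h1
    rw [h4]; exact P.not_dvd_index
  let T : Sylow 2 Γ := hT0p.toSylow hT0idx
  have hTc : IsMulCommutative (T : Subgroup Γ) := by
    refine ⟨⟨fun x y => Subtype.ext ?_⟩⟩
    have hx : x.1.left ∈ (P : Subgroup G) := x.2
    have hy : y.1.left ∈ (P : Subgroup G) := y.2
    show x.1 * y.1 = y.1 * x.1
    apply SemidirectProduct.ext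
    · rw [mul_left, mul_left, hfix' _ _ hy, hfix' _ _ hx]
      exact congrArg Subtype.val (hab.is_comm.comm ⟨_, hx⟩ ⟨_, hy⟩)
    · rw [mul_right, mul_right]; exact hcz _ _
  have hO : ∀ N : Subgroup Γ, N ≤ G' → (∀ g ∈ G', ∀ x ∈ N, g * x * g⁻¹ ∈ N) → Odd (Nat.card N) →
      N = ⊥ := by
    intro N hNG hNn hNodd
    have hn : (N.comap (inl : G →* Γ)).Normal := by
      refine ⟨fun x hx g => ?_⟩
      show inl (g * x * g⁻¹) ∈ N
      rw [map_mul, map_mul, map_inv]
      exact hNn _ ⟨g, rfl⟩ _ hx
    have hodd : Odd (Nat.card (N.comap (inl : G →* Γ))) := by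
      let f : ↥(N.comap (inl : G →* Γ)) →* N :=
        ((inl : G →* Γ).comp (N.comap (inl : G →* Γ)).subtype).codRestrict N (fun x => x.2)
      have hf : Function.Injective f := by
        intro x y hxy
        have h2 : (inl (x : G) : Γ) = inl (y : G) := congrArg Subtype.val hxy
        exact Subtype.ext (inl_injective h2)
      exact Odd.of_dvd_nat hNodd (Subgroup.card_dvd_of_injective f hf)
    have hle := Cfsg.Agent.Lib.Helper4_Core.le_pPrimeCore hn hodd.coprime_two_right
    rw [hcore] at hle
    rw [eq_bot_iff]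
    intro y hy
    obtain ⟨g, rfl⟩ := hNG hy
    have : g ∈ (⊥ : Subgroup G) := hle hy
    rw [mem_bot] at this
    rw [this, map_one]; exact one_mem _
  have hZ' : ∀ x ∈ G', (∀ g ∈ G', g * x = x * g) → x = 1 := by
    rintro _ ⟨x, rfl⟩ hx
    have : x ∈ center G := by
      rw [mem_center_iff]
      intro g
      have := hx _ ⟨g, rfl⟩
      rw [← map_mul, ← map_mul] at this
      exact inl_injective this
    rw [hZ, mem_bot] at this
    rw [this, map_one]
  obtain ⟨_, ⟨g, rfl⟩, hg⟩ := Cfsg.Agent.Lib.Helper1_AutSyl.main G' hidx hcomm T hTc hO hZ'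
    (inr ⟨α, mem_zpowers α⟩)
  refine ⟨g, fun x => ?_⟩
  have h1 := congrArg SemidirectProduct.left (hg (inl x) ⟨x, rfl⟩)
  rw [SemidirectProduct.mul_left, SemidirectProduct.mul_left, SemidirectProduct.mul_left,
    SemidirectProduct.mul_left, SemidirectProduct.mul_right, SemidirectProduct.inv_left,
    SemidirectProduct.inv_right] at h1
  simp only [SemidirectProduct.left_inl, SemidirectProduct.left_inr, SemidirectProduct.right_inl,
    SemidirectProduct.right_inr, map_one, mul_one, one_mul, inv_one, MulAut.one_apply] at h1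
  have h2 : g⁻¹ * α x = x * g⁻¹ := h1
  calc α x = g * (g⁻¹ * α x) := by group
    _ = g * x * g⁻¹ := by rw [h2, mul_assoc]

end Cfsg.Agent.S4593
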