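import Cfsg.Statements.S4602
import Cfsg.Agent.Lib.Helper4_PSol2
import Cfsg.Agent.Lib.Helper4_Alperin

set_option autoImplicit false
open Cfsg

namespace Cfsg.Agent.S4602

open Subgroup Cfsg.Agent.Lib.Helper4_Core Cfsg.Agent.Lib.Helper4_PSol Cfsg.Agent.Lib.Helper4_PSol2 Cfsg.Agent.Lib.Helper4_Syl in
theorem aux {G : Type*} [Group G] [Finite G] (p q : ℕ) [hp : Fact p.Prime] [hq : Fact q.Prime] (hpq : p ≠ q) (hsolv : Cfsg.IsPSolvable p G) :
    (∃ (P : Sylow p G) (Q : Sylow q G), (P : Subgroup G) ≤ Subgroup.normalizer ((Q : Subgroup G) : Set G)) ↔ ¬ q ∣ (Cfsg.pPrimeCore p G).index := by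
  set K := Cfsg.pPrimeCore p G with hK
  set π := QuotientGroup.mk' K with hπ
  have hπs : Function.Surjective π := QuotientGroup.mk'_surjective K
  constructor
  · rintro ⟨P, Q, hPQ⟩
    have hc := hall_higman (isPSolvable_of_surjective hp.out π hπs hsolv)
      (Cfsg.Agent.Lib.Helper3_PComp.pPrimeCore_quotient_eq_bot p G)
    set Hb := Cfsg.pCore p (G ⧸ K) with hHb
    have hHn : Hb.Normal := inferInstance
    have hHP : Hb ≤ (P : Subgroup G).map π := by
      have := pCore_le_sylow (P.mapSurjective hπs)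
      rwa [Sylow.coe_mapSurjective] at this
    have hdisj : Hb ⊓ (Q : Subgroup G).map π = ⊥ := by
      have h1 : IsPGroup p Hb := pCore_isPGroup p _
      have h2 : IsPGroup q ((Q : Subgroup G).map π) := Q.2.map π
      exact disjoint_iff.1 (IsPGroup.disjoint_of_ne p q hpq _ _ h1 h2)
    have hQC : (Q : Subgroup G).map π ≤ centralizer (Hb : Set (G ⧸ K)) := by
      rintro _ ⟨x, hx, rfl⟩
      rw [Subgroup.mem_centralizer_iff]
      intro h hh
      obtain ⟨u, hu, rfl⟩ := hHP hh
      have h1 : π u * π x * (π u)⁻¹ * (π x)⁻¹ ∈ Hb := by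
        have := Hb.mul_mem hh (hHn.conj_mem _ (Hb.inv_mem hh) (π x))
        simpa [mul_assoc] using this
      have h2 : π u * π x * (π u)⁻¹ * (π x)⁻¹ ∈ (Q : Subgroup G).map π := by
        refine ⟨u * x * u⁻¹ * x⁻¹, ?_, by simp⟩
        exact (Q : Subgroup G).mul_mem (conj_mem_of_mem_normalizer (hPQ hu) hx)
          ((Q : Subgroup G).inv_mem hx)
      have h3 : π u * π x * (π u)⁻¹ * (π x)⁻¹ ∈ Hb ⊓ (Q : Subgroup G).map π := ⟨h1, h2⟩
      rw [hdisj, Subgroup.mem_bot] at h3
      calc π u * π x = (π u * π x * (π u)⁻¹ * (π x)⁻¹) * (π x * π u) := by group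
        _ = π x * π u := by rw [h3, one_mul]
    have hQb : (Q : Subgroup G).map π = ⊥ := by
      rw [eq_bot_iff, ← hdisj]
      exact le_inf (hQC.trans hc) le_rfl
    rw [Subgroup.map_eq_bot_iff, QuotientGroup.ker_mk'] at hQb
    intro hdvd
    exact Q.not_dvd_index (hdvd.trans (Subgroup.index_dvd_of_le hQb))
  · intro hnd
    obtain ⟨Q⟩ : Nonempty (Sylow q G) := inferInstance
    have hQK : (Q : Subgroup G) ≤ K := by
      intro x hx
      obtain ⟨k, hk⟩ := Q.2 ⟨x, hx⟩
      have hk' : x ^ q ^ k = 1 := by simpa using congrArg Subtype.val hk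
      have h1 : x ^ q ^ k ∈ K := by rw [hk']; exact K.one_mem
      have h2 : x ^ K.index ∈ K := Subgroup.pow_index_mem K x
      exact mem_of_pow_mem_coprime h1 h2
        (Nat.Coprime.pow_left k ((Nat.Prime.coprime_iff_not_dvd hq.out).2 hnd))
    set M := normalizer ((Q : Subgroup G) : Set G) with hM
    have hfr : M ⊔ K = ⊤ := Sylow.normalizer_sup_eq_top' Q hQK
    have e1 : K.relIndex M = K.index := by
      rw [← Subgroup.relIndex_sup_right, hfr, Subgroup.relIndex_top_right]
    have e2 : Nat.card (K ⊓ M : Subgroup G) * K.relIndex M = Nat.card M := by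
      have := Subgroup.relIndex_mul_relIndex ⊥ (K ⊓ M) M bot_le inf_le_right
      rwa [Subgroup.relIndex_bot_left, Subgroup.relIndex_bot_left, Subgroup.inf_relIndex_right] at this
    have e3 : Nat.card M * M.index = Nat.card K * K.index := by
      rw [Subgroup.card_mul_index, Subgroup.card_mul_index]
    have e4 : Nat.card (K ⊓ M : Subgroup G) * M.index = Nat.card K := by
      rw [← e2, e1] at e3
      have h0 : 0 < K.index := Nat.pos_of_ne_zero Subgroup.index_ne_zero_of_finite
      nlinarith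
    have hMi : ¬ p ∣ M.index := by
      intro hd
      have h1 : p ∣ Nat.card K := by rw [← e4]; exact hd.mul_left _
      have h2 : (Nat.card K).Coprime p := pPrimeCore_coprime p
      exact hp.out.one_lt.ne' (Nat.Coprime.eq_one_of_dvd h2.symm h1)
    obtain ⟨P₁, hP₁⟩ := exists_isSylIn (p := p) M
    have h5 : ¬ p ∣ P₁.relIndex M :=
      (Cfsg.Agent.Lib.Helper4_Alperin.isSylIn_iff_relIndex hP₁.1 hP₁.2.1).1 hP₁
    have h6 : ¬ p ∣ P₁.index := by
      rw [← Subgroup.relIndex_mul_index hP₁.1]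
      intro hd
      rcases (Nat.Prime.dvd_mul hp.out).1 hd with h | h
      · exact h5 h
      · exact hMi h
    refine ⟨hP₁.2.1.toSylow h6, Q, ?_⟩
    rw [IsPGroup.toSylow_coe]
    exact hP₁.1

/-- Let G be a finite p-solvable group and q a prime different from p. Some Sylow p-subgroup of G normalizes some Sylow q-subgroup of G if and only if q does not divide the order of G/O_{p'}(G), the quotient by the largest normal subgroup of order prime to p. -/
theorem result {G : Type*} [Group G] [Finite G] (p q : ℕ) [Fact p.Prime] [Fact q.Prime] (hpq : p ≠ q) (hsolv : Cfsg.IsPSolvable p G) :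
    (∃ (P : Sylow p G) (Q : Sylow q G), (P : Subgroup G) ≤ Subgroup.normalizer ((Q : Subgroup G) : Set G)) ↔ ¬ q ∣ (Cfsg.pPrimeCore p G).index := by
  exact aux p q hpq hsolv

end Cfsg.Agent.S4602
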