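import Cfsg.Statements.S4604
import Mathlib
import Cfsg.Agent.Lib.helper8_Section
import Cfsg.Agent.Lib.helper8_ModP


set_option autoImplicit false
open Cfsg

namespace Cfsg.Agent.S4604

open Cfsg.Agent.Lib.CharBasic Cfsg.Agent.Lib.CharComplete

/-- A natural number that is `p` times an algebraic integer is divisible by `p`. -/
lemma dvd_of_eq_mul_algInt {p n : ℕ} (hp : p.Prime) (γ : Cfsg.AlgInt) (h : (n : ℂ) = (p : ℂ) * (γ : ℂ)) :
    p ∣ n := by
  have hp0 : (p : ℂ) ≠ 0 := by exact_mod_cast hp.ne_zero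
  have h1 : IsIntegral ℤ (((n : ℚ) / (p : ℚ) : ℚ) : ℂ) := by
    have : (((n : ℚ) / (p : ℚ) : ℚ) : ℂ) = (γ : ℂ) := by
      push_cast
      rw [h]; field_simp
    rw [this]; exact γ.2
  obtain ⟨z, hz⟩ := Cfsg.Agent.Lib.helper8_Brauer2.int_of_rat_integral h1
  have h2 : (n : ℂ) = (p : ℂ) * (z : ℂ) := by
    rw [← hz]; push_cast; field_simp
  have h3 : (n : ℤ) = (p : ℤ) * z := by exact_mod_cast h2
  exact Int.natCast_dvd_natCast.1 ⟨z, h3⟩

/-- `p` is not a unit in the ring of algebraic integers. -/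
lemma natCast_mem_nonunits {p : ℕ} (hp : p.Prime) : (p : Cfsg.AlgInt) ∈ nonunits Cfsg.AlgInt := by
  intro hu
  obtain ⟨w, hw⟩ := hu.exists_right_inv
  have h : ((1 : ℕ) : ℂ) = (p : ℂ) * (w : ℂ) := by
    have := congrArg (fun z : Cfsg.AlgInt => (z : ℂ)) hw
    simp only [MulMemClass.coe_mul] at this
    rw [Nat.cast_one]
    rw [← (show ((p : Cfsg.AlgInt) : ℂ) = (p : ℂ) from by simp), this]
    rfl
  exact hp.one_lt.ne' (Nat.dvd_one.1 (dvd_of_eq_mul_algInt hp w h))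

/-- Frobenius congruence for character values. -/
lemma char_pow_sub {G : Type*} [Group G] [Finite G] (p : ℕ) [hp : Fact p.Prime] {χ : G → ℂ}
    (hχ : Cfsg.IsCharacter G χ) (g : G) (e : ℕ) :
    ∃ γ : Cfsg.AlgInt, χ g ^ (p ^ e) - χ (g ^ (p ^ e)) = (p : ℂ) * (γ : ℂ) := by
  obtain ⟨n, μ, hμ, hk⟩ := Cfsg.Agent.Lib.helper8_ModP.exists_eigen_pow hχ g
  have hint : ∀ i, IsIntegral ℤ (μ i) := fun i =>
    IsIntegral.of_pow (orderOf_pos g) (by rw [hμ i]; exact isIntegral_one)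
  let ν : Fin n → Cfsg.AlgInt := fun i => ⟨μ i, hint i⟩
  let I : Ideal Cfsg.AlgInt := Ideal.span {(p : Cfsg.AlgInt)}
  have hchar : CharP (Cfsg.AlgInt ⧸ I) p := CharP.quotient Cfsg.AlgInt p (natCast_mem_nonunits hp.out)
  have h1 : Ideal.Quotient.mk I ((∑ i, ν i) ^ (p ^ e) - ∑ i, (ν i) ^ (p ^ e)) = 0 := by
    rw [map_sub, map_pow, map_sum, map_sum, sum_pow_char_pow]
    simp only [map_pow]
    rw [sub_self]
  rw [Ideal.Quotient.eq_zero_iff_mem, Ideal.mem_span_singleton] at h1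
  obtain ⟨γ, hγ⟩ := h1
  refine ⟨γ, ?_⟩
  have h2 := hk 1
  rw [pow_one] at h2
  rw [h2, hk (p ^ e)]
  have := congrArg (fun z : Cfsg.AlgInt => (z : ℂ)) hγ
  simp only [MulMemClass.coe_mul] at this
  rw [show ((p : Cfsg.AlgInt) : ℂ) = (p : ℂ) from by simp] at this
  rw [← this]
  simp [ν]

/-- Let G be a finite group, p a prime and p^a the p-part of the order of G. Let x, y ∈ G and let x′, y′ be their p-regular parts: x′ has order prime to p, commutes with x·x′⁻¹, and x·x′⁻¹ has p-power order (likewise for y). Then x′ and y′ are conjugate in G if and only if for every irreducible character χ of G the algebraic integer χ(x)^(p^a) − χ(y)^(p^a) is p times an algebraic integer. -/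
theorem result {G : Type*} [Group G] [Finite G] (p : ℕ) [Fact p.Prime] (x y x' y' : G)
    (hx : (∃ k : ℕ, orderOf (x * x'⁻¹) = p ^ k) ∧ Commute (x * x'⁻¹) x' ∧ ¬ p ∣ orderOf x')
    (hy : (∃ k : ℕ, orderOf (y * y'⁻¹) = p ^ k) ∧ Commute (y * y'⁻¹) y' ∧ ¬ p ∣ orderOf y') :
    IsConj x' y' ↔ ∀ χ : Cfsg.IrrCharacter G, ∃ γ : Cfsg.AlgInt,
      (χ : G → ℂ) x ^ (p ^ (Nat.card G).factorization p) - (χ : G → ℂ) y ^ (p ^ (Nat.card G).factorization p) = (p : ℂ) * (γ : ℂ) := by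
  classical
  have := Fintype.ofFinite G
  have hp : p.Prime := Fact.out
  set N := Nat.card G with hN
  set e := N.factorization p with he
  set q := p ^ e with hq
  have hN0 : N ≠ 0 := Nat.card_pos.ne'
  obtain ⟨n, hn⟩ : q ∣ N := Nat.ordProj_dvd N p
  have hcop : q.Coprime n := by
    have h1 : n = N / p ^ e := by
      rw [hn]; exact (Nat.mul_div_cancel_left _ (pow_pos hp.pos e)).symm
    rw [h1]
    exact Nat.Coprime.pow_left _ (Nat.coprime_ordCompl hp hN0)
  obtain ⟨a, ha0, ha1⟩ := Cfsg.Agent.Lib.helper8_Section.exists_crt hcop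
  obtain ⟨c, hc⟩ : q ∣ a := (Nat.modEq_zero_iff_dvd).1 ha0
  -- facts on the decomposition
  have hdec : ∀ z z' : G, ((∃ k : ℕ, orderOf (z * z'⁻¹) = p ^ k) ∧ Commute (z * z'⁻¹) z' ∧
      ¬ p ∣ orderOf z') → z ^ q = z' ^ q ∧ (z' ^ q) ^ c = z' ∧ (z' ^ q) ^ a = z' ^ q := by
    rintro z z' ⟨⟨k, hk⟩, hcm, hnd⟩
    have h1 : (z * z'⁻¹) ^ q = 1 := by
      rw [← orderOf_dvd_iff_pow_eq_one, hk]
      have h2 : p ^ k ∣ N := hk ▸ orderOf_dvd_natCard _
      exact pow_dvd_pow p ((hp.pow_dvd_iff_le_factorization hN0).1 h2)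
    have h3 : z = (z * z'⁻¹) * z' := by group
    have hord : orderOf z' ∣ n := by
      have h4 : orderOf z' ∣ q * n := hn ▸ orderOf_dvd_natCard z'
      exact Nat.Coprime.dvd_of_dvd_mul_left
        (Nat.Coprime.pow_right _ ((Nat.Prime.coprime_iff_not_dvd hp).2 hnd).symm) h4
    have h5 : z' ^ a = z' := by
      have : z' ^ a = z' ^ 1 := by
        rw [pow_eq_pow_iff_modEq]
        exact ha1.of_dvd hord
      rwa [pow_one] at this
    refine ⟨?_, ?_, ?_⟩
    · conv_lhs => rw [h3]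
      rw [hcm.mul_pow, h1, one_mul]
    · rw [← pow_mul, ← hc, h5]
    · rw [← pow_mul, mul_comm, pow_mul, h5]
  obtain ⟨hx1, hx2, hx3⟩ := hdec x x' hx
  obtain ⟨hy1, hy2, hy3⟩ := hdec y y' hy
  constructor
  · intro hconj χ
    have hχ := isCharacter_of_isIrr χ.2
    obtain ⟨γ₁, h1⟩ := char_pow_sub p hχ x e
    obtain ⟨γ₂, h2⟩ := char_pow_sub p hχ y e
    have h3 : (χ : G → ℂ) (x ^ q) = (χ : G → ℂ) (y ^ q) := by
      rw [hx1, hy1]
      obtain ⟨t, rfl⟩ := isConj_iff.1 hconj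
      rw [conj_pow]
      exact (isClassFunction_of_isCharacter hχ _ t).symm
    refine ⟨γ₁ - γ₂, ?_⟩
    push_cast
    rw [mul_sub, ← h1, ← h2, h3]
    ring
  · intro hall
    have hall' : ∀ χ : Cfsg.IrrCharacter G, ∃ γ : Cfsg.AlgInt,
        (χ : G → ℂ) (x' ^ q) - (χ : G → ℂ) (y' ^ q) = (p : ℂ) * (γ : ℂ) := by
      intro χ
      have hχ := isCharacter_of_isIrr χ.2
      obtain ⟨γ₁, h1⟩ := char_pow_sub p hχ x e
      obtain ⟨γ₂, h2⟩ := char_pow_sub p hχ y e
      obtain ⟨γ, h3⟩ := hall χ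
      refine ⟨γ - γ₁ + γ₂, ?_⟩
      push_cast
      rw [mul_add, mul_sub, ← h1, ← h2, ← h3, hx1, hy1]
      ring
    choose γ hγ using hall'
    have huv : IsConj (x' ^ q) (y' ^ q) := by
      by_contra hne
      set θ : G → ℂ := fun z : G => if IsConj (z ^ a) (x' ^ q) then (n : ℂ) else 0 with hθ
      have hθc : Cfsg.IsClassFunction G θ := by
        intro z t
        have h1 : (t * z * t⁻¹) ^ a = t * z ^ a * t⁻¹ := conj_pow
        have h2 : IsConj (t * z ^ a * t⁻¹) (x' ^ q) ↔ IsConj (z ^ a) (x' ^ q) := by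
          have h3 : IsConj (z ^ a) (t * z ^ a * t⁻¹) := isConj_iff.mpr ⟨t, rfl⟩
          exact ⟨fun h => h3.trans h, fun h => h3.symm.trans h⟩
        simp only [hθ, h1, h2]
      have hexp := classFunction_expansion θ hθc
      have hint : ∀ χ : Cfsg.IrrCharacter G, IsIntegral ℤ (Cfsg.classInner θ (χ : G → ℂ)) := fun χ =>
        Cfsg.Agent.Lib.helper8_Section.section_integral hcop hn ha0 ha1 (x' ^ q)
          (isCharacter_of_isIrr χ.2)
      have hu : θ (x' ^ q) = n := by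
        simp only [hθ, hx3]
        rw [if_pos (IsConj.refl _)]
      have hv : θ (y' ^ q) = 0 := by
        simp only [hθ, hy3]
        rw [if_neg (fun h => hne h.symm)]
      have h1 : (n : ℂ) = (p : ℂ) * ((∑ χ : Cfsg.IrrCharacter G,
          (⟨_, hint χ⟩ : Cfsg.AlgInt) * γ χ : Cfsg.AlgInt) : ℂ) := by
        have e1 : θ (x' ^ q) - θ (y' ^ q) = ∑ χ : Cfsg.IrrCharacter G,
            Cfsg.classInner θ (χ : G → ℂ) * ((χ : G → ℂ) (x' ^ q) - (χ : G → ℂ) (y' ^ q)) := by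
          conv_lhs => rw [hexp]
          simp only [Finset.sum_apply, Pi.smul_apply, smul_eq_mul]
          rw [← Finset.sum_sub_distrib]
          refine Finset.sum_congr rfl fun χ _ => ?_
          ring
        rw [hu, hv, sub_zero] at e1
        rw [e1]
        push_cast
        rw [Finset.mul_sum]
        refine Finset.sum_congr rfl fun χ _ => ?_
        rw [hγ χ]
        ring
      have h2 := dvd_of_eq_mul_algInt hp _ h1
      have h3 : p ∣ q := by
        by_cases he0 : e = 0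
        · exfalso
          -- q = 1 : then x' ^ q etc.; p ∣ n ∣ N contradicts e = 0
          have : p ∣ N := hn ▸ (h2.mul_left q)
          have h4 := (hp.dvd_iff_one_le_factorization hN0).1 this
          omega
        · exact dvd_pow_self p he0
      exact hp.one_lt.ne' (Nat.dvd_one.1 (hcop ▸ Nat.dvd_gcd h3 h2))
    rw [← hx2, ← hy2]
    obtain ⟨t, ht⟩ := isConj_iff.1 huv
    rw [← ht, conj_pow]
    exact isConj_iff.2 ⟨t, rfl⟩

end Cfsg.Agent.S4604
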