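import Cfsg.Statements.S4611
import Cfsg.Agent.Lib.PSolvBasic

set_option autoImplicit false
open Cfsg

namespace Cfsg.Agent.S4611

/-- Let G be a finite solvable group and π a nonempty set of primes, each dividing the order of G; fix for each p in π a maximal ideal M p of the algebraic integers containing p. Then the only irreducible character lying in the principal p-block for every p in π is the principal character if and only if G is generated by the subgroups O_{p'}(G), p in π (the largest normal subgroups of order prime to p). -/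
theorem result {G : Type*} [Group G] [Finite G] [Group.IsSolvable G] (π : Set ℕ) (hπ : ∀ p ∈ π, p.Prime ∧ p ∣ Nat.card G) (hne : π.Nonempty) (M : ℕ → Ideal Cfsg.AlgInt) (hM : ∀ p ∈ π, Cfsg.IsPModular p (M p)) :
    (∀ χ : Cfsg.IrrCharacter G, (∀ p ∈ π, χ ∈ Cfsg.principalBlock (M p) G) → (χ : G → ℂ) = fun _ => 1) ↔
      ⨆ p ∈ π, Cfsg.pPrimeCore p G = ⊤ := by
  classical
  cases nonempty_fintype G
  have hmem : ∀ p ∈ π, ∀ χ : Cfsg.IrrCharacter G, χ ∈ Cfsg.principalBlock (M p) G ↔
      ∀ n ∈ Cfsg.pPrimeCore p G, (χ : G → ℂ) n = (χ : G → ℂ) 1 := by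
    intro p hp χ
    haveI : Fact p.Prime := ⟨(hπ p hp).1⟩
    exact Cfsg.Agent.Lib.PSolvBasic.mem_principalBlock_iff (hM p hp)
      (Cfsg.Agent.Lib.PSolvBasic.isPSolvable_of_isSolvable (hπ p hp).1 G) χ
  set K : Subgroup G := ⨆ p ∈ π, Cfsg.pPrimeCore p G with hK
  have hKn : K.Normal := by
    rw [hK]
    exact Subgroup.biSup_normal π _ (fun p _ => inferInstance)
  have hle : ∀ p ∈ π, Cfsg.pPrimeCore p G ≤ K := by
    intro p hp
    exact le_iSup₂_of_le p hp le_rfl
  constructor
  · intro h
    by_contra hne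
    obtain ⟨g, hg⟩ : ∃ g : G, g ∉ K := by
      by_contra hc
      push Not at hc
      exact hne (eq_top_iff.2 fun x _ => hc x)
    have hq : ¬ IsConj (QuotientGroup.mk g : G ⧸ K) 1 := by
      intro hc
      rw [isConj_one_left, QuotientGroup.eq_one_iff] at hc
      exact hg hc
    rw [Cfsg.Agent.Lib.CharComplete.isConj_iff_forall_irr] at hq
    push Not at hq
    obtain ⟨χ', hχ'⟩ := hq
    have hirr := Cfsg.Agent.Lib.CharQuot.isIrr_inflate K χ'.2
    have h1 := h ⟨_, hirr⟩ (by
      intro p hp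
      rw [hmem p hp]
      intro n hn
      show (χ' : G ⧸ K → ℂ) (QuotientGroup.mk n) = (χ' : G ⧸ K → ℂ) (QuotientGroup.mk 1)
      rw [(QuotientGroup.eq_one_iff n).2 (hle p hp hn)]
      rfl)
    apply hχ'
    have h2 := congrFun h1 g
    have h3 := congrFun h1 1
    exact h2.trans h3.symm
  · intro hT χ hχ
    have hker : K ≤ Cfsg.Agent.Lib.CharQuot.charKer (χ : G → ℂ)
        (Cfsg.Agent.Lib.CharBasic.isCharacter_of_isIrr χ.2) := by
      rw [hK]
      apply iSup₂_le
      intro p hp n hn
      exact (hmem p hp χ).1 (hχ p hp) n hn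
    have hall : ∀ g : G, (χ : G → ℂ) g = (χ : G → ℂ) 1 := by
      intro g
      exact hker (hT ▸ Subgroup.mem_top g)
    obtain ⟨d0, d1, d2⟩ := Cfsg.Agent.Lib.helper8_Defect.irr_charDegree χ.2
    have h1 := Cfsg.Agent.Lib.CharOrtho.classInner_irr_self χ.2
    unfold Cfsg.classInner at h1
    simp only [hall, d1, map_natCast, Finset.sum_const, Finset.card_univ, nsmul_eq_mul,
      ← Nat.card_eq_fintype_card] at h1
    have hG : (Nat.card G : ℂ) ≠ 0 := by exact_mod_cast Nat.card_pos.ne'
    rw [← mul_assoc, inv_mul_cancel₀ hG, one_mul] at h1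
    have h2 : Cfsg.charDegree (χ : G → ℂ) * Cfsg.charDegree (χ : G → ℂ) = 1 := by exact_mod_cast h1
    have h3 : Cfsg.charDegree (χ : G → ℂ) = 1 := Nat.eq_one_of_mul_eq_one_right h2
    funext g
    rw [hall g, d1, h3, Nat.cast_one]

end Cfsg.Agent.S4611
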