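import Cfsg.Statements.S4742
import Cfsg.Agent.Lib.helper8_Defect

set_option autoImplicit false
open Cfsg

namespace Cfsg.Agent.S4742

/-- Let p ≠ q be primes dividing the order of the finite group G, and suppose the centralizer of every non-identity p-element of G has order prime to q. Then either G has an irreducible character of p-defect zero, or for every non-identity q-element z of G there are conjugates g, h of z such that g h⁻¹ is a non-identity p-element. -/
theorem result {G : Type*} [Group G] [Finite G] (p q : ℕ) [Fact p.Prime] [Fact q.Prime] (hppq : p ≠ q) (hpG : p ∣ Nat.card G) (hqG : q ∣ Nat.card G) (hC : ∀ g : G, g ≠ 1 → (∃ k : ℕ, orderOf g = p ^ k) → ¬ q ∣ Nat.card ↥(Subgroup.centralizer ({g} : Set G))) : (∃ χ : Cfsg.IrrCharacter G, (Cfsg.charDegree (χ : G → ℂ)).factorization p = (Nat.card G).factorization p) ∨ ∀ z : G, z ≠ 1 → (∃ k : ℕ, orderOf z = q ^ k) → ∃ g h : G, IsConj z g ∧ IsConj z h ∧ g * h⁻¹ ≠ 1 ∧ ∃ k : ℕ, orderOf (g * h⁻¹) = p ^ k := by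
  by_contra hcon
  push Not at hcon
  obtain ⟨h1, z, hz1, ⟨k, hzk⟩, hz⟩ := hcon
  have hp : p.Prime := Fact.out
  have hq : q.Prime := Fact.out
  obtain ⟨P⟩ : Nonempty (Sylow p G) := inferInstance
  have hPc : Nat.card (P : Subgroup G) = p ^ (Nat.card G).factorization p := P.card_eq_multiplicity
  -- the centralizer of z has order prime to p
  have hCz : (Nat.card (Subgroup.centralizer ({z} : Set G))).factorization p = 0 := by
    apply Nat.factorization_eq_zero_of_not_dvd
    intro hdvd
    obtain ⟨y, hy⟩ := exists_prime_orderOf_dvd_card' p hdvd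
    have hy' : orderOf (y : G) = p := by rw [Subgroup.orderOf_coe]; exact hy
    have hy1 : (y : G) ≠ 1 := by
      intro h
      rw [h, orderOf_one] at hy'
      exact hp.one_lt.ne hy'
    apply hC (y : G) hy1 ⟨1, by rw [hy', pow_one]⟩
    have hzmem : z ∈ Subgroup.centralizer ({(y : G)} : Set G) := by
      rw [Subgroup.mem_centralizer_singleton_iff]
      have := y.2
      rw [Subgroup.mem_centralizer_singleton_iff] at this
      exact this.symm
    have hk0 : k ≠ 0 := by
      intro h0
      rw [h0, pow_zero, orderOf_eq_one_iff] at hzk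
      exact hz1 hzk
    have h3 : orderOf z ∣ Nat.card (Subgroup.centralizer ({(y : G)} : Set G)) := by
      have := orderOf_dvd_natCard (⟨z, hzmem⟩ : Subgroup.centralizer ({(y : G)} : Set G))
      rwa [← Subgroup.orderOf_coe] at this
    exact (dvd_pow_self q hk0).trans (hzk ▸ h3)
  obtain ⟨χ, hχ⟩ := Cfsg.Agent.Lib.helper8_Defect.exists_degree_dvd p z (P : Subgroup G) _ hPc (by
    intro u v hmem
    by_contra hne
    have h2 := hz (u * z * u⁻¹) (v * z * v⁻¹) (isConj_iff.2 ⟨u, rfl⟩) (isConj_iff.2 ⟨v, rfl⟩)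
    have h3 : (v * z * v⁻¹)⁻¹ = v * z⁻¹ * v⁻¹ := by group
    rw [h3] at h2
    obtain ⟨j, hj⟩ := (P.2.exists_orderOf_eq_pow ⟨_, hmem⟩ : _)
    exact h2 hne j (by rw [← hj, Subgroup.orderOf_mk]))
  rw [hCz, Nat.sub_zero] at hχ
  apply h1 χ
  obtain ⟨h0, -, h5⟩ := Cfsg.Agent.Lib.helper8_Defect.irr_charDegree χ.2
  apply le_antisymm
  · exact (Nat.factorization_le_iff_dvd h0.ne' Nat.card_pos.ne').2 h5 p
  · exact (hp.pow_dvd_iff_le_factorization h0.ne').1 hχ

end Cfsg.Agent.S4742
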