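import Cfsg.Statements.S4743
import Mathlib
import Cfsg.Agent.S4742


set_option autoImplicit false
open Cfsg

namespace Cfsg.Agent.S4743

/-- A normal subgroup whose order is divisible by `q` has order divisible by `p`, under the
conclusion of the conjugates dichotomy. -/
lemma dvd_card_normal {G : Type*} [Group G] [Finite G] (p q : ℕ) [Fact p.Prime] [Fact q.Prime]
    (h : ∀ z : G, z ≠ 1 → (∃ k : ℕ, orderOf z = q ^ k) → ∃ g h : G, IsConj z g ∧ IsConj z h ∧
      g * h⁻¹ ≠ 1 ∧ ∃ k : ℕ, orderOf (g * h⁻¹) = p ^ k)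
    (K : Subgroup G) (hK : K.Normal) (hq : q ∣ Nat.card K) : p ∣ Nat.card K := by
  have hqp : q.Prime := Fact.out
  obtain ⟨z, hz⟩ := exists_prime_orderOf_dvd_card' q hq
  have hz' : orderOf (z : G) = q := by rw [Subgroup.orderOf_coe]; exact hz
  have hz1 : (z : G) ≠ 1 := by
    intro h
    rw [h, orderOf_one] at hz'
    exact hqp.one_lt.ne hz'
  obtain ⟨g, h', hg, hh, hne, k, hk⟩ := h z hz1 ⟨1, by rw [hz', pow_one]⟩
  obtain ⟨c, rfl⟩ := isConj_iff.1 hg
  obtain ⟨d, rfl⟩ := isConj_iff.1 hh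
  have hmem : c * (z : G) * c⁻¹ * (d * (z : G) * d⁻¹)⁻¹ ∈ K :=
    mul_mem (hK.conj_mem _ z.2 c) (inv_mem (hK.conj_mem _ z.2 d))
  have hk0 : k ≠ 0 := by
    intro h0
    rw [h0, pow_zero, orderOf_eq_one_iff] at hk
    exact hne hk
  have h3 : orderOf (c * (z : G) * c⁻¹ * (d * (z : G) * d⁻¹)⁻¹) ∣ Nat.card K := by
    have := orderOf_dvd_natCard (⟨_, hmem⟩ : K)
    rwa [← Subgroup.orderOf_coe] at this
  exact (dvd_pow_self p hk0).trans (hk ▸ h3)

/-- In a `p`-solvable group of order divisible by `p`, some normal subgroup has order divisible by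
exactly one of `p`, `q`. -/
lemma exists_normal_one {G : Type*} [Group G] [Finite G] (p q : ℕ) [Fact p.Prime] [Fact q.Prime]
    (hpq : p ≠ q) (hpG : p ∣ Nat.card G) (hs : Cfsg.IsPSolvable p G) :
    ∃ K : Subgroup G, K.Normal ∧ ((p ∣ Nat.card K ∧ ¬ q ∣ Nat.card K) ∨
      (q ∣ Nat.card K ∧ ¬ p ∣ Nat.card K)) := by
  have hp : p.Prime := Fact.out
  have hq : q.Prime := Fact.out
  obtain ⟨n, H, h0, hlast, hmono, hnorm, hstep⟩ := hs
  by_contra hcon
  push Not at hcon
  -- all terms have order prime to p and q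
  have key : ∀ i : ℕ, ∀ hi : i < n + 1, ¬ p ∣ Nat.card (H ⟨i, hi⟩) ∧ ¬ q ∣ Nat.card (H ⟨i, hi⟩) := by
    intro i
    induction i with
    | zero =>
      intro hi
      have : H ⟨0, hi⟩ = ⊥ := h0
      rw [this, Subgroup.card_bot]
      exact ⟨hp.one_lt.ne' ∘ Nat.dvd_one.1, hq.one_lt.ne' ∘ Nat.dvd_one.1⟩
    | succ i ih =>
      intro hi
      have hi' : i < n := by omega
      obtain ⟨ihp, ihq⟩ := ih (by omega)
      have hle : H ⟨i, by omega⟩ ≤ H ⟨i + 1, hi⟩ := hmono (by
        rw [Fin.le_def]; simp)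
      have hcard : Nat.card (H ⟨i + 1, hi⟩) =
          (H ⟨i, by omega⟩).relIndex (H ⟨i + 1, hi⟩) * Nat.card (H ⟨i, by omega⟩) := by
        have := Subgroup.relIndex_mul_relIndex ⊥ (H ⟨i, by omega⟩) (H ⟨i + 1, hi⟩) bot_le hle
        rw [Subgroup.relIndex_bot_left, Subgroup.relIndex_bot_left] at this
        rw [← this, mul_comm]
      have hst := hstep ⟨i, hi'⟩
      have e1 : (⟨i, hi'⟩ : Fin n).castSucc = ⟨i, by omega⟩ := rfl
      have e2 : (⟨i, hi'⟩ : Fin n).succ = ⟨i + 1, hi⟩ := rfl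
      rw [e1, e2] at hst
      have hK := hcon (H ⟨i + 1, hi⟩) (hnorm _)
      rcases hst with ⟨m, hm⟩ | hcop
      · -- q does not divide
        have hnq : ¬ q ∣ Nat.card (H ⟨i + 1, hi⟩) := by
          rw [hcard, hm]
          intro hd
          rcases (Nat.Prime.dvd_mul hq).1 hd with h | h
          · exact hpq ((Nat.prime_dvd_prime_iff_eq hq hp).1 (hq.dvd_of_dvd_pow h)).symm
          · exact ihq h
        refine ⟨fun hd => hnq (hK.1 hd), hnq⟩
      · have hnp : ¬ p ∣ Nat.card (H ⟨i + 1, hi⟩) := by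
          rw [hcard]
          intro hd
          rcases (Nat.Prime.dvd_mul hp).1 hd with h | h
          · exact (Nat.Prime.coprime_iff_not_dvd hp).1 hcop.symm h
          · exact ihp h
        refine ⟨hnp, fun hd => hnp (hK.2 hd)⟩
  have := (key n (by omega)).1
  have e : (⟨n, by omega⟩ : Fin (n + 1)) = Fin.last n := rfl
  rw [e, hlast, Subgroup.card_top] at this
  exact this hpG

/-- Let p ≠ q be primes dividing the order of the finite group G, suppose the centralizer of every non-identity p-element has order prime to q, and suppose G is p-solvable or q-solvable. Then G has an irreducible character of p-defect zero or an irreducible character of q-defect zero. -/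
theorem result {G : Type*} [Group G] [Finite G] (p q : ℕ) [Fact p.Prime] [Fact q.Prime] (hppq : p ≠ q) (hpG : p ∣ Nat.card G) (hqG : q ∣ Nat.card G) (hC : ∀ g : G, g ≠ 1 → (∃ k : ℕ, orderOf g = p ^ k) → ¬ q ∣ Nat.card ↥(Subgroup.centralizer ({g} : Set G))) (hsolv : Cfsg.IsPSolvable p G ∨ Cfsg.IsPSolvable q G) : (∃ χ : Cfsg.IrrCharacter G, (Cfsg.charDegree (χ : G → ℂ)).factorization p = (Nat.card G).factorization p) ∨ (∃ χ : Cfsg.IrrCharacter G, (Cfsg.charDegree (χ : G → ℂ)).factorization q = (Nat.card G).factorization q) := by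
  classical
  by_contra hcon
  push Not at hcon
  obtain ⟨h1, h2⟩ := hcon
  have hp : p.Prime := Fact.out
  have hq : q.Prime := Fact.out
  -- the symmetric centralizer hypothesis
  have hC' : ∀ g : G, g ≠ 1 → (∃ k : ℕ, orderOf g = q ^ k) →
      ¬ p ∣ Nat.card ↥(Subgroup.centralizer ({g} : Set G)) := by
    intro g hg1 ⟨k, hk⟩ hdvd
    obtain ⟨y, hy⟩ := exists_prime_orderOf_dvd_card' p hdvd
    have hy' : orderOf (y : G) = p := by rw [Subgroup.orderOf_coe]; exact hy
    have hy1 : (y : G) ≠ 1 := by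
      intro h
      rw [h, orderOf_one] at hy'
      exact hp.one_lt.ne hy'
    apply hC (y : G) hy1 ⟨1, by rw [hy', pow_one]⟩
    have hzmem : g ∈ Subgroup.centralizer ({(y : G)} : Set G) := by
      rw [Subgroup.mem_centralizer_singleton_iff]
      have := y.2
      rw [Subgroup.mem_centralizer_singleton_iff] at this
      exact this.symm
    have hk0 : k ≠ 0 := by
      intro h0
      rw [h0, pow_zero, orderOf_eq_one_iff] at hk
      exact hg1 hk
    have h3 : orderOf g ∣ Nat.card (Subgroup.centralizer ({(y : G)} : Set G)) := by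
      have := orderOf_dvd_natCard (⟨g, hzmem⟩ : Subgroup.centralizer ({(y : G)} : Set G))
      rwa [← Subgroup.orderOf_coe] at this
    exact (dvd_pow_self q hk0).trans (hk ▸ h3)
  have hA := (Cfsg.Agent.S4742.result p q hppq hpG hqG hC).resolve_left
    (by rintro ⟨χ, h⟩; exact h1 χ h)
  have hB := (Cfsg.Agent.S4742.result q p hppq.symm hqG hpG hC').resolve_left
    (by rintro ⟨χ, h⟩; exact h2 χ h)
  have hfin : ∀ K : Subgroup G, K.Normal → ¬ ((p ∣ Nat.card K ∧ ¬ q ∣ Nat.card K) ∨
      (q ∣ Nat.card K ∧ ¬ p ∣ Nat.card K)) := by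
    intro K hK hor
    rcases hor with ⟨ha, hb⟩ | ⟨ha, hb⟩
    · exact hb (dvd_card_normal q p hB K hK ha)
    · exact hb (dvd_card_normal p q hA K hK ha)
  rcases hsolv with hs | hs
  · obtain ⟨K, hK, hor⟩ := exists_normal_one p q hppq hpG hs
    exact hfin K hK hor
  · obtain ⟨K, hK, hor⟩ := exists_normal_one q p hppq.symm hqG hs
    exact hfin K hK hor.symm

end Cfsg.Agent.S4743
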