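import Cfsg.Statements.S4746
import Mathlib
import Cfsg.Agent.Lib.Helper2_InvSyl


set_option autoImplicit false
open Cfsg

namespace Cfsg.Agent.S4746

open Cfsg.Agent.Lib.Helper2_InvSyl

/-- Let p be an odd prime and G a finite group of even order divisible by p in which the centralizer of every non-identity p-element has odd order. Then G has an irreducible character of p-defect zero or an irreducible character of even degree. -/
theorem result {G : Type*} [Group G] [Finite G] (p : ℕ) [Fact p.Prime] (hp2 : p ≠ 2) (hpG : p ∣ Nat.card G) (h2G : 2 ∣ Nat.card G) (hC : ∀ g : G, g ≠ 1 → (∃ k : ℕ, orderOf g = p ^ k) → Odd (Nat.card ↥(Subgroup.centralizer ({g} : Set G)))) : (∃ χ : Cfsg.IrrCharacter G, (Cfsg.charDegree (χ : G → ℂ)).factorization p = (Nat.card G).factorization p) ∨ ∃ χ : Cfsg.IrrCharacter G, Even (Cfsg.charDegree (χ : G → ℂ)) := by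
  classical
  by_contra hcon
  push Not at hcon
  obtain ⟨h1, h2⟩ := hcon
  have hdz : ¬ ∃ χ : Cfsg.IrrCharacter G,
      (Cfsg.charDegree (χ : G → ℂ)).factorization p = (Nat.card G).factorization p := by
    rintro ⟨χ, h⟩
    exact h1 χ h
  have hp : p.Prime := Fact.out
  have : Fact (Nat.Prime 2) := ⟨Nat.prime_two⟩
  obtain ⟨x, hx⟩ := exists_prime_orderOf_dvd_card' 2 h2G
  obtain ⟨y, hy⟩ := exists_prime_orderOf_dvd_card' p hpG
  have hyp : IsPGroup p (Subgroup.zpowers y) :=
    IsPGroup.of_card (n := 1) (by rw [Nat.card_zpowers, hy, pow_one])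
  obtain ⟨P, hP⟩ := hyp.exists_le_sylow
  obtain ⟨g, -, hg⟩ := exists_conj_inverts p hC hdz x hx P
  have hy1 : y ≠ 1 := by
    intro h
    rw [h, orderOf_one] at hy
    exact hp.one_lt.ne hy
  have hreal : IsConj y y⁻¹ := isConj_iff.2 ⟨g, hg y (hP (Subgroup.mem_zpowers y))⟩
  have heven := even_centralizer_of_real (fun χ => Nat.not_even_iff_odd.1 (h2 χ)) y hy1 hreal
  exact (Nat.not_even_iff_odd.2 (hC y hy1 ⟨1, by rw [hy, pow_one]⟩)) heven

end Cfsg.Agent.S4746
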