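import Cfsg.Statements.S4754
import Cfsg.Agent.Lib.CharCount

set_option autoImplicit false
open Cfsg Cfsg.Agent.Lib.CharBasic Cfsg.Agent.Lib.CharOrtho Cfsg.Agent.Lib.CharComplete Cfsg.Agent.Lib.CharMore

namespace Cfsg.Agent.S4754

/-- For elements x, y of a finite group G, the conjugacy class of x y equals the set of all products of a conjugate of x with a conjugate of y if and only if χ(1) χ(a x a⁻¹ b y b⁻¹) = χ(x) χ(y) for all a, b ∈ G and every irreducible character χ. -/
theorem result {G : Type*} [Group G] [Finite G] (x y : G) : (∀ z : G, IsConj (x * y) z ↔ ∃ a b : G, z = a * x * a⁻¹ * (b * y * b⁻¹)) ↔ ∀ (a b : G) (χ : Cfsg.IrrCharacter G), (χ : G → ℂ) 1 * (χ : G → ℂ) (a * x * a⁻¹ * (b * y * b⁻¹)) = (χ : G → ℂ) x * (χ : G → ℂ) y := by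
  classical
  have := Fintype.ofFinite G
  have hG : (Nat.card G : ℂ) ≠ 0 := by exact_mod_cast Nat.card_pos.ne'
  constructor
  · intro h a b χ
    have hconst : ∀ u : G, (χ : G → ℂ) (u * x * u⁻¹ * y) = (χ : G → ℂ) (x * y) := by
      intro u
      have h1 : IsConj (x * y) (u * x * u⁻¹ * y) := (h _).mpr ⟨u, 1, by simp⟩
      exact ((isConj_iff_forall_irr _ _).mp h1 χ).symm
    have h2 := irr_sum_conj_mul χ x y
    simp only [hconst, Finset.sum_const, Finset.card_univ, nsmul_eq_mul,
      ← Nat.card_eq_fintype_card] at h2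
    have h3 : (χ : G → ℂ) (a * x * a⁻¹ * (b * y * b⁻¹)) = (χ : G → ℂ) (x * y) :=
      ((isConj_iff_forall_irr _ _).mp ((h _).mpr ⟨a, b, rfl⟩) χ).symm
    rw [h3]
    apply mul_left_cancel₀ hG
    linear_combination h2
  · intro h z
    constructor
    · intro hc
      obtain ⟨c, hc⟩ := isConj_iff.mp hc
      exact ⟨c, c, by rw [← hc]; group⟩
    · rintro ⟨a, b, rfl⟩
      rw [isConj_iff_forall_irr]
      intro χ
      have h1 := h a b χ
      have h2 := h 1 1 χ
      simp only [one_mul, inv_one, mul_one] at h2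
      exact mul_left_cancel₀ (irr_degree_ne_zero χ.2) (h2.trans h1.symm)

end Cfsg.Agent.S4754
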