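import Cfsg.Statements.S4755
import Cfsg.Agent.Lib.CharCount
import Cfsg.Agent.Lib.CharLinear

set_option autoImplicit false
open Cfsg Cfsg.Agent.Lib.CharBasic Cfsg.Agent.Lib.CharOrtho Cfsg.Agent.Lib.CharComplete Cfsg.Agent.Lib.CharMore
open scoped commutatorElement

namespace Cfsg.Agent.S4755

/-- Let x, y be non-identity elements of the finite group G such that χ(x' y') = χ(x') χ(y') for all conjugates x' of x, y' of y and every irreducible character χ. Then the conjugacy class of x y is the set of all products of a conjugate of x with a conjugate of y; every irreducible character of degree greater than 1 vanishes at x y; and the conjugacy class of x y is the coset of the commutator subgroup containing x y. -/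
theorem result {G : Type*} [Group G] [Finite G] (x y : G) (hx : x ≠ 1) (hy : y ≠ 1) (h : ∀ (a b : G) (χ : Cfsg.IrrCharacter G), (χ : G → ℂ) (a * x * a⁻¹ * (b * y * b⁻¹)) = (χ : G → ℂ) (a * x * a⁻¹) * (χ : G → ℂ) (b * y * b⁻¹)) : (∀ z : G, IsConj (x * y) z ↔ ∃ a b : G, z = a * x * a⁻¹ * (b * y * b⁻¹)) ∧ (∀ χ : Cfsg.IrrCharacter G, (χ : G → ℂ) 1 ≠ 1 → (χ : G → ℂ) (x * y) = 0) ∧ (∀ z : G, IsConj (x * y) z ↔ (x * y)⁻¹ * z ∈ commutator G) := by
  classical
  have := Fintype.ofFinite G
  have hG : (Nat.card G : ℂ) ≠ 0 := by exact_mod_cast Nat.card_pos.ne'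
  have hcl : ∀ (χ : IrrCharacter G) (g c : G), (χ : G → ℂ) (c * g * c⁻¹) = (χ : G → ℂ) g :=
    fun χ g c => isClassFunction_of_isCharacter (isCharacter_of_isIrr χ.2) g c
  have h' : ∀ (a b : G) (χ : IrrCharacter G),
      (χ : G → ℂ) (a * x * a⁻¹ * (b * y * b⁻¹)) = (χ : G → ℂ) x * (χ : G → ℂ) y := by
    intro a b χ
    rw [h, hcl, hcl]
  have hxy : ∀ χ : IrrCharacter G, (χ : G → ℂ) (x * y) = (χ : G → ℂ) x * (χ : G → ℂ) y := by
    intro χ
    have := h' 1 1 χ
    simpa using this
  have hnl : ∀ χ : IrrCharacter G, (χ : G → ℂ) 1 ≠ 1 → (χ : G → ℂ) (x * y) = 0 := by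
    intro χ hχ
    have hconst : ∀ u : G, (χ : G → ℂ) (u * x * u⁻¹ * y) = (χ : G → ℂ) (x * y) := by
      intro u
      have := h' u 1 χ
      rw [hxy]
      simpa using this
    have h2 := irr_sum_conj_mul χ x y
    simp only [hconst, Finset.sum_const, Finset.card_univ, nsmul_eq_mul,
      ← Nat.card_eq_fintype_card] at h2
    have h3 : ((χ : G → ℂ) 1 - 1) * (χ : G → ℂ) (x * y) = 0 := by
      apply mul_left_cancel₀ hG
      rw [mul_zero]
      have := hxy χ
      linear_combination h2 - (Nat.card G : ℂ) * this
    rcases mul_eq_zero.mp h3 with h4 | h4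
    · exact absurd (sub_eq_zero.mp h4) hχ
    · exact h4
  refine ⟨?_, hnl, ?_⟩
  · intro z
    constructor
    · intro hc
      obtain ⟨c, hc⟩ := isConj_iff.mp hc
      exact ⟨c, c, by rw [← hc]; group⟩
    · rintro ⟨a, b, rfl⟩
      rw [isConj_iff_forall_irr]
      intro χ
      rw [h', hxy]
  · -- the class of x * y is a coset of the commutator subgroup
    set w := x * y with hw
    have hsub : Finset.univ.filter (IsConj w) ⊆
        Finset.univ.filter (fun z : G => w⁻¹ * z ∈ commutator G) := by
      intro z hz
      simp only [Finset.mem_filter, Finset.mem_univ, true_and] at hz ⊢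
      obtain ⟨c, hc⟩ := isConj_iff.mp hz
      rw [← hc, commutator_def]
      have := Subgroup.commutator_mem_commutator (Subgroup.mem_top w⁻¹) (Subgroup.mem_top c)
      rw [commutatorElement_def] at this
      simpa [mul_assoc] using this
    have hcardT : (Finset.univ.filter (fun z : G => w⁻¹ * z ∈ commutator G)).card =
        Nat.card (commutator G) := by
      rw [Nat.card_eq_fintype_card, ← Fintype.card_subtype]
      apply Fintype.card_congr
      exact
        { toFun := fun z => ⟨w⁻¹ * z.1, z.2⟩
          invFun := fun c => ⟨w * c.1, by simpa using c.2⟩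
          left_inv := fun z => by simp
          right_inv := fun c => by simp }
    have hcent : Nat.card (Subgroup.centralizer ({w} : Set G)) = (commutator G).index := by
      have h1 := second_orthogonality_conj w w (IsConj.refl w)
      have h2 : ∀ χ : IrrCharacter G, (χ : G → ℂ) w * (starRingEnd ℂ) ((χ : G → ℂ) w) =
          if (χ : G → ℂ) 1 = 1 then 1 else 0 := by
        intro χ
        split_ifs with hχ
        · rw [← isCharacter_inv (isCharacter_of_isIrr χ.2),
            ← Cfsg.Agent.Lib.CharLinear.char_mul_of_degree_one (isCharacter_of_isIrr χ.2) hχ,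
            mul_inv_cancel, hχ]
        · rw [hnl χ hχ, zero_mul]
      simp only [h2] at h1
      rw [Finset.sum_ite, Finset.sum_const_zero, add_zero, Finset.sum_const, nsmul_eq_mul,
        mul_one] at h1
      rw [← Cfsg.Agent.Lib.CharLinear.card_linear, Nat.card_eq_fintype_card (α := {χ : IrrCharacter G // _}),
        Fintype.card_subtype]
      exact_mod_cast h1.symm
    have hcardC : (Finset.univ.filter (IsConj w)).card = Nat.card (commutator G) := by
      rw [Cfsg.Agent.Lib.CharIntegral.card_class_eq_index]
      have e1 := Subgroup.card_mul_index (Subgroup.centralizer ({w} : Set G))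
      have e2 := Subgroup.card_mul_index (commutator G)
      rw [hcent] at e1
      have hpos : 0 < (commutator G).index := Nat.pos_of_ne_zero (Subgroup.index_ne_zero_of_finite)
      apply Nat.eq_of_mul_eq_mul_left hpos
      rw [e1, ← e2, mul_comm]
    have heq := Finset.eq_of_subset_of_card_le hsub (by rw [hcardT, hcardC])
    intro z
    have := Finset.ext_iff.mp heq z
    simpa using this

end Cfsg.Agent.S4755
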