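import Cfsg.Statements.S4757
import Cfsg.Agent.Lib.CharLinear
import Cfsg.Agent.Lib.Helper4_Core

set_option autoImplicit false
open Cfsg

namespace Cfsg.Agent.S4757

open Cfsg.Agent.Lib.CharBasic Cfsg.Agent.Lib.CharOrtho Cfsg.Agent.Lib.CharComplete
  Cfsg.Agent.Lib.CharMore Cfsg.Agent.Lib.CharLinear
open scoped ComplexConjugate

universe v

section aux

variable {G : Type v} [Group G] [Finite G]

noncomputable def oneC : IrrCharacter G :=
  ⟨1, by have := Fintype.ofFinite G; exact isIrr_one⟩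

noncomputable def lin (lam : G →* ℂˣ) : IrrCharacter G :=
  ⟨fun g => ((lam g : ℂˣ) : ℂ), isIrr_hom lam⟩

theorem lin_apply (lam : G →* ℂˣ) (g : G) :
    ((lin lam : IrrCharacter G) : G → ℂ) g = ((lam g : ℂˣ) : ℂ) := rfl

theorem oneC_apply (g : G) : ((oneC : IrrCharacter G) : G → ℂ) g = 1 := rfl

theorem lin_one : lin (1 : G →* ℂˣ) = oneC := by
  apply Subtype.ext
  funext g
  simp [lin, oneC]

theorem lin_ne_one {lam : G →* ℂˣ} (h : lam ≠ 1) : lin lam ≠ oneC := by
  intro h2
  apply h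
  ext g
  have := congrFun (congrArg Subtype.val h2) g
  simpa [lin, oneC] using this

theorem col (u : G) (hu : u ≠ 1) :
    ∑ χ : IrrCharacter G, (χ : G → ℂ) u * (χ : G → ℂ) 1 = 0 := by
  have := Fintype.ofFinite G
  have h := second_orthogonality_not_conj u 1 (by
    intro h
    exact hu (isConj_one_left.mp h))
  rw [← h]
  refine Finset.sum_congr rfl fun χ _ => ?_
  obtain ⟨n, _, h1, _⟩ := irr_degree χ.2
  rw [h1, Complex.conj_natCast]

theorem pos_false (u : G) (hu : u ≠ 1)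
    (h : ∀ χ : IrrCharacter G, χ ≠ oneC → 0 ≤ ((χ : G → ℂ) u * (χ : G → ℂ) 1).re) : False := by
  classical
  have h0 := col u hu
  rw [Fintype.sum_eq_add_sum_subtype_ne _ oneC] at h0
  have h1 := congrArg Complex.re h0
  rw [Complex.add_re, Complex.re_sum] at h1
  have h2 : 0 ≤ ∑ i : {χ : IrrCharacter G // χ ≠ oneC},
      (((i : IrrCharacter G) : G → ℂ) u * ((i : IrrCharacter G) : G → ℂ) 1).re :=
    Finset.sum_nonneg fun i _ => h i.1 i.2
  rw [oneC_apply, oneC_apply] at h1
  simp only [mul_one, Complex.one_re, Complex.zero_re] at h1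
  linarith

theorem deg_cases (χ : IrrCharacter G) :
    (∃ lam : G →* ℂˣ, χ = lin lam) ∨ ∃ n : ℕ, 2 ≤ n ∧ (χ : G → ℂ) 1 = n := by
  obtain ⟨n, hn, h1, _⟩ := irr_degree χ.2
  by_cases h : n = 1
  · left
    have h1' : (χ : G → ℂ) 1 = 1 := by rw [h1, h]; simp
    refine ⟨homOfLinear (isCharacter_of_isIrr χ.2) h1', ?_⟩
    apply Subtype.ext
    rfl
  · right
    exact ⟨n, by omega, h1⟩

theorem exists_lam_iff : commutator G ≠ ⊤ ↔ ∃ lam : G →* ℂˣ, lam ≠ 1 := by
  constructor
  · intro h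
    by_contra hno
    push Not at hno
    apply h
    rw [← Subgroup.index_eq_one, ← card_linear, Nat.card_congr linearEquiv]
    have : Subsingleton (G →* ℂˣ) := ⟨fun a b => by rw [hno a, hno b]⟩
    exact Nat.card_unique
  · rintro ⟨lam, hl⟩ h
    apply hl
    have := Abelianization.commutator_subset_ker lam
    rw [h, top_le_iff, MonoidHom.ker_eq_top_iff] at this
    exact this

end aux

section main

variable {G : Type v} [Group G] [Finite G] (u : G) (hu : u ≠ 1) (c : ℂ)
  (hyp : ∀ χ : IrrCharacter G, χ ≠ oneC →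
    ((χ : G → ℂ) 1 - (χ : G → ℂ) u = c ∨ (χ : G → ℂ) u = 0))

include hyp in
theorem lin_val {lam : G →* ℂˣ} (h : lam ≠ 1) : ((lam u : ℂˣ) : ℂ) = 1 - c := by
  rcases hyp (lin lam) (lin_ne_one h) with h1 | h1
  · rw [lin_apply, lin_apply, map_one] at h1
    rw [← h1]; simp
  · rw [lin_apply] at h1
    exact absurd h1 (Units.ne_zero _)

include hu hyp in
theorem c_ne_zero : c ≠ 0 := by
  intro hc
  apply pos_false u hu
  intro χ hχ
  obtain ⟨n, _, h1, _⟩ := irr_degree χ.2
  rcases hyp χ hχ with h | h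
  · have h2 : (χ : G → ℂ) u = n := by rw [hc, h1] at h; linear_combination -h
    rw [h2, h1]
    have h3 : ((n : ℂ) * n) = ((n * n : ℕ) : ℂ) := by push_cast; ring
    rw [h3, Complex.natCast_re]; positivity
  · rw [h]; simp

include hu hyp in
theorem lam_facts {lam : G →* ℂˣ} (h : lam ≠ 1) :
    c = 2 ∧ lam u = -1 ∧ lam ^ 2 = 1 ∧ ∀ mu : G →* ℂˣ, mu = 1 ∨ mu = lam := by
  have hc := c_ne_zero u hu c hyp
  have h1 := lin_val u c hyp h
  have hsq : lam ^ 2 = 1 := by
    by_contra h2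
    have h3 := lin_val u c hyp h2
    have h4 : (((lam ^ 2) u : ℂˣ) : ℂ) = ((lam u : ℂˣ) : ℂ) ^ 2 := by simp
    rw [h4, h1] at h3
    have h5 : (1 - c) ≠ 0 := by rw [← h1]; exact Units.ne_zero _
    apply hc
    have h6 : (1 - c) * (1 - c) = (1 - c) * 1 := by linear_combination h3
    have h7 := mul_left_cancel₀ h5 h6
    linear_combination -h7
  have h6 : ((lam u : ℂˣ) : ℂ) ^ 2 = 1 := by
    have := congrArg (fun f : G →* ℂˣ => ((f u : ℂˣ) : ℂ)) hsq
    simpa using this
  have hc2 : c = 2 := by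
    rw [h1] at h6
    have h7 : c * (c - 2) = 0 := by linear_combination h6
    rcases mul_eq_zero.mp h7 with h | h
    · exact absurd h hc
    · linear_combination h
  have hlu : lam u = -1 := by
    apply Units.ext
    rw [h1, hc2]; norm_num
  refine ⟨hc2, hlu, hsq, ?_⟩
  intro mu
  by_cases hmu : mu = 1
  · left; exact hmu
  right
  by_contra hne
  have h7 : mu * lam ≠ 1 := by
    intro h8
    apply hne
    have h9 : mu * lam = lam * lam := by rw [h8, ← hsq, pow_two]
    exact mul_right_cancel h9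
  have h8 := lin_val u c hyp h7
  have h9 := lin_val u c hyp hmu
  have h10 : (((mu * lam) u : ℂˣ) : ℂ) = ((mu u : ℂˣ) : ℂ) * ((lam u : ℂˣ) : ℂ) := by simp
  rw [h10, h9, h1, hc2] at h8
  norm_num at h8

include hyp in
theorem term_nonneg (hc : c = 2) {χ : IrrCharacter G} (hχ : χ ≠ oneC) {n : ℕ} (hn : 2 ≤ n)
    (h1 : (χ : G → ℂ) 1 = n) :
    0 ≤ ((χ : G → ℂ) u * (χ : G → ℂ) 1).re ∧
      (((χ : G → ℂ) u * (χ : G → ℂ) 1).re = 0 → (χ : G → ℂ) u = 0) := by
  rcases hyp χ hχ with h | h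
  · obtain ⟨k, rfl⟩ : ∃ k, n = k + 2 := ⟨n - 2, by omega⟩
    have h2 : (χ : G → ℂ) u = k := by
      rw [hc, h1] at h; push_cast at h; linear_combination -h
    have h3 : (χ : G → ℂ) u * (χ : G → ℂ) 1 = ((k * (k + 2) : ℕ) : ℂ) := by
      rw [h2, h1]; push_cast; ring
    rw [h3, Complex.natCast_re]
    refine ⟨by positivity, fun h4 => ?_⟩
    have h5 : k * (k + 2) = 0 := by exact_mod_cast h4
    have h6 : k = 0 := by
      rcases Nat.mul_eq_zero.mp h5 with h | h
      · exact h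
      · omega
    rw [h2, h6]; simp
  · rw [h]; simp

include hu hyp in
theorem exists_of_two (hc : c = 2) : ∃ lam : G →* ℂˣ, lam ≠ 1 := by
  by_contra hno
  push Not at hno
  apply pos_false u hu
  intro χ hχ
  rcases deg_cases χ with ⟨lam, rfl⟩ | ⟨n, hn, h1⟩
  · exfalso; apply hχ; rw [hno lam]; exact lin_one
  · exact (term_nonneg u c hyp hc hχ hn h1).1

include hu hyp in
theorem vanish {lam : G →* ℂˣ} (h : lam ≠ 1) (χ : IrrCharacter G) (h1 : χ ≠ oneC)
    (h2 : χ ≠ lin lam) : (χ : G → ℂ) u = 0 := by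
  classical
  obtain ⟨hc, hlu, hsq, hall⟩ := lam_facts u hu c hyp h
  have h0 := congrArg Complex.re (col u hu)
  rw [Complex.re_sum, ← Finset.sum_add_sum_compl ({oneC, lin lam} : Finset (IrrCharacter G)),
    Finset.sum_pair (lin_ne_one h).symm] at h0
  have e1 : (((oneC : IrrCharacter G) : G → ℂ) u * ((oneC : IrrCharacter G) : G → ℂ) 1).re = 1 := by
    simp [oneC_apply]
  have e2 : (((lin lam : IrrCharacter G) : G → ℂ) u *
      ((lin lam : IrrCharacter G) : G → ℂ) 1).re = -1 := by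
    rw [lin_apply, lin_apply, hlu]; simp
  rw [e1, e2] at h0
  have hdeg : ∀ ψ ∈ ({oneC, lin lam} : Finset (IrrCharacter G))ᶜ,
      ψ ≠ oneC ∧ ∃ n : ℕ, 2 ≤ n ∧ (ψ : G → ℂ) 1 = n := by
    intro ψ hψ
    simp only [Finset.mem_compl, Finset.mem_insert, Finset.mem_singleton, not_or] at hψ
    refine ⟨hψ.1, ?_⟩
    rcases deg_cases ψ with ⟨mu, rfl⟩ | h
    · exfalso
      rcases hall mu with rfl | rfl
      · exact hψ.1 lin_one
      · exact hψ.2 rfl
    · exact h
  have h3 : ∑ ψ ∈ ({oneC, lin lam} : Finset (IrrCharacter G))ᶜ,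
      ((ψ : G → ℂ) u * (ψ : G → ℂ) 1).re = 0 := by
    rw [Complex.zero_re] at h0
    linarith
  rw [Finset.sum_eq_zero_iff_of_nonneg] at h3
  · have hm : χ ∈ ({oneC, lin lam} : Finset (IrrCharacter G))ᶜ := by simp [h1, h2]
    obtain ⟨hne, n, hn, hd⟩ := hdeg χ hm
    exact (term_nonneg u c hyp hc hne hn hd).2 (h3 χ hm)
  · intro ψ hψ
    obtain ⟨hne, n, hn, hd⟩ := hdeg ψ hψ
    exact (term_nonneg u c hyp hc hne hn hd).1

include hu hyp in
theorem card_cent {lam : G →* ℂˣ} (h : lam ≠ 1) :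
    Nat.card (Subgroup.centralizer ({u} : Set G)) = 2 := by
  classical
  obtain ⟨hc, hlu, hsq, hall⟩ := lam_facts u hu c hyp h
  have := Fintype.ofFinite G
  have h0 := second_orthogonality_conj u u (IsConj.refl u)
  rw [← Finset.sum_add_sum_compl ({oneC, lin lam} : Finset (IrrCharacter G)),
    Finset.sum_pair (lin_ne_one h).symm] at h0
  have h3 : ∑ ψ ∈ ({oneC, lin lam} : Finset (IrrCharacter G))ᶜ,
      (ψ : G → ℂ) u * conj ((ψ : G → ℂ) u) = 0 := by
    apply Finset.sum_eq_zero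
    intro ψ hψ
    simp only [Finset.mem_compl, Finset.mem_insert, Finset.mem_singleton, not_or] at hψ
    rw [vanish u hu c hyp h ψ hψ.1 hψ.2]; simp
  rw [h3, lin_apply, hlu, oneC_apply] at h0
  have h4 : ((2 : ℕ) : ℂ) = (Nat.card (Subgroup.centralizer ({u} : Set G)) : ℂ) := by
    rw [← h0]; simp; norm_num
  exact_mod_cast h4.symm

include hu hyp in
theorem part_a {lam : G →* ℂˣ} (h : lam ≠ 1) :
    orderOf u = 2 ∧ Subgroup.zpowers u ⊔ Cfsg.oddCore G = ⊤ ∧
      Subgroup.centralizer ({u} : Set G) = Subgroup.zpowers u := by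
  classical
  obtain ⟨hc, hlu, hsq, hall⟩ := lam_facts u hu c hyp h
  have hcard := card_cent u hu c hyp h
  have hle : Subgroup.zpowers u ≤ Subgroup.centralizer ({u} : Set G) := by
    rw [Subgroup.zpowers_le]
    exact Subgroup.mem_centralizer_singleton_iff.mpr rfl
  have hord : orderOf u = 2 := by
    have h1 : orderOf u ∣ 2 := by
      rw [← hcard, ← Nat.card_zpowers]
      exact Subgroup.card_dvd_of_le hle
    rcases (Nat.dvd_prime Nat.prime_two).mp h1 with h2 | h2
    · exact absurd (orderOf_eq_one_iff.mp h2) hu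
    · exact h2
  have hceq : Subgroup.centralizer ({u} : Set G) = Subgroup.zpowers u := by
    symm
    apply Subgroup.eq_of_le_of_card_ge hle
    rw [hcard, Nat.card_zpowers, hord]
  refine ⟨hord, ?_, hceq⟩
  have huu : u * u = 1 := by rw [← pow_two, ← hord]; exact pow_orderOf_eq_one u
  have hodd : (Nat.card lam.ker).Coprime 2 := by
    rw [Nat.coprime_two_right, ← Nat.not_even_iff_odd, even_iff_two_dvd]
    intro hdvd
    have := Fintype.ofFinite lam.ker
    have : Fact (Nat.Prime 2) := ⟨Nat.prime_two⟩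
    rw [Nat.card_eq_fintype_card] at hdvd
    let σ : Equiv.Perm lam.ker := (MulAut.conjNormal u : MulAut lam.ker).toEquiv
    have hσ : σ ^ 2 ^ 1 = 1 := by
      ext x
      have hinv : u⁻¹ = u := inv_eq_of_mul_eq_one_left huu
      simp only [pow_one, pow_two, Equiv.Perm.mul_apply, σ, MulEquiv.toEquiv_eq_coe,
        EquivLike.coe_coe, MulAut.conjNormal_apply, Equiv.Perm.one_apply, hinv]
      calc u * (u * (x : G) * u) * u = (u * u) * x * (u * u) := by group
        _ = x := by rw [huu]; simp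
    obtain ⟨b, hb1, hb2⟩ := Equiv.Perm.exists_fixed_point_of_prime' (p := 2) (n := 1) hdvd hσ
      (a := 1) (by simp [σ])
    have hb3 : u * (b : G) * u⁻¹ = b := by
      have := congrArg Subtype.val hb1
      simpa [σ] using this
    have hb4 : (b : G) ∈ Subgroup.centralizer ({u} : Set G) := by
      rw [Subgroup.mem_centralizer_singleton_iff]
      have : u * (b : G) = b * u := by
        calc u * (b : G) = (u * b * u⁻¹) * u := by group
          _ = b * u := by rw [hb3]
      exact this.symm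
    rw [hceq, Subgroup.mem_zpowers_iff] at hb4
    obtain ⟨k, hk⟩ := hb4
    have hbk : lam (b : G) = 1 := b.2
    rcases Int.even_or_odd k with ⟨j, hj⟩ | ⟨j, hj⟩
    · apply hb2
      apply Subtype.ext
      rw [← hk, hj, zpow_add, ← (Commute.refl u).mul_zpow, huu, one_zpow]
      rfl
    · rw [hj, zpow_add, zpow_mul, zpow_two, huu, one_zpow, one_mul, zpow_one] at hk
      rw [← hk, hlu] at hbk
      have h9 := congrArg Units.val hbk
      norm_num at h9
  have hN : lam.ker ≤ Cfsg.oddCore G :=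
    Cfsg.Agent.Lib.Helper4_Core.le_pPrimeCore inferInstance hodd
  rw [eq_top_iff]
  intro g _
  have hg : ((lam g : ℂˣ) : ℂ) * ((lam g : ℂˣ) : ℂ) = 1 := by
    have := congrArg (fun f : G →* ℂˣ => ((f g : ℂˣ) : ℂ)) hsq
    simpa [pow_two] using this
  rcases mul_self_eq_one_iff.mp hg with hg1 | hg1
  · exact Subgroup.mem_sup_right (hN (MonoidHom.mem_ker.mpr (Units.ext hg1)))
  · have hg2 : lam g = -1 := Units.ext (by rw [hg1]; simp)
    have hgu : g = u * (u⁻¹ * g) := by group
    rw [hgu]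
    apply Subgroup.mul_mem_sup (Subgroup.mem_zpowers u)
    apply hN
    rw [MonoidHom.mem_ker, map_mul, map_inv, hlu, hg2]; simp

end main

theorem not_perfect_of_a {G : Type v} [Group G] [Finite G] (u : G) (h2 : orderOf u = 2)
    (hsup : Subgroup.zpowers u ⊔ Cfsg.oddCore G = ⊤) : commutator G ≠ ⊤ := by
  intro hcomm
  have hn : (Cfsg.oddCore G).Normal := Subgroup.sSup_normal _ (fun _ h => h.1)
  have h1 : Subgroup.zpowers (QuotientGroup.mk' (Cfsg.oddCore G) u) = ⊤ := by
    have := congrArg (Subgroup.map (QuotientGroup.mk' (Cfsg.oddCore G))) hsup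
    rw [Subgroup.map_sup, QuotientGroup.map_mk'_self, sup_bot_eq, MonoidHom.map_zpowers,
      ← MonoidHom.range_eq_map, MonoidHom.range_eq_top.mpr (QuotientGroup.mk'_surjective _)] at this
    exact this
  have h3 : commutator G ≤ Cfsg.oddCore G := by
    rw [← Subgroup.Normal.quotient_commutative_iff_commutator_le]
    refine ⟨⟨fun a b => ?_⟩⟩
    have ha : a ∈ Subgroup.zpowers (QuotientGroup.mk' (Cfsg.oddCore G) u) := by rw [h1]; trivial
    have hb : b ∈ Subgroup.zpowers (QuotientGroup.mk' (Cfsg.oddCore G) u) := by rw [h1]; trivial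
    obtain ⟨i, rfl⟩ := Subgroup.mem_zpowers_iff.mp ha
    obtain ⟨j, rfl⟩ := Subgroup.mem_zpowers_iff.mp hb
    exact zpow_mul_comm _ _ _
  rw [hcomm, top_le_iff] at h3
  have h4 := Cfsg.Agent.Lib.Helper4_Core.pPrimeCore_coprime (G := G) 2
  have h5 : Cfsg.pPrimeCore 2 G = ⊤ := h3
  rw [h5, Subgroup.card_top] at h4
  have h6 : 2 ∣ Nat.card G := h2 ▸ orderOf_dvd_natCard u
  have := Nat.Coprime.eq_one_of_dvd h4.symm h6
  omega


/-- Let u ≠ 1 be an element of the finite group G and c a complex number such that every non-principal irreducible character χ satisfies χ(1) − χ(u) = c or χ(u) = 0. Then the following are equivalent: (a) u has order 2, G is generated by u together with O(G), the largest normal subgroup of G of odd order, and the centralizer of u is {1, u}; (b) G is not perfect; (c) c = 2. -/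
theorem result {G : Type*} [Group G] [Finite G] (u : G) (hu : u ≠ 1) (c : ℂ) (hyp : ∀ χ : Cfsg.IrrCharacter G, (χ : G → ℂ) ≠ (fun _ => (1 : ℂ)) → ((χ : G → ℂ) 1 - (χ : G → ℂ) u = c ∨ (χ : G → ℂ) u = 0)) : ((orderOf u = 2 ∧ Subgroup.zpowers u ⊔ Cfsg.oddCore G = ⊤ ∧ Subgroup.centralizer ({u} : Set G) = Subgroup.zpowers u) ↔ commutator G ≠ ⊤) ∧ (commutator G ≠ ⊤ ↔ c = 2) := by
  have hyp' : ∀ χ : IrrCharacter G, χ ≠ oneC →
      ((χ : G → ℂ) 1 - (χ : G → ℂ) u = c ∨ (χ : G → ℂ) u = 0) := by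
    intro χ hχ
    apply hyp χ
    intro h
    exact hχ (Subtype.ext h)
  refine ⟨⟨fun h => not_perfect_of_a u h.1 h.2.1, fun h => ?_⟩, ⟨fun h => ?_, fun h => ?_⟩⟩
  · obtain ⟨lam, hl⟩ := exists_lam_iff.mp h
    exact part_a u hu c hyp' hl
  · obtain ⟨lam, hl⟩ := exists_lam_iff.mp h
    exact (lam_facts u hu c hyp' hl).1
  · exact exists_lam_iff.mpr (exists_of_two u hu c hyp' h)

end Cfsg.Agent.S4757
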