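import Cfsg.Statements.S4796
import Cfsg.Agent.Lib.FrobComplement
import Cfsg.Agent.Lib.Helper1_Frob
import Cfsg.Agent.Lib.helper8_Codegree
import Cfsg.Agent.Lib.CharThompson
import Cfsg.Agent.Lib.CharIto

set_option autoImplicit false
open Cfsg

namespace Cfsg.Agent.S4796

open Cfsg.Agent.Lib.FrobComplement Cfsg.Agent.Lib.Helper1_Frob Cfsg.Agent.Lib.helper8_Codegree Cfsg.Agent.Lib.CharThompson Cfsg.Agent.Lib.CharIto Cfsg.Agent.Lib.CharBasic Cfsg.Agent.Lib.CharOrtho Cfsg.Agent.Lib.CharComplete Cfsg.Agent.Lib.CharMore Cfsg.Agent.Lib.CharInd Cfsg.Agent.Lib.CharClifford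

/-- Let G be a finite group with a faithful irreducible complex character χ whose codegree #G / χ(1) is a prime p (for a faithful character the kernel is trivial, so the codegree is #G / χ(1)). Then either G is cyclic of order p, or G is a Frobenius group whose Frobenius kernel has order p: some proper non-trivial subgroup H satisfies H ∩ gHg⁻¹ = 1 for every element g outside H, and the set of elements lying in no conjugate of H, together with the identity, has exactly p elements. -/
theorem result {G : Type*} [Group G] [Finite G] (χ : Cfsg.IrrCharacter G) (hfaith : ∀ g : G, (χ : G → ℂ) g = (χ : G → ℂ) 1 → g = 1) (p : ℕ) (hp : p.Prime) (hcod : Nat.card G = p * Cfsg.charDegree (χ : G → ℂ)) : (IsCyclic G ∧ Nat.card G = p) ∨ ∃ H : Subgroup G, Cfsg.IsFrobeniusComplement H ∧ Nat.card ↥(Cfsg.frobeniusKernel H) = p := by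
  classical
  haveI := Fintype.ofFinite G
  haveI : Fact p.Prime := ⟨hp⟩
  set d := Cfsg.charDegree (χ : G → ℂ) with hd
  have hχ1 : (χ : G → ℂ) 1 = d := charDegree_spec χ.2
  have hdpos : 0 < d := by
    rcases Nat.eq_zero_or_pos d with h | h
    · exfalso
      rw [h, mul_zero] at hcod
      exact Nat.card_pos.ne' hcod
    · exact h
  -- `d < p`
  have hdp : d < p := by
    set one : Cfsg.IrrCharacter G := ⟨1, isIrr_one⟩ with hone
    have hne : χ ≠ one := by
      intro h
      have hall : ∀ g : G, g = 1 := by
        intro g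
        apply hfaith
        rw [h]; rfl
      haveI : Subsingleton G := ⟨fun a b => (hall a).trans (hall b).symm⟩
      have h1 : Nat.card G = 1 := Nat.card_eq_one_iff_unique.mpr ⟨inferInstance, ⟨1⟩⟩
      rw [h1] at hcod
      have : p ∣ 1 := Dvd.intro _ hcod.symm
      exact hp.one_lt.ne' (Nat.dvd_one.mp this)
    have hs := sum_sq_charDegree (G := G)
    rw [← Finset.add_sum_erase _ _ (Finset.mem_univ χ),
      ← Finset.add_sum_erase _ _ (Finset.mem_erase.mpr ⟨hne.symm, Finset.mem_univ one⟩)] at hs
    have h1 : Cfsg.charDegree (one : G → ℂ) = 1 := charDegree_eq (by simp [hone])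
    rw [h1, hcod, ← hd] at hs
    by_contra hcon
    push Not at hcon
    nlinarith [Nat.zero_le (∑ x ∈ (Finset.univ.erase χ).erase one,
      Cfsg.charDegree (x : G → ℂ) ^ 2)]
  have hpd : ¬ p ∣ d := fun h => absurd (Nat.le_of_dvd hdpos h) (by omega)
  obtain ⟨P⟩ : Nonempty (Sylow p G) := inferInstance
  have hPcard : Nat.card P = p := by
    rw [Sylow.card_eq_multiplicity, hcod, Nat.factorization_mul hp.ne_zero hdpos.ne']
    simp [hp.factorization_self, Nat.factorization_eq_zero_of_not_dvd hpd]
  have hPidx : (P : Subgroup G).index = d := by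
    have h1 := (P : Subgroup G).card_mul_index
    rw [hPcard, hcod] at h1
    exact Nat.eq_of_mul_eq_mul_left hp.pos h1
  have hPn : (P : Subgroup G).Normal := by
    have h1 := card_sylow_modEq_one p G
    have h2 : Nat.card (Sylow p G) ∣ d := hPidx ▸ P.card_dvd_index
    have h3 := Nat.le_of_dvd hdpos h2
    have h4 : Nat.card (Sylow p G) = 1 := by
      have h5 : Nat.card (Sylow p G) % p = 1 % p := h1
      rw [Nat.mod_eq_of_lt (by omega), Nat.mod_eq_of_lt hp.one_lt] at h5
      exact h5
    rw [Sylow.card_eq_index_normalizer P, Subgroup.index_eq_one] at h4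
    exact Subgroup.normalizer_eq_top_iff.mp h4
  by_cases hd1 : d = 1
  · left
    have : Nat.card G = p := by rw [hcod, hd1, mul_one]
    exact ⟨isCyclic_of_prime_card this, this⟩
  right
  haveI : Fintype (P : Subgroup G) := Fintype.ofFinite _
  -- `P` is commutative
  have hPcyc : IsCyclic (P : Subgroup G) := isCyclic_of_prime_card hPcard
  have hPcomm : ∀ a b : (P : Subgroup G), a * b = b * a := fun a b =>
    (IsCyclic.commGroup (α := (P : Subgroup G))).mul_comm a b
  -- a constituent of the restriction
  have hres : Cfsg.IsCharacter (P : Subgroup G) (fun x : (P : Subgroup G) => (χ : G → ℂ) x) :=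
    isCharacter_restrict _ (isCharacter_of_isIrr χ.2)
  obtain ⟨μ, hμ⟩ := exists_constituent hres (by
    intro h
    have := congrFun h 1
    simp only [Subgroup.coe_one, Pi.zero_apply] at this
    rw [hχ1] at this
    exact hdpos.ne' (by exact_mod_cast this))
  have hμ1 : (μ : ↥(P : Subgroup G) → ℂ) 1 = 1 := degree_one_of_comm hPcomm μ.2
  have hind : Cfsg.indFun (P : Subgroup G) (μ : ↥(P : Subgroup G) → ℂ) = (χ : G → ℂ) := by
    apply eq_of_constituent_of_degree_eq (isCharacter_indFun _ _ (isCharacter_of_isIrr μ.2)) χ.2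
    · rw [frobenius_reciprocity _ _ _ (isClassFunction_of_isCharacter (isCharacter_of_isIrr χ.2)),
        ← classInner_conj_symm]
      rw [Ne, map_eq_zero]
      exact hμ
    · rw [indFun_one, hμ1, hPidx, hχ1, mul_one]
  have hstab := card_mul_classInner_ind' (P : Subgroup G) hPn μ.2 μ.2
  rw [hind, classInner_irr_self χ.2, mul_one] at hstab
  have hstab' : Nat.card {x : G // Cfsg.Agent.Lib.CharClifford.conjFun (P : Subgroup G) hPn
      (μ : ↥(P : Subgroup G) → ℂ) x = (μ : ↥(P : Subgroup G) → ℂ)} = p := by
    refine Eq.trans ?_ hPcard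
    exact_mod_cast hstab.symm
  -- the centralizer of `P` is `P`
  have hcentP : ∀ c : G, (∀ x ∈ (P : Subgroup G), c * x = x * c) → c ∈ (P : Subgroup G) := by
    intro c hc
    by_contra hcP
    have hsub : ∀ x : G, (x ∈ (P : Subgroup G) ∨ x = c) →
        Cfsg.Agent.Lib.CharClifford.conjFun (P : Subgroup G) hPn
          (μ : ↥(P : Subgroup G) → ℂ) x = (μ : ↥(P : Subgroup G) → ℂ) := by
      intro x hx
      ext n
      rw [Cfsg.Agent.Lib.CharClifford.conjFun_apply]
      apply congrArg
      apply Subtype.ext
      show x * n * x⁻¹ = n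
      rcases hx with hx | rfl
      · have := congrArg Subtype.val (hPcomm ⟨x, hx⟩ n)
        simp only [Subgroup.coe_mul] at this
        rw [this]; group
      · rw [hc n n.2]; group
    have hle : p + 1 ≤ Nat.card {x : G // Cfsg.Agent.Lib.CharClifford.conjFun (P : Subgroup G) hPn
        (μ : ↥(P : Subgroup G) → ℂ) x = (μ : ↥(P : Subgroup G) → ℂ)} := by
      rw [Nat.card_eq_fintype_card, Fintype.card_subtype]
      have h1 : (insert c (Finset.univ.filter fun s : G => s ∈ (P : Subgroup G))) ⊆
          Finset.univ.filter fun x : G => Cfsg.Agent.Lib.CharClifford.conjFun (P : Subgroup G) hPn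
            (μ : ↥(P : Subgroup G) → ℂ) x = (μ : ↥(P : Subgroup G) → ℂ) := by
        intro s hs
        rw [Finset.mem_insert] at hs
        rw [Finset.mem_filter]
        refine ⟨Finset.mem_univ _, hsub s ?_⟩
        rcases hs with rfl | hs
        · exact Or.inr rfl
        · exact Or.inl (Finset.mem_filter.mp hs).2
      have h2 := Finset.card_le_card h1
      rw [Finset.card_insert_of_notMem (by simp [hcP])] at h2
      have h3 : (Finset.univ.filter fun s : G => s ∈ (P : Subgroup G)).card = p := by
        refine Eq.trans ?_ hPcard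
        rw [Nat.card_eq_fintype_card, Fintype.card_subtype]
      omega
    omega
  -- a complement
  have hcop : Nat.Coprime (Nat.card (P : Subgroup G)) (P : Subgroup G).index := by
    rw [hPcard, hPidx]
    exact (Nat.Prime.coprime_iff_not_dvd hp).mpr hpd
  haveI := hPn
  obtain ⟨H, hH⟩ := Subgroup.exists_right_complement'_of_coprime hcop
  obtain ⟨hHN, hgen⟩ := of_isComplement' hPn hH
  have hHcard : Nat.card H = d := by
    have h1 := hH.card_mul
    rw [hPcard, hcod] at h1
    exact Nat.eq_of_mul_eq_mul_left hp.pos h1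
  have hHidx : H.index = p := by
    have h1 := H.card_mul_index
    rw [hHcard, hcod, mul_comm] at h1
    exact Nat.eq_of_mul_eq_mul_right hdpos h1
  have hfrob : Cfsg.IsFrobeniusComplement H := by
    apply isFrobeniusComplement_of_complement hPn hHN hgen
    · intro k hk hk1 m hm hmk
      by_contra hm1
      apply hk1
      apply hHN k hk
      apply hcentP
      intro x hx
      -- `x` is a power of `m`
      have hmo : orderOf (⟨m, hm⟩ : (P : Subgroup G)) = p := by
        have h1 : orderOf (⟨m, hm⟩ : (P : Subgroup G)) ∣ p := by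
          have := orderOf_dvd_natCard (⟨m, hm⟩ : (P : Subgroup G))
          rwa [hPcard] at this
        rcases (Nat.dvd_prime hp).mp h1 with h2 | h2
        · exact absurd (congrArg Subtype.val (orderOf_eq_one_iff.mp h2)) hm1
        · exact h2
      have hz : Subgroup.zpowers (⟨m, hm⟩ : (P : Subgroup G)) = ⊤ := by
        apply Subgroup.eq_top_of_card_eq
        rw [Nat.card_zpowers, hmo, hPcard]
      have hxz : (⟨x, hx⟩ : (P : Subgroup G)) ∈ Subgroup.zpowers (⟨m, hm⟩ : (P : Subgroup G)) := by
        rw [hz]; trivial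
      obtain ⟨j, hj⟩ := Subgroup.mem_zpowers_iff.mp hxz
      have hxj : x = m ^ j := by
        have := congrArg Subtype.val hj
        simpa using this.symm
      have hcm : Commute k m := hmk.symm
      rw [hxj]
      exact (hcm.zpow_right j).eq
    · intro h
      rw [h] at hHcard
      simp at hHcard
      exact hd1 hHcard.symm
    · intro h
      rw [h] at hPcard
      simp at hPcard
      exact hp.one_lt.ne hPcard
  refine ⟨H, hfrob, ?_⟩
  have := ncard_kernel hfrob.2.2
  rw [hHidx] at this
  exact this

end Cfsg.Agent.S4796
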