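import Cfsg.Statements.S4797
import Cfsg.Agent.Lib.helper8_Center

open Cfsg.Agent.Lib.CharBasic Cfsg.Agent.Lib.CharOrtho Cfsg.Agent.Lib.CharComplete Cfsg.Agent.Lib.CharMore Cfsg.Agent.Lib.CharLinear Cfsg.Agent.Lib.helper8_Kernel Cfsg.Agent.Lib.helper8_Defect Cfsg.Agent.Lib.helper8_Codegree Cfsg.Agent.Lib.helper8_Center

set_option autoImplicit false
open Cfsg

namespace Cfsg.Agent.S4797

/-- A group with a faithful irreducible character of prime codegree is not perfect. -/
lemma not_perfect {H : Type*} [Group H] [Finite H] {ψ : H → ℂ} (hψ : IsIrrCharacter H ψ)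
    (hf : ∀ h, ψ h = ψ 1 → h = 1) {p : ℕ} (hp : p.Prime)
    (hcard : Nat.card H = p * charDegree ψ) : commutator H ≠ ⊤ := by
  classical
  intro hperf
  have := Fintype.ofFinite H
  have : Fact p.Prime := ⟨hp⟩
  obtain ⟨h0, h3, -⟩ := irr_charDegree hψ
  set d := charDegree ψ with hd
  -- the only linear character is trivial
  have hlin : Nat.card {χ : IrrCharacter H // (χ : H → ℂ) 1 = 1} = 1 := by
    rw [card_linear, hperf, Subgroup.index_top]
  have hd1 : d ≠ 1 := by
    intro h1
    have hsub : Subsingleton {χ : IrrCharacter H // (χ : H → ℂ) 1 = 1} :=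
      (Nat.card_eq_one_iff_unique.1 hlin).1
    have h4 : (⟨⟨ψ, hψ⟩, by change ψ 1 = 1; rw [h3, h1]; simp⟩ : {χ : IrrCharacter H // (χ : H → ℂ) 1 = 1}) =
        ⟨⟨1, isIrr_one⟩, by simp⟩ := Subsingleton.elim _ _
    have h5 : ψ = 1 := congrArg (fun x => (x.1 : H → ℂ)) h4
    have h6 : ∀ h : H, h = 1 := fun h => hf h (by rw [h5]; simp)
    have h7 : Nat.card H = 1 := by
      rw [Nat.card_eq_one_iff_unique]
      exact ⟨⟨fun a b => by rw [h6 a, h6 b]⟩, ⟨1⟩⟩
    rw [h7, h1, mul_one] at hcard
    exact hp.one_lt.ne hcard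
  -- d < p
  have hdp : d < p := by
    have hsum := sum_sq_charDegree (G := H)
    have h4 : d ^ 2 ≤ ∑ χ : IrrCharacter H, charDegree (χ : H → ℂ) ^ 2 :=
      Finset.single_le_sum (f := fun χ : IrrCharacter H => charDegree (χ : H → ℂ) ^ 2)
        (fun _ _ => Nat.zero_le _) (Finset.mem_univ (⟨ψ, hψ⟩ : IrrCharacter H))
    rw [hsum, hcard] at h4
    have h5 : d ≤ p := by nlinarith
    rcases h5.lt_or_eq with h6 | h6
    · exact h6
    · exfalso
      -- then the sum of squares is d², forcing a unique irreducible character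
      have hne : (⟨1, isIrr_one⟩ : IrrCharacter H) ≠ ⟨ψ, hψ⟩ := by
        intro h7
        have h8 : (1 : H → ℂ) = ψ := congrArg Subtype.val h7
        apply hd1
        rw [hd, ← h8]
        exact charDegree_of_eq (by simp)
      have h9 : ∑ χ ∈ ({⟨1, isIrr_one⟩, ⟨ψ, hψ⟩} : Finset (IrrCharacter H)),
          charDegree (χ : H → ℂ) ^ 2 ≤ ∑ χ : IrrCharacter H, charDegree (χ : H → ℂ) ^ 2 :=
        Finset.sum_le_sum_of_subset (Finset.subset_univ _)
      rw [Finset.sum_pair hne, hsum, hcard, ← h6] at h9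
      have h10 : charDegree (1 : H → ℂ) = 1 := charDegree_of_eq (by simp)
      simp only [h10] at h9
      nlinarith
  have hpd : ¬ p ∣ d := fun h => absurd (Nat.le_of_dvd h0 h) (not_le.2 hdp)
  obtain ⟨P⟩ : Nonempty (Sylow p H) := inferInstance
  have hPc : Nat.card (P : Subgroup H) = p := by
    rw [P.card_eq_multiplicity, hcard, Nat.factorization_mul hp.ne_zero h0.ne',
      Finsupp.add_apply, hp.factorization_self, Nat.factorization_eq_zero_of_not_dvd hpd,
      pow_one]
  have hPi : (P : Subgroup H).index = d := by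
    have h4 := Subgroup.card_mul_index (P : Subgroup H)
    rw [hPc, hcard] at h4
    exact Nat.eq_of_mul_eq_mul_left hp.pos h4
  have hn1 : Nat.card (Sylow p H) = 1 := by
    have h4 := card_sylow_modEq_one p H
    have h5 := P.card_dvd_index
    rw [hPi] at h5
    have h6 : Nat.card (Sylow p H) < p := lt_of_le_of_lt (Nat.le_of_dvd h0 h5) hdp
    have h7 : Nat.card (Sylow p H) % p = 1 % p := h4
    rwa [Nat.mod_eq_of_lt h6, Nat.mod_eq_of_lt hp.one_lt] at h7
  have hsub : Subsingleton (Sylow p H) := (Nat.card_eq_one_iff_unique.1 hn1).1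
  have hPn : (P : Subgroup H).Normal := P.normal_of_subsingleton
  have hcyc : IsCyclic (P : Subgroup H) := isCyclic_of_prime_card hPc
  let f : H →* (ZMod (Nat.card (P : Subgroup H)))ˣ :=
    (IsCyclic.mulAutMulEquiv (P : Subgroup H)).toMonoidHom.comp MulAut.conjNormal
  have hker := Abelianization.commutator_subset_ker f
  rw [hperf] at hker
  have hcent : ∀ z ∈ (P : Subgroup H), ∀ g : H, g * z = z * g := by
    intro z hz g
    have h4 : f g = 1 := hker (Subgroup.mem_top g)
    have h5 : (MulAut.conjNormal g : MulAut (P : Subgroup H)) = 1 := by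
      apply (IsCyclic.mulAutMulEquiv (P : Subgroup H)).injective
      rw [map_one]
      exact h4
    have h6 := congrArg (fun φ : MulAut (P : Subgroup H) => ((φ ⟨z, hz⟩ : (P : Subgroup H)) : H)) h5
    simp only [MulAut.conjNormal_apply, MulAut.one_apply] at h6
    rwa [mul_inv_eq_iff_eq_mul] at h6
  have h8 := degree_sq_mul_card_le hψ (P : Subgroup H) hcent
  rw [hPc, hcard, ← hd] at h8
  have h9 : d ≤ 1 := by
    by_contra hlt
    push Not at hlt
    have : d * p < d ^ 2 * p := by
      apply Nat.mul_lt_mul_of_pos_right _ hp.pos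
      nlinarith
    nlinarith
  omega


/-- The codegree of an irreducible complex character χ of a finite group G is [G : ker χ] / χ(1), where ker χ is the set of elements at which χ takes the value χ(1). A non-trivial finite group is perfect if and only if no irreducible complex character of it has prime codegree. -/
theorem result {G : Type*} [Group G] [Finite G] [Nontrivial G] : commutator G = ⊤ ↔ ∀ χ : Cfsg.IrrCharacter G, ¬ ((Nat.card G / (Nat.card {g : G // (χ : G → ℂ) g = (χ : G → ℂ) 1} * Cfsg.charDegree (χ : G → ℂ)))).Prime := by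
  classical
  constructor
  · intro hperf χ hprime
    obtain ⟨K, hKn, hK⟩ := exists_ker (isCharacter_of_isIrr χ.2)
    obtain ⟨ψ, hψ, hψχ⟩ := deflate K χ.2 (fun x hx => (hK x).1 hx)
    have hdvd := card_ker_mul_degree_dvd χ.2
    rw [card_ker_eq hK] at hprime hdvd
    have hdeg : charDegree ψ = charDegree (χ : G → ℂ) := by
      have h1 : ψ 1 = (χ : G → ℂ) 1 := hψχ 1
      rw [charDegree, charDegree, h1]
    refine not_perfect hψ ?_ hprime ?_ ?_
    · intro q hq
      obtain ⟨g, rfl⟩ := QuotientGroup.mk_surjective q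
      have h1 : ψ 1 = (χ : G → ℂ) 1 := hψχ 1
      rw [hψχ, h1] at hq
      exact (QuotientGroup.eq_one_iff g).2 ((hK g).2 hq)
    · rw [hdeg]
      have h1 := Nat.div_mul_cancel hdvd
      have h2 := Subgroup.card_mul_index K
      have h3 : Nat.card (G ⧸ K) = K.index := rfl
      rw [h3]
      have hK0 : 0 < Nat.card K := Nat.card_pos
      apply Nat.eq_of_mul_eq_mul_left hK0
      rw [h2]
      generalize Nat.card G / (Nat.card K * charDegree (χ : G → ℂ)) = c at h1 ⊢
      rw [← h1]
      ring
    · rw [commutator_def, ← Subgroup.map_top_of_surjective (QuotientGroup.mk' K)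
        (QuotientGroup.mk'_surjective K), ← Subgroup.map_commutator, ← commutator_def, hperf]
  · intro hall
    by_contra hne
    obtain ⟨p, μ, hp, hμ⟩ := exists_hom_ker_index_prime hne
    apply hall ⟨_, isIrr_hom μ⟩
    have hK : ∀ g, g ∈ μ.ker ↔ ((μ g : ℂˣ) : ℂ) = ((μ 1 : ℂˣ) : ℂ) := by
      intro g
      rw [MonoidHom.mem_ker, map_one, Units.val_one, Units.val_eq_one]
    have h1 : charDegree (fun g => ((μ g : ℂˣ) : ℂ)) = 1 := charDegree_of_eq (by simp)
    have h2 := card_ker_eq (χ := fun g => ((μ g : ℂˣ) : ℂ)) hK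
    simp only at h2 ⊢
    rw [h1, h2, mul_one, ← Subgroup.card_mul_index μ.ker, Nat.mul_div_cancel_left _ Nat.card_pos,
      hμ]
    exact hp

end Cfsg.Agent.S4797
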