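import Cfsg.Statements.S4798
import Cfsg.Agent.Lib.helper8_Defect
import Cfsg.Agent.Lib.CharInd

set_option autoImplicit false
open Cfsg Cfsg.Agent.Lib.CharBasic Cfsg.Agent.Lib.CharOrtho Cfsg.Agent.Lib.CharComplete
  Cfsg.Agent.Lib.CharMore Cfsg.Agent.Lib.CharInd Cfsg.Agent.Lib.helper8_Defect

namespace Cfsg.Agent.S4798

theorem eq_of_constituent {G : Type*} [Group G] [Fintype G] {Φ χ : G → ℂ} (hΦ : IsCharacter G Φ)
    (hχ : IsIrrCharacter G χ) (h : classInner Φ χ ≠ 0) (h1 : Φ 1 = χ 1) : Φ = χ := by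
  classical
  obtain ⟨m, hm, hexp⟩ := exists_mult hΦ
  have hd := fun ψ : IrrCharacter G => irr_charDegree ψ.2
  have h2 : Φ 1 = ((∑ ψ : IrrCharacter G, m ψ * charDegree (ψ : G → ℂ) : ℕ) : ℂ) := by
    conv_lhs => rw [hexp]
    rw [Finset.sum_apply]
    push_cast
    refine Finset.sum_congr rfl fun ψ _ => ?_
    rw [Pi.smul_apply, smul_eq_mul, (hd ψ).2.1]
  have h3 : ∑ ψ : IrrCharacter G, m ψ * charDegree (ψ : G → ℂ) = charDegree χ := by
    rw [h1, (irr_charDegree hχ).2.1] at h2
    exact_mod_cast h2.symm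
  have hmχ : m ⟨χ, hχ⟩ ≠ 0 := by
    intro h0
    apply h
    rw [hm ⟨χ, hχ⟩, h0, Nat.cast_zero]
  rw [← Finset.add_sum_erase _ _ (Finset.mem_univ (⟨χ, hχ⟩ : IrrCharacter G))] at h3
  have hdχ := (hd ⟨χ, hχ⟩).1
  have h4 : charDegree χ ≤ m ⟨χ, hχ⟩ * charDegree χ :=
    Nat.le_mul_of_pos_left _ (Nat.pos_of_ne_zero hmχ)
  have h5 : ∑ ψ ∈ Finset.univ.erase (⟨χ, hχ⟩ : IrrCharacter G), m ψ * charDegree (ψ : G → ℂ) = 0 := by
    simp only at h3
    omega
  have h6 : m ⟨χ, hχ⟩ * charDegree χ = charDegree χ := by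
    simp only at h3
    omega
  have h7 : m ⟨χ, hχ⟩ = 1 := by
    have : m ⟨χ, hχ⟩ * charDegree χ = 1 * charDegree χ := by rw [h6, one_mul]
    exact Nat.eq_of_mul_eq_mul_right hdχ this
  rw [hexp, ← Finset.add_sum_erase _ _ (Finset.mem_univ (⟨χ, hχ⟩ : IrrCharacter G)), h7]
  rw [Finset.sum_eq_zero, add_zero]
  · simp
  · intro ψ hψ
    have := (Finset.sum_eq_zero_iff.mp h5) ψ hψ
    have h8 : m ψ = 0 := by
      rcases Nat.mul_eq_zero.mp this with h | h
      · exact h
      · exact absurd h (hd ψ).1.ne'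
    rw [h8]; simp

/-- Let p be a prime and χ a faithful irreducible complex character of the finite group G (χ(g) = χ(1) only for g = 1), so that its codegree is #G / χ(1). Then #G / χ(1) is a power of p if and only if χ is induced from a character of a Sylow p-subgroup of G. -/
theorem result {G : Type*} [Group G] [Fintype G] (p : ℕ) [Fact p.Prime] (χ : Cfsg.IrrCharacter G) (hfaith : ∀ g : G, (χ : G → ℂ) g = (χ : G → ℂ) 1 → g = 1) : (∃ k : ℕ, Nat.card G = p ^ k * Cfsg.charDegree (χ : G → ℂ)) ↔ ∃ (P : Sylow p G) (θ : ↥(P : Subgroup G) → ℂ), Cfsg.IsCharacter ↥(P : Subgroup G) θ ∧ (χ : G → ℂ) = Cfsg.indFun (P : Subgroup G) θ := by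
  classical
  have hp : p.Prime := Fact.out
  obtain ⟨hd0, hd1, hd2⟩ := irr_charDegree χ.2
  set d := charDegree (χ : G → ℂ) with hd
  constructor
  · rintro ⟨k, hk⟩
    obtain ⟨P⟩ : Nonempty (Sylow p G) := inferInstance
    have := Fintype.ofFinite (P : Subgroup G)
    obtain ⟨a, ha⟩ := IsPGroup.iff_card.mp P.2
    have hidx : ¬ p ∣ (P : Subgroup G).index := P.not_dvd_index
    have hci := (P : Subgroup G).card_mul_index
    set m := (P : Subgroup G).index with hm
    -- d = m * p ^ e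
    have hka : k ≤ a := by
      have h1 : p ^ k ∣ p ^ a * m := by rw [← ha, hci, hk]; exact dvd_mul_right _ _
      have h2 : p ^ k ∣ p ^ a :=
        (Nat.Coprime.pow_left k ((Nat.Prime.coprime_iff_not_dvd hp).mpr hidx)).dvd_of_dvd_mul_right h1
      exact (Nat.pow_dvd_pow_iff_le_right hp.one_lt).mp h2
    obtain ⟨e, rfl⟩ := Nat.exists_eq_add_of_le hka
    have hde : d = m * p ^ e := by
      have h1 : p ^ k * d = p ^ k * (m * p ^ e) := by
        rw [← hk, ← hci, ha, pow_add]; ring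
      exact Nat.eq_of_mul_eq_mul_left (pow_pos hp.pos k) h1
    have hres : IsCharacter (P : Subgroup G) (fun h : (P : Subgroup G) => (χ : G → ℂ) h) :=
      isCharacter_restrict _ (isCharacter_of_isIrr χ.2)
    obtain ⟨c, hc, hexp⟩ := exists_mult hres
    have hdθ := fun θ : IrrCharacter (P : Subgroup G) => irr_charDegree θ.2
    have hsum : d = ∑ θ : IrrCharacter (P : Subgroup G), c θ * charDegree (θ : ↥(P : Subgroup G) → ℂ) := by
      have h1 := congrFun hexp 1
      rw [Finset.sum_apply] at h1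
      simp only [Pi.smul_apply, smul_eq_mul, OneMemClass.coe_one] at h1
      rw [hd1] at h1
      have h2 : (d : ℂ) = ((∑ θ : IrrCharacter (P : Subgroup G),
          c θ * charDegree (θ : ↥(P : Subgroup G) → ℂ) : ℕ) : ℂ) := by
        rw [h1]
        push_cast
        refine Finset.sum_congr rfl fun θ _ => ?_
        rw [(hdθ θ).2.1]
      exact_mod_cast h2
    have hcf := isClassFunction_of_isCharacter (isCharacter_of_isIrr χ.2)
    -- each constituent has degree divisible by p ^ e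
    have hge : ∀ θ : IrrCharacter (P : Subgroup G), c θ ≠ 0 →
        classInner (indFun (P : Subgroup G) (θ : ↥(P : Subgroup G) → ℂ)) (χ : G → ℂ) ≠ 0 ∧
        p ^ e ∣ charDegree (θ : ↥(P : Subgroup G) → ℂ) := by
      intro θ hθ
      have h1 : classInner (indFun (P : Subgroup G) (θ : ↥(P : Subgroup G) → ℂ)) (χ : G → ℂ) ≠ 0 := by
        rw [frobenius_reciprocity _ _ _ hcf, ← classInner_conj_symm, hc θ]
        simpa using hθ
      refine ⟨h1, ?_⟩
      obtain ⟨x, y, hx, hy, hxy⟩ := degree_le_of_constituent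
        (isCharacter_indFun _ _ (isCharacter_of_isIrr θ.2)) χ.2 h1
      rw [indFun_one, (hdθ θ).2.1] at hx
      rw [hd1] at hy
      have hx' : m * charDegree (θ : ↥(P : Subgroup G) → ℂ) = x := by exact_mod_cast hx
      have hy' : d = y := by exact_mod_cast hy
      obtain ⟨f, hf, hf2⟩ := (Nat.dvd_prime_pow hp).mp (ha ▸ (hdθ θ).2.2)
      rw [hf2]
      apply pow_dvd_pow
      by_contra hlt
      push Not at hlt
      have h3 : p ^ f < p ^ e := Nat.pow_lt_pow_right hp.one_lt hlt
      rw [← hx', ← hy', hde, hf2] at hxy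
      have hm0 : 0 < m := Nat.pos_of_ne_zero (fun h => hidx (h ▸ dvd_zero p))
      have := Nat.le_of_mul_le_mul_left hxy hm0
      omega
    have hex : ∃ θ : IrrCharacter (P : Subgroup G), c θ ≠ 0 ∧
        charDegree (θ : ↥(P : Subgroup G) → ℂ) = p ^ e := by
      by_contra hcon
      push Not at hcon
      apply hidx
      have h1 : p ^ (e + 1) ∣ d := by
        rw [hsum]
        refine Finset.dvd_sum fun θ _ => ?_
        by_cases hθ : c θ = 0
        · rw [hθ, zero_mul]; exact dvd_zero _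
        · apply Dvd.dvd.mul_left
          obtain ⟨f, hf, hf2⟩ := (Nat.dvd_prime_pow hp).mp (ha ▸ (hdθ θ).2.2)
          have h2 := (hge θ hθ).2
          have h3 := hcon θ hθ
          rw [hf2] at h2 h3 ⊢
          have h4 := (Nat.pow_dvd_pow_iff_le_right hp.one_lt).mp h2
          apply pow_dvd_pow
          rcases Nat.lt_or_ge e f with h | h
          · exact h
          · exact absurd (by rw [le_antisymm h h4]) h3
      rw [hde, pow_succ, mul_comm m] at h1
      exact Nat.dvd_of_mul_dvd_mul_left (pow_pos hp.pos e) h1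
    obtain ⟨θ, hθ, hθe⟩ := hex
    refine ⟨P, θ, isCharacter_of_isIrr θ.2, ?_⟩
    symm
    apply eq_of_constituent (isCharacter_indFun _ _ (isCharacter_of_isIrr θ.2)) χ.2 (hge θ hθ).1
    rw [indFun_one, (hdθ θ).2.1, hθe, hd1, hde]
    push_cast
    rfl
  · rintro ⟨P, θ, hθ, hχθ⟩
    obtain ⟨a, ha⟩ := IsPGroup.iff_card.mp P.2
    obtain ⟨n, hn⟩ := char_degree hθ
    have h1 := congrFun hχθ 1
    rw [indFun_one, hd1, hn] at h1
    have h2 : d = (P : Subgroup G).index * n := by exact_mod_cast h1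
    obtain ⟨c, hc⟩ := hd2
    have hci := (P : Subgroup G).card_mul_index
    have hidx : 0 < (P : Subgroup G).index := Nat.pos_of_ne_zero Subgroup.index_ne_zero_of_finite
    have h3 : p ^ a = n * c := by
      have : (P : Subgroup G).index * p ^ a = (P : Subgroup G).index * (n * c) := by
        rw [← ha, mul_comm, hci, hc, h2]; ring
      exact Nat.eq_of_mul_eq_mul_left hidx this
    obtain ⟨k, -, hk⟩ := (Nat.dvd_prime_pow hp).mp (Dvd.intro_left n h3.symm)
    exact ⟨k, by rw [hc, hk, mul_comm]⟩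

end Cfsg.Agent.S4798
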