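import Cfsg.Statements.S4801
import Cfsg.Agent.Lib.helper8_Codegree

open Cfsg.Agent.Lib.CharBasic Cfsg.Agent.Lib.CharOrtho Cfsg.Agent.Lib.CharComplete Cfsg.Agent.Lib.CharMore Cfsg.Agent.Lib.helper8_Kernel Cfsg.Agent.Lib.helper8_Defect Cfsg.Agent.Lib.helper8_Codegree

set_option autoImplicit false
open Cfsg

namespace Cfsg.Agent.S4801

/-- The codegree of an irreducible complex character χ of a finite group G is [G : ker χ] / χ(1), where ker χ is the set of elements at which χ takes the value χ(1). Let S be a finite simple group and G a finite group such that every codegree of an irreducible character of S is a codegree of an irreducible character of G. Then the order of S divides the order of G. -/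
theorem result {S : Type*} [Group S] [Finite S] (hS : IsSimpleGroup S) {G : Type*} [Group G] [Finite G] (hsub : ∀ χ : Cfsg.IrrCharacter S, ∃ ψ : Cfsg.IrrCharacter G, (Nat.card S / (Nat.card {g : S // (χ : S → ℂ) g = (χ : S → ℂ) 1} * Cfsg.charDegree (χ : S → ℂ))) = (Nat.card G / (Nat.card {g : G // (ψ : G → ℂ) g = (ψ : G → ℂ) 1} * Cfsg.charDegree (ψ : G → ℂ)))) : Nat.card S ∣ Nat.card G := by
  rw [← Nat.factorization_prime_le_iff_dvd Nat.card_pos.ne' Nat.card_pos.ne']
  intro p hp
  by_cases hpS : p ∣ Nat.card S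
  swap
  · rw [Nat.factorization_eq_zero_of_not_dvd hpS]; exact Nat.zero_le _
  obtain ⟨χ, hne, hpd⟩ := exists_nontrivial_degree_not_dvd hp hpS
  obtain ⟨K, hKn, hK⟩ := exists_ker (isCharacter_of_isIrr χ.2)
  have hKbot : K = ⊥ := by
    rcases hKn.eq_bot_or_eq_top with h | h
    · exact h
    · exfalso
      apply hne
      apply eq_one_of_const χ.2
      intro g
      exact (hK g).1 (by rw [h]; exact Subgroup.mem_top g)
  obtain ⟨ψ, hψ⟩ := hsub χ
  rw [card_ker_eq hK, hKbot, Subgroup.card_bot, one_mul] at hψ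
  obtain ⟨h0, -, h5⟩ := irr_charDegree χ.2
  have h6 := card_ker_mul_degree_dvd ψ.2
  have h7 : Nat.card S / charDegree (χ : S → ℂ) ∣ Nat.card G := by
    rw [hψ]
    exact Nat.div_dvd_of_dvd h6
  have h8 := (Nat.factorization_le_iff_dvd
    (Nat.div_pos (Nat.le_of_dvd Nat.card_pos h5) h0).ne' Nat.card_pos.ne').2 h7 p
  rw [Nat.factorization_div h5, Finsupp.tsub_apply, Nat.factorization_eq_zero_of_not_dvd hpd,
    Nat.sub_zero] at h8
  exact h8

end Cfsg.Agent.S4801
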