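import Cfsg.Statements.S4802
import Cfsg.Agent.Lib.helper8_Kernel

open Cfsg.Agent.Lib.CharBasic Cfsg.Agent.Lib.CharOrtho Cfsg.Agent.Lib.CharComplete Cfsg.Agent.Lib.CharMore Cfsg.Agent.Lib.helper8_Kernel

set_option autoImplicit false
open Cfsg

namespace Cfsg.Agent.S4802

/-- Let N < M be normal subgroups of the finite group G and g ∈ M ∖ N. Then the conjugacy class of g is exactly M ∖ N if and only if every irreducible complex character of G whose kernel contains N takes the same value at all elements of M ∖ N, and every irreducible complex character of G whose kernel does not contain N vanishes at g. -/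
theorem result {G : Type*} [Group G] [Finite G] (N M : Subgroup G) [N.Normal] [M.Normal] (hNM : N < M) (g : G) (hgM : g ∈ M) (hgN : g ∉ N) : {h : G | IsConj g h} = (M : Set G) \ (N : Set G) ↔ ((∀ χ : Cfsg.IrrCharacter G, (∀ x ∈ N, (χ : G → ℂ) x = (χ : G → ℂ) 1) → ∀ x ∈ M, x ∉ N → ∀ y ∈ M, y ∉ N → (χ : G → ℂ) x = (χ : G → ℂ) y) ∧ (∀ χ : Cfsg.IrrCharacter G, (∃ x ∈ N, (χ : G → ℂ) x ≠ (χ : G → ℂ) 1) → (χ : G → ℂ) g = 0)) := by
  classical
  have := Fintype.ofFinite G
  have hmulN : ∀ a : G, a ∈ M → a ∉ N → ∀ n : N, a * n ∈ M ∧ a * (n : G) ∉ N := by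
    intro a haM haN n
    refine ⟨mul_mem haM (hNM.le n.2), fun h => haN ?_⟩
    have := mul_mem h (inv_mem n.2)
    rwa [mul_inv_cancel_right] at this
  have hNc : (Nat.card N : ℂ) ≠ 0 := by exact_mod_cast Nat.card_pos.ne'
  constructor
  · intro hcl
    have hconj : ∀ a : G, a ∈ M → a ∉ N → IsConj g a := by
      intro a haM haN
      have : a ∈ (M : Set G) \ (N : Set G) := ⟨haM, haN⟩
      rw [← hcl] at this
      exact this
    refine ⟨?_, ?_⟩
    · intro χ _ x hxM hxN y hyM hyN
      rw [← (isConj_iff_forall_irr g x).1 (hconj x hxM hxN) χ,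
        ← (isConj_iff_forall_irr g y).1 (hconj y hyM hyN) χ]
    · intro χ hχ
      have h0 := sum_mul_normal_eq_zero χ.2 N hχ g
      have h1 : ∀ n : N, (χ : G → ℂ) (g * n) = (χ : G → ℂ) g := by
        intro n
        obtain ⟨h2, h3⟩ := hmulN g hgM hgN n
        exact ((isConj_iff_forall_irr g _).1 (hconj _ h2 h3) χ).symm
      simp only [h1, Finset.sum_const, Finset.card_univ, nsmul_eq_mul] at h0
      have hc : (Fintype.card N : ℂ) ≠ 0 := by exact_mod_cast Fintype.card_ne_zero
      exact (mul_eq_zero.mp h0).resolve_left hc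
  · rintro ⟨ha, hb⟩
    ext a
    simp only [Set.mem_setOf_eq, Set.mem_diff, SetLike.mem_coe]
    constructor
    · intro hc
      obtain ⟨c, rfl⟩ := isConj_iff.1 hc
      refine ⟨‹M.Normal›.conj_mem g hgM c, fun h => hgN ?_⟩
      have := ‹N.Normal›.conj_mem _ h c⁻¹
      simpa [mul_assoc] using this
    · rintro ⟨haM, haN⟩
      set c : ℂ := (Nat.card (Subgroup.centralizer ({g} : Set G)) : ℂ) with hc
      have hc0 : c ≠ 0 := by rw [hc]; exact_mod_cast Nat.card_pos.ne'
      have hS : ∀ b : G, ∑ χ : IrrCharacter G, (χ : G → ℂ) g * (starRingEnd ℂ) ((χ : G → ℂ) b) =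
          if IsConj g b then c else 0 := by
        intro b
        split_ifs with h
        · exact second_orthogonality_conj g b h
        · exact second_orthogonality_not_conj g b h
      have hT : ∑ n : N, ∑ χ : IrrCharacter G,
          (χ : G → ℂ) g * (starRingEnd ℂ) ((χ : G → ℂ) (a * n)) = (Nat.card N : ℂ) * c := by
        rw [Finset.sum_comm, hc, ← second_orthogonality_conj g g (IsConj.refl g), Finset.mul_sum]
        refine Finset.sum_congr rfl fun χ _ => ?_
        by_cases hχ : ∀ x ∈ N, (χ : G → ℂ) x = (χ : G → ℂ) 1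
        · have h1 : ∀ n : N, (χ : G → ℂ) (a * n) = (χ : G → ℂ) g := by
            intro n
            obtain ⟨h2, h3⟩ := hmulN a haM haN n
            exact ha χ hχ _ h2 h3 g hgM hgN
          simp only [h1, Finset.sum_const, Finset.card_univ, nsmul_eq_mul,
            Nat.card_eq_fintype_card]
        · push Not at hχ
          rw [hb χ hχ]
          simp
      simp only [hS] at hT
      rw [← Finset.sum_filter, Finset.sum_const, nsmul_eq_mul] at hT
      have h5 := mul_right_cancel₀ hc0 hT
      rw [Nat.card_eq_fintype_card] at h5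
      have h6 : (Finset.univ.filter fun n : N => IsConj g (a * n)).card =
          (Finset.univ : Finset N).card := by
        rw [Finset.card_univ]; exact_mod_cast h5
      have h7 := Finset.filter_card_eq h6 1 (Finset.mem_univ _)
      simpa using h7

end Cfsg.Agent.S4802
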