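import Cfsg.Statements.S4808
import Cfsg.Agent.Lib.helper8_DefectZero
import Cfsg.Agent.Lib.helper8_Codegree

set_option autoImplicit false
open Cfsg Cfsg.Agent.Lib.CharBasic Cfsg.Agent.Lib.CharOrtho Cfsg.Agent.Lib.CharComplete
  Cfsg.Agent.Lib.CharMore Cfsg.Agent.Lib.helper8_Defect Cfsg.Agent.Lib.helper8_Kernel
  Cfsg.Agent.Lib.helper8_Codegree Cfsg.Agent.Lib.helper8_DefectZero

namespace Cfsg.Agent.S4808

/-- The codegree of an irreducible complex character χ of a finite group G is [G : ker χ] / χ(1), where ker χ is the set of elements at which χ takes the value χ(1). A prime divides the order of G if and only if it divides the codegree of some irreducible complex character of G. -/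
theorem result {G : Type*} [Group G] [Finite G] (p : ℕ) (hp : p.Prime) : p ∣ Nat.card G ↔ ∃ χ : Cfsg.IrrCharacter G, p ∣ (Nat.card G / (Nat.card {g : G // (χ : G → ℂ) g = (χ : G → ℂ) 1} * Cfsg.charDegree (χ : G → ℂ))) := by
  classical
  have := Fintype.ofFinite G
  constructor
  · intro hpG
    by_contra hcon
    push Not at hcon
    obtain ⟨y, hy⟩ := exists_prime_orderOf_dvd_card' p hpG (hp := ⟨hp⟩)
    have hy1 : y ≠ 1 := by
      rintro rfl
      rw [orderOf_one] at hy
      exact hp.one_lt.ne hy
    have key : ∀ χ : IrrCharacter G, (χ : G → ℂ) y = (χ : G → ℂ) 1 ∨ (χ : G → ℂ) y = 0 := by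
      intro χ
      obtain ⟨K, hKn, hK⟩ := exists_ker (isCharacter_of_isIrr χ.2)
      by_cases hyK : y ∈ K
      · exact Or.inl ((hK y).1 hyK)
      · right
        obtain ⟨ψ, hψ, hψχ⟩ := deflate K χ.2 (fun x hx => (hK x).1 hx)
        rw [← hψχ y]
        have hdeg : charDegree ψ = charDegree (χ : G → ℂ) := by
          have h1 := hψχ 1
          obtain ⟨-, h3, -⟩ := irr_charDegree χ.2
          rw [h3] at h1
          exact charDegree_of_eq h1
        refine vanish_of_defect_zero hp ⟨ψ, hψ⟩ ?_ (y := (QuotientGroup.mk y : G ⧸ K)) ?_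
        · have h2 := hcon χ
          rw [card_ker_eq hK] at h2
          change ¬ p ∣ Nat.card (G ⧸ K) / charDegree ψ
          rw [hdeg]
          have h3 : Nat.card (G ⧸ K) = Nat.card G / Nat.card K := by
            rw [← Subgroup.card_mul_index K, Nat.mul_div_cancel_left _ Nat.card_pos]
            rfl
          rw [h3, Nat.div_div_eq_div_mul]
          exact h2
        · have h4 : orderOf (QuotientGroup.mk y : G ⧸ K) = p := by
            apply orderOf_eq_prime (hp := ⟨hp⟩)
            · rw [← QuotientGroup.mk_pow, ← hy, pow_orderOf_eq_one]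
              rfl
            · intro h5
              exact hyK ((QuotientGroup.eq_one_iff y).mp h5)
          rw [h4]
    have h0 := second_orthogonality_not_conj y 1 (by
      intro h
      exact hy1 (isConj_one_left.mp h))
    have h1 : ∀ χ : IrrCharacter G, (χ : G → ℂ) y * (starRingEnd ℂ) ((χ : G → ℂ) 1) =
        ((if (χ : G → ℂ) y = (χ : G → ℂ) 1 then charDegree (χ : G → ℂ) ^ 2 else 0 : ℕ) : ℂ) := by
      intro χ
      obtain ⟨h0, h3, -⟩ := irr_charDegree χ.2
      split_ifs with h
      · rw [h, h3]
        simp [sq]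
      · rw [(key χ).resolve_left h]
        simp
    simp only [h1] at h0
    have h2 : ∑ χ : IrrCharacter G,
        (if (χ : G → ℂ) y = (χ : G → ℂ) 1 then charDegree (χ : G → ℂ) ^ 2 else 0 : ℕ) = 0 := by
      exact_mod_cast h0
    have h3 := (Finset.sum_eq_zero_iff.mp h2) ⟨1, isIrr_one⟩ (Finset.mem_univ _)
    simp only [Pi.one_apply, if_true] at h3
    have h4 : charDegree (1 : G → ℂ) = 1 := charDegree_of_eq (by simp)
    rw [h4] at h3
    simp at h3
  · rintro ⟨χ, hχ⟩
    have h1 := card_ker_mul_degree_dvd χ.2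
    exact hχ.trans (Nat.div_dvd_of_dvd h1)

end Cfsg.Agent.S4808
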