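import Cfsg.Statements.S4814
import Cfsg.Agent.Lib.helper8_Char

set_option autoImplicit false
open Cfsg Cfsg.Agent.Lib.CharBasic Cfsg.Agent.Lib.CharOrtho Cfsg.Agent.Lib.CharComplete Cfsg.Agent.Lib.CharMore Cfsg.Agent.Lib.helper8_Char

namespace Cfsg.Agent.S4814

/-- Let G be a finite group such that the sum, over the irreducible complex characters χ of G, of 1/χ(1)² is less than 2. Then every element of G is a product of two commutators. -/
theorem result {G : Type*} [Group G] [Finite G]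
    (h : ∑ᶠ χ : Cfsg.IrrCharacter G, 1 / ‖(χ : G → ℂ) 1‖ ^ 2 < (2 : ℝ)) (g : G) :
    ∃ a b c d : G, (a * b * a⁻¹ * b⁻¹) * (c * d * c⁻¹ * d⁻¹) = g := by
  classical
  have := Fintype.ofFinite G
  have hG : (Nat.card G : ℂ) ≠ 0 := by exact_mod_cast Nat.card_pos.ne'
  rw [finsum_eq_sum_of_fintype] at h
  set F : G → ℂ := fun z => ∑ χ : IrrCharacter G, (χ : G → ℂ) z / (χ : G → ℂ) 1 with hF
  have hconv : ∑ z : G, F z * F (z⁻¹ * g) =
      (Nat.card G : ℂ) * ∑ ψ : IrrCharacter G, (ψ : G → ℂ) g / (ψ : G → ℂ) 1 ^ 3 := by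
    calc ∑ z : G, F z * F (z⁻¹ * g) = ∑ y : G, F y⁻¹ * F (y * g) := by
          rw [← Equiv.sum_comp (Equiv.inv G)]; simp
      _ = ∑ χ : IrrCharacter G, ∑ ψ : IrrCharacter G, (1 / ((χ : G → ℂ) 1 * (ψ : G → ℂ) 1)) *
            ∑ y : G, (χ : G → ℂ) y⁻¹ * (ψ : G → ℂ) (y * g) := by
          have hexp : ∀ y : G, F y⁻¹ * F (y * g) = ∑ χ : IrrCharacter G, ∑ ψ : IrrCharacter G,
              ((χ : G → ℂ) y⁻¹ / (χ : G → ℂ) 1) * ((ψ : G → ℂ) (y * g) / (ψ : G → ℂ) 1) :=
            fun y => Finset.sum_mul_sum _ _ _ _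
          simp only [hexp]
          rw [Finset.sum_comm]
          refine Finset.sum_congr rfl fun χ _ => ?_
          rw [Finset.sum_comm]
          refine Finset.sum_congr rfl fun ψ _ => ?_
          rw [Finset.mul_sum]
          refine Finset.sum_congr rfl fun y _ => ?_
          have h1 := irr_degree_ne_zero χ.2
          have h2 := irr_degree_ne_zero ψ.2
          field_simp
      _ = ∑ χ : IrrCharacter G, ∑ ψ : IrrCharacter G,
            (if χ = ψ then (Nat.card G : ℂ) * ((ψ : G → ℂ) g / (ψ : G → ℂ) 1 ^ 3) else 0) := by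
          refine Finset.sum_congr rfl fun χ _ => ?_
          refine Finset.sum_congr rfl fun ψ _ => ?_
          rw [conv_irr χ.2 ψ.2]
          by_cases e : χ = ψ
          · subst e
            have h1 := irr_degree_ne_zero χ.2
            simp only [if_true]
            field_simp
          · have e' : (χ : G → ℂ) ≠ (ψ : G → ℂ) := fun h => e (Subtype.ext h)
            simp [e, e']
      _ = _ := by
          simp only [Finset.sum_ite_eq, Finset.mem_univ, if_true]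
          rw [Finset.mul_sum]
  -- the character sum is nonzero
  let triv : IrrCharacter G := ⟨1, isIrr_one⟩
  have hne : ∑ ψ : IrrCharacter G, (ψ : G → ℂ) g / (ψ : G → ℂ) 1 ^ 3 ≠ 0 := by
    intro h0
    rw [← Finset.add_sum_erase _ _ (Finset.mem_univ triv)] at h0 h
    have ht1 : (triv : G → ℂ) g / (triv : G → ℂ) 1 ^ 3 = 1 := by simp [triv]
    have ht2 : 1 / ‖(triv : G → ℂ) 1‖ ^ 2 = 1 := by simp [triv]
    rw [ht1] at h0
    rw [ht2] at h
    have h1 : ‖∑ ψ ∈ Finset.univ.erase triv, (ψ : G → ℂ) g / (ψ : G → ℂ) 1 ^ 3‖ = 1 := by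
      have : ∑ ψ ∈ Finset.univ.erase triv, (ψ : G → ℂ) g / (ψ : G → ℂ) 1 ^ 3 = -1 := by
        linear_combination h0
      rw [this]; simp
    have h2 : ‖∑ ψ ∈ Finset.univ.erase triv, (ψ : G → ℂ) g / (ψ : G → ℂ) 1 ^ 3‖ ≤
        ∑ ψ ∈ Finset.univ.erase triv, 1 / ‖(ψ : G → ℂ) 1‖ ^ 2 := by
      refine (norm_sum_le _ _).trans (Finset.sum_le_sum fun ψ _ => ?_)
      have hpos : 0 < ‖(ψ : G → ℂ) 1‖ := norm_pos_iff.mpr (irr_degree_ne_zero ψ.2)
      rw [norm_div, norm_pow, div_le_div_iff₀ (by positivity) (by positivity)]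
      have := norm_le_degree (isCharacter_of_isIrr ψ.2) g
      nlinarith [sq_nonneg ‖(ψ : G → ℂ) 1‖, mul_le_mul_of_nonneg_right this (sq_nonneg ‖(ψ : G → ℂ) 1‖)]
    linarith
  have hex : ∃ z : G, F z * F (z⁻¹ * g) ≠ 0 := by
    by_contra hcon
    push Not at hcon
    rw [Finset.sum_eq_zero (fun z _ => hcon z)] at hconv
    exact (mul_ne_zero hG hne) hconv.symm
  obtain ⟨z, hz⟩ := hex
  have hcomm : ∀ w : G, F w ≠ 0 → ∃ a b : G, a * b * a⁻¹ * b⁻¹ = w := by
    intro w hw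
    have h1 := Cfsg.Agent.Lib.CharCount.count_commutator w
    have h2 : (Finset.univ.filter fun xy : G × G => xy.1 * xy.2 * xy.1⁻¹ * xy.2⁻¹ = w).card ≠ 0 := by
      intro h0
      rw [h0, Nat.cast_zero] at h1
      exact (mul_ne_zero hG hw) h1.symm
    obtain ⟨xy, hxy⟩ := Finset.card_pos.mp (Nat.pos_of_ne_zero h2)
    exact ⟨xy.1, xy.2, (Finset.mem_filter.mp hxy).2⟩
  obtain ⟨a, b, hab⟩ := hcomm z (left_ne_zero_of_mul hz)
  obtain ⟨c, d, hcd⟩ := hcomm _ (right_ne_zero_of_mul hz)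
  exact ⟨a, b, c, d, by rw [hab, hcd]; group⟩

end Cfsg.Agent.S4814
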