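import Cfsg.Statements.S4825
import Mathlib
import Mathlib
import Cfsg.Agent.Lib.Helper2_BlockCover2
import Cfsg.Agent.Lib.Helper2_BlockOrtho2
import Cfsg.Agent.Lib.Helper2_PPart
import Cfsg.Agent.Lib.helper8_Defect
import Cfsg.Agent.Lib.helper8_ModP


set_option autoImplicit false
open Cfsg

namespace Cfsg.Agent.S4825

open Cfsg Cfsg.Agent.Lib.Helper2_BlockLocal Cfsg.Agent.Lib.Helper2_BlockOm
  Cfsg.Agent.Lib.Helper2_BlockOsima Cfsg.Agent.Lib.Helper2_BlockBasic
  Cfsg.Agent.Lib.Helper2_BlockCover2 Cfsg.Agent.Lib.Helper2_BlockOrtho2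
  Cfsg.Agent.Lib.CharBasic Cfsg.Agent.Lib.CharOrtho
  Cfsg.Agent.Lib.CharComplete Cfsg.Agent.Lib.CharIntegral Cfsg.Agent.Lib.CharMore
  Cfsg.Agent.Lib.CharInd Cfsg.Agent.Lib.CharClifford
open scoped ComplexConjugate Pointwise

lemma sq_mod_small {p d : ℕ} (hp : p = 2 ∨ p = 3) (h : ¬ p ∣ d) : d ^ 2 % p = 1 := by
  rcases hp with rfl | rfl
  · have h1 : d % 2 = 1 := by omega
    rw [Nat.pow_mod, h1]
  · have h1 : d % 3 = 1 ∨ d % 3 = 2 := by omega
    rcases h1 with h1 | h1 <;> rw [Nat.pow_mod, h1]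

/-- Let p be a prime, G a finite group with Sylow p-subgroup P, M a maximal ideal of the algebraic integers containing p, and B a p-block of G with defect group P. Let N be a normal subgroup of G not containing P and θ an irreducible character of N. Then the number of irreducible characters in B of degree prime to p lying over θ (having θ as a constituent on restriction to N) is either 0 or at least 2, and when p ≤ 3 it is divisible by p. -/
theorem result {G : Type*} [Group G] [Fintype G] (p : ℕ) [Fact p.Prime] (P : Sylow p G) (M : Ideal Cfsg.AlgInt) (hM : Cfsg.IsPModular p M) (B : Set (Cfsg.IrrCharacter G)) (hB : Cfsg.IsPBlock M B) (hBP : Cfsg.IsDefectGroup p M B P) (N : Subgroup G) [N.Normal] [Fintype N] (hPN : ¬ (P : Subgroup G) ≤ N) (θ : Cfsg.IrrCharacter N) :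
    (Nat.card {χ : Cfsg.IrrCharacter G // χ ∈ B ∧ ¬ p ∣ Cfsg.charDegree (χ : G → ℂ) ∧ Cfsg.classInner (fun n : N => (χ : G → ℂ) n) (θ : N → ℂ) ≠ 0} = 0 ∨
      2 ≤ Nat.card {χ : Cfsg.IrrCharacter G // χ ∈ B ∧ ¬ p ∣ Cfsg.charDegree (χ : G → ℂ) ∧ Cfsg.classInner (fun n : N => (χ : G → ℂ) n) (θ : N → ℂ) ≠ 0}) ∧
    (p ≤ 3 → p ∣ Nat.card {χ : Cfsg.IrrCharacter G // χ ∈ B ∧ ¬ p ∣ Cfsg.charDegree (χ : G → ℂ) ∧ Cfsg.classInner (fun n : N => (χ : G → ℂ) n) (θ : N → ℂ) ≠ 0}) := by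
  classical
  have hPr := isPrime_of_modular hM
  have hp : p.Prime := Fact.out
  have hN : N.Normal := inferInstance
  obtain ⟨x, hxP, hxN⟩ := SetLike.not_le_iff_exists.1 hPN
  obtain ⟨k, hk⟩ := P.2.exists_orderOf_eq_pow ⟨x, hxP⟩
  rw [Subgroup.orderOf_mk] at hk
  set A := conjUnion N hN {θ} with hAdef
  have hA : Stable N hN A := conjUnion_stable N hN {θ}
  set d := extCoeff N A with hd
  have hOm : ∀ χ : IrrCharacter G, Om d (χ : G → ℂ) =
      if classInner (fun n : N => (χ : G → ℂ) n) (θ : N → ℂ) ≠ 0 then 1 else 0 := by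
    intro χ
    obtain ⟨θ', hθ'⟩ := exists_under N χ
    rw [hd, Om_extCoeff N hN hA χ θ' hθ']
    have hiff : θ' ∈ A ↔ classInner (fun n : N => (χ : G → ℂ) n) (θ : N → ℂ) ≠ 0 := by
      constructor
      · rintro ⟨g, θ'', hθ'', rfl⟩
        rw [Set.mem_singleton_iff] at hθ''
        subst hθ''
        rw [conjIrr_coe, classInner_restrict_conjFun N hN _ (irr_classFunction χ)] at hθ'
        exact hθ'
      · intro hX
        obtain ⟨g, hg⟩ := clifford_conj N hN χ.2 θ.2 θ'.2 hX hθ'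
        exact ⟨g, θ, rfl, Subtype.ext hg⟩
    simp only [hiff]
  have hsum : ∀ χ : IrrCharacter G, ∑ y, d y * (χ : G → ℂ) y =
      if classInner (fun n : N => (χ : G → ℂ) n) (θ : N → ℂ) ≠ 0 then (χ : G → ℂ) 1 else 0 := by
    intro χ
    have h1 := hOm χ
    unfold Om at h1
    rw [div_eq_iff (irr_degree_ne_zero χ.2)] at h1
    rw [h1]
    split_ifs <;> simp
  have hxpart : IsPPart p x x :=
    ⟨1, mul_one x, Commute.one_right x, ⟨k, hk⟩, by rw [orderOf_one]; exact hp.one_lt.ne' ∘ Nat.dvd_one.1⟩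
  have hzero : ∑ χ : IrrCharacter G, (if χ ∈ B then ∑ y, d y * (χ : G → ℂ) y else 0) *
      conj ((χ : G → ℂ) x) = 0 := by
    have e1 : ∀ χ : IrrCharacter G, (if χ ∈ B then ∑ y, d y * (χ : G → ℂ) y else 0) *
        conj ((χ : G → ℂ) x) =
        ∑ y, d y * ((if χ ∈ B then (χ : G → ℂ) y else 0) * conj ((χ : G → ℂ) x)) := by
      intro χ
      split_ifs
      · rw [Finset.sum_mul]
        exact Finset.sum_congr rfl fun y _ => by ring
      · simp
    simp only [e1]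
    rw [Finset.sum_comm]
    refine Finset.sum_eq_zero fun y _ => ?_
    rw [← Finset.mul_sum]
    by_cases hy : y ∈ N
    · obtain ⟨a, ha⟩ := Cfsg.Agent.Lib.Helper2_PPart.exists_isPPart hp y
      rw [block_orthogonality hM ha hxpart ?_ hB, mul_zero]
      intro hc
      obtain ⟨c, hc⟩ := isConj_iff.1 hc
      apply hxN
      rw [← hc]
      exact hN.conj_mem _ (N.pow_mem hy a) c
    · rw [hd]
      unfold extCoeff
      rw [extendByZero_not_mem N _ hy, zero_mul]
  simp only [hsum] at hzero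
  set BX := Finset.univ.filter (fun χ : IrrCharacter G => χ ∈ B ∧
    classInner (fun n : N => (χ : G → ℂ) n) (θ : N → ℂ) ≠ 0) with hBX
  have hdeg : ∀ χ : IrrCharacter G, (χ : G → ℂ) 1 = (charDegree (χ : G → ℂ) : ℂ) :=
    fun χ => (Cfsg.Agent.Lib.helper8_Defect.irr_charDegree χ.2).2.1
  have hE : ∑ χ ∈ BX, (χ : G → ℂ) 1 * conj ((χ : G → ℂ) x) = 0 := by
    rw [← hzero, hBX, Finset.sum_filter]
    refine Finset.sum_congr rfl fun χ _ => ?_
    by_cases h1 : χ ∈ B <;>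
      by_cases h2 : classInner (fun n : N => (χ : G → ℂ) n) (θ : N → ℂ) = 0 <;> simp [h1, h2]
  have hdvd : p ∣ ∑ χ ∈ BX, charDegree (χ : G → ℂ) ^ 2 := by
    rw [← ideal_natCast_iff hM]
    have e1 : ((∑ χ ∈ BX, charDegree (χ : G → ℂ) ^ 2 : ℕ) : ℂ) =
        ∑ χ ∈ BX, (χ : G → ℂ) 1 * ((χ : G → ℂ) 1 - conj ((χ : G → ℂ) x)) := by
      simp only [mul_sub, Finset.sum_sub_distrib]
      rw [hE, sub_zero]
      push_cast
      exact Finset.sum_congr rfl fun χ _ => by rw [hdeg χ]; ring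
    rw [e1]
    refine ideal_sum hPr _ _ fun χ _ => ?_
    rw [hdeg χ]
    apply ideal_mul_left hPr (ring_natCast hPr _)
    rw [← hdeg χ, ← Cfsg.Agent.Lib.helper8_Defect.inv_of_isCharacter (isCharacter_of_isIrr χ.2)]
    apply Cfsg.Agent.Lib.helper8_ModP.char_congr_one hM (isCharacter_of_isIrr χ.2) x⁻¹ (j := k)
    rw [inv_pow, ← hk, pow_orderOf_eq_one, inv_one]
  set Y := Finset.univ.filter (fun χ : IrrCharacter G => χ ∈ B ∧
    ¬ p ∣ charDegree (χ : G → ℂ) ∧
    classInner (fun n : N => (χ : G → ℂ) n) (θ : N → ℂ) ≠ 0) with hY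
  have hcard : Nat.card {χ : IrrCharacter G // χ ∈ B ∧ ¬ p ∣ charDegree (χ : G → ℂ) ∧
      classInner (fun n : N => (χ : G → ℂ) n) (θ : N → ℂ) ≠ 0} = Y.card := by
    rw [Nat.card_eq_fintype_card, Fintype.card_subtype]
  rw [hcard]
  have hYdvd : p ∣ ∑ χ ∈ Y, charDegree (χ : G → ℂ) ^ 2 := by
    have e1 : Y = BX.filter (fun χ : IrrCharacter G => ¬ p ∣ charDegree (χ : G → ℂ)) := by
      ext χ
      simp only [hY, hBX, Finset.mem_filter, Finset.mem_univ, true_and]
      tauto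
    have e2 := Finset.sum_filter_add_sum_filter_not BX
      (fun χ : IrrCharacter G => ¬ p ∣ charDegree (χ : G → ℂ))
      (fun χ => charDegree (χ : G → ℂ) ^ 2)
    rw [← e1] at e2
    have e3 : p ∣ ∑ χ ∈ BX.filter (fun χ : IrrCharacter G => ¬ ¬ p ∣ charDegree (χ : G → ℂ)),
        charDegree (χ : G → ℂ) ^ 2 := by
      refine Finset.dvd_sum fun χ hχ => ?_
      have := (Finset.mem_filter.1 hχ).2
      rw [not_not] at this
      exact dvd_pow this two_ne_zero
    rw [← e2] at hdvd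
    exact (Nat.dvd_add_left e3).1 hdvd
  constructor
  · by_contra hcon
    push Not at hcon
    have h1 : Y.card = 1 := by omega
    obtain ⟨χ, hχ⟩ := Finset.card_eq_one.1 h1
    rw [hχ, Finset.sum_singleton] at hYdvd
    have h2 : χ ∈ Y := by rw [hχ]; exact Finset.mem_singleton_self χ
    exact (Finset.mem_filter.1 h2).2.2.1 (hp.dvd_of_dvd_pow hYdvd)
  · intro hp3
    have hp23 : p = 2 ∨ p = 3 := by
      have := hp.two_le
      omega
    have h1 : (∑ χ ∈ Y, charDegree (χ : G → ℂ) ^ 2) % p = Y.card % p := by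
      rw [Finset.sum_nat_mod]
      congr 1
      rw [Finset.card_eq_sum_ones]
      exact Finset.sum_congr rfl fun χ hχ => sq_mod_small hp23 (Finset.mem_filter.1 hχ).2.2.1
    rw [Nat.dvd_iff_mod_eq_zero] at hYdvd ⊢
    rw [← h1, hYdvd]

end Cfsg.Agent.S4825
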