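import Cfsg.Statements.S4837
import Mathlib
import Cfsg.Agent.Lib.CharGagola3
import Cfsg.Agent.Lib.CharThompson


set_option autoImplicit false
open Cfsg

namespace Cfsg.Agent.S4837

open Representation Module Cfsg.Agent.Lib.CharBasic Cfsg.Agent.Lib.CharOrtho
  Cfsg.Agent.Lib.CharComplete Cfsg.Agent.Lib.CharIntegral Cfsg.Agent.Lib.CharMore
  Cfsg.Agent.Lib.CharInd Cfsg.Agent.Lib.CharGallagher Cfsg.Agent.Lib.CharQuot
  Cfsg.Agent.Lib.CharGagola Cfsg.Agent.Lib.CharGagola2 Cfsg.Agent.Lib.CharGagola3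
  Cfsg.Agent.Lib.CharClifford Cfsg.Agent.Lib.CharIto Cfsg.Agent.Lib.CharThompson
open scoped ComplexConjugate

theorem index_centralizer {G : Type*} [Group G] [Finite G] (N : Subgroup G) [hNn : N.Normal] {y : G}
    (hy : y ∈ N) (hy1 : y ≠ 1) (hconj : ∀ b ∈ N, b ≠ 1 → IsConj y b) :
    (Subgroup.centralizer ({y} : Set G)).index = Nat.card N - 1 := by
  have h1 := MulAction.index_stabilizer (ConjAct G) y
  have h2 : MulAction.orbit (ConjAct G) y = (N : Set G) \ {1} := by
    ext g
    rw [ConjAct.mem_orbit_conjAct, Set.mem_sdiff, Set.mem_singleton_iff]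
    constructor
    · intro hc
      obtain ⟨c, hc⟩ := isConj_iff.mp hc
      have hy' : y = c * g * c⁻¹ := hc.symm
      constructor
      · have : g = c⁻¹ * y * c⁻¹⁻¹ := by rw [hy']; group
        rw [this]
        exact hNn.conj_mem y hy _
      · rintro rfl
        apply hy1
        rw [hy']; group
    · rintro ⟨hg, hg1⟩
      exact (hconj g hg hg1).symm
  have h3 : (MulAction.stabilizer (ConjAct G) y).index =
      (Subgroup.centralizer ({y} : Set G)).index := by
    rw [Subgroup.centralizer_eq_comap_stabilizer]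
    exact (Subgroup.index_comap_of_surjective _ (ConjAct.toConjAct.surjective)).symm
  rw [← h3, h1, h2, Set.ncard_sdiff (by simp), Set.ncard_singleton]
  rfl

/-- Let G be a finite group of order greater than 2 with an irreducible character χ nonzero on exactly two conjugacy classes, and let N be the set of elements where χ is nonzero, given as a nontrivial normal p-subgroup of G for the prime p. Then for every nonidentity x in N the centralizer C_G(x) is a Sylow p-subgroup of G, and for every irreducible character λ ≠ 1 of N the stabilizer of λ in G (its inertia group) is a Sylow p-subgroup of G. -/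
theorem result {G : Type*} [Group G] [Finite G] (hG : 2 < Nat.card G) (χ : Cfsg.IrrCharacter G) (hχ : Nat.card {C : ConjClasses G // ∃ g ∈ C.carrier, (χ : G → ℂ) g ≠ 0} = 2) (p : ℕ) [Fact p.Prime] (N : Subgroup G) [N.Normal] (hN : ∀ g : G, g ∈ N ↔ (χ : G → ℂ) g ≠ 0) (hNp : IsPGroup p N) (hN1 : N ≠ ⊥) :
    (∀ x ∈ N, x ≠ 1 → ∃ P : Sylow p G, Subgroup.centralizer ({x} : Set G) = P) ∧
      (∀ μ : Cfsg.IrrCharacter N, (μ : N → ℂ) ≠ (fun _ => (1 : ℂ)) → ∃ P : Sylow p G, ∀ g : G, g ∈ (P : Subgroup G) ↔ ∀ n n' : N, (n' : G) = g * n * g⁻¹ → (μ : N → ℂ) n' = (μ : N → ℂ) n) := by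
  classical
  haveI := Fintype.ofFinite G
  have hNn : N.Normal := inferInstance
  have hH := hyp_of_char hG χ hχ p N hN hNp hN1
  obtain ⟨x, hx1, hx0, hvan⟩ := exists_x χ hχ
  have hxN : x ∈ N := (hN x).2 hx0
  have hidx : ∀ y ∈ N, y ≠ 1 → (Subgroup.centralizer ({y} : Set G)).index = Nat.card N - 1 := by
    intro y hy hy1
    exact index_centralizer N hy hy1 (fun b hb hb1 => hH.conj y hy b hb hy1 hb1)
  obtain ⟨k, hk⟩ := IsPGroup.iff_card.mp hNp
  have hk0 : k ≠ 0 := by
    rintro rfl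
    rw [pow_zero] at hk
    exact hN1 (Subgroup.card_eq_one.mp hk)
  have hp := (Fact.out : p.Prime)
  have hndvd : ¬ p ∣ Nat.card N - 1 := by
    intro hd
    have h1 : p ∣ Nat.card N := by rw [hk]; exact dvd_pow_self p hk0
    have h2 : 0 < Nat.card N := Nat.card_pos
    have h3 : p ∣ Nat.card N - (Nat.card N - 1) := Nat.dvd_sub h1 hd
    have h4 : Nat.card N - (Nat.card N - 1) = 1 := by omega
    rw [h4] at h3
    exact hp.one_lt.ne' (Nat.dvd_one.mp h3)
  have hpos : 0 < Nat.card N - 1 := by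
    rcases Nat.eq_zero_or_pos (Nat.card N - 1) with h | h
    · rw [h] at hndvd; exact absurd (dvd_zero p) hndvd
    · exact h
  refine ⟨?_, ?_⟩
  · intro y hy hy1
    refine ⟨(centralizer_isPGroup hH hy hy1).toSylow (by rw [hidx y hy hy1]; exact hndvd), ?_⟩
    rw [IsPGroup.toSylow_coe]
  have hinner : ∀ μ : IrrCharacter N, (μ : N → ℂ) ≠ (fun _ => (1:ℂ)) →
      classInner (fun n : N => (χ : G → ℂ) n) (μ : N → ℂ) ≠ 0 := by
    intro μ hμ
    have h0 : classInner (μ : N → ℂ) 1 = 0 := classInner_irr_ne μ.2 isIrr_one hμ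
    have hNc : (Nat.card N : ℂ) ≠ 0 := by exact_mod_cast Nat.card_pos.ne'
    have h1 : ∑ n : N, (μ : N → ℂ) n = 0 := by
      unfold classInner at h0
      have := (mul_eq_zero.mp h0).resolve_left (inv_ne_zero hNc)
      simpa using this
    have h2 : ∀ n : N, (χ : G → ℂ) n = (χ : G → ℂ) x +
        (if n = 1 then (χ : G → ℂ) 1 - (χ : G → ℂ) x else 0) := by
      intro n
      by_cases hn : n = 1
      · subst hn; simp
      · rw [if_neg hn, add_zero]
        rcases hvan n ((hN n).1 n.2) with h | h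
        · exact absurd (Subtype.ext h) hn
        · obtain ⟨c, hc⟩ := isConj_iff.mp h
          rw [← hc]
          exact isClassFunction_of_isCharacter (isCharacter_of_isIrr χ.2) x c
    unfold classInner
    refine mul_ne_zero (inv_ne_zero hNc) ?_
    have h3 : ∑ n : N, (χ : G → ℂ) n * conj ((μ : N → ℂ) n) =
        ((χ : G → ℂ) 1 - (χ : G → ℂ) x) * conj ((μ : N → ℂ) 1) := by
      simp_rw [h2, add_mul, Finset.sum_add_distrib, ← Finset.mul_sum, ← map_sum, h1, ite_mul,
        zero_mul]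
      simp
    rw [h3]
    refine mul_ne_zero (sub_ne_zero.mpr fun h => hx1 (faithful χ hG hx1 hvan x h.symm)) ?_
    rw [Ne, map_eq_zero]; exact irr_degree_ne_zero μ.2
  letI := irrAction N hNn
  have horb : ∀ μ : IrrCharacter N, (μ : N → ℂ) ≠ (fun _ => (1:ℂ)) →
      MulAction.orbit G μ = ({⟨1, isIrr_one⟩} : Set (IrrCharacter N))ᶜ := by
    intro μ hμ
    ext ν
    rw [Set.mem_compl_iff, Set.mem_singleton_iff]
    constructor
    · rintro ⟨g, rfl⟩ h
      apply hμ
      have h1 : μ = g⁻¹ • (⟨1, isIrr_one⟩ : IrrCharacter N) := eq_inv_smul_iff.mpr h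
      rw [h1]
      rfl
    · intro h
      obtain ⟨g, hg⟩ := clifford_conj N hNn χ.2 μ.2 ν.2 (hinner μ hμ)
        (hinner ν (fun h' => h (Subtype.ext h')))
      exact ⟨g⁻¹, Subtype.ext (by
        show conjFun N hNn μ (g⁻¹)⁻¹ = ν
        rw [inv_inv, hg])⟩
  have hcardIrr : Nat.card (IrrCharacter N) = Nat.card N := by
    have h1 := sum_sq_degree (G := N)
    have h2 : ∀ ψ : IrrCharacter N, (ψ : N → ℂ) 1 ^ 2 = 1 := by
      intro ψ
      rw [degree_one_of_comm (fun a b => Subtype.ext (hH.comm a a.2 b b.2)) ψ.2, one_pow]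
    simp_rw [h2] at h1
    rw [Finset.sum_const, Finset.card_univ, nsmul_eq_mul, mul_one] at h1
    rw [Nat.card_eq_fintype_card]
    exact_mod_cast h1
  intro μ hμ
  have hst : (MulAction.stabilizer G μ).index = Nat.card N - 1 := by
    rw [MulAction.index_stabilizer, horb μ hμ, Set.ncard_compl, Set.ncard_singleton, hcardIrr]
  have hcard : Nat.card (MulAction.stabilizer G μ) =
      Nat.card (Subgroup.centralizer ({x} : Set G)) := by
    have h1 := (MulAction.stabilizer G μ).card_mul_index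
    have h2 := (Subgroup.centralizer ({x} : Set G)).card_mul_index
    rw [hst] at h1
    rw [hidx x hxN hx1] at h2
    exact Nat.eq_of_mul_eq_mul_right hpos (h1.trans h2.symm)
  have hpg : IsPGroup p (MulAction.stabilizer G μ) := by
    obtain ⟨m, hm⟩ := IsPGroup.iff_card.mp (centralizer_isPGroup hH hxN hx1)
    exact IsPGroup.of_card (hcard.trans hm)
  refine ⟨hpg.toSylow (by rw [hst]; exact hndvd), ?_⟩
  intro g
  rw [← SetLike.mem_coe, IsPGroup.toSylow_coe, SetLike.mem_coe, MulAction.mem_stabilizer_iff]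
  constructor
  · intro h n n' hn
    have h1 : conjFun N hNn μ g⁻¹ = μ := congrArg Subtype.val h
    have h2 := congrFun h1 n'
    rw [conjFun_apply] at h2
    rw [← h2]
    refine congrArg (μ : N → ℂ) (Subtype.ext ?_)
    show g⁻¹ * (n' : G) * g⁻¹⁻¹ = n
    rw [hn]; group
  · intro h
    apply Subtype.ext
    show conjFun N hNn μ g⁻¹ = μ
    ext n
    rw [conjFun_apply]
    exact (h ⟨g⁻¹ * n * g⁻¹⁻¹, hNn.conj_mem n n.2 g⁻¹⟩ n (by
      show (n : G) = g * (g⁻¹ * n * g⁻¹⁻¹) * g⁻¹
      group)).symm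

end Cfsg.Agent.S4837
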