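import Cfsg.Statements.S4838
import Mathlib
import Cfsg.Agent.Lib.CharGagola3
import Cfsg.Agent.S4837


set_option autoImplicit false
open Cfsg

namespace Cfsg.Agent.S4838

open Cfsg.Agent.Lib.CharQuot
  Cfsg.Agent.Lib.CharGagola Cfsg.Agent.Lib.CharGagola2 Cfsg.Agent.Lib.CharGagola3
open scoped commutatorElement

theorem index_eq_ncard {H : Type*} [Group H] (y : H) :
    (Subgroup.centralizer ({y} : Set H)).index = {g : H | IsConj y g}.ncard := by
  have h1 := MulAction.index_stabilizer (ConjAct H) y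
  have h2 : MulAction.orbit (ConjAct H) y = {g : H | IsConj y g} := by
    ext g
    rw [ConjAct.mem_orbit_conjAct, Set.mem_ofPred_eq]
    exact ⟨fun h => h.symm, fun h => h.symm⟩
  have h3 : (MulAction.stabilizer (ConjAct H) y).index =
      (Subgroup.centralizer ({y} : Set H)).index := by
    rw [Subgroup.centralizer_eq_comap_stabilizer]
    exact (Subgroup.index_comap_of_surjective _ (ConjAct.toConjAct.surjective)).symm
  rw [← h3, h1, h2]

theorem index_eq_sum {H : Type*} [Group H] [Fintype H] (y : H) [DecidablePred fun g : H => IsConj y g] :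
    (Subgroup.centralizer ({y} : Set H)).index = ∑ g : H, if IsConj y g then 1 else 0 := by
  rw [index_eq_ncard, Set.ncard_eq_toFinset_card', Finset.sum_boole]
  simp

theorem normal_le_sylow {G : Type*} [Group G] [Finite G] {p : ℕ} [Fact p.Prime] (N : Subgroup G)
    [hN : N.Normal] (hp : IsPGroup p N) (S : Sylow p G) : N ≤ S := by
  obtain ⟨S', hS'⟩ := hp.exists_le_sylow
  obtain ⟨g, hg⟩ := MulAction.exists_smul_eq G S' S
  intro x hx
  rw [← hg, Sylow.smul_def, Sylow.pointwise_smul_def, Subgroup.mem_pointwise_smul_iff_inv_smul_mem]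
  apply hS'
  have := hN.conj_mem x hx g⁻¹
  simpa [MulAut.smul_def] using this

theorem card_cent_eq {G : Type*} [Group G] [Finite G] {p : ℕ} [Fact p.Prime] {N : Subgroup G}
    [hNn : N.Normal] (h : Hyp p N) {x : G} (hx : x ∉ N) :
    Nat.card (Subgroup.centralizer ({x} : Set G)) =
      Nat.card (Subgroup.centralizer ({(x : G ⧸ N)} : Set (G ⧸ N))) := by
  classical
  haveI := Fintype.ofFinite G
  haveI := Fintype.ofFinite (G ⧸ N)
  have h1 : ∀ g : G, IsConj x g ↔ IsConj (x : G ⧸ N) (g : G ⧸ N) := by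
    intro g
    constructor
    · intro hc
      exact (QuotientGroup.mk' N).map_isConj hc
    · intro hc
      obtain ⟨c, hc⟩ := isConj_iff.mp hc
      obtain ⟨c, rfl⟩ := QuotientGroup.mk_surjective c
      have h2 : ((c * x * c⁻¹ : G) : G ⧸ N) = (g : G ⧸ N) := hc
      rw [QuotientGroup.eq] at h2
      -- `(c x c⁻¹)⁻¹ g ∈ N`
      have h3 : c⁻¹ * ((c * x * c⁻¹)⁻¹ * g) * c⁻¹⁻¹ ∈ N := hNn.conj_mem _ h2 c⁻¹
      have h4 := h.cam x hx _ h3
      have h5 : x * (c⁻¹ * ((c * x * c⁻¹)⁻¹ * g) * c⁻¹⁻¹) = c⁻¹ * g * c⁻¹⁻¹ := by group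
      rw [h5] at h4
      exact h4.trans (isConj_iff.mpr ⟨c, by group⟩)
  have h2 : (Subgroup.centralizer ({x} : Set G)).index =
      Nat.card N * (Subgroup.centralizer ({(x : G ⧸ N)} : Set (G ⧸ N))).index := by
    rw [index_eq_sum, index_eq_sum]
    have := sum_comp_mk N (fun q : G ⧸ N => if IsConj (x : G ⧸ N) q then 1 else 0)
    rw [smul_eq_mul] at this
    rw [← this]
    refine Finset.sum_congr rfl fun g _ => ?_
    simp only [h1 g]
  have h3 := (Subgroup.centralizer ({x} : Set G)).card_mul_index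
  have h4 := (Subgroup.centralizer ({(x : G ⧸ N)} : Set (G ⧸ N))).card_mul_index
  have h5 := N.card_mul_index
  have h6 : Nat.card (G ⧸ N) = N.index := rfl
  have hpos : 0 < (Subgroup.centralizer ({x} : Set G)).index :=
    Nat.pos_of_ne_zero Subgroup.index_ne_zero_of_finite
  apply Nat.eq_of_mul_eq_mul_right hpos
  rw [h3, h2, ← h5, ← h6, ← h4]
  ring

theorem index_le_card {H : Type*} [Group H] [Finite H] (z : H) (Z : Subgroup H)
    (hz : ∀ u : H, ⁅z, u⁆ ∈ Z) : (Subgroup.centralizer ({z} : Set H)).index ≤ Nat.card Z := by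
  rw [index_eq_ncard]
  have h1 : {g : H | IsConj z g} ⊆ (fun w => w * z) '' (Z : Set H) := by
    intro g hg
    obtain ⟨c, hc⟩ := isConj_iff.mp hg
    refine ⟨(⁅z, c⁆)⁻¹, Z.inv_mem (hz c), ?_⟩
    show (⁅z, c⁆)⁻¹ * z = g
    rw [← hc, commutatorElement_def]
    group
  calc {g : H | IsConj z g}.ncard ≤ ((fun w => w * z) '' (Z : Set H)).ncard :=
        Set.ncard_le_ncard h1 (Set.toFinite _)
    _ ≤ (Z : Set H).ncard := Set.ncard_image_le (Set.toFinite _)
    _ = Nat.card Z := rfl

/-- The key step. -/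
theorem step {G : Type*} [Group G] [Finite G] {p : ℕ} [hp : Fact p.Prime] {N : Subgroup G}
    [hNn : N.Normal] (h : Hyp p N) (P : Sylow p G) (Z : Subgroup ↥(P : Subgroup G))
    (hZ : Nat.card Z < Nat.card N) (z : ↥(P : Subgroup G)) (hz : ∀ u, ⁅z, u⁆ ∈ Z) :
    (z : G) ∈ N := by
  by_contra hzN
  have h1 := index_le_card z Z hz
  set C := Subgroup.centralizer ({z} : Set ↥(P : Subgroup G)) with hC
  have h2 := C.card_mul_index
  have hCp : IsPGroup p C := P.2.to_subgroup C
  obtain ⟨a, ha⟩ := IsPGroup.iff_card.mp hCp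
  obtain ⟨k, hk⟩ := IsPGroup.iff_card.mp h.pgroup
  have h3 : Nat.card C ∣ Nat.card (Subgroup.centralizer ({(z : G)} : Set G)) := by
    have h4 : C.map (P : Subgroup G).subtype ≤ Subgroup.centralizer ({(z : G)} : Set G) := by
      rintro _ ⟨u, hu, rfl⟩
      rw [Subgroup.mem_centralizer_singleton_iff]
      have := Subgroup.mem_centralizer_singleton_iff.mp hu
      exact congrArg Subtype.val this
    have h5 := Subgroup.card_dvd_of_le h4
    rwa [Subgroup.card_map_of_injective (Subgroup.subtype_injective _)] at h5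
  rw [card_cent_eq h hzN] at h3
  have h4 : Nat.card C ∣ N.index := h3.trans (Subgroup.card_subgroup_dvd_card _)
  have h5 : Nat.card C * Nat.card N ∣ Nat.card G := by
    rw [← N.card_mul_index, mul_comm]
    exact Nat.mul_dvd_mul_left _ h4
  have h6 : Nat.card C * Nat.card N ∣ Nat.card (P : Subgroup G) := by
    rw [P.card_eq_multiplicity, ha, hk, ← pow_add]
    rw [ha, hk, ← pow_add] at h5
    exact pow_dvd_pow p ((hp.out.pow_dvd_iff_le_factorization Nat.card_pos.ne').mp h5)
  have h7 := Nat.le_of_dvd Nat.card_pos h6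
  have h8 : 0 < Nat.card C := Nat.card_pos
  have h9 : Nat.card C * C.index < Nat.card C * Nat.card N :=
    Nat.mul_lt_mul_of_pos_left (lt_of_le_of_lt h1 hZ) h8
  omega

/-- Let G be a finite group of order greater than 2 with an irreducible character χ nonzero on exactly two conjugacy classes, N the normal p-subgroup of elements where χ is nonzero, and P a Sylow p-subgroup of G. Then (a) for every x outside N the centralizer of x in G has the same order as the centralizer of xN in G/N; (b) the centre of P lies in N, and equals N exactly when P is normal in G; (c) N, viewed inside P, is a term of the upper central series of P. -/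
theorem result {G : Type*} [Group G] [Finite G] (hG : 2 < Nat.card G) (χ : Cfsg.IrrCharacter G) (hχ : Nat.card {C : ConjClasses G // ∃ g ∈ C.carrier, (χ : G → ℂ) g ≠ 0} = 2) (p : ℕ) [Fact p.Prime] (N : Subgroup G) [N.Normal] (hN : ∀ g : G, g ∈ N ↔ (χ : G → ℂ) g ≠ 0) (hNp : IsPGroup p N) (hN1 : N ≠ ⊥) (P : Sylow p G) :
    (∀ x : G, x ∉ N → Nat.card (Subgroup.centralizer ({x} : Set G)) = Nat.card (Subgroup.centralizer ({(x : G ⧸ N)} : Set (G ⧸ N)))) ∧
      ((Subgroup.center ↥(P : Subgroup G)).map (P : Subgroup G).subtype ≤ N ∧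
        ((Subgroup.center ↥(P : Subgroup G)).map (P : Subgroup G).subtype = N ↔ (P : Subgroup G).Normal)) ∧
      (∃ i : ℕ, Subgroup.upperCentralSeries ↥(P : Subgroup G) i = N.subgroupOf (P : Subgroup G)) := by
  classical
  have hNn : N.Normal := inferInstance
  have hH := hyp_of_char hG χ hχ p N hN hNp hN1
  have hNP : N ≤ P := normal_le_sylow N hNp P
  have hcardN : Nat.card (N.subgroupOf (P : Subgroup G)) = Nat.card N :=
    Nat.card_congr (Subgroup.subgroupOfEquivOfLe hNP).toEquiv
  have hstep : ∀ i : ℕ, Subgroup.upperCentralSeries ↥(P : Subgroup G) i ≤ N.subgroupOf (P : Subgroup G) →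
      Subgroup.upperCentralSeries ↥(P : Subgroup G) i ≠ N.subgroupOf (P : Subgroup G) →
      Subgroup.upperCentralSeries ↥(P : Subgroup G) (i + 1) ≤ N.subgroupOf (P : Subgroup G) := by
    intro i hle hne z hz
    rw [Subgroup.mem_subgroupOf]
    refine step hH P _ ?_ z (Subgroup.mem_upperCentralSeries_succ_iff.mp hz)
    rw [← hcardN]
    exact Set.ncard_lt_ncard (SetLike.coe_ssubset_coe.mpr (lt_of_le_of_ne hle hne)) (Set.toFinite _)
  have hb1 : (Subgroup.center ↥(P : Subgroup G)).map (P : Subgroup G).subtype ≤ N := by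
    have h1 := hstep 0 (by rw [Subgroup.upperCentralSeries_zero]; exact bot_le) (by
      rw [Subgroup.upperCentralSeries_zero]
      intro h
      apply hN1
      rw [← Subgroup.card_eq_one, ← hcardN, ← h]
      exact Subgroup.card_bot)
    rw [zero_add, Subgroup.upperCentralSeries_one] at h1
    rintro _ ⟨z, hz, rfl⟩
    exact Subgroup.mem_subgroupOf.mp (h1 hz)
  refine ⟨fun x hx => card_cent_eq hH hx, ⟨hb1, ?_⟩, ?_⟩
  · constructor
    · intro hZ
      have hcent : ∀ x ∈ N, x ≠ 1 → Subgroup.centralizer ({x} : Set G) = P := by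
        intro x hx hx1
        obtain ⟨P', hP'⟩ := (Cfsg.Agent.S4837.result hG χ hχ p N hN hNp hN1).1 x hx hx1
        have h1 : (P : Subgroup G) ≤ P' := by
          rw [← hP']
          intro u hu
          rw [Subgroup.mem_centralizer_singleton_iff]
          rw [← hZ] at hx
          obtain ⟨z, hz, rfl⟩ := hx
          have := Subgroup.mem_center_iff.mp hz ⟨u, hu⟩
          exact congrArg Subtype.val this
        rw [hP']
        exact P.3 P'.2 h1
      obtain ⟨x, hx, hx1⟩ := exists_ne_one hH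
      refine ⟨fun u hu g => ?_⟩
      rw [← hcent x hx hx1, Subgroup.mem_centralizer_singleton_iff]
      have h1 : g⁻¹ * x * g⁻¹⁻¹ ∈ N := hNn.conj_mem x hx g⁻¹
      have h2 : g⁻¹ * x * g⁻¹⁻¹ ≠ 1 := by
        intro h
        apply hx1
        have : x = g * (g⁻¹ * x * g⁻¹⁻¹) * g⁻¹ := by group
        rw [this, h]; group
      rw [← hcent _ h1 h2, Subgroup.mem_centralizer_singleton_iff] at hu
      have e1 : g * u * g⁻¹ * x = g * (u * (g⁻¹ * x * g⁻¹⁻¹)) * g⁻¹ := by group
      have e2 : x * (g * u * g⁻¹) = g * ((g⁻¹ * x * g⁻¹⁻¹) * u) * g⁻¹ := by group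
      rw [e1, e2, hu]
    · intro hPn
      refine le_antisymm hb1 ?_
      haveI := hPn
      have hnorm : ((Subgroup.center ↥(P : Subgroup G)).map (P : Subgroup G).subtype).Normal :=
        ConjAct.normal_of_characteristic_of_normal
      haveI : Nontrivial ↥(P : Subgroup G) := by
        obtain ⟨x, hx, hx1⟩ := exists_ne_one hH
        exact ⟨⟨x, hNP hx⟩, 1, fun h => hx1 (congrArg Subtype.val h)⟩
      haveI := IsPGroup.center_nontrivial P.2
      obtain ⟨z, hz1⟩ := exists_ne (1 : Subgroup.center ↥(P : Subgroup G))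
      have hzmem : ((z : ↥(P : Subgroup G)) : G) ∈
          (Subgroup.center ↥(P : Subgroup G)).map (P : Subgroup G).subtype :=
        ⟨z, z.2, rfl⟩
      have hz1' : ((z : ↥(P : Subgroup G)) : G) ≠ 1 := by
        intro h
        exact hz1 (Subtype.ext (Subtype.ext h))
      intro n hn
      by_cases hn1 : n = 1
      · rw [hn1]; exact Subgroup.one_mem _
      · obtain ⟨c, hc⟩ := isConj_iff.mp (hH.conj _ (hb1 hzmem) n hn hz1' hn1)
        rw [← hc]
        exact hnorm.conj_mem _ hzmem c
  · by_contra hcon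
    push Not at hcon
    have hall : ∀ i : ℕ, Subgroup.upperCentralSeries ↥(P : Subgroup G) i ≤ N.subgroupOf (P : Subgroup G) := by
      intro i
      induction i with
      | zero => rw [Subgroup.upperCentralSeries_zero]; exact bot_le
      | succ i ih => exact hstep i ih (hcon i)
    haveI : Group.IsNilpotent ↥(P : Subgroup G) := P.2.isNilpotent
    obtain ⟨n, hn⟩ := Group.IsNilpotent.nilpotent' (G := ↥(P : Subgroup G))
    apply hcon n
    refine le_antisymm (hall n) ?_
    rw [hn]; exact le_top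

end Cfsg.Agent.S4838
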