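import Cfsg.Statements.S4856
import Cfsg.Agent.Lib.CharCount

set_option autoImplicit false
open Cfsg

namespace Cfsg.Agent.S4856

/-- For an element z of a finite group G, the number of pairs (x, y) of elements with x y x⁻¹ y⁻¹ = z equals the order of G times the sum over the irreducible characters χ of χ(z)/χ(1). -/
theorem result {G : Type*} [Group G] [Finite G] (z : G) : (Nat.card {xy : G × G // xy.1 * xy.2 * xy.1⁻¹ * xy.2⁻¹ = z} : ℂ) = (Nat.card G : ℂ) * ∑ᶠ χ : Cfsg.IrrCharacter G, (χ : G → ℂ) z / (χ : G → ℂ) 1 := by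
  classical
  haveI := Fintype.ofFinite G
  rw [finsum_eq_sum_of_fintype, ← Cfsg.Agent.Lib.CharCount.count_commutator z,
    Nat.card_eq_fintype_card, Fintype.card_subtype]

end Cfsg.Agent.S4856
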