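import Cfsg.Statements.S4866
import Mathlib
import Cfsg.Agent.Lib.Helper2_GalOdd2


set_option autoImplicit false
open Cfsg

namespace Cfsg.Agent.S4866

open Cfsg Cfsg.Agent.Lib.CharBasic Cfsg.Agent.Lib.CharOrtho
  Cfsg.Agent.Lib.CharComplete Cfsg.Agent.Lib.CharIntegral Cfsg.Agent.Lib.CharMore
  Cfsg.Agent.Lib.CharInd Cfsg.Agent.Lib.CharClifford Cfsg.Agent.Lib.CharPerm
  Cfsg.Agent.Lib.CharPow Cfsg.Agent.Lib.CharPow2
  Cfsg.Agent.Lib.Helper2_GalOdd Cfsg.Agent.Lib.Helper2_GalOdd2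

lemma isConj_inv' {A : Type*} [Group A] {a b : A} (h : IsConj a b) : IsConj a⁻¹ b⁻¹ := by
  obtain ⟨c, hc⟩ := isConj_iff.1 h
  refine isConj_iff.2 ⟨c, ?_⟩
  rw [← hc]
  group

lemma conj_pow_odd {A : Type*} [Group A] {x g : A} (h : x * g⁻¹ * x⁻¹ = g) (j : ℕ) :
    x ^ (2 * j + 1) * g⁻¹ * (x ^ (2 * j + 1))⁻¹ = g := by
  have h' : x * g * x⁻¹ = g⁻¹ := by
    have := congrArg (·⁻¹) h
    simp only [mul_inv_rev, inv_inv] at this
    rw [← this]
    group
  induction j with
  | zero => simpa using h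
  | succ j ih =>
    have e1 : x ^ (2 * (j + 1) + 1) = x * x * x ^ (2 * j + 1) := by
      rw [show 2 * (j + 1) + 1 = 1 + 1 + (2 * j + 1) by ring, pow_add, pow_add, pow_one]
    calc x ^ (2 * (j + 1) + 1) * g⁻¹ * (x ^ (2 * (j + 1) + 1))⁻¹
        = x * (x * (x ^ (2 * j + 1) * g⁻¹ * (x ^ (2 * j + 1))⁻¹) * x⁻¹) * x⁻¹ := by
          rw [e1]; group
      _ = x * (x * g * x⁻¹) * x⁻¹ := by rw [ih]
      _ = g := by rw [h', h]

/-- Let K be a normal subgroup of odd index in the finite group G. Then G has as many orbits on the real-valued irreducible complex characters of K (acting by conjugation) as it has orbits on the conjugacy classes of K that are real in K; equivalently, the number of G-orbits of real-valued irreducible characters of K equals the number of G-conjugacy classes of elements of K that are conjugate in K to their inverses. -/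
theorem result {G : Type*} [Group G] [Finite G] (K : Subgroup G) [K.Normal] (hodd : Odd K.index) : Nat.card (Quot (fun θ η : {θ : Cfsg.IrrCharacter ↥K // (∀ k : ↥K, ((θ : ↥K → ℂ) k).im = 0)} => ∃ g : G, ∀ k k' : ↥K, (k' : G) = g * (k : G) * g⁻¹ → (η.1 : ↥K → ℂ) k' = (θ.1 : ↥K → ℂ) k)) = Nat.card (Quot (fun x y : {x : ↥K // IsConj x x⁻¹} => ∃ g : G, (y.1 : G) = g * x.1 * g⁻¹)) := by
  classical
  cases nonempty_fintype G
  haveI : Fintype K := Fintype.ofFinite K
  have hK : K.Normal := inferInstance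
  haveI : Fact (Nat.Prime 2) := ⟨Nat.prime_two⟩
  set k := Nat.card G - 1 with hkdef
  have hk1 : k + 1 = Nat.card G := Nat.sub_add_cancel Nat.card_pos
  have hk : k.Coprime (Nat.card G) := by rw [← hk1]; simp
  have hinv : ∀ g : G, g ^ k = g⁻¹ := by
    intro g
    rw [eq_inv_iff_mul_eq_one, ← pow_succ, hk1, pow_card_eq_one']
  have hinvK : ∀ x : K, x ^ k = x⁻¹ := fun x => Subtype.ext (hinv x)
  have hke : ∀ g : G, g ^ (k ^ (2 ^ 1)) = g := by
    intro g
    rw [pow_one, pow_two, pow_mul, hinv, hinv, inv_inv]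
  have hk₂ : ∀ g : G, Odd (orderOf g) → g ^ k = g⁻¹ := fun g _ => hinv g
  have hkmod : k ^ (2 ^ 1) ≡ 1 [MOD Nat.card G] := by
    apply Nat.ModEq.symm
    rw [Nat.modEq_iff_dvd]
    refine ⟨(k : ℤ) - 1, ?_⟩
    rw [← hk1]
    push_cast
    ring
  have hrealG : ∀ χ : IrrCharacter G, (∀ g, ((χ : G → ℂ) g).im = 0) ↔
      ∀ g, (χ : G → ℂ) (g ^ k) = (χ : G → ℂ) g := by
    intro χ
    simp only [hinv, isCharacter_inv (isCharacter_of_isIrr χ.2)]
    exact forall_congr' fun g => (Complex.conj_eq_iff_im).symm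
  have hrealK : ∀ θ : IrrCharacter K, (∀ x, ((θ : K → ℂ) x).im = 0) ↔
      ∀ x, (θ : K → ℂ) (x ^ k) = (θ : K → ℂ) x := by
    intro θ
    simp only [hinvK, isCharacter_inv (isCharacter_of_isIrr θ.2)]
    exact forall_congr' fun g => (Complex.conj_eq_iff_im).symm
  have L : Nat.card (Quot (fun θ η : {θ : Cfsg.IrrCharacter ↥K // (∀ k : ↥K, ((θ : ↥K → ℂ) k).im = 0)} => ∃ g : G, ∀ k k' : ↥K, (k' : G) = g * (k : G) * g⁻¹ → (η.1 : ↥K → ℂ) k' = (θ.1 : ↥K → ℂ) k)) =
      Nat.card {χ : IrrCharacter G // ∀ g : G, ((χ : G → ℂ) g).im = 0} := by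
    have hex : ∀ θ : {θ : Cfsg.IrrCharacter ↥K // (∀ k : ↥K, ((θ : ↥K → ℂ) k).im = 0)},
        ∃ χ : IrrCharacter G, classInner (fun n : K => (χ : G → ℂ) n) (θ.1 : K → ℂ) ≠ 0 ∧
          ∀ g, (χ : G → ℂ) (g ^ k) = (χ : G → ℂ) g :=
      fun θ => gal_exists K hodd hk hke θ.1 ((hrealK θ.1).1 θ.2)
    choose F hF1 hF2 using hex
    have hresp : ∀ θ η : {θ : Cfsg.IrrCharacter ↥K // (∀ k : ↥K, ((θ : ↥K → ℂ) k).im = 0)},
        (∃ g : G, ∀ k k' : ↥K, (k' : G) = g * (k : G) * g⁻¹ →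
          (η.1 : ↥K → ℂ) k' = (θ.1 : ↥K → ℂ) k) →
        (⟨F θ, (hrealG _).2 (hF2 θ)⟩ : {χ : IrrCharacter G // ∀ g : G, ((χ : G → ℂ) g).im = 0}) =
          ⟨F η, (hrealG _).2 (hF2 η)⟩ := by
      rintro θ η ⟨g, hg⟩
      apply Subtype.ext
      have h1 : (θ.1 : K → ℂ) = conjFun K hK (η.1 : K → ℂ) g := by
        funext x
        rw [conjFun_apply]
        exact (hg x ⟨g * x * g⁻¹, hK.conj_mem x x.2 g⟩ rfl).symm
      have h2 := hF1 θ
      rw [h1, classInner_restrict_conjFun K hK _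
        (isClassFunction_of_isCharacter (isCharacter_of_isIrr (F θ).2))] at h2
      exact gal_unique K hodd hk hke hk₂ (F θ) (F η) (hF2 θ) (hF2 η) η.1 h2 (hF1 η)
    apply Nat.card_congr
    refine Equiv.ofBijective (Quot.lift (fun θ => (⟨F θ, (hrealG _).2 (hF2 θ)⟩ :
      {χ : IrrCharacter G // ∀ g : G, ((χ : G → ℂ) g).im = 0})) hresp) ⟨?_, ?_⟩
    · intro a b
      induction a using Quot.ind with
      | mk θ =>
        induction b using Quot.ind with
        | mk η =>
          intro h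
          have h1 : F θ = F η := congrArg Subtype.val h
          have h2 := hF1 η
          rw [← h1] at h2
          obtain ⟨g, hg⟩ := clifford_conj K hK (F θ).2 θ.1.2 η.1.2 (hF1 θ) h2
          apply Quot.sound
          refine ⟨g⁻¹, fun x x' hx => ?_⟩
          rw [hg, conjFun_apply]
          apply congrArg
          apply Subtype.ext
          show g * (x' : G) * g⁻¹ = x
          rw [hx]
          group
    · rintro ⟨χ, hχ⟩
      obtain ⟨θ, hθ⟩ := exists_constituent (isCharacter_restrict K (isCharacter_of_isIrr χ.2))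
        (by
          intro h0
          exact irr_degree_ne_zero χ.2 (congrFun h0 1))
      have hfixχ := (hrealG χ).1 hχ
      have hθfix : powFun (θ : K → ℂ) k = θ :=
        constituent_fixed K hK 2 (by
          rw [← even_iff_two_dvd, Nat.not_even_iff_odd]; exact hodd) hk hkmod χ.2
          (funext hfixχ) θ.2 hθ
      have hθreal : ∀ x, ((θ : K → ℂ) x).im = 0 := (hrealK θ).2 (fun x => congrFun hθfix x)
      refine ⟨Quot.mk _ ⟨θ, hθreal⟩, ?_⟩
      apply Subtype.ext
      exact gal_unique K hodd hk hke hk₂ (F ⟨θ, hθreal⟩) χ (hF2 _) hfixχ θ (hF1 _) hθ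
  have R : Nat.card (Quot (fun x y : {x : ↥K // IsConj x x⁻¹} => ∃ g : G, (y.1 : G) = g * x.1 * g⁻¹)) =
      Nat.card {c : ConjClasses G // IsConj (rep c)⁻¹ (rep c)} := by
    have hmem : ∀ x : {x : ↥K // IsConj x x⁻¹},
        IsConj (rep (ConjClasses.mk ((x.1 : K) : G)))⁻¹ (rep (ConjClasses.mk ((x.1 : K) : G))) := by
      intro x
      have h1 : IsConj ((x.1 : K) : G) (rep (ConjClasses.mk ((x.1 : K) : G))) := isConj_rep _
      have h2 : IsConj ((x.1 : K) : G) ((x.1 : K) : G)⁻¹ := K.subtype.map_isConj x.2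
      exact ((isConj_inv' h1).symm.trans h2.symm).trans h1
    apply Nat.card_congr
    refine Equiv.ofBijective (Quot.lift (fun x => (⟨ConjClasses.mk ((x.1 : K) : G), hmem x⟩ :
      {c : ConjClasses G // IsConj (rep c)⁻¹ (rep c)})) ?_) ⟨?_, ?_⟩
    · rintro x y ⟨g, hg⟩
      apply Subtype.ext
      exact ConjClasses.mk_eq_mk_iff_isConj.2 (isConj_iff.2 ⟨g, hg.symm⟩)
    · intro a b
      induction a using Quot.ind with
      | mk x =>
        induction b using Quot.ind with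
        | mk y =>
          intro h
          have h1 : ConjClasses.mk ((x.1 : K) : G) = ConjClasses.mk ((y.1 : K) : G) :=
            congrArg Subtype.val h
          obtain ⟨g, hg⟩ := isConj_iff.1 (ConjClasses.mk_eq_mk_iff_isConj.1 h1)
          exact Quot.sound ⟨g, hg.symm⟩
    · rintro ⟨c, hc⟩
      set g := rep c with hg
      have hgK : g ∈ K := by
        rw [← QuotientGroup.eq_one_iff]
        apply eq_one_of_isConj_inv_of_odd (G := G ⧸ K) (by rw [← Subgroup.index_eq_card]; exact hodd)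
        exact (QuotientGroup.mk' K).map_isConj hc
      obtain ⟨x, hx⟩ := isConj_iff.1 hc
      obtain ⟨s, m, hm, hsm⟩ := Nat.exists_eq_two_pow_mul_odd (orderOf_pos x).ne'
      obtain ⟨j, hj⟩ := hm
      have hy : x ^ (2 * j + 1) ∈ K := by
        apply mem_of_two_pow K hodd (s := s)
        rw [← pow_mul, mul_comm, ← hj, ← hsm, pow_orderOf_eq_one]
      have h3 := conj_pow_odd hx j
      have hreal : IsConj (⟨g, hgK⟩ : K) (⟨g, hgK⟩ : K)⁻¹ := by
        refine isConj_iff.2 ⟨⟨x ^ (2 * j + 1), hy⟩, ?_⟩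
        apply Subtype.ext
        show x ^ (2 * j + 1) * g * (x ^ (2 * j + 1))⁻¹ = g⁻¹
        have := congrArg (·⁻¹) h3
        simp only [mul_inv_rev, inv_inv] at this
        rw [← this]
        group
      refine ⟨Quot.mk _ ⟨⟨g, hgK⟩, hreal⟩, ?_⟩
      apply Subtype.ext
      exact mk_rep c
  rw [L, R, card_real_irr]

end Cfsg.Agent.S4866
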