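import Cfsg.Statements.S4873
import Cfsg.Agent.Lib.CharOddIndex

set_option autoImplicit false
open Cfsg

namespace Cfsg.Agent.S4873

open Cfsg.Agent.Lib.CharOddIndex Cfsg.Agent.Lib.CharFS

/-- Let N be a normal subgroup of odd index in the finite group G. Then every irreducible complex character of N with Frobenius–Schur indicator +1 lies under exactly one irreducible character of G with Frobenius–Schur indicator +1. -/
theorem result {G : Type*} [Group G] [Finite G] (N : Subgroup G) [N.Normal] (hodd : Odd N.index) (φ : Cfsg.IrrCharacter ↥N) (hφ : (Nat.card ↥N : ℂ)⁻¹ * ∑ᶠ g : ↥N, (φ : ↥N → ℂ) (g * g) = 1) : ∃! χ : Cfsg.IrrCharacter G, (Nat.card G : ℂ)⁻¹ * ∑ᶠ g : G, (χ : G → ℂ) (g * g) = 1 ∧ (∑ᶠ n : ↥N, (χ : G → ℂ) n * (starRingEnd ℂ) ((φ : ↥N → ℂ) n)) ≠ 0 := by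
  classical
  haveI := Fintype.ofFinite G
  haveI := Fintype.ofFinite N
  have hNc : (Nat.card N : ℂ) ≠ 0 := by exact_mod_cast Nat.card_pos.ne'
  have hφ' : fsInd (φ : ↥N → ℂ) = 1 := by
    unfold fsInd
    rw [← finsum_eq_sum_of_fintype]
    exact hφ
  obtain ⟨χ, ⟨h1, h2⟩, h3⟩ := existsUnique_fs N hodd φ hφ'
  have hiff : ∀ χ : Cfsg.IrrCharacter G,
      ((Nat.card G : ℂ)⁻¹ * ∑ᶠ g : G, (χ : G → ℂ) (g * g) = 1 ∧
        (∑ᶠ n : ↥N, (χ : G → ℂ) n * (starRingEnd ℂ) ((φ : ↥N → ℂ) n)) ≠ 0) ↔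
      (fsInd (χ : G → ℂ) = 1 ∧
        Cfsg.classInner (fun n : N => (χ : G → ℂ) n) (φ : N → ℂ) ≠ 0) := by
    intro χ
    unfold fsInd Cfsg.classInner
    rw [finsum_eq_sum_of_fintype, finsum_eq_sum_of_fintype]
    constructor
    · rintro ⟨a, b⟩
      exact ⟨a, mul_ne_zero (inv_ne_zero hNc) b⟩
    · rintro ⟨a, b⟩
      exact ⟨a, right_ne_zero_of_mul b⟩
  refine ⟨χ, (hiff χ).mpr ⟨h1, h2⟩, ?_⟩
  intro χ' hχ'
  exact h3 χ' ((hiff χ').mp hχ')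

end Cfsg.Agent.S4873
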