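import Cfsg.Statements.S4888
import Cfsg.Agent.Lib.Helper1_B0Lin
import Cfsg.Agent.Lib.Helper1_Tate
import Cfsg.Agent.Lib.Helper1_PNil
import Cfsg.Agent.Lib.Helper1_KerPDeg
import Cfsg.Agent.Lib.Helper9_PResidual
import Cfsg.Agent.Lib.Helper7_Frat2
import Cfsg.Agent.Lib.Helper2_PrincipalSection
import Cfsg.Agent.Lib.helper8_Kernel

set_option autoImplicit false
open Cfsg

namespace Cfsg.Agent.S4888

open Cfsg Cfsg.Agent.Lib.CharBasic Cfsg.Agent.Lib.CharLinear Cfsg.Agent.Lib.Helper2_BlockQuot
  Cfsg.Agent.Lib.Helper2_BlockLocal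
  Cfsg.Agent.Lib.Helper2_BlockThird Cfsg.Agent.Lib.Helper1_PNil Cfsg.Agent.Lib.Helper9_PResidual

theorem sInf_zero {G : Type*} [Group G] [Finite G] (p : ℕ) {M : Ideal Cfsg.AlgInt} (hP : M.IsPrime) :
    sInf ((fun ψ : IrrCharacter G => (charDegree (ψ : G → ℂ)).factorization p) ''
      (principalBlock M G)) = 0 := by
  apply Nat.eq_zero_of_le_zero
  apply Nat.sInf_le
  refine ⟨oneIrr G, oneIrr_mem_principal hP G, ?_⟩
  have h1 : charDegree (oneIrr G : G → ℂ) = 1 :=
    Cfsg.Agent.Lib.CharThompson.charDegree_eq (d := 1) (by simp [oneIrr])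
  show (charDegree (oneIrr G : G → ℂ)).factorization p = 0
  rw [h1]; simp

theorem pResidual_self {G : Type*} [Group G] (p : ℕ) : pResidual p ↥(pResidual p G) = ⊤ := by
  have h := Subgroup.closure_closure_coe_preimage (k := {g : G | Nat.Coprime (orderOf g) p})
  unfold pResidual
  rw [← h]
  congr 1
  ext x
  simp

theorem npc_of_extension {G : Type*} [Group G] [Finite G] (p : ℕ) [hp : Fact p.Prime] (P : Sylow p G)
    (hext : ∀ μ : ↥(P : Subgroup G) →* ℂˣ, ∃ f : G →* ℂˣ, ∀ x : ↥(P : Subgroup G), f x = μ x) :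
    IsNPC p (pResidual p G) := by
  haveI hN := pResidual_normal p G
  have key : pResidual p G ⊓ (P : Subgroup G) ≤
      (frattini ↥(P : Subgroup G)).map (P : Subgroup G).subtype := by
    intro y hy
    have hyP : y ∈ (P : Subgroup G) := hy.2
    refine ⟨⟨y, hyP⟩, ?_, rfl⟩
    haveI : Group.IsNilpotent ↥(P : Subgroup G) := P.isPGroup'.isNilpotent
    apply Cfsg.Agent.Lib.Helper7_Frat2.commutator_le_frattini_of_nilpotent
    apply Cfsg.Agent.Lib.Helper1_KerPDeg.mem_commutator_of_linear
    intro φ h1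
    obtain ⟨f, hf⟩ := hext (homOfLinear (isCharacter_of_isIrr φ.2) h1)
    have h2 : f y = 1 := by
      set m := (P : Subgroup G).index with hm
      have h3 : pResidual p G ≤ ((powMonoidHom m : ℂˣ →* ℂˣ).comp f).ker := by
        unfold pResidual
        rw [Subgroup.closure_le]
        intro g hg
        have hg' : Nat.Coprime (orderOf g) p := hg
        have h4 : orderOf g ∣ m := by
          have h5 : orderOf g ∣ Nat.card (P : Subgroup G) * m := by
            rw [hm, Subgroup.card_mul_index]
            exact orderOf_dvd_natCard g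
          obtain ⟨k, hk⟩ := IsPGroup.iff_card.mp P.isPGroup'
          rw [hk] at h5
          exact (Nat.Coprime.pow_right k hg').dvd_of_dvd_mul_left h5
        show ((powMonoidHom m : ℂˣ →* ℂˣ).comp f) g = 1
        show (f g) ^ m = 1
        rw [← map_pow, orderOf_dvd_iff_pow_eq_one.mp h4, map_one]
      have h6 : (f y) ^ m = 1 := h3 hy.1
      have h7 : (f y) ^ Nat.card (P : Subgroup G) = 1 := by
        rw [← map_pow]
        have : (⟨y, hyP⟩ : ↥(P : Subgroup G)) ^ Nat.card (P : Subgroup G) = 1 := pow_card_eq_one'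
        have h9 : y ^ Nat.card (P : Subgroup G) = 1 := congrArg Subtype.val this
        rw [h9, map_one]
      have h10 : Nat.Coprime m (Nat.card (P : Subgroup G)) := by
        obtain ⟨k, hk⟩ := IsPGroup.iff_card.mp P.isPGroup'
        rw [hk]
        apply Nat.Coprime.pow_right
        exact ((Nat.Prime.coprime_iff_not_dvd hp.out).mpr P.not_dvd_index).symm
      have h11 := Nat.dvd_gcd (orderOf_dvd_of_pow_eq_one h6) (orderOf_dvd_of_pow_eq_one h7)
      rw [h10.gcd_eq_one, Nat.dvd_one, orderOf_eq_one_iff] at h11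
      exact h11
    have h12 := hf ⟨y, hyP⟩
    rw [h2] at h12
    have h13 := congrArg Units.val h12
    rw [homOfLinear_apply] at h13
    simpa using h13.symm
  have ht := Cfsg.Agent.Lib.Helper1_Tate.tate P (pResidual p G) key
  rw [pResidual_self] at ht
  refine ⟨hN, ?_, ?_⟩
  · have := ht.2.1
    rwa [Subgroup.card_top] at this
  · obtain ⟨k, hk⟩ := IsPGroup.iff_card.mp (isPGroup_quotient_pResidual p G)
    exact ⟨k, hk⟩

/-- Let G be a finite group, p a prime and M a maximal ideal of the algebraic integers containing p. Then all height-zero irreducible characters of the principal p-block of G (equivalently, all its characters of degree prime to p) have the same degree if and only if G has a normal p-complement. -/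
theorem result {G : Type*} [Group G] [Finite G] (p : ℕ) [Fact p.Prime] (M : Ideal Cfsg.AlgInt) (hM : Cfsg.IsPModular p M) : (∃ d : ℕ, ∀ χ : Cfsg.IrrCharacter G, χ ∈ (Cfsg.principalBlock M G) → Cfsg.blockHeight p (Cfsg.principalBlock M G) (χ : G → ℂ) = 0 → Cfsg.charDegree (χ : G → ℂ) = d) ↔ Cfsg.HasNormalPComplement p G := by
  haveI := Fintype.ofFinite G
  have hP := isPrime_of_modular hM
  have hp : p.Prime := Fact.out
  constructor
  · rintro ⟨d, hd⟩
    have h1 : charDegree (oneIrr G : G → ℂ) = 1 :=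
      Cfsg.Agent.Lib.CharThompson.charDegree_eq (d := 1) (by simp [oneIrr])
    have hd1 : d = 1 := by
      rw [← hd (oneIrr G) (oneIrr_mem_principal hP G) (by
        unfold blockHeight
        rw [h1]; simp), h1]
    subst hd1
    obtain ⟨P⟩ : Nonempty (Sylow p G) := inferInstance
    rw [hasNormalPComplement_iff]
    refine ⟨_, npc_of_extension p P (Cfsg.Agent.Lib.Helper1_B0Lin.exists_extension hM P ?_)⟩
    intro χ hχ hdv
    rw [Cfsg.Agent.Lib.CharThompson.charDegree_spec χ.2, hd χ hχ (by
      unfold blockHeight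
      rw [Nat.factorization_eq_zero_of_not_dvd hdv]; simp)]
    simp
  · intro h
    rw [hasNormalPComplement_iff] at h
    obtain ⟨N, hN, hcop, k, hk⟩ := h
    refine ⟨1, fun χ hχ hh => ?_⟩
    have hle : N ≤ pPrimeCore p G := le_sSup ⟨hN, hcop⟩
    have h1 : charDegree (χ : G → ℂ) ∣ p ^ k := by
      rw [← hk]
      exact Cfsg.Agent.Lib.helper8_Kernel.degree_dvd_index_ker χ.2 N (fun x hx =>
        Cfsg.Agent.Lib.Helper2_PrincipalSection.principal_ker hM hχ (hle hx))
    obtain ⟨j, -, hj⟩ := (Nat.dvd_prime_pow hp).mp h1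
    unfold blockHeight at hh
    rw [sInf_zero p hP, hj, Nat.sub_zero, Nat.Prime.factorization_pow hp] at hh
    simp at hh
    rw [hj, hh, pow_zero]

end Cfsg.Agent.S4888
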