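import Cfsg.Statements.S4911
import Mathlib
import Cfsg.Agent.Lib.GlaubCount
import Cfsg.Agent.Lib.CharOddIndex


set_option autoImplicit false
open Cfsg

namespace Cfsg.Agent.S4911

open Cfsg Cfsg.Agent.Lib.CharBasic Cfsg.Agent.Lib.CharOrtho
  Cfsg.Agent.Lib.CharComplete Cfsg.Agent.Lib.CharIntegral Cfsg.Agent.Lib.CharMore
  Cfsg.Agent.Lib.CharInd Cfsg.Agent.Lib.CharPerm Cfsg.Agent.Lib.CharOddIndex
  Cfsg.Agent.Lib.GlaubP Cfsg.Agent.Lib.GlaubCount
open scoped ComplexConjugate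

lemma isConj_inv' {A : Type*} [Group A] {a b : A} (h : IsConj a b) : IsConj a⁻¹ b⁻¹ := by
  obtain ⟨c, hc⟩ := isConj_iff.1 h
  refine isConj_iff.2 ⟨c, ?_⟩
  rw [← hc]
  group

lemma real_iff_conjIrr {A : Type*} [Group A] [Fintype A] (θ : IrrCharacter A) :
    (∀ a, ((θ : A → ℂ) a).im = 0) ↔ conjIrr θ = θ := by
  constructor
  · intro h
    apply Subtype.ext
    funext a
    rw [conjIrr_apply]
    exact Complex.conj_eq_iff_im.2 (h a)
  · intro h a
    have := congrFun (congrArg Subtype.val h) a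
    rw [conjIrr_apply] at this
    exact Complex.conj_eq_iff_im.1 this

/-- Let P and K be subgroups of a finite group with P a p-group normalizing K and K of order prime to p. Then the number of P-invariant real-valued irreducible complex characters of K equals the number of conjugacy classes of K that are real (closed under inversion) and P-invariant. Moreover, if every real-valued irreducible character of K is P-invariant, then every real element of K (one conjugate in K to its inverse) is conjugate in K to an element centralized by P. -/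
theorem result {G : Type*} [Group G] [Finite G] (p : ℕ) [Fact p.Prime] (P K : Subgroup G) (hP : IsPGroup p ↥P) (hK : ¬ p ∣ Nat.card ↥K) (hPK : P ≤ Subgroup.normalizer (K : Set G)) : Nat.card {θ : Cfsg.IrrCharacter ↥K // (∀ k : ↥K, ((θ : ↥K → ℂ) k).im = 0) ∧ (∀ x ∈ P, ∀ k k' : ↥K, (k' : G) = x * (k : G) * x⁻¹ → (θ : ↥K → ℂ) k' = (θ : ↥K → ℂ) k)} = Nat.card {c : ConjClasses ↥K // (∀ k : ↥K, ConjClasses.mk k = c → IsConj k k⁻¹) ∧ ∀ k : ↥K, ConjClasses.mk k = c → ∀ x ∈ P, ∀ k' : ↥K, (k' : G) = x * (k : G) * x⁻¹ → ConjClasses.mk k' = c} ∧ ((∀ θ : Cfsg.IrrCharacter ↥K, (∀ k : ↥K, ((θ : ↥K → ℂ) k).im = 0) → (∀ x ∈ P, ∀ k k' : ↥K, (k' : G) = x * (k : G) * x⁻¹ → (θ : ↥K → ℂ) k' = (θ : ↥K → ℂ) k)) → ∀ k : ↥K, IsConj k k⁻¹ → ∃ k' : ↥K, IsConj k k' ∧ ∀ x ∈ P, x * (k' : G) * x⁻¹ = (k' : G)) := by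
  classical
  have hp : p.Prime := Fact.out
  obtain ⟨M, hM⟩ := Cfsg.Agent.Lib.helper8_DefectZero.exists_modular hp
  have hnorm : ∀ s ∈ P, ∀ g ∈ K, s * g * s⁻¹ ∈ K := by
    intro s hs g hg
    exact (Subgroup.mem_normalizer_iff.1 (hPK hs) g).1 hg
  set C := K ⊓ Subgroup.centralizer (P : Set G) with hC
  have hCK : C ≤ K := inf_le_left
  haveI : Fintype K := Fintype.ofFinite _
  haveI : Fintype C := Fintype.ofFinite _
  have hS := setup_concrete K P C hnorm hP hK hC hCK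
  set φ := conjHom K P hnorm with hφ
  set ι := Subgroup.inclusion hCK with hι
  obtain ⟨g1, -, g3, g4⟩ := Cfsg.Agent.Lib.GlaubP.main hp hS
  have hInv : ∀ θ : IrrCharacter K, (∀ x ∈ P, ∀ k k' : ↥K, (k' : G) = x * (k : G) * x⁻¹ →
      (θ : ↥K → ℂ) k' = (θ : ↥K → ℂ) k) ↔ Inv φ (θ : K → ℂ) := fun θ => inv_iff K P hnorm θ
  have hRelc : ∀ (θ : IrrCharacter K) (β : IrrCharacter C) (m : ℕ),
      classInner ((θ : K → ℂ) ∘ ι) (β : C → ℂ) = m →
      classInner (((conjIrr θ : IrrCharacter K) : K → ℂ) ∘ ι) ((conjIrr β : IrrCharacter C) : C → ℂ) = m := by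
    intro θ β m h
    have h1 := congrArg conj h
    rw [Complex.conj_natCast] at h1
    rw [← h1]
    unfold classInner
    rw [map_mul, map_inv₀, Complex.conj_natCast, map_sum]
    congr 1
    refine Finset.sum_congr rfl fun c _ => ?_
    rw [map_mul]
    rfl
  have hInvc : ∀ θ : IrrCharacter K, Inv φ (θ : K → ℂ) →
      Inv φ ((conjIrr θ : IrrCharacter K) : K → ℂ) := by
    intro θ h s g
    rw [conjIrr_apply, conjIrr_apply, h s g]
  -- characters
  have B1 : Nat.card {θ : Cfsg.IrrCharacter ↥K // (∀ k : ↥K, ((θ : ↥K → ℂ) k).im = 0) ∧ (∀ x ∈ P, ∀ k k' : ↥K, (k' : G) = x * (k : G) * x⁻¹ → (θ : ↥K → ℂ) k' = (θ : ↥K → ℂ) k)} =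
      Nat.card {β : IrrCharacter C // ∀ c : C, ((β : C → ℂ) c).im = 0} := by
    have hex : ∀ θ : {θ : Cfsg.IrrCharacter ↥K // (∀ k : ↥K, ((θ : ↥K → ℂ) k).im = 0) ∧ (∀ x ∈ P, ∀ k k' : ↥K, (k' : G) = x * (k : G) * x⁻¹ → (θ : ↥K → ℂ) k' = (θ : ↥K → ℂ) k)},
        ∃ β : IrrCharacter C, (∃ m : ℕ, classInner ((θ.1 : K → ℂ) ∘ ι) (β : C → ℂ) = m ∧ ¬ p ∣ m) ∧
          ∀ β' : IrrCharacter C, (∃ m : ℕ, classInner ((θ.1 : K → ℂ) ∘ ι) (β' : C → ℂ) = m ∧ ¬ p ∣ m) →
            β' = β := fun θ => g1 θ.1 ((hInv θ.1).1 θ.2.2)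
    choose F hF1 hF2 using hex
    have hFreal : ∀ θ, ∀ c : C, ((F θ : C → ℂ) c).im = 0 := by
      intro θ
      rw [real_iff_conjIrr]
      apply hF2 θ
      obtain ⟨m, hm, hpm⟩ := hF1 θ
      refine ⟨m, ?_, hpm⟩
      have h1 := hRelc θ.1 (F θ) m hm
      rwa [(real_iff_conjIrr θ.1).1 θ.2.1] at h1
    apply Nat.card_congr
    refine Equiv.ofBijective (fun θ => ⟨F θ, hFreal θ⟩) ⟨?_, ?_⟩
    · intro θ θ' h
      have h1 : F θ = F θ' := congrArg Subtype.val h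
      obtain ⟨m, hm, hpm⟩ := hF1 θ
      obtain ⟨m', hm', hpm'⟩ := hF1 θ'
      rw [← h1] at hm'
      exact Subtype.ext (g3 θ.1 θ'.1 ((hInv θ.1).1 θ.2.2) ((hInv θ'.1).1 θ'.2.2) (F θ) m m'
        hm hpm hm' hpm')
    · rintro ⟨β, hβ⟩
      obtain ⟨θ, hθinv, m, hm, hpm⟩ := g4 β
      have hθreal : ∀ k : K, ((θ : K → ℂ) k).im = 0 := by
        rw [real_iff_conjIrr]
        have h1 := hRelc θ β m hm
        rw [(real_iff_conjIrr β).1 hβ] at h1
        exact g3 (conjIrr θ) θ (hInvc θ hθinv) hθinv β m m h1 hpm hm hpm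
      refine ⟨⟨θ, hθreal, (hInv θ).2 hθinv⟩, ?_⟩
      apply Subtype.ext
      exact (hF2 ⟨θ, hθreal, (hInv θ).2 hθinv⟩ β ⟨m, hm, hpm⟩).symm
  -- classes
  have hιinv : ∀ c : C, ι c⁻¹ = (ι c)⁻¹ := fun c => map_inv ι c
  have hcond : ∀ c : C, IsConj c⁻¹ c →
      (∀ k : ↥K, ConjClasses.mk k = ConjClasses.mk (ι c) → IsConj k k⁻¹) ∧
      ∀ k : ↥K, ConjClasses.mk k = ConjClasses.mk (ι c) → ∀ x ∈ P, ∀ k' : ↥K,
        (k' : G) = x * (k : G) * x⁻¹ → ConjClasses.mk k' = ConjClasses.mk (ι c) := by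
    intro c hc
    constructor
    · intro k hk
      have h1 : IsConj k (ι c) := ConjClasses.mk_eq_mk_iff_isConj.1 hk
      have h2 : IsConj (ι c)⁻¹ (ι c) := by
        rw [← hιinv]
        exact ι.map_isConj hc
      exact (h1.trans h2.symm).trans (isConj_inv' h1).symm
    · intro k hk x hx k' hk'
      have h1 : IsConj k (ι c) := ConjClasses.mk_eq_mk_iff_isConj.1 hk
      have h2 := (φ ⟨x, hx⟩).toMonoidHom.map_isConj h1
      have h3 : (φ ⟨x, hx⟩).toMonoidHom k = k' := Subtype.ext hk'.symm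
      have h4 : (φ ⟨x, hx⟩).toMonoidHom (ι c) = ι c := hS.fixed ⟨x, hx⟩ c
      rw [h3, h4] at h2
      exact ConjClasses.mk_eq_mk_iff_isConj.2 h2
  have hfixcls : ∀ k : K, (∀ x ∈ P, ∀ k' : ↥K, (k' : G) = x * (k : G) * x⁻¹ →
      ConjClasses.mk k' = ConjClasses.mk k) → ∃ c : C, IsConj k (ι c) := by
    intro k h
    apply exists_fixed_in_class hM hS k
    intro s
    exact (ConjClasses.mk_eq_mk_iff_isConj.1 (h s s.2 (φ s k) rfl)).symm
  have B2 : Nat.card {c : ConjClasses C // IsConj (rep c)⁻¹ (rep c)} =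
      Nat.card {c : ConjClasses ↥K // (∀ k : ↥K, ConjClasses.mk k = c → IsConj k k⁻¹) ∧ ∀ k : ↥K, ConjClasses.mk k = c → ∀ x ∈ P, ∀ k' : ↥K, (k' : G) = x * (k : G) * x⁻¹ → ConjClasses.mk k' = c} := by
    apply Nat.card_congr
    refine Equiv.ofBijective (fun c => ⟨ConjClasses.mk (ι (rep c.1)), hcond (rep c.1) c.2⟩) ⟨?_, ?_⟩
    · intro c c' h
      have h1 : ConjClasses.mk (ι (rep c.1)) = ConjClasses.mk (ι (rep c'.1)) :=
        congrArg Subtype.val h
      have h2 := fusion hM hS (ConjClasses.mk_eq_mk_iff_isConj.1 h1)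
      apply Subtype.ext
      rw [← mk_rep c.1, ← mk_rep c'.1]
      exact ConjClasses.mk_eq_mk_iff_isConj.2 h2
    · rintro ⟨z, hz1, hz2⟩
      set k := rep z with hk
      have hkz : ConjClasses.mk k = z := mk_rep z
      obtain ⟨c, hc⟩ := hfixcls k (fun x hx k' hk' => by rw [hkz]; exact hz2 k hkz x hx k' hk')
      have hkreal : IsConj k k⁻¹ := hz1 k hkz
      have hcreal : IsConj c⁻¹ c := by
        apply fusion hM hS
        rw [hιinv]
        exact ((isConj_inv' hc).symm.trans hkreal.symm).trans hc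
      have hrc : IsConj c (rep (ConjClasses.mk c)) := isConj_rep c
      have hreal2 : IsConj (rep (ConjClasses.mk c))⁻¹ (rep (ConjClasses.mk c)) :=
        ((isConj_inv' hrc).symm.trans hcreal).trans hrc
      refine ⟨⟨ConjClasses.mk c, hreal2⟩, ?_⟩
      apply Subtype.ext
      show ConjClasses.mk (ι (rep (ConjClasses.mk c))) = z
      rw [← hkz]
      exact ConjClasses.mk_eq_mk_iff_isConj.2 ((ι.map_isConj hrc).symm.trans hc.symm)
  have main1 := (B1.trans (card_real_irr (G := C))).trans B2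
  refine ⟨main1, ?_⟩
  intro H k hkreal
  -- all real classes are invariant
  have E1 : Nat.card {θ : Cfsg.IrrCharacter ↥K // (∀ k : ↥K, ((θ : ↥K → ℂ) k).im = 0) ∧ (∀ x ∈ P, ∀ k k' : ↥K, (k' : G) = x * (k : G) * x⁻¹ → (θ : ↥K → ℂ) k' = (θ : ↥K → ℂ) k)} =
      Nat.card {θ : IrrCharacter K // ∀ k : K, ((θ : K → ℂ) k).im = 0} := by
    apply Nat.card_congr
    exact Equiv.subtypeEquivRight fun θ => ⟨fun h => h.1, fun h => ⟨h, H θ h⟩⟩
  have E2 := (main1.symm.trans E1).trans (card_real_irr (G := K))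
  have hinj : Function.Injective (fun z : {c : ConjClasses ↥K // (∀ k : ↥K, ConjClasses.mk k = c → IsConj k k⁻¹) ∧ ∀ k : ↥K, ConjClasses.mk k = c → ∀ x ∈ P, ∀ k' : ↥K, (k' : G) = x * (k : G) * x⁻¹ → ConjClasses.mk k' = c} =>
      (⟨z.1, (z.2.1 (rep z.1) (mk_rep z.1)).symm⟩ : {c : ConjClasses K // IsConj (rep c)⁻¹ (rep c)})) := by
    intro z z' h
    have h1 : z.1 = z'.1 := congrArg (fun w : {c : ConjClasses K // IsConj (rep c)⁻¹ (rep c)} => w.1) h
    exact Subtype.ext h1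
  have hbij := hinj.bijective_of_nat_card_le E2.symm.le
  have hrk : IsConj k (rep (ConjClasses.mk k)) := isConj_rep k
  obtain ⟨z, hz⟩ := hbij.2 ⟨ConjClasses.mk k, ((isConj_inv' hrk).symm.trans hkreal.symm).trans hrk⟩
  have hz1 : z.1 = ConjClasses.mk k := congrArg Subtype.val hz
  obtain ⟨c, hc⟩ := hfixcls k (fun x hx k' hk' => by
    have := z.2.2 k hz1.symm x hx k' hk'
    rw [this, hz1])
  refine ⟨ι c, hc, fun x hx => ?_⟩
  have := congrArg Subtype.val (hS.fixed ⟨x, hx⟩ c)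
  exact this

end Cfsg.Agent.S4911
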