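import Cfsg.Statements.S4916
import Cfsg.Agent.Lib.Helper2_BlockThird
import Cfsg.Agent.Lib.helper8_BlockCount

set_option autoImplicit false
open Cfsg Cfsg.Agent.Lib.Helper2_BlockLocal
  Cfsg.Agent.Lib.Helper2_BlockOm Cfsg.Agent.Lib.CharBasic Cfsg.Agent.Lib.CharOrtho Cfsg.Agent.Lib.CharMore
  Cfsg.Agent.Lib.helper8_Defect Cfsg.Agent.Lib.Helper2_BlockThird Cfsg.Agent.Lib.helper8_BlockCount
  Cfsg.Agent.Lib.Helper2_BlockQuot
open scoped ComplexConjugate Classical

namespace Cfsg.Agent.S4916

/-- Let G be a finite group, p a prime and M a maximal ideal of the algebraic integers containing p. Then the principal character is the only irreducible character of degree prime to p in the principal p-block of G if and only if p does not divide the order of G. -/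
theorem result {G : Type*} [Group G] [Finite G] (p : ℕ) [Fact p.Prime] (M : Ideal Cfsg.AlgInt) (hM : Cfsg.IsPModular p M) : (∀ χ : Cfsg.IrrCharacter G, χ ∈ Cfsg.principalBlock M G → ¬ p ∣ Cfsg.charDegree (χ : G → ℂ) → (χ : G → ℂ) = fun _ => (1 : ℂ)) ↔ ¬ p ∣ Nat.card G := by
  have := Fintype.ofFinite G
  have hP := isPrime_of_modular hM
  constructor
  · intro h hp
    have h1 := dvd_sum_sq hM (principalBlock_isPBlock M G) hp
    have hmem : oneIrr G ∈ Finset.univ.filter (fun χ : IrrCharacter G => χ ∈ principalBlock M G) :=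
      Finset.mem_filter.mpr ⟨Finset.mem_univ _, oneIrr_mem_principal hP G⟩
    rw [← Finset.add_sum_erase _ _ hmem] at h1
    have h2 : p ∣ ∑ χ ∈ (Finset.univ.filter
        (fun χ : IrrCharacter G => χ ∈ principalBlock M G)).erase (oneIrr G),
        charDegree (χ : G → ℂ) ^ 2 := by
      refine Finset.dvd_sum fun χ hχ => ?_
      obtain ⟨hne, hχ⟩ := Finset.mem_erase.mp hχ
      by_contra hnd
      apply hne
      apply Subtype.ext
      rw [h χ (Finset.mem_filter.mp hχ).2 (fun hd => hnd (Dvd.dvd.pow hd two_ne_zero))]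
      rfl
    have h3 := (Nat.dvd_add_left h2).mp h1
    have h4 : charDegree (oneIrr G : G → ℂ) = 1 := by
      simp [charDegree, oneIrr]
    rw [h4, one_pow] at h3
    exact hM.1.one_lt.ne' (Nat.dvd_one.mp h3)
  · intro hp χ hχ _
    by_contra hne
    rw [mem_principal_iff hM] at hχ
    apply hχ
    have h1 := classInner_irr_ne χ.2 (oneIrr G).2 hne
    have hG : (Nat.card G : ℂ) ≠ 0 := by exact_mod_cast Nat.card_pos.ne'
    unfold classInner at h1
    have h2 := (mul_eq_zero.mp h1).resolve_left (inv_ne_zero hG)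
    have h3 : Om (reg p G) (χ : G → ℂ) = 0 := by
      unfold Om
      have : ∑ g : G, reg p G g * (χ : G → ℂ) g =
          ∑ g : G, (χ : G → ℂ) g * conj ((oneIrr G : G → ℂ) g) := by
        refine Finset.sum_congr rfl fun g _ => ?_
        have hg : ¬ p ∣ orderOf g := fun hd => hp (hd.trans (orderOf_dvd_natCard g))
        simp [reg, hg, oneIrr]
      rw [this, h2, zero_div]
    rw [h3]
    exact ideal_zero hP

end Cfsg.Agent.S4916
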