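import Cfsg.Statements.S4989
import Cfsg.Agent.Lib.helper8_Zeros

open Cfsg.Agent.Lib.CharBasic Cfsg.Agent.Lib.helper8_Zeros Cfsg.Agent.Lib.helper8_Center

set_option autoImplicit false
open Cfsg

namespace Cfsg.Agent.S4989

/-- Let H be a subgroup of the finite group G and χ an irreducible complex character of G. Then the inner product of the restriction of χ to H with itself, (1/#H)·Σ_{h ∈ H} |χ(h)|², is at most 1 + #(Z ∖ H)/#H, where Z is the set of zeros of χ in G. -/
theorem result {G : Type*} [Group G] [Finite G] (H : Subgroup G) (χ : Cfsg.IrrCharacter G) : (Nat.card ↥H : ℝ)⁻¹ * ∑ᶠ h : ↥H, ‖(χ : G → ℂ) h‖ ^ 2 ≤ 1 + (Set.ncard ({x : G | (χ : G → ℂ) x = 0} \ (H : Set G)) : ℝ) / (Nat.card ↥H : ℝ) := by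
  classical
  have := Fintype.ofFinite G
  rw [finsum_eq_sum_of_fintype]
  have hH0 : (0 : ℝ) < (Nat.card H : ℝ) := by exact_mod_cast Nat.card_pos
  set S := Finset.univ.filter (fun g : G => g ∉ H) with hS
  have hclosed : ∀ g ∈ S, ∀ k : ℕ, k.Coprime (Nat.card G) → g ^ k ∈ S := by
    intro g hg k hk
    rw [hS, Finset.mem_filter] at hg ⊢
    refine ⟨Finset.mem_univ _, fun hmem => hg.2 ?_⟩
    obtain ⟨j, hj⟩ := exists_pow_eq_self_of_coprime (x := g) (n := k)
      (Nat.Coprime.coprime_dvd_right (orderOf_dvd_natCard g) hk)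
    rw [← hj]
    exact pow_mem hmem j
  have h1 := card_nonzero_le_sum (isCharacter_of_isIrr χ.2) S hclosed
  have h2 := sum_norm_sq χ.2
  rw [← Finset.sum_filter_add_sum_filter_not Finset.univ (fun g : G => g ∈ H)] at h2
  have h3 : ∑ g ∈ Finset.univ.filter (fun g : G => g ∈ H), ‖(χ : G → ℂ) g‖ ^ 2 =
      ∑ h : H, ‖(χ : G → ℂ) h‖ ^ 2 :=
    Finset.sum_subtype _ (by simp) _
  rw [h3] at h2
  have h4 : Set.ncard ({x : G | (χ : G → ℂ) x = 0} \ (H : Set G)) =
      (S.filter (fun g => (χ : G → ℂ) g = 0)).card := by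
    rw [← Set.ncard_coe_finset]
    congr 1
    ext x
    simp [hS, and_comm]
  have h5 : (S.filter (fun g => (χ : G → ℂ) g = 0)).card +
      (S.filter (fun g => (χ : G → ℂ) g ≠ 0)).card = S.card :=
    Finset.card_filter_add_card_filter_not _
  have h6 : (Finset.univ.filter (fun g : G => g ∈ H)).card + S.card = Nat.card G := by
    rw [hS, Finset.card_filter_add_card_filter_not, Finset.card_univ, Nat.card_eq_fintype_card]
  have h7 : (Finset.univ.filter (fun g : G => g ∈ H)).card = Nat.card H := by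
    rw [Nat.card_eq_fintype_card, Fintype.card_subtype]
  rw [h7] at h6
  rw [h4, inv_mul_le_iff₀ hH0, mul_add, mul_one, mul_div_cancel₀ _ hH0.ne']
  have h5' : ((S.filter (fun g => (χ : G → ℂ) g = 0)).card : ℝ) +
      ((S.filter (fun g => (χ : G → ℂ) g ≠ 0)).card : ℝ) = (S.card : ℝ) := by exact_mod_cast h5
  have h6' : (Nat.card H : ℝ) + (S.card : ℝ) = (Nat.card G : ℝ) := by exact_mod_cast h6
  linarith

end Cfsg.Agent.S4989
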