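import Cfsg.Statements.S4996
import Cfsg.Agent.Lib.helper8_Zeros2
import Cfsg.Agent.Lib.CharFS
import Cfsg.Agent.Lib.CharEquiv
import Cfsg.Agent.Lib.CharCorr

open Module Cfsg.Agent.Lib.CharBasic Cfsg.Agent.Lib.CharOrtho Cfsg.Agent.Lib.CharComplete
  Cfsg.Agent.Lib.CharMore Cfsg.Agent.Lib.CharFS Cfsg.Agent.Lib.CharEquiv
  Cfsg.Agent.Lib.helper8_Zeros Cfsg.Agent.Lib.helper8_Zeros2 Cfsg.Agent.Lib.helper8_Center

set_option autoImplicit false
open Cfsg

namespace Cfsg.Agent.S4996

/-- Schur's lemma for matrices. -/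
lemma schur_mat {N : Type*} [Group N] {k : ℕ} (σ : Representation ℂ N (Fin k → ℂ))
    [σ.IsIrreducible] (M : Matrix (Fin k) (Fin k) ℂ)
    (hM : ∀ n, M * matHom σ n = matHom σ n * M) : M = (M.trace / (k : ℂ)) • 1 := by
  have h1 := schur_commute σ (Matrix.toLin' M) (by
    intro n
    apply LinearMap.toMatrix'.injective
    rw [LinearMap.toMatrix'_comp, LinearMap.toMatrix'_comp, LinearMap.toMatrix'_toLin']
    exact hM n)
  have h2 := congrArg LinearMap.toMatrix' h1
  rw [LinearMap.toMatrix'_toLin', map_smul, LinearMap.toMatrix'_id, Matrix.trace_toLin'_eq,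
    Module.finrank_fin_fun] at h2
  exact h2

/-- If the restriction of `ρ` to `N` is irreducible, `|χ|²` sums to `|N|` on every coset. -/
lemma sum_coset {G : Type*} [Group G] [Fintype G] (N : Subgroup G) [Fintype N] {k : ℕ}
    (ρ : Representation ℂ G (Fin k → ℂ)) (σ : Representation ℂ N (Fin k → ℂ))
    (hσ : ∀ n : N, σ n = ρ n) [σ.IsIrreducible] (x : G) :
    ∑ n : N, ρ.character (n * x) * ρ.character ((n : G) * x)⁻¹ = (Nat.card N : ℂ) := by
  classical
  have hk : (k : ℂ) ≠ 0 := by
    have := finrank_pos_of_irr σ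
    rw [Module.finrank_fin_fun] at this
    exact_mod_cast this.ne'
  set R := matHom ρ with hR
  have hRN : ∀ n : N, matHom σ n = R n := fun n => by
    change LinearMap.toMatrix' (σ n) = LinearMap.toMatrix' (ρ n)
    rw [hσ]
  have hinv : ∀ g : G, R g * R g⁻¹ = 1 := fun g => by rw [← map_mul, mul_inv_cancel, map_one]
  have hinv' : ∀ g : G, R g⁻¹ * R g = 1 := fun g => by rw [← map_mul, inv_mul_cancel, map_one]
  -- averaging over N
  have havg : ∀ E : Matrix (Fin k) (Fin k) ℂ, ∑ n : N, R n * E * R (n : G)⁻¹ =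
      ((Nat.card N : ℂ) * E.trace / (k : ℂ)) • 1 := by
    intro E
    have h1 := schur_mat σ (∑ n : N, R n * E * R (n : G)⁻¹) (by
      intro m
      rw [hRN, Finset.sum_mul, Finset.mul_sum, ← Equiv.sum_comp (Equiv.mulLeft m)]
      refine Finset.sum_congr rfl fun n _ => ?_
      simp only [Equiv.coe_mulLeft, Subgroup.coe_mul, mul_inv_rev, map_mul]
      simp only [mul_assoc, hinv', mul_one])
    rw [h1]
    congr 2
    rw [Matrix.trace_sum]
    have h2 : ∀ n : N, (R n * E * R (n : G)⁻¹).trace = E.trace := by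
      intro n
      rw [Matrix.trace_mul_comm, ← mul_assoc, hinv', one_mul]
    simp only [h2, Finset.sum_const, Finset.card_univ, nsmul_eq_mul, Nat.card_eq_fintype_card]
  let Φ : G → (Matrix (Fin k) (Fin k) ℂ →ₗ[ℂ] Matrix (Fin k) (Fin k) ℂ) := fun g =>
    LinearMap.mulLeft ℂ (R g) ∘ₗ LinearMap.mulRight ℂ (R g⁻¹)
  have hΦ : ∀ g E, Φ g E = R g * E * R g⁻¹ := by
    intro g E
    simp [Φ, mul_assoc]
  have htr : ∀ g, LinearMap.trace ℂ _ (Φ g) = ρ.character g * ρ.character g⁻¹ := by
    intro g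
    rw [trace_matrix_end]
    simp only [hΦ, mul_single_mul_apply]
    rw [← matHom_trace, ← matHom_trace, Matrix.trace, Matrix.trace, Finset.sum_mul_sum]
    rfl
  simp only [← htr]
  rw [← map_sum, trace_matrix_end]
  have h3 : ∀ E, (∑ n : N, Φ ((n : G) * x)) E = ((Nat.card N : ℂ) * E.trace / (k : ℂ)) • 1 := by
    intro E
    rw [LinearMap.sum_apply]
    have h4 : ∀ n : N, Φ ((n : G) * x) E = R n * (R x * E * R x⁻¹) * R (n : G)⁻¹ := by
      intro n
      rw [hΦ, mul_inv_rev, map_mul, map_mul]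
      simp only [mul_assoc]
    simp only [h4]
    rw [havg]
    congr 3
    rw [Matrix.trace_mul_comm, ← mul_assoc, hinv', one_mul]
  simp only [h3, Matrix.smul_apply, smul_eq_mul, Matrix.one_apply]
  have h5 : ∀ i j : Fin k, (Nat.card N : ℂ) * (Matrix.single i j (1 : ℂ)).trace / (k : ℂ) *
      (if i = j then 1 else 0) = if i = j then (Nat.card N : ℂ) / (k : ℂ) else 0 := by
    intro i j
    split_ifs with h
    · subst h
      rw [Matrix.trace_single_eq_same]
      ring
    · ring
  simp only [h5, Finset.sum_ite_eq, Finset.mem_univ, if_true, Finset.sum_const, Finset.card_univ,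
    Fintype.card_fin, nsmul_eq_mul]
  field_simp


/-- Let N be a normal subgroup of the finite group G and χ an irreducible complex character of G. Then the restriction of χ to N is not irreducible if and only if χ vanishes on some whole coset Nx of N in G. -/
theorem result {G : Type*} [Group G] [Finite G] (N : Subgroup G) [N.Normal] (χ : Cfsg.IrrCharacter G) : ¬ Cfsg.IsIrrCharacter ↥N (fun n : ↥N => (χ : G → ℂ) n) ↔ ∃ x : G, ∀ n : ↥N, (χ : G → ℂ) ((n : G) * x) = 0 := by
  classical
  have := Fintype.ofFinite G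
  have hNc : (0 : ℝ) < (Nat.card N : ℝ) := by exact_mod_cast Nat.card_pos
  have hχc := isCharacter_of_isIrr χ.2
  constructor
  · intro hred
    -- the norm of the restriction is at least two
    obtain ⟨a, ha⟩ := classInner_char_nat (isCharacter_restrict N hχc) (isCharacter_restrict N hχc)
    have ha1 : 1 ≤ a := Cfsg.Agent.Lib.CharCorr.norm_pos_of_ne_zero (isCharacter_restrict N hχc)
      (by
        intro h0
        have := congrFun h0 1
        exact irr_degree_ne_zero χ.2 this) ha
    have ha2 : 2 ≤ a := by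
      by_contra hlt
      have : a = 1 := by omega
      apply hred
      rw [isIrr_iff_norm_one (isCharacter_restrict N hχc), ha, this]
      simp
    have hsumN : ∑ n : N, ‖(χ : G → ℂ) n‖ ^ 2 = (Nat.card N : ℝ) * a := by
      have hN0 : (Nat.card N : ℂ) ≠ 0 := by exact_mod_cast Nat.card_pos.ne'
      rw [classInner, inv_mul_eq_iff_eq_mul₀ hN0] at ha
      have h2 : ∀ n : N, (χ : G → ℂ) n * (starRingEnd ℂ) ((χ : G → ℂ) n) =
          ((‖(χ : G → ℂ) n‖ ^ 2 : ℝ) : ℂ) := by
        intro n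
        rw [Complex.mul_conj, Complex.normSq_eq_norm_sq]
      simp only [h2] at ha
      exact_mod_cast ha
    -- the averaged character
    set φ : G → ℂ := fun x => (Nat.card N : ℂ)⁻¹ *
      ∑ n : N, ((χ : G → ℂ) * fun g => (starRingEnd ℂ) ((χ : G → ℂ) g)) (x * n) with hφ
    have hφc : IsCharacter G φ := isCharacter_fixedPart N (isCharacter_mul hχc (isCharacter_conj hχc))
    have hφr : ∀ x, φ x = (((Nat.card N : ℝ)⁻¹ * ∑ n : N, ‖(χ : G → ℂ) (x * n)‖ ^ 2 : ℝ) : ℂ) := by
      intro x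
      simp only [hφ, Pi.mul_apply, Complex.mul_conj, Complex.normSq_eq_norm_sq]
      push_cast
      rfl
    have hφn : ∀ x, ‖φ x‖ = (Nat.card N : ℝ)⁻¹ * ∑ n : N, ‖(χ : G → ℂ) (x * n)‖ ^ 2 := by
      intro x
      rw [hφr, Complex.norm_real, Real.norm_of_nonneg (by positivity)]
    set S := Finset.univ.filter (fun g : G => g ∉ N) with hS
    have hclosed : ∀ g ∈ S, ∀ k : ℕ, k.Coprime (Nat.card G) → g ^ k ∈ S := by
      intro g hg k hk
      rw [hS, Finset.mem_filter] at hg ⊢
      refine ⟨Finset.mem_univ _, fun hmem => hg.2 ?_⟩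
      obtain ⟨j, hj⟩ := exists_pow_eq_self_of_coprime (x := g) (n := k)
        (Nat.Coprime.coprime_dvd_right (orderOf_dvd_natCard g) hk)
      rw [← hj]
      exact pow_mem hmem j
    have h1 := card_nonzero_le_sum_norm hφc S hclosed
    have htot : ∑ g : G, ‖φ g‖ = (Nat.card G : ℝ) := by
      simp only [hφn]
      rw [← Finset.mul_sum, Finset.sum_comm]
      have h3 : ∀ n : N, ∑ g : G, ‖(χ : G → ℂ) (g * n)‖ ^ 2 = (Nat.card G : ℝ) := by
        intro n
        rw [← sum_norm_sq χ.2]
        exact Equiv.sum_comp (Equiv.mulRight (n : G)) (fun g => ‖(χ : G → ℂ) g‖ ^ 2)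
      simp only [h3, Finset.sum_const, Finset.card_univ, nsmul_eq_mul, ← Nat.card_eq_fintype_card]
      field_simp
    have hinN : ∑ g ∈ Finset.univ.filter (fun g : G => g ∈ N), ‖φ g‖ = (Nat.card N : ℝ) * a := by
      have hsub : ∑ g ∈ Finset.univ.filter (fun g : G => g ∈ N), ‖φ g‖ = ∑ m : N, ‖φ m‖ :=
        Finset.sum_subtype _ (by simp) _
      rw [hsub]
      simp only [hφn]
      rw [← Finset.mul_sum]
      have h3 : ∀ m : N, ∑ n : N, ‖(χ : G → ℂ) ((m : G) * n)‖ ^ 2 = (Nat.card N : ℝ) * a := by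
        intro m
        rw [← hsumN]
        exact Equiv.sum_comp (Equiv.mulLeft m) (fun n : N => ‖(χ : G → ℂ) n‖ ^ 2)
      simp only [h3, Finset.sum_const, Finset.card_univ, nsmul_eq_mul, ← Nat.card_eq_fintype_card]
      field_simp
    rw [← Finset.sum_filter_add_sum_filter_not Finset.univ (fun g : G => g ∈ N), hinN] at htot
    have h6 : (Finset.univ.filter (fun g : G => g ∈ N)).card + S.card = Nat.card G := by
      rw [hS, Finset.card_filter_add_card_filter_not, Finset.card_univ, Nat.card_eq_fintype_card]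
    have h7 : (Finset.univ.filter (fun g : G => g ∈ N)).card = Nat.card N := by
      rw [Nat.card_eq_fintype_card, Fintype.card_subtype]
    rw [h7] at h6
    have h6' : (Nat.card N : ℝ) + (S.card : ℝ) = (Nat.card G : ℝ) := by exact_mod_cast h6
    have ha2' : (2 : ℝ) ≤ (a : ℝ) := by exact_mod_cast ha2
    have hex : ∃ g ∈ S, φ g = 0 := by
      by_contra hcon
      push Not at hcon
      have h8 : S.filter (fun g => φ g ≠ 0) = S := Finset.filter_true_of_mem hcon
      rw [h8] at h1
      nlinarith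
    obtain ⟨g, -, hg⟩ := hex
    refine ⟨g, fun n => ?_⟩
    have h9 : ‖φ g‖ = 0 := by rw [hg, norm_zero]
    rw [hφn] at h9
    have h10 : ∑ n : N, ‖(χ : G → ℂ) (g * n)‖ ^ 2 = 0 := by
      rcases mul_eq_zero.1 h9 with h | h
      · exact absurd (inv_eq_zero.1 h) hNc.ne'
      · exact h
    rw [Finset.sum_eq_zero_iff_of_nonneg (fun _ _ => by positivity)] at h10
    have h11 := h10 ⟨g⁻¹ * n * g, by
      have := ‹N.Normal›.conj_mem n n.2 g⁻¹
      rwa [inv_inv] at this⟩ (Finset.mem_univ _)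
    have h12 : g * (g⁻¹ * (n : G) * g) = n * g := by group
    simp only [h12] at h11
    exact norm_eq_zero.1 (pow_eq_zero_iff two_ne_zero |>.1 h11)
  · rintro ⟨x, hx⟩ hirr
    obtain ⟨k, ρ, hρ, hρχ⟩ := χ.2
    obtain ⟨k', σ', hσ', hσχ⟩ := hirr
    let σ : Representation ℂ N (Fin k → ℂ) := ρ.comp N.subtype
    have hchar : σ'.character = σ.character := by
      rw [hσχ]
      ext n
      rw [← hρχ]
      rfl
    obtain ⟨e⟩ := equiv_of_char_eq σ' σ hchar
    have hσirr : σ.IsIrreducible := isIrreducible_of_equiv e hσ'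
    have h1 := sum_coset N ρ σ (fun n => rfl) x
    rw [hρχ] at h1
    simp only [hx, zero_mul, Finset.sum_const_zero] at h1
    have : (Nat.card N : ℂ) ≠ 0 := by exact_mod_cast Nat.card_pos.ne'
    exact this h1.symm

end Cfsg.Agent.S4996
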