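import Cfsg.Statements.S5001
import Cfsg.Agent.Lib.Helper2_BlockSection
import Cfsg.Agent.Lib.CharProd
import Cfsg.Agent.Lib.CharLinear
import Cfsg.Agent.Lib.helper8_Center
import Cfsg.Agent.Lib.CharIto

set_option autoImplicit false
open Cfsg Cfsg.Agent.Lib.Helper2_BlockLocal
  Cfsg.Agent.Lib.Helper2_BlockOm Cfsg.Agent.Lib.CharBasic Cfsg.Agent.Lib.CharOrtho Cfsg.Agent.Lib.CharMore
  Cfsg.Agent.Lib.helper8_Defect Cfsg.Agent.Lib.Helper2_BlockFMT Cfsg.Agent.Lib.CharProd
  Cfsg.Agent.Lib.CharLinear Cfsg.Agent.Lib.helper8_Center Cfsg.Agent.Lib.Helper2_BlockDefOrder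
open scoped ComplexConjugate Classical

namespace Cfsg.Agent.S5001

/-- Let p be a prime, G a finite group and B a p-block of G (relative to a maximal ideal M of the algebraic integers containing p) with defect group D. Let Z be a central p-subgroup of G contained in D and λ a linear character of Z (a homomorphism to the nonzero complex numbers). Say an irreducible character χ of G lies over λ when χ(z) = χ(1)λ(z) for all z ∈ Z. If some irreducible character in B lying over λ has height zero, then λ extends to a linear character of D. -/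
theorem result {G : Type*} [Group G] [Finite G] (p : ℕ) [Fact p.Prime] (M : Ideal Cfsg.AlgInt) (hM : Cfsg.IsPModular p M) (B : Set (Cfsg.IrrCharacter G)) (hB : Cfsg.IsPBlock M B) (D : Subgroup G) (hD : Cfsg.IsDefectGroup p M B D) (Z : Subgroup G) (hZc : Z ≤ Subgroup.center G) (hZp : IsPGroup p ↥Z) (hZD : Z ≤ D) (lam : ↥Z →* ℂˣ) (χ : Cfsg.IrrCharacter G) (hχ : χ ∈ B) (hover : (∀ z : ↥Z, (χ : G → ℂ) z = (χ : G → ℂ) 1 * (lam z : ℂ))) (h0 : Cfsg.blockHeight p B (χ : G → ℂ) = 0) : (∃ μ : ↥D →* ℂˣ, ∀ z : ↥Z, μ ⟨(z : G), hZD z.2⟩ = lam z) := by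
  have := Fintype.ofFinite G
  have hP := isPrime_of_modular hM
  have hp := hM.1
  have hχc := isCharacter_of_isIrr χ.2
  obtain ⟨g0, hg0, hDg, -⟩ := isDefectGroup_iff.mp hD
  have hval := Cfsg.Agent.Lib.Helper2_BlockSection.value_not_ideal hM hg0 hχ
    (Cfsg.Agent.Lib.Helper2_BlockSection.height_zero_val hM hB hg0 h0)
  -- the product group
  have hcomm : ∀ (d : D) (c : Subgroup.zpowers g0), Commute (D.subtype d) ((Subgroup.zpowers g0).subtype c) := by
    rintro d ⟨c, k, rfl⟩
    have h1 := Subgroup.mem_centralizer_singleton_iff.mp (hDg d.2)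
    exact (Commute.zpow_right (show Commute (d : G) g0 from h1) k)
  let φ : D × Subgroup.zpowers g0 →* G :=
    MonoidHom.noncommCoprod D.subtype (Subgroup.zpowers g0).subtype hcomm
  have hφ : ∀ e : D × Subgroup.zpowers g0, φ e = (e.1 : G) * (e.2 : G) := fun e => rfl
  have hΨ : IsCharacter (D × Subgroup.zpowers g0) (fun e => (χ : G → ℂ) (φ e)) :=
    isCharacter_comp φ hχc
  obtain ⟨m, hm, hexp⟩ := exists_mult hΨ
  have hcardD := card_defectGroup hM hB hD
  let e0 : D × Subgroup.zpowers g0 := (1, ⟨g0, Subgroup.mem_zpowers g0⟩)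
  -- a constituent of degree prime to `p`
  have hex : ∃ ξ : IrrCharacter (D × Subgroup.zpowers g0), m ξ ≠ 0 ∧
      ¬ MemLocalIdeal M ((ξ : D × Subgroup.zpowers g0 → ℂ) e0) := by
    by_contra hcon
    push Not at hcon
    apply hval
    have h1 := congrFun hexp e0
    simp only [hφ, e0, Subgroup.coe_one, one_mul, Finset.sum_apply, Pi.smul_apply, smul_eq_mul] at h1
    rw [h1]
    refine ideal_sum hP _ _ fun ξ _ => ?_
    by_cases h0 : m ξ = 0
    · rw [h0, Nat.cast_zero, zero_mul]; exact ideal_zero hP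
    · exact ideal_mul_left hP (ring_natCast hP _) (hcon ξ h0)
  obtain ⟨ξ, hmξ, hξ⟩ := hex
  obtain ⟨θ, μ, hθ, hμ, hξe⟩ := exists_prod_of_isIrr ξ.2
  obtain ⟨hd0, hd1, hd2⟩ := irr_charDegree hθ
  have hθ1 : θ 1 = 1 := by
    have hnd : ¬ p ∣ charDegree θ := by
      intro hdvd
      apply hξ
      rw [hξe]
      show MemLocalIdeal M (θ 1 * μ _)
      rw [hd1]
      exact ideal_mul_right hP ((ideal_natCast_iff hM _).mpr hdvd)
        (ring_of_isIntegral hP (isIntegral_of_isCharacter (isCharacter_of_isIrr hμ) _))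
    rw [hcardD] at hd2
    obtain ⟨j, -, hj⟩ := (Nat.dvd_prime_pow hp).mp hd2
    rcases Nat.eq_zero_or_pos j with h | h
    · rw [hd1, hj, h, pow_zero, Nat.cast_one]
    · exact absurd (hj ▸ dvd_pow_self p h.ne') hnd
  have hθc := isCharacter_of_isIrr hθ
  refine ⟨homOfLinear hθc hθ1, fun z => Units.ext ?_⟩
  rw [homOfLinear_apply]
  set zD : D := ⟨(z : G), hZD z.2⟩ with hzD
  have hmul : ∀ a b : D, θ (a * b) = θ a * θ b := by
    intro a b
    rw [← homOfLinear_apply hθc hθ1, map_mul, Units.val_mul, homOfLinear_apply, homOfLinear_apply]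
  have hzc : ∀ g : G, g * (z : G) = (z : G) * g := fun g => Subgroup.mem_center_iff.mp (hZc z.2) g
  have hχ1 : (χ : G → ℂ) 1 ≠ 0 := irr_degree_ne_zero χ.2
  have hinner := hm ξ
  have hne : classInner (fun e => (χ : G → ℂ) (φ e)) (ξ : D × Subgroup.zpowers g0 → ℂ) ≠ 0 := by
    rw [hinner]; exact_mod_cast hmξ
  have hkey : classInner (fun e => (χ : G → ℂ) (φ e)) (ξ : D × Subgroup.zpowers g0 → ℂ) =
      ((lam z : ℂ) * conj (θ zD)) * classInner (fun e => (χ : G → ℂ) (φ e)) (ξ : D × Subgroup.zpowers g0 → ℂ) := by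
    have hsum := (Equiv.sum_comp (Equiv.mulRight ((zD, 1) : D × Subgroup.zpowers g0))
      (fun e => (χ : G → ℂ) (φ e) * conj ((ξ : D × Subgroup.zpowers g0 → ℂ) e))).symm
    have hterm : ∀ e : D × Subgroup.zpowers g0,
        (χ : G → ℂ) (φ (e * (zD, 1))) * conj ((ξ : D × Subgroup.zpowers g0 → ℂ) (e * (zD, 1))) =
        ((lam z : ℂ) * conj (θ zD)) *
          ((χ : G → ℂ) (φ e) * conj ((ξ : D × Subgroup.zpowers g0 → ℂ) e)) := by
      intro e
      have e1 : φ (e * (zD, 1)) = φ e * (z : G) := by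
        rw [map_mul]
        congr 1
        rw [hφ]
        simp [hzD]
      have e2 : (ξ : D × Subgroup.zpowers g0 → ℂ) (e * (zD, 1)) = (ξ : D × Subgroup.zpowers g0 → ℂ) e * θ zD := by
        rw [hξe]
        show θ (e.1 * zD) * μ (e.2 * 1) = θ e.1 * μ e.2 * θ zD
        rw [hmul, mul_one]
        ring
      rw [e1, e2, central_mul χ.2 hzc, hover z, map_mul]
      field_simp
    unfold classInner
    calc _ = (Nat.card (D × Subgroup.zpowers g0) : ℂ)⁻¹ * ∑ e : D × Subgroup.zpowers g0,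
          (χ : G → ℂ) (φ (e * (zD, 1))) * conj ((ξ : D × Subgroup.zpowers g0 → ℂ) (e * (zD, 1))) := by
          congr 1
      _ = _ := by
          rw [Finset.sum_congr rfl fun e _ => hterm e, ← Finset.mul_sum]
          ring
  have h1 : (lam z : ℂ) * conj (θ zD) = 1 := by
    have h2 : (1 : ℂ) * classInner (fun e => (χ : G → ℂ) (φ e)) (ξ : D × Subgroup.zpowers g0 → ℂ) =
        ((lam z : ℂ) * conj (θ zD)) *
          classInner (fun e => (χ : G → ℂ) (φ e)) (ξ : D × Subgroup.zpowers g0 → ℂ) := by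
      rw [one_mul]; exact hkey
    exact (mul_right_cancel₀ hne h2).symm
  have hnorm : θ zD * conj (θ zD) = 1 := by
    rw [Complex.mul_conj, Complex.normSq_eq_norm_sq, Cfsg.Agent.Lib.CharIto.norm_linear hθc hθ1]
    norm_num
  have hc0 : conj (θ zD) ≠ 0 := by
    intro h
    rw [h, mul_zero] at h1
    exact zero_ne_one h1
  exact mul_right_cancel₀ hc0 (hnorm.trans h1.symm)

end Cfsg.Agent.S5001
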