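import Cfsg.Statements.S5011

set_option autoImplicit false
open Cfsg

namespace Cfsg.Agent.S5011

/-- Let G be a finite non-abelian simple group and ρ an irreducible complex representation of G on a space of dimension greater than one (irreducible in the sense that the only subspaces invariant under every ρ(x) are 0 and the whole space). Then for every non-identity element g of G, the centralizer of g does not act irreducibly: there is a non-zero proper subspace invariant under ρ(c) for every c commuting with g. -/
theorem result {G : Type*} [Group G] [Finite G] [IsSimpleGroup G]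
    (hG : ¬ IsMulCommutative G) {V : Type*} [AddCommGroup V] [Module ℂ V] [FiniteDimensional ℂ V]
    (ρ : Representation ℂ G V)
    (hirr : ∀ W : Submodule ℂ V, (∀ x : G, ∀ v ∈ W, ρ x v ∈ W) → W = ⊥ ∨ W = ⊤)
    (hdim : 1 < Module.finrank ℂ V) (g : G) (hg : g ≠ 1) :
    ∃ W : Submodule ℂ V, W ≠ ⊥ ∧ W ≠ ⊤ ∧ ∀ c ∈ Subgroup.centralizer ({g} : Set G), ∀ v ∈ W, ρ c v ∈ W := by
  have hnt : Nontrivial V := Module.nontrivial_of_finrank_pos (R := ℂ) (by omega)
  -- an operator commuting with everything is scalar
  have hA : ∀ x : G, (∀ y, ρ x * ρ y = ρ y * ρ x) → ∃ μ : ℂ, ∀ v, ρ x v = μ • v := by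
    intro x hx
    obtain ⟨μ, hμ⟩ := Module.End.exists_eigenvalue (ρ x)
    refine ⟨μ, ?_⟩
    have hinv : ∀ y : G, ∀ v ∈ Module.End.eigenspace (ρ x) μ, ρ y v ∈ Module.End.eigenspace (ρ x) μ := by
      intro y v hv
      rw [Module.End.mem_eigenspace_iff] at hv ⊢
      have : ρ x (ρ y v) = ρ y (ρ x v) := by
        have := congrArg (fun f => f v) (hx y)
        simpa using this
      rw [this, hv, map_smul]
    rcases hirr _ hinv with e | e
    · exact absurd e hμ
    · intro v
      have : v ∈ Module.End.eigenspace (ρ x) μ := e ▸ Submodule.mem_top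
      exact Module.End.mem_eigenspace_iff.mp this
  obtain ⟨μ, hμ⟩ := Module.End.exists_eigenvalue (ρ g)
  refine ⟨Module.End.eigenspace (ρ g) μ, hμ, ?_, ?_⟩
  · intro htop
    have hg' : ∀ v, ρ g v = μ • v := by
      intro v
      have : v ∈ Module.End.eigenspace (ρ g) μ := htop ▸ Submodule.mem_top
      exact Module.End.mem_eigenspace_iff.mp this
    let K : Subgroup G :=
      { carrier := {x | ∀ y, ρ x * ρ y = ρ y * ρ x}
        one_mem' := by intro y; simp
        mul_mem' := by
          intro a b ha hb y
          rw [map_mul, mul_assoc, hb y, ← mul_assoc, ha y, mul_assoc]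
        inv_mem' := by
          intro a ha y
          have h1 : ρ a⁻¹ * ρ a = 1 := by rw [← map_mul]; simp
          have h2 : ρ a * ρ a⁻¹ = 1 := by rw [← map_mul]; simp
          calc ρ a⁻¹ * ρ y = ρ a⁻¹ * ρ y * (ρ a * ρ a⁻¹) := by rw [h2, mul_one]
            _ = ρ a⁻¹ * (ρ y * ρ a) * ρ a⁻¹ := by simp only [mul_assoc]
            _ = ρ a⁻¹ * (ρ a * ρ y) * ρ a⁻¹ := by rw [ha y]
            _ = (ρ a⁻¹ * ρ a) * ρ y * ρ a⁻¹ := by simp only [mul_assoc]
            _ = ρ y * ρ a⁻¹ := by rw [h1, one_mul] }
    have hKn : K.Normal := by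
      constructor
      intro n hn x y
      have h2 : ρ x * ρ x⁻¹ = 1 := by rw [← map_mul]; simp
      have : ρ (x * n * x⁻¹) = ρ n := by
        rw [map_mul, map_mul, ← hn x, mul_assoc, h2, mul_one]
      rw [this]
      exact hn y
    have hgK : g ∈ K := by
      intro y
      ext v
      simp only [Module.End.mul_apply, hg', map_smul]
    have hK : K = ⊤ := by
      rcases hKn.eq_bot_or_eq_top with e | e
      · rw [e] at hgK
        exact absurd (Subgroup.mem_bot.mp hgK) hg
      · exact e
    obtain ⟨v, hv⟩ := exists_ne (0 : V)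
    have hinv : ∀ x : G, ∀ w ∈ Submodule.span ℂ {v}, ρ x w ∈ Submodule.span ℂ {v} := by
      intro x w hw
      have hx : x ∈ K := hK ▸ Subgroup.mem_top x
      obtain ⟨c, hc⟩ := hA x hx
      rw [hc]
      exact Submodule.smul_mem _ _ hw
    rcases hirr _ hinv with e | e
    · rw [Submodule.span_singleton_eq_bot] at e
      exact hv e
    · have h1 := finrank_span_singleton (K := ℂ) hv
      rw [e, finrank_top] at h1
      omega
  · intro c hc v hv
    rw [Module.End.mem_eigenspace_iff] at hv ⊢
    have hcg : g * c = c * g := Subgroup.mem_centralizer_iff.mp hc g rfl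
    have : ρ g (ρ c v) = ρ c (ρ g v) := by
      have h1 : ρ (g * c) v = ρ (c * g) v := by rw [hcg]
      simpa using h1
    rw [this, hv, map_smul]

end Cfsg.Agent.S5011
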