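import Cfsg.Statements.S5135
import Cfsg.Agent.Lib.Helper9_GroupQuot

set_option autoImplicit false
open Cfsg

namespace Cfsg.Agent.S5135

/-- Let G be a finite group, S a Sylow p-subgroup and H a normal subgroup of G. Then the fusion system of G/H on the image SH/H of S is the factor system of the fusion system of G on S modulo S ∩ H, read through the quotient map restricted to S: for each subgroup P' of SH/H, the conjugation maps by elements of G/H defined on P' with values in SH/H are exactly the homomorphisms induced by the conjugation maps by elements of G defined on the full preimage of P' in S with values in S. -/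
theorem result {G : Type*} [Group G] [Finite G] (p : ℕ) [Fact p.Prime] (S : Sylow p G) (H : Subgroup G) [H.Normal] : (Cfsg.groupFusionSystem (S : Subgroup G)).IsFactorSystem ((S : Subgroup G) ⊓ H) ((QuotientGroup.mk' H).comp (S : Subgroup G).subtype) (Cfsg.groupFusionSystem ((S : Subgroup G).map (QuotientGroup.mk' H))) := by
  have hrange : ((QuotientGroup.mk' H).comp (S : Subgroup G).subtype).range =
      (S : Subgroup G).map (QuotientGroup.mk' H) := by
    rw [MonoidHom.range_comp, Subgroup.range_subtype]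
  refine ⟨inf_le_left, fun s => ?_, hrange, fun P' φ' => ⟨?_, ?_⟩⟩
  · show (QuotientGroup.mk (s : G) : G ⧸ H) = 1 ↔ _
    rw [QuotientGroup.eq_one_iff]
    exact ⟨fun h => ⟨s.2, h⟩, fun h => h.2⟩
  · rintro ⟨hP', hφ', γ, hγ⟩
    refine ⟨hP', ?_⟩
    have hPS := Cfsg.Agent.Lib.Helper9_Factor3.preimageAlong_le
      ((QuotientGroup.mk' H).comp (S : Subgroup G).subtype) P'
    have hmem : ∀ x : ↥(Cfsg.FusionSystem.preimageAlong
        ((QuotientGroup.mk' H).comp (S : Subgroup G).subtype) P'),
        (QuotientGroup.mk (x : G) : G ⧸ H) ∈ P' :=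
      fun x => Cfsg.Agent.Lib.Helper9_Factor3.apply_mem_of_preimageAlong _ P' x
    obtain ⟨g, rfl, hg⟩ := Cfsg.Agent.Lib.Helper9_GroupQuot.exists_lift_conj S H hPS γ (by
      intro x hx
      have h1 := hφ' ⟨_, hmem ⟨x, hx⟩⟩
      rw [hγ] at h1
      exact h1)
    refine ⟨Cfsg.conjHom _ g, Cfsg.Agent.Lib.Helper9_FusionGroup.conjHom_mem_group _ hPS g hg,
      hPS, fun x => hg x x.2, hmem, fun x => ?_⟩
    rw [hγ]
    rfl
  · rintro ⟨hP', φ, ⟨hPS, hφS, g, hg⟩, hP, hφ, hP'', heq⟩
    have key : ∀ y : P', ∃ x : ↥(Cfsg.FusionSystem.preimageAlong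
        ((QuotientGroup.mk' H).comp (S : Subgroup G).subtype) P'),
        (⟨((QuotientGroup.mk' H).comp (S : Subgroup G).subtype) ⟨x, hP x.2⟩, hP'' x⟩ : P') = y := by
      intro y
      obtain ⟨s, hs, hsy⟩ := hP' y.2
      have hsy' : ((QuotientGroup.mk' H).comp (S : Subgroup G).subtype) ⟨s, hs⟩ = y := hsy
      refine ⟨⟨s, (Cfsg.Agent.Lib.Helper9_Factor3.mem_preimageAlong _ _ _).2 ⟨hs, ?_⟩⟩, Subtype.ext hsy'⟩
      rw [hsy']
      exact y.2
    refine ⟨hP', fun y => ?_, QuotientGroup.mk g, fun y => ?_⟩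
    · obtain ⟨x, rfl⟩ := key y
      rw [heq]
      exact ⟨_, hφ x, rfl⟩
    · obtain ⟨x, rfl⟩ := key y
      rw [heq]
      show (QuotientGroup.mk (φ x) : G ⧸ H) = _
      rw [hg]
      rfl

end Cfsg.Agent.S5135
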