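import Cfsg.Statements.S5147
import Cfsg.Agent.Lib.Helper9_Constrained3
import Cfsg.Agent.S5135

set_option autoImplicit false
open Cfsg

namespace Cfsg.Agent.S5147

/-- Let G be a finite group with Sylow 2-subgroup S whose 2-fusion system on S is constrained, and L a component of G (a subnormal quasisimple subgroup). Then the 2-fusion system of L/Z(L) on the image of S ∩ L is constrained. -/
theorem result {G : Type*} [Group G] [Finite G] (S : Sylow 2 G) (hF : (Cfsg.groupFusionSystem (S : Subgroup G)).IsConstrained 2) (L : Subgroup G) (hL : Cfsg.IsComponent L) : (Cfsg.groupFusionSystem (((S : Subgroup G).subgroupOf L).map (QuotientGroup.mk' (Subgroup.center L)))).IsConstrained 2 := by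
  have hcL := Cfsg.Agent.Lib.Helper9_Constrained2.subnormal_constrained' S hF hL.1
  obtain ⟨R, hR⟩ := Cfsg.Agent.Lib.Helper9_HyperGroup.sylIn_of_isSylIn
    (Cfsg.Agent.Lib.Helper9_Constrained2.subnormal_constrained S hF hL.1).1
  rw [Subgroup.inf_subgroupOf_right] at hR
  rw [← hR] at hcL ⊢
  have hfac := Cfsg.Agent.S5135.result 2 R (Subgroup.center L)
  have hZ : (Cfsg.groupFusionSystem (R : Subgroup L)).IsCentral
      ((R : Subgroup L) ⊓ Subgroup.center L) := by
    apply Cfsg.Agent.Lib.Helper9_FusionNormal.isCentral_of _ inf_le_left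
    rintro P φ ⟨hP, hφ, g, hg⟩
    have hle : P ⊔ (R : Subgroup L) ⊓ Subgroup.center L ≤ (R : Subgroup L) := sup_le hP inf_le_left
    have hcomap : P ⊔ (R : Subgroup L) ⊓ Subgroup.center L ≤
        (R : Subgroup L).comap (MulAut.conj g).toMonoidHom := by
      apply sup_le
      · intro x hx
        have h1 := hφ ⟨x, hx⟩
        rw [hg] at h1
        exact h1
      · intro z hz
        show g * z * g⁻¹ ∈ (R : Subgroup L)
        rw [(Subgroup.mem_center_iff.1 hz.2) g, mul_inv_cancel_right]
        exact hz.1
    refine ⟨_, le_sup_left, le_sup_right, Cfsg.conjHom _ g,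
      Cfsg.Agent.Lib.Helper9_FusionGroup.conjHom_mem_group _ hle g (fun x hx => hcomap hx),
      fun x => (hg x).symm, fun z => ?_⟩
    show g * (z : L) * g⁻¹ = z
    rw [(Subgroup.mem_center_iff.1 z.2.2) g, mul_inv_cancel_right]
  exact Cfsg.Agent.Lib.Helper9_Constrained3.constrained_factor_central 2 R.isPGroup' _ hcL hZ _ _ hfac

end Cfsg.Agent.S5147
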