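import Cfsg.Statements.S5521
import Cfsg.Agent.Lib.Helper3_M24j

set_option autoImplicit false
open Cfsg

namespace Cfsg.Agent.S5521

/-- The Mathieu group M₂₄ in its natural action on the 24 coordinate positions of the binary Golay code has minimal base size exactly 7: every set of at most 6 positions is fixed pointwise by some non-identity element of M₂₄, while some set of 7 positions is fixed pointwise only by the identity. -/
theorem result :
    (∀ B : Finset Cfsg.GolayPt, B.card ≤ 6 → ∃ g ∈ Cfsg.M24, g ≠ 1 ∧ ∀ b ∈ B, g b = b) ∧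
    (∃ B : Finset Cfsg.GolayPt, B.card = 7 ∧ ∀ g ∈ Cfsg.M24, (∀ b ∈ B, g b = b) → g = 1) := by
  classical
  constructor
  · intro B hB
    obtain ⟨E, hBE, hE⟩ := Finset.exists_superset_card_eq (s := B) (n := 6) hB
      (by decide)
    have hc : 1 < Nat.card {g : Equiv.Perm Cfsg.GolayPt // g ∈ Cfsg.M24 ∧ ∀ p ∈ E, g p = p} := by
      by_cases h : ∃ o ∈ Cfsg.octads, E ⊆ o
      · rw [Cfsg.Agent.Lib.Helper3_M24j.card_fix6_special hE h]; omega
      · rw [Cfsg.Agent.Lib.Helper3_M24j.card_fix6_general hE h]; omega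
    have hnt := (Finite.one_lt_card_iff_nontrivial).mp hc
    obtain ⟨x, hx⟩ := exists_ne (⟨1, Cfsg.M24.one_mem, fun _ _ => rfl⟩ :
      {g : Equiv.Perm Cfsg.GolayPt // g ∈ Cfsg.M24 ∧ ∀ p ∈ E, g p = p})
    refine ⟨x.1, x.2.1, ?_, fun b hb => x.2.2 b (hBE hb)⟩
    intro h1
    exact hx (Subtype.ext h1)
  · refine ⟨([4, 5, 3, 2, 1, 0, 23].map Cfsg.Agent.Lib.Helper3_M24a.pt).toFinset, by decide +kernel, ?_⟩
    intro g hg hfix
    have : g ∈ Cfsg.Agent.Lib.Helper3_M24b.Fx [4, 5, 3, 2, 1, 0, 23] :=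
      ⟨hg, fun a ha => hfix a (List.mem_toFinset.mpr ha)⟩
    rw [Cfsg.Agent.Lib.Helper3_M24b.Fx8] at this
    exact Subgroup.mem_bot.mp this

end Cfsg.Agent.S5521
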