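import Cfsg.Statements.S5562


set_option autoImplicit false
open Cfsg

namespace Cfsg.Agent.S5562

/-- Let G be a finite group, d an involution of G whose conjugates pairwise have products of odd order, and x any involution of G. Then the conjugacy class of d is the disjoint union, over the conjugates a of d commuting with x, of the sets of conjugates of d commuting with ax: every conjugate of d commutes with ax for exactly one conjugate a of d that commutes with x. -/
theorem result {G : Type*} [Group G] [Finite G] (d : G) (hd : orderOf d = 2)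
    (hodd : ∀ a ∈ conjugatesOf d, ∀ b ∈ conjugatesOf d, Odd (orderOf (a * b)))
    (x : G) (hx : orderOf x = 2) :
    ∀ e ∈ conjugatesOf d,
      ∃! a : G, a ∈ conjugatesOf d ∧ Commute a x ∧ Commute e (a * x) := by
  intro e he
  have hsq_of : ∀ a ∈ conjugatesOf d, a * a = 1 := by
    intro a ha
    obtain ⟨c, rfl⟩ := isConj_iff.1 (show IsConj d a from ha)
    have hdd : d * d = 1 := by
      have := pow_orderOf_eq_one d
      rwa [hd, pow_two] at this
    calc c * d * c⁻¹ * (c * d * c⁻¹) = c * (d * d) * c⁻¹ := by group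
      _ = 1 := by rw [hdd]; group
  have hconj : ∀ a ∈ conjugatesOf d, ∀ g : G, g * a * g⁻¹ ∈ conjugatesOf d := by
    intro a ha g
    exact (show IsConj d a from ha).trans (isConj_iff.2 ⟨g, rfl⟩)
  have hxx : x * x = 1 := by
    have := pow_orderOf_eq_one x
    rwa [hx, pow_two] at this
  have hxinv : x⁻¹ = x := inv_eq_of_mul_eq_one_left hxx
  have hee := hsq_of e he
  have heinv : e⁻¹ = e := inv_eq_of_mul_eq_one_left hee
  set f := x * e * x⁻¹ with hf
  have hfD : f ∈ conjugatesOf d := hconj e he x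
  have hff := hsq_of f hfD
  have hfinv : f⁻¹ = f := inv_eq_of_mul_eq_one_left hff
  set u := e * f with hu
  obtain ⟨k, hk⟩ := hodd e he f hfD
  have hun : u ^ (2 * k + 1 + 1) = u := by
    rw [pow_succ, ← hk, pow_orderOf_eq_one, one_mul]
  set r := u ^ ((k + 1) * (k + 1)) with hr
  have hr4 : r ^ 4 = u := by
    rw [hr, ← pow_mul]
    have : (k + 1) * (k + 1) * 4 = (2 * k + 1 + 1) * (2 * k + 1 + 1) := by ring
    rw [this, pow_mul, hun, hun]
  have hrinv : ∀ y : G, y * u * y⁻¹ = u⁻¹ → y * r * y⁻¹ = r⁻¹ := by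
    intro y hy
    rw [hr, ← conj_pow, hy, inv_pow]
  have heu : e * u * e⁻¹ = u⁻¹ := by
    rw [hu, mul_inv_rev, heinv, hfinv, ← mul_assoc, hee, one_mul]
  have her := hrinv e heu
  -- e * r = r⁻¹ * e
  have her' : e * r = r⁻¹ * e := by
    rw [← her]; group
  have her'' : e * r⁻¹ = r * e := by
    have : e * r⁻¹ * e⁻¹ = r := by
      have := congrArg (fun t => t⁻¹) her
      simpa [mul_assoc] using this
    calc e * r⁻¹ = (e * r⁻¹ * e⁻¹) * e := by group
      _ = r * e := by rw [this]
  have hfr : f = r⁻¹ * r⁻¹ * e * r * r := by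
    have h1 : f = e * u := by rw [hu, ← mul_assoc, hee, one_mul]
    rw [h1, ← hr4]
    have : e * r ^ 4 = (e * r) * r * r * r := by
      simp only [pow_succ, pow_zero, one_mul, mul_assoc]
    rw [this, her', mul_assoc r⁻¹ e r, her']
    group
  set a₀ := r⁻¹ * e * r with ha₀
  have ha₀D : a₀ ∈ conjugatesOf d := by
    have := hconj e he r⁻¹
    rwa [inv_inv] at this
  have ha₀sq := hsq_of a₀ ha₀D
  have ha₀inv : a₀⁻¹ = a₀ := inv_eq_of_mul_eq_one_left ha₀sq
  -- generic: an element swapping e and f centralizes a₀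
  have hgen : ∀ y : G, y * e * y⁻¹ = f → y * f * y⁻¹ = e → y * a₀ * y⁻¹ = a₀ := by
    intro y h1 h2
    have hyu : y * u * y⁻¹ = u⁻¹ := by
      rw [hu, mul_inv_rev, heinv, hfinv]
      calc y * (e * f) * y⁻¹ = (y * e * y⁻¹) * (y * f * y⁻¹) := by group
        _ = f * e := by rw [h1, h2]
    have hyr := hrinv y hyu
    have hyr' : y * r⁻¹ * y⁻¹ = r := by
      have := congrArg (fun t => t⁻¹) hyr
      simpa [mul_assoc] using this
    calc y * a₀ * y⁻¹ = (y * r⁻¹ * y⁻¹) * (y * e * y⁻¹) * (y * r * y⁻¹) := by rw [ha₀]; group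
      _ = r * f * r⁻¹ := by rw [hyr', h1, hyr]
      _ = a₀ := by rw [hfr, ha₀]; group
  have hxf : x * f * x⁻¹ = e := by
    rw [hf, hxinv]
    calc x * (x * e * x) * x = (x * x) * e * (x * x) := by group
      _ = e := by rw [hxx]; group
  have ha₀x : Commute a₀ x := by
    have := hgen x rfl hxf
    show a₀ * x = x * a₀
    calc a₀ * x = (x * a₀ * x⁻¹) * x := by rw [this]
      _ = x * a₀ := by group
  have ha₀e : a₀ * e * a₀ = f := by
    rw [hfr, ha₀]
    calc r⁻¹ * e * r * e * (r⁻¹ * e * r) = r⁻¹ * (e * r) * (e * r⁻¹) * e * r := by group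
      _ = r⁻¹ * (r⁻¹ * e) * (r * e) * e * r := by rw [her', her'']
      _ = r⁻¹ * r⁻¹ * (e * r) * (e * e) * r := by group
      _ = r⁻¹ * r⁻¹ * (r⁻¹ * e) * r := by rw [her', hee, mul_one]
      _ = r⁻¹ * r⁻¹ * (e * r) * r := by rw [her']
      _ = r⁻¹ * r⁻¹ * e * r * r := by group
  refine ⟨a₀, ⟨ha₀D, ha₀x, ?_⟩, ?_⟩
  · show e * (a₀ * x) = a₀ * x * e
    have h1 : x * e = f * x := by rw [hf]; group
    have h2 : a₀ * f = e * a₀ := by
      rw [← ha₀e]
      calc a₀ * (a₀ * e * a₀) = (a₀ * a₀) * e * a₀ := by group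
        _ = e * a₀ := by rw [ha₀sq, one_mul]
    calc e * (a₀ * x) = (e * a₀) * x := (mul_assoc _ _ _).symm
      _ = a₀ * f * x := by rw [h2]
      _ = a₀ * (f * x) := mul_assoc _ _ _
      _ = a₀ * (x * e) := by rw [h1]
      _ = a₀ * x * e := (mul_assoc _ _ _).symm
  · rintro a ⟨haD, hax, hea⟩
    have haa := hsq_of a haD
    have hainv : a⁻¹ = a := inv_eq_of_mul_eq_one_left haa
    have h1 : a * f * a⁻¹ = e := by
      have : (a * x) * e * (a * x)⁻¹ = e := by
        rw [← hea.eq]; group
      rw [← this, hf]; group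
    have h2 : a * e * a⁻¹ = f := by
      rw [← h1, hainv]
      calc a * (a * f * a) * a = (a * a) * f * (a * a) := by group
        _ = f := by rw [haa]; group
    have h3 := hgen a h2 h1
    have hcomm : Commute a a₀ := by
      show a * a₀ = a₀ * a
      calc a * a₀ = (a * a₀ * a⁻¹) * a := by group
        _ = a₀ * a := by rw [h3]
    have hsq : (a * a₀) ^ 2 = 1 := by
      rw [hcomm.mul_pow, pow_two, pow_two, haa, ha₀sq, one_mul]
    have hod := hodd a haD a₀ ha₀D
    have hdvd := orderOf_dvd_of_pow_eq_one hsq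
    have h1' : orderOf (a * a₀) = 1 := by
      rcases (Nat.dvd_prime Nat.prime_two).1 hdvd with h | h
      · exact h
      · rw [h] at hod; exact absurd hod (by decide)
    rw [orderOf_eq_one_iff] at h1'
    have := eq_inv_of_mul_eq_one_left h1'
    rw [this, ha₀inv]

end Cfsg.Agent.S5562
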