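import Cfsg.Statements.S5597
import Cfsg.Agent.Lib.Helper9_LargeEx2

set_option autoImplicit false
open Cfsg

namespace Cfsg.Agent.S5597

/-- Setting: `z` is an involution of the finite group `G`; for each element `x`, `Q x` is the largest normal 2-subgroup of the centralizer of `x`; `Q z` is extraspecial and contains its own centralizer in `G`. A subgroup `U` is singular when it is elementary abelian, every non-identity element of `U` is conjugate to `z`, and any two non-identity elements `u`, `v` of `U` are orthogonal (`v ∈ Q u`). Write `QU` for the intersection of the `Q u` and `LU` for the join of the `Q u` over the non-identity `u` in `U`. If `U` is a non-trivial singular subgroup, then `LU` acts trivially on `QU / U` (every commutator of an element of `LU` with an element of `QU` lies in `U`), and for every `x` in `QU` outside `U` the centralizer of `U` in `LU` permutes the coset `x U` transitively: each `x u` with `u ∈ U` is a conjugate of `x` by an element of `LU`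 centralizing `U`. -/
theorem result {G : Type*} [Group G] [Finite G]
    (Q : G → Subgroup G)
    (hQ : ∀ x : G, Q x = (Cfsg.pCore 2 ↥(Subgroup.centralizer ({x} : Set G))).map (Subgroup.centralizer ({x} : Set G)).subtype)
    (z : G) (hz : orderOf z = 2) (hE : Cfsg.IsExtraspecial 2 ↥(Q z))
    (hC : Subgroup.centralizer ((Q z : Subgroup G) : Set G) ≤ Q z)
    (U : Subgroup G) (hU2 : ∀ u ∈ U, u * u = 1)
    (hS : ∀ u ∈ U, u ≠ 1 → ∃ g : G, g * z * g⁻¹ = u)
    (hO : ∀ u ∈ U, ∀ v ∈ U, u ≠ 1 → v ≠ 1 → v ∈ Q u)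
    (QU LU : Subgroup G) (hQU : QU = ⨅ u ∈ ((U : Set G) \ {1}), Q u) (hLU : LU = ⨆ u ∈ ((U : Set G) \ {1}), Q u)
    (hU : U ≠ ⊥) :
    (∀ g ∈ LU, ∀ x ∈ QU, g * x * g⁻¹ * x⁻¹ ∈ U) ∧
      ∀ x ∈ QU, x ∉ U → ∀ u ∈ U, ∃ g ∈ LU ⊓ Subgroup.centralizer (U : Set G), g * x * g⁻¹ = x * u := by
  have hQ' : Q = Cfsg.Agent.Lib.Helper9_LargeEx.QQ := funext hQ
  subst hQ'
  have hgood : ∀ u ∈ U, u ≠ 1 → Cfsg.Agent.Lib.Helper9_LargeEx.Good u := by
    intro u hu hu1
    obtain ⟨g, rfl⟩ := hS u hu hu1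
    exact (Cfsg.Agent.Lib.Helper9_LargeEx.good_self hz hE).conj g
  have hUQ := Cfsg.Agent.Lib.Helper9_LargeEx2.U_le_QU hO
  have e1 : QU = Cfsg.Agent.Lib.Helper9_LargeEx2.QU U := hQU
  have e2 : LU = Cfsg.Agent.Lib.Helper9_LargeEx2.LU U := hLU
  rw [e1, e2]
  exact ⟨fun g hg x hx => Cfsg.Agent.Lib.Helper9_LargeEx2.LU_comm hgood hUQ hg hx,
    fun x hx hxU u hu => Cfsg.Agent.Lib.Helper9_LargeEx2.trans_coset hgood hU2 hUQ hx hxU hu⟩

end Cfsg.Agent.S5597
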