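import Cfsg.Statements.S5729

set_option autoImplicit false
open Cfsg

namespace Cfsg.Agent.S5729

section aux

variable {G Ω : Type*} [Group G] [Fintype G] [MulAction G Ω] [Fintype Ω] [DecidableEq Ω]

/-- number of fixed points -/
def fx (g : G) : ℕ := (Finset.univ.filter (fun ω : Ω => g • ω = ω)).card

omit [Fintype G] in
theorem card_fixedBy (g : G) [Fintype (MulAction.fixedBy Ω g)] :
    Fintype.card (MulAction.fixedBy Ω g) = fx (Ω := Ω) g :=
  Fintype.card_of_subtype _ (by intro x; simp [MulAction.mem_fixedBy])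

theorem sum_fx (htr : MulAction.IsPretransitive G Ω) (hne : Nonempty Ω) :
    ∑ g : G, fx (Ω := Ω) g = Fintype.card G := by
  classical
  have h := MulAction.sum_card_fixedBy_eq_card_orbits_mul_card_group G Ω
  have h1 : Fintype.card (Quotient (MulAction.orbitRel G Ω)) = 1 := by
    rw [Fintype.card_eq_one_iff]
    obtain ⟨ω⟩ := hne
    refine ⟨Quotient.mk'' ω, ?_⟩
    intro q
    induction q using Quotient.inductionOn' with
    | h a =>
      apply Quotient.sound'
      exact MulAction.exists_smul_eq G ω a
  rw [h1, one_mul] at h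
  rw [← h]
  exact Finset.sum_congr rfl fun g _ => (card_fixedBy g).symm

theorem sum_fx_sq (h2 : 1 < Fintype.card Ω) :
    ∃ r : ℕ, 2 ≤ r ∧ ∑ g : G, fx (Ω := Ω) g ^ 2 = r * Fintype.card G := by
  classical
  have h := MulAction.sum_card_fixedBy_eq_card_orbits_mul_card_group G (Ω × Ω)
  have hsq : ∀ g : G, Fintype.card (MulAction.fixedBy (Ω × Ω) g) = fx (Ω := Ω) g ^ 2 := by
    intro g
    rw [sq, ← card_fixedBy g, ← Fintype.card_prod]
    apply Fintype.card_congr
    exact
      { toFun := fun x => (⟨x.1.1, congrArg Prod.fst x.2⟩, ⟨x.1.2, congrArg Prod.snd x.2⟩)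
        invFun := fun y => ⟨(y.1.1, y.2.1), Prod.ext y.1.2 y.2.2⟩
        left_inv := fun x => rfl
        right_inv := fun y => rfl }
  refine ⟨Fintype.card (Quotient (MulAction.orbitRel G (Ω × Ω))), ?_, ?_⟩
  · obtain ⟨a, b, hab⟩ := Fintype.exists_pair_of_one_lt_card h2
    apply Fintype.one_lt_card_iff.mpr
    refine ⟨Quotient.mk'' (a, a), Quotient.mk'' (a, b), ?_⟩
    intro heq
    have h3 := Quotient.exact' heq
    obtain ⟨g, hg⟩ := h3
    have h4 : g • a = a := congrArg Prod.fst hg
    have h5 : g • b = a := congrArg Prod.snd hg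
    exact hab (smul_left_cancel g (h4.trans h5.symm))
  · rw [← h]
    exact Finset.sum_congr rfl fun g _ => (hsq g).symm

end aux


/-- Let a finite group G act faithfully and transitively on a set with n ≥ 3 points. Then either G is a Frobenius permutation group (Frobenius as a permutation group: transitive, some non-identity element fixes a point, and no non-identity element fixes two points) of order n(n − 1) and exactly |G|/n of its elements are derangements (fix no point), or the number of derangements is greater than |G|/n. -/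
theorem result {G Ω : Type*} [Group G] [Finite G] [MulAction G Ω] [FaithfulSMul G Ω] [Fintype Ω] (htr : MulAction.IsPretransitive G Ω) (hn : 3 ≤ Fintype.card Ω) :
    ((MulAction.IsPretransitive G Ω ∧ (∃ g : G, g ≠ 1 ∧ ∃ ω : Ω, g • ω = ω) ∧ ∀ g : G, g ≠ 1 → Nat.card (MulAction.fixedBy Ω g) ≤ 1) ∧ Nat.card G = Fintype.card Ω * (Fintype.card Ω - 1) ∧ Fintype.card Ω * Nat.card {g : G // ∀ ω : Ω, g • ω ≠ ω} = Nat.card G) ∨
    Nat.card G < Fintype.card Ω * Nat.card {g : G // ∀ ω : Ω, g • ω ≠ ω} := by
  classical
  have := Fintype.ofFinite G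
  set n := Fintype.card Ω with hn'
  set N := Fintype.card G with hN'
  have hne : Nonempty Ω := Fintype.card_pos_iff.mp (by omega)
  have hNpos : 0 < N := Fintype.card_pos
  set f : G → ℕ := fun g => fx (Ω := Ω) g with hf
  have S1 : ∑ g : G, f g = N := sum_fx htr hne
  obtain ⟨r, hr, S2⟩ := sum_fx_sq (G := G) (Ω := Ω) (by omega)
  have hle : ∀ g, f g ≤ n := fun g => Finset.card_le_univ _
  have hD : Nat.card {g : G // ∀ ω : Ω, g • ω ≠ ω} = (Finset.univ.filter (fun g => f g = 0)).card := by
    rw [Nat.card_eq_fintype_card, Fintype.card_subtype]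
    congr 1
    ext g
    simp only [Finset.mem_filter, Finset.mem_univ, true_and, hf, fx, Finset.card_eq_zero,
      Finset.filter_eq_empty_iff]
    tauto
  set D := (Finset.univ.filter (fun g => f g = 0)).card with hD'
  have hDsum : (D : ℤ) = ∑ g : G, (if f g = 0 then (1 : ℤ) else 0) := by
    rw [hD', Finset.card_filter]; push_cast; rfl
  set t : G → ℤ := fun g => if f g = 0 then 0 else ((f g : ℤ) - 1) * ((n : ℤ) - f g) with ht
  have htnn : ∀ g, 0 ≤ t g := by
    intro g
    simp only [ht]
    split_ifs with h0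
    · exact le_refl _
    · have h1 : (1 : ℤ) ≤ f g := by exact_mod_cast Nat.one_le_iff_ne_zero.mpr h0
      have h2 : (f g : ℤ) ≤ n := by exact_mod_cast hle g
      exact mul_nonneg (by linarith) (by linarith)
  have hsplit : ∀ g, ((f g : ℤ) - 1) * ((f g : ℤ) - n) =
      n * (if f g = 0 then (1 : ℤ) else 0) - t g := by
    intro g
    simp only [ht]
    split_ifs with h0
    · rw [h0]; push_cast; ring
    · ring
  have S1' : ∑ g : G, (f g : ℤ) = N := by exact_mod_cast S1
  have S2' : ∑ g : G, (f g : ℤ) ^ 2 = r * N := by exact_mod_cast S2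
  have hsum : ∑ g : G, ((f g : ℤ) - 1) * ((f g : ℤ) - n) = ((r : ℤ) - 1) * N := by
    have h1 : ∀ g : G, ((f g : ℤ) - 1) * ((f g : ℤ) - n) =
        (f g : ℤ) ^ 2 - ((n : ℤ) + 1) * f g + n := by intro g; ring
    simp only [h1, Finset.sum_add_distrib, Finset.sum_sub_distrib, ← Finset.mul_sum, S1', S2',
      Finset.sum_const, Finset.card_univ, nsmul_eq_mul]
    rw [← hN']
    ring
  have hmain : ((r : ℤ) - 1) * N = n * D - ∑ g : G, t g := by
    rw [← hsum, hDsum, Finset.mul_sum, ← Finset.sum_sub_distrib]
    exact Finset.sum_congr rfl fun g _ => hsplit g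
  have hT : 0 ≤ ∑ g : G, t g := Finset.sum_nonneg fun g _ => htnn g
  rw [hD, Nat.card_eq_fintype_card, ← hN']
  by_cases hcase : N < n * D
  · right; exact hcase
  left
  have hcase' : (n : ℤ) * D ≤ N := by exact_mod_cast not_lt.mp hcase
  have hr' : (2 : ℤ) ≤ r := by exact_mod_cast hr
  have hNpos' : (0 : ℤ) < N := by exact_mod_cast hNpos
  have hr2 : (r : ℤ) = 2 := by
    by_contra hne2
    have h3 : (3 : ℤ) ≤ r := by omega
    nlinarith
  have hT0 : ∑ g : G, t g = 0 := by
    rw [hr2] at hmain
    linarith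
  have hnD : n * D = N := by
    rw [hr2, hT0] at hmain
    have : (n : ℤ) * D = N := by linarith
    exact_mod_cast this
  have ht0 : ∀ g, t g = 0 := by
    intro g
    exact (Finset.sum_eq_zero_iff_of_nonneg (fun g _ => htnn g)).mp hT0 g (Finset.mem_univ g)
  have hone : f 1 = n := by
    simp [hf, fx, hn']
  have hcases : ∀ g : G, g ≠ 1 → f g ≤ 1 := by
    intro g hg
    have h0 := ht0 g
    simp only [ht] at h0
    split_ifs at h0 with h1
    · omega
    · rcases mul_eq_zero.mp h0 with h2 | h2
      · have : (f g : ℤ) = 1 := by linarith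
        have : f g = 1 := by exact_mod_cast this
        omega
      · exfalso
        apply hg
        have h3 : (f g : ℤ) = n := by linarith
        have h4 : f g = n := by exact_mod_cast h3
        have h5 := Finset.eq_univ_of_card _ h4
        apply FaithfulSMul.eq_of_smul_eq_smul (α := Ω)
        intro ω
        have h6 : ω ∈ Finset.univ.filter (fun ω : Ω => g • ω = ω) := by rw [h5]; exact Finset.mem_univ _
        rw [(Finset.mem_filter.mp h6).2, one_smul]
  have hNn : N = n * (n - 1) := by
    have h1 : ∑ g : G, ((f g : ℤ) ^ 2 - f g) = N := by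
      rw [Finset.sum_sub_distrib, S1', S2', hr2]; ring
    have h2 : ∑ g : G, ((f g : ℤ) ^ 2 - f g) = (n : ℤ) ^ 2 - n := by
      rw [Finset.sum_eq_single (1 : G), hone]
      · intro g _ hg
        have h3 := hcases g hg
        interval_cases (f g) <;> simp
      · intro h; exact absurd (Finset.mem_univ _) h
    have h3 : (N : ℤ) = (n : ℤ) * ((n : ℤ) - 1) := by rw [← h1, h2]; ring
    have h4 : ((n - 1 : ℕ) : ℤ) = (n : ℤ) - 1 := by
      rw [Nat.cast_sub (by omega)]; simp
    have h5 : (N : ℤ) = ((n * (n - 1) : ℕ) : ℤ) := by rw [h3]; push_cast; rw [h4]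
    exact_mod_cast h5
  refine ⟨⟨htr, ?_, ?_⟩, hNn, hnD⟩
  · by_contra hno
    push Not at hno
    have h1 : ∑ g : G, f g = n := by
      rw [Finset.sum_eq_single (1 : G), hone]
      · intro g _ hg
        simp only [hf, fx, Finset.card_eq_zero, Finset.filter_eq_empty_iff]
        intro ω _
        exact hno g hg ω
      · intro h; exact absurd (Finset.mem_univ _) h
    rw [S1, hNn] at h1
    have h2 : n - 1 = 1 := by
      have : n * (n - 1) = n * 1 := by rw [h1, mul_one]
      exact Nat.eq_of_mul_eq_mul_left (by omega) this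
    omega
  · intro g hg
    rw [Nat.card_eq_fintype_card, card_fixedBy]
    exact hcases g hg

end Cfsg.Agent.S5729
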