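import Cfsg.Statements.S5902

set_option autoImplicit false
open Cfsg

namespace Cfsg.Agent.S5902



/-- Let G be a finite group, X a subgroup whose own subgroup lattice is complemented, and suppose X lies in exactly one maximal subgroup M of G. Then every subgroup H of G not contained in the normal core of M has a complement in the subgroup lattice of G (some C with H ⊔ C = G and H ⊓ C = 1); in particular the subgroup lattice of G modulo the normal core of M is complemented. -/
theorem result {G : Type*} [Group G] [Finite G] (X M : Subgroup G)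
    (hK : ComplementedLattice (Subgroup X))
    (hM : IsCoatom M) (hXM : X ≤ M) (huniq : ∀ M' : Subgroup G, IsCoatom M' → X ≤ M' → M' = M) :
    (∀ H : Subgroup G, ¬ H ≤ M.normalCore → ∃ C : Subgroup G, H ⊔ C = ⊤ ∧ H ⊓ C = ⊥) ∧
    ComplementedLattice (Subgroup (G ⧸ M.normalCore)) := by
  have h1 : ∀ H : Subgroup G, ¬ H ≤ M.normalCore → ∃ C : Subgroup G, H ⊔ C = ⊤ ∧ H ⊓ C = ⊥ := by
    intro H hH
    obtain ⟨h, hhH, hh⟩ := SetLike.not_le_iff_exists.1 hH
    have : ∃ b : G, b * h * b⁻¹ ∉ M := by
      by_contra hcon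
      push Not at hcon
      exact hh hcon
    obtain ⟨b, hb⟩ := this
    set e := (MulAut.conj b).mapSubgroup with he
    set H' := e H with hH'
    have hbH' : b * h * b⁻¹ ∈ H' := ⟨h, hhH, rfl⟩
    have hHX : H' ⊔ X = ⊤ := by
      by_contra hne
      obtain ⟨M', hM', hle⟩ := (eq_top_or_exists_le_coatom (H' ⊔ X)).resolve_left hne
      have := huniq M' hM' (le_sup_right.trans hle)
      rw [this] at hle
      exact hb (hle (Subgroup.mem_sup_left hbH'))
    obtain ⟨C₀, hC₀⟩ := hK.exists_isCompl ((H' ⊓ X).subgroupOf X)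
    set C' := C₀.map X.subtype with hC'
    have hsup : H' ⊔ C' = ⊤ := by
      rw [eq_top_iff, ← hHX]
      refine sup_le le_sup_left ?_
      have h2 : ((H' ⊓ X).subgroupOf X ⊔ C₀).map X.subtype = X := by
        rw [hC₀.sup_eq_top, ← MonoidHom.range_eq_map, Subgroup.range_subtype]
      rw [Subgroup.map_sup, Subgroup.map_subgroupOf_eq_of_le inf_le_right] at h2
      calc X = H' ⊓ X ⊔ C' := h2.symm
        _ ≤ H' ⊔ C' := sup_le_sup_right inf_le_left _
    have hinf : H' ⊓ C' = ⊥ := by
      rw [eq_bot_iff]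
      rintro x ⟨hx1, c, hc, rfl⟩
      have h3 : c ∈ (H' ⊓ X).subgroupOf X ⊓ C₀ := ⟨Subgroup.mem_subgroupOf.2 ⟨hx1, c.2⟩, hc⟩
      rw [hC₀.inf_eq_bot, Subgroup.mem_bot] at h3
      rw [h3]; exact Subgroup.one_mem _
    refine ⟨e.symm C', ?_, ?_⟩
    · have := congrArg e.symm hsup
      rwa [e.symm.map_sup, hH', e.symm_apply_apply, e.symm.map_top] at this
    · have := congrArg e.symm hinf
      rwa [e.symm.map_inf, hH', e.symm_apply_apply, e.symm.map_bot] at this
  refine ⟨h1, ⟨fun Hb => ?_⟩⟩
  by_cases hHb : Hb = ⊥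
  · exact ⟨⊤, hHb ▸ isCompl_bot_top⟩
  · set π := QuotientGroup.mk' M.normalCore with hπ
    have hsurj : Function.Surjective π := QuotientGroup.mk'_surjective _
    have hn : ¬ Hb.comap π ≤ M.normalCore := by
      intro hle
      apply hHb
      rw [eq_bot_iff]
      intro x hx
      obtain ⟨g, rfl⟩ := hsurj x
      rw [Subgroup.mem_bot]
      exact (QuotientGroup.eq_one_iff g).2 (hle hx)
    obtain ⟨C, hC1, hC2⟩ := h1 _ hn
    refine ⟨C.map π, ?_⟩
    rw [isCompl_iff, disjoint_iff, codisjoint_iff]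
    constructor
    · rw [eq_bot_iff]
      rintro x ⟨hx1, c, hc, rfl⟩
      have : c ∈ Hb.comap π ⊓ C := ⟨hx1, hc⟩
      rw [hC2, Subgroup.mem_bot] at this
      rw [this, map_one]; exact Subgroup.one_mem _
    · have := congrArg (Subgroup.map π) hC1
      rwa [Subgroup.map_sup, Subgroup.map_comap_eq_self_of_surjective hsurj,
        Subgroup.map_top_of_surjective _ hsurj] at this

end Cfsg.Agent.S5902
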