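import Cfsg.Statements.S5903

set_option autoImplicit false
open Cfsg

namespace Cfsg.Agent.S5903



/-- Let G be a finite simple group, X a subgroup lying in exactly one maximal subgroup M of G, and N a subgroup of prime order with N ≤ X that is central in M. If the subgroup lattice of X/N is complemented, then the subgroup lattice of G is complemented. -/
theorem result {G : Type*} [Group G] [Finite G] [IsSimpleGroup G] (X M N : Subgroup G)
    (hM : IsCoatom M) (hXM : X ≤ M) (huniq : ∀ M' : Subgroup G, IsCoatom M' → X ≤ M' → M' = M)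
    (hNX : N ≤ X) (hN : (Nat.card N).Prime) (hcen : ∀ n ∈ N, ∀ m ∈ M, m * n = n * m)
    [(N.subgroupOf X).Normal] (hK : ComplementedLattice (Subgroup (X ⧸ N.subgroupOf X))) :
    ComplementedLattice (Subgroup G) := by
  refine ⟨fun H => ?_⟩
  by_cases hH1 : H = ⊥
  · exact ⟨⊤, hH1 ▸ isCompl_bot_top⟩
  by_cases hH2 : H = ⊤
  · exact ⟨⊥, hH2 ▸ isCompl_top_bot⟩
  have hN1 : N ≠ ⊥ := by
    intro h
    rw [h, Subgroup.card_bot] at hN
    exact Nat.not_prime_one hN
  have hex : ∃ b : G, ¬ ((MulAut.conj b).mapSubgroup H ≤ M) ∧ ¬ (N ≤ (MulAut.conj b).mapSubgroup H) := by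
    by_contra hcon
    push Not at hcon
    have hle : Subgroup.normalClosure (N : Set G) ≤ Subgroup.normalizer (H : Set G) := by
      rw [Subgroup.normalClosure, Subgroup.closure_le]
      intro x hx
      obtain ⟨n, hn, hnx⟩ := Group.mem_conjugatesOfSet_iff.1 hx
      obtain ⟨c, rfl⟩ := isConj_iff.1 hnx
      by_cases hc : (MulAut.conj c⁻¹).mapSubgroup H ≤ M
      · apply Subgroup.centralizer_le_normalizer
        rw [Subgroup.mem_centralizer_iff]
        intro h hh
        have h1 : c⁻¹ * h * c⁻¹⁻¹ ∈ M := hc ⟨h, hh, rfl⟩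
        have h2 := hcen n hn _ h1
        rw [inv_inv] at h2
        calc h * (c * n * c⁻¹) = c * ((c⁻¹ * h * c) * n) * c⁻¹ := by group
          _ = c * (n * (c⁻¹ * h * c)) * c⁻¹ := by rw [h2]
          _ = c * n * c⁻¹ * h := by group
      · have h1 := hcon c⁻¹ hc
        obtain ⟨h, hh, hhn⟩ := h1 hn
        apply Subgroup.le_normalizer
        have h2 : c⁻¹ * h * c⁻¹⁻¹ = n := hhn
        rw [← h2, inv_inv]
        have : c * (c⁻¹ * h * c) * c⁻¹ = h := by group
        rw [this]; exact hh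
    have hnc : Subgroup.normalClosure (N : Set G) = ⊤ := by
      rcases (Subgroup.normalClosure_normal (s := (N : Set G))).eq_bot_or_eq_top with h | h
      · exfalso
        apply hN1
        rw [eq_bot_iff, ← h]
        exact Subgroup.le_normalClosure
      · exact h
    rw [hnc, top_le_iff] at hle
    rcases (Subgroup.normalizer_eq_top_iff.1 hle).eq_bot_or_eq_top with h | h
    · exact hH1 h
    · exact hH2 h
  obtain ⟨b, hb1, hb2⟩ := hex
  set e := (MulAut.conj b).mapSubgroup with he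
  set H' := e H with hH'
  have hHX : H' ⊔ X = ⊤ := by
    by_contra hne
    obtain ⟨M', hM', hle⟩ := (eq_top_or_exists_le_coatom (H' ⊔ X)).resolve_left hne
    have := huniq M' hM' (le_sup_right.trans hle)
    rw [this] at hle
    exact hb1 (le_sup_left.trans hle)
  set π := QuotientGroup.mk' (N.subgroupOf X) with hπ
  have hsurj : Function.Surjective π := QuotientGroup.mk'_surjective _
  set D₀ := (H' ⊓ X).subgroupOf X with hD₀
  obtain ⟨Cb, hCb⟩ := hK.exists_isCompl (D₀.map π)
  set C₀ := Cb.comap π with hC₀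
  set C' := C₀.map X.subtype with hC'
  have hDC : D₀ ⊔ C₀ = ⊤ := by
    have h1 : (D₀.map π).comap π ⊔ Cb.comap π = ⊤ := by
      rw [Subgroup.comap_sup_eq π _ _ hsurj, hCb.sup_eq_top, Subgroup.comap_top]
    rw [Subgroup.comap_map_eq, sup_assoc, sup_eq_right.2 (Subgroup.ker_le_comap π Cb)] at h1
    exact h1
  have hsup : H' ⊔ C' = ⊤ := by
    rw [eq_top_iff, ← hHX]
    refine sup_le le_sup_left ?_
    have h2 : (D₀ ⊔ C₀).map X.subtype = X := by
      rw [hDC, ← MonoidHom.range_eq_map, Subgroup.range_subtype]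
    rw [Subgroup.map_sup, hD₀, Subgroup.map_subgroupOf_eq_of_le inf_le_right] at h2
    calc X = H' ⊓ X ⊔ C' := h2.symm
      _ ≤ H' ⊔ C' := sup_le_sup_right inf_le_left _
  have hinf : H' ⊓ C' = ⊥ := by
    rw [eq_bot_iff]
    rintro x ⟨hx1, c, hc, rfl⟩
    have h3 : π c ∈ D₀.map π ⊓ Cb := ⟨⟨c, Subgroup.mem_subgroupOf.2 ⟨hx1, c.2⟩, rfl⟩, hc⟩
    rw [hCb.inf_eq_bot, Subgroup.mem_bot] at h3
    have h4 : (c : G) ∈ N := Subgroup.mem_subgroupOf.1 ((QuotientGroup.eq_one_iff c).1 h3)
    have : Fact (Nat.card N).Prime := ⟨hN⟩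
    rcases Subgroup.eq_bot_or_eq_top_of_prime_card ((H' ⊓ N).subgroupOf N) with h | h
    · have h5 : (⟨(c : G), h4⟩ : N) ∈ (H' ⊓ N).subgroupOf N := Subgroup.mem_subgroupOf.2 ⟨hx1, h4⟩
      rw [h, Subgroup.mem_bot] at h5
      exact Subgroup.mem_bot.2 (congrArg Subtype.val h5)
    · rw [Subgroup.subgroupOf_eq_top] at h
      exact absurd (h.trans inf_le_left) hb2
  refine ⟨e.symm C', ?_⟩
  rw [isCompl_iff, disjoint_iff, codisjoint_iff]
  constructor
  · have := congrArg e.symm hinf
    rwa [e.symm.map_inf, hH', e.symm_apply_apply, e.symm.map_bot] at this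
  · have := congrArg e.symm hsup
    rwa [e.symm.map_sup, hH', e.symm_apply_apply, e.symm.map_top] at this

end Cfsg.Agent.S5903
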