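import Cfsg.Statements.S5904
import Mathlib

set_option autoImplicit false
open scoped Pointwise
open Cfsg

namespace Cfsg.Agent.S5904

/-- the stabilizer of the partition `{O, Oᶜ}`. -/
def K {Ω : Type*} (O : Set Ω) : Subgroup (Equiv.Perm Ω) where
  carrier := {g | g • O = O ∨ g • O = Oᶜ}
  one_mem' := Or.inl (one_smul _ _)
  mul_mem' := by
    rintro g h (hg | hg) (hh | hh)
    · left; rw [mul_smul, hh, hg]
    · right; rw [mul_smul, hh, Set.smul_set_compl, hg]
    · right; rw [mul_smul, hh, hg]
    · left; rw [mul_smul, hh, Set.smul_set_compl, hg, compl_compl]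
  inv_mem' := by
    rintro g (hg | hg)
    · left; rw [inv_smul_eq_iff, hg]
    · right; rw [inv_smul_eq_iff, Set.smul_set_compl, hg, compl_compl]


/-- Let Ω be a finite set with more than two elements and O ⊆ Ω a subset with exactly as many elements as its complement. Then the setwise stabilizer of O in the symmetric group on Ω is not a maximal subgroup (it is properly contained in the stabilizer of the partition {O, Ω ∖ O}, which is proper). -/
theorem result {Ω : Type*} [Fintype Ω] [DecidableEq Ω] (hΩ : 2 < Fintype.card Ω)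
    (O : Set Ω) (hO : Nat.card O = Nat.card ↥Oᶜ) :
    ¬ IsCoatom (MulAction.stabilizer (Equiv.Perm Ω) O) := by
  classical
  intro hco
  have hsum : Nat.card O + Nat.card ↥Oᶜ = Fintype.card Ω := by
    rw [Nat.card_coe_set_eq, Nat.card_coe_set_eq, Set.ncard_add_ncard_compl,
      Nat.card_eq_fintype_card]
  obtain ⟨⟨a, ha⟩, ⟨a', ha'⟩, hne⟩ : ∃ x y : O, x ≠ y := by
    have : Nontrivial O := Finite.one_lt_card_iff_nontrivial.mp (by omega)
    exact exists_pair_ne O
  obtain ⟨⟨b, hb⟩⟩ : Nonempty ↥Oᶜ := Finite.card_pos_iff.mp (by omega)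
  have hlt : MulAction.stabilizer (Equiv.Perm Ω) O < K O := by
    refine lt_of_le_of_ne (fun g hg => Or.inl (MulAction.mem_stabilizer_iff.mp hg)) ?_
    intro heq
    let e : {x // x ∈ O} ≃ {x // x ∈ Oᶜ} := Fintype.equivOfCardEq (by
      have h0 := hO
      rw [Nat.card_eq_fintype_card, Nat.card_eq_fintype_card] at h0
      exact h0)
    have hσO : e.extendSubtype • O = Oᶜ := by
      ext y
      constructor
      · rintro ⟨x, hx, rfl⟩
        exact e.extendSubtype_mem x hx
      · intro hy
        refine ⟨e.extendSubtype.symm y, ?_, Equiv.apply_symm_apply _ _⟩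
        by_contra hx
        have := e.extendSubtype_not_mem _ hx
        rw [Equiv.apply_symm_apply] at this
        exact this hy
    have hσ : e.extendSubtype ∈ K O := Or.inr hσO
    rw [← heq, MulAction.mem_stabilizer_iff, hσO] at hσ
    have : a ∈ Oᶜ := by rw [hσ]; exact ha
    exact this ha
  have htop := hco.2 _ hlt
  have hτ : Equiv.swap a b ∈ K O := htop ▸ Subgroup.mem_top _
  rcases hτ with h | h
  · have : b ∈ Equiv.swap a b • O := ⟨a, ha, Equiv.swap_apply_left a b⟩
    rw [h] at this
    exact hb this
  · have : a' ∈ Equiv.swap a b • O :=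
      ⟨a', ha', Equiv.swap_apply_of_ne_of_ne (fun h => hne (Subtype.ext h.symm))
        (fun h => hb (h ▸ ha'))⟩
    rw [h] at this
    exact this ha'

end Cfsg.Agent.S5904
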