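import Cfsg.Statements.S5905

set_option autoImplicit false

open Cfsg

namespace Cfsg.Agent.S5905

variable {Ω : Type*} [Fintype Ω] [DecidableEq Ω]

/-- the partition-preserving permutations -/
def K {b : ℕ} (f : Ω → Fin b) : Subgroup (Equiv.Perm Ω) where
  carrier := {g | ∀ x y : Ω, f x = f y ↔ f (g x) = f (g y)}
  mul_mem' {g h} hg hh := fun x y => by
    rw [Equiv.Perm.mul_apply, Equiv.Perm.mul_apply, ← hg, ← hh]
  one_mem' := fun x y => Iff.rfl
  inv_mem' {g} hg := fun x y => by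
    have := hg (g⁻¹ x) (g⁻¹ y)
    have e : ∀ z, g (g⁻¹ z) = z := fun z => by
      rw [← Equiv.Perm.mul_apply, mul_inv_cancel, Equiv.Perm.one_apply]
    rw [e, e] at this
    exact this.symm

theorem closure_eq {b : ℕ} (f : Ω → Fin b) :
    Subgroup.closure {g : Equiv.Perm Ω | ∀ x y : Ω, f x = f y ↔ f (g x) = f (g y)} = K f :=
  Subgroup.closure_eq (K f)

theorem swap_mem {b : ℕ} (f : Ω → Fin b) (x y : Ω) (h : f x = f y) : Equiv.swap x y ∈ K f := by
  have key : ∀ z, f (Equiv.swap x y z) = f z := by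
    intro z
    by_cases hzx : z = x
    · rw [hzx, Equiv.swap_apply_left, h]
    by_cases hzy : z = y
    · rw [hzy, Equiv.swap_apply_right, h]
    rw [Equiv.swap_apply_of_ne_of_ne hzx hzy]
  intro u v
  rw [key, key]

theorem exists_perm (a b : ℕ) (f : Ω → Fin b) (hf : ∀ i : Fin b, Nat.card {x : Ω // f x = i} = a)
    (σ : Equiv.Perm (Fin b)) : ∃ π : Equiv.Perm Ω, ∀ x, f (π x) = σ (f x) := by
  have φ : ∀ i : Fin b, {x : Ω // f x = i} ≃ Fin a := fun i => Finite.equivFinOfCardEq (hf i)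
  obtain ⟨e, he⟩ : ∃ e : Ω ≃ Fin b × Fin a, ∀ x, (e x).1 = f x :=
    ⟨((Equiv.sigmaFiberEquiv f).symm.trans (Equiv.sigmaCongrRight φ)).trans
      (Equiv.sigmaEquivProd _ _), fun x => rfl⟩
  refine ⟨e.trans ((Equiv.prodCongr σ (Equiv.refl _)).trans e.symm), fun x => ?_⟩
  rw [← he, ← he]
  simp

theorem coatom (a b : ℕ) (ha : 2 ≤ a) (hb : 2 ≤ b)
    (f : Ω → Fin b) (hf : ∀ i : Fin b, Nat.card {x : Ω // f x = i} = a) : IsCoatom (K f) := by
  have hex2 : ∀ i : Fin b, ∃ x y : Ω, x ≠ y ∧ f x = i ∧ f y = i := by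
    intro i
    have h1 : 1 < Nat.card {x : Ω // f x = i} := by rw [hf]; omega
    rw [Nat.card_eq_fintype_card] at h1
    obtain ⟨⟨x, hx⟩, ⟨y, hy⟩, hxy⟩ := Fintype.one_lt_card_iff.1 h1
    exact ⟨x, y, fun h => hxy (Subtype.ext h), hx, hy⟩
  constructor
  · intro htop
    obtain ⟨x, x', hxx', hx, hx'⟩ := hex2 ⟨0, by omega⟩
    obtain ⟨y, -, -, hy, -⟩ := hex2 ⟨1, by omega⟩
    have hmem : Equiv.swap x y ∈ K f := by rw [htop]; trivial
    have h1 := (hmem x x').1 (by rw [hx, hx'])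
    have hx'y : x' ≠ y := by
      intro h
      rw [h, hy] at hx'
      simp [Fin.ext_iff] at hx'
    rw [Equiv.swap_apply_left, Equiv.swap_apply_of_ne_of_ne hxx'.symm hx'y, hy, hx'] at h1
    simp [Fin.ext_iff] at h1
  · intro M hlt
    obtain ⟨g, hgM, hgK⟩ := SetLike.exists_of_lt hlt
    -- a swap across blocks
    obtain ⟨u, v, huv, hswap⟩ : ∃ u v, f u ≠ f v ∧ Equiv.swap u v ∈ M := by
      have hg' : ¬ ∀ x y : Ω, f x = f y ↔ f (g x) = f (g y) := hgK
      push Not at hg'
      obtain ⟨x, y, hxy⟩ := hg'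
      rcases hxy with ⟨h1, h2⟩ | ⟨h1, h2⟩
      · refine ⟨g x, g y, h2, ?_⟩
        have : Equiv.swap (g x) (g y) = g * Equiv.swap x y * g⁻¹ :=
          (Equiv.swap_apply_apply g x y)
        rw [this]
        exact M.mul_mem (M.mul_mem hgM (hlt.le (swap_mem f x y h1))) (M.inv_mem hgM)
      · refine ⟨x, y, h1, ?_⟩
        have : Equiv.swap x y = g⁻¹ * Equiv.swap (g x) (g y) * g := by
          rw [Equiv.swap_apply_apply]
          group
        rw [this]
        exact M.mul_mem (M.mul_mem (M.inv_mem hgM) (hlt.le (swap_mem f _ _ h2))) hgM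
    have htrans : ∀ x y z, Equiv.swap x y ∈ M → Equiv.swap y z ∈ M → Equiv.swap x z ∈ M := by
      intro x y z h1 h2
      by_cases hxy : x = y
      · rw [hxy]; exact h2
      by_cases hxz : x = z
      · rw [hxz, Equiv.swap_self]; exact M.one_mem
      have h3 := Equiv.swap_apply_apply (Equiv.swap y z) x y
      rw [Equiv.swap_apply_left, Equiv.swap_apply_of_ne_of_ne hxy hxz] at h3
      rw [h3]
      exact M.mul_mem (M.mul_mem h2 h1) (M.inv_mem h2)
    have hin : ∀ x y, f x = f y → Equiv.swap x y ∈ M := fun x y h => hlt.le (swap_mem f x y h)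
    have hE0 : ∀ x y, f x = f u → f y = f v → Equiv.swap x y ∈ M := by
      intro x y hx hy
      exact htrans x u y (hin x u hx) (htrans u v y hswap (hin v y hy.symm))
    have hall : ∀ x y, Equiv.swap x y ∈ M := by
      intro x y
      by_cases hxy : f x = f y
      · exact hin x y hxy
      obtain ⟨σ, hσc, hσd⟩ : ∃ σ : Equiv.Perm (Fin b), σ (f x) = f u ∧ σ (f y) = f v := by
        refine ⟨Equiv.swap (Equiv.swap (f x) (f u) (f y)) (f v) * Equiv.swap (f x) (f u), ?_, ?_⟩
        · rw [Equiv.Perm.mul_apply, Equiv.swap_apply_left, Equiv.swap_apply_of_ne_of_ne _ huv]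
          intro hh
          have : Equiv.swap (f x) (f u) (f x) = Equiv.swap (f x) (f u) (f y) := by
            rw [Equiv.swap_apply_left]; exact hh
          exact hxy ((Equiv.swap (f x) (f u)).injective this)
        · rw [Equiv.Perm.mul_apply, Equiv.swap_apply_left]
      obtain ⟨π, hπ⟩ := exists_perm a b f hf σ
      have hπM : π ∈ M := by
        apply hlt.le
        intro s t
        rw [hπ, hπ]
        exact (σ.injective.eq_iff).symm
      have h1 := hE0 (π x) (π y) (by rw [hπ, hσc]) (by rw [hπ, hσd])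
      have : Equiv.swap x y = π⁻¹ * Equiv.swap (π x) (π y) * π := by
        rw [Equiv.swap_apply_apply]
        group
      rw [this]
      exact M.mul_mem (M.mul_mem (M.inv_mem hπM) h1) hπM
    rw [eq_top_iff, ← Equiv.Perm.closure_isSwap, Subgroup.closure_le]
    rintro τ ⟨x, y, -, rfl⟩
    exact hall x y

theorem result {Ω : Type*} [Fintype Ω] [DecidableEq Ω] (a b : ℕ) (ha : 2 ≤ a) (hb : 2 ≤ b)
    (f : Ω → Fin b) (hf : ∀ i : Fin b, Nat.card {x : Ω // f x = i} = a) :
    IsCoatom (Subgroup.closure {g : Equiv.Perm Ω | ∀ x y : Ω, f x = f y ↔ f (g x) = f (g y)}) := by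
  rw [closure_eq]
  exact coatom a b ha hb f hf

end Cfsg.Agent.S5905
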