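import Cfsg.Statements.S5913

set_option autoImplicit false
open Cfsg

namespace Cfsg.Agent.S5913



/-- Let S be a non-abelian simple group and n a natural number. Every normal subgroup N of the direct power S^n (functions Fin n → S) is a subproduct: there is a set T of coordinates such that N consists exactly of the elements whose coordinates outside T are trivial. In particular the minimal normal subgroups of S^n are its n factors. -/
theorem result {S : Type*} [Group S] [IsSimpleGroup S] (hS : ¬ IsMulCommutative S) (n : ℕ)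
    (N : Subgroup (Fin n → S)) [N.Normal] :
    ∃ T : Finset (Fin n), ∀ x : Fin n → S, x ∈ N ↔ ∀ i, i ∉ T → x i = 1 := by
  classical
  have hcenter : Subgroup.center S = ⊥ := by
    rcases (inferInstance : (Subgroup.center S).Normal).eq_bot_or_eq_top with h | h
    · exact h
    · exfalso
      apply hS
      refine ⟨⟨fun a b => ?_⟩⟩
      have hb : b ∈ Subgroup.center S := by rw [h]; trivial
      exact Subgroup.mem_center_iff.1 hb a
  have hfac : ∀ i : Fin n, (∃ x ∈ N, x i ≠ 1) → ∀ s : S, Pi.mulSingle i s ∈ N := by
    rintro i ⟨x, hx, hxi⟩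
    have hnorm : (N.comap (MonoidHom.mulSingle (fun _ : Fin n => S) i)).Normal :=
      Subgroup.Normal.comap inferInstance _
    have hne : N.comap (MonoidHom.mulSingle (fun _ : Fin n => S) i) ≠ ⊥ := by
      intro hbot
      have hnc : x i ∉ Subgroup.center S := by
        rw [hcenter, Subgroup.mem_bot]; exact hxi
      rw [Subgroup.mem_center_iff] at hnc
      push_neg at hnc
      obtain ⟨s, hs⟩ := hnc
      have h1 : x * Pi.mulSingle i s * x⁻¹ * (Pi.mulSingle i s)⁻¹ ∈ N := by
        have h2 : Pi.mulSingle i s * x⁻¹ * (Pi.mulSingle i s)⁻¹ ∈ N :=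
          (inferInstance : N.Normal).conj_mem _ (N.inv_mem hx) _
        have h3 := N.mul_mem hx h2
        simpa [mul_assoc] using h3
      have h4 : x * Pi.mulSingle i s * x⁻¹ * (Pi.mulSingle i s)⁻¹ =
          Pi.mulSingle i (x i * s * (x i)⁻¹ * s⁻¹) := by
        funext j
        by_cases hj : j = i
        · subst hj
          simp
        · simp [Pi.mulSingle_eq_of_ne hj]
      rw [h4] at h1
      have h5 : x i * s * (x i)⁻¹ * s⁻¹ ∈ N.comap (MonoidHom.mulSingle (fun _ : Fin n => S) i) := h1
      rw [hbot, Subgroup.mem_bot] at h5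
      apply hs
      have h6 : x i * s = s * x i := by
        calc x i * s = (x i * s * (x i)⁻¹ * s⁻¹) * (s * x i) := by group
          _ = s * x i := by rw [h5, one_mul]
      exact h6.symm
    have htop := (hnorm.eq_bot_or_eq_top).resolve_left hne
    intro s
    have hs : s ∈ N.comap (MonoidHom.mulSingle (fun _ : Fin n => S) i) := by rw [htop]; trivial
    exact hs
  refine ⟨Finset.univ.filter (fun i => ∃ x ∈ N, x i ≠ 1), fun x => ⟨?_, ?_⟩⟩
  · intro hx i hi
    by_contra hxi
    exact hi (Finset.mem_filter.2 ⟨Finset.mem_univ _, x, hx, hxi⟩)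
  · intro hx
    rw [← Finset.noncommProd_mulSingle x]
    apply Subgroup.noncommProd_mem
    intro i _
    by_cases hi : i ∈ Finset.univ.filter (fun i => ∃ x ∈ N, x i ≠ 1)
    · exact hfac i (Finset.mem_filter.1 hi).2 _
    · rw [hx i hi, Pi.mulSingle_one]
      exact N.one_mem

end Cfsg.Agent.S5913
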