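import Mathlib
import Cfsg.Agent.Lib.helper6_MinNormalPower
import Cfsg.Agent.Lib.helper6_Transport
import Cfsg.Statements.S5914

set_option autoImplicit false
open Cfsg

namespace Cfsg.Agent.S5914


/-- the shear automorphism `f ↦ f * mulSingle j (f i)` of a power of a commutative group -/
def shear {S : Type*} [Group S] (hS : ∀ a b : S, a * b = b * a) (n : ℕ) (i j : Fin n)
    (hij : i ≠ j) : (Fin n → S) ≃* (Fin n → S) where
  toFun f := f * Pi.mulSingle j (f i)
  invFun f := f * Pi.mulSingle j (f i)⁻¹
  left_inv := by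
    intro f
    funext k
    by_cases hk : k = j
    · subst hk
      simp [Pi.mulSingle_eq_of_ne hij]
    · simp [Pi.mulSingle_eq_of_ne hk]
  right_inv := by
    intro f
    funext k
    by_cases hk : k = j
    · subst hk
      simp [Pi.mulSingle_eq_of_ne hij]
    · simp [Pi.mulSingle_eq_of_ne hk]
  map_mul' := by
    intro f g
    funext k
    by_cases hk : k = j
    · subst hk
      simp only [Pi.mul_apply, Pi.mulSingle_eq_same]
      calc f k * g k * (f i * g i) = f k * (g k * f i) * g i := by group
        _ = f k * (f i * g k) * g i := by rw [hS (g k) (f i)]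
        _ = f k * f i * (g k * g i) := by group
    · simp [Pi.mulSingle_eq_of_ne hk]

theorem char_simple_pi {S : Type*} [Group S] [IsSimpleGroup S] (n : ℕ)
    (K : Subgroup (Fin n → S))
    (hK : ∀ φ : (Fin n → S) ≃* (Fin n → S), ∀ k ∈ K, φ k ∈ K) (hK1 : K ≠ ⊥) : K = ⊤ := by
  classical
  have hKn : K.Normal := ⟨fun x hx g => hK (MulAut.conj g) x hx⟩
  have hKi : ∀ i, (K.comap (MonoidHom.mulSingle (fun _ : Fin n => S) i)).Normal :=
    fun i => hKn.comap _
  have step1 : ∃ i, ∃ s : S, s ≠ 1 ∧ Pi.mulSingle i s ∈ K := by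
    obtain ⟨x, hx, hx1⟩ : ∃ x, x ∈ K ∧ x ≠ 1 := by
      obtain ⟨x, hx⟩ := Subgroup.ne_bot_iff_exists_ne_one.1 hK1
      exact ⟨x, x.2, fun h => hx (Subtype.ext h)⟩
    obtain ⟨i, hi⟩ : ∃ i, x i ≠ 1 := by
      by_contra h
      push Not at h
      exact hx1 (funext h)
    rcases IsSimpleGroup.eq_bot_or_eq_top_of_normal (Subgroup.center S) inferInstance with hc | hc
    · have h1 : x i ∉ Subgroup.center S := by
        rw [hc, Subgroup.mem_bot]
        exact hi
      rw [Subgroup.mem_center_iff] at h1
      push Not at h1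
      obtain ⟨s, hs⟩ := h1
      refine ⟨i, s * x i * s⁻¹ * (x i)⁻¹, ?_, ?_⟩
      · intro h
        apply hs
        calc s * x i = (s * x i * s⁻¹ * (x i)⁻¹) * (x i * s) := by group
          _ = x i * s := by rw [h, one_mul]
      · have h2 : Pi.mulSingle i (s * x i * s⁻¹ * (x i)⁻¹) =
            (Pi.mulSingle i s : Fin n → S) * x * (Pi.mulSingle i s)⁻¹ * x⁻¹ := by
          funext k
          by_cases hk : k = i
          · subst hk
            simp
          · simp [Pi.mulSingle_eq_of_ne hk]
        rw [h2]
        exact K.mul_mem (hKn.conj_mem x hx _) (K.inv_mem hx)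
    · have hS : ∀ a b : S, a * b = b * a := by
        intro a b
        have : b ∈ Subgroup.center S := hc ▸ Subgroup.mem_top b
        exact Subgroup.mem_center_iff.1 this a
      by_cases hj : ∃ j, i ≠ j
      · obtain ⟨j, hij⟩ := hj
        refine ⟨j, x i, hi, ?_⟩
        have h1 := hK (shear hS n i j hij) x hx
        have h2 : Pi.mulSingle j (x i) = x⁻¹ * (shear hS n i j hij) x := by
          show _ = x⁻¹ * (x * Pi.mulSingle j (x i))
          group
        rw [h2]
        exact K.mul_mem (K.inv_mem hx) h1
      · push Not at hj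
        refine ⟨i, x i, hi, ?_⟩
        have : Pi.mulSingle i (x i) = x := by
          funext k
          rw [← hj k]
          simp
        rw [this]
        exact hx
  obtain ⟨i, s, hs1, hs⟩ := step1
  have step2 : K.comap (MonoidHom.mulSingle (fun _ : Fin n => S) i) = ⊤ := by
    rcases IsSimpleGroup.eq_bot_or_eq_top_of_normal _ (hKi i) with h | h
    · exfalso
      apply hs1
      have : s ∈ K.comap (MonoidHom.mulSingle (fun _ : Fin n => S) i) := hs
      rwa [h, Subgroup.mem_bot] at this
    · exact h
  have step3 : ∀ j, ∀ t : S, Pi.mulSingle j t ∈ K := by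
    intro j t
    have h1 : (Pi.mulSingle i t : Fin n → S) ∈ K := by
      have : t ∈ K.comap (MonoidHom.mulSingle (fun _ : Fin n => S) i) := step2 ▸ Subgroup.mem_top t
      exact this
    have h2 := hK (MulEquiv.arrowCongr (Equiv.swap i j) (MulEquiv.refl S)) _ h1
    have h3 : (MulEquiv.arrowCongr (Equiv.swap i j) (MulEquiv.refl S)) (Pi.mulSingle i t) =
        (Pi.mulSingle j t : Fin n → S) := by
      funext k
      show (Pi.mulSingle i t : Fin n → S) ((Equiv.swap i j).symm k) = _
      rw [Equiv.symm_swap]
      by_cases hk : k = j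
      · subst hk
        simp
      · rw [Pi.mulSingle_eq_of_ne hk]
        apply Pi.mulSingle_eq_of_ne
        intro h
        apply hk
        have := congrArg (Equiv.swap i j) h
        simpa using this
    rw [h3] at h2
    exact h2
  rw [eq_top_iff, ← Subgroup.pi_top Set.univ, Subgroup.pi_le_iff]
  rintro j _ ⟨t, _, rfl⟩
  exact step3 j t


/-- A non-trivial finite group G is characteristically simple (its only characteristic subgroups are 1 and G) if and only if G is isomorphic to a direct power S^n (n ≥ 1) of some simple group S (possibly cyclic of prime order). -/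
theorem result {G : Type*} [Group G] [Finite G] [Nontrivial G] :
    (∀ H : Subgroup G, H.Characteristic → H = ⊥ ∨ H = ⊤) ↔
    ∃ (S : Type) (_ : Group S) (_ : IsSimpleGroup S) (n : ℕ), 1 ≤ n ∧ Nonempty (G ≃* (Fin n → S)) := by
  classical
  constructor
  · intro h
    obtain ⟨T, m, hs, hm, ⟨e⟩⟩ := Cfsg.Agent.Lib.helper6_MinNormalPower.power_of_simple (G := G) ⊤ (by
      intro K hK
      apply h
      rw [Subgroup.characteristic_iff_map_le]
      rintro φ _ ⟨k, hk, rfl⟩
      exact hK φ (Subgroup.mem_top _) k hk)
    obtain ⟨T0, _, _, ⟨e0⟩⟩ := Cfsg.Agent.Lib.helper6_Transport.exists_type0_model T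
    exact ⟨T0, inferInstance, e0.isSimpleGroup, m, hm,
      ⟨e.trans (MulEquiv.arrowCongr (Equiv.refl _) e0.symm)⟩⟩
  · rintro ⟨S, _, _, n, hn, ⟨e⟩⟩ H hH
    by_cases hH1 : H = ⊥
    · left; exact hH1
    · right
      have h1 : H.map e.toMonoidHom = ⊤ := by
        apply char_simple_pi
        · rintro φ _ ⟨h, hh, rfl⟩
          refine ⟨((e.trans φ).trans e.symm) h, ?_, ?_⟩
          · have := (Subgroup.characteristic_iff_map_le.1 hH) ((e.trans φ).trans e.symm)
            exact this ⟨h, hh, rfl⟩
          · simp
        · intro h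
          apply hH1
          rwa [Subgroup.map_eq_bot_iff_of_injective _ e.injective] at h
      rw [eq_top_iff]
      intro x _
      have : e x ∈ H.map e.toMonoidHom := h1 ▸ Subgroup.mem_top _
      obtain ⟨y, hy, hyx⟩ := this
      have : y = x := e.injective hyx
      exact this ▸ hy

end Cfsg.Agent.S5914
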