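import Cfsg.Statements.S5946

set_option autoImplicit false
open Cfsg

namespace Cfsg.Agent.S5946



/-- Let F ⊆ K be finite fields with [K : F] = n ≥ 2 and regard K as an n-dimensional F-vector space. The Singer group M ≤ GL_F(K) of multiplications by the non-zero elements of K is self-centralizing: every F-linear automorphism of K commuting with all of M lies in M. -/
theorem result {F K : Type*} [Field F] [Fintype F] [Field K] [Fintype K] [Algebra F K] (n : ℕ) (hn : 2 ≤ n) (hdim : Module.finrank F K = n) :
    Subgroup.centralizer (((Units.map ((Algebra.lmul F K : K →ₐ[F] Module.End F K) : K →* Module.End F K)).range : Subgroup (Module.End F K)ˣ) : Set (Module.End F K)ˣ) = (Units.map ((Algebra.lmul F K : K →ₐ[F] Module.End F K) : K →* Module.End F K)).range := by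
  set φ : K →* Module.End F K := ((Algebra.lmul F K : K →ₐ[F] Module.End F K) : K →* Module.End F K)
    with hφ
  have hφa : ∀ a x : K, φ a x = a * x := fun a x => rfl
  apply le_antisymm
  · intro u hu
    rw [Subgroup.mem_centralizer_iff] at hu
    set c : K := (u : Module.End F K) 1 with hc
    have hc0 : c ≠ 0 := by
      intro h0
      have h1 : ((u⁻¹ : (Module.End F K)ˣ) : Module.End F K) ((u : Module.End F K) 1) = 1 := by
        rw [← Module.End.mul_apply, Units.inv_mul]; rfl
      rw [← hc, h0, map_zero] at h1
      exact zero_ne_one h1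
    refine ⟨Units.mk0 c hc0, ?_⟩
    apply Units.ext
    apply LinearMap.ext
    intro x
    rw [Units.coe_map]
    show φ c x = (u : Module.End F K) x
    rw [hφa]
    by_cases hx : x = 0
    · rw [hx, mul_zero, map_zero]
    · have h1 := hu (Units.map φ (Units.mk0 x hx)) ⟨_, rfl⟩
      have h2 := congrArg (fun w : (Module.End F K)ˣ => (w : Module.End F K) 1) h1
      simp only [Units.val_mul, Units.coe_map, Module.End.mul_apply] at h2
      have h3 : φ x ((u : Module.End F K) 1) = (u : Module.End F K) (φ x 1) := h2
      rw [hφa, hφa, mul_one, ← hc] at h3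
      rw [← h3, mul_comm]
  · rintro _ ⟨a, rfl⟩
    rw [Subgroup.mem_centralizer_iff]
    rintro _ ⟨b, rfl⟩
    rw [← map_mul, ← map_mul, mul_comm]

end Cfsg.Agent.S5946
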